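import Cfsg.Agent.H13.R3_1

/-! Double cosets, averaging, null polarities and spreads (S2194). -/

set_option autoImplicit false
set_option linter.unusedSectionVars false

open Module MulAction

namespace H13.R3

universe u

section dcos
variable {G : Type*} [Group G] [Finite G] {A B H : Subgroup G}

/-- same double coset -/
def DC (A B : Subgroup G) (g g' : G) : Prop := ∃ a ∈ A, ∃ b ∈ B, a * g * b = g'

theorem dc_iff {g g' : G} : (∃ j ∈ A, j • (g : G ⧸ B) = (g' : G ⧸ B)) ↔ DC A B g g' := by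
  constructor
  · rintro ⟨j, hj, e⟩
    rw [MulAction.Quotient.smul_coe, QuotientGroup.eq, smul_eq_mul] at e
    exact ⟨j, hj, _, e, by group⟩
  · rintro ⟨a, ha, b, hb, rfl⟩
    refine ⟨a, ha, ?_⟩
    rw [MulAction.Quotient.smul_coe, QuotientGroup.eq, smul_eq_mul]
    convert hb using 1; group

theorem DC.refl (g : G) : DC A B g g := ⟨1, A.one_mem, 1, B.one_mem, by group⟩
theorem DC.symm {g g' : G} (h : DC A B g g') : DC A B g' g := dc_iff.1 (osymm (dc_iff.2 h))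
theorem DC.trans {g g' g'' : G} (h : DC A B g g') (h' : DC A B g' g'') : DC A B g g'' :=
  dc_iff.1 (otrans (dc_iff.2 h) (dc_iff.2 h'))
theorem DC.inv {g g' : G} (h : DC A B g g') : DC B A g⁻¹ g'⁻¹ := by
  obtain ⟨a, ha, b, hb, rfl⟩ := h
  exact ⟨b⁻¹, B.inv_mem hb, a⁻¹, A.inv_mem ha, by group⟩
theorem dc_one {g : G} : DC H H 1 g ↔ g ∈ H :=
  ⟨by rintro ⟨a, ha, b, hb, rfl⟩; exact H.mul_mem (H.mul_mem ha H.one_mem) hb,
    fun h => ⟨g, h, 1, H.one_mem, by group⟩⟩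

theorem dc_eq_nos : dc A B = nos A (Set.univ : Set (G ⧸ B)) := nos_univ.symm

theorem le2_of_dc (h : dc A B ≤ 2) (a b c : G) : DC A B a b ∨ DC A B a c ∨ DC A B b c := by
  simpa only [dc_iff] using le2_of_nos (dc_eq_nos.ge.trans h) (a : G ⧸ B) b c trivial trivial trivial
theorem le3_of_dc (h : dc A B ≤ 3) (a b c d : G) : DC A B a b ∨ DC A B a c ∨ DC A B a d ∨
    DC A B b c ∨ DC A B b d ∨ DC A B c d := by
  simpa only [dc_iff] using
    le3_of_nos (dc_eq_nos.ge.trans h) (a : G ⧸ B) b c d trivial trivial trivial trivial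
theorem le1_of_dc (h : dc A B ≤ 1) (a b : G) : DC A B a b :=
  dc_iff.1 (tr_of_nos (dc_eq_nos.ge.trans h) trivial trivial)

theorem dc_two (h : dc H H ≤ 3) {a b : G} (ha : a ∉ H) (hb : b ∉ H) (hab : ¬ DC H H a b) (g : G) :
    g ∈ H ∨ DC H H a g ∨ DC H H b g := by
  rcases le3_of_dc h 1 a b g with h | h | h | h | h | h
  exacts [absurd (dc_one.1 h) ha, absurd (dc_one.1 h) hb, Or.inl (dc_one.1 h), absurd h hab,
    Or.inr (Or.inl h), Or.inr (Or.inr h)]

theorem diam (mx : IsCoatom H) (h : dc H H ≤ 3) {t : G} (ht : t ∉ H) (g : G) :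
    g ∈ H ∨ DC H H t g ∨ ∃ k ∈ H, DC H H (t * (k * t * k⁻¹)) g := by
  by_cases hk : ∃ k ∈ H, t * (k * t * k⁻¹) ∉ H ∧ ¬ DC H H t (t * (k * t * k⁻¹))
  · obtain ⟨k, hk, h1, h2⟩ := hk
    rcases dc_two h ht h1 h2 g with h | h | h
    exacts [Or.inl h, Or.inr (Or.inl h), Or.inr (Or.inr ⟨k, hk, h⟩)]
  · push Not at hk
    let M : Submonoid G :=
      { carrier := {g | g ∈ H ∨ DC H H t g}
        one_mem' := Or.inl H.one_mem
        mul_mem' := by
          rintro a b (ha | ⟨a1, h1, a2, h2, rfl⟩) (hb | ⟨b1, h3, b2, h4, rfl⟩)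
          · exact Or.inl (H.mul_mem ha hb)
          · exact Or.inr ⟨a * b1, H.mul_mem ha h3, b2, h4, by group⟩
          · exact Or.inr ⟨a1, h1, a2 * b, H.mul_mem h2 hb, by group⟩
          · have h5 := H.mul_mem h2 h3
            have e : a1 * t * a2 * (b1 * t * b2) =
                a1 * (t * (a2 * b1 * t * (a2 * b1)⁻¹)) * (a2 * b1 * b2) := by group
            by_cases h6 : t * (a2 * b1 * t * (a2 * b1)⁻¹) ∈ H
            · exact Or.inl (e ▸ H.mul_mem (H.mul_mem h1 h6) (H.mul_mem h5 h4))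
            · exact Or.inr ((hk _ h5 h6).trans ⟨a1, h1, _, H.mul_mem h5 h4, e.symm⟩) }
    let K : Subgroup G :=
      { M with
        inv_mem' := fun {a} ha => by
          have : a⁻¹ = a ^ (orderOf a - 1) := by
            rw [inv_eq_iff_mul_eq_one, ← pow_succ', Nat.sub_add_cancel (orderOf_pos a),
              pow_orderOf_eq_one]
          change a⁻¹ ∈ M
          rw [this]; exact M.pow_mem ha _ }
    have : K = ⊤ := mx.2 K (lt_of_le_of_ne (fun a ha => Or.inl ha) fun e =>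
      ht (e ▸ (Or.inr (DC.refl t) : t ∈ K)))
    have hg : g ∈ K := this ▸ Subgroup.mem_top g
    exact hg.imp_right Or.inl

variable {X : Type*} [MulAction G X] [Finite X]

theorem avg {S T : Set X} (hT : T ⊆ S) (h1 : ∀ g : G, ∀ a ∈ S, g • a ∈ S)
    (h2 : ∀ a ∈ S, ∀ b ∈ S, ∃ g : G, g • a = b) {β : ℕ}
    (h : ∀ g : G, β ≤ {b | b ∈ T ∧ g • b ∈ T}.ncard) : β * S.ncard ≤ T.ncard ^ 2 := by
  rcases S.eq_empty_or_nonempty with rfl | hS
  · simp
  have hpos : 0 < S.ncard := (Set.ncard_pos (Set.toFinite _)).2 hS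
  have key : ∀ a ∈ S, ∀ b ∈ S, {g : G | g • a = b}.ncard * S.ncard = Nat.card G := by
    intro a ha b hb
    obtain ⟨k, rfl⟩ := h2 a ha b hb
    have e : {g : G | g • a = k • a} = (fun g => k * g) '' (stabilizer G a : Set G) := by
      ext g; constructor
      · intro hg
        exact ⟨k⁻¹ * g, by
          rw [SetLike.mem_coe, mem_stabilizer_iff, mul_smul, hg, inv_smul_smul], by group⟩
      · rintro ⟨g, hg, rfl⟩
        change (k * g) • a = _
        rw [mul_smul, mem_stabilizer_iff.1 hg]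
    have e2 : S = orbit G a := Set.ext fun b => ⟨fun hb => h2 a ha b hb, by
      rintro ⟨g, rfl⟩; exact h1 g a ha⟩
    rw [e, Set.ncard_image_of_injective _ (mul_right_injective k), e2, ← index_stabilizer]
    exact (stabilizer G a).card_mul_index
  have hd := dcount_le (Set.univ : Set G) (T ×ˢ T) (fun g b => g • b.1 = b.2) (m := β)
    (n := Nat.card G / S.ncard) (fun g _ => (h g).trans (Set.ncard_le_ncard_of_injOn
      (fun b => (b, g • b)) (fun b hb => ⟨hb, rfl⟩) fun a _ b _ e => (Prod.ext_iff.1 e).1))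
    (fun b hb => by
      rw [← key b.1 (hT hb.1) b.2 (hT hb.2), Nat.mul_div_cancel _ hpos]
      simp)
  obtain ⟨a, ha⟩ := hS
  have hk := key a ha a ha
  rw [Set.ncard_univ, Set.ncard_prod, ← hk, Nat.mul_div_cancel _ hpos] at hd
  have hp : 0 < {g : G | g • a = a}.ncard :=
    (Set.ncard_pos (Set.toFinite _)).2 ⟨1, one_smul _ _⟩
  refine Nat.le_of_mul_le_mul_left ?_ hp
  nlinarith

theorem DC.ncard {T : Set X} (hT : ∀ h ∈ H, ∀ a ∈ T, h • a ∈ T) {g g' : G} (h : DC H H g g') :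
    {b | b ∈ T ∧ g • b ∈ T}.ncard = {b | b ∈ T ∧ g' • b ∈ T}.ncard := by
  have : ∀ {g g' : G}, DC H H g g' →
      {b | b ∈ T ∧ g • b ∈ T}.ncard ≤ {b | b ∈ T ∧ g' • b ∈ T}.ncard := by
    rintro g _ ⟨a, ha, c, hc, rfl⟩
    refine Set.ncard_le_ncard_of_injOn (fun b => c⁻¹ • b) (fun b hb => ⟨hT _ (H.inv_mem hc) _ hb.1, ?_⟩)
      (MulAction.injective _).injOn
    rw [mul_smul, mul_smul, smul_inv_smul]; exact hT _ ha _ hb.2
  exact le_antisymm (this h) (this h.symm)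

end dcos

section geo
variable {F : Type u} [Field F] [Fintype F] {V : Type u} [AddCommGroup V] [Module F V] [Finite V]
  {G : Type u} [Group G] [Finite G] [DistribMulAction G V] [SMulCommClass G F V] {H : Subgroup G}

/-- averaging with products of two transvections -/
theorem avg2 (hy : Hy F V H) {X : Type*} [MulAction G X] [Finite X] {S T : Set X} (hT : T ⊆ S)
    (h1 : ∀ g : G, ∀ a ∈ S, g • a ∈ S) (h2 : ∀ a ∈ S, ∀ b ∈ S, ∃ g : G, g • a = b)
    (h3 : ∀ h ∈ H, ∀ a ∈ T, h • a ∈ T) {β : ℕ}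
    (h : ∀ t t' : G, IsTv F V t → IsTv F V t' → ∃ C ⊆ T, β ≤ C.ncard ∧ (∀ a ∈ C, t • a ∈ C) ∧
      ∀ a ∈ C, t' • a ∈ C) : β * S.ncard ≤ T.ncard ^ 2 := by
  obtain ⟨t, ht, htH⟩ := hy.nt
  refine avg hT h1 h2 fun g => ?_
  rcases diam hy.mx hy.r3.le htH g with hg | hg | ⟨k, hk, hg⟩
  · obtain ⟨C, hC, hβ, -⟩ := h t t ht ht
    exact hβ.trans (Set.ncard_le_ncard fun a ha => ⟨hC ha, h3 g hg a (hC ha)⟩)
  · obtain ⟨C, hC, hβ, h4, -⟩ := h t t ht ht
    rw [← hg.ncard h3]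
    exact hβ.trans (Set.ncard_le_ncard fun a ha => ⟨hC ha, hC (h4 a ha)⟩)
  · obtain ⟨C, hC, hβ, h4, h5⟩ := h t _ ht (ht.conj k)
    rw [← hg.ncard h3]
    exact hβ.trans (Set.ncard_le_ncard fun a ha => ⟨hC ha, hC (by
      rw [mul_smul]; exact h4 _ (h5 a ha))⟩)

theorem ex_ker {U : Submodule F V} (h : finrank F U + 1 = finrank F V) :
    ∃ f : Dual F V, f ≠ 0 ∧ LinearMap.ker f = U := by
  obtain ⟨z, hz⟩ := ex_notMem' (A := U) (by omega)
  obtain ⟨f, h1, h2⟩ := ex_dual hz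
  have hf : f ≠ 0 := fun e => by simp [e] at h1
  refine ⟨f, hf, (Submodule.eq_of_le_of_finrank_eq (fun u hu => h2 u hu) ?_).symm⟩
  have := finrank_ker hf; omega

theorem ker_eq {f g : Dual F V} (hf : f ≠ 0) (h : LinearMap.ker f ≤ LinearMap.ker g) :
    g ∈ F ∙ f := by
  obtain ⟨z, hz⟩ : ∃ z, f z = 1 := LinearMap.surjective_iff_ne_zero.2 hf 1
  refine Submodule.mem_span_singleton.2 ⟨g z, LinearMap.ext fun u => ?_⟩
  have : u - f u • z ∈ LinearMap.ker g := h (by simp [hz])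
  rw [LinearMap.mem_ker, map_sub, map_smul, sub_eq_zero] at this
  simp [this, mul_comm]

theorem finrank_inf_ge (A B : Submodule F V) :
    finrank F A + finrank F B ≤ finrank F (A ⊓ B : Submodule F V) + finrank F V := by
  have := Submodule.finrank_sup_add_finrank_inf_eq A B
  have := Submodule.finrank_le (A ⊔ B)
  omega

section pol
variable {R : V → Submodule F V} (hs : ∀ v, v ≠ 0 → v ∈ R v)
  (hd : ∀ v, v ≠ 0 → finrank F (R v) + 1 = finrank F V)
  (hy : ∀ v w, v ≠ 0 → w ≠ 0 → w ∈ R v → v ∈ R w)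
include hd hy

theorem pol_inj {x y : V} (hx : x ≠ 0) (hy0 : y ≠ 0) (e : R x = R y) : y ∈ F ∙ x := by
  by_contra hn
  have hi : Ind F x y := ⟨hx, hn⟩
  obtain ⟨w, hw⟩ := ex_notMem' (A := R x) (by have := hd x hx; omega)
  have hw0 : w ≠ 0 := fun e => hw (e ▸ (R x).zero_mem)
  obtain ⟨u, ⟨h1, h2⟩, hu⟩ := ex_notMem (A := (⊥ : Submodule F V)) (B := ln F x y ⊓ R w) (by
    have := finrank_inf_ge (ln F x y) (R w)
    have := hd w hw0
    rw [finrank_bot]; have := hi.finrank; omega)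
  have hu : u ≠ 0 := by simpa using hu
  have : R x ≤ R u := fun a ha => by
    by_cases ha0 : a = 0
    · rw [ha0]; exact (R u).zero_mem
    · exact hy a u ha0 hu (ln_le.2 ⟨hy x a hx ha0 ha, hy y a hy0 ha0 (e ▸ ha)⟩ h1)
  have e2 := Submodule.eq_of_le_of_finrank_eq this (by have := hd x hx; have := hd u hu; omega)
  exact hw (e2 ▸ hy w u hw0 hu h2)

include hs in
/-- no null polarity in dimension five -/
theorem par5 (h5 : finrank F V = 5) : False := by
  obtain ⟨x, hx⟩ := ex_notMem' (A := (⊥ : Submodule F V)) (by rw [finrank_bot]; omega)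
  have hx : x ≠ 0 := by simpa using hx
  obtain ⟨y, h1, hy1⟩ := ex_notMem (A := F ∙ x) (B := R x) (by
    rw [finrank_span_singleton hx]; have := hd x hx; omega)
  have hi : Ind F x y := ⟨hx, hy1⟩
  obtain ⟨z, ⟨h2, h3⟩, hz⟩ := ex_notMem (A := ln F x y) (B := R x ⊓ R y) (by
    have := finrank_inf_ge (R x) (R y)
    have := hd x hx; have := hd y hi.ne0
    rw [hi.finrank]; omega)
  have hi3 : Ind3 F x y z := ⟨hi, hz⟩
  have hz0 : z ≠ 0 := fun e => hz (e ▸ Submodule.zero_mem _)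
  have hE : ∀ u ∈ pl F x y z, u ≠ 0 → pl F x y z ≤ R u := fun u hu h0 => pl_le.2
    ⟨hy x u hx h0 (pl_le.2 ⟨hs x hx, h1, h2⟩ hu),
      hy y u hi.ne0 h0 (pl_le.2 ⟨hy x y hx hi.ne0 h1, hs y hi.ne0, h3⟩ hu),
      hy z u hz0 h0 (pl_le.2 ⟨hy x z hx hz0 h2, hy y z hi.ne0 hz0 h3, hs z hz0⟩ hu)⟩
  have := dcount_le {u | u ∈ pl F x y z ∧ u ≠ 0}
    {f : Dual F V | f ∈ (pl F x y z).dualAnnihilator ∧ f ≠ 0} (fun u f => LinearMap.ker f = R u)
    (m := 1) (n := Fintype.card F - 1) (fun u hu => by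
      obtain ⟨f, hf, e⟩ := ex_ker (hd u hu.2)
      refine (Set.ncard_pos (Set.toFinite _)).2 ⟨f, ⟨?_, hf⟩, e⟩
      exact (Submodule.mem_dualAnnihilator _).2 fun a ha => by
        have := hE u hu.1 hu.2 ha
        rwa [← e] at this) (fun f hf => by
      rcases Set.eq_empty_or_nonempty {u | u ∈ {u | u ∈ pl F x y z ∧ u ≠ 0} ∧
        LinearMap.ker f = R u} with h | ⟨u, hu⟩
      · rw [h]; simp
      · have := ncard_ne0 (F ∙ u)
        rw [finrank_span_singleton hu.1.2, pow_one] at this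
        rw [← this]
        exact Set.ncard_le_ncard fun a ha =>
          ⟨pol_inj hd hy hu.1.2 ha.1.2 (hu.2.symm.trans ha.2), ha.1.2⟩)
  have h3 := finrank_ann (pl F x y z)
  rw [hi3.finrank, h5] at h3
  rw [ncard_ne0, ncard_ne0, hi3.finrank, show finrank F (pl F x y z).dualAnnihilator = 2 by omega]
    at this
  obtain ⟨k, hk⟩ := Nat.exists_eq_add_of_le (q2 F)
  rw [hk] at this
  have e1 : (2 + k) ^ 3 - 1 = k ^ 3 + 6 * k ^ 2 + 12 * k + 7 := Nat.sub_eq_of_eq_add (by ring)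
  have e2 : (2 + k) ^ 2 - 1 = k ^ 2 + 4 * k + 3 := Nat.sub_eq_of_eq_add (by ring)
  rw [e1, e2, show 2 + k - 1 = k + 1 by omega] at this
  nlinarith

end pol

theorem SLe.flag (sl : SLe F V G) (hd : 2 < finrank F V) {v v' : V} {f f' : Dual F V} (hv : v ≠ 0)
    (hv' : v' ≠ 0) (hf : f ≠ 0) (hf' : f' ≠ 0) (h : f v = 0) (h' : f' v' = 0) :
    ∃ g : G, g • v = v' ∧ g • f = f' := by
  have key : ∀ {v : V} {f f' : Dual F V}, v ≠ 0 → f v = 0 → f' v = 0 → Ind F f f' →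
      ∃ g : G, g • v = v ∧ g • f = f' := by
    intro v f f' hv h h' hi
    -- a vector `w` with `f w = 1`, `f' w = 1`
    obtain ⟨w, h1, h2⟩ : ∃ w, f w = 1 ∧ f' w = 1 := by
      have := card_dual2 hi 1 1
      have hp : {φ : Dual F (Dual F V) | φ f = 1 ∧ φ f' = 1}.Nonempty := by
        rw [← Set.ncard_pos]
        by_contra h0
        rw [show {φ : Dual F (Dual F V) | φ f = 1 ∧ φ f' = 1}.ncard = 0 by omega, zero_mul] at this
        exact pow_ne_zero _ (by have := q2 F; omega) this.symm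
      obtain ⟨φ, h1, h2⟩ := hp
      obtain ⟨w, rfl⟩ := (Module.evalEquiv F V).surjective φ
      exact ⟨w, h1, h2⟩
    obtain ⟨g, hg⟩ := sl.tv0 (f := f - f') (v := w) (by simp [h1, h2])
    refine ⟨g, by simp [hg, h, h'], ?_⟩
    rw [smul_eq_iff_eq_inv_smul]; ext u
    simp [hg, h2]
  obtain ⟨g, rfl⟩ := sl.w1 (by omega) hv hv'
  have h1 : (g • f) (g • v) = 0 := by rw [dsmul_smul, h]
  have h2 : g • f ≠ 0 := fun e => hf (gsz.1 e)
  by_cases hi : f' ∈ F ∙ (g • f)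
  · obtain ⟨a, ha, ha'⟩ := ex_notMem (A := F ∙ f') (B := (F ∙ (g • v)).dualAnnihilator) (by
      have := finrank_ann (F ∙ (g • v))
      rw [finrank_span_singleton hv'] at this
      rw [finrank_span_singleton hf']; omega)
    have ha0 : a (g • v) = 0 := not_not.1 fun e => notMem_ann_sp.2 e ha
    obtain ⟨k, k1, k2⟩ := key hv' h1 ha0 ⟨h2, by rwa [← sp_eq hf' hi]⟩
    obtain ⟨l, l1, l2⟩ := key hv' h' ha0 ⟨hf', ha'⟩
    exact ⟨l⁻¹ * k * g, by rw [mul_smul, mul_smul, k1, inv_smul_eq_iff, l1],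
      by rw [mul_smul, mul_smul, k2, inv_smul_eq_iff, l2]⟩
  · obtain ⟨k, k1, k2⟩ := key hv' h1 h' ⟨h2, hi⟩
    exact ⟨k * g, by rw [mul_smul, k1], by rw [mul_smul, k2]⟩

theorem Rel.iff {J : Subgroup G} {R : V → Submodule F V} {d : ℕ} (h : Rel J R d) {j : G}
    (hj : j ∈ J) {v w : V} (hv : v ≠ 0) : j • w ∈ R (j • v) ↔ w ∈ R v :=
  ⟨fun e => by simpa using h.eqv j⁻¹ (J.inv_mem hj) _ _ (fun e => hv (gsz.1 e)) e,
    h.eqv j hj v w hv⟩

theorem ncard_kerf {U : Submodule F V} (h : finrank F U + 1 = finrank F V) :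
    {f : Dual F V | f ≠ 0 ∧ LinearMap.ker f = U}.ncard = Fintype.card F - 1 := by
  obtain ⟨f, hf, rfl⟩ := ex_ker h
  have := ncard_ne0 (F ∙ f)
  rw [finrank_span_singleton hf, pow_one] at this
  rw [← this]; congr 1; ext g; constructor
  · rintro ⟨h1, h2⟩; exact ⟨ker_eq hf h2.ge, h1⟩
  · rintro ⟨h1, h2⟩
    obtain ⟨c, rfl⟩ := Submodule.mem_span_singleton.1 h1
    exact ⟨h2, LinearMap.ker_smul _ _ fun e => h2 (by rw [e, zero_smul])⟩

theorem np : NP.{u} := by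
  intro F V G _ _ _ _ _ _ _ _ _ H R d hy hR hd
  have hd' : ∀ v, v ≠ 0 → finrank F (R v) + 1 = finrank F V := fun v hv => by rw [hR.dim v hv, hd]
  rcases hy.n5.eq_or_lt with h5 | h6
  · exact par5 hR.self hd' hR.symm h5.symm
  have := avg2 hy (X := V × Dual F V) (S := {a | a.1 ≠ 0 ∧ a.2 ≠ 0 ∧ a.2 a.1 = 0})
    (T := {a | a.1 ≠ 0 ∧ a.2 ≠ 0 ∧ LinearMap.ker a.2 = R a.1})
    (β := (Fintype.card F ^ 2 - 1) * (Fintype.card F - 1))
    (fun a ha => ⟨ha.1, ha.2.1, by rw [← LinearMap.mem_ker, ha.2.2]; exact hR.self _ ha.1⟩)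
    (fun g a ha => ⟨fun e => ha.1 (gsz.1 e), fun e => ha.2.1 (gsz.1 e),
      (dsmul_smul g a.2 a.1).trans ha.2.2⟩)
    (fun a ha b hb => (hy.sl.flag (by omega) ha.1 hb.1 ha.2.1 hb.2.1 ha.2.2 hb.2.2).imp
      fun g hg => Prod.ext hg.1 hg.2)
    (fun h hh a ha => ⟨fun e => ha.1 (gsz.1 e), fun e => ha.2.1 (gsz.1 e), by
      ext u
      rw [LinearMap.mem_ker, Prod.smul_snd, Prod.smul_fst, dsmul_apply, ← LinearMap.mem_ker, ha.2.2,
        ← hR.iff hh ha.1, smul_inv_smul]⟩)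
    (by
      rintro t t' ⟨y, f, ht⟩ ⟨y', f', ht'⟩
      let Z := (LinearMap.ker f ⊓ LinearMap.ker f') ⊓ (R y ⊓ R y')
      have hZ : 2 ≤ finrank F Z := by
        have := finrank_inf_ge (LinearMap.ker f) (LinearMap.ker f')
        have := finrank_inf_ge (R y) (R y')
        have := finrank_inf_ge (LinearMap.ker f ⊓ LinearMap.ker f') (R y ⊓ R y')
        have := finrank_ker ht.2.1; have := finrank_ker ht'.2.1
        have := hd' y ht.1; have := hd' y' ht'.1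
        simp only [Z]; omega
      have fx : ∀ {t : G} {y : V} {f : Dual F V}, Tv t y f → ∀ a : V × Dual F V, a.1 ≠ 0 →
          LinearMap.ker a.2 = R a.1 → a.1 ∈ LinearMap.ker f → a.1 ∈ R y → t • a = a := by
        intro t y f ht a h1 h2 h3 h4
        have h5 : a.2 y = 0 := by rw [← LinearMap.mem_ker, h2]; exact hR.symm _ _ ht.1 h1 h4
        refine Prod.ext (by rw [Prod.smul_fst, ht.2.2.2, LinearMap.mem_ker.1 h3]; simp) ?_
        rw [Prod.smul_snd, smul_eq_iff_eq_inv_smul]; ext u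
        simp [ht.2.2.2, h5]
      refine ⟨{a | a.1 ∈ Z ∧ a.1 ≠ 0 ∧ a.2 ≠ 0 ∧ LinearMap.ker a.2 = R a.1}, fun a ha => ha.2, ?_,
        fun a ha => ?_, fun a ha => ?_⟩
      · refine le_trans ?_ (le_ncard_pairs _ {u | u ∈ Z ∧ u ≠ 0} (m := Fintype.card F - 1)
          fun u hu => ?_)
        · rw [ncard_ne0]
          exact Nat.mul_le_mul_right _ (Nat.sub_le_sub_right
            (Nat.pow_le_pow_right Fintype.card_pos hZ) _)
        · rw [← ncard_kerf (hd' u hu.2)]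
          exact Set.ncard_le_ncard fun f hf => ⟨hu.1, hu.2, hf⟩
      · rwa [fx ht a ha.2.1 ha.2.2.2 ha.1.1.1 ha.1.2.1]
      · rwa [fx ht' a ha.2.1 ha.2.2.2 ha.1.1.2 ha.1.2.2])
  rw [ncard_pairs _ {u | u ≠ 0} (m := Fintype.card F ^ d - 1) (fun a ha => ha.1) (fun u hu => by
      have h1 := finrank_ann (F ∙ u)
      rw [finrank_span_singleton hu] at h1
      rw [← show finrank F (F ∙ u).dualAnnihilator = d by omega, ← ncard_ne0]
      congr 1; ext f
      exact ⟨fun h => ⟨not_not.1 fun e => notMem_ann_sp.1 e h.2.2, h.2.1⟩,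
        fun h => ⟨hu, h.2, not_not.1 fun e => notMem_ann_sp.2 e h.1⟩⟩),
    ncard_pairs _ {u | u ≠ 0} (m := Fintype.card F - 1) (fun a ha => ha.1) (fun u hu => by
      rw [← ncard_kerf (hd' u hu)]; congr 1; ext f; exact ⟨fun h => h.2, fun h => ⟨hu, h⟩⟩),
    ncard_ne0' (F := F), ← hd, pow_succ (Fintype.card F) d] at this
  have hq := q2 F
  have h2 : Fintype.card F ^ 2 ≤ Fintype.card F ^ d :=
    Nat.pow_le_pow_right Fintype.card_pos (by omega)
  generalize Fintype.card F ^ d = Q at this h2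
  generalize Fintype.card F = q at this h2 hq
  have h3 : 1 ≤ Q * q := by nlinarith
  have h4 : 1 ≤ q ^ 2 := by nlinarith
  have h5 : 1 ≤ Q := by omega
  have h6 : 1 ≤ q := by omega
  zify [h3, h4, h5, h6] at this
  have a1 : (0 : ℤ) < (Q * q - 1) * (q - 1) ^ 2 := by
    have : (1 : ℤ) < Q * q := by nlinarith
    have : (1 : ℤ) < q := by omega
    positivity
  have a2 : (Q : ℤ) * q - 1 < (q + 1) * (Q - 1) := by nlinarith
  nlinarith

theorem ncard_off {A : Submodule F V} {x : V} (hx : x ≠ 0) (h : x ∈ A) :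
    {u | u ∈ A ∧ u ∉ F ∙ x}.ncard = Fintype.card F ^ finrank F A - Fintype.card F := by
  rw [ncard_diff ((Submodule.span_singleton_le_iff_mem _ _).2 h), finrank_span_singleton hx, pow_one]

theorem ncard_frames (A : Submodule F V) :
    {a : V × V | Ind F a.1 a.2 ∧ a.1 ∈ A ∧ a.2 ∈ A}.ncard =
      (Fintype.card F ^ finrank F A - 1) * (Fintype.card F ^ finrank F A - Fintype.card F) := by
  rw [ncard_pairs _ {u | u ∈ A ∧ u ≠ 0} (fun a ha => ⟨ha.2.1, ha.1.1⟩) (fun u hu => ?_), ncard_ne0]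
  rw [← ncard_off hu.2 hu.1]; congr 1; ext b
  exact ⟨fun h => ⟨h.2.2, h.1.2⟩, fun h => ⟨⟨hu.2, h.2⟩, hu.1, h.1⟩⟩

theorem ncard_frames' : {a : V × V | Ind F a.1 a.2}.ncard =
    (Fintype.card F ^ finrank F V - 1) * (Fintype.card F ^ finrank F V - Fintype.card F) := by
  have := ncard_frames (⊤ : Submodule F V)
  rw [finrank_top] at this
  rw [← this]; congr 1; ext; simp

theorem ex_ne0 {A : Submodule F V} (h : 0 < finrank F A) : ∃ u ∈ A, u ≠ 0 := by
  obtain ⟨u, h1, h2⟩ := ex_notMem (A := (⊥ : Submodule F V)) (B := A) (by rwa [finrank_bot])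
  exact ⟨u, h1, by simpa using h2⟩

theorem spr : SPR.{u} := by
  intro F V G _ _ _ _ _ _ _ _ _ H R d hy nt hR h2 hd sp
  have n5 := hy.n5
  obtain ⟨x, -, hx⟩ := ex_ne0 (A := (⊤ : Submodule F V)) (by rw [finrank_top]; omega)
  obtain ⟨z, hz⟩ := ex_notMem' (A := R x) (by rw [hR.dim x hx]; exact hd)
  have hz0 : z ≠ 0 := fun e => hz (e ▸ Submodule.zero_mem _)
  obtain ⟨f, f1, f2⟩ := ex_dual hz
  have hf : f ≠ 0 := fun e => by simp [e] at f1
  have hk := finrank_ker hf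
  obtain ⟨y, ⟨y1, y2⟩, hy0⟩ := ex_ne0 (A := R z ⊓ LinearMap.ker f) (by
    have := finrank_inf_ge (R z) (LinearMap.ker f)
    have := hR.dim z hz0; omega)
  obtain ⟨s, hs⟩ := hy.sl.tv hx hf (f2 x (hR.self x hx))
  obtain ⟨t, ht⟩ := hy.sl.tv hy0 hf y2
  set T := {a : V × V | Ind F a.1 a.2 ∧ a.2 ∈ R a.1}
  have hT : ∀ h ∈ H, ∀ a ∈ T, h • a ∈ T := fun h hh a ha =>
    ⟨ha.1.smul h, hR.eqv h hh _ _ ha.1.1 ha.2⟩
  have fx : ∀ {t : G} {y : V}, Tv t y f → ∀ a : V × V, f a.1 = 0 → f a.2 = 0 → t • a = a :=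
    fun ht a h1 h2 => Prod.ext (by simp [ht.2.2.2, h1]) (by simp [ht.2.2.2, h2])
  have hA : ∀ a ∈ T, s • a ∈ T → f a.1 = 0 ∧ f a.2 = 0 := by
    rintro ⟨a, b⟩ ⟨h1, h3⟩ ⟨h4, h5⟩
    obtain ⟨u, ⟨u1, u2⟩, u0⟩ := ex_ne0 (A := ln F a b ⊓ LinearMap.ker f) (by
      have := finrank_inf_ge (ln F a b) (LinearMap.ker f)
      have := h1.finrank; dsimp only at this; omega)
    have e1 := sp a u h1.1 u0 (ln_le.2 ⟨hR.self a h1.1, h3⟩ u1)
    have u3 := smul_mem_ln s u1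
    rw [hs.2.2.2 u, LinearMap.mem_ker.1 u2, zero_smul, add_zero] at u3
    have e2 := sp (s • a) u h4.1 u0 (ln_le.2 ⟨hR.self _ h4.1, h5⟩ u3)
    have key : ∀ c ∈ R a, s • c ∈ R a → f c = 0 := fun c hc hc' => by
      by_contra h0
      rw [hs.2.2.2, (R a).add_mem_iff_right hc, (R a).smul_mem_iff h0] at hc'
      exact h0 (f2 c (sp a x h1.1 hx hc' ▸ hc))
    exact ⟨key a (hR.self a h1.1) (by rw [← e1, e2]; exact hR.self _ h4.1),
      key b h3 (by rw [← e1, e2]; exact h5)⟩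
  have hst : ¬ DC H H s t := fun h => by
    have e := h.ncard hT
    refine absurd e (ne_of_lt (Set.ncard_lt_ncard ⟨fun a ha => ⟨ha.1, ?_⟩, fun h => ?_⟩))
    · rw [fx ht a (hA a ha.1 ha.2).1 (hA a ha.1 ha.2).2]; exact ha.1
    · have hi : Ind F z y := ⟨hz0, fun e => by
        obtain ⟨c, rfl⟩ := Submodule.mem_span_singleton.1 e
        have y3 : f (c • z) = 0 := y2
        rw [map_smul, f1, smul_eq_mul, mul_one] at y3
        exact hy0 (by rw [y3, zero_smul])⟩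
      have := h (a := (z, y)) ⟨⟨hi, y1⟩, hi.smul t, by
        have e1 : t • z ∈ R z := by
          rw [ht.2.2.2]; exact (R z).add_mem (hR.self z hz0) ((R z).smul_mem _ y1)
        change t • y ∈ R (t • z)
        rw [sp z _ hz0 (hi.smul t).1 e1, ht.2.2.2]
        exact (R z).add_mem y1 ((R z).smul_mem _ y1)⟩
      exact one_ne_zero (f1.symm.trans (hA _ this.1 this.2).1)
  have hC : ∀ a : V × V, Ind F a.1 a.2 ∧ a.1 ∈ R x ∧ a.2 ∈ R x → a ∈ T := fun a ha =>
    ⟨ha.1, by rw [sp x _ hx ha.1.1 ha.2.1]; exact ha.2.2⟩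
  have := avg (G := G) (S := {a : V × V | Ind F a.1 a.2}) (T := T) (fun a ha => ha.1)
    (fun g a ha => ha.smul g) (fun a ha b hb => (hy.sl.w2 (by omega) ha hb).imp
      fun g hg => Prod.ext hg.1 hg.2)
    (β := {a : V × V | Ind F a.1 a.2 ∧ a.1 ∈ R x ∧ a.2 ∈ R x}.ncard) (fun g => by
      rcases dc_two hy.r3.le (fun h => nt s h ⟨_, _, hs⟩) (fun h => nt t h ⟨_, _, ht⟩) hst g with
        h | h | h
      · exact Set.ncard_le_ncard fun a ha => ⟨hC a ha, hT g h a (hC a ha)⟩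
      · rw [← h.ncard hT]
        exact Set.ncard_le_ncard fun a ha => ⟨hC a ha, by
          rw [fx hs a (f2 _ ha.2.1) (f2 _ ha.2.2)]; exact hC a ha⟩
      · rw [← h.ncard hT]
        exact Set.ncard_le_ncard fun a ha => ⟨hC a ha, by
          rw [fx ht a (f2 _ ha.2.1) (f2 _ ha.2.2)]; exact hC a ha⟩)
  rw [ncard_frames, ncard_frames', hR.dim x hx, ncard_pairs T {u | u ≠ 0}
    (m := Fintype.card F ^ d - Fintype.card F) (fun a ha => ha.1.1) (fun u hu => by
      rw [← hR.dim u hu, ← ncard_off hu (hR.self u hu)]; congr 1; ext b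
      exact ⟨fun h => ⟨h.2, h.1.2⟩, fun h => ⟨⟨hu, h.2⟩, h.1⟩⟩), ncard_ne0' (F := F)] at this
  have hq := q2 F
  have h3 : Fintype.card F ^ 1 < Fintype.card F ^ d := Nat.pow_lt_pow_right hq (by omega)
  have h4 : Fintype.card F ^ d < Fintype.card F ^ finrank F V := Nat.pow_lt_pow_right hq hd
  rw [pow_one] at h3
  generalize Fintype.card F ^ d = D at this h3 h4
  generalize Fintype.card F ^ finrank F V = N at this h4
  generalize Fintype.card F = q at this h3 hq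
  zify [show 1 ≤ D by omega, show q ≤ D by omega, show 1 ≤ N by omega, show q ≤ N by omega] at this
  have a1 : (0 : ℤ) < (D - q) * (N - 1) := mul_pos (by omega) (by omega)
  have a2 : (0 : ℤ) < (q - 1) * (N - D) := mul_pos (by omega) (by omega)
  nlinarith [mul_pos a1 a2]

end geo

end H13.R3
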