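import Mathlib
import Cfsg.Agent.H17.PrimeDeg

/-! Atkinson's theorem on degree `p² + 1`, part 1: an automorphism of order `p` of a doubly
transitive group of prime degree `p` centralising a Sylow normaliser is trivial. -/

set_option autoImplicit false

namespace H13.At

open MulAction

theorem const_of_sum {p : ℕ} [hp : Fact p.Prime] {ζ : ℂ} (hζ : IsPrimitiveRoot ζ p)
    (f : ZMod p → ℤ) (h : ∑ s, (f s : ℂ) * AddChar.zmodChar p hζ.pow_eq_one s = 0) (s t : ZMod p) :
    f s = f t := by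
  obtain ⟨n, rfl⟩ : ∃ n, p = n + 1 := ⟨p - 1, by have := hp.out.pos; omega⟩
  exact (hζ.sum_eq_zero_iff_forall_eq_int hp.out f).1 h s t

theorem four {p : ℕ} [hp : Fact p.Prime] {ζ : ℂ} (hζ : IsPrimitiveRoot ζ p) (D : ZMod p → ℤ)
    {a : ZMod p} (ha : a ≠ 1) (hD : ∀ s, D (a * s) = D s) (c : ℂ)
    (hc : ∀ j : ZMod p, j ≠ 0 →
      (∑ s, (D s : ℂ) * AddChar.zmodChar p hζ.pow_eq_one (j * s)) ^ p = c)
    (s : ZMod p) (hs : s ≠ 0) : D s = D 1 := by
  set ψ := AddChar.zmodChar p hζ.pow_eq_one with hψ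
  have h1 := hc 1 one_ne_zero
  simp only [one_mul] at h1
  by_cases h0 : ∑ s, (D s : ℂ) * ψ s = 0
  · exact const_of_sum hζ D h0 _ _
  have hj := hc s⁻¹ (inv_ne_zero hs)
  have hq : ((∑ t, (D t : ℂ) * ψ (s⁻¹ * t)) / ∑ t, (D t : ℂ) * ψ t) ^ p = 1 := by
    rw [div_pow, hj, h1, div_self]
    rw [← h1]; exact pow_ne_zero _ h0
  haveI : NeZero p := ⟨hp.out.ne_zero⟩
  obtain ⟨m, -, hm⟩ := hζ.eq_pow_of_pow_eq_one hq
  have hm' : ψ (m : ZMod p) = ζ ^ m := by rw [hψ, AddChar.zmodChar_apply']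
  have e1 : ∑ t, (D t : ℂ) * ψ (s⁻¹ * t) = ∑ x, (D (s * x) : ℂ) * ψ x := by
    refine (Fintype.sum_equiv (Equiv.mulLeft₀ s hs) _ _ fun x => ?_).symm
    simp [inv_mul_cancel_left₀ hs]
  have e2 : ζ ^ m * ∑ t, (D t : ℂ) * ψ t = ∑ x, (D (x - m) : ℂ) * ψ x := by
    rw [Finset.mul_sum]
    refine Fintype.sum_equiv (Equiv.addRight (m : ZMod p)) _ _ fun x => ?_
    simp only [Equiv.coe_addRight, add_sub_cancel_right, AddChar.map_add_eq_mul, hm']
    ring
  have e3 : ∑ x, ((D (s * x) - D (x - m) : ℤ) : ℂ) * ψ x = 0 := by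
    simp only [Int.cast_sub, sub_mul, Finset.sum_sub_distrib]
    rw [← e1, ← e2, hm, div_mul_cancel₀ _ h0, sub_self]
  have e4 := const_of_sum hζ _ e3
  have e5 : ∑ x, (D (s * x) - D (x - m)) = 0 := by
    rw [Finset.sum_sub_distrib, sub_eq_zero]
    rw [Fintype.sum_equiv (Equiv.mulLeft₀ s hs) (fun x => D (s * x)) D fun x => rfl,
      Fintype.sum_equiv (Equiv.subRight (m : ZMod p)) (fun x => D (x - m)) D fun x => rfl]
  have e6 : ∀ x, D (s * x) = D (x - m) := fun x => by
    rw [Finset.sum_congr rfl fun y _ => e4 y x, Finset.sum_const, Finset.card_univ, ZMod.card,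
      nsmul_eq_mul, mul_eq_zero] at e5
    rcases e5 with h | h
    · exact absurd (by exact_mod_cast h) hp.out.ne_zero
    · exact sub_eq_zero.1 h
  by_cases hm0 : (m : ZMod p) = 0
  · have := e6 1
    rwa [hm0, mul_one, sub_zero] at this
  -- translation invariance
  have e7 : ∀ x, D (x + (1 - a) * (-m)) = D x := fun x => by
    by_cases ha0 : a = 0
    · have h := fun z => hD z
      simp only [ha0, zero_mul] at h
      rw [← h, ← h x]
    have h1 := e6 (a * (a⁻¹ * x + m))
    have h2 := e6 (a⁻¹ * x + m)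
    have h3 := hD (s * (a⁻¹ * x + m))
    have h4 := hD (a⁻¹ * x)
    rw [mul_inv_cancel_left₀ ha0] at h4
    rw [add_sub_cancel_right] at h2
    have h5 : a * (a⁻¹ * x + m) - m = x - (1 - a) * m := by
      rw [mul_add, mul_inv_cancel_left₀ ha0]; ring
    rw [h5, mul_left_comm, h3, h2, ← h4] at h1
    rw [h1]; congr 1; ring
  have hu : (1 - a) * (-(m : ZMod p)) ≠ 0 :=
    mul_ne_zero (sub_ne_zero.2 ha.symm) (neg_ne_zero.2 hm0)
  have e8 : ∀ (n : ℕ) x, D (x + n * ((1 - a) * (-m))) = D x := fun n => by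
    induction n with
    | zero => simp
    | succ n ih => intro x; rw [Nat.cast_succ, add_mul, one_mul, ← add_assoc, e7, ih]
  have := e8 ((s - 1) / ((1 - a) * (-m))).val 1
  rw [ZMod.natCast_zmod_val, div_mul_cancel₀ _ hu, add_sub_cancel] at this
  exact this

theorem aut_triv {K α : Type*} [Group K] [Finite K] [MulAction K α] [FaithfulSMul K α]
    {p : ℕ} [hp : Fact p.Prime] (hα : Nat.card α = p)
    (h2 : ∀ u v u' v' : α, u ≠ v → u' ≠ v' → ∃ k : K, k • u = u' ∧ k • v = v')
    (φ : MulAut K) (hφ : φ ^ p = 1) {y e : K} (ε : ZMod p ≃ α) (hy : ∀ j, y • ε j = ε (j + 1))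
    {a : ZMod p} (ha : a ≠ 1) (he : ∀ j, e • ε j = ε (a * j)) (φy : φ y = y) (φe : φ e = e) :
    φ = 1 := by
  classical
  haveI : Finite α := H17.finite_of_card_prime hα
  haveI := Fintype.ofFinite α
  haveI : NeZero p := ⟨hp.out.ne_zero⟩
  have hζ := Complex.isPrimitiveRoot_exp p hp.out.ne_zero
  set ζ := Complex.exp (2 * Real.pi * Complex.I / p)
  set ψ := AddChar.zmodChar p hζ.pow_eq_one with hψ
  have hyn : ∀ (s t : ZMod p), y ^ s.val • ε t = ε (t + s) := fun s t => by
    have := H17.coord_zpow hy (s.val : ℤ) t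
    rwa [zpow_natCast, Int.cast_natCast, ZMod.natCast_zmod_val] at this
  haveI : IsPretransitive K α := ⟨fun u v => by
    obtain ⟨s, rfl⟩ := ε.surjective u
    obtain ⟨t, rfl⟩ := ε.surjective v
    exact ⟨y ^ (t - s).val, by rw [hyn]; simp⟩⟩
  let R : α → α → Prop := fun u v => ∃ k : K, k • ε 0 = u ∧ φ k • ε 0 = v
  have hR : ∀ (k : K) u v, R (k • u) (φ k • v) ↔ R u v := fun k u v => by
    constructor
    · rintro ⟨l, h1, h2⟩
      exact ⟨k⁻¹ * l, by rw [mul_smul, h1, inv_smul_smul], by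
        rw [map_mul, map_inv, mul_smul, h2, inv_smul_smul]⟩
    · rintro ⟨l, rfl, rfl⟩
      exact ⟨k * l, mul_smul _ _ _, by rw [map_mul, mul_smul]⟩
  let M : Matrix α α ℂ := Matrix.of fun u v => if R u v then 1 else 0
  have hM : ∀ (k : K) u v, M (k • u) (φ k • v) = M u v := fun k u v => by
    simp only [M, Matrix.of_apply, hR]
  have hMi : ∀ (i : ℕ) (k : K) u v, (M ^ i) (k • u) ((φ ^ i) k • v) = (M ^ i) u v := fun i => by
    induction i with
    | zero => intro k u v; simp [Matrix.one_apply]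
    | succ i ih =>
      intro k u v
      rw [pow_succ M, Matrix.mul_apply, Matrix.mul_apply]
      refine (Fintype.sum_equiv (MulAction.toPerm ((φ ^ i) k)) _ _ fun w => ?_).symm
      rw [MulAction.toPerm_apply, ih, pow_succ', MulAut.mul_apply, hM]
  let D : ZMod p → ℤ := fun s => if R (ε 0) (ε s) then 1 else 0
  have hMD : ∀ s t, M (ε s) (ε t) = D (t - s) := fun s t => by
    have := hM (y ^ s.val) (ε 0) (ε (t - s))
    rw [map_pow, φy, hyn, hyn, zero_add, sub_add_cancel] at this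
    rw [this]; simp only [M, D, Matrix.of_apply]; split_ifs <;> simp
  have hD : ∀ s, D (a * s) = D s := fun s => by
    have := hR e (ε 0) (ε s)
    rw [φe, he, he, mul_zero] at this
    simp only [D, this]
  have h01 : ε 0 ≠ ε 1 := fun h => zero_ne_one (ε.injective h)
  have key := four hζ D ha hD ((M ^ p) (ε 0) (ε 0) - (M ^ p) (ε 0) (ε 1)) fun j hj => by
    let f : α → ℂ := fun u => ψ (j * ε.symm u)
    have hf : M.mulVec f = (∑ s, (D s : ℂ) * ψ (j * s)) • f := by
      funext u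
      obtain ⟨s, rfl⟩ := ε.surjective u
      simp only [Matrix.mulVec, dotProduct, Pi.smul_apply, smul_eq_mul, f, Equiv.symm_apply_apply,
        Finset.sum_mul]
      refine (Fintype.sum_equiv ((Equiv.addRight s).trans ε) _ _ fun t => ?_).symm
      simp only [Equiv.trans_apply, Equiv.coe_addRight, hMD, add_sub_cancel_right,
        Equiv.symm_apply_apply, mul_add, AddChar.map_add_eq_mul, mul_assoc]
    have hfi : ∀ i : ℕ, (M ^ i).mulVec f = (∑ s, (D s : ℂ) * ψ (j * s)) ^ i • f := fun i => by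
      induction i with
      | zero => simp
      | succ i ih => rw [pow_succ, ← Matrix.mulVec_mulVec, hf, Matrix.mulVec_smul, ih, smul_smul,
          pow_succ']
    have h3 := congrFun (hfi p) (ε 0)
    simp only [Matrix.mulVec, dotProduct, Pi.smul_apply, smul_eq_mul, f, Equiv.symm_apply_apply,
      mul_zero, AddChar.map_zero_eq_one, mul_one] at h3
    rw [← h3]
    have h4 : ∀ v, (M ^ p) (ε 0) v = (M ^ p) (ε 0) (ε 1) +
        if v = ε 0 then (M ^ p) (ε 0) (ε 0) - (M ^ p) (ε 0) (ε 1) else 0 := fun v => by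
      split_ifs with h
      · rw [h]; ring
      · obtain ⟨k, h1, h2⟩ := h2 (ε 0) v (ε 0) (ε 1) (Ne.symm h) h01
        have := hMi p k (ε 0) v
        rw [hφ, MulAut.one_apply, h1, h2] at this
        rw [this, add_zero]
    have h5 : ∑ v, ψ (j * ε.symm v) = 0 := by
      rw [Fintype.sum_equiv (ε.symm.trans (Equiv.mulLeft₀ j hj)) (fun v => ψ (j * ε.symm v)) ψ
        fun v => rfl]
      refine AddChar.sum_eq_zero_of_ne_one fun h => ?_
      have := DFunLike.congr_fun h ((1 : ℕ) : ZMod p)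
      rw [hψ, AddChar.zmodChar_apply', pow_one, AddChar.one_apply] at this
      exact hζ.ne_one hp.out.one_lt this
    rw [Finset.sum_congr rfl fun v _ => by rw [h4 v, add_mul], Finset.sum_add_distrib,
      ← Finset.mul_sum, h5, mul_zero, zero_add]
    simp
  have hD0 : R (ε 0) (ε 0) := ⟨1, one_smul _ _, by rw [map_one, one_smul]⟩
  have hD1 : ¬ R (ε 0) (ε 1) := fun h => by
    have hall : ∀ v, R (ε 0) v := fun v => by
      obtain ⟨s, rfl⟩ := ε.surjective v
      by_cases hs : s = 0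
      · rw [hs]; exact hD0
      have := key s hs
      simp only [D, if_pos h] at this
      by_contra h'
      rw [if_neg h'] at this
      exact zero_ne_one this
    let S := (stabilizer K (ε 0)).map φ.toMonoidHom
    haveI : IsPretransitive S α := IsPretransitive.of_orbit (x₀ := ε 0) fun v => by
      obtain ⟨k, h1, h2⟩ := hall v
      exact ⟨⟨φ k, k, h1, rfl⟩, h2⟩
    have h1 : p ∣ Nat.card S := by
      rw [← hα, ← index_stabilizer_of_transitive S (ε 0)]
      exact Subgroup.index_dvd_card _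
    rw [Subgroup.card_map_of_injective φ.injective] at h1
    have h3 := (stabilizer K (ε 0)).card_mul_index
    rw [index_stabilizer_of_transitive, hα] at h3
    have h4 : p ^ 2 ∣ Nat.card K := by rw [← h3, sq]; exact Nat.mul_dvd_mul_right h1 _
    have h5 := (hp.out.pow_dvd_iff_le_factorization Nat.card_pos.ne').1 h4
    rw [H17.pd_factorization hα] at h5
    omega
  have h0 : ∀ k : K, k • ε 0 = ε 0 → φ k • ε 0 = ε 0 := fun k hk => by
    obtain ⟨s, hs⟩ := ε.surjective (φ k • ε 0)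
    by_cases h : s = 0
    · rw [← hs, h]
    have := key s h
    simp only [D, if_neg hD1] at this
    rw [if_pos ⟨k, hk, hs.symm⟩] at this
    exact absurd this one_ne_zero
  have h1 : ∀ k : K, φ k • ε 0 = k • ε 0 := fun k => by
    obtain ⟨s, hs⟩ := ε.surjective (k • ε 0)
    have := h0 ((y ^ s.val)⁻¹ * k) (by rw [mul_smul, ← hs, inv_smul_eq_iff, hyn, zero_add])
    rw [map_mul, map_inv, map_pow, φy, mul_smul, inv_smul_eq_iff, hyn, zero_add] at this
    rw [this, hs]
  ext k
  refine eq_of_smul_eq_smul (α := α) fun u => ?_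
  obtain ⟨s, rfl⟩ := ε.surjective u
  have := h1 (k * y ^ s.val)
  rwa [map_mul, map_pow, φy, mul_smul, mul_smul, hyn, zero_add] at this

end H13.At
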