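import Mathlib
import Cfsg.Agent.H13.At2

/-! Atkinson's theorem on degree `p² + 1`, part 3: a normal subgroup of order `p` in the point
stabiliser. -/

set_option autoImplicit false

namespace H13.At

open MulAction Pointwise

/-- An equivariant family of semiregular normal subgroups of order `p` of point stabilisers. -/
structure NS (p : ℕ) (G Ω : Type*) [Group G] [MulAction G Ω] where
  N : Ω → Subgroup G
  conj : ∀ (g : G) x n, n ∈ N x → g * n * g⁻¹ ∈ N (g • x)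
  card : ∀ x, Nat.card (N x) = p
  fix : ∀ x, ∀ n ∈ N x, n • x = x
  semi : ∀ {x y}, y ≠ x → ∀ n ∈ N x, n • y = y → n = 1

variable {G Ω : Type*} [Group G] [MulAction G Ω] {p : ℕ} [hp : Fact p.Prime] [Finite Ω] [Finite G]

namespace NS
variable (A : NS p G Ω)

/-- `u` centralises `N x` -/
def Cen (u : G) (x : Ω) : Prop := ∀ n ∈ A.N x, u * n * u⁻¹ = n
/-- `u` inverts `N x` -/
def Inv (u : G) (x : Ω) : Prop := ∀ n ∈ A.N x, u * n * u⁻¹ = n⁻¹

omit hp [Finite Ω] in
theorem orb_card {x y : Ω} (h : y ≠ x) : {w | ∃ n ∈ A.N x, n • y = w}.ncard = p := by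
  have := card_orb (A.N x) y
  rwa [A.card, (Subgroup.eq_bot_iff_forall (A.N x ⊓ stabilizer G y)).2
      fun n hn => A.semi h n hn.1 hn.2,
    Subgroup.card_bot, mul_one, eq_comm] at this

omit hp in
theorem dvd_inv {x : Ω} {T : Set Ω} (h1 : x ∉ T) (h2 : ∀ n ∈ A.N x, ∀ t ∈ T, n • t ∈ T) :
    p ∣ T.ncard := by
  refine Dvd.intro_left _ (ncard_fib (fun t => {w | ∃ n ∈ A.N x, n • t = w}) fun t ht => ?_).symm
  refine Eq.trans ?_ (A.orb_card (x := x) (y := t) fun e => h1 (e ▸ ht))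
  congr 1
  ext w
  constructor
  · rintro ⟨-, h⟩
    exact h.subset ⟨1, one_mem _, one_smul _ _⟩
  · rintro ⟨n, hn, rfl⟩
    refine ⟨h2 n hn t ht, Set.ext fun w => ⟨?_, ?_⟩⟩
    · rintro ⟨m, hm, rfl⟩
      exact ⟨m * n, mul_mem hm hn, mul_smul _ _ _⟩
    · rintro ⟨m, hm, rfl⟩
      exact ⟨m * n⁻¹, mul_mem hm (inv_mem hn), by rw [mul_smul, inv_smul_smul]⟩

omit hp [Finite Ω] [Finite G] in
theorem conj_sup (g : G) {x y : Ω} {l : G} (h : l ∈ A.N x ⊔ A.N y) :
    g * l * g⁻¹ ∈ A.N (g • x) ⊔ A.N (g • y) :=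
  (sup_le (fun n hn => Subgroup.mem_sup_left (A.conj g x n hn))
    (fun n hn => Subgroup.mem_sup_right (A.conj g y n hn)) :
    A.N x ⊔ A.N y ≤ (A.N (g • x) ⊔ A.N (g • y)).comap (MulAut.conj g).toMonoidHom) h

theorem trans (H : Hy p G Ω) {x y : Ω} (h : y ≠ x) (z : Ω) : ∃ l ∈ A.N x ⊔ A.N y, l • x = z := by
  let Γ : Ω → Ω → Set Ω := fun x y => {z | ∃ l ∈ A.N x ⊔ A.N y, l • x = z}
  have hs : ∀ (g : G) {x y z}, z ∈ Γ x y → g • z ∈ Γ (g • x) (g • y) := by
    rintro g x y _ ⟨l, hl, rfl⟩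
    exact ⟨_, A.conj_sup g hl, by rw [mul_smul, inv_smul_smul, mul_smul]⟩
  have hx : ∀ x y, x ∈ Γ x y := fun x y => ⟨1, one_mem _, one_smul _ _⟩
  have hi : ∀ x y, ∀ n ∈ A.N x ⊔ A.N y, ∀ t ∈ Γ x y, n • t ∈ Γ x y := by
    rintro x y n hn _ ⟨l, hl, rfl⟩
    exact ⟨n * l, mul_mem hn hl, mul_smul _ _ _⟩
  have hd : ∀ x y, p ∣ (Γ x y \ {x}).ncard := fun x y =>
    A.dvd_inv (x := x) (fun h => h.2 rfl) fun n hn t ht =>
      ⟨hi x y n (Subgroup.mem_sup_left hn) t ht.1, fun e => ht.2 (MulAction.injective n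
        (Eq.trans e (A.fix x n hn).symm))⟩
  have hy : ∀ x y, y ∈ Γ x y := fun x y => by
    by_contra h1
    have h2 := A.dvd_inv h1 fun n hn => hi x y n (Subgroup.mem_sup_right hn)
    rw [← Set.ncard_sdiff_singleton_add_one (hx x y)] at h2
    exact hp.out.one_lt.ne' (Nat.dvd_one.1 ((Nat.dvd_add_right (hd x y)).1 h2))
  let S : BS G Ω :=
    { r := fun x y => Γ x y \ {x}
      smul := fun g x y z hz => ⟨hs g hz.1, fun e => hz.2 (MulAction.injective g e)⟩
      self := fun h => ⟨hy _ _, h⟩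
      nm := fun _ _ h => h.2 rfl
      eq := fun {x y z} h1 h2 => by
        congr 1
        refine Set.eq_of_subset_of_ncard_le ?_ (H.fam_card hs h1 h2.2).le
        rintro _ ⟨l, hl, rfl⟩
        refine ⟨l, (sup_le le_sup_left fun n hn => ?_ : _ ≤ A.N x ⊔ A.N y) hl, rfl⟩
        obtain ⟨⟨m, hm, rfl⟩, -⟩ := h2
        have := A.conj m⁻¹ _ n hn
        rw [inv_smul_smul] at this
        have := mul_mem (mul_mem hm (Subgroup.mem_sup_left this)) (inv_mem hm)
        simpa [mul_assoc] using this }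
  have hin : ∀ x y, insert x (S.r x y) = Γ x y := fun x y => by
    simp only [S, Set.insert_sdiff_singleton, Set.insert_eq_of_mem (hx x y)]
  rcases S.cases H h with h1 | h1 | h1
  · have := hd x y
    rw [show Γ x y \ {x} = {y} from h1, Set.ncard_singleton] at this
    exact absurd (Nat.dvd_one.1 this) hp.out.one_lt.ne'
  · refine ((BS.sz_of H h h1).steiner H fun x y _ => ?_).elim
    rw [hin, hin]
    obtain ⟨m, hm, e⟩ := hy x y
    ext w
    constructor
    · rintro ⟨l, hl, rfl⟩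
      exact ⟨l * m⁻¹, sup_comm (A.N x) _ ▸ mul_mem hl (inv_mem hm), by
        rw [← e, mul_smul, inv_smul_smul]⟩
    · rintro ⟨l, hl, rfl⟩
      exact ⟨l * m, mul_mem (sup_comm (A.N y) _ ▸ hl) hm, by rw [mul_smul, e]⟩
  · change z ∈ Γ x y
    rw [← hin, h1]
    exact em _

variable {A}

theorem cent (H : Hy p G Ω) {x y : Ω} (h : y ≠ x) {u : G} (hu : u • x = x) (h1 : A.Cen u x)
    (h2 : A.Cen u y) : u = 1 := H.faith u fun z => by
  obtain ⟨l, hl, rfl⟩ := A.trans H h z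
  have : l ∈ Subgroup.centralizer {u} :=
    (sup_le (fun n hn => Subgroup.mem_centralizer_singleton_iff.2
      (mul_inv_eq_iff_eq_mul.1 (h1 n hn)).symm) (fun n hn =>
      Subgroup.mem_centralizer_singleton_iff.2 (mul_inv_eq_iff_eq_mul.1 (h2 n hn)).symm) :
      A.N x ⊔ A.N y ≤ _) hl
  rw [← mul_smul, ← Subgroup.mem_centralizer_singleton_iff.1 this, mul_smul, hu]

omit [Finite Ω] [Finite G] in
theorem gen {x : Ω} {m n : G} (hm : m ∈ A.N x) (h1 : m ≠ 1) (hn : n ∈ A.N x) :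
    ∃ k : ℤ, n = m ^ k := by
  obtain ⟨k, hk⟩ := mem_zpowers_of_prime_card (A.card x) (g := ⟨m, hm⟩) (g' := ⟨n, hn⟩)
    fun e => h1 (congrArg Subtype.val e)
  exact ⟨k, (congrArg Subtype.val hk).symm⟩

omit [Finite Ω] [Finite G] in
theorem pm {x : Ω} {u : G} (h2 : u * u = 1) (hu : u • x = x) : A.Cen u x ∨ A.Inv u x := by
  by_cases h : A.Inv u x
  · exact Or.inr h
  simp only [Inv, not_forall] at h
  obtain ⟨n, hn, h⟩ := h
  have h3 : u * n * u⁻¹ ∈ A.N x := hu ▸ A.conj u x n hn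
  have hn1 : n ≠ 1 := fun e => h (by simp [e])
  obtain ⟨j, hj⟩ := gen hn hn1 h3
  refine Or.inl fun l hl => ?_
  obtain ⟨k, rfl⟩ := gen (mul_mem hn h3) (fun e => h (eq_inv_of_mul_eq_one_right e)) hl
  rw [← conj_zpow]
  congr 1
  have h4 : u⁻¹ = u := inv_eq_of_mul_eq_one_right h2
  calc _ = (u * n * u⁻¹) * ((u * u) * n * (u * u)⁻¹) := by group
    _ = _ := by rw [h2, hj]; group

omit hp [Finite Ω] [Finite G] in
theorem Cen.conj {u : G} {x : Ω} (h : A.Cen u x) (g : G) : A.Cen (g * u * g⁻¹) (g • x) :=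
  fun n hn => by
    have := h _ (by simpa using A.conj g⁻¹ _ n hn)
    calc _ = g * (u * (g⁻¹ * n * g) * u⁻¹) * g⁻¹ := by group
      _ = n := by rw [this]; group

omit hp [Finite Ω] [Finite G] in
theorem Inv.conj {u : G} {x : Ω} (h : A.Inv u x) (g : G) : A.Inv (g * u * g⁻¹) (g • x) :=
  fun n hn => by
    have := h _ (by simpa using A.conj g⁻¹ _ n hn)
    calc _ = g * (u * (g⁻¹ * n * g) * u⁻¹) * g⁻¹ := by group
      _ = n⁻¹ := by rw [this]; group

omit hp [Finite Ω] [Finite G] in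
theorem Inv.mul {u v : G} {x : Ω} (h : A.Inv u x) (h' : A.Inv v x) : A.Cen (u * v) x :=
  fun n hn => by
    calc _ = u * (v * n * v⁻¹) * u⁻¹ := by group
      _ = n := by rw [h' n hn, h _ (inv_mem hn), inv_inv]

omit hp [Finite Ω] [Finite G] in
theorem Cen.mul {u v : G} {x : Ω} (h : A.Cen u x) (h' : A.Cen v x) : A.Cen (u * v) x :=
  fun n hn => by
    calc _ = u * (v * n * v⁻¹) * u⁻¹ := by group
      _ = n := by rw [h' n hn, h _ hn]

omit hp [Finite Ω] [Finite G] in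
theorem Cen.mul_inv {u v : G} {x : Ω} (h : A.Cen u x) (h' : A.Inv v x) : A.Inv (u * v) x :=
  fun n hn => by
    calc _ = u * (v * n * v⁻¹) * u⁻¹ := by group
      _ = n⁻¹ := by rw [h' n hn, h _ (inv_mem hn)]

omit hp [Finite Ω] [Finite G] in
theorem Inv.mul_cen {u v : G} {x : Ω} (h : A.Inv u x) (h' : A.Cen v x) : A.Inv (u * v) x :=
  fun n hn => by
    calc _ = u * (v * n * v⁻¹) * u⁻¹ := by group
      _ = n⁻¹ := by rw [h' n hn, h _ hn]

omit [Finite Ω] [Finite G] in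
theorem one_of (h2 : p ≠ 2) {x : Ω} {n : G} (hn : n ∈ A.N x) (h : n = n⁻¹) : n = 1 := by
  have h1 : n ^ p = 1 := by
    have := pow_card_eq_one' (x := (⟨n, hn⟩ : A.N x))
    rw [A.card] at this
    exact congrArg Subtype.val this
  have h3 : n ^ 2 = 1 := by rw [sq]; nth_rw 1 [h]; exact inv_mul_cancel n
  have := pow_gcd_eq_one.2 ⟨h1, h3⟩
  rwa [(Nat.coprime_primes hp.out Nat.prime_two).2 h2, pow_one] at this

omit [Finite Ω] in
theorem ex_ne_one (x : Ω) : ∃ n ∈ A.N x, n ≠ 1 := by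
  by_contra h
  push Not at h
  have := A.card x
  rw [(Subgroup.eq_bot_iff_forall _).2 h, Subgroup.card_bot] at this
  exact hp.out.one_lt.ne this

omit [Finite Ω] in
theorem not_both (h2 : p ≠ 2) {x : Ω} {u : G} (h : A.Cen u x) (h' : A.Inv u x) : False := by
  obtain ⟨n, hn, h1⟩ := ex_ne_one (A := A) x
  exact h1 (one_of h2 hn ((h n hn).symm.trans (h' n hn)))

omit [Finite Ω] [Finite G] in
theorem Inv.fix_eq (h2 : p ≠ 2) {y w : Ω} {v n : G} (h : A.Inv v y) (hw : w ≠ y) (hn : n ∈ A.N y)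
    (h1 : v • w = w) (h3 : v • n • w = n • w) : n = 1 := by
  have h4 : n⁻¹ • w = n • w := by
    rw [← h n hn, mul_smul, mul_smul, inv_smul_eq_iff.2 h1.symm, h3]
  refine one_of h2 hn (eq_inv_of_mul_eq_one_left (A.semi hw _ (mul_mem hn hn) ?_))
  rw [mul_smul, ← h4, smul_inv_smul]

theorem Inv.bd (H : Hy p G Ω) (h2 : p ≠ 2) {y : Ω} {v : G} (h : A.Inv v y) :
    {w | w ≠ y ∧ v • w = w}.ncard ≤ p := by
  have := Nat.card_le_card_of_injective
    (fun q : A.N y × {w | w ≠ y ∧ v • w = w} => (⟨q.1.1 • q.2.1, fun e => q.2.2.1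
      (MulAction.injective q.1.1 (Eq.trans e (A.fix y _ q.1.2).symm))⟩ : ({y}ᶜ : Set Ω))) (by
      rintro ⟨⟨n, hn⟩, w, hw⟩ ⟨⟨m, hm⟩, z, hz⟩ e
      have e1 : (m⁻¹ * n) • w = z := by
        rw [mul_smul, inv_smul_eq_iff]; exact congrArg Subtype.val e
      have e2 := h.fix_eq h2 hw.1 (mul_mem (inv_mem hm) hn) hw.2 (by rw [e1]; exact hz.2)
      rw [e2, one_smul] at e1
      obtain rfl := inv_mul_eq_one.1 e2
      subst e1
      rfl)
  rw [Nat.card_prod, A.card, Nat.card_coe_set_eq, Nat.card_coe_set_eq, H.compl, sq] at this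
  exact Nat.le_of_mul_le_mul_left this hp.out.pos

theorem bad (H : Hy p G Ω) (h2 : p ≠ 2) {x y : Ω} (h : y ≠ x) {u g : G} (hx : u • x = x)
    (hy : u • y = y) (ix : A.Inv u x) (iy : A.Inv u y) (hx' : (g * u * g⁻¹) • x = x)
    (hy' : (g * u * g⁻¹) • y = y) (cx : A.Cen (g * u * g⁻¹) x) (iy' : A.Inv (g * u * g⁻¹) y) :
    False := by
  set v := g * u * g⁻¹ with hv
  have hz : u • g⁻¹ • x = g⁻¹ • x := by
    rw [eq_inv_smul_iff, ← mul_smul, ← mul_smul]; exact hx'
  have cz : A.Cen u (g⁻¹ • x) := by simpa [hv, mul_assoc] using cx.conj g⁻¹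
  generalize g⁻¹ • x = z at hz cz
  have uu : u * u = 1 := cent H h (by rw [mul_smul, hx, hx]) (ix.mul ix) (iy.mul iy)
  have vv : v * v = 1 := cent H h (by rw [mul_smul, hx', hx']) (cx.mul cx) (iy'.mul iy')
  have uv : (v * u) * (v * u) = 1 := cent H h (by simp only [mul_smul, hx, hx'])
    ((cx.mul_inv ix).mul (cx.mul_inv ix)) ((iy'.mul iy).mul (iy'.mul iy))
  have c : v * u * v⁻¹ = u := by
    rw [inv_eq_of_mul_eq_one_right vv, ← inv_eq_of_mul_eq_one_right uu, eq_inv_iff_mul_eq_one,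
      inv_eq_of_mul_eq_one_right uu, ← uv, mul_assoc (v * u)]
  have hvz : v • z = z := by
    by_contra h3
    have := cz.conj v
    rw [c] at this
    have h4 := cent H h3 hz cz this
    exact not_both h2 (fun n _ => by simp [h4]) ix
  have zx : z ≠ x := fun e => not_both h2 (e ▸ cz) ix
  have zy : ∀ n ∈ A.N x, n • z ≠ y := fun n hn e => by
    have := ix.fix_eq h2 zx hn hz (by rw [e, hy])
    rw [this, one_smul] at e
    exact not_both h2 (e ▸ cz) iy
  have h3 := Set.ncard_le_ncard (s := insert x {w | ∃ n ∈ A.N x, n • z = w})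
    (t := {w | w ≠ y ∧ v • w = w}) (by
      rintro w (rfl | ⟨n, hn, rfl⟩)
      · exact ⟨h.symm, hx'⟩
      · refine ⟨zy n hn, ?_⟩
        rw [← mul_smul, mul_inv_eq_iff_eq_mul.1 (cx n hn), mul_smul, hvz])
  rw [Set.ncard_insert_of_notMem, A.orb_card zx] at h3
  · have := iy'.bd H h2
    omega
  · rintro ⟨n, hn, e⟩
    exact zx (MulAction.injective n (e.trans (A.fix x n hn).symm))

theorem ex_inv (H : Hy p G Ω) (h2 : p ≠ 2) :
    ∃ (x y : Ω) (u : G), y ≠ x ∧ u • x = x ∧ u • y = y ∧ A.Inv u x ∧ A.Inv u y := by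
  classical
  have := Fintype.ofFinite Ω
  have hodd := hp.out.odd_of_ne_two h2
  have hc : Fintype.card Ω = p ^ 2 + 1 := by rw [← H.card, Nat.card_eq_fintype_card]
  have : Nonempty Ω := Fintype.card_pos_iff.1 (by omega)
  obtain ⟨a⟩ := this
  obtain ⟨b, hb⟩ := H.ex_ne a
  have h1 := card_orb (A.N a ⊔ A.N b) a
  rw [Set.eq_univ_of_forall (s := {w | ∃ g ∈ A.N a ⊔ A.N b, g • a = w}) (A.trans H hb),
    Set.ncard_univ, H.card] at h1
  have hev : 2 ∣ p ^ 2 + 1 := (hodd.pow.add_one).two_dvd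
  obtain ⟨⟨t, ht⟩, ho⟩ := exists_prime_orderOf_dvd_card' (G := ↥(A.N a ⊔ A.N b)) 2
    (h1 ▸ hev.mul_right _)
  rw [Subgroup.orderOf_mk] at ho
  have t2 : t ^ 2 = 1 := ho ▸ pow_orderOf_eq_one t
  have tt : t * t = 1 := sq t ▸ t2
  have t1 : t ≠ 1 := fun e => by simp [e] at ho
  have hk : ∀ x, A.N x ≤ (Equiv.Perm.sign.comp (toPermHom G Ω)).ker := fun x n hn => by
    have h3 := pow_card_eq_one' (x := (⟨n, hn⟩ : A.N x))
    rw [A.card] at h3
    have h4 := congrArg (Equiv.Perm.sign.comp (toPermHom G Ω)) (congrArg Subtype.val h3)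
    rw [Subgroup.coe_pow, map_pow, OneMemClass.coe_one, map_one] at h4
    rcases Int.units_eq_one_or ((Equiv.Perm.sign.comp (toPermHom G Ω)) n) with h5 | h5
    · exact h5
    · rw [h5, hodd.neg_one_pow] at h4
      exact absurd h4 (by decide)
  have hs : Equiv.Perm.sign (toPermHom G Ω t) = 1 := sup_le (hk a) (hk b) ht
  have hσ : toPermHom G Ω t ^ 2 = 1 := by rw [← map_pow, t2, map_one]
  obtain ⟨x, hx⟩ : ∃ x, t • x = x := by
    by_contra h3
    push Not at h3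
    have : IsEmpty (Function.fixedPoints (toPermHom G Ω t)) := ⟨fun x => h3 x.1 x.2⟩
    rw [Equiv.Perm.sign_of_pow_two_eq_one hσ, hc, Fintype.card_eq_zero] at hs
    obtain ⟨k, rfl⟩ := hodd
    rw [show ((2 * k + 1) ^ 2 + 1 - 0) / 2 = 2 * (k * k + k) + 1 by
      rw [show (2 * k + 1) ^ 2 + 1 - 0 = (2 * (k * k + k) + 1) * 2 by simp only [Nat.sub_zero]; ring]
      simp, pow_succ, pow_mul] at hs
    simp at hs
  obtain ⟨y, hy, hyx⟩ := Equiv.Perm.exists_fixed_point_of_prime' (p := 2) (n := 1) (hc ▸ hev)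
    (σ := toPermHom G Ω t) hσ hx
  have hy : t • y = y := hy
  obtain ⟨g, g1, g2⟩ := H.two x y y x hyx hyx.symm
  have fx : (t * (g * t * g⁻¹)) • x = x := by
    rw [mul_smul, mul_smul, mul_smul, inv_smul_eq_iff.2 g2.symm, hy, g2, hx]
  have fy : (t * (g * t * g⁻¹)) • y = y := by
    rw [mul_smul, mul_smul, mul_smul, inv_smul_eq_iff.2 g1.symm, hx, g1, hy]
  rcases pm (A := A) tt hx with h3 | h3 <;> rcases pm (A := A) tt hy with h4 | h4
  · exact absurd (cent H hyx hx h3 h4) t1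
  · exact ⟨x, y, _, hyx, fx, fy, h3.mul_inv (g2 ▸ h4.conj g), h4.mul_cen (g1 ▸ h3.conj g)⟩
  · exact ⟨x, y, _, hyx, fx, fy, h3.mul_cen (g2 ▸ h4.conj g), h4.mul_inv (g1 ▸ h3.conj g)⟩
  · exact ⟨x, y, t, hyx, hx, hy, h3, h4⟩

omit hp [Finite Ω] in
theorem fib_card {x y : Ω} (g : G) {T : Set G}
    (h : ∀ k, k ∈ T ↔ g⁻¹ * k ∈ stabilizer G x ⊓ stabilizer G y) :
    T.ncard = Nat.card ↥(stabilizer G x ⊓ stabilizer G y) := by
  rw [← Set.ncard_image_of_injective T (mul_right_injective g⁻¹), ← Nat.card_coe_set_eq]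
  congr 2
  ext k
  exact ⟨by rintro ⟨l, hl, rfl⟩; exact (h l).1 hl, fun hk => ⟨g * k, (h _).2 (by simpa using hk),
    by simp⟩⟩

theorem odd (A : NS p G Ω) (H : Hy p G Ω) : p = 2 := by
  by_contra h2
  obtain ⟨x, y, u, h, hx, hy, ix, iy⟩ := ex_inv (A := A) H h2
  have uu : u * u = 1 := cent H h (by rw [mul_smul, hx, hx]) (ix.mul ix) (iy.mul iy)
  have u1 : u ≠ 1 := fun e => not_both h2 (fun n _ => by simp [e]) ix
  have cc : ∀ g : G, (g * u * g⁻¹) * (g * u * g⁻¹) = 1 := fun g => by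
    rw [conj_mul, uu]; simp
  have m1 : ∀ g : G, (g * u * g⁻¹) • x = x → (g * u * g⁻¹) • y = y → g * u * g⁻¹ = u :=
    fun g h3 h4 => by
      rcases pm (A := A) (cc g) h3 with h5 | h5 <;> rcases pm (A := A) (cc g) h4 with h6 | h6
      · exact absurd (by simpa using cent H h h3 h5 h6) u1
      · exact (bad H h2 h hx hy ix iy h3 h4 h5 h6).elim
      · exact (bad H h2 h.symm hy hx iy ix h4 h3 h6 h5).elim
      · rw [eq_inv_of_mul_eq_one_left (cent H h (by rw [mul_smul, hx, h3]) (h5.mul ix) (h6.mul iy)),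
          inv_eq_of_mul_eq_one_right uu]
  set h₀ := Nat.card ↥(stabilizer G x ⊓ stabilizer G y) with hh
  have h0 : 0 < h₀ := Nat.card_pos
  let F : Set Ω := {z | u • z = z}
  let S := H.fixBS (fun x => {k | k • x = x ∧ ∃ g : G, g * u * g⁻¹ = k}) (by
    rintro g x _ ⟨h1, l, rfl⟩
    exact ⟨by rw [mul_smul, inv_smul_smul, mul_smul, h1], g * l, by group⟩)
  have hS : S.r x y = F \ {x} := by
    ext z
    constructor
    · rintro ⟨h1, h3⟩
      exact ⟨h3 u ⟨hx, 1, by simp⟩ hy, h1⟩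
    · rintro ⟨h1, h3⟩
      refine ⟨h3, ?_⟩
      rintro _ ⟨h4, g, rfl⟩ h5
      rw [m1 g h4 h5]; exact h1
  have hF : (F \ {x}).ncard + 1 = F.ncard := Set.ncard_sdiff_singleton_add_one hx
  let C := Subgroup.centralizer ({u} : Set G)
  have hC : ∀ g, g ∈ C ↔ g * u * g⁻¹ = u := fun g => by
    rw [Subgroup.mem_centralizer_singleton_iff, mul_inv_eq_iff_eq_mul]
  have hCF : ∀ c ∈ C, ∀ z ∈ F, c • z ∈ F := fun c hc z hz => by
    change u • c • z = c • z
    rw [← mul_smul, ← Subgroup.mem_centralizer_singleton_iff.1 hc, mul_smul, show u • z = z from hz]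
  have c2 : ∀ z ∈ F, ∀ w ∈ F, w ≠ z → ∃ c ∈ C, c • x = z ∧ c • y = w := fun z hz w hw h1 => by
    obtain ⟨g, rfl, rfl⟩ := H.two x y z w h h1
    refine ⟨g, (inv_mem_iff).1 ((hC _).2 (m1 _ ?_ ?_)), rfl, rfl⟩
    · rw [inv_inv, mul_smul, mul_smul, show u • g • x = _ from hz, inv_smul_smul]
    · rw [inv_inv, mul_smul, mul_smul, show u • g • y = _ from hw, inv_smul_smul]
  have e1 := card_orb C x
  have e2 := card_orb (C ⊓ stabilizer G x) y
  rw [show {w | ∃ g ∈ C, g • x = w} = F from Set.ext fun w => ⟨by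
    rintro ⟨g, hg, rfl⟩; exact hCF g hg x hx, fun hw => by
      by_cases e : w = x
      · exact ⟨1, one_mem _, by simp [e]⟩
      · obtain ⟨c, h1, h3, -⟩ := c2 w hw x hx (Ne.symm e)
        exact ⟨c, h1, h3⟩⟩] at e1
  rw [show {w | ∃ g ∈ C ⊓ stabilizer G x, g • y = w} = F \ {x} from Set.ext fun w => ⟨by
    rintro ⟨g, hg, rfl⟩
    exact ⟨hCF g hg.1 y hy, fun e => h (MulAction.injective g (Eq.trans e hg.2.symm))⟩,
      fun hw => by
        obtain ⟨c, h1, h3, h4⟩ := c2 x hx w hw.1 hw.2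
        exact ⟨c, ⟨h1, h3⟩, h4⟩⟩, show C ⊓ stabilizer G x ⊓ stabilizer G y =
      stabilizer G x ⊓ stabilizer G y from by
        rw [inf_assoc, inf_eq_right]
        intro g hg
        have g1 : g⁻¹ • x = x := inv_smul_eq_iff.2 hg.1.symm
        have g2 : g⁻¹ • y = y := inv_smul_eq_iff.2 hg.2.symm
        exact (hC g).2 (m1 g (by rw [mul_smul, mul_smul, g1, hx]; exact hg.1)
          (by rw [mul_smul, mul_smul, g2, hy]; exact hg.2))] at e2
  let B : Set G := {g | (g⁻¹ * u * g) • x = y}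
  have e3 := ncard_fib (S := B) (fun g => g • x) (d := h₀) fun g hg => fib_card g fun k => by
    have hg' : g • y = u • g • x := by
      rw [← show (g⁻¹ * u * g) • x = y from hg, mul_smul, mul_smul, smul_inv_smul]
    simp only [B, Set.mem_ofPred_eq, Subgroup.mem_inf, mem_stabilizer_iff, mul_smul,
      inv_smul_eq_iff, hg']
    constructor
    · rintro ⟨h1, h3⟩
      exact ⟨h3, by rw [← h1, h3]⟩
    · rintro ⟨h1, h3⟩
      exact ⟨by rw [h3, h1], h1⟩
  rw [show (fun g => g • x) '' B = Fᶜ from Set.ext fun z => ⟨by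
    rintro ⟨g, hg, rfl⟩ h1
    apply h
    rw [← show (g⁻¹ * u * g) • x = y from hg, mul_smul, mul_smul, show u • g • x = _ from h1,
      inv_smul_smul], fun hz => by
        obtain ⟨g, h1, h3⟩ := H.two x y z (u • z) h hz
        exact ⟨g, by
          change (g⁻¹ * u * g) • x = y
          rw [mul_smul, mul_smul, h1, ← h3, inv_smul_smul], h1⟩⟩] at e3
  have e4 := ncard_fib (S := B) (fun g => g⁻¹ * u * g) (d := Nat.card C) fun g hg => by
    rw [← Set.ncard_image_of_injective _ (mul_left_injective g⁻¹), ← Nat.card_coe_set_eq]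
    congr 2
    ext k
    constructor
    · rintro ⟨l, ⟨-, h1⟩, rfl⟩
      refine (inv_mem_iff).1 ((hC _).2 ?_)
      have h1 : l⁻¹ * u * l = g⁻¹ * u * g := h1
      calc _ = g * (l⁻¹ * u * l) * g⁻¹ := by group
        _ = u := by rw [h1]; group
    · intro hk
      have h1 : (k * g)⁻¹ * u * (k * g) = g⁻¹ * u * g := by
        calc _ = g⁻¹ * (k⁻¹ * u * k⁻¹⁻¹) * g := by group
          _ = _ := by rw [(hC _).1 (inv_mem hk)]
      exact ⟨k * g, ⟨by change _ • x = y; rw [h1]; exact hg, h1⟩, by simp⟩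
  obtain ⟨n, hn, hn1⟩ := ex_ne_one (A := A) x
  have e5 : ((fun g => g⁻¹ * u * g) '' B).ncard + 1 ≤ p := by
    have hsw : ∀ v ∈ (fun g => g⁻¹ * u * g) '' B, v * v = 1 ∧ v • x = y ∧ v • y = x := by
      rintro _ ⟨g, hg, rfl⟩
      have h1 := cc g⁻¹
      rw [inv_inv] at h1
      have hg : (g⁻¹ * u * g) • x = y := hg
      exact ⟨h1, hg, by rw [← hg, ← mul_smul, h1, one_smul]⟩
    have := Set.ncard_le_ncard_of_injOn (fun v => v * n * v⁻¹) (s := (fun g => g⁻¹ * u * g) '' B)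
      (t := (A.N y : Set G) \ {1}) (fun v hv => ⟨(hsw v hv).2.1 ▸ A.conj v x n hn, fun e => hn1
        (by simpa using e)⟩) fun v hv w hw e => by
          obtain ⟨v1, v2, v3⟩ := hsw v hv
          obtain ⟨w1, w2, w3⟩ := hsw w hw
          have e : v * n * v⁻¹ = w * n * w⁻¹ := e
          have iv := inv_eq_of_mul_eq_one_right v1
          have iw := inv_eq_of_mul_eq_one_right w1
          have h1 : A.Cen (w⁻¹ * v) x := fun l hl => by
            obtain ⟨k, rfl⟩ := gen hn hn1 hl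
            rw [← conj_zpow]
            congr 1
            calc _ = w⁻¹ * (v * n * v⁻¹) * w := by group
              _ = n := by rw [e]; group
          have h3 := h1.conj w
          rw [w2, show w * (w⁻¹ * v) * w⁻¹ = v * w⁻¹ by group] at h3
          have h4 : A.Cen (w⁻¹ * v) y := fun l hl => by
            rw [show w⁻¹ * v = (v * w⁻¹)⁻¹ by rw [mul_inv_rev, inv_inv, iv, iw]]
            nth_rw 1 [← h3 l hl]
            group
          exact (inv_mul_eq_one.1 (cent H h (by rw [mul_smul, v2, iw, w3]) h1 h4)).symm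
    have h1 := Set.ncard_sdiff_singleton_add_one (s := (A.N y : Set G)) (one_mem _)
    rw [← Nat.card_coe_set_eq (A.N y : Set G)] at h1
    have h3 : Nat.card (A.N y : Set G) = p := A.card y
    omega
  have e6 := Set.ncard_add_ncard_compl F
  rw [H.card] at e6
  rw [e3, e1, e2, ← hF, ← mul_assoc, ← mul_assoc] at e4
  have e7 := Nat.eq_of_mul_eq_mul_right h0 e4
  generalize ((fun g => g⁻¹ * u * g) '' B).ncard = s at e5 e7
  have := hp.out.two_le
  rcases S.cases H h with h1 | h1 | h1 <;> rw [hS] at h1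
  · rw [← hF, h1, Set.ncard_singleton] at e6
    rw [h1, Set.ncard_singleton] at e7
    nlinarith
  · rw [← hF, h1] at e6
    rw [h1] at e7
    rw [e7] at e6
    rcases Nat.eq_zero_or_pos s with h3 | h3
    · subst h3; nlinarith
    · have : 1 * (p + 1) * p ≤ s * (p + 1) * p := by gcongr; exact h3
      nlinarith
  · refine u1 (H.faith u fun z => ?_)
    by_cases e : z = x
    · rw [e, hx]
    · exact (h1.symm.subset e).1

theorem main (A : NS p G Ω) (H : Hy p G Ω) : p = 2 ∧ Nat.card G = 20 := by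
  obtain rfl := A.odd H
  refine ⟨rfl, ?_⟩
  have : Nonempty Ω := Finite.card_pos_iff.1 (by rw [H.card]; omega)
  obtain ⟨x⟩ := this
  obtain ⟨y, h⟩ := H.ex_ne x
  have hc : ∀ (u : G) x, u • x = x → A.Cen u x := fun u x hu n hn => by
    by_cases h1 : n = 1
    · simp [h1]
    obtain ⟨m, -, hm⟩ := (Nat.card_eq_two_iff' (1 : A.N x)).1 (A.card x)
    have h2 : u * n * u⁻¹ ∈ A.N x := hu ▸ A.conj u x n hn
    exact congrArg Subtype.val ((hm ⟨_, h2⟩ fun e => h1 (by
      simpa using congrArg Subtype.val e)).trans (hm ⟨n, hn⟩ fun e => h1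
        (congrArg Subtype.val e)).symm)
  have h1 := H.card_stab h
  rw [(Subgroup.eq_bot_iff_forall (stabilizer G x ⊓ stabilizer G y)).2
    fun u hu => cent H h hu.1 (hc u x hu.1) (hc u y hu.2),
    Subgroup.card_bot] at h1
  have h2 := card_orb (⊤ : Subgroup G) x
  rw [top_inf_eq, h1, Subgroup.card_top, Set.eq_univ_of_forall (s := {w | ∃ g ∈ (⊤ : Subgroup G),
    g • x = w}), Set.ncard_univ, H.card] at h2
  · exact h2
  · intro z
    obtain ⟨l, -, hl⟩ := A.trans H h z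
    exact ⟨l, trivial, hl⟩

end NS

end H13.At
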