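import Mathlib
import Cfsg.Agent.H13.At1
import Cfsg.Agent.H13.At3
import Cfsg.Agent.S0675

/-! Atkinson's theorem on degree `p² + 1`, part 4. -/

set_option autoImplicit false

namespace H13.At

open MulAction Pointwise

variable {G Ω : Type*} [Group G] [MulAction G Ω]

namespace BS
variable (S : BS G Ω)

theorem pres {g : G} {x y z : Ω} (hx : g • x = x) (hy : y ≠ x) (h : g • y ∈ S.r x y)
    (hz : z ∈ S.r x y) : g • z ∈ S.r x y := by
  have := S.smul g hz
  rwa [hx, S.eq hy h] at this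

/-- The kernel of the action of the stabiliser of `x` on the blocks. -/
def K (x : Ω) : Subgroup G where
  carrier := {g | g • x = x ∧ ∀ y, y ≠ x → g • y ∈ S.r x y}
  one_mem' := ⟨one_smul _ _, fun y h => by rw [one_smul]; exact S.self h⟩
  mul_mem' := fun {g h} hg hh => ⟨by rw [mul_smul, hh.1, hg.1], fun y hy => by
    rw [mul_smul]; exact S.pres hg.1 hy (hg.2 y hy) (hh.2 y hy)⟩
  inv_mem' := fun {g} hg => ⟨inv_smul_eq_iff.2 hg.1.symm, fun y hy => by
    have h1 : g⁻¹ • y ≠ x := fun e => hy (by rw [← hg.1, ← e, smul_inv_smul])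
    exact S.symm h1 (by simpa using hg.2 _ h1)⟩

theorem K_conj (g : G) (x : Ω) (k : G) (h : k ∈ S.K x) : g * k * g⁻¹ ∈ S.K (g • x) :=
  ⟨by rw [mul_smul, inv_smul_smul, mul_smul, h.1], fun y hy => by
    have := S.smul g (h.2 (g⁻¹ • y) fun e => hy (by rw [← e, smul_inv_smul]))
    rwa [smul_inv_smul, ← mul_smul, ← mul_smul] at this⟩

/-- A block as a set acted on by the kernel. -/
def sub {x y : Ω} (h : y ≠ x) : SubMulAction (S.K x) Ω where
  carrier := S.r x y
  smul_mem' := fun k _ hz => S.pres k.2.1 h (k.2.2 y h) hz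

/-- The kernel is doubly transitive on blocks. -/
def Two (p : ℕ) : Prop := 3 ≤ p ∧ ∀ x y, y ≠ x → ∀ u ∈ S.r x y, ∀ v ∈ S.r x y, ∀ u' ∈ S.r x y,
  ∀ v' ∈ S.r x y, u ≠ v → u' ≠ v' → ∃ k ∈ S.K x, k • u = u' ∧ k • v = v'

variable {S} {p : ℕ} [hp : Fact p.Prime] [Finite Ω] [Finite G]

omit [Finite G] in
theorem Sz.fixblk (hS : S.Sz p) {g : G} {x y z : Ω} (hg : g ^ p = 1) (hx : g • x = x) (h : y ≠ x)
    (hy : g • y = y) (hz : z ∈ S.r x y) : g • z = z :=
  fix_all hg (Set.toFinite _) (hS x y h).le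
    (fun _ ht => S.pres hx h (by rw [hy]; exact S.self h) ht) (S.self h) hy hz

omit [Finite G] in
theorem Sz.memK (hS : S.Sz p) (H : Hy p G Ω) {g : G} {x y : Ω} (hg : g ^ p = 1) (hx : g • x = x)
    (h : y ≠ x) (hy : g • y ∈ S.r x y) : g ∈ S.K x := ⟨hx, fun z hz => by
  have := fix_all (X := Set Ω) hg (Set.toFinite _) (hS.blocks H x).le (by
      rintro _ ⟨w, hw, rfl⟩
      exact ⟨g • w, fun e => hw (MulAction.injective g (Eq.trans e hx.symm)), by
        rw [fam_smul S.smul, hx]⟩) ⟨y, h, rfl⟩ (by rw [fam_smul S.smul, hx, S.eq h hy])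
      (t := S.r x z) ⟨z, hz, rfl⟩
  rw [← this]
  exact ⟨z, S.self hz, rfl⟩⟩

theorem Sz.reg (hS : S.Sz p) (H : Hy p G Ω) {g : G} {x y : Ω} (hg : g ^ p = 1) (hx : g • x = x)
    (h : y ≠ x) (hy : g • y = y) : g = 1 := by
  have hk := hS.memK H hg hx h (by rw [hy]; exact S.self h)
  let F := H.fixBS (fun x => {k | k ∈ S.K x ∧ k ^ p = 1}) fun g x k hk =>
    ⟨S.K_conj g x k hk.1, by rw [conj_pow, hk.2]; simp⟩
  have hsub : ∀ {x y}, y ≠ x → S.r x y ⊆ F.r x y := fun h z hz =>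
    ⟨S.ne hz, fun k h1 h2 => hS.fixblk h1.2 h1.1.1 h h2 hz⟩
  rcases F.cases H h with h1 | h1 | h1
  · have := Set.ncard_le_ncard (h1 ▸ hsub h)
    rw [hS x y h, Set.ncard_singleton] at this
    exact absurd this hp.out.one_lt.not_ge
  · have hF := sz_of H h h1
    have e : ∀ {x y}, y ≠ x → S.r x y = F.r x y := fun h =>
      Set.eq_of_subset_of_ncard_le (hsub h) (by rw [hS _ _ h, hF _ _ h])
    have k : ∀ x y, y ≠ x → insert x (S.r x y) ⊆ insert y (S.r y x) := fun x y h => by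
      rintro z (rfl | hz)
      · exact Or.inr (S.self h.symm)
      · by_cases e1 : z = y
        · exact Or.inl e1
        · rw [e h.symm]
          exact Or.inr ⟨e1, fun k h1 h2 => hS.fixblk h1.2 h2 h h1.1.1 hz⟩
    exact (hS.steiner H fun x y h => (k x y h).antisymm (k y x h.symm)).elim
  · refine H.faith g fun z => ?_
    by_cases e : z = x
    · rw [e, hx]
    · exact (h1.symm.subset e).2 g ⟨hk, hg⟩ hy

omit [Finite Ω] in
theorem ex_ord {A : Subgroup G} (h : p ∣ Nat.card A) : ∃ g ∈ A, orderOf g = p := by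
  obtain ⟨g, hg⟩ := exists_prime_orderOf_dvd_card' p h
  exact ⟨g, g.2, by rwa [Subgroup.orderOf_coe]⟩

omit [Finite Ω] [Finite G] in
theorem ne_one {g : G} (h : orderOf g = p) : g ≠ 1 := fun e =>
  hp.out.one_lt.ne (by rw [← h, e, orderOf_one])

theorem Sz.exP (hS : S.Sz p) (H : Hy p G Ω) (x : Ω) : ∃ P : Subgroup G, P ≤ stabilizer G x ∧
    Nat.card P = p ^ 2 ∧ ¬ P ≤ S.K x ∧ ∃ c ∈ P, c ∈ S.K x ∧ orderOf c = p := by
  obtain ⟨y, h⟩ := H.ex_ne x
  obtain ⟨P₀, hP⟩ := Sylow.exists_subgroup_card_pow_prime (G := stabilizer G x) p (n := 2)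
    (Dvd.intro _ (H.card_stab h).symm)
  have hP' : Nat.card (P₀.map (stabilizer G x).subtype) = p ^ 2 := by
    rw [Subgroup.card_map_of_injective Subtype.val_injective, hP]
  have hle := Subgroup.map_subtype_le P₀
  generalize P₀.map (stabilizer G x).subtype = P at hP' hle
  have key : ∀ {X : Type _} [MulAction G X] (z : X), {w | ∃ g ∈ P, g • z = w}.ncard ≤ p →
      ∃ c ∈ P, c • z = z ∧ orderOf c = p := fun z hz => by
    have h1 := card_orb P z
    rw [hP'] at h1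
    obtain ⟨i, -, hi⟩ := (Nat.dvd_prime_pow hp.out).1 (Dvd.intro_left _ h1.symm)
    obtain ⟨c, hc, h2⟩ := ex_ord (p := p) (A := P ⊓ stabilizer G z) (by
      rw [hi]
      refine dvd_pow_self p fun e => ?_
      rw [hi, e, pow_zero, mul_one] at h1
      have := hp.out.two_le
      nlinarith)
    exact ⟨c, hc.1, hc.2, h2⟩
  refine ⟨P, hle, hP', fun h1 => ?_, ?_⟩
  · obtain ⟨c, h2, h3, h4⟩ := key y ((Set.ncard_le_ncard (by
      rintro _ ⟨g, hg, rfl⟩
      exact (h1 hg).2 y h)).trans (hS x y h).le)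
    exact ne_one h4 (hS.reg H (h4 ▸ pow_orderOf_eq_one c) (hle h2) h h3)
  · obtain ⟨c, h2, h3, h4⟩ := key (S.r x y) ((Set.ncard_le_ncard (by
      rintro _ ⟨g, hg, rfl⟩
      exact ⟨g • y, fun e => h (MulAction.injective g (Eq.trans e (hle hg).symm)), by
        rw [fam_smul S.smul, show g • x = x from hle hg]⟩)).trans (hS.blocks H x).le)
    exact ⟨c, h2, hS.memK H (h4 ▸ pow_orderOf_eq_one c) (hle h2) h
      (h3 ▸ ⟨y, S.self h, rfl⟩), h4⟩

omit hp [Finite Ω] [Finite G] in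
theorem Sz.card_sub (hS : S.Sz p) {x y : Ω} (h : y ≠ x) : Nat.card (S.sub h) = p := hS x y h

theorem Sz.trans (hS : S.Sz p) (H : Hy p G Ω) {x y : Ω} (h : y ≠ x) :
    IsPretransitive (S.K x) (S.sub h) := by
  obtain ⟨-, -, -, -, c, -, hc, ho⟩ := hS.exP H x
  have h1 := card_orb (Subgroup.zpowers c) y
  rw [Nat.card_zpowers, ho, (Subgroup.eq_bot_iff_forall (Subgroup.zpowers c ⊓ stabilizer G y)).2
    fun g hg => hS.reg H (by
      obtain ⟨k, rfl⟩ := hg.1
      rw [← zpow_natCast, ← zpow_mul, mul_comm, zpow_mul, zpow_natCast, ← ho, pow_orderOf_eq_one,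
        one_zpow]) ((Subgroup.zpowers_le.2 hc hg.1).1) h hg.2, Subgroup.card_bot, mul_one] at h1
  have h2 : {w | ∃ g ∈ Subgroup.zpowers c, g • y = w} = S.r x y :=
    Set.eq_of_subset_of_ncard_le (by
      rintro _ ⟨g, hg, rfl⟩
      exact (Subgroup.zpowers_le.2 hc hg).2 y h) (by rw [← h1, hS x y h])
  refine IsPretransitive.of_orbit (x₀ := ⟨y, S.self h⟩) fun z => ?_
  obtain ⟨g, hg, e⟩ := h2.symm.subset z.2
  exact ⟨⟨g, Subgroup.zpowers_le.2 hc hg⟩, Subtype.ext e⟩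

theorem Sz.faith (hS : S.Sz p) (H : Hy p G Ω) {x y : Ω} (h : y ≠ x) :
    FaithfulSMul (S.K x) (S.sub h) := by
  have key : ∀ k ∈ (toPermHom (S.K x) (S.sub h)).ker, k = 1 := fun k hk => by
    refine Subtype.ext (H.faith k fun z => ?_)
    by_cases hz : z = x
    · rw [hz]; exact k.2.1
    by_contra h1
    haveI := hS.trans H hz
    haveI : IsPreprimitive (S.K x) (S.sub hz) :=
      IsPreprimitive.of_prime_card (by rw [hS.card_sub]; exact hp.out)
    haveI := IsQuasiPreprimitive.isPretransitive_of_normal (G := S.K x) (X := S.sub hz)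
      (N := (toPermHom (S.K x) (S.sub h)).ker) fun e => h1 (congrArg Subtype.val
        ((e.symm.subset (Set.mem_univ ⟨z, S.self hz⟩)) ⟨k, hk⟩))
    obtain ⟨d, hd, ho⟩ := ex_ord (p := p) (A := (toPermHom (S.K x) (S.sub h)).ker) (by
      rw [← hS.card_sub hz, ← index_stabilizer_of_transitive
        (toPermHom (S.K x) (S.sub h)).ker (⟨z, S.self hz⟩ : S.sub hz)]
      exact Subgroup.index_dvd_card _)
    refine ne_one ho (Subtype.ext (hS.reg H ?_ d.2.1 h ?_))
    · rw [← Subgroup.coe_pow, ← ho, pow_orderOf_eq_one, OneMemClass.coe_one]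
    · exact congrArg Subtype.val (DFunLike.congr_fun (MonoidHom.mem_ker.1 hd) ⟨y, S.self h⟩)
  exact ⟨fun {k l} e => (MonoidHom.ker_eq_bot_iff _).1 ((Subgroup.eq_bot_iff_forall _).2 key)
    (Equiv.ext e)⟩

theorem Sz.dich (hS : S.Sz p) (H : Hy p G Ω) : (p = 2 ∧ Nat.card G = 20) ∨
    (S.Two p ∧ ∀ x, ¬ Group.IsSolvable (S.K x)) := by
  classical
  let N : Ω → Subgroup G := fun x => Subgroup.closure {k | k ∈ S.K x ∧ k ^ p = 1}
  have hc : ∀ (g : G) x n, n ∈ N x → g * n * g⁻¹ ∈ N (g • x) := fun g x n hn =>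
    ((Subgroup.closure_le _).2 fun k hk => Subgroup.subset_closure ⟨S.K_conj g x k hk.1, by
      rw [MulEquiv.coe_toMonoidHom, MulAut.conj_apply, conj_pow, hk.2]; simp⟩ :
      N x ≤ (N (g • x)).comap (MulAut.conj g).toMonoidHom) hn
  have hle : ∀ x, N x ≤ S.K x := fun x => (Subgroup.closure_le _).2 fun k hk => hk.1
  by_cases hA : ∀ x, Nat.card (N x) = p
  · exact Or.inl (NS.main ⟨N, hc, hA, fun x n hn => (hle x hn).1, fun {x y} h n hn e =>
      hS.reg H (by
        have := pow_card_eq_one' (x := (⟨n, hn⟩ : N x))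
        rw [hA] at this
        exact congrArg Subtype.val this) (hle x hn).1 h e⟩ H)
  have hcard : ∀ x y, Nat.card (N x) ≤ Nat.card (N y) := fun x y => by
    obtain ⟨x', h1⟩ := H.ex_ne x
    obtain ⟨y', h2⟩ := H.ex_ne y
    obtain ⟨g, rfl, -⟩ := H.two x x' y y' h1 h2
    exact Nat.card_le_card_of_injective (fun n => ⟨_, hc g x n n.2⟩) fun a b e =>
      Subtype.ext (by simpa using congrArg Subtype.val e)
  have hns : ∀ x, ¬ Group.IsSolvable (S.K x) := fun x hs => hA fun x' => by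
    rw [(hcard x' x).antisymm (hcard x x')]
    obtain ⟨y, h⟩ := H.ex_ne x
    haveI := hS.trans H h
    haveI := hS.faith H h
    obtain ⟨Q⟩ : Nonempty (Sylow p (S.K x)) := inferInstance
    haveI := H17.pd_normal_of_solvable (hS.card_sub h) Q hs
    rw [← H17.pd_sylow_card (hS.card_sub h) Q, ← Subgroup.card_map_of_injective
      (S.K x).subtype_injective]
    congr 2
    refine le_antisymm ((Subgroup.closure_le _).2 fun k hk => ⟨⟨k, hk.1⟩, ?_, rfl⟩) ?_
    · have h1 : IsPGroup p (Subgroup.zpowers (⟨k, hk.1⟩ : S.K x)) := by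
        rintro ⟨_, j, rfl⟩
        refine ⟨1, Subtype.ext (Subtype.ext ?_)⟩
        change (k ^ j) ^ p ^ 1 = 1
        rw [pow_one]
        rw [← zpow_natCast, ← zpow_mul, mul_comm, zpow_mul, zpow_natCast, hk.2, one_zpow]
      obtain ⟨Q', hQ'⟩ := h1.exists_le_sylow
      haveI := Q.unique_of_normal this
      exact Subsingleton.elim Q' Q ▸ hQ' (Subgroup.mem_zpowers _)
    · rintro _ ⟨k, hk, rfl⟩
      refine Subgroup.subset_closure ⟨k.2, ?_⟩
      have := pow_card_eq_one' (x := (⟨k, hk⟩ : (Q : Subgroup (S.K x))))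
      rw [H17.pd_sylow_card (hS.card_sub h) Q] at this
      exact congrArg (fun z => z.1.1) this
  have key : ∀ x y (h : y ≠ x), 5 ≤ p ∧ ∀ u v u' v' : S.sub h, u ≠ v → u' ≠ v' →
      ∃ k : S.K x, k • u = u' ∧ k • v = v' := fun x y h => by
    haveI := hS.trans H h
    haveI := hS.faith H h
    haveI := Fintype.ofFinite (S.sub h)
    have hc : Fintype.card (S.sub h) = p := by rw [← Nat.card_eq_fintype_card, hS.card_sub]
    haveI : IsPretransitive (toPermHom (S.K x) (S.sub h)).range (S.sub h) := ⟨fun a b => by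
      obtain ⟨g, hg⟩ := exists_smul_eq (S.K x) a b
      exact ⟨⟨_, g, rfl⟩, hg⟩⟩
    have hn : ¬ Group.IsSolvable (toPermHom (S.K x) (S.sub h)).range := fun hs => hns x
      (Group.isSolvable_of_isSolvable_injective (f := (toPermHom (S.K x) (S.sub h)).rangeRestrict)
        (MonoidHom.rangeRestrict_injective_iff.2 toPerm_injective))
    refine ⟨Cfsg.Agent.S0675.five_le hc _ hn, fun u v u' v' h1 h2 => ?_⟩
    obtain ⟨⟨_, k, rfl⟩, hk⟩ := is_two_pretransitive_iff.1
      ((Cfsg.Agent.S0675.result (hc ▸ hp.out) _).resolve_left hn) h1 h2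
    exact ⟨k, hk⟩
  have : Nonempty Ω := Finite.card_pos_iff.1 (by rw [H.card]; omega)
  obtain ⟨a⟩ := this
  obtain ⟨b, hb⟩ := H.ex_ne a
  refine Or.inr ⟨⟨by have := (key a b hb).1; omega, fun x y h u hu v hv u' hu' v' hv' h1 h2 => ?_⟩,
    hns⟩
  obtain ⟨k, h3, h4⟩ := (key x y h).2 ⟨u, hu⟩ ⟨v, hv⟩ ⟨u', hu'⟩ ⟨v', hv'⟩
    (fun e => h1 (congrArg Subtype.val e)) fun e => h2 (congrArg Subtype.val e)
  exact ⟨k, k.2, congrArg Subtype.val h3, congrArg Subtype.val h4⟩

end BS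

end H13.At
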