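import Mathlib
import Cfsg.Agent.H13.At4

/-! Atkinson's theorem on degree `p² + 1`, part 5. -/

set_option autoImplicit false

namespace H13.At

open MulAction Pointwise

variable {G Ω : Type*} [Group G] [MulAction G Ω]

namespace BS
variable {S : BS G Ω} {p : ℕ} [hp : Fact p.Prime] [Finite Ω] [Finite G]

theorem Sz.exC (hS : S.Sz p) (H : Hy p G Ω) (hT : S.Two p) {x : Ω}
    (hns : ¬ Group.IsSolvable (S.K x)) :
    ∃ w : G, w • x = x ∧ w ∉ S.K x ∧ w ^ p = 1 ∧ ∀ k ∈ S.K x, w * k * w⁻¹ = k := by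
  obtain ⟨y, h⟩ := H.ex_ne x
  haveI := hS.trans H h
  haveI := hS.faith H h
  haveI : NeZero p := ⟨hp.out.ne_zero⟩
  have hα := hS.card_sub h
  obtain ⟨P, hPx, hP, hPK, c₀, h1, h2, h3⟩ := hS.exP H x
  have hcomm : ∀ a ∈ P, ∀ b ∈ P, a * b = b * a := fun a ha b hb =>
    congrArg Subtype.val ((IsPGroup.isMulCommutative_of_card_eq_prime_sq hP).is_comm.comm
      (⟨a, ha⟩ : P) ⟨b, hb⟩)
  have h4 : Nat.card (Subgroup.zpowers (⟨c₀, h2⟩ : S.K x)) = p := by
    rw [Nat.card_zpowers, Subgroup.orderOf_mk, h3]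
  obtain ⟨Q, hQ⟩ := (IsPGroup.of_card (h4.trans (pow_one p).symm)).exists_le_sylow
  have hQ' := Subgroup.eq_of_le_of_card_ge hQ (by rw [h4, H17.pd_sylow_card hα])
  have hQP : ∀ q ∈ (Q : Subgroup (S.K x)), (q : G) ∈ P := by
    rw [← hQ']
    rintro _ ⟨j, rfl⟩
    exact zpow_mem h1 j
  obtain ⟨c, hc, ε, -, hε⟩ := H17.pd_exists_coord hα Q ⟨y, S.self h⟩
  have hcP : (c : G) ∈ P := hQP c (hc ▸ Subgroup.mem_zpowers c)
  have hcn : ∀ (s t : ZMod p), c ^ s.val • ε t = ε (t + s) := fun s t => by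
    have := H17.coord_zpow hε (s.val : ℤ) t
    rwa [zpow_natCast, Int.cast_natCast, ZMod.natCast_zmod_val] at this
  have ext : ∀ k l : S.K x, (∀ j, k • ε j = l • ε j) → k = l := fun k l e =>
    eq_of_smul_eq_smul (α := S.sub h) fun u => by obtain ⟨j, rfl⟩ := ε.surjective u; exact e j
  obtain ⟨n, hn, hnQ⟩ : ∃ n ∈ Subgroup.normalizer ((Q : Subgroup (S.K x)) : Set (S.K x)),
      n ∉ (Q : Subgroup (S.K x)) := by
    by_contra h5
    push Not at h5
    have := H17.pd_eq_top_of_self_normalizing hα Q (by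
      rw [le_antisymm h5 Subgroup.le_normalizer, H17.pd_sylow_card hα])
    exact hns (H17.pd_solvable_of_normal hα Q (this ▸ inferInstance))
  obtain ⟨a, b, hab⟩ := H17.affine_of_normalizer hε (hc ▸ hn)
  obtain ⟨e, he⟩ : ∃ e, e = (c ^ b.val)⁻¹ * n := ⟨_, rfl⟩
  have hea : ∀ j, e • ε j = ε (a * j) := fun j => by
    rw [he, mul_smul, hab, inv_smul_eq_iff, hcn]
  have ha : a ≠ 1 := fun h5 => hnQ (by
    rw [← inv_mul_eq_one.1 (he.symm.trans
      (ext e 1 fun j => by rw [hea, h5, one_mul, one_smul])), ← hc]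
    exact pow_mem (Subgroup.mem_zpowers c) _)
  obtain ⟨w, hwP, hwK⟩ := SetLike.not_le_iff_exists.1 hPK
  haveI hN : ((S.K x).subgroupOf (stabilizer G x)).Normal := ⟨fun k hk g => by
    have := S.K_conj g x k hk
    rwa [show (g : G) • x = x from g.2] at this⟩
  have hnorm : ∀ g ∈ P, g ∈ Subgroup.normalizer (S.K x : Set G) := fun g hg =>
    Subgroup.le_normalizer_of_normal_subgroupOf (H := S.K x) (K := stabilizer G x)
      (fun k hk => hk.1) (hPx hg)
  let φ : ∀ g ∈ P, MulAut (S.K x) := fun g hg => (S.K x).normalizerMonoidHom ⟨g, hnorm g hg⟩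
  have hφ : ∀ g hg k, (φ g hg k : G) = g * k * g⁻¹ := fun g hg k => rfl
  have hφc : ∀ g hg, φ g hg c = c := fun g hg => Subtype.ext (by
    rw [hφ g hg, hcomm g hg c hcP, mul_inv_cancel_right])
  obtain ⟨m, hm⟩ : φ w hwP e * e⁻¹ ∈ Subgroup.zpowers c := by
    have h5 : e⁻¹ * c * e ∈ Subgroup.zpowers c := by
      have : e ∈ Subgroup.normalizer ((Q : Subgroup (S.K x)) : Set (S.K x)) :=
        he ▸ mul_mem (inv_mem (pow_mem (Subgroup.le_normalizer (hc ▸ Subgroup.mem_zpowers c)) _)) hn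
      rw [hc]
      simpa using (Subgroup.mem_normalizer_iff.1 (inv_mem this) c).1 (hc ▸ Subgroup.mem_zpowers c)
    obtain ⟨i, hi⟩ := h5
    have h6 := congrArg (φ w hwP) hi
    simp only [map_zpow, map_mul, map_inv, hφc] at h6 hi
    rw [hc, ← H17.pd_centralizer hα Q, ← hc]
    rintro _ ⟨j, rfl⟩
    refine (Commute.zpow_left (?_ : c * _ = _ * c) j)
    have h7 := h6.symm.trans hi
    calc _ = φ w hwP e * ((φ w hwP e)⁻¹ * c * φ w hwP e) * e⁻¹ := by group
      _ = _ := by rw [h7]; group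
  simp only at hm
  obtain ⟨j, hj⟩ : ∃ j : ZMod p, j * (a - 1) = m := ⟨m / (a - 1), div_mul_cancel₀ _ (sub_ne_zero.2 ha)⟩
  have hw' : w * c ^ j.val ∈ P := mul_mem hwP (pow_mem hcP _)
  have hφe : φ _ hw' e = e := by
    have h5 : φ _ hw' e = c ^ j.val * (c ^ m * e) * (c ^ j.val)⁻¹ := Subtype.ext (by
      rw [hm, inv_mul_cancel_right, hφ _ hw', hcomm w hwP _ (pow_mem hcP _)]
      simp only [Subgroup.coe_mul, Subgroup.coe_inv, Subgroup.coe_pow, hφ]
      group)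
    rw [h5]
    refine ext _ _ fun t => ?_
    have h6 : (c ^ j.val)⁻¹ • ε t = ε (t - j) := by rw [inv_smul_eq_iff, hcn, sub_add_cancel]
    rw [mul_smul, mul_smul, mul_smul, h6, hea, H17.coord_zpow hε, hcn, hea, ← hj]
    congr 1; ring
  have hp1 : (w * c ^ j.val) ^ p = 1 := by
    have h5 : orderOf (w * (c : G) ^ j.val) ∣ p ^ 2 := hP ▸ P.orderOf_dvd_natCard hw'
    obtain ⟨i, hi, h6⟩ := (Nat.dvd_prime_pow hp.out).1 h5
    by_cases h7 : i = 2
    · exfalso
      obtain ⟨l, hl⟩ := (Subgroup.eq_of_le_of_card_ge (Subgroup.zpowers_le.2 hw')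
        (by rw [Nat.card_zpowers, h6, h7, hP])).ge hcP
      have h8 : Commute (w * (c : G) ^ j.val) e :=
        mul_inv_eq_iff_eq_mul.1 ((hφ _ hw' e).symm.trans (congrArg Subtype.val hφe))
      have h9 : c * e = e * c := Subtype.ext (by
        have := h8.zpow_left l
        simp only at hl
        rwa [hl] at this)
      have := congrArg (· • ε 0) h9
      simp only [mul_smul, hε, hea, mul_zero, zero_add, mul_one] at this
      exact ha (ε.injective this).symm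
    · exact orderOf_dvd_iff_pow_eq_one.1 (h6 ▸ (pow_dvd_pow p (by omega : i ≤ 1)).trans
        (by rw [pow_one]))
  have key := aut_triv hα (fun u v u' v' h5 h6 => by
    obtain ⟨k, hk, h7, h8⟩ := hT.2 x y h u u.2 v v.2 u' u'.2 v' v'.2
      (fun e => h5 (Subtype.ext e)) fun e => h6 (Subtype.ext e)
    exact ⟨⟨k, hk⟩, Subtype.ext h7, Subtype.ext h8⟩) (φ _ hw') (by
      rw [← map_pow, show (⟨_, hnorm _ hw'⟩ : Subgroup.normalizer (S.K x : Set G)) ^ p = 1 from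
        Subtype.ext hp1, map_one]) ε hε ha hea (hφc _ hw') hφe
  refine ⟨_, hPx hw', fun h5 => hwK ?_, hp1, fun k hk => ?_⟩
  · simpa using mul_mem h5 (inv_mem (pow_mem c.2 j.val))
  · rw [← hφ _ hw' ⟨k, hk⟩, key]; rfl

omit hp [Finite G] in
theorem Sz.third (hS : S.Sz p) (h3 : 3 ≤ p) {x y : Ω} (h : y ≠ x) (u v : Ω) :
    ∃ z ∈ S.r x y, z ≠ u ∧ z ≠ v := by
  by_contra h1
  push Not at h1
  have := Set.ncard_le_ncard (s := S.r x y) (t := {u, v}) fun z hz => by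
    by_cases e : z = u
    · exact Or.inl e
    · exact Or.inr (h1 z hz e)
  have h2 := Set.ncard_insert_le u ({v} : Set Ω)
  rw [hS x y h] at this
  rw [Set.ncard_singleton] at h2
  omega

omit hp [Finite G] in
theorem Sz.fill (hS : S.Sz p) (hT : S.Two p) {x z z₀ : Ω} {Z : Set Ω} (h : z ≠ x)
    (hZ : Z.ncard + 1 = p) (hz : z ∈ Z) (h0 : z₀ ∈ S.r x z) (h1 : z₀ ≠ z)
    (hi : ∀ k ∈ S.K x, k • z₀ = z₀ → k • z ∈ Z) : S.r x z \ {z₀} = Z := by
  refine Set.eq_of_subset_of_ncard_le (fun v hv => ?_) ?_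
  · obtain ⟨k, hk, h2, h3⟩ := hT.2 x z h z₀ h0 z (S.self h) z₀ h0 v hv.1 h1 (Ne.symm hv.2)
    exact h3 ▸ hi k hk h2
  · have := Set.ncard_sdiff_singleton_add_one h0
    rw [hS x z h] at this
    omega

theorem Sz.main (hS : S.Sz p) (H : Hy p G Ω) : p = 2 ∧ Nat.card G = 20 := by
  obtain ⟨hT, hns⟩ | h := (hS.dich H).symm
  swap
  · exact h
  let R := H.fixBS (fun x => S.K x) S.K_conj
  have meet : ∀ {x y z}, y ≠ x → z ∈ S.r x y → z ∈ R.r x y → z = y := fun {x y z} h h1 h2 => by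
    by_contra h3
    obtain ⟨v, h4, h5, h6⟩ := hS.third hT.1 h y z
    obtain ⟨k, hk, h7, h8⟩ := hT.2 x y h y (S.self h) z h1 y (S.self h) v h4 (Ne.symm h3) h5.symm
    exact h6 (h8.symm.trans (h2.2 k hk h7))
  have : Nonempty Ω := Finite.card_pos_iff.1 (by rw [H.card]; omega)
  obtain ⟨a⟩ := this
  obtain ⟨b, hb⟩ := H.ex_ne a
  have hR : R.Sz p := by
    obtain ⟨w, h1, h2, h3, h4⟩ := hS.exC H hT (hns a)
    have h5 : w • b ∈ R.r a b := ⟨fun e => hb (MulAction.injective w (e.trans h1.symm)),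
      fun k hk e => by rw [← mul_smul, ← mul_inv_eq_iff_eq_mul.1 (h4 k hk), mul_smul, e]⟩
    rcases R.cases H hb with h6 | h6 | h6
    · rw [h6] at h5
      exact (h2 (hS.memK H h3 h1 hb (by rw [h5]; exact S.self hb))).elim
    · exact sz_of H hb h6
    · obtain ⟨v, h7, h8, -⟩ := hS.third hT.1 hb b b
      exact (h8 (meet hb h7 (h6 ▸ S.ne h7))).elim
  obtain ⟨hT', -⟩ | h := (hR.dich H).symm
  swap
  · exact h
  exfalso
  have cross : ∀ {x y z}, y ≠ x → z ≠ x → ∃ u ∈ R.r x y, u ∈ S.r x z := fun {x y z} h1 h2 => by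
    have h3 : S.r x '' R.r x y = S.r x '' {x}ᶜ :=
      Set.eq_of_subset_of_ncard_le (Set.image_mono fun u hu => R.ne hu) (by
        rw [hS.blocks H, Set.InjOn.ncard_image (injOn (R.nm x y) fun u hu v hv h4 =>
          meet (R.ne hu) h4 (by rwa [R.eq h1 hu])), hR x y h1])
    obtain ⟨u, hu, e⟩ := h3.symm.subset ⟨z, h2, rfl⟩
    exact ⟨u, hu, e ▸ S.self (R.ne hu)⟩
  have alt : ∀ x y, y ≠ x → insert y (S.r y x) = insert x (S.r x y) ∨
      insert y (S.r y x) = insert x (R.r x y) := fun x y h => by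
    have hZ : (S.r y x \ {x}).ncard + 1 = p := by
      rw [Set.ncard_sdiff_singleton_add_one (S.self h.symm), hS y x h.symm]
    have hi : ∀ k : G, k • x = x → k • y = y → ∀ z ∈ S.r y x \ {x}, k • z ∈ S.r y x \ {x} :=
      fun k h1 h2 z hz => ⟨S.pres h2 h.symm (by rw [h1]; exact S.self h.symm) hz.1,
        fun e => hz.2 (MulAction.injective k (Eq.trans e h1.symm))⟩
    obtain ⟨z, h1, h2, -⟩ := hS.third hT.1 h.symm x x
    have hz : z ∈ S.r y x \ {x} := ⟨h1, h2⟩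
    have fin : ∀ T : BS G Ω, T.Sz p → T.Two p → z ∈ T.r x y →
        insert y (S.r y x) = insert x (T.r x y) := fun T h3 h4 h5 => by
      have := h3.fill h4 h2 hZ hz (T.symm h h5) (S.ne h1).symm fun k hk e => hi k hk.1 e z hz
      rw [T.eq h h5] at this
      rw [← Set.insert_eq_of_mem (S.self h.symm), ← Set.insert_sdiff_singleton (a := x), ← this,
        Set.insert_comm, Set.insert_sdiff_singleton, Set.insert_eq_of_mem (T.self h)]
    by_cases c1 : z ∈ S.r x y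
    · exact Or.inl (fin S hS hT c1)
    by_cases c2 : z ∈ R.r x y
    · exact Or.inr (fin R hR hT' c2)
    exfalso
    obtain ⟨u, h3, h4⟩ := cross h h2
    obtain ⟨v, h5, h6⟩ := cross h2 h
    have e1 := hS.fill hT h2 hZ hz h4 (fun e => c2 (e ▸ h3)) fun k hk e =>
      hi k hk.1 ((R.symm h h3).2 k hk e) z hz
    have e2 := hR.fill hT' h2 hZ hz h5 (fun e => c1 (e ▸ h6)) fun k hk e =>
      hi k hk.1 (meet h (S.pres hk.1 h (S.eq h h6 ▸ S.pres hk.1 (S.ne h6)
        (by rw [e]; exact S.self (S.ne h6)) (S.symm h h6)) (S.self h)) (hk.2 y h)) z hz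
    obtain ⟨t, h7, h8, h9⟩ := hS.third hT.1 h.symm x z
    exact h9 (meet h2 (e1.symm.subset ⟨h7, h8⟩).1 (e2.symm.subset ⟨h7, h8⟩).1)
  by_cases c : ∃ x y, y ≠ x ∧ insert y (S.r y x) = insert x (S.r x y)
  · obtain ⟨x, y, h, e⟩ := c
    refine hS.steiner H fun x' y' h' => ?_
    obtain ⟨g, rfl, rfl⟩ := H.two x y x' y' h h'
    rw [← fam_smul S.smul, ← fam_smul S.smul, ← Set.smul_set_insert, ← Set.smul_set_insert, e]
  push Not at c
  have sw : ∀ x y, y ≠ x → insert y (S.r y x) = insert x (R.r x y) := fun x y h =>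
    (alt x y h).resolve_left (c x y h)
  obtain ⟨γ, h1, h2, -⟩ := hS.third hT.1 hb b b
  have h3 := S.ne h1
  have e1 := sw γ a h3.symm
  rw [S.eq hb h1] at e1
  have e2 := sw b a hb.symm
  have h4 : γ ∈ R.r b a := (e2.subset (Or.inr h1)).resolve_left h2
  have e3 := sw b γ h2
  rw [R.eq hb.symm h4, ← e2, e1] at e3
  have e4 : S.r γ b = R.r γ a := by
    rw [← Set.insert_sdiff_self_of_notMem (S.nm γ b), e3, Set.insert_sdiff_self_of_notMem (R.nm γ a)]
  have h5 : b ∈ R.r γ a := e4 ▸ S.self h2.symm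
  have h6 : a ∈ S.r γ b := e4 ▸ R.self h3.symm
  exact hb (meet h3.symm (S.symm h2.symm h6) h5)

end BS

theorem atkinson {G Ω : Type*} [Group G] [Finite G] [Fintype Ω] [MulAction G Ω] [FaithfulSMul G Ω]
    (p : ℕ) (hp : p.Prime) (hΩ : Fintype.card Ω = p ^ 2 + 1)
    (h2 : MulAction.IsMultiplyPretransitive G Ω 2) (a : Ω) :
    MulAction.IsPreprimitive ↥(MulAction.stabilizer G a) ↥(SubMulAction.ofStabilizer G a) ∨
      (p = 2 ∧ Nat.card G = 20) := by
  haveI := Fact.mk hp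
  have H : Hy p G Ω := ⟨by rw [Nat.card_eq_fintype_card, hΩ], fun x y x' y' h h' =>
    is_two_pretransitive_iff.1 h2 h.symm h'.symm, fun g hg =>
      eq_of_smul_eq_smul (α := Ω) fun x => by rw [hg, one_smul]⟩
  refine or_iff_not_imp_right.2 fun hn => ?_
  haveI : IsPretransitive (stabilizer G a) (SubMulAction.ofStabilizer G a) := ⟨fun u v => by
    obtain ⟨g, h1, h3⟩ := H.two a u a v u.2 v.2
    exact ⟨⟨g, h1⟩, Subtype.ext h3⟩⟩
  refine ⟨fun {B} hB => ?_⟩
  rcases B.eq_empty_or_nonempty with rfl | ⟨b, hb⟩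
  · exact Or.inl Set.subsingleton_empty
  have hB' : ∀ g : G, g • a = a → ∀ u ∈ B, ∀ v ∈ B, g • u.1 = v.1 → ∀ c ∈ B, ∃ d ∈ B,
      g • c.1 = d.1 := fun g hg u hu v hv e c hc =>
    ⟨(⟨g, hg⟩ : stabilizer G a) • c, hB.smul_eq_of_mem hu (by
      rw [show (⟨g, hg⟩ : stabilizer G a) • u = v from Subtype.ext e]; exact hv) ▸
        Set.smul_mem_smul_set hc, rfl⟩
  let S : BS G Ω :=
    { r := fun x y => {z | ∃ g : G, ∃ u ∈ B, ∃ v ∈ B, g • a = x ∧ g • u.1 = y ∧ g • v.1 = z}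
      smul := by
        rintro g _ _ _ ⟨l, u, hu, v, hv, rfl, rfl, rfl⟩
        exact ⟨g * l, u, hu, v, hv, mul_smul _ _ _, mul_smul _ _ _, mul_smul _ _ _⟩
      self := fun {x y} h => by
        obtain ⟨g, h1, h3⟩ := H.two a b x y b.2 h
        exact ⟨g, b, hb, b, hb, h1, h3, h3⟩
      nm := by
        rintro _ _ ⟨g, u, -, v, -, rfl, -, e⟩
        exact v.2 (MulAction.injective g e)
      eq := by
        rintro _ _ _ - ⟨g, u, hu, v, hv, rfl, rfl, rfl⟩
        ext w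
        constructor
        · rintro ⟨l, u', hu', v', hv', h1, h3, rfl⟩
          obtain ⟨d, hd, e⟩ := hB' (g⁻¹ * l) (by rw [mul_smul, h1, inv_smul_smul]) u' hu' v hv
            (by rw [mul_smul, h3, inv_smul_smul]) v' hv'
          exact ⟨g, u, hu, d, hd, rfl, rfl, by rw [← e, mul_smul, smul_inv_smul]⟩
        · rintro ⟨l, u', hu', v', hv', h1, h3, rfl⟩
          obtain ⟨d, hd, e⟩ := hB' (g⁻¹ * l) (by rw [mul_smul, h1, inv_smul_smul]) u' hu' u hu
            (by rw [mul_smul, h3, inv_smul_smul]) v' hv'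
          exact ⟨g, v, hv, d, hd, rfl, rfl, by rw [← e, mul_smul, smul_inv_smul]⟩ }
  have hS : ∀ c : SubMulAction.ofStabilizer G a, c.1 ∈ S.r a b ↔ c ∈ B := fun c =>
    ⟨fun ⟨g, u, hu, v, hv, h1, h3, h4⟩ => by
      obtain ⟨d, hd, e⟩ := hB' g h1 u hu b hb h3 v hv
      rwa [show c = d from Subtype.ext (h4.symm.trans e)],
    fun hc => ⟨1, b, hb, c, hc, one_smul _ _, one_smul _ _, one_smul _ _⟩⟩
  rcases S.cases H b.2 with h | h | h
  · refine Or.inl fun u hu v hv => Subtype.ext ?_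
    rw [← hS, h] at hu hv
    exact hu.trans hv.symm
  · exact (hn ((BS.sz_of H b.2 h).main H)).elim
  · exact Or.inr (Set.eq_univ_of_forall fun c => (hS c).1 (h ▸ c.2))

end H13.At
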