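import Cfsg.Agent.H13.C4Lin

/-!
# Extension field subgroups of linear groups: basic lemmas
-/

set_option autoImplicit false
set_option maxHeartbeats 400000

namespace H13.KL

open Module H12

section Fld
variable {F E : Type*} [Field F] [Field E] [Algebra F E]

theorem subring_eq_top [Fintype F] (hr : 2 ≤ finrank F E) (S : Subring E)
    (h : ∀ t : E, t ≠ 0 → t ^ (Fintype.card F - 1) ∈ S) : S = ⊤ := by
  have : FiniteDimensional F E := FiniteDimensional.of_finrank_pos (by omega)
  have : Finite E := Module.finite_of_finite F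
  letI := Fintype.ofFinite E
  let S' : Subfield E :=
    { S with
      inv_mem' := fun x hx => by
        by_cases h0 : x = 0
        · simp [h0]
        have h1 := FiniteField.pow_card_sub_one_eq_one x h0
        have h2 : 1 < Fintype.card E := Fintype.one_lt_card
        have : x⁻¹ = x ^ (Fintype.card E - 2) := by
          refine inv_eq_of_mul_eq_one_right ?_
          rw [← pow_succ', ← h1]; congr 1; omega
        rw [this]; exact S.pow_mem hx _ }
  by_contra hne
  classical
  have h1 : Fintype.card E = Fintype.card S' ^ finrank S' E := Module.card_eq_pow_finrank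
  have h2 : Fintype.card E = Fintype.card F ^ finrank F E := Module.card_eq_pow_finrank
  have h3 : finrank S' E ≠ 1 := fun e => hne (by
    rw [e, pow_one] at h1
    have := (Fintype.bijective_iff_injective_and_card (fun x : S' => (x : E))).2
      ⟨Subtype.val_injective, h1.symm⟩
    refine eq_top_iff.2 fun x _ => ?_
    obtain ⟨y, rfl⟩ := this.2 x
    exact y.2)
  have h4 : 0 < finrank S' E := finrank_pos
  have h5 : Fintype.card E - 1 ∣ (Fintype.card F - 1) * (Fintype.card S' - 1) :=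
    (FiniteField.forall_pow_eq_one_iff _ _).1 fun x => Units.ext (by
      have := FiniteField.pow_card_sub_one_eq_one (⟨_, h x x.ne_zero⟩ : S')
        (fun e => pow_ne_zero _ x.ne_zero (congrArg Subtype.val e))
      rw [pow_mul]
      simpa using congrArg Subtype.val this)
  have hq : 1 < Fintype.card F := Fintype.one_lt_card
  have hs : 1 < Fintype.card S' := Fintype.one_lt_card
  have h6 := Nat.le_of_dvd (Nat.mul_pos (by omega) (by omega)) h5
  have h7 : Fintype.card S' ^ 2 ≤ Fintype.card E := h1 ▸ Nat.pow_le_pow_right (by omega) (by omega)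
  have h8 : Fintype.card F ^ 2 ≤ Fintype.card E := h2 ▸ Nat.pow_le_pow_right (by omega) hr
  obtain ⟨q, hq'⟩ : ∃ q, Fintype.card F = q + 1 := ⟨Fintype.card F - 1, by omega⟩
  obtain ⟨s, hs'⟩ : ∃ s, Fintype.card S' = s + 1 := ⟨Fintype.card S' - 1, by omega⟩
  have hE : 0 < Fintype.card E := Fintype.card_pos
  obtain ⟨n, hn⟩ : ∃ n, Fintype.card E = n + 1 := ⟨Fintype.card E - 1, by omega⟩
  rw [hq', hs', hn, Nat.add_sub_cancel, Nat.add_sub_cancel, Nat.add_sub_cancel] at h6
  rw [hs', hn] at h7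
  rw [hq', hn] at h8
  rw [hq'] at hq
  rcases le_total q s with h | h <;> nlinarith

theorem mem_bot_or (hr : (finrank F E).Prime) (S : Subalgebra F E) :
    (∀ s ∈ S, ∃ c : F, algebraMap F E c = s) ∨ ∀ s, s ∈ S := by
  have := Subalgebra.isSimpleOrder_of_finrank_prime F E hr
  rcases eq_bot_or_eq_top S with h | h
  · exact Or.inl fun s hs => Algebra.mem_bot.1 (h ▸ hs)
  · exact Or.inr fun s => h ▸ Algebra.mem_top

end Fld

variable {F E V : Type*} [Field F] [Field E] [Algebra F E] [AddCommGroup V] [Module F V]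
  [Module E V] [IsScalarTower F E V] {X : Subgroup (V ≃ₗ[F] V)}

variable (F E) in
/-- The `E`-line through `u`. -/
def eL (u : V) : Submodule F V := (Submodule.span E {u}).restrictScalars F

theorem mem_eL {u x : V} : x ∈ eL F E u ↔ ∃ k : E, k • u = x := Submodule.mem_span_singleton

theorem smul_mem_eL (k : E) (u : V) : k • u ∈ eL F E u := mem_eL.2 ⟨k, rfl⟩

theorem self_mem_eL (u : V) : u ∈ eL F E u := mem_eL.2 ⟨1, one_smul _ _⟩

theorem eL_smul {u x : V} (k : E) (h : x ∈ eL F E u) : k • x ∈ eL F E u :=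
  Submodule.smul_mem (Submodule.span E {u}) k h

theorem eL_eq {u x : V} (h : x ∈ eL F E u) (hx : x ≠ 0) : eL F E x = eL F E u := by
  obtain ⟨k, rfl⟩ := mem_eL.1 h
  rw [eL, eL, Submodule.span_singleton_smul_eq (left_ne_zero_of_smul hx).isUnit]

theorem exists_edual {u x : V} (h : x ∉ eL F E u) (k : E) :
    ∃ ψ : Dual E V, ψ u = 0 ∧ ψ x = k := by
  obtain ⟨ψ, h1, h2⟩ := exists_dual_eq_one (H := Submodule.span E {u}) h
  exact ⟨k • ψ, by simp [h1 u (Submodule.mem_span_singleton_self u)], by simp [h2]⟩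

theorem edual_eL {u x : V} {ψ : Dual E V} (h : ψ u = 0) (hx : x ∈ eL F E u) : ψ x = 0 := by
  obtain ⟨k, rfl⟩ := mem_eL.1 hx
  simp [h]

variable (F) in
/-- An `E`-linear map of rank one. -/
def ea (ψ : Dual E V) (u : V) : End F V := (ψ.smulRight u).restrictScalars F

@[simp] theorem ea_apply (ψ : Dual E V) (u x : V) : ea F ψ u x = ψ x • u := rfl

variable (F E V) in
/-- Restriction of scalars. -/
def res : (V ≃ₗ[E] V) →* (V ≃ₗ[F] V) where
  toFun g := g.restrictScalars F
  map_one' := rfl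
  map_mul' _ _ := rfl

@[simp] theorem res_apply (g : V ≃ₗ[E] V) (x : V) : res F E V g x = g x := rfl

theorem res_mem_semiStab (g : V ≃ₗ[E] V) : res F E V g ∈ semiStab F E V :=
  mem_semiStab_of_linear fun a v => by simp

theorem semi_of_lines [Finite E] (hm : 2 ≤ finrank E V) {g : V ≃ₗ[F] V}
    (h : ∀ (v : V) (a : E), g (a • v) ∈ eL F E (g v)) : g ∈ semiStab F E V := by
  have : Module.Finite E V := Module.finite_of_finrank_pos (by omega)
  have : Nontrivial V := Module.nontrivial_of_finrank_pos (R := E) (by omega)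
  refine mem_semiStab fun a => ?_
  choose b hb using fun v => mem_eL.1 (h v a)
  have key : ∀ v w, v ≠ 0 → g w ∉ Submodule.span E {g v} → b v = b w := fun v w hv hw => by
    have h1 := hb (v + w)
    rw [smul_add, map_add, map_add, ← hb, ← hb, smul_add] at h1
    obtain ⟨ψ, a1, a2⟩ := exists_dual_eq_one hw
    have a3 := a1 _ (Submodule.mem_span_singleton_self _)
    have h2 := congrArg ψ h1
    simp only [map_add, map_smul, a3, a2, smul_eq_mul, mul_zero, mul_one, zero_add] at h2
    rw [h2, add_left_inj] at h1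
    exact (smul_left_injective E (by simpa using hv) h1).symm
  obtain ⟨v₀, hv₀⟩ := exists_ne (0 : V)
  refine ⟨b v₀, fun v => ?_⟩
  by_cases hv : v = 0
  · simp [hv]
  rw [← hb]
  congr 1
  by_cases h1 : g v ∈ Submodule.span E {g v₀}
  · obtain ⟨z, hz⟩ := exists_not_mem_span hm (g v₀)
    obtain ⟨z, rfl⟩ := g.surjective z
    rw [key v₀ z hv₀ hz, key v z hv fun e => hz
      ((Submodule.span_singleton_le_iff_mem _ _).2 h1 e)]
  · exact (key v₀ v hv₀ h1).symm

theorem exists_comp_eq [FiniteDimensional F V] [FiniteDimensional F E] {l : Dual F E} (hl : l ≠ 0)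
    (χ : Dual F V) : ∃ ψ : Dual E V, ∀ x, χ x = l (ψ x) := by
  have : Module.Finite E V := Module.Finite.of_restrictScalars_finite F E V
  let Φ : Dual E V →ₗ[F] Dual F V :=
    { toFun ψ := l ∘ₗ ψ.restrictScalars F
      map_add' _ _ := by ext; simp
      map_smul' _ _ := by ext; simp }
  have h1 : Function.Injective Φ := (injective_iff_map_eq_zero _).2 fun ψ e => by
    by_contra h
    obtain ⟨y, hy, -⟩ := exists_ne_ne h h
    exact hl (LinearMap.ext fun k => by simpa [Φ, hy] using LinearMap.congr_fun e (k • y))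
  have : Module.Finite F (Dual E V) := Module.Finite.trans E _
  obtain ⟨ψ, h⟩ := (LinearMap.injective_iff_surjective_of_finrank_eq_finrank (by
    rw [← finrank_mul_finrank F E (Dual E V), Subspace.dual_finrank_eq, Subspace.dual_finrank_eq,
      finrank_mul_finrank])).1 h1 χ
  exact ⟨ψ, fun x => by rw [← h]; rfl⟩

theorem tr_of_rank_one {t : V ≃ₗ[F] V} (ht : t ∈ X) {p : V} (hp : p ≠ 0)
    (h : ∀ v, t v - v ∈ Submodule.span F {p}) (h1 : t p = p) {v : V} (h2 : t v ≠ v) :
    ∃ χ : Dual F V, χ ≠ 0 ∧ χ p = 0 ∧ Tr X p χ := by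
  obtain ⟨φ, hφ⟩ := exists_dual_one (F := F) hp
  have e : ∀ x, t x = x + (φ ∘ₗ (t.toLinearMap - 1)) x • p := fun x => by
    obtain ⟨c, hc⟩ := Submodule.mem_span_singleton.1 (h x)
    have : (φ ∘ₗ (t.toLinearMap - 1)) x = c := by
      change φ (t x - x) = c
      simp [← hc, hφ]
    rw [this, hc]; abel
  exact ⟨_, fun h0 => h2 (by simpa [h0] using e v), by simp [h1], t, ht, e⟩

variable [Fintype F] [FiniteDimensional F V] (hX : semiStab F E V ⊓ SLV F V ≤ X)
include hX

theorem sq_ea {ψ : Dual E V} {u : V} (h : ψ u = 0) : Sq X (ea F ψ u) := by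
  obtain ⟨g, h1, h2⟩ := exists_extTr (F := F) h
  exact ⟨g, hX ⟨mem_semiStab_of_linear fun a v => by simp [h2, mul_smul], h1⟩, h2⟩

theorem ea_mem_MQ {ψ : Dual E V} {u : V} (h : ψ u = 0) : ea F ψ u ∈ MQ X (eL F E u) :=
  ⟨fun _ => smul_mem_eL _ _, fun x hx => by simp [edual_eL h hx], sq_ea hX h⟩

theorem res_mem {g : V ≃ₗ[E] V} (h : g ∈ SLV E V) : res F E V g ∈ X := by
  have : Module.Finite E V := Module.Finite.of_restrictScalars_finite F E V
  refine SLV_le_of_tr (X := X.comap (res F E V)) (fun w φ e => ?_) h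
  obtain ⟨t, h1, h2⟩ := sq_ea hX e
  refine ⟨LinearEquiv.transvection e, ?_, fun _ => rfl⟩
  rw [Subgroup.mem_comap]
  convert h1
  exact LinearEquiv.ext fun x => (h2 x).symm

theorem exists_dil {φ : Dual E V} {y : V} (h : φ y = 1) {t : E} (ht : t ≠ 0) :
    ∃ g ∈ X, ∀ x, g x = x + ((t ^ (Fintype.card F - 1) - 1) * φ x) • y := by
  have : Module.Finite E V := Module.Finite.of_restrictScalars_finite F E V
  obtain ⟨D, h1, -⟩ := exists_dil_det h (Units.mk0 t ht)
  have h2 : ∀ (n : ℕ) x, (D ^ n) x = x + ((t ^ n - 1) * φ x) • y := fun n => by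
    induction n with
    | zero => simp
    | succ n ih =>
      intro x
      rw [pow_succ', LinearEquiv.mul_apply, ih, h1]
      simp only [Units.val_mk0, LinearMap.smul_apply, map_add, map_smul, h, smul_eq_mul]
      module
  refine ⟨res F E V (D ^ (Fintype.card F - 1)), hX ⟨res_mem_semiStab _, ?_⟩, h2 _⟩
  change LinearEquiv.det _ = 1
  rw [map_pow, map_pow]
  exact Units.ext (by
    simpa using FiniteField.pow_card_sub_one_eq_one _ (LinearEquiv.det (res F E V D)).ne_zero)

theorem smul_mem_MQ (hr : 2 ≤ finrank F E) {u : V} (hu : u ≠ 0) (k : E) {c : End F V}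
    (hc : c ∈ MQ X (eL F E u)) : k • c ∈ MQ X (eL F E u) := by
  let S : Subring E :=
    { carrier := {k | ∀ c ∈ MQ X (eL F E u), k • c ∈ MQ X (eL F E u)}
      mul_mem' := fun ha hb c hc => by rw [mul_smul]; exact ha _ (hb c hc)
      one_mem' := fun c hc => by rwa [one_smul]
      add_mem' := fun ha hb c hc => by rw [add_smul]; exact add_mem (ha c hc) (hb c hc)
      zero_mem' := fun c _ => by rw [zero_smul]; exact zero_mem _
      neg_mem' := fun ha c hc => by rw [neg_smul]; exact neg_mem (ha c hc) }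
  have : S = ⊤ := subring_eq_top hr S fun t ht c hc => by
    obtain ⟨φ, hφ⟩ := exists_dual_one (F := E) hu
    obtain ⟨g, h1, h2⟩ := exists_dil hX hφ ht
    refine ⟨fun x => eL_smul _ (hc.1 x), fun x hx => by simp [hc.2.1 x hx],
      hc.2.2.conj' h1 fun x => ?_⟩
    obtain ⟨s, hs⟩ := mem_eL.1 (hc.1 x)
    rw [LinearMap.smul_apply, h2, map_add, hc.2.1 _ (smul_mem_eL _ _), add_zero, ← hs, h2]
    simp only [map_smul, hφ, smul_eq_mul]
    module
  exact (this ▸ Subring.mem_top k : k ∈ S) c hc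

theorem SLV_le_of_one_tr (hr : 2 ≤ finrank F E) (hm : 2 ≤ finrank E V) {v : V} {φ : Dual F V}
    (hv : v ≠ 0) (hφ : φ ≠ 0) (h0 : φ v = 0) (h : Tr X v φ) : SLV F V ≤ X := by
  have : FiniteDimensional F E := FiniteDimensional.of_finrank_pos (by omega)
  have : Module.Finite E V := Module.Finite.of_restrictScalars_finite F E V
  let ev : V →ₗ[F] (E →ₗ[F] V) := (LinearMap.lsmul E V).flip.restrictScalars₁₂ F F
  have hev : ∀ v k, ev v k = k • v := fun _ _ => rfl
  -- first a transvection whose axis does not contain the `E`-line of the centre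
  obtain ⟨φ, h0, h, k₀, hk₀⟩ : ∃ φ : Dual F V, φ v = 0 ∧ Tr X v φ ∧ ∃ k : E, φ (k • v) ≠ 0 := by
    by_contra hc
    have h1 : ∀ k : E, φ (k • v) = 0 := fun k => by
      by_contra h1; exact hc ⟨φ, h0, h, k, h1⟩
    have h2 : ∀ k : E, Tr X (k • v) φ := fun k => tr_iff_sq.2
      ((smul_mem_MQ hX hr hv k (c := φ.smulRight v) ⟨fun x => Submodule.smul_mem _ _ (self_mem_eL v),
        fun x hx => by obtain ⟨k, rfl⟩ := mem_eL.1 hx; simp [h1], h⟩).2.2.congr fun x => by
          simp [smul_comm k])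
    obtain ⟨w, a1, -⟩ := exists_ne_ne hφ hφ
    obtain ⟨s, a2, a3⟩ := exists_ker_ne_zero (φ ∘ₗ ev w) (by simp; omega)
    have a3' : φ (s • w) = 0 := a3
    have a4 : w ∉ Submodule.span E {v} := fun e => by
      obtain ⟨k, rfl⟩ := Submodule.mem_span_singleton.1 e
      simp [h1] at a1
    have li : ∀ s : E, s ≠ 0 → LinearIndependent E ![v, s • w] := fun s hs =>
      LinearIndependent.pair_iff' hv |>.2 fun a e => a4 (Submodule.mem_span_singleton.2
        ⟨s⁻¹ * a, by rw [mul_smul, e, smul_smul, inv_mul_cancel₀ hs, one_smul]⟩)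
    have li2 := LinearIndependent.pair_symm_iff.1 (li 1 one_ne_zero)
    rw [one_smul] at li2
    obtain ⟨A, hA⟩ := exists_equiv_of_li (li s a2) li2
    have e0 : A v = w := hA 0
    have e1 : A (s • w) = v := hA 1
    obtain ⟨χ, b1, b2⟩ := exists_dual_eq_one (not_mem_span_symm a4 hv)
    have b3 := b1 w (Submodule.mem_span_singleton_self w)
    obtain ⟨D, b4, b5⟩ := exists_dil_det b2 (LinearEquiv.det A)⁻¹
    have b6 : res F E V (A * D) ∈ X :=
      res_mem hX (show LinearEquiv.det _ = 1 by rw [map_mul, b5, mul_inv_cancel])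
    have b7 : ∀ k : E, (A * D) (k • s • w) = k • v := fun k => by
      rw [map_smul, LinearEquiv.mul_apply, b4]; simp [b3, ← e1]
    let ψ : Dual F V := φ ∘ₗ (res F E V (A * D)⁻¹).toLinearMap
    have b8 : ∀ x, ψ ((A * D) x) = φ x := fun x => congrArg φ (inv_apply_apply (A * D) x)
    have b10 : (A * D) (((LinearEquiv.det A : Eˣ) : E) • v) = w := by
      rw [map_smul, LinearEquiv.mul_apply, b4, LinearMap.smul_apply, b2, map_add, map_smul, e0,
        Units.val_inv_eq_inv_val]
      have := (LinearEquiv.det A).ne_zero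
      generalize ((LinearEquiv.det A : Eˣ) : E) = d at this ⊢
      match_scalars; simp only [smul_eq_mul]; field_simp; ring
    have b9 : Tr X w ψ := (h2 (LinearEquiv.det A : Eˣ)).conj' b6 b10 b8
    have c1 : ∀ k : E, ψ (k • v) = φ (k • s • w) := fun k => by rw [← b7, b8]
    have c2 : ψ w = 0 := by rw [← b10, b8, h1]
    have c3 : ψ v = 0 := by simpa [a3'] using c1 1
    refine hc ⟨ψ, c3, by simpa [a1] using h.comm b9 h0 c2 c3, s⁻¹, ?_⟩
    rw [c1, smul_smul, inv_mul_cancel₀ a2, one_smul, a1]; exact one_ne_zero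
  have h3 : ∀ χ : Dual F V, (∀ k : E, χ (k • v) = 0) → Tr X v χ := fun χ hχ => by
    obtain ⟨ψ, a1⟩ := exists_comp_eq (l := φ ∘ₗ ev v)
      (fun e => hk₀ (LinearMap.congr_fun e k₀)) χ
    have a2 : ψ v = 0 := by
      by_contra a2
      have := a1 ((k₀ * (ψ v)⁻¹) • v)
      rw [hχ, map_smul, smul_eq_mul, mul_assoc, inv_mul_cancel₀ a2, mul_one] at this
      exact hk₀ this.symm
    obtain ⟨t, t1, t2⟩ := sq_ea hX a2
    have := (h.conj' (inv_mem t1) (w := v) (ψ := φ + χ)
      (t.injective (by rw [apply_inv_apply, t2]; simp [a2])) fun x => by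
        obtain ⟨y, rfl⟩ := t.surjective x
        rw [inv_apply_apply, t2]; simp [a1, hev]).sub_right h (by simpa [h0] using hχ 1) h0
    simpa using this
  have h4 : ∀ w, w ≠ 0 → ∀ χ : Dual F V, (∀ k : E, χ (k • w) = 0) → Tr X w χ := fun w hw χ hχ => by
    obtain ⟨A, a1, a2⟩ := exists_SLV_apply hm hv hw
    exact (h3 (χ ∘ₗ (res F E V A).toLinearMap) fun k => by simp [a2, hχ]).conj' (res_mem hX a1) a2
      fun _ => rfl
  refine SLV_le_of_tr fun w χ e => ?_
  by_cases hw : w = 0
  · rw [hw]; exact tr_zero_left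
  obtain ⟨y, a1, a2⟩ := exists_ker_ne_zero (LinearMap.llcomp F E V F χ ∘ₗ ev) (by
    rw [Subspace.dual_finrank_eq, ← finrank_mul_finrank F E V]; nlinarith)
  have a3 : ∀ k : E, χ (k • y) = 0 := fun k => LinearMap.congr_fun a2 k
  by_cases h5 : y ∈ eL F E w
  · obtain ⟨s, rfl⟩ := mem_eL.1 h5
    refine h4 w hw χ fun k => ?_
    have := a3 (k * s⁻¹)
    rwa [smul_smul, mul_assoc, inv_mul_cancel₀ (left_ne_zero_of_smul a1), mul_one] at this
  obtain ⟨ξ, b1, b2⟩ := exists_dual_eq_one h5
  simpa [b2] using (h4 w hw ξ fun k => b1 _ (smul_mem_eL _ _)).comm (h4 y a1 χ a3)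
    (b1 _ (self_mem_eL w)) (by simpa using a3 1) e

end H13.KL
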