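import Cfsg.Agent.H13.C3Lin
import Cfsg.Agent.H12.NonMax

/-!
# Maximality of extension field subgroups of linear groups
-/

set_option autoImplicit false
set_option maxHeartbeats 800000

namespace H13.KL

open Module H12

variable {F E V : Type*} [Field F] [Field E] [Algebra F E] [AddCommGroup V] [Module F V]
  [Module E V] [IsScalarTower F E V] {X : Subgroup (V ≃ₗ[F] V)}

theorem eL_le_of_mul (hr : (finrank F E).Prime) {z : V} {Y : Submodule F V} {w : V} (hw : w ≠ 0)
    (hwz : w ∈ eL F E z) (hwY : w ∈ Y) (hY : ¬ eL F E z ≤ Y) {s : E}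
    (h : ∀ k : E, k • z ∈ Y → (s * k) • z ∈ Y) : ∃ c : F, algebraMap F E c = s := by
  let S : Subalgebra F E :=
    { carrier := {s | ∀ k : E, k • z ∈ Y → (s * k) • z ∈ Y}
      mul_mem' := fun ha hb k hk => by rw [mul_assoc]; exact ha _ (hb k hk)
      add_mem' := fun ha hb k hk => by rw [add_mul, add_smul]; exact add_mem (ha k hk) (hb k hk)
      algebraMap_mem' := fun c k hk => by
        rw [mul_smul, algebraMap_smul]; exact Y.smul_mem c hk }
  refine ((mem_bot_or hr S).resolve_right fun hS => hY ?_) s h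
  obtain ⟨k, rfl⟩ := mem_eL.1 hwz
  intro x hx
  obtain ⟨l, rfl⟩ := mem_eL.1 hx
  simpa [left_ne_zero_of_smul hw] using hS (l * k⁻¹) k hwY

variable [Fintype F] [FiniteDimensional F V] (hX : semiStab F E V ⊓ SLV F V ≤ X)
include hX

theorem MaxPair.codim_one (hr : (finrank F E).Prime) {z : V} {g : V ≃ₗ[F] V}
    (h : MaxPair X (eL F E z) g) {w : V} (hw : w ≠ 0) (hw1 : w ∈ eL F E z)
    (hw2 : g⁻¹ w ∈ eL F E z) {x x' : V} (hx : x ∉ eL F E z) (h1 : g⁻¹ x ∈ eL F E z)
    (h2 : g⁻¹ x' ∈ eL F E z) : ∃ c : F, x' - c • x ∈ eL F E z := by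
  let Y := (eL F E z).map (g : V →ₗ[F] V)
  have key : ∀ ψ : Dual E V, ψ z = 0 → ψ x • z ∈ Y → ψ x' • z ∈ Y := fun ψ e hψ => by
    obtain ⟨t, a1, a2⟩ := sq_ea hX e
    have := (h.stab a1 (fun y hy hy' => by simpa [a2, edual_eL e hy] using hy') hx h1
      (by rw [a2, map_add]; exact add_mem h1 (mem_map_iff.1 hψ)) _).1 h2
    simp only [LinearEquiv.mul_apply, apply_inv_apply, a2, map_add, ea_apply] at this
    exact mem_map_iff.2 ((Submodule.add_mem_iff_right _ h2).1 this)
  have hY : ¬ eL F E z ≤ Y := fun e => by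
    obtain ⟨y, a1, a2⟩ := h.inv.exists_not_mem
    exact a2 (by simpa [inv_apply_apply] using mem_map_iff.1 (e a1))
  by_cases h3 : x' ∈ Submodule.span E {z} ⊔ Submodule.span E {x}
  · obtain ⟨s, hs⟩ := mem_sup_span_singleton.1 h3
    obtain ⟨c, rfl⟩ := eL_le_of_mul hr hw hw1 (mem_map_iff.2 hw2) hY (s := s) fun k hk => by
      obtain ⟨ψ, a1, a2⟩ := exists_edual hx k
      have := edual_eL (F := F) a1 hs
      rw [map_sub, map_smul, a2, sub_eq_zero] at this
      have h5 := key ψ a1 (a2 ▸ hk)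
      rwa [this, smul_eq_mul] at h5
    exact ⟨c, by rwa [algebraMap_smul] at hs⟩
  · obtain ⟨ψ, a1, a2, a3⟩ := exists_dual_one_zero h3
    refine (hY fun y hy => ?_).elim
    obtain ⟨k, rfl⟩ := mem_eL.1 hy
    simpa [a2] using key (k • ψ) (by simp [a1 z (Submodule.mem_span_singleton_self z)])
      (by simp [a3])

theorem four_case (hq : Fintype.card F = 2) (hr : 2 ≤ finrank F E) (hm : 2 ≤ finrank E V)
    {x y : V} {κ : E} (hκ : κ * κ = 1 + κ) (hx : x ≠ 0) (hy : y ∉ eL F E x)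
    (hsp : ∀ v, ∃ a b c d : F, v = a • x + b • y + c • κ • x + d • κ • y) {s : V ≃ₗ[F] V}
    (hs : s ∈ X) (s1 : s x = x) (s2 : s y = y) (s3 : s (κ • x) = κ • x + y)
    (s4 : s (κ • y) = κ • y + x ∨ s (κ • y) = κ • y + x + y) : SLV F V ≤ X := by
  have h2 : (2 : F) = 0 := f2_two hq
  haveI : CharP F 2 := CharTwo.of_one_ne_zero_of_two_eq_zero one_ne_zero h2
  have hκ0 : κ ≠ 0 := by rintro rfl; simp at hκ
  have hκ2 : ∀ v : V, κ • κ • v = v + κ • v := fun v => by rw [smul_smul, hκ, add_smul, one_smul]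
  let o := res F E V (LinearEquiv.smulOfNeZero E V κ hκ0)
  have ho : o ∈ X := hX ⟨res_mem_semiStab _, mem_SLV.2 ((f2_cases hq _).resolve_left (by
    rw [← LinearEquiv.coe_det]; exact Units.ne_zero _))⟩
  have o1 : ∀ v, o v = κ • v := fun _ => rfl
  have hT : ∀ {x y : V}, y ∉ eL F E x → ∀ k : E, ∃ t ∈ X, t x = x ∧ t y = y + k • x ∧
      t (κ • x) = κ • x ∧ t (κ • y) = κ • y + k • κ • x := fun {x y} hy k => by
    obtain ⟨ψ, a1, a2⟩ := exists_edual hy k
    obtain ⟨t, t1, t2⟩ := sq_ea hX a1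
    exact ⟨t, t1, by simp [t2, a1], by simp [t2, a2], by simp [t2, a1],
      by simp [t2, a2, smul_smul, mul_comm]⟩
  have hy0 : y ≠ 0 := by rintro rfl; exact hy (zero_mem _)
  have hy' : x ∉ eL F E y := not_mem_span_symm hy hx
  obtain ⟨a, ha, a1, a2, a3, a4⟩ := hT hy 1
  obtain ⟨b, hb, b1, b2, b3, b4⟩ := hT hy κ
  obtain ⟨c, hc, c1, c2, c3, c4⟩ := hT hy' 1
  obtain ⟨d, hd, d1, d2, d3, d4⟩ := hT hy' κ
  simp only [one_smul] at a2 a4 c2 c4
  obtain ⟨ψ, e1, e2⟩ := exists_edual hy 1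
  have fin : ∀ t ∈ X, ∀ p : V, p ≠ 0 → t x = x + p → t y = y + p → t (κ • x) = κ • x + p →
      (t (κ • y) = κ • y + p ∨ t (κ • y) = κ • y) → t p = p → SLV F V ≤ X :=
    fun t ht p hp t1 t2 t3 t4 t5 => by
      obtain ⟨χ, a, b, c⟩ := tr_of_rank_one ht hp (fun v => by
        obtain ⟨a, b, c, d, rfl⟩ := hsp v
        rcases t4 with t4 | t4
        · exact Submodule.mem_span_singleton.2 ⟨a + b + c + d, by
            simp only [map_add, map_smul, t1, t2, t3, t4]; module⟩
        · exact Submodule.mem_span_singleton.2 ⟨a + b + c, by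
            simp only [map_add, map_smul, t1, t2, t3, t4]; module⟩) t5 (v := x) (by simpa [t1])
      exact SLV_le_of_one_tr hX hr hm hp a b c
  rcases s4 with s4 | s4
  · refine fin (o * s * o * s * a * c * a) (by
      repeat first | assumption | apply mul_mem) (x + y + κ • x + κ • y) (fun e => ?_)
      ?_ ?_ ?_ (Or.inl ?_) ?_
    · have h3 := congrArg ψ e
      simp only [map_add, map_smul, e1, e2, smul_eq_mul, mul_zero, mul_one, zero_add, add_zero,
        map_zero] at h3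
      exact hκ0 (mul_self_eq_zero.1 (hκ.trans h3))
    all_goals
      simp only [LinearEquiv.mul_apply, map_add, o1, a1, a2, a3, a4, c1, c2, c3, c4, s1, s2, s3, s4,
        smul_add, hκ2]
      generalize κ • x = x', κ • y = y'
      refine (one_smul F _).symm.trans (Eq.trans ?_ (one_smul F _))
      match_scalars <;> ring_nf <;> reduce_mod_char!
  · refine fin (o * o * s * o * a * d * s * b) (by
      repeat first | assumption | apply mul_mem) (x + y) (fun e => ?_)
      ?_ ?_ ?_ (Or.inr ?_) ?_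
    · simpa [e1, e2] using congrArg ψ e
    all_goals
      simp only [LinearEquiv.mul_apply, map_add, o1, a1, a2, a3, a4, b1, b2, b3, b4, d1, d2, d3, d4,
        s1, s2, s3, s4, smul_add, hκ2]
      generalize κ • x = x', κ • y = y'
      refine (one_smul F _).symm.trans (Eq.trans ?_ (one_smul F _))
      match_scalars <;> ring_nf <;> reduce_mod_char!

theorem SLV_le_of_semiStab (hr : (finrank F E).Prime) (hm : 2 ≤ finrank E V) {g : V ≃ₗ[F] V}
    (hg : g ∈ X) (hg' : g ∉ semiStab F E V) : SLV F V ≤ X := by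
  have : FiniteDimensional F E := FiniteDimensional.of_finrank_pos hr.pos
  have : Finite E := Module.finite_of_finite F
  have : Module.Finite E V := Module.Finite.of_restrictScalars_finite F E V
  by_contra hn
  obtain ⟨v, a, hva⟩ : ∃ (v : V) (a : E), g (a • v) ∉ eL F E (g v) := by
    by_contra hc
    push Not at hc
    exact hg' (semi_of_lines hm hc)
  have hv : v ≠ 0 := by rintro rfl; simp at hva
  obtain ⟨A, A1, A2⟩ := exists_SLV_apply hm (u := g v) (by simpa using hv) hv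
  have A3 : (res F E V A * g) v = v := A2
  obtain ⟨k, hk, z, hz, z1, z2⟩ := exists_maxPair (L := eL F E v) (mul_mem (res_mem hX A1) hg)
    (fun e => by
      obtain ⟨s, hs⟩ := mem_eL.1 ((e _).1 (smul_mem_eL a v))
      exact hva (mem_eL.2 ⟨s, A.injective (by rw [map_smul, A2]; exact hs)⟩)) hv (self_mem_eL v)
    (by nth_rw 2 [← A3]; rw [inv_apply_apply]; exact self_mem_eL v)
  rw [← eL_eq z1 hz] at hk z2
  clear z1 A3 A2 A1 hva hv hg hg'
  obtain ⟨x₀, x1, x2⟩ := hk.exists_not_mem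
  obtain ⟨x₁, y1, y2⟩ := hk.inv.exists_not_mem
  rw [inv_inv] at y1
  have cod1 : ∀ x, k⁻¹ x ∈ eL F E z → ∃ c : F, x - c • x₀ ∈ eL F E z := fun x h =>
    hk.codim_one hX hr hz (self_mem_eL z) z2 x2 x1 h
  have cod2 : ∀ x ∈ eL F E z, ∃ c : F, k⁻¹ x - c • x₁ ∈ eL F E z := fun x h =>
    hk.inv.codim_one hX hr (w := k⁻¹ z) (by simpa using hz) z2
      (by simpa [apply_inv_apply] using self_mem_eL z) y2 y1 (by simpa [apply_inv_apply] using h)
  have hx₀ : k⁻¹ x₀ ≠ 0 := fun e => x2 (by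
    rw [(k⁻¹).map_eq_zero_iff.1 e]; exact zero_mem _)
  by_cases big : ∃ c ∈ MQ X (eL F E z), c ≠ 0 ∧ c x₁ = 0
  · obtain ⟨c, c1, c2, c3⟩ := big
    obtain ⟨v₀, hv₀⟩ := DFunLike.ne_iff.1 c2
    obtain ⟨s, hs⟩ := mem_eL.1 (eL_eq (c1.1 v₀) hv₀ ▸ x1)
    have c4 := smul_mem_MQ hX hr.two_le hz s c1
    obtain ⟨ψ, a1, a2⟩ := exists_edual x2 1
    obtain ⟨ξ, b1, b2⟩ := exists_dual_eq_one x2
    have c5 : ∀ y ∈ eL F E z, cj k (s • c) y = 0 := fun y hy => by
      obtain ⟨t, ht⟩ := cod2 y hy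
      have := c1.2.1 _ ht
      rw [map_sub, map_smul, c3, smul_zero, sub_zero] at this
      rw [cj_apply, LinearMap.smul_apply, this, smul_zero, map_zero]
    have c6 : ∀ y, k⁻¹ (cj k (s • c) y) ∈ eL F E z := fun y => by
      rw [cj_apply, inv_apply_apply]; exact c4.1 _
    have := (sq_ea hX a1).comm (c4.2.2.conj hk.mem) (LinearMap.ext fun x => by simp [a1])
      (LinearMap.ext fun x => by
        rw [End.mul_apply, cj_apply, c4.2.1 _ (c6 x)]; simp)
      (LinearMap.ext fun x => c5 _ (smul_mem_eL _ _))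
    refine hn (SLV_le_of_one_tr hX hr.two_le hm hz (φ := ξ ∘ₗ cj k (s • c)) (fun e => ?_)
      (by simp only [LinearMap.comp_apply, c5 z (self_mem_eL z), map_zero])
      (tr_iff_sq.2 (this.congr fun x => ?_)))
    · have := LinearMap.congr_fun e (k v₀)
      simp [inv_apply_apply, hs, apply_inv_apply, b2] at this
    · obtain ⟨t, ht⟩ := cod1 _ (c6 x)
      have d1 := b1 _ ht
      have d2 := edual_eL a1 ht
      rw [map_sub, sub_eq_zero, LinearMap.map_smul_of_tower] at d1 d2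
      rw [End.mul_apply, ea_apply, d2, LinearMap.smulRight_apply, LinearMap.comp_apply, d1, a2, b2]
      simp
  push Not at big
  have small : ∀ c ∈ MQ X (eL F E z), c x₁ = 0 → c = 0 := fun c h1 h2 => by
    by_contra h; exact big c h1 h h2
  have lin : ∀ c ∈ MQ X (eL F E z), ∃ ψ : Dual E V, ψ z = 0 ∧ c = ea F ψ z := fun c hc => by
    obtain ⟨s, hs⟩ := mem_eL.1 (hc.1 x₁)
    obtain ⟨ψ, a1, a2⟩ := exists_edual y2 s
    exact ⟨ψ, a1, sub_eq_zero.1 (small _ (sub_mem hc (ea_mem_MQ hX a1)) (by simp [a2, hs]))⟩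
  have hψ0 : ∀ ψ : Dual E V, ψ z = 0 → ψ x₁ = 0 → ψ = 0 := fun ψ h1 h2 => LinearMap.ext fun x => by
    have := LinearMap.congr_fun (small _ (ea_mem_MQ hX h1) (by simp [h2])) x
    simpa [hz] using this
  -- the elements of the conjugate group
  have hb : ∀ w, k⁻¹ w ∈ eL F E z → ∃ b ∈ X, ∃ ψ : Dual E V, ψ z = 0 ∧ ψ x₁ • z = k⁻¹ w ∧
      (∀ y, b y = y + k (ψ (k⁻¹ y) • z)) := fun w hw => by
    obtain ⟨s, hs⟩ := mem_eL.1 hw
    obtain ⟨ψ, a1, a2⟩ := exists_edual y2 s
    obtain ⟨b, b1, b2⟩ := (sq_ea hX a1).conj hk.mem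
    exact ⟨b, b1, ψ, a1, by rw [a2, hs], b2⟩
  obtain ⟨κ, hκ⟩ := mem_eL.1 y1
  have hκF : ∀ c : F, algebraMap F E c ≠ κ := fun c e => y2 (by
    have : x₁ = c • k⁻¹ z := by rw [← map_smul, ← algebraMap_smul E, e, hκ, inv_apply_apply]
    rw [this]; exact Submodule.smul_mem _ _ z2)
  have semi : ∀ c : F, c ≠ 0 → (∀ s : E, k⁻¹ (s • z) ∈ eL F E z → ∃ t, algebraMap F E t = s) ∧
      ∀ α β : F, κ * κ = algebraMap F E α + algebraMap F E β * κ →
        2 * κ + algebraMap F E c = algebraMap F E β := fun c hc => by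
    obtain ⟨b, b1, ψ, b2, b3, b4⟩ := hb (c • z) (by rw [map_smul]; exact Submodule.smul_mem _ _ z2)
    have b5 : ∀ y, k⁻¹ y ∈ eL F E z → b y = y := fun y hy => by
      rw [b4, edual_eL b2 hy, zero_smul, map_zero, add_zero]
    have b6 : b (κ • z) = (κ + algebraMap F E c) • z := by
      rw [b4, hκ, inv_apply_apply, b3, apply_inv_apply, add_smul, hκ, algebraMap_smul]
    have b7 : b ∈ glStab (eL F E z) := mem_glStab_of_mapsTo fun y hy => by
      obtain ⟨t, ht⟩ := cod2 y hy
      have := edual_eL b2 ht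
      rw [map_sub, sub_eq_zero, LinearMap.map_smul_of_tower] at this
      rw [b4, this, smul_assoc, b3, map_smul, apply_inv_apply]
      exact add_mem hy (Submodule.smul_mem _ _ (Submodule.smul_mem _ _ (self_mem_eL z)))
    have b8 : ∀ s : E, ∃ σ : E, ∀ l : E, b (s • l • z) = σ • b (l • z) := fun s => by
      obtain ⟨φ, a1, a2⟩ := exists_edual y2 1
      obtain ⟨φ₁, c1, c2⟩ := lin _ (MQ_conj (ea_mem_MQ hX a1) b1 b7)
      obtain ⟨φ₂, c3, c4⟩ := lin _ (MQ_conj (ea_mem_MQ hX (ψ := s • φ) (by simp [a1])) b1 b7)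
      have c5 : φ₁ x₁ ≠ 0 := fun e => by
        have := LinearMap.congr_fun c2 (b x₁)
        simp [hψ0 φ₁ c1 e, inv_apply_apply, a2, hz] at this
      have c6 := hψ0 (φ₂ - (φ₂ x₁ * (φ₁ x₁)⁻¹) • φ₁) (by simp [c1, c3]) (by simp [c5])
      refine ⟨φ₂ x₁ * (φ₁ x₁)⁻¹, fun l => ?_⟩
      have d1 := LinearMap.congr_fun c2 (b (l • x₁))
      have d2 := LinearMap.congr_fun c4 (b (l • x₁))
      rw [sub_eq_zero.1 c6] at d2
      simp only [cj_apply, inv_apply_apply, ea_apply, map_smul, a2, smul_eq_mul, mul_one,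
        LinearMap.smul_apply] at d1 d2
      rw [smul_smul, mul_comm s, d2, d1, smul_smul]
    let S : Subalgebra F E :=
      { carrier := {s | ∀ l : E, b (s • l • z) = s • b (l • z)}
        mul_mem' := fun {s t} hs ht l => by
          rw [mul_smul, smul_smul t, hs, ← smul_smul t, ht, mul_smul]
        add_mem' := fun hs ht l => by rw [add_smul, map_add, hs, ht, add_smul]
        algebraMap_mem' := fun c l => by simp }
    have b9 : b z = z := b5 z z2
    refine ⟨fun s hs => ((mem_bot_or hr S).resolve_right fun hS => ?_) s fun l => ?_,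
      fun α β e => ?_⟩
    · have := hS κ 1
      rw [one_smul, b6, b9] at this
      simpa [hc] using smul_left_injective E hz this
    · obtain ⟨σ, hσ⟩ := b8 s
      have := hσ 1
      rw [one_smul, b5 _ hs, b9] at this
      rw [hσ, smul_left_injective E hz this]
    · obtain ⟨σ, hσ⟩ := b8 κ
      have d1 := hσ 1
      have d2 := hσ κ
      rw [one_smul, b6, b9] at d1
      rw [smul_smul, e, add_smul, mul_smul, algebraMap_smul, algebraMap_smul, map_add, map_smul,
        map_smul, b9, b6, ← smul_left_injective E hz d1, ← algebraMap_smul E α,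
        ← algebraMap_smul E β, smul_smul, smul_smul, ← add_smul] at d2
      have d3 := smul_left_injective E hz d2
      refine mul_left_cancel₀ ((map_ne_zero (algebraMap F E)).2 hc) ?_
      linear_combination -d3 - e
  have hE : ∀ s : E, ∃ α β : F, s = algebraMap F E α + algebraMap F E β * κ := fun s => by
    obtain ⟨t, ht⟩ := cod2 _ (smul_mem_eL s z)
    obtain ⟨α, hα⟩ := (semi 1 one_ne_zero).1 (s - algebraMap F E t * κ) (by
      rwa [sub_smul, mul_smul, algebraMap_smul, hκ, map_sub, map_smul k⁻¹ t, inv_apply_apply])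
    exact ⟨α, t, by rw [hα]; ring⟩
  obtain ⟨α, β, hαβ⟩ := hE (κ * κ)
  have h2 : (2 : F) = 0 := by
    by_contra h2
    refine hκF ((β - 1) / 2) ?_
    have := (semi 1 one_ne_zero).2 α β hαβ
    have h3 : (2 : E) ≠ 0 := by
      rw [← map_ofNat (algebraMap F E)]; exact (map_ne_zero _).2 h2
    rw [map_div₀, map_sub, map_ofNat, div_eq_iff h3]
    linear_combination -this
  have h2' : (2 : E) = 0 := by rw [← map_ofNat (algebraMap F E), h2, map_zero]
  have hF : ∀ c : F, c ≠ 0 → c = 1 := fun c hc => (algebraMap F E).injective (by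
    linear_combination (semi c hc).2 α β hαβ - (semi 1 one_ne_zero).2 α β hαβ)
  have hq : Fintype.card F = 2 := by
    classical
    have : (Finset.univ : Finset F) = {0, 1} := by
      ext c; by_cases h : c = 0 <;> simp [h, hF c]
    rw [← Finset.card_univ, this, Finset.card_pair zero_ne_one]
  have hβ : algebraMap F E β = 1 := by
    linear_combination -(semi 1 one_ne_zero).2 α β hαβ + κ * h2' + map_one (algebraMap F E)
  have hα : α = 1 := hF α fun e => by
    rw [e, map_zero, zero_add, hβ] at hαβ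
    exact hκF 1 (by rw [map_one]; exact (mul_right_cancel₀ (fun e => hκF 0 (by simp [e])) hαβ).symm)
  rw [hα, hβ, map_one, one_mul] at hαβ
  obtain ⟨b, b1, ψ, b2, b3, b4⟩ := hb x₀ x1
  have b5 : ∀ y, k⁻¹ y ∈ eL F E z → b y = y := fun y hy => by
      rw [b4, edual_eL b2 hy, zero_smul, map_zero, add_zero]
  have hψ : ψ x₁ ≠ 0 := fun e => hx₀ (by rw [← b3, e, zero_smul])
  have hker : ∀ y, ψ y = 0 → y ∈ eL F E z := fun y hy =>
    mem_of_forall_dual (Y := Submodule.span E {z}) fun φ hφ => by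
      have := hψ0 (φ - (φ x₁ * (ψ x₁)⁻¹) • ψ)
        (by simp [b2, hφ z (Submodule.mem_span_singleton_self z)]) (by simp [hψ])
      rw [sub_eq_zero.1 this, LinearMap.smul_apply, hy, smul_zero]
  have hL' : ∀ y, k⁻¹ y ∈ eL F E z → ∃ a c : F, y = a • z + c • x₀ := fun y hy => by
    obtain ⟨c, hc⟩ := cod1 y hy
    obtain ⟨s, hs⟩ := mem_eL.1 hc
    obtain ⟨t, rfl⟩ := (semi 1 one_ne_zero).1 s (by
      rw [hs, map_sub, map_smul]; exact sub_mem hy (Submodule.smul_mem _ _ x1))
    exact ⟨t, c, by rw [← algebraMap_smul E t, hs]; abel⟩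
  obtain ⟨ξ, e1, e2⟩ := exists_edual x2 1
  have b6 : b (κ • z) = κ • z + x₀ := by rw [b4, hκ, inv_apply_apply, b3, apply_inv_apply]
  refine hn (four_case hX hq hr.two_le hm hαβ hz x2 (fun v => ?_) b1 (b5 z z2) (b5 x₀ x1) b6 ?_)
  · have : v - ξ v • x₀ ∈ eL F E z :=
      mem_of_forall_dual (Y := Submodule.span E {z}) fun φ hφ => by
        have h3 : ξ x₁ ≠ 0 := fun e => by simp [hψ0 ξ e1 e] at e2
        have := hψ0 (φ - (φ x₁ * (ξ x₁)⁻¹) • ξ)
          (by simp [e1, hφ z (Submodule.mem_span_singleton_self z)]) (by simp [h3])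
        rw [sub_eq_zero.1 this]; simp [e2]
    obtain ⟨s, hs⟩ := mem_eL.1 this
    obtain ⟨a, c, rfl⟩ := hE s
    obtain ⟨b, d, h⟩ := hE (ξ v)
    refine ⟨a, b, c, d, ?_⟩
    rw [h] at hs
    simp only [add_smul, mul_smul, algebraMap_smul] at hs
    linear_combination (norm := abel) -hs
  · obtain ⟨a, c, h⟩ := hL' (k (ψ (k⁻¹ (κ • x₀)) • z)) (by
      rw [inv_apply_apply]; exact smul_mem_eL _ _)
    have ha : a = 1 := hF a fun e => by
      have d1 : k (ψ (k⁻¹ (κ • x₀ - c • κ • z)) • z) = 0 := by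
        rw [map_sub, map_sub, sub_smul, map_sub, h, e, map_smul k⁻¹ c, hκ, inv_apply_apply,
          LinearMap.map_smul_of_tower, smul_assoc, b3, map_smul k c, apply_inv_apply]
        simp
      obtain ⟨a', c', h'⟩ := hL' _ (hker _ ((smul_eq_zero.1 (k.map_eq_zero_iff.1 d1)).resolve_right hz))
      have := congrArg ξ h'
      simp only [map_sub, map_add, LinearMap.map_smul_of_tower, map_smul, e1, e2, smul_eq_mul,
        mul_one, mul_zero, smul_zero, sub_zero, zero_add] at this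
      exact hκF c' (by rw [this, Algebra.algebraMap_eq_smul_one])
    rw [b4, h, ha, one_smul]
    rcases f2_cases hq c with rfl | rfl
    · left; simp
    · right; simp [add_assoc]

end H13.KL
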