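import Cfsg.Agent.H13.C3Lin2

/-!
# Maximality of extension field subgroups of linear groups: final form
-/

set_option autoImplicit false
set_option maxHeartbeats 400000

namespace H13.KL

open Module H12 Cfsg.Geo Matrix

section
variable {F E V : Type*} [Field F] [Field E] [Algebra F E] [AddCommGroup V] [Module F V]
  [Module E V] [IsScalarTower F E V] [FiniteDimensional F V]

theorem exists_not_mem_range (hr : 2 ≤ finrank F E) : ∃ κ : E, ∀ c : F, algebraMap F E c ≠ κ := by
  have : FiniteDimensional F E := FiniteDimensional.of_finrank_pos (by omega)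
  obtain ⟨κ, h⟩ := exists_not_mem_span hr (1 : E)
  exact ⟨κ, fun c e => h (Submodule.mem_span_singleton.2 ⟨c, by
    rw [← e, Algebra.algebraMap_eq_smul_one]⟩)⟩

theorem not_SLV_le_semiStab (hr : 2 ≤ finrank F E) (hm : 2 ≤ finrank E V) :
    ¬ SLV F V ≤ semiStab F E V := fun h => by
  have : Module.Finite E V := Module.Finite.of_restrictScalars_finite F E V
  obtain ⟨κ, hκ⟩ := exists_not_mem_range hr
  obtain ⟨v, hv⟩ := finrank_pos_iff_exists_ne_zero.1 (show 0 < finrank E V by omega)
  obtain ⟨w, hw⟩ := exists_not_mem_span hm v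
  obtain ⟨ψ, a1, a2⟩ := exists_edual (F := F) hw 1
  obtain ⟨φ, b1, b2, b3⟩ := exists_dual_one_zero (H := Submodule.span F {v}) (u := κ • v) (v := w)
    fun e => by
      obtain ⟨c, hc⟩ := mem_sup_span_singleton.1 e
      obtain ⟨d, hd⟩ := Submodule.mem_span_singleton.1 hc
      have := congrArg ψ hd
      simp only [LinearMap.map_smul_of_tower, map_smul, map_sub, a1, a2, smul_zero, zero_sub,
        zero_eq_neg, smul_eq_zero, one_ne_zero, or_false] at this
      rw [this, zero_smul, sub_zero, ← algebraMap_smul E] at hd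
      exact hκ d (smul_left_injective E hv hd)
  obtain ⟨t, t1, t2⟩ := tr_SLV b3
  obtain ⟨b, hb⟩ := (h t1).1 κ
  have := congrArg ψ (hb v)
  simp [t2, b1 v (Submodule.mem_span_singleton_self v), b2, a1, a2] at this

variable [Fintype F]

theorem isMaximalIn_semiStab (hr : (finrank F E).Prime) (hm : 2 ≤ finrank E V) :
    IsMaximalIn (SLV F V) (semiStab F E V ⊓ SLV F V) :=
  isMaximalIn_of _ _ inf_le_right (fun h => not_SLV_le_semiStab hr.two_le hm (h.trans inf_le_left))
    fun _ h1 h2 _ hg hg' => SLV_le_of_semiStab h1 hr hm hg fun e => hg' ⟨e, h2 hg⟩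

theorem isMaximalIn_top_semiStab (hr : (finrank F E).Prime) (hm : 2 ≤ finrank E V) :
    IsMaximalIn ⊤ (semiStab F E V) := by
  have : FiniteDimensional F E := FiniteDimensional.of_finrank_pos hr.pos
  have : Finite E := Module.finite_of_finite F
  have : Module.Finite E V := Module.Finite.of_restrictScalars_finite F E V
  refine isMaximalIn_of _ _ le_top (fun h => not_SLV_le_semiStab hr.two_le hm (le_top.trans h))
    fun X h1 _ g hg hg' k _ => ?_
  have h2 := SLV_le_of_semiStab (inf_le_left.trans h1) hr hm hg hg'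
  obtain ⟨t, ht⟩ := FiniteField.unitsMap_norm_surjective F E (LinearEquiv.det k)
  obtain ⟨v, hv⟩ := finrank_pos_iff_exists_ne_zero.1 (show 0 < finrank E V by omega)
  obtain ⟨φ, hφ⟩ := exists_dual_one (F := E) hv
  obtain ⟨D, -, h3⟩ := exists_dil_det hφ t
  have h4 : LinearEquiv.det (res F E V D) = LinearEquiv.det k := Units.ext (by
    rw [← ht, ← h3, LinearEquiv.coe_det]
    exact (LinearMap.det_restrictScalars (f := D.toLinearMap)).trans (by simp))
  rw [← mul_inv_cancel_left (res F E V D) k]
  exact mul_mem (h1 (res_mem_semiStab D)) (h2 (show LinearEquiv.det _ = 1 by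
    rw [map_mul, map_inv, h4, inv_mul_cancel]))

end

variable {ι : Type} [Fintype ι] [DecidableEq ι] {F : Type*} [Field F] [Fintype F] {r : ℕ}
  {K : Subalgebra F (Matrix ι ι F)}

omit [Fintype F] in
theorem two_le_finrank_modOf [Nonempty ι] (hK : IsFieldSubalgebra r K) (h : r < Fintype.card ι) :
    letI := fieldOf hK; letI := modOf K; 2 ≤ finrank K (ι → F) := by
  letI := fieldOf hK; letI := modOf K; letI := towerOf K
  have := finrank_mul_finrank F K (ι → F)
  rw [hK.finrank_eq, finrank_fintype_fun_eq_card] at this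
  by_contra hc
  have : finrank K (ι → F) ≤ 1 := by omega
  nlinarith

theorem isMaximalIn_field (hr : r.Prime) (hK : IsFieldSubalgebra r K) (h : r < Fintype.card ι) :
    IsCoatom (subalgebraNormalizer K) ∧
      IsMaximalIn (specialLinear ι F) (subalgebraNormalizer K ⊓ specialLinear ι F) := by
  have : Nonempty ι := Fintype.card_pos_iff.1 (by omega)
  have hm := two_le_finrank_modOf hK h
  letI := fieldOf hK; letI := modOf K; letI := towerOf K
  have hr' : (finrank F K).Prime := hK.finrank_eq ▸ hr
  rw [subalgebraNormalizer_eq hK, specialLinear_eq, ← Subgroup.comap_inf]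
  refine ⟨?_, isMaximalIn_comap _ (isMaximalIn_semiStab hr' hm)⟩
  have := isMaximalIn_comap (glEquiv ι F) (isMaximalIn_top_semiStab hr' hm)
  rw [Subgroup.comap_top] at this
  exact ⟨this.1.ne, fun M hM => (this.2 M hM.le le_top).resolve_left hM.ne'⟩

end H13.KL
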