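import Cfsg.Agent.H13.Ten

/-!
# Maximality of tensor product stabilisers in the special linear group
-/

set_option autoImplicit false
set_option maxHeartbeats 400000

namespace H13.KL

open Module H12 TensorProduct

variable {F : Type*} [Field F] {U W : Type*} [AddCommGroup U] [Module F U] [AddCommGroup W]
  [Module F W]

theorem exists_scalar_of_eigen {A : End F U} (h : ∀ v, A v ∈ Submodule.span F {v}) :
    ∃ c : F, ∀ v, A v = c • v := by
  obtain ⟨c, hc⟩ := LinearMap.exists_eq_smul_id_of_forall_notLinearIndependent (f := A) (fun v hv => by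
    obtain ⟨c, hc⟩ := Submodule.mem_span_singleton.1 (h v)
    rw [LinearIndependent.pair_iff] at hv
    exact one_ne_zero (hv (-c) 1 (by simp [hc])).2)
  exact ⟨c, fun v => by simp [hc]⟩

theorem not_mem_span_symm {a b : U} (h : a ∉ Submodule.span F {b}) (hb : b ≠ 0) :
    b ∉ Submodule.span F {a} := fun e => by
  obtain ⟨c, rfl⟩ := Submodule.mem_span_singleton.1 e
  exact h (Submodule.mem_span_singleton.2 ⟨c⁻¹, by
    rw [smul_smul, inv_mul_cancel₀ (left_ne_zero_of_smul hb), one_smul]⟩)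

theorem cj_tr {α : U ≃ₗ[F] U} {N : End F U} (h : ∀ x, α x = x + N x) (hN : N * N = 0)
    (A : End F U) : cj α A = (1 + N) * A * (1 - N) := by
  ext x
  have := LinearMap.congr_fun hN x
  simp only [End.mul_apply, LinearMap.zero_apply] at this
  have e : α⁻¹ x = x - N x := α.injective (by rw [apply_inv_apply, h]; simp [this])
  simp [e, h]

variable [Finite F] [FiniteDimensional F U] [FiniteDimensional F W]

omit [Finite F] in
theorem exists_nil_mem [Fintype F] (I : Subalgebra F (End F U))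
    (hI : ∀ α ∈ SLV F U, ∀ A ∈ I, cj α A ∈ I)
    (hex : ¬ (finrank F U = 2 ∧ Fintype.card F = 2)) {A : End F U} (hA : A ∈ I) {v : U}
    (hv : A v ∉ Submodule.span F {v}) :
    ∃ u : U, ∃ ψ : Dual F U, u ≠ 0 ∧ ψ ≠ 0 ∧ ψ u = 0 ∧ ψ.smulRight u ∈ I := by
  have hv0 : v ≠ 0 := by rintro rfl; simp at hv
  have hD : ∀ (u : U) (ψ : Dual F U), ψ u = 0 → ∀ B ∈ I, ψ.smulRight u * B - B * ψ.smulRight u -
      ψ (B u) • ψ.smulRight u ∈ I := fun u ψ e B hB => by
    obtain ⟨t, h1, h2⟩ := tr_SLV e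
    have := I.sub_mem (hI t h1 B hB) hB
    rw [cj_tr (N := ψ.smulRight u) h2 (by rw [smulRight_mul, e, zero_smul])] at this
    convert this using 1
    ext x
    simp only [LinearMap.smulRight_apply, LinearMap.smul_apply, LinearMap.sub_apply, End.mul_apply,
      map_smul, LinearMap.add_apply, End.one_apply, map_sub, smul_eq_mul]
    module
  by_cases hq : Fintype.card F = 2
  · have h2 : 2 ≤ finrank F U := by
      have := Submodule.finrank_lt_finrank_of_lt (lt_top_iff_ne_top.2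
        (fun e => hv (e ▸ Submodule.mem_top) : Submodule.span F {v} ≠ ⊤))
      rw [finrank_span_singleton hv0, finrank_top] at this
      omega
    obtain ⟨ψ, a1, a2, a3⟩ := exists_dual_ker_two (F := F) (by omega) v (A v)
    have hB := hD v ψ a2 A hA
    rw [a3, zero_smul, sub_zero] at hB
    set B := ψ.smulRight v * A - A * ψ.smulRight v with hBd
    have eB : ∀ x, B x = ψ (A x) • v - ψ x • A v := fun x => by simp [hBd]
    have hAv : A v ≠ 0 := fun e => hv (e ▸ zero_mem _)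
    by_cases hs : ψ (A (A v)) = 0
    · by_cases h' : ψ ∘ₗ A = 0
      · refine ⟨A v, ψ, hAv, a1, a3, ?_⟩
        convert I.neg_mem hB using 1
        ext x
        have := LinearMap.congr_fun h' x
        simp only [LinearMap.comp_apply, LinearMap.zero_apply] at this
        simp [eB, this]
      · obtain ⟨χ, b1, b2⟩ := exists_dual_eq_one (not_mem_span_symm hv hv0)
        have b3 := b1 _ (Submodule.mem_span_singleton_self _)
        refine ⟨A v, ψ ∘ₗ A, hAv, h', hs, ?_⟩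
        convert hD (A v) χ b3 B hB using 1
        ext x
        simp [eB, b2, b3, hs, a3]
    · refine ⟨v, ψ, hv0, a1, a2, ?_⟩
      convert I.smul_mem (I.mul_mem hB hB) (-(ψ (A (A v)))⁻¹) using 1
      ext x
      simp only [LinearMap.smulRight_apply, LinearMap.smul_apply, End.mul_apply, eB, map_sub,
        map_smul, a2, a3, smul_eq_mul]
      match_scalars <;> field_simp <;> ring
  · obtain ⟨c, c0, c1⟩ : ∃ c : F, c ≠ 0 ∧ c ≠ 1 := by
      by_contra hc
      push Not at hc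
      classical
      have : (Finset.univ : Finset F) ⊆ {0, 1} := fun x _ => by
        by_cases h : x = 0 <;> simp [h, hc x]
      have := (Finset.card_le_card this).trans Finset.card_le_two
      have := Fintype.one_lt_card (α := F)
      rw [Finset.card_univ] at *
      omega
    obtain ⟨ψ, b1, b2⟩ := exists_dual_eq_one hv
    have b3 := b1 _ (Submodule.mem_span_singleton_self _)
    refine ⟨v, ψ, hv0, fun e => by simp [e] at b2, b3, ?_⟩
    have h1 := I.smul_mem (I.sub_mem (hD (c • v) ψ (by simp [b3]) A hA)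
      (I.smul_mem (hD v ψ b3 A hA) c)) (c - c * c)⁻¹
    convert h1 using 1
    have : c - c * c ≠ 0 := by
      rw [← mul_one_sub]; exact mul_ne_zero c0 (sub_ne_zero.2 c1.symm)
    ext x
    simp only [LinearMap.smulRight_apply, LinearMap.smul_apply, LinearMap.sub_apply, End.mul_apply,
      map_smul, b2, smul_eq_mul]
    match_scalars <;> field_simp <;> ring

omit [Finite F] in
theorem rankOne_mem [Fintype F] (I : Subalgebra F (End F U))
    (hI : ∀ α ∈ SLV F U, ∀ A ∈ I, cj α A ∈ I)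
    (hex : ¬ (finrank F U = 2 ∧ Fintype.card F = 2)) {A : End F U} (hA : A ∈ I) {v : U}
    (hv : A v ∉ Submodule.span F {v}) (u : U) (ψ : Dual F U) : ψ.smulRight u ∈ I := by
  obtain ⟨u₀, ψ₀, a1, a2, a3, a4⟩ := exists_nil_mem I hI hex hA hv
  have key : ∀ (u : U) (ψ : Dual F U), ψ u = 0 → ψ.smulRight u ∈ I := fun u ψ e => by
    by_cases hu : u = 0
    · simp [hu]
    by_cases hψ : ψ = 0
    · simp [hψ]
    obtain ⟨α, b1, c, b2, b3, b4⟩ := exists_SLV_pair a1 hu a2 hψ a3 e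
    convert I.smul_mem (hI α b1 _ a4) c⁻¹ using 1
    ext x
    simp [b3, ← b4, apply_inv_apply, smul_smul, b2, mul_comm, mul_left_comm]
  by_cases e : ψ u = 0
  · exact key u ψ e
  obtain ⟨y, hy⟩ := DFunLike.ne_iff.1 a2
  have h2 : 2 ≤ finrank F U := by
    have := Submodule.finrank_lt_finrank_of_lt (lt_top_iff_ne_top.2
      (fun e => hy (by
        obtain ⟨c, rfl⟩ := Submodule.mem_span_singleton.1 (e ▸ Submodule.mem_top (x := y))
        simp [a3]) : Submodule.span F {u₀} ≠ ⊤))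
    rw [finrank_span_singleton a1, finrank_top] at this
    omega
  obtain ⟨u', b1, b2⟩ := exists_ker_ne_zero ψ (by simp; omega)
  obtain ⟨χ, b3, b4⟩ := exists_dual_eq_one (H := Submodule.span F {u}) (u := u') (fun h => by
    obtain ⟨c, rfl⟩ := Submodule.mem_span_singleton.1 h
    simp [e, left_ne_zero_of_smul b1] at b2)
  simpa [smulRight_mul, b4] using I.mul_mem
    (key u χ (b3 u (Submodule.mem_span_singleton_self u))) (key u' ψ b2)

variable {X : Subgroup ((U ⊗[F] W) ≃ₗ[F] (U ⊗[F] W))}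

/-- `1 + A ⊗ (w φ) ∈ X`. -/
def RA (X : Subgroup ((U ⊗[F] W) ≃ₗ[F] (U ⊗[F] W))) (A : End F U) (w : W) (φ : Dual F W) : Prop :=
  Sq X (TensorProduct.map A (φ.smulRight w))

section
variable {A B : End F U} {w w' : W} {φ φ' : Dual F W}

omit [Finite F] [FiniteDimensional F U] [FiniteDimensional F W] in
theorem RA.comm (h : RA X A w φ) (h' : RA X B w' φ') (h1 : φ w = 0) (h2 : φ' w' = 0)
    (h3 : φ' w = 0) : RA X (A * B) (φ w' • w) φ' := by
  have := Sq.comm h h' (by rw [← TensorProduct.map_mul, smulRight_mul, h1]; simp)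
    (by rw [← TensorProduct.map_mul, smulRight_mul, h2]; simp)
    (by rw [← TensorProduct.map_mul, smulRight_mul, h3]; simp)
  rw [← TensorProduct.map_mul, smulRight_mul] at this
  exact this.congr fun x => by simp [map_smulRight, TensorProduct.map_smul_right]

variable (hX : tenStab F U W ⊓ SLV F (U ⊗[F] W) ≤ X)
include hX

theorem congr_one_mem {β : W ≃ₗ[F] W} (h : β ∈ SLV F W) :
    TensorProduct.congr (1 : U ≃ₗ[F] U) β ∈ X := hX ⟨congr_mem _ _, congr_one_mem_SLV h⟩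

theorem congr_mem_one {α : U ≃ₗ[F] U} (h : α ∈ SLV F U) :
    TensorProduct.congr α (1 : W ≃ₗ[F] W) ∈ X := hX ⟨congr_mem _ _, congr_mem_SLV_one h⟩

theorem ra_one (h : φ w = 0) : RA X 1 w φ := by
  obtain ⟨t, h1, h2⟩ := tr_SLV h
  exact ⟨_, congr_one_mem hX h1, congr_one_tr (B := φ.smulRight w) h2⟩

theorem RA.conjR (h : RA X A w φ) {β : W ≃ₗ[F] W} (hβ : β ∈ SLV F W) (h1 : β w = w')
    (h2 : ∀ x, φ' (β x) = φ x) : RA X A w' φ' :=
  Sq.conj' h (congr_one_mem hX hβ) fun x => by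
    induction x with
    | zero => simp
    | tmul u y => simp [h1, h2]
    | add x y a b => simp only [map_add, a, b]

theorem RA.conjL (h : RA X A w φ) {α : U ≃ₗ[F] U} (hα : α ∈ SLV F U) : RA X (cj α A) w φ :=
  Sq.conj' h (congr_mem_one hX hα) fun x => by
    induction x with
    | zero => simp
    | tmul u y => simp [inv_apply_apply]
    | add x y a b => simp only [map_add, a, b]

theorem RA.all (hd : 3 ≤ finrank F W) (h : RA X A w φ) (h0 : φ w = 0) (hw : w ≠ 0) (hφ : φ ≠ 0)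
    (h0' : φ' w' = 0) : RA X A w' φ' := by
  by_cases h1 : w' = 0
  · simpa [RA, h1] using sq_zero
  by_cases h2 : φ' = 0
  · simpa [RA, h2] using sq_zero
  obtain ⟨y, a1, -⟩ := exists_ne_ne hφ hφ
  obtain ⟨χ, a2, a3, a4⟩ := exists_dual_ker_two hd w y
  obtain ⟨β, b1, c, b2, b3, b4⟩ := exists_SLV_pair hw h1 a2 h2 a3 h0'
  have := h.comm (ra_one hX (w := c⁻¹ • y) (φ := χ) (by simp [a4])) h0 (by simp [a4]) a3
  rw [mul_one] at this
  exact this.conjR hX b1 (by simp [a1, b3, smul_smul, b2]) b4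

end

variable (X) in
/-- The algebra attached to an overgroup. -/
def alg (hX : tenStab F U W ⊓ SLV F (U ⊗[F] W) ≤ X) (hd : 3 ≤ finrank F W) :
    Subalgebra F (End F U) where
  carrier := {A | ∀ w φ, φ w = 0 → RA X A w φ}
  add_mem' {A B} ha hb w φ e := by
    have := Sq.add (ha w φ e) (hb w φ e) (by rw [← TensorProduct.map_mul, smulRight_mul, e]; simp)
    rwa [← TensorProduct.map_add_left] at this
  mul_mem' {A B} ha hb w φ e := by
    by_cases hw : w = 0
    · simpa [RA, hw] using sq_zero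
    obtain ⟨χ, hχ⟩ := exists_dual_one (F := F) hw
    obtain ⟨y, a1, a2⟩ := exists_ker_ne_zero (φ.prod χ) (by simp; omega)
    have a3 : φ y = 0 := congrArg Prod.fst a2
    have a4 : χ y = 0 := congrArg Prod.snd a2
    obtain ⟨ψ, b1, b2⟩ := exists_dual_eq_one (H := Submodule.span F {w}) (u := y) (fun h => by
      obtain ⟨c, rfl⟩ := Submodule.mem_span_singleton.1 h
      simp [hχ, left_ne_zero_of_smul a1] at a4)
    have b3 := b1 w (Submodule.mem_span_singleton_self w)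
    simpa [b2] using (ha w ψ b3).comm (hb y φ a3) b3 a3 e
  algebraMap_mem' c w φ e := by
    have := ra_one hX (w := c • w) (φ := φ) (by simp [e])
    refine Sq.congr this fun x => ?_
    simp [map_smulRight, smul_tmul]

theorem SLV_le_of_alg [Fintype F] (hX : tenStab F U W ⊓ SLV F (U ⊗[F] W) ≤ X)
    (hd : finrank F U < finrank F W) (hd' : 3 ≤ finrank F W)
    (hex : ¬ (finrank F U = 2 ∧ Fintype.card F = 2)) {A : End F U} (hA : A ∈ alg X hX hd') {v : U}
    (hv : A v ∉ Submodule.span F {v}) : SLV F (U ⊗[F] W) ≤ X := by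
  have h1 := rankOne_mem (alg X hX hd') (fun α hα B hB w φ e => (hB w φ e).conjL hX hα) hex hA hv
  have h2 : ∀ u w (χ : Dual F (U ⊗[F] W)), (∀ u', χ (u' ⊗ₜ w) = 0) → Tr X (u ⊗ₜ w) χ := by
    intro u w χ hχ
    let b := Module.finBasis F U
    have : ∑ i, TensorProduct.map ((b.coord i).smulRight u)
        ((χ ∘ₗ TensorProduct.mk F U W (b i)).smulRight w) ∈ MQ X (line F U w) :=
      sum_mem fun i _ => ⟨fun x => by rw [map_smulRight]; exact tmul_mem_line _ _, by
        rintro _ ⟨u', rfl⟩; simp [hχ], h1 u _ w _ (hχ _)⟩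
    refine tr_iff_sq.2 (this.2.2.congr fun x => ?_)
    conv_rhs => rw [← sum_tmul_cL b x]
    simp [map_smulRight', Finset.sum_smul]
  refine SLV_le_of_ctr (TensorProduct.span_tmul_eq_top F U W) ?_
  rintro _ ⟨u, w, rfl⟩ χ hχ
  by_cases hu : u = 0
  · simpa [hu] using tr_zero_left
  obtain ⟨w', a1, a2⟩ := exists_ker_ne_zero
    (LinearMap.llcomp F U _ F χ ∘ₗ (TensorProduct.mk F U W).flip) (by simpa)
  have a3 : ∀ u', χ (u' ⊗ₜ w') = 0 := fun u' => LinearMap.congr_fun a2 u'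
  by_cases hw : w ∈ Submodule.span F {w'}
  · obtain ⟨c, rfl⟩ := Submodule.mem_span_singleton.1 hw
    exact h2 _ _ _ fun u' => by simp [a3]
  obtain ⟨φ, b1, b2⟩ := exists_dual_eq_one (not_mem_span_symm hw a1)
  have b3 := b1 w (Submodule.mem_span_singleton_self w)
  obtain ⟨ψ, b4⟩ := exists_dual_one (F := F) hu
  simpa [b2, b4] using (h2 u w (ψ ∘ₗ cR U φ) (fun u' => by simp [b3])).comm (h2 u w' χ a3)
    (by simp [b3]) (a3 u) hχ

omit [Finite F] [FiniteDimensional F U] [FiniteDimensional F W] in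
theorem eq_cR_tmul {w : W} {φ : Dual F W} (h : φ w = 1) {x : U ⊗[F] W} (hx : x ∈ line F U w) :
    x = cR U φ x ⊗ₜ w := by
  obtain ⟨u, rfl⟩ := mem_line.1 hx
  simp [h]

theorem mq_eq [Fintype F] (hX : tenStab F U W ⊓ SLV F (U ⊗[F] W) ≤ X)
    (hd : finrank F U < finrank F W) (hd' : 3 ≤ finrank F W) (hU : 0 < finrank F U)
    (hex : ¬ (finrank F U = 2 ∧ Fintype.card F = 2)) (hn : ¬ SLV F (U ⊗[F] W) ≤ X) {w : W}
    (hw : w ≠ 0) {c : End F (U ⊗[F] W)} (hc : c ∈ MQ X (line F U w)) :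
    ∃ φ : Dual F W, φ w = 0 ∧ ∀ x, c x = cR U φ x ⊗ₜ w := by
  obtain ⟨φ₀, h0⟩ := exists_dual_one (F := F) hw
  let A : W →ₗ[F] End F U := LinearMap.llcomp F U _ U (cR U φ₀ ∘ₗ c) ∘ₗ (TensorProduct.mk F U W).flip
  have hA : ∀ u y, c (u ⊗ₜ y) = A y u ⊗ₜ w := fun u y => eq_cR_tmul h0 (hc.1 _)
  have h1 : ∀ y v, A y v ∈ Submodule.span F {v} := fun y v => by
    by_contra hv
    obtain ⟨χ, a1, a2, a3⟩ := exists_dual_ker_two hd' w y
    have : RA X (A y) w χ := (hc.2.2.comm (ra_one hX a3)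
      (LinearMap.ext fun x => hc.2.1 _ (hc.1 x))
      (by rw [← TensorProduct.map_mul, smulRight_mul, a3]; simp)
      (LinearMap.ext fun x => by
        rw [End.mul_apply, eq_cR_tmul h0 (hc.1 x)]; simp [a2])).congr fun x => by
          simp [map_smulRight, hA]
    exact hn (SLV_le_of_alg hX hd hd' hex (fun w' φ' e => this.all hX hd' a2 hw a1 e) hv)
  obtain ⟨u₀, hu₀⟩ := finrank_pos_iff_exists_ne_zero.1 hU
  obtain ⟨ψ₀, h2⟩ := exists_dual_one (F := F) hu₀
  let φ : Dual F W := ψ₀ ∘ₗ LinearMap.applyₗ u₀ ∘ₗ A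
  have h3 : ∀ y u, A y u = φ y • u := fun y u => by
    obtain ⟨s, hs⟩ := exists_scalar_of_eigen (h1 y)
    simp [φ, hs, h2]
  refine ⟨φ, ?_, fun x => ?_⟩
  · have := hc.2.1 _ (tmul_mem_line u₀ w)
    rw [hA, h3, ← smul_tmul'] at this
    exact (smul_eq_zero.1 this).resolve_right (tmul_ne_zero hu₀ hw)
  · induction x with
    | zero => simp
    | tmul u y => simp [hA, h3]
    | add x y a b => simp [a, b, add_tmul]

theorem stab_le (hX : tenStab F U W ⊓ SLV F (U ⊗[F] W) ≤ X) (hXS : X ≤ SLV F (U ⊗[F] W))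
    (hU : 0 < finrank F U) {w : W} (hw : w ≠ 0)
    (hM : ∀ c ∈ MQ X (line F U w), ∃ φ : Dual F W, φ w = 0 ∧ ∀ x, c x = cR U φ x ⊗ₜ w)
    {g : (U ⊗[F] W) ≃ₗ[F] (U ⊗[F] W)} (hg : g ∈ X) (hL : g ∈ glStab (line F U w)) :
    g ∈ tenStab F U W := by
  obtain ⟨φ₀, h0⟩ := exists_dual_one (F := F) hw
  have key : ∀ g ∈ X, g ∈ glStab (line F U w) → ∀ φ : Dual F W, φ w = 0 → ∃ φ' : Dual F W,
      φ' w = 0 ∧ ∀ x, g (cR U φ (g⁻¹ x) ⊗ₜ w) = cR U φ' x ⊗ₜ w := fun g hg hL φ e => by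
    have hm : TensorProduct.map 1 (φ.smulRight w) ∈ MQ X (line F U w) :=
      ⟨fun x => by rw [map_smulRight]; exact tmul_mem_line _ _, by
        rintro _ ⟨u', rfl⟩; simp [e], ra_one hX e⟩
    obtain ⟨φ', h1, h2⟩ := hM _ (MQ_conj hm hg hL)
    exact ⟨φ', h1, fun x => by simpa [map_smulRight] using h2 x⟩
  let A : End F U := cR U φ₀ ∘ₗ g.toLinearMap ∘ₗ (TensorProduct.mk F U W).flip w
  have hA : ∀ u, g (u ⊗ₜ w) = A u ⊗ₜ w := fun u => eq_cR_tmul h0 ((hL _).1 (tmul_mem_line _ _))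
  let α : U ≃ₗ[F] U := LinearEquiv.ofInjectiveEndo A fun u u' e =>
    tmul_left_inj hw (g.injective (by rw [hA, hA, e]))
  have hα : ∀ u, g (u ⊗ₜ w) = α u ⊗ₜ w := hA
  obtain ⟨u₀, hu₀⟩ := finrank_pos_iff_exists_ne_zero.1 hU
  obtain ⟨ψ₀, h2⟩ := exists_dual_one (F := F) (v := α u₀) (by simpa using hu₀)
  let B : End F W := cL W ψ₀ ∘ₗ g.toLinearMap ∘ₗ TensorProduct.mk F U W u₀
  have hB : ∀ φ φ' : Dual F W, (∀ x, cR U φ' (g x) = α (cR U φ x)) → ∀ y, φ' (B y) = φ y :=
    fun φ φ' e y => by simp [B, ← cR_cL, e, h2]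
  have hBw : B w = w := by simp [B, hα, h2]
  let β : W ≃ₗ[F] W := LinearEquiv.ofInjectiveEndo B ((injective_iff_map_eq_zero _).2 fun y e => by
    obtain ⟨c, rfl⟩ := Submodule.mem_span_singleton.1 (mem_of_forall_dual (Y := Submodule.span F {w})
      (y := y) fun φ hφ => by
        obtain ⟨φ', -, a2⟩ := key g hg hL φ (hφ w (Submodule.mem_span_singleton_self w))
        rw [← hB φ φ' (fun x => tmul_left_inj hw (by rw [← a2, inv_apply_apply, hα])), e, map_zero])
    simpa [hBw] using e)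
  have hβ : ∀ y, β y = B y := fun _ => rfl
  let h := TensorProduct.congr α β
  have hh : h ∈ glStab (line F U w) := fun x => by
    have := congr_mem_line α β (w := w) (x := x)
    rwa [hβ, hBw] at this
  have h3 : ∀ x, g x - h x ∈ line F U w := fun x => mem_line_of_cR fun φ' e => by
    obtain ⟨φ, -, a2⟩ := key g⁻¹ (inv_mem hg) (inv_mem hL) φ' e
    have a3 : ∀ x, cR U φ' (g x) = α (cR U φ x) := fun x => tmul_left_inj hw (by
      rw [← hα, ← a2, inv_inv, apply_inv_apply])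
    have a4 : φ' ∘ₗ β.toLinearMap = φ := LinearMap.ext (hB φ φ' a3)
    rw [map_sub, a3, congr_apply, cR_map, a4]; simp
  let c : End F (U ⊗[F] W) := (h⁻¹ * g).toLinearMap - 1
  have c1 : ∀ x, c x ∈ line F U w := fun x => (hh _).2 (by simpa [c, apply_inv_apply] using h3 x)
  have c2 : ∀ x ∈ line F U w, c x = 0 := by
    rintro _ ⟨u, rfl⟩
    have : g (u ⊗ₜ w) = h (u ⊗ₜ w) := by simp [hα, h, hβ, hBw]
    simp [c, this, inv_apply_apply]
  have c3 : ∀ x, (h⁻¹ * g) x = x + c x := fun x => by simp [c]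
  have c4 : h⁻¹ * g ∈ SLV F (U ⊗[F] W) := mem_SLV_of_sq_zero fun x => by
    rw [c3 x, add_sub_cancel_left, c3, c2 _ (c1 x), add_zero]
  have c5 : h ∈ X := hX ⟨congr_mem _ _, by
    simpa using mul_mem (hXS hg) (inv_mem c4)⟩
  obtain ⟨φ, a1, a2⟩ := hM c ⟨c1, c2, _, mul_mem (inv_mem c5) hg, c3⟩
  have : h⁻¹ * g = TensorProduct.congr 1 (LinearEquiv.transvection a1) := LinearEquiv.ext fun x => by
    rw [c3, a2, congr_one_tr (β := LinearEquiv.transvection a1) (B := φ.smulRight w) (fun _ => rfl),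
      map_smulRight]; rfl
  rw [← mul_inv_cancel_left h g, this]
  exact mul_mem (congr_mem α β) (congr_mem _ _)

omit [Finite F] in
/-- Elements of the stabiliser with small commutator space. -/
theorem scalar_of_small (hd : finrank F U < finrank F W) {α : U ≃ₗ[F] U} {β : W ≃ₗ[F] W}
    {Z : Submodule F (U ⊗[F] W)} (hZ : finrank F Z ≤ finrank F U)
    (h : ∀ x, TensorProduct.congr α β x - x ∈ Z) : ∃ c : F, ∀ u, α u = c • u := by
  refine exists_scalar_of_eigen (A := α.toLinearMap) fun u => ?_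
  by_contra hu
  obtain ⟨ψ, a1, a2⟩ := exists_dual_eq_one hu
  obtain ⟨y, b1, b2⟩ := exists_ker_ne_zero (LinearMap.codRestrict Z
    (((TensorProduct.congr α β).toLinearMap - 1) ∘ₗ TensorProduct.mk F U W u) fun y => h (u ⊗ₜ y))
    (hZ.trans_lt hd)
  have := congrArg (fun z : Z => cL W ψ z) b2
  simp only [LinearEquiv.coe_coe] at a2
  simp [a1 u (Submodule.mem_span_singleton_self u), a2, b1] at this

theorem SLV_le_of_tenStab [Fintype F] (hU : 2 ≤ finrank F U) (hd : finrank F U < finrank F W)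
    (hex : ¬ (finrank F U = 2 ∧ Fintype.card F = 2))
    (hX : tenStab F U W ⊓ SLV F (U ⊗[F] W) ≤ X) (hXS : X ≤ SLV F (U ⊗[F] W))
    {g : (U ⊗[F] W) ≃ₗ[F] (U ⊗[F] W)} (hg : g ∈ X) (hg' : g ∉ tenStab F U W) :
    SLV F (U ⊗[F] W) ≤ X := by
  by_contra hn
  have hd' : 3 ≤ finrank F W := by omega
  obtain ⟨w₀, hw₀⟩ := finrank_pos_iff_exists_ne_zero.1 (show 0 < finrank F W by omega)
  have hS : ∀ k ∈ X, ∀ w w' : W, w ≠ 0 → w' ≠ 0 →
      (∀ x ∈ line F U w, k x ∈ line F U w') → k ∈ tenStab F U W := fun k hk w w' hw hw' e => by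
    obtain ⟨β, b1, b2⟩ := exists_SLV_apply (F := F) (by omega) hw' hw
    have := stab_le hX hXS (by omega) hw (fun c hc => mq_eq hX hd hd' (by omega) hex hn hw hc)
      (mul_mem (congr_one_mem hX b1) hk) (mem_glStab_of_mapsTo fun x hx =>
        b2 ▸ (congr_mem_line 1 β).1 (e x hx))
    simpa using mul_mem (inv_mem (congr_mem 1 β)) this
  have hN : ∀ k ∈ X, k ∉ tenStab F U W → ∀ (w : W) (φ : Dual F W), w ≠ 0 → φ ≠ 0 → φ w = 0 →
      ∀ t ∈ X, (∀ x, t x = x + cR U φ x ⊗ₜ w) → k⁻¹ * t * k ∉ glStab (line F U w₀) := by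
    intro k hk hk' w φ hw hφ e t ht et hs
    obtain ⟨α, β, hαβ⟩ := hS _ (mul_mem (mul_mem (inv_mem hk) ht) hk) _ _ hw₀ hw₀
      fun x hx => (hs x).1 hx
    have a1 : ∀ x, k (TensorProduct.congr α β x - x) = cR U φ (k x) ⊗ₜ w := fun x => by
      rw [← hαβ]; simp [apply_inv_apply, et]
    obtain ⟨c, hc⟩ := scalar_of_small hd (α := α) (β := β)
      (Z := (line F U w).map ((k⁻¹ : _ ≃ₗ[F] _) : _ →ₗ[F] _))
      (by rw [LinearEquiv.finrank_map_eq, finrank_line hw]) fun x =>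
        mem_map_iff.2 (by rw [inv_inv, a1]; exact tmul_mem_line _ _)
    obtain ⟨y, hy⟩ : ∃ y, c • β y - y ≠ 0 := by
      by_contra hc'
      push Not at hc'
      obtain ⟨z, hz⟩ := DFunLike.ne_iff.1 hφ
      obtain ⟨u, hu⟩ := finrank_pos_iff_exists_ne_zero.1 (show 0 < finrank F U by omega)
      have a2 : ∀ x, TensorProduct.congr α β x - x = 0 := fun x => by
        induction x with
        | zero => simp
        | tmul u y => rw [congr_tmul, hc, smul_tmul, ← tmul_sub, hc', tmul_zero]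
        | add x y a b => rw [map_add, add_sub_add_comm, a, b, add_zero]
      have := a1 (k⁻¹ (u ⊗ₜ z))
      rw [a2, map_zero, apply_inv_apply, cR_tmul] at this
      exact tmul_ne_zero (smul_ne_zero hz hu) hw this.symm
    refine hk' (hS k hk _ w hy hw ?_)
    rintro _ ⟨u, rfl⟩
    have := a1 (u ⊗ₜ y)
    rw [congr_tmul, hc, smul_tmul, ← tmul_sub] at this
    exact this ▸ tmul_mem_line _ _
  have hT : ∀ (w : W) (φ : Dual F W), φ w = 0 → ∃ t ∈ X, ∀ x, t x = x + cR U φ x ⊗ₜ w :=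
    fun w φ e => by
      obtain ⟨t, h1, h2⟩ := ra_one hX e
      exact ⟨t, h1, fun x => by rw [h2, map_smulRight]; rfl⟩
  obtain ⟨u₀, hu₀⟩ := finrank_pos_iff_exists_ne_zero.1 (show 0 < finrank F U by omega)
  obtain ⟨φ, a1, a2⟩ := exists_ker_ne_zero (LinearMap.applyₗ (g (u₀ ⊗ₜ w₀)) ∘ₗ cR U) (by simpa)
  obtain ⟨w, a3, a4⟩ := exists_ker_ne_zero φ (by simp; omega)
  obtain ⟨t, a5, a6⟩ := hT w φ a4
  have a7 : (g⁻¹ * t * g) (u₀ ⊗ₜ w₀) = u₀ ⊗ₜ w₀ := by
    have : cR U φ (g (u₀ ⊗ₜ w₀)) = 0 := a2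
    simp [a6, this, inv_apply_apply]
  obtain ⟨k, hk, z, z0, z1, z2⟩ := exists_maxPair (mul_mem (mul_mem (inv_mem hg) a5) hg)
    (hN g hg hg' w φ a3 a1 a4 t a5 a6) (tmul_ne_zero hu₀ hw₀) (tmul_mem_line _ _)
    (by nth_rw 1 [← a7]; rw [inv_apply_apply]; exact tmul_mem_line _ _)
  obtain ⟨u₁, rfl⟩ := mem_line.1 z1
  have hu₁ : u₁ ≠ 0 := by rintro rfl; simp at z0
  have hk' : k ∉ tenStab F U W := by
    rintro ⟨α, β, rfl⟩
    refine hk.ne (inv_mem_iff.1 (mem_glStab_of_mapsTo fun x hx => ?_))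
    rw [congr_inv, congr_tmul] at z2
    exact line_le_of_mem_span (mem_span_of_tmul_mem_line (by simpa using hu₁) z2)
      ((congr_mem_line α⁻¹ β⁻¹).1 hx)
  obtain ⟨x, x1, x2⟩ := hk.exists_not_mem
  obtain ⟨φ, b1, b2⟩ := exists_ker_ne_zero ((Dual.eval F W w₀).prod
    ((Submodule.span F {u₁}).mkQ ∘ₗ LinearMap.applyₗ x ∘ₗ cR U)) (by
      have := (Submodule.span F {u₁}).finrank_quotient_add_finrank
      rw [finrank_span_singleton hu₁] at this
      simp; omega)
  have b3 : φ w₀ = 0 := congrArg Prod.fst b2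
  obtain ⟨c, hc⟩ := Submodule.mem_span_singleton.1
    ((Submodule.Quotient.mk_eq_zero _).1 (congrArg Prod.snd b2))
  obtain ⟨t, b5, b6⟩ := hT w₀ φ b3
  refine hN k hk.mem hk' w₀ φ hw₀ b1 b3 t b5 b6 (hk.stab b5 ?_ x2 x1 ?_)
  · rintro _ ⟨u, rfl⟩ h
    simpa [b6, b3] using h
  · have : cR U φ x = c • u₁ := hc.symm
    rw [b6, this, ← smul_tmul', map_add, map_smul]
    exact add_mem x1 (Submodule.smul_mem _ _ z2)

end H13.KL
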