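import Mathlib

set_option autoImplicit false

namespace H13.Cm

open Equiv Equiv.Perm Finset

variable {α : Type*} [Fintype α] [DecidableEq α]

theorem inv_type {u : Perm α} (h : u * u = 1) :
    ∃ k, u.cycleType = Multiset.replicate k 2 ∧ #u.support = 2 * k ∧ sign u = (-1) ^ k := by
  haveI := Fact.mk Nat.prime_two
  have c1 := cycleType_of_pow_prime_eq_one (p := 2) (σ := u) (by rw [sq, h])
  have c2 := sum_cycleType u
  have c3 := sign_of_cycleType u
  generalize u.cycleType.card = k at c1 c3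
  rw [c1, Multiset.sum_replicate, smul_eq_mul] at c2 c3
  exact ⟨k, c1, by omega, by rw [c3, pow_add, mul_comm k, pow_mul]; simp⟩

theorem fix_le {x w : Perm α} (hx : IsCycle x) (h : w * x = x⁻¹ * w) : #x.support ≤ #w.support + 2 := by
  classical
  have : #(x.support \ w.support) ≤ 2 := by
    rcases (x.support \ w.support).eq_empty_or_nonempty with e | ⟨a, ha⟩
    · simp [e]
    rw [mem_sdiff, mem_support, notMem_support] at ha
    refine le_trans (card_le_card (t := image (fun g : Subgroup.zpowers x => g.1 a) {g | g ^ 2 = 1}) ?_)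
      (card_image_le.trans (IsCyclic.card_pow_eq_one_le two_pos))
    intro b hb
    rw [mem_sdiff, mem_support, notMem_support] at hb
    obtain ⟨k, rfl⟩ := hx.exists_pow_eq ha.1 hb.1
    have e : w * x ^ k = (x ^ k)⁻¹ * w := by
      rw [← inv_pow]; exact SemiconjBy.pow_right h k
    have e2 := congrArg (· a) e
    simp only [Perm.mul_apply, ha.2, hb.2] at e2
    refine mem_image.2 ⟨⟨x ^ k, Subgroup.npow_mem_zpowers x k⟩, mem_filter.2 ⟨mem_univ _, Subtype.ext ?_⟩, rfl⟩
    change (x ^ k) ^ 2 = 1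
    rw [← pow_mul, hx.pow_eq_one_iff' ha.1, pow_mul, sq, Perm.mul_apply, e2]
    simp
  have := le_card_sdiff w.support x.support
  omega

/-- decomposition in two involutions -/
def PP (x : Perm α) : Prop := ∃ u v : Perm α, u * u = 1 ∧ v * v = 1 ∧ x = u * v ∧ u.support ⊆ x.support ∧
  v.support ⊆ x.support ∧ (x ≠ 1 → ∃ i, u i = i ∧ v i ≠ i) ∧ #u.support ≤ #v.support + 2 ∧
  #v.support ≤ #u.support + 2

theorem pp_cycle {x : Perm α} (hx : IsCycle x) : PP x := by
  let e := hx.zpowersEquivSupport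
  let a := Classical.choose hx
  have ha : x a ≠ a := (Classical.choose_spec hx).1
  let u : Perm α := ofSubtype (e.symm.trans ((Equiv.inv _).trans e))
  have h1 : ∀ g : Subgroup.zpowers x, u (g.1 a) = g.1⁻¹ a := fun g => by
    have : u (e g).1 = (e (e.symm (e g))⁻¹).1 := ofSubtype_apply_coe _ (e g)
    rw [e.symm_apply_apply] at this
    exact this
  have h2 : ∀ b, x b = b → u b = b := fun b hb => ofSubtype_apply_of_not_mem _ (by simpa using hb)
  have h3 : ∀ k : ℤ, u ((x ^ k) a) = (x ^ (-k)) a := fun k => by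
    rw [zpow_neg]; exact h1 ⟨x ^ k, k, rfl⟩
  have c : ∀ b, x b = b ∨ ∃ k : ℤ, b = (x ^ k) a := fun b => by
    by_cases hb : x b = b
    · exact Or.inl hb
    · obtain ⟨k, hk⟩ := hx.exists_zpow_eq ha hb
      exact Or.inr ⟨k, hk.symm⟩
  have u2 : u * u = 1 := Perm.ext fun b => by
    rcases c b with hb | ⟨k, rfl⟩
    · simp [h2 b hb]
    · simp only [Perm.mul_apply, h3, neg_neg, one_apply]
  have ux : u * x = x⁻¹ * u := Perm.ext fun b => by
    rcases c b with hb | ⟨k, rfl⟩
    · simp only [Perm.mul_apply, hb, h2 b hb]; exact (Perm.inv_eq_iff_eq.2 hb.symm).symm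
    · rw [Perm.mul_apply, ← Perm.mul_apply x, ← zpow_one_add, h3, Perm.mul_apply, h3, ← Perm.mul_apply,
        ← zpow_neg_one, ← zpow_add, neg_add]
  have s1 : u.support ⊆ x.support := fun b hb => by
    rw [mem_support] at hb ⊢; exact fun e => hb (h2 b e)
  have s2 : (u * x).support ⊆ x.support := (support_mul_le u x).trans (sup_le s1 le_rfl)
  have f1 := fix_le hx ux
  have f2 := fix_le (w := u * x) hx (by rw [ux, mul_assoc, ux])
  have := card_le_card s1
  have := card_le_card s2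
  refine ⟨u, u * x, u2, by rw [← mul_assoc, ux, mul_assoc x⁻¹, u2]; simp, by rw [← mul_assoc, u2, one_mul], s1, s2,
    fun _ => ⟨a, by simpa using h3 0, ?_⟩, by omega, by omega⟩
  rw [ux, Perm.mul_apply, show u a = a by simpa using h3 0]
  exact fun e => ha (Perm.inv_eq_iff_eq.1 e).symm

theorem pp (x : Perm α) : PP x := by
  induction x using cycle_induction_on with
  | base_one => exact ⟨1, 1, by simp, by simp, by simp, by simp, by simp, by simp, by simp, by simp⟩
  | base_cycles x hx => exact pp_cycle hx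
  | induction_disjoint x y hd hx h1 h2 =>
    obtain ⟨u, v, u2, v2, e, s1, s2, hi, c1, c2⟩ := h1
    obtain ⟨i, i1, i2⟩ := hi hx.ne_one
    obtain ⟨u', v', u2', v2', e', s1', s2', c1', c2'⟩ : ∃ u' v' : Perm α, u' * u' = 1 ∧ v' * v' = 1 ∧ y = u' * v' ∧
        u'.support ⊆ y.support ∧ v'.support ⊆ y.support ∧ #u.support + #u'.support ≤ #v.support + #v'.support + 2 ∧
        #v.support + #v'.support ≤ #u.support + #u'.support + 2 := by
      obtain ⟨u', v', u2', v2', e', s1', s2', -, c1', c2'⟩ := h2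
      by_cases h : #u.support + #u'.support ≤ #v.support + #v'.support + 2 ∧
        #v.support + #v'.support ≤ #u.support + #u'.support + 2
      · exact ⟨u', v', u2', v2', e', s1', s2', h⟩
      · have : #(v' * u' * v').support = #u'.support := by
          nth_rewrite 2 [← inv_eq_of_mul_eq_one_right v2']
          exact card_support_conj
        refine ⟨v', v' * u' * v', v2', ?_, ?_, s2', (support_mul_le _ _).trans
          (sup_le ((support_mul_le _ _).trans (sup_le s2' s1')) s2'), by omega, by omega⟩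
        · rw [show v' * u' * v' * (v' * u' * v') = v' * u' * (v' * v') * u' * v' by group, v2', mul_one,
            mul_assoc v', u2', mul_one, v2']
        · rw [← mul_assoc, ← mul_assoc, v2', one_mul, e']
    have D : ∀ {a b : Perm α}, a.support ⊆ x.support → b.support ⊆ y.support → Disjoint a b :=
      fun h1 h2 => hd.mono h1 h2
    have S : ∀ {a b : Perm α}, a.support ⊆ x.support → b.support ⊆ y.support →
        (a * b).support ⊆ (x * y).support := fun h1 h2 => by
      rw [(D h1 h2).support_mul, hd.support_mul]; exact union_subset_union h1 h2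
    have hy : i ∉ y.support := disjoint_left.1 hd.disjoint_support (s2 (mem_support.2 i2))
    refine ⟨u * u', v * v', ?_, ?_, ?_, S s1 s1', S s2 s2', fun _ => ⟨i, ?_, ?_⟩, ?_, ?_⟩
    · rw [(show u * u' * (u * u') = u * u * (u' * u') from
        (D s1 s1').commute.symm.mul_mul_mul_comm _ _), u2, u2', one_mul]
    · rw [(show v * v' * (v * v') = v * v * (v' * v') from
        (D s2 s2').commute.symm.mul_mul_mul_comm _ _), v2, v2', one_mul]
    · rw [(D s2 s1').commute.symm.mul_mul_mul_comm, ← e, ← e']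
    · rw [Perm.mul_apply, notMem_support.1 fun h => hy (s1' h), i1]
    · rw [Perm.mul_apply, notMem_support.1 fun h => hy (s2' h)]; exact i2
    · rw [(D s1 s1').card_support_mul, (D s2 s2').card_support_mul]; exact c1'
    · rw [(D s1 s1').card_support_mul, (D s2 s2').card_support_mul]; exact c2'

/-- has two 2-cycles -/
def Gd (B : Perm α) : Prop := sign B = 1 ∧ ∃ p q r s : α, p ≠ q ∧ p ≠ r ∧ p ≠ s ∧ q ≠ r ∧ q ≠ s ∧ r ≠ s ∧
  B p = q ∧ B q = p ∧ B r = s ∧ B s = r

theorem four {v : Perm α} (h : v * v = 1) (S : Finset α) (hS : ∀ a ∈ S, v a ∈ S) (h4 : #S + 3 ≤ #v.support) :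
    ∃ p r : α, p ∉ S ∧ r ∉ S ∧ v p ∉ S ∧ v r ∉ S ∧ p ≠ v p ∧ p ≠ r ∧ p ≠ v r ∧ v p ≠ r ∧ v p ≠ v r ∧ r ≠ v r := by
  have vv : ∀ a, v (v a) = a := fun a => congrArg (· a) h
  have h1 := le_card_sdiff S v.support
  obtain ⟨p, hp⟩ : (v.support \ S).Nonempty := card_pos.1 (by omega)
  have h2 := le_card_sdiff {p, v p} (v.support \ S)
  have h3 : #{p, v p} ≤ 2 := card_le_two
  obtain ⟨r, hr⟩ : ((v.support \ S) \ {p, v p}).Nonempty := card_pos.1 (by omega)
  simp only [mem_sdiff, mem_support, mem_insert, mem_singleton, not_or] at hp hr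
  exact ⟨p, r, hp.2, hr.1.2, fun e => hp.2 (vv p ▸ hS _ e), fun e => hr.1.2 (vv r ▸ hS _ e), Ne.symm hp.1,
    Ne.symm hr.2.1, fun e => hr.2.2 (by rw [e, vv]), Ne.symm hr.2.2, fun e => hr.2.1 (v.injective e).symm,
    Ne.symm hr.1.1⟩

theorem gd_inv {v : Perm α} (h : v * v = 1) (hs : sign v = 1) (h4 : 3 ≤ #v.support) : Gd v := by
  have vv : ∀ a, v (v a) = a := fun a => congrArg (· a) h
  obtain ⟨p, r, -, -, -, -, a, b, c, d, e, f⟩ := four h ∅ (by simp) (by simpa using h4)
  exact ⟨hs, p, v p, r, v r, a, b, c, d, e, f, rfl, vv p, rfl, vv r⟩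

theorem ty3 {w : Perm α} (h : w * w = 1) {i j : α} (hi : w i ≠ i) (hj : w j = j) {k : ℕ}
    (hk : w.cycleType = Multiset.replicate k 2) :
    (w * swap i j).cycleType = Multiset.replicate (k - 1) 2 + {3} := by
  have vv : ∀ a, w (w a) = a := fun a => congrArg (· a) h
  have ij : i ≠ j := by rintro rfl; exact hi hj
  have wj : w i ≠ j := fun e => ij (w.injective (e.trans hj.symm))
  have f : ∀ a, a = i ∨ a = w i ∨ a = j → (w * swap i (w i)) a = a := by
    rintro a (rfl | rfl | rfl)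
    · simp [vv]
    · simp
    · rw [Perm.mul_apply, swap_apply_of_ne_of_ne ij.symm wj.symm, hj]
  have d1 : Disjoint (w * swap i (w i)) (swap i (w i)) := fun a => by
    by_cases h : a = i ∨ a = w i
    · exact Or.inl (f a (by tauto))
    · push Not at h; exact Or.inr (swap_apply_of_ne_of_ne h.1 h.2)
  have d2 : Disjoint (w * swap i (w i)) (swap i (w i) * swap i j) := fun a => by
    by_cases h : a = i ∨ a = w i ∨ a = j
    · exact Or.inl (f a h)
    · push Not at h
      right; rw [Perm.mul_apply, swap_apply_of_ne_of_ne h.1 h.2.2, swap_apply_of_ne_of_ne h.1 h.2.1]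
  have e1 := d1.cycleType_mul
  have e2 := d2.cycleType_mul
  rw [mul_assoc, swap_mul_self, mul_one, hk, (isSwap_iff_cycleType.1 ⟨_, _, hi.symm, rfl⟩)] at e1
  rw [← mul_assoc, mul_assoc w, swap_mul_self, mul_one,
    (isThreeCycle_swap_mul_swap_same hi.symm ij wj).cycleType] at e2
  rw [e2]
  congr 1
  obtain _ | k := k
  · simpa using congrArg Multiset.card e1
  · rw [Multiset.replicate_succ, ← Multiset.singleton_add, add_comm] at e1
    exact (add_right_cancel e1).symm

omit [Fintype α] in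
theorem klein {a b c d : α} (h1 : a ≠ b) (h2 : a ≠ c) (h3 : a ≠ d) (h4 : b ≠ c) (h5 : b ≠ d) (h6 : c ≠ d) :
    swap a b * swap c d * (swap a c * swap b d) = swap a d * swap b c := by
  have := h1.symm; have := h2.symm; have := h3.symm; have := h4.symm; have := h5.symm; have := h6.symm
  ext t
  by_cases e1 : t = a
  · subst e1; simp [swap_apply_of_ne_of_ne, *]
  by_cases e2 : t = b
  · subst e2; simp [swap_apply_of_ne_of_ne, *]
  by_cases e3 : t = c
  · subst e3; simp [swap_apply_of_ne_of_ne, *]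
  by_cases e4 : t = d
  · subst e4; simp [swap_apply_of_ne_of_ne, *]
  simp [swap_apply_of_ne_of_ne, *]

theorem dbl (a b c d : α) (h1 : a ≠ b) (h2 : a ≠ c) (h3 : a ≠ d) (h4 : b ≠ c) (h5 : b ≠ d) (h6 : c ≠ d) :
    Gd (swap a b * swap c d) ∧ (swap a b * swap c d).cycleType = {2, 2} := by
  refine ⟨⟨by simp [sign_swap h1, sign_swap h6], a, b, c, d, h1, h2, h3, h4, h5, h6, ?_, ?_, ?_, ?_⟩, ?_⟩
  · simp [swap_apply_of_ne_of_ne h2 h3]
  · simp [swap_apply_of_ne_of_ne h4 h5]
  · simp [swap_apply_of_ne_of_ne h3.symm h5.symm]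
  · simp [swap_apply_of_ne_of_ne h2.symm h4.symm]
  · rw [(disjoint_swap_swap (by simp [*])).cycleType_mul, isSwap_iff_cycleType.1 ⟨_, _, h1, rfl⟩,
      isSwap_iff_cycleType.1 ⟨_, _, h6, rfl⟩]; rfl

theorem exists_gd (h5 : 5 ≤ Fintype.card α) {x : Perm α} (hx : sign x = 1) :
    ∃ B, Gd B ∧ IsConj B (x * B) := by
  by_cases h1 : x = 1
  · subst h1
    obtain ⟨f⟩ := Function.Embedding.nonempty_of_card_le (α := Fin 4) (β := α) (by simp; omega)
    exact ⟨_, (dbl (f 0) (f 1) (f 2) (f 3) (by simp) (by simp) (by simp) (by simp) (by simp) (by simp)).1,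
      by rw [one_mul]⟩
  obtain ⟨u, v, u2, v2, rfl, -, -, hi, c1, c2⟩ := pp x
  obtain ⟨i, i1, i2⟩ := hi h1
  obtain ⟨k, k1, k2, k3⟩ := inv_type u2
  obtain ⟨l, l1, l2, l3⟩ := inv_type v2
  rw [map_mul, k3, l3, ← pow_add, neg_one_pow_eq_one_iff_even (by decide)] at hx
  obtain rfl : k = l := by obtain ⟨m, hm⟩ := hx; omega
  have vv : ∀ a, v (v a) = a := fun a => congrArg (· a) v2
  have k0 : k ≠ 0 := by
    rintro rfl
    exact i2 (by rw [Multiset.replicate_zero, cycleType_eq_zero] at l1; rw [l1]; rfl)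
  rcases Nat.even_or_odd k with hk | hk
  · refine ⟨v, gd_inv v2 (by rw [l3, hk.neg_one_pow]) (by obtain ⟨m, hm⟩ := hk; omega), ?_⟩
    rw [mul_assoc, v2, mul_one, isConj_iff_cycleType_eq, k1, l1]
  by_cases h3 : k = 1
  · subst h3
    by_cases h : 2 ≤ #(u.support ∪ v.support)ᶜ
    · obtain ⟨a, ha, b, hb, ab⟩ := one_lt_card.1 h
      simp only [mem_compl, mem_union, not_or, notMem_support] at ha hb
      have D : ∀ w : Perm α, w a = a → w b = b → Disjoint w (swap a b) := fun w h1 h2 c => by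
        by_cases h : c = a ∨ c = b
        · rcases h with rfl | rfl <;> simp [*]
        · push Not at h; exact Or.inr (swap_apply_of_ne_of_ne h.1 h.2)
      refine ⟨v * swap a b, gd_inv ?_ ?_ ?_, ?_⟩
      · rw [(D v ha.2 hb.2).commute.symm.mul_mul_mul_comm, v2, swap_mul_self, one_mul]
      · rw [map_mul, l3, sign_swap ab]; simp
      · rw [(D v ha.2 hb.2).card_support_mul, card_support_swap ab]; omega
      · rw [← mul_assoc, mul_assoc u, v2, mul_one, isConj_iff_cycleType_eq, (D v ha.2 hb.2).cycleType_mul,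
          (D u ha.1 hb.1).cycleType_mul, k1, l1]
    · rw [card_compl] at h
      have h6 := card_union_add_card_inter u.support v.support
      have h7 : u.support ∩ v.support = ∅ := card_eq_zero.1 (by omega)
      obtain ⟨a, b, ab, rfl⟩ := card_support_eq_two.1 k2
      obtain ⟨c, d, cd, rfl⟩ := card_support_eq_two.1 l2
      rw [support_swap ab, support_swap cd, ← disjoint_iff_inter_eq_empty] at h7
      simp only [disjoint_insert_left, disjoint_singleton_left, mem_insert, mem_singleton, not_or] at h7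
      obtain ⟨⟨ac, ad⟩, bc, bd⟩ := h7
      refine ⟨_, (dbl a c b d ac ab ad (Ne.symm bc) cd bd).1, ?_⟩
      rw [isConj_iff_cycleType_eq, (dbl a c b d ac ab ad (Ne.symm bc) cd bd).2,
        klein ab ac ad bc bd cd, (dbl a d b c ad ab ac (Ne.symm bd) cd.symm bc).2]
  · obtain ⟨j, j1, j2⟩ : ∃ j, u j ≠ j ∧ v j = j := by
      by_contra! h
      have : u.support = v.support :=
        eq_of_subset_of_card_le (fun a ha => mem_support.2 (h a (mem_support.1 ha))) (by omega)
      exact notMem_support.2 i1 (this ▸ mem_support.2 i2)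
    have ij : i ≠ j := by rintro rfl; exact i2 j2
    refine ⟨v * swap i j, ⟨by rw [map_mul, l3, sign_swap ij, hk.neg_one_pow]; simp, ?_⟩, ?_⟩
    · have : #({i, v i, j} : Finset α) ≤ 3 := card_le_three
      obtain ⟨p, r, a1, a2, a3, a4, a, b, c, d, e, f⟩ := four v2 {i, v i, j} (by simp [vv, j2])
        (by obtain ⟨m, hm⟩ := hk; omega)
      simp only [mem_insert, mem_singleton, not_or] at a1 a2 a3 a4
      refine ⟨p, v p, r, v r, a, b, c, d, e, f, ?_, ?_, ?_, ?_⟩
      · rw [Perm.mul_apply, swap_apply_of_ne_of_ne a1.1 a1.2.2]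
      · rw [Perm.mul_apply, swap_apply_of_ne_of_ne a3.1 a3.2.2, vv]
      · rw [Perm.mul_apply, swap_apply_of_ne_of_ne a2.1 a2.2.2]
      · rw [Perm.mul_apply, swap_apply_of_ne_of_ne a4.1 a4.2.2, vv]
    · rw [← mul_assoc, mul_assoc u, v2, mul_one, isConj_iff_cycleType_eq, ty3 v2 i2 j2 l1, swap_comm,
        ty3 u2 j1 i1 k1]

theorem main {G : Type*} [Group G] (ρ : G →* Perm α) (hs : ∀ σ, sign σ = 1 → ∃ g, ρ g = σ)
    (he : ∀ g, sign (ρ g) = 1) (hc : ∀ y, ρ y = 1 → ∀ g, g * y = y * g) (z : G) (z2 : z * z = 1)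
    (hz : ∀ y, ρ y = 1 → y = 1 ∨ y = z) (h22 : ∀ x, (ρ x).cycleType = {2, 2} → x ^ 2 ≠ 1)
    (h5 : 5 ≤ Fintype.card α) (g : G) : ∃ a b : G, a * b * a⁻¹ * b⁻¹ = g := by
  obtain ⟨B, ⟨hB, p, q, r, s, h1, h2, h3, h4, h6, h7, b1, b2, b3, b4⟩, hj⟩ := exists_gd h5 (he g)
  obtain ⟨b, rfl⟩ := hs B hB
  have d1 := dbl p q r s h1 h2 h3 h4 h6 h7
  have d2 := dbl p r q s h2 h1 h3 h4.symm h7 h6
  have d3 := dbl p s q r h3 h1 h2 h6.symm h7.symm h4
  obtain ⟨a, ha⟩ := hs _ d1.1.1
  have sq : ∀ x, (ρ x).cycleType = {2, 2} → x * x = z := fun x hx => by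
    refine (hz _ ?_).resolve_left (by rw [← sq]; exact h22 x hx)
    rw [← sq, map_pow, ← orderOf_dvd_iff_pow_eq_one, ← lcm_cycleType, hx]; decide
  have fx : ∀ t, t = p ∨ t = q ∨ t = r ∨ t = s → ρ (a⁻¹ * b) t = t := by
    have := h1.symm; have := h2.symm; have := h3.symm; have := h4.symm; have := h6.symm; have := h7.symm
    rintro t (rfl | rfl | rfl | rfl) <;>
      simp [map_mul, map_inv, ha, b1, b2, b3, b4, swap_apply_of_ne_of_ne, *]
  have cm : ∀ c : G, ∀ i j k, i ≠ j → i ≠ k → j ≠ k → ρ (a⁻¹ * b) i = i → ρ (a⁻¹ * b) j = j → ρ (a⁻¹ * b) k = k →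
      ρ c = swap i j * swap i k → Commute c (a⁻¹ * b) := by
    intro c i j k ij ik jk e1 e2 e3 hc'
    have D : Disjoint (ρ c) (ρ (a⁻¹ * b)) := fun t => by
      by_cases h : t = i ∨ t = j ∨ t = k
      · rcases h with rfl | rfl | rfl <;> simp only [e1, e2, e3, or_true]
      · push Not at h
        left; rw [hc', Perm.mul_apply, swap_apply_of_ne_of_ne h.1 h.2.2, swap_apply_of_ne_of_ne h.1 h.2.1]
    have c3 : ρ (c ^ 3) = 1 := by
      rw [map_pow, hc', ← (isThreeCycle_swap_mul_swap_same ij ik jk).orderOf, pow_orderOf_eq_one]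
    generalize a⁻¹ * b = d at *
    rcases hz (c * d * c⁻¹ * d⁻¹) (by rw [map_mul, map_mul, map_mul, D.commute.eq]; simp) with e | e
    · exact commutatorElement_eq_one_iff_commute.1 e
    · have hz1 : ρ z = 1 := by rw [← e, map_mul, map_mul, map_mul, D.commute.eq]; simp
      have e' : c * d = z * d * c := by rw [← e]; group
      have e2 : c * c * d = d * (c * c) := by
        rw [mul_assoc, e', ← mul_assoc, ← mul_assoc, hc z hz1 c, mul_assoc z, e', ← mul_assoc, ← mul_assoc, z2]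
        group
      have e3 : Commute (c ^ 3) d := (hc _ c3 d).symm
      have : c = c ^ 3 * (c * c)⁻¹ := by rw [pow_succ, pow_two]; group
      rw [this]
      exact e3.mul_left (Commute.inv_left e2)
  obtain ⟨c1, hc1⟩ := hs (swap p r * swap p q) (by simp [sign_swap h1, sign_swap h2])
  obtain ⟨c2, hc2⟩ := hs (swap q p * swap q s) (by simp [sign_swap h1.symm, sign_swap h6])
  have m := (cm c1 p r q h2 h1 h4.symm (fx _ (by simp)) (fx _ (by simp)) (fx _ (by simp)) hc1).mul_left
    (cm c2 q p s h1.symm h6 h3 (fx _ (by simp)) (fx _ (by simp)) (fx _ (by simp)) hc2)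
  have hw : ρ (c1 * c2) = swap p r * swap q s := by
    rw [map_mul, hc1, hc2, swap_comm q p, mul_assoc, swap_mul_self_mul]
  generalize c1 * c2 = w at m hw
  have s1 := sq a (by rw [ha, d1.2])
  have s2 := sq w (by rw [hw, d2.2])
  have s3 := sq (a * w) (by rw [map_mul, ha, hw, klein h1 h2 h3 h4 h6 h7, d3.2])
  have hz1 : ρ z = 1 := by
    rw [← s1, ← pow_two, map_pow, ← orderOf_dvd_iff_pow_eq_one, ← lcm_cycleType, ha, d1.2]; decide
  have k : w * b * w⁻¹ = z * b := by
    have e1 : w * a = z * (a * w) := by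
      calc w * a = a⁻¹ * (a * w * (a * w)) * w⁻¹ := by group
        _ = a⁻¹ * z * w⁻¹ := by rw [s3]
        _ = a⁻¹ * (z * z * z) * w⁻¹ := by rw [z2, one_mul]
        _ = a⁻¹ * (a * a * z * (w * w)) * w⁻¹ := by rw [s1, s2]
        _ = a * z * w := by group
        _ = z * (a * w) := by rw [hc z hz1 a, mul_assoc]
    calc w * b * w⁻¹ = w * a * (a⁻¹ * b) * w⁻¹ := by group
      _ = z * a * (w * (a⁻¹ * b)) * w⁻¹ := by rw [e1]; group
      _ = z * b := by rw [m.eq]; group
  obtain ⟨σ, hσ, hσ'⟩ : ∃ σ, sign σ = 1 ∧ σ * ρ b * σ⁻¹ = ρ g * ρ b := by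
    obtain ⟨σ, hσ⟩ := isConj_iff.1 hj
    rcases Int.units_eq_one_or (sign σ) with e | e
    · exact ⟨σ, e, hσ⟩
    · refine ⟨σ * swap p q, by rw [map_mul, e, sign_swap h1]; simp, ?_⟩
      have : swap p q * ρ b = ρ b * swap p q := by
        rw [mul_swap_eq_swap_mul, b1, b2, swap_comm]
      rw [← hσ, mul_assoc σ, this, mul_inv_rev, swap_inv, mul_assoc, mul_assoc, swap_mul_self_mul, mul_assoc]
  obtain ⟨c, rfl⟩ := hs σ hσ
  rcases hz (c * b * c⁻¹ * b⁻¹ * g⁻¹) (by
    rw [map_mul, map_mul, map_mul, map_mul, map_inv, hσ']; simp) with e | e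
  · exact ⟨c, b, mul_inv_eq_one.1 e⟩
  · refine ⟨c * w, b, ?_⟩
    rw [show c * w * b * (c * w)⁻¹ * b⁻¹ = c * (w * b * w⁻¹) * c⁻¹ * b⁻¹ by group, k, ← mul_assoc, hc z hz1 c,
      show z * c * b * c⁻¹ * b⁻¹ = z * (c * b * c⁻¹ * b⁻¹ * g⁻¹) * g by group, e, z2, one_mul]

end H13.Cm
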