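import Cfsg.Agent.H17.FV0
import Cfsg.Agent.H4.Cyclic

/-! S5720, chunk G2: a minimal cover of `SL₂(p)`, `p ≥ 7`. -/

set_option autoImplicit false

namespace H13.FV
open H17.FV Subgroup Function
open scoped MatrixGroups

universe u
variable {L Q : Type*} [Group L] [Group Q] {r : ℕ}

/-- no elementary abelian subgroup of order `r²` -/
def NE (r : ℕ) (H : Type*) [Group H] : Prop :=
  ∀ a b : H, a ^ r = 1 → b ^ r = 1 → Commute a b → a ≠ 1 → b ∈ zpowers a

theorem ne3 (h : NT L) : NE 3 L := fun a b ha hb c a1 => by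
  by_contra n
  have b1 : b ≠ 1 := fun e => n (e ▸ one_mem _)
  have ab : a * b ≠ 1 := fun e =>
    n (by rw [eq_inv_of_mul_eq_one_right e]; exact inv_mem (mem_zpowers a))
  exact n (h a b ha hb (by rw [c.mul_pow, ha, hb, one_mul]) a1 b1 ab ▸ mem_zpowers a)

theorem NE.inj {f : L →* Q} (h : NE r Q) (hf : Injective f) : NE r L := fun x y a b c d => by
  obtain ⟨k, hk⟩ := h _ _ (by rw [← map_pow, a, map_one]) (by rw [← map_pow, b, map_one])
    (c.map f) ((map_ne_one_iff f hf).2 d)
  exact ⟨k, hf (by rw [map_zpow]; exact hk)⟩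

theorem ne_cyc [Finite L] [IsCyclic L] [hr : Fact r.Prime] : NE r L := fun a b ha hb _ a1 => by
  letI : CommGroup L := IsCyclic.commGroup
  have : zpowers a = (powMonoidHom r : L →* L).ker := eq_of_le_of_card_ge (zpowers_le.2 ha) (by
    rw [IsCyclic.card_powMonoidHom_ker, Nat.card_zpowers, orderOf_eq_prime ha a1]
    exact Nat.gcd_le_right _ hr.out.pos)
  exact this ▸ hb

theorem NE.cyc [Finite L] [hr : Fact r.Prime] (h2 : r ≠ 2) (h : NE r L) (hp : IsPGroup r L) :
    IsCyclic L := by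
  by_contra n
  obtain ⟨E, -, -, ⟨c, e⟩, k⟩ := H4.exists_normal_Ep2 h2 hp ⊤ (fun h => n (topEquiv.isCyclic.1 h))
  have l : r < r ^ 2 := by have := hr.out.two_le; nlinarith
  obtain ⟨⟨a, ha⟩, a1⟩ := ne_bot_iff_exists_ne_one.1 (show E ≠ ⊥ from fun e => by
    rw [e, card_bot] at k; have := hr.out.two_le; omega)
  have a1' : a ≠ 1 := fun e => a1 (Subtype.ext e)
  have := card_le_of_le (show E ≤ zpowers a from fun b hb => h a b (e a ha) (e b hb)
    (congrArg Subtype.val (c.is_comm.comm ⟨a, ha⟩ ⟨b, hb⟩)) a1')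
  rw [k, Nat.card_zpowers, orderOf_eq_prime (e a ha) a1'] at this
  omega

theorem NE.surj [Finite L] [hr : Fact r.Prime] (h2 : r ≠ 2) (h : NE r L) {f : L →* Q}
    (hf : Surjective f) : NE r Q := fun x y hx hy c x1 => by
  have : Finite Q := Finite.of_surjective f hf
  have p : ∀ z : Q, z ^ r = 1 → IsPGroup r (zpowers z) := fun z hz =>
    IsPGroup.of_card_dvd_pow (n := 1) (by
      rw [Nat.card_zpowers, pow_one]; exact orderOf_dvd_of_pow_eq_one hz)
  obtain ⟨S, hS⟩ := ((p x hx).to_sup_of_normal_right' (p y hy) (zpowers_le.2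
    (centralizer_le_normalizer _ (mem_centralizer_iff.2 fun g ⟨k, hk⟩ =>
      hk ▸ (c.symm.zpow_left k).eq)))).exists_le_sylow
  obtain ⟨P, rfl⟩ := Sylow.mapSurjective_surjective hf r S
  have := (h.inj (subtype_injective (P : Subgroup L))).cyc h2 P.isPGroup'
  have : IsCyclic (P.mapSurjective hf : Subgroup Q) :=
    isCyclic_of_surjective _ (f.subgroupMap_surjective (P : Subgroup L))
  obtain ⟨k, hk⟩ := ne_cyc (r := r) (⟨x, hS (mem_sup_left (mem_zpowers x))⟩ :
    (P.mapSurjective hf : Subgroup Q)) ⟨y, hS (mem_sup_right (mem_zpowers y))⟩ (Subtype.ext hx)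
    (Subtype.ext hy) (Subtype.ext c.eq) (fun e => x1 (congrArg Subtype.val e))
  exact ⟨k, congrArg Subtype.val hk⟩

theorem a7 : ¬ NE 3 (alternatingGroup (Fin 7)) := fun h => by
  obtain ⟨k, hk⟩ := h ⟨Equiv.swap 0 1 * Equiv.swap 0 2, Equiv.Perm.mem_alternatingGroup.2 (by decide)⟩
    ⟨Equiv.swap 3 4 * Equiv.swap 3 5, Equiv.Perm.mem_alternatingGroup.2 (by decide)⟩
    (Subtype.ext (by decide)) (Subtype.ext (by decide)) (Subtype.ext (by decide))
    (fun e => absurd (congrArg Subtype.val e) (by decide))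
  have := Equiv.Perm.zpow_apply_eq_self_of_apply_eq_self
    (f := (Equiv.swap 0 1 * Equiv.swap 0 2 : Equiv.Perm (Fin 7))) (x := 3) (by decide) k
  have e : (Equiv.swap 0 1 * Equiv.swap 0 2 : Equiv.Perm (Fin 7)) ^ k =
    Equiv.swap 3 4 * Equiv.swap 3 5 := congrArg Subtype.val hk
  rw [e] at this
  exact absurd this (by decide)

/-- the upper unipotent matrices -/
def un (F : Type*) [Field F] : Multiplicative F →* SL(2, F) where
  toFun t := ⟨!![1, t.toAdd; 0, 1], by simp [Matrix.det_fin_two]⟩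
  map_one' := by ext i j; fin_cases i <;> fin_cases j <;> simp
  map_mul' a b := Subtype.ext <| by
    show _ = (!![1, a.toAdd; 0, 1] * !![1, b.toAdd; 0, 1] : Matrix (Fin 2) (Fin 2) F)
    simp [add_comm]

theorem sl {F : Type*} [Field F] [Fintype F] [hr : Fact r.Prime] [CharP F r] (h : NE r SL(2, F)) :
    Fintype.card F ≤ r := by
  have h := h.inj (f := un F) fun a b e => congrArg (fun m : SL(2, F) => m.1 0 1) e
  have p : ∀ t : Multiplicative F, t ^ r = 1 := fun t => by
    apply Multiplicative.toAdd.injective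
    simp
  have o : Multiplicative.ofAdd (1 : F) ≠ 1 := by simp
  have := card_le_of_le (show ⊤ ≤ zpowers (Multiplicative.ofAdd (1 : F)) from fun b _ =>
    h _ b (p _) (p _) (Commute.all _ _) o)
  rwa [card_top, Nat.card_zpowers, orderOf_eq_prime (p _) o, Nat.card_eq_fintype_card,
    Fintype.card_multiplicative] at this

theorem g2 : G2.{u} := by
  rintro L _ _ h3 h5 (⟨F, _, _, ho, h6, f, hf, hk⟩ | ⟨f, hf⟩)
  swap
  · exact (a7 ((ne3 h3).surj (by decide) hf)).elim
  obtain ⟨p, _⟩ := CharP.exists F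
  obtain ⟨n, hp, hn⟩ := FiniteField.card F p
  have := Fact.mk hp
  have p7 : 7 ≤ p := by
    by_contra l
    have p2 : p ≠ 2 := by
      rintro rfl
      exact Nat.not_odd_iff_even.2 (hn ▸ (Nat.even_pow' n.ne_zero).2 even_two) ho
    have p3 : p ≠ 3 := by
      rintro rfl
      have := sl ((ne3 h3).surj p2 hf); omega
    have p5 : p ≠ 5 := by
      rintro rfl
      have := sl (NE.surj p2 h5 hf); omega
    have := hp.two_le
    have l : p < 7 := not_le.1 l
    interval_cases p <;> first | omega | exact absurd hp (by decide)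
  let j : SL(2, ZMod p) →* SL(2, F) := Matrix.SpecialLinearGroup.map (ZMod.castHom (dvd_refl p) F)
  have hj : Injective j := fun a b e => Matrix.SpecialLinearGroup.ext _ _ fun i k =>
    (ZMod.castHom (dvd_refl p) F).injective (congrArg (fun m : SL(2, F) => m.1 i k) e)
  obtain ⟨X, hX, mX⟩ := exists_minimal_of_wellFoundedLT (fun X : Subgroup L => X.map f = j.range)
    ⟨_, map_comap_eq_self_of_surjective hf _⟩
  obtain ⟨g, hg⟩ : ∃ g : X →* SL(2, ZMod p), ∀ x, j (g x) = f x :=
    ⟨(MonoidHom.ofInjective hj).symm.toMonoidHom.comp ((f.comp X.subtype).codRestrict _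
      fun x => hX ▸ mem_map_of_mem f x.2), fun x => MonoidHom.apply_ofInjective_symm hj _⟩
  refine ⟨p, hp, p7, X, g, fun s => ?_, hk.of_dvd_nat ?_, fun Y hY => ?_⟩
  · obtain ⟨x, h1, h2⟩ := hX.ge ⟨s, rfl⟩
    exact ⟨⟨x, h1⟩, hj ((hg _).trans h2)⟩
  · rw [← card_map_of_injective (subtype_injective X)]
    refine card_dvd_of_le ?_
    rintro _ ⟨x, h1, rfl⟩
    exact (hg x).symm.trans ((congrArg j h1).trans j.map_one)
  · have e : (Y.map X.subtype).map f = j.range := by
      rw [map_map, show f.comp X.subtype = j.comp g from MonoidHom.ext fun x => (hg x).symm,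
        ← map_map, hY, MonoidHom.range_eq_map]
    refine top_le_iff.1 fun x _ => ?_
    obtain ⟨y, h1, h2⟩ := mX e (map_subtype_le Y) x.2
    exact Subtype.ext h2 ▸ h1

end H13.FV
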