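import Cfsg.Agent.S0966
import Cfsg.Agent.H7.Real
import Cfsg.Agent.H7.Quot
import Cfsg.Agent.H6.Extend
import Cfsg.Agent.H8.Bridge2
import Cfsg.Agent.H3.NPC

set_option autoImplicit false

namespace H13.Kb

open _root_.Cfsg Finset H5 H7 H8
open scoped ComplexConjugate Classical

theorem par {α : Type*} [Finite α] {p : ℕ} [Fact p.Prime] (S : Set α) (f : α → α) (hS : ∀ x ∈ S, f x ∈ S) (n : ℕ)
    (hf : ∀ x ∈ S, f^[p ^ n] x = x) : Nat.card S ≡ Nat.card {x | x ∈ S ∧ f x = x} [MOD p] := by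
  have := Fintype.ofFinite α
  let g : Function.End S := Set.MapsTo.restrict f S S hS
  have := Equiv.Perm.card_fixedPoints_modEq (f := g) (p := p) (n := n) (funext fun x => Subtype.ext (by
    rw [show (g ^ p ^ n) x = g^[p ^ n] x from congrFun (hom_coe_pow (fun g : Function.End S ↦ g) rfl
      (fun g h ↦ rfl) g _) x]
    exact (congrArg (fun t : S → S => (t x).1) (Set.MapsTo.iterate_restrict (f := f) hS _)).trans (hf x x.2)))
  rw [← Nat.card_eq_fintype_card, ← Nat.card_eq_fintype_card] at this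
  exact this.trans (by
    rw [Nat.card_congr (β := {x | x ∈ S ∧ f x = x}) ⟨fun x => ⟨x.1, x.1.2, congrArg Subtype.val x.2⟩,
      fun x => ⟨⟨x.1, x.2.1⟩, Subtype.ext x.2.2⟩, fun _ => rfl, fun _ => rfl⟩])

variable {G : Type*} [Group G] [Finite G] {M : Ideal AlgInt}

theorem even_odd (hM : IsPModular 2 M) (h : 2 ∣ Nat.card G) :
    2 ∣ Nat.card {χ | χ ∈ principalBlock M G ∧ Odd (charDegree χ.1)} := by
  have := Fintype.ofFinite G
  have := charP_kk hM
  obtain ⟨t, ht⟩ := exists_prime_orderOf_dvd_card' 2 h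
  have e := congrArg (red M) (weak_block_orth hM isPBlock_principalBlock (x := 1) (y := t) (by simp) ht.symm.dvd)
  rw [red_sum _ _ fun χ _ => by
      rw [← irr_apply_inv]; exact mul_mem (irr_apply_mem_V _ _) (irr_apply_mem_V _ _), red_zero,
    sum_congr rfl (g := fun χ => if Odd (charDegree χ.1) then 1 else 0) fun χ _ => by
      rw [← irr_apply_inv, red_mul (irr_apply_mem_V _ _) (irr_apply_mem_V _ _),
        red_char_of_isPElt hM χ.2.isCharacter (x := t⁻¹) ⟨1, by simpa⟩, irr_apply_one, red_natCast]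
      split_ifs with o
      · obtain ⟨c, hc⟩ := o
        rw [hc]; push_cast; rw [CharTwo.two_eq_zero]; simp
      · rw [(CharP.cast_eq_zero_iff _ 2 _).2 (Nat.not_odd_iff_even.1 o).two_dvd, mul_zero],
    sum_boole, CharP.cast_eq_zero_iff _ 2, filter_filter] at e
  rwa [Nat.card_eq_fintype_card, Fintype.card_subtype]

theorem inv_mod {p : ℕ} [Fact p.Prime] (hM : IsPModular p M) (K : Subgroup G) [K.Normal] (P : Sylow p G)
    (h : K ⊔ P = ⊤) (q : ℕ → Prop) :
    Nat.card {θ | θ ∈ principalBlock M K ∧ q (charDegree θ.1)} ≡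
      Nat.card {θ | (θ ∈ principalBlock M K ∧ q (charDegree θ.1)) ∧ ∀ g : G, H6.cj g θ.1 = θ.1} [MOD p] := by
  let X := {θ | θ ∈ principalBlock M K ∧ q (charDegree θ.1)}
  letI : MulAction P X :=
    { smul := fun g θ => ⟨irrComp (MulAut.conjNormal (g : G)⁻¹) θ.1, mem_blkMap.1 (by
        rw [blkMap_principalBlock hM]; exact θ.2.1), by simpa [charDegree] using θ.2.2⟩
      one_smul := fun θ => Subtype.ext (Subtype.ext (by
        change H6.cj (1 : G)⁻¹ θ.1.1 = _; simp))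
      mul_smul := fun a b θ => Subtype.ext (Subtype.ext (by
        change H6.cj ((a : G) * b)⁻¹ θ.1.1 = H6.cj (a : G)⁻¹ (H6.cj (b : G)⁻¹ θ.1.1)
        rw [mul_inv_rev, H6.cj_mul])) }
  refine (P.2.card_modEq_card_fixedPoints X).trans ?_
  rw [Nat.card_congr (β := {θ | (θ ∈ principalBlock M K ∧ q (charDegree θ.1)) ∧ ∀ g : G, H6.cj g θ.1 = θ.1})
    ⟨fun x => ⟨x.1, x.1.2, H6.inertia_eq_top_iff.1 (eq_top_iff.2 (h ▸ sup_le (H6.le_inertia x.1.1.2.isClassFunction)
      fun g hg => (inv_mem_iff (x := g)).1 (congrArg (fun t : X => t.1.1) (x.2 ⟨g, hg⟩))))⟩,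
      fun x => ⟨⟨x.1, x.2.1⟩, fun g => Subtype.ext (Subtype.ext (x.2.2 _))⟩, fun _ => rfl, fun _ => rfl⟩]

theorem det_pow {k : ℕ} (hk : k.Coprime (Nat.card G)) (χ : IrrCharacter G) :
    H6.detHom (irrPow hk χ).1 = H6.detHom χ.1 ^ k := by
  ext1 g
  letI : CommGroup (Subgroup.zpowers g) := IsCyclic.commGroup
  have h1 := DFunLike.congr_fun (H6.detHom_res (irrPow hk χ).2.isCharacter (Subgroup.zpowers g))
    ⟨g, Subgroup.mem_zpowers g⟩
  have h2 := DFunLike.congr_fun (H6.detHom_comp χ.2.isCharacter ((Subgroup.zpowers g).subtype.comp (powMonoidHom k)))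
    ⟨g, Subgroup.mem_zpowers g⟩
  exact h1.symm.trans (h2.trans (by simp))

theorem odd_hom {K : Type*} [Group K] [Finite K] (h : pResidual 2 K = ⊤) (μ : K →* ℂˣ) : Odd (orderOf μ) := by
  obtain ⟨a, m, hm, e⟩ := Nat.exists_eq_two_pow_mul_odd (Nat.card_pos (α := K)).ne'
  have : pResidual 2 K ≤ (μ ^ m).ker := H3.pResidual_le_iff.2 fun g hg => by
    rw [MonoidHom.mem_ker, MonoidHom.pow_apply, ← map_pow, orderOf_dvd_iff_pow_eq_one.1
      ((hg.pow_right a).dvd_of_dvd_mul_left (e ▸ orderOf_dvd_natCard g)), map_one]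
  exact hm.of_dvd_nat (orderOf_dvd_of_pow_eq_one (MonoidHom.ext fun g => this (h ▸ trivial)))

variable {k : ℕ} (hk₁ : ∀ g : G, (∃ j : ℕ, orderOf g = 2 ^ j) → g ^ k = g ^ 3) (hk₂ : ∀ g : G, Odd (orderOf g) → g ^ k = g)
include hk₁ hk₂

theorem cop3 : k.Coprime (Nat.card G) := Nat.coprime_of_dvd fun r hr h1 h2 => by
  have := Fact.mk hr
  obtain ⟨g, hg⟩ := exists_prime_orderOf_dvd_card' r h2
  have e : g ^ k = 1 := orderOf_dvd_iff_pow_eq_one.1 (hg ▸ h1)
  rcases hr.eq_two_or_odd' with rfl | h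
  · have := orderOf_dvd_of_pow_eq_one ((hk₁ g ⟨1, hg⟩).symm.trans e)
    rw [hg] at this; omega
  · exact hr.ne_one (by rw [← hg, ← hk₂ g (hg ▸ h), e, orderOf_one])

theorem iter3 : ∃ n, ∀ g : G, g ^ k ^ 2 ^ n = g := by
  obtain ⟨a, m, hm, e⟩ := Nat.exists_eq_two_pow_mul_odd (Nat.card_pos (α := G)).ne'
  refine ⟨a, fun g => ?_⟩
  obtain ⟨x, y, rfl, c, ⟨j, hx⟩, hy⟩ := exists_isPPart (p := 2) g
  have h1 : ∀ n, x ^ k ^ n = x ^ 3 ^ n := fun n => by
    induction n with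
    | zero => simp
    | succ n ih =>
      rw [pow_succ, pow_mul, ih, pow_succ, pow_mul]
      exact hk₁ _ (((Nat.dvd_prime_pow Nat.prime_two).1 (hx ▸ orderOf_pow_dvd _)).imp fun _ h => h.2)
  have h2 : ∀ n, y ^ k ^ n = y := fun n => by
    induction n with
    | zero => simp
    | succ n ih => rw [pow_succ, pow_mul, ih, hk₂ _ (Nat.odd_iff.2 (by omega))]
  rw [c.mul_pow, h1, h2, mul_left_inj]
  have h3 : orderOf x ∣ 2 ^ (a + 1) := (Nat.Coprime.dvd_of_dvd_mul_right (by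
    rw [hx]; exact (Nat.coprime_two_left.2 hm).pow_left j) (e ▸ orderOf_dvd_natCard x)).trans (Dvd.intro _ rfl)
  have := Nat.ModEq.pow_totient (x := 3) (n := 2 ^ (a + 1)) (Nat.Coprime.pow_right _ (by norm_num))
  rw [Nat.totient_prime_pow_succ Nat.prime_two] at this
  simpa using pow_eq_pow_iff_modEq.2 (this.of_dvd h3)

theorem npc (hM : IsPModular 2 M) : HasNormalPComplement 2 G ↔ ∀ χ ∈ principalBlock M G, Odd (charDegree χ.1) →
    (∀ g, χ.1 (g ^ k) = χ.1 g) → charDegree χ.1 = 1 := by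
  have := Fintype.ofFinite G
  let K := pResidual 2 G
  have := Fintype.ofFinite K
  obtain ⟨a, ha⟩ := H3.index_pResidual_dvd_pow (G := G) two_ne_zero
  have co : ∀ n, Odd n → K.index.Coprime n := fun n h =>
    ((Nat.coprime_two_left.2 h).pow_left a).coprime_dvd_left ha
  rw [H3.hasNPC_iff_not_dvd]
  refine ⟨fun h χ h1 h2 _ => ?_, fun h h2 => ?_⟩
  · obtain ⟨c, h3, h4⟩ := H6.exists_degree_ratio (N := K) χ.2 isIrrCharacter_one (by
      rw [show (fun n : K => χ.1 n) = χ.1 1 • fun _ => 1 from funext fun n => by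
        simpa using χ.2.isCharacter.mem_charKer_iff.1 (le_charKer_of_mem_principal hM h h1 n.2),
        classInner_smul_left, classInner_one_one, mul_one]
      exact irr_one_ne_zero χ)
    rw [irr_apply_one, mul_one, Nat.cast_inj] at h4
    exact Nat.eq_one_of_dvd_coprimes (co _ h2) (h4 ▸ h3) dvd_rfl
  obtain ⟨P⟩ : Nonempty (Sylow 2 G) := inferInstance
  have hk := cop3 hk₁ hk₂
  have hk' : k.Coprime (Nat.card K) := hk.coprime_dvd_right K.card_subgroup_dvd_card
  obtain ⟨n, hn⟩ := iter3 hk₁ hk₂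
  have e1 := inv_mod hM K P (H3.pResidual_sup_sylow P) Odd
  have e2 := par (p := 2) {θ | (θ ∈ principalBlock M K ∧ Odd (charDegree θ.1)) ∧ ∀ g : G, H6.cj g θ.1 = θ.1} (irrPow hk')
    (fun θ h => ⟨⟨(irrPow_mem_principal_iff hk').2 h.1.1, by rw [charDegree_irrPow]; exact h.1.2⟩, fun g =>
      funext fun x => (congrArg θ.1 (map_pow (MulAut.conjNormal g) x k).symm).trans (congrFun (h.2 g) _)⟩) n
    fun θ _ => by
      have : ∀ m (x : K), ((irrPow hk')^[m] θ).1 x = θ.1 (x ^ k ^ m) := fun m => by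
        induction m with
        | zero => simp
        | succ m ih => intro x; rw [Function.iterate_succ_apply', irrPow_apply, ih, ← pow_mul, pow_succ']
      exact Subtype.ext (funext fun x => by rw [this, show x ^ k ^ 2 ^ n = x from Subtype.ext (hn x)])
  have e3 := par (p := 2) {θ | θ ∈ {θ | (θ ∈ principalBlock M K ∧ Odd (charDegree θ.1)) ∧ ∀ g : G, H6.cj g θ.1 = θ.1} ∧
      irrPow hk' θ = θ} irrStar
    (fun θ h => ⟨⟨⟨(irrPow_mem_principal_iff _).2 h.1.1.1, by rw [irrStar, charDegree_irrPow]; exact h.1.1.2⟩,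
      fun g => funext fun x => by simpa only [irrStar_apply, H6.cj_apply] using congrArg conj (congrFun (h.1.2 g) x)⟩,
      Subtype.ext (funext fun x => by
        simpa only [irrStar_apply, irrPow_apply] using congrArg (fun t => conj (t.1 x)) h.2)⟩) 1
    fun θ _ => irrStar_irrStar θ
  have e4 := (Nat.modEq_zero_iff_dvd.2 (even_odd hM h2)).symm.trans (e1.trans (e2.trans e3))
  rw [Nat.card_eq_one_iff_unique.2 ⟨⟨?_⟩, ⟨irrOne K, ⟨⟨⟨irrOne_mem_principalBlock hM, by simp [charDegree, irrOne]⟩,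
    fun _ => rfl⟩, rfl⟩, rfl⟩⟩] at e4
  · exact absurd e4 (by decide)
  suffices H : ∀ θ : IrrCharacter K, θ ∈ principalBlock M K → Odd (charDegree θ.1) → (∀ g : G, H6.cj g θ.1 = θ.1) →
      irrPow hk' θ = θ → irrStar θ = θ → θ = irrOne K from fun x y => Subtype.ext
    ((H x x.2.1.1.1.1 x.2.1.1.1.2 x.2.1.1.2 x.2.1.2 x.2.2).trans (H y y.2.1.1.1.1 y.2.1.1.1.2 y.2.1.1.2 y.2.1.2 y.2.2).symm)
  intro θ h1 h2 h3 h4 h5
  have o := odd_hom (K := K) H3.pResidual_pResidual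
  obtain ⟨χ, c1, c2, c3⟩ := H6.exists_canonical_ext θ.2 h3 (irr_apply_one θ) (co _ ((o _).mul h2))
  have c4 := H6.canonical_ext_unique θ.2 (irr_apply_one θ) (co _ h2) c1.isCharacter (irrPow hk ⟨χ, c1⟩).2.isCharacter c2
    (fun x => (c2 (x ^ k)).trans (congrArg (·.1 x) h4)) (co _ (c3 ▸ o _))
    (co _ ((c3 ▸ o _ : Odd (orderOf (H6.detHom χ))).of_dvd_nat (by rw [det_pow]; exact orderOf_pow_dvd _)))
  have c5 : charDegree χ = charDegree θ.1 := congrArg (⌊Complex.re ·⌋₊) (c2 1)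
  have c6 := (Cfsg.Agent.S0966.result 2 M hM K (((Nat.dvd_prime_pow Nat.prime_two).1 ha).imp fun _ h => h.2) _
    isPBlock_principalBlock).unique ⟨isPBlock_blockOf ⟨χ, c1⟩, _, mem_blockOf_self hM _, θ, h1, by
      rw [funext c2, θ.2.classInner_self]; exact one_ne_zero⟩ ⟨isPBlock_principalBlock, _, irrOne_mem_principalBlock hM,
      _, irrOne_mem_principalBlock hM, by simp [irrOne, classInner_one_one]⟩
  have c7 := h ⟨χ, c1⟩ (c6 ▸ mem_blockOf_self hM _) (c5 ▸ h2) (congrFun c4)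
  obtain ⟨μ, hμ⟩ := θ.2.isCharacter.exists_unitsHom (by rw [irr_apply_one, ← c5, c7, Nat.cast_one])
  have : μ ^ 2 = 1 := MonoidHom.ext fun x => Units.ext (by
    have := congrArg (·.1 x) h5
    simp only [irrStar_apply', hμ, map_inv, Units.val_inv_eq_inv_val] at this
    simp only [sq, MonoidHom.mul_apply, Units.val_mul, MonoidHom.one_apply, Units.val_one]
    nth_rewrite 1 [← this]; simp)
  have : μ = 1 := orderOf_eq_one_iff.1 (Nat.eq_one_of_dvd_coprimes (Nat.coprime_two_left.2 (o μ))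
    (orderOf_dvd_of_pow_eq_one this) dvd_rfl)
  exact Subtype.ext (by rw [hμ, this]; rfl)

end H13.Kb
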