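import Cfsg.Agent.H12.FieldExt
import Cfsg.Agent.H12.LinExt

/-!
# Maximal intersecting pairs in an orbit of subspaces; generic lemmas on transvections
-/

set_option autoImplicit false
set_option maxHeartbeats 400000

namespace H13.KL

open Module H12

variable {F : Type*} [Field F] {V : Type*} [AddCommGroup V] [Module F V]
  {X : Subgroup (V ≃ₗ[F] V)} {L : Submodule F V} {g : V ≃ₗ[F] V}

theorem mem_map_iff {x : V} : x ∈ L.map (g : V →ₗ[F] V) ↔ g⁻¹ x ∈ L := Submodule.mem_map_equiv L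

/-- `L` and `g L` are distinct and meet in a subspace of maximal dimension. -/
structure MaxPair (X : Subgroup (V ≃ₗ[F] V)) (L : Submodule F V) (g : V ≃ₗ[F] V) : Prop where
  mem : g ∈ X
  ne : g ∉ glStab L
  max : ∀ h ∈ X, h ∉ glStab L →
    finrank F (L ⊓ L.map (h : V →ₗ[F] V) : Submodule F V) ≤
      finrank F (L ⊓ L.map (g : V →ₗ[F] V) : Submodule F V)

theorem finrank_cap_inv (g : V ≃ₗ[F] V) :
    finrank F (L ⊓ L.map ((g⁻¹ : V ≃ₗ[F] V) : V →ₗ[F] V) : Submodule F V) =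
      finrank F (L ⊓ L.map (g : V →ₗ[F] V) : Submodule F V) := by
  have : (L ⊓ L.map ((g⁻¹ : V ≃ₗ[F] V) : V →ₗ[F] V)).map (g : V →ₗ[F] V) =
      L ⊓ L.map (g : V →ₗ[F] V) := by
    ext x
    simp only [Submodule.mem_inf, mem_map_iff, inv_inv, apply_inv_apply, and_comm]
  rw [← LinearEquiv.finrank_map_eq g, this]

theorem MaxPair.inv (h : MaxPair X L g) : MaxPair X L g⁻¹ :=
  ⟨X.inv_mem h.mem, fun e => h.ne (by simpa using inv_mem e), fun k hk hk' => by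
    rw [finrank_cap_inv]; exact h.max k hk hk'⟩

variable [FiniteDimensional F V]

theorem exists_maxPair (hg : g ∈ X) (hg' : g ∉ glStab L) {x : V} (hx : x ≠ 0) (h1 : x ∈ L)
    (h2 : g⁻¹ x ∈ L) : ∃ k, MaxPair X L k ∧ ∃ y, y ≠ 0 ∧ y ∈ L ∧ k⁻¹ y ∈ L := by
  obtain ⟨_, ⟨k, hk, rfl⟩, hmax'⟩ := Set.exists_max_image
    ((fun h : V ≃ₗ[F] V => finrank F (L ⊓ L.map (h : V →ₗ[F] V) : Submodule F V)) ''
      {h | h ∈ X ∧ h ∉ glStab L}) id
    ((Set.finite_Iic (finrank F V)).subset (by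
      rintro _ ⟨h, -, rfl⟩; exact Submodule.finrank_le _)) ⟨_, g, ⟨hg, hg'⟩, rfl⟩
  have hmax := fun h hh => hmax' _ ⟨h, hh, rfl⟩
  refine ⟨k, ⟨hk.1, hk.2, fun h a b => hmax h ⟨a, b⟩⟩, ?_⟩
  have h3 : 0 < finrank F (L ⊓ L.map (g : V →ₗ[F] V) : Submodule F V) :=
    finrank_pos_iff_exists_ne_zero.2 ⟨⟨x, h1, mem_map_iff.2 h2⟩, fun e => hx (congrArg Subtype.val e)⟩
  obtain ⟨y, hy⟩ := finrank_pos_iff_exists_ne_zero.1 (h3.trans_le (hmax g ⟨hg, hg'⟩))
  exact ⟨y, fun e => hy (Subtype.ext e), y.2.1, mem_map_iff.1 y.2.2⟩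

theorem MaxPair.exists_not_mem (h : MaxPair X L g) : ∃ x, g⁻¹ x ∈ L ∧ x ∉ L := by
  obtain ⟨v, h1, h2⟩ := exists_not_mem_of_not_mem_glStab h.ne
  exact ⟨g v, by simpa [inv_apply_apply] using h1, h2⟩

theorem MaxPair.stab (h : MaxPair X L g) {t : V ≃ₗ[F] V} (ht : t ∈ X)
    (hW : ∀ w ∈ L, g⁻¹ w ∈ L → g⁻¹ (t w) ∈ L) {x : V} (hx : x ∉ L) (h1 : g⁻¹ x ∈ L)
    (h2 : g⁻¹ (t x) ∈ L) : g⁻¹ * t * g ∈ glStab L := by
  by_contra hc
  have := h.max (g⁻¹ * t * g)⁻¹ (inv_mem (mul_mem (mul_mem (inv_mem h.mem) ht) h.mem))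
    (fun e => hc (by simpa only [inv_inv] using inv_mem e))
  set W := L ⊓ L.map (g : V →ₗ[F] V)
  have h3 : (W ⊔ Submodule.span F {x}).map ((g⁻¹ : V ≃ₗ[F] V) : V →ₗ[F] V) ≤
      L ⊓ L.map (((g⁻¹ * t * g)⁻¹ : V ≃ₗ[F] V) : V →ₗ[F] V) := by
    rintro _ ⟨y, hy, rfl⟩
    obtain ⟨c, hc⟩ := mem_sup_span_singleton.1 hy
    have e : y = (y - c • x) + c • x := by abel
    have a1 := mem_map_iff.1 hc.2
    refine ⟨?_, mem_map_iff.2 ?_⟩
    · change g⁻¹ y ∈ L
      rw [e, map_add, map_smul]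
      exact L.add_mem a1 (L.smul_mem _ h1)
    · change g⁻¹ (t (g (g⁻¹ y))) ∈ L
      rw [apply_inv_apply, e, map_add, map_add, map_smul, map_smul]
      exact L.add_mem (hW _ hc.1 a1) (L.smul_mem _ h2)
  have h4 := Submodule.finrank_mono h3
  rw [LinearEquiv.finrank_map_eq] at h4
  have h5 : W < W ⊔ Submodule.span F {x} :=
    lt_of_le_of_ne le_sup_left fun e => hx (show x ∈ W from
      e ▸ Submodule.mem_sup_right (Submodule.mem_span_singleton_self x)).1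
  have := Submodule.finrank_lt_finrank_of_lt h5
  omega

/-! ### Centres of full groups of transvections -/

omit [FiniteDimensional F V]

/-- `X` contains all transvections with centre `x`. -/
def Ctr (X : Subgroup (V ≃ₗ[F] V)) (x : V) : Prop := ∀ χ : Dual F V, χ x = 0 → Tr X x χ

theorem Ctr.conj {x : V} (h : Ctr X x) (hg : g ∈ X) : Ctr X (g x) := fun χ e =>
  (h (χ.comp g.toLinearMap) e).conj' hg rfl fun _ => rfl

theorem Ctr.smul {x : V} (h : Ctr X x) (c : F) : Ctr X (c • x) := fun χ e => by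
  by_cases hc : c = 0
  · rw [hc, zero_smul]; exact tr_zero_left
  · exact (tr_smul c).2 (h _ (by simpa [hc] using e))

theorem Ctr.add {x y : V} (h : Ctr X x) (h' : Ctr X y) : Ctr X (x + y) := by
  by_cases hxy : x ∈ Submodule.span F {y}
  · obtain ⟨c, rfl⟩ := Submodule.mem_span_singleton.1 hxy
    simpa [add_smul] using h'.smul (c + 1)
  · obtain ⟨φ, h1, h2⟩ := exists_dual_eq_one hxy
    obtain ⟨t, ht, e⟩ := h' φ (h1 y (Submodule.mem_span_singleton_self y))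
    simpa [e, h2] using h.conj ht

theorem ctr_zero : Ctr X 0 := fun _ _ => tr_zero_left

theorem SLV_le_of_ctr [FiniteDimensional F V] {S : Set V} (hS : Submodule.span F S = ⊤)
    (h : ∀ x ∈ S, Ctr X x) : SLV F V ≤ X := by
  refine SLV_le_of_tr fun v => ?_
  have hv : v ∈ Submodule.span F S := hS ▸ Submodule.mem_top
  induction hv using Submodule.span_induction with
  | mem x hx => exact h x hx
  | zero => exact ctr_zero
  | add x y _ _ a b => exact Ctr.add a b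
  | smul c x _ a => exact Ctr.smul a c

theorem exists_ne_ne {φ ψ : Dual F V} (h1 : φ ≠ 0) (h2 : ψ ≠ 0) : ∃ y, φ y = 1 ∧ ψ y ≠ 0 := by
  have : ∃ y, φ y ≠ 0 ∧ ψ y ≠ 0 := by
    obtain ⟨a, ha⟩ := DFunLike.ne_iff.1 h1
    obtain ⟨b, hb⟩ := DFunLike.ne_iff.1 h2
    simp only [LinearMap.zero_apply] at ha hb
    by_cases h3 : ψ a = 0
    · by_cases h4 : φ b = 0
      · exact ⟨a + b, by simpa [h4] using ha, by simpa [h3] using hb⟩
      · exact ⟨b, h4, hb⟩
    · exact ⟨a, ha, h3⟩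
  obtain ⟨y, a, b⟩ := this
  exact ⟨(φ y)⁻¹ • y, by simp [a], by simp [a, b]⟩

theorem exists_dual_one {v : V} (hv : v ≠ 0) : ∃ φ : Dual F V, φ v = 1 :=
  let ⟨φ, _, h⟩ := exists_dual_eq_one (H := (⊥ : Submodule F V)) (u := v) (by simpa using hv)
  ⟨φ, h⟩

variable [FiniteDimensional F V]

theorem exists_equiv_apply {u v : V} (hu : u ≠ 0) (hv : v ≠ 0) : ∃ A : V ≃ₗ[F] V, A u = v := by
  obtain ⟨A, h⟩ := exists_equiv_of_li (F := F) (x := fun _ : Unit => u) (y := fun _ : Unit => v)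
    (linearIndependent_unique_iff.2 hu) (linearIndependent_unique_iff.2 hv)
  exact ⟨A, h ()⟩

/-- `SL` is transitive on nilpotent rank one maps up to scalars. -/
theorem exists_SLV_pair {u v : V} {φ ψ : Dual F V} (hu : u ≠ 0) (hv : v ≠ 0) (hφ : φ ≠ 0)
    (hψ : ψ ≠ 0) (h1 : φ u = 0) (h2 : ψ v = 0) :
    ∃ A ∈ SLV F V, ∃ c : F, c ≠ 0 ∧ A u = c • v ∧ ∀ x, ψ (A x) = φ x := by
  obtain ⟨A, hA⟩ := exists_equiv_apply (F := F) hu hv
  let φ' : Dual F V := φ.comp (A⁻¹ : V ≃ₗ[F] V).toLinearMap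
  have hφ' : φ' ≠ 0 := fun e => hφ (LinearMap.ext fun x => by
    simpa [φ', inv_apply_apply] using LinearMap.congr_fun e (A x))
  obtain ⟨y, a1, a2⟩ := exists_ne_ne hψ hφ'
  let B := LinearEquiv.dilatransvection (f := φ' - ψ) (v := y) (by simpa [a1] using a2)
  have hB : ∀ x, B x = x + (φ' - ψ) x • y := fun x => LinearEquiv.dilatransvection.apply
  obtain ⟨χ, hχ⟩ := exists_dual_one (F := F) hu
  obtain ⟨D, b1, b2⟩ := exists_dil_det hχ (LinearEquiv.det (B * A))⁻¹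
  refine ⟨B * A * D, show LinearEquiv.det _ = 1 by rw [map_mul, b2, mul_inv_cancel],
    ((LinearEquiv.det (B * A))⁻¹ : Fˣ), Units.ne_zero _, ?_, fun x => ?_⟩
  · have : φ' v = 0 := by simp [φ', ← hA, inv_apply_apply, h1]
    simp only [LinearEquiv.mul_apply, b1, map_add, map_smul, hA, hB, LinearMap.sub_apply, this, h2,
      LinearMap.smul_apply, hχ]
    module
  · have : φ' v = 0 := by simp [φ', ← hA, inv_apply_apply, h1]
    have e : φ' (A x) = φ x := by simp [φ', inv_apply_apply]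
    simp [LinearEquiv.mul_apply, b1, hA, hB, this, h2, a1, e]

theorem exists_SLV_apply (hd : 2 ≤ finrank F V) {u v : V} (hu : u ≠ 0) (hv : v ≠ 0) :
    ∃ A ∈ SLV F V, A u = v := by
  obtain ⟨A, hA⟩ := exists_equiv_apply (F := F) hu hv
  obtain ⟨B, h1, h2⟩ := exists_SLV_agree (W := Submodule.span F {u})
    (ne_top_of_finrank_lt (by rw [finrank_span_singleton hu]; omega)) A
  exact ⟨B, h1, (h2 u (Submodule.mem_span_singleton_self u)).trans hA⟩

theorem exists_ker_ne_zero {W : Type*} [AddCommGroup W] [Module F W] [FiniteDimensional F W]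
    (f : V →ₗ[F] W) (h : finrank F W < finrank F V) : ∃ v, v ≠ 0 ∧ f v = 0 := by
  obtain ⟨v, h1, h2⟩ := (Submodule.ne_bot_iff _).1 (LinearMap.ker_ne_bot_of_finrank_lt (f := f) h)
  exact ⟨v, h2, h1⟩

theorem exists_not_mem_span (hd : 2 ≤ finrank F V) (u : V) : ∃ v, v ∉ Submodule.span F {u} :=
  exists_not_mem_of_ne_top (ne_top_of_finrank_lt ((finrank_span_le_card (R := F) {u}).trans_lt
    (by simp; omega)))

theorem exists_dual_ker (hd : 2 ≤ finrank F V) (u : V) : ∃ φ : Dual F V, φ ≠ 0 ∧ φ u = 0 := by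
  obtain ⟨v, hv⟩ := exists_not_mem_span hd u
  obtain ⟨φ, h1, h2⟩ := exists_dual_eq_one hv
  exact ⟨φ, fun e => by simp [e] at h2, h1 u (Submodule.mem_span_singleton_self u)⟩

theorem exists_dual_ker_two (hd : 3 ≤ finrank F V) (u v : V) :
    ∃ φ : Dual F V, φ ≠ 0 ∧ φ u = 0 ∧ φ v = 0 := by
  obtain ⟨φ, h1, h2⟩ := exists_ker_ne_zero
    ((Dual.eval F V u).prod (Dual.eval F V v)) (by simp; omega)
  exact ⟨φ, h1, congrArg Prod.fst h2, congrArg Prod.snd h2⟩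

end H13.KL
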