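import Cfsg.Agent.H13.MP

/-!
# Elements `1 + a` of a linear group
-/

set_option autoImplicit false
set_option maxHeartbeats 400000

namespace H13.KL

open Module H12

variable {F : Type*} [Field F] {V : Type*} [AddCommGroup V] [Module F V]
  {X : Subgroup (V ≃ₗ[F] V)} {L : Submodule F V} {g : V ≃ₗ[F] V} {a b : End F V}

/-- `1 + a ∈ X`. -/
def Sq (X : Subgroup (V ≃ₗ[F] V)) (a : End F V) : Prop := ∃ t ∈ X, ∀ x, t x = x + a x

theorem tr_iff_sq {v : V} {φ : Dual F V} : Tr X v φ ↔ Sq X (φ.smulRight v) := Iff.rfl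

theorem sq_zero : Sq X 0 := ⟨1, X.one_mem, fun x => by simp⟩

theorem Sq.mono {Y : Subgroup (V ≃ₗ[F] V)} (h : Sq X a) (hle : X ≤ Y) : Sq Y a :=
  let ⟨t, h1, h2⟩ := h; ⟨t, hle h1, h2⟩

theorem Sq.congr (h : Sq X a) (e : ∀ x, a x = b x) : Sq X b := LinearMap.ext e ▸ h

theorem Sq.mul (h : Sq X a) (h' : Sq X b) : Sq X (a + b + a * b) := by
  obtain ⟨t, h1, h2⟩ := h
  obtain ⟨s, h3, h4⟩ := h'
  exact ⟨t * s, mul_mem h1 h3, fun x => by simp [h2, h4]; abel⟩

theorem Sq.add (h : Sq X a) (h' : Sq X b) (e : a * b = 0) : Sq X (a + b) := by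
  simpa [e] using h.mul h'

theorem Sq.inv (h : Sq X a) (e : a + b + a * b = 0) : Sq X b := by
  obtain ⟨t, h1, h2⟩ := h
  refine ⟨t⁻¹, inv_mem h1, fun x => t.injective ?_⟩
  have := LinearMap.congr_fun e x
  simp only [LinearMap.add_apply, End.mul_apply, LinearMap.zero_apply] at this
  rw [apply_inv_apply, h2, map_add]
  linear_combination (norm := module) -this

theorem Sq.neg (h : Sq X a) (e : a * a = 0) : Sq X (-a) := h.inv (by simp [e])

/-- Conjugation of an endomorphism. -/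
def cj (g : V ≃ₗ[F] V) (a : End F V) : End F V :=
  (g : V →ₗ[F] V) ∘ₗ a ∘ₗ ((g⁻¹ : V ≃ₗ[F] V) : V →ₗ[F] V)

@[simp] theorem cj_apply (g : V ≃ₗ[F] V) (a : End F V) (x : V) : cj g a x = g (a (g⁻¹ x)) := rfl

theorem Sq.conj (h : Sq X a) (hg : g ∈ X) : Sq X (cj g a) := by
  obtain ⟨t, h1, h2⟩ := h
  exact ⟨g * t * g⁻¹, mul_mem (mul_mem hg h1) (inv_mem hg), fun x => by
    simp [h2, apply_inv_apply]⟩

theorem Sq.conj' (h : Sq X a) (hg : g ∈ X) (e : ∀ x, b (g x) = g (a x)) : Sq X b :=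
  (h.conj hg).congr fun x => by rw [cj_apply, ← e, apply_inv_apply]

theorem Sq.conj_sq (h : Sq X a) (h' : Sq X b) (e : a * a = 0) :
    Sq X ((1 + a) * b * (1 - a)) := by
  obtain ⟨t, h1, h2⟩ := h
  refine h'.conj' h1 fun x => ?_
  have := LinearMap.congr_fun e x
  simp only [End.mul_apply, LinearMap.zero_apply] at this
  simp [h2, this]

theorem Sq.comm (h : Sq X a) (h' : Sq X b) (ha : a * a = 0) (hb : b * b = 0) (e : b * a = 0) :
    Sq X (a * b) := by
  have h1 := (h.conj_sq h' ha).mul (h'.neg hb)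
  have : (1 + a) * b * (1 - a) = b + a * b := by
    have : (1 + a) * b * (1 - a) = b + a * b - (1 + a) * (b * a) := by noncomm_ring
    rw [this, e]; simp
  rw [this] at h1
  convert h1 using 1
  have : b + a * b + -b + (b + a * b) * -b = a * b - (1 + a) * (b * b) := by noncomm_ring
  rw [this, hb]; simp

theorem exists_sq_SLV [Finite F] [FiniteDimensional F V] (e : a * a = 0) :
    ∃ t ∈ SLV F V, ∀ x, t x = x + a x := by
  have h := fun x => LinearMap.congr_fun e x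
  simp only [End.mul_apply, LinearMap.zero_apply] at h
  exact ⟨LinearEquiv.ofLinearMap (1 + a) (1 - a) (by ext x; simp [h]) (by ext x; simp [h]),
    mem_SLV_of_sq_zero fun x => by simp [h], fun x => by simp⟩

variable (X L) in
/-- The part of `X` in the unipotent radical of the stabiliser of `L`. -/
def MQ : AddSubgroup (End F V) where
  carrier := {c | (∀ x, c x ∈ L) ∧ (∀ x ∈ L, c x = 0) ∧ Sq X c}
  zero_mem' := ⟨fun _ => L.zero_mem, fun _ _ => rfl, sq_zero⟩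
  add_mem' {a b} ha hb := ⟨fun x => L.add_mem (ha.1 x) (hb.1 x), fun x hx => by
    simp [ha.2.1 x hx, hb.2.1 x hx], ha.2.2.add hb.2.2
      (LinearMap.ext fun x => ha.2.1 _ (hb.1 x))⟩
  neg_mem' {a} ha := ⟨fun x => L.neg_mem (ha.1 x), fun x hx => by simp [ha.2.1 x hx],
    ha.2.2.neg (LinearMap.ext fun x => ha.2.1 _ (ha.1 x))⟩

theorem mem_MQ : a ∈ MQ X L ↔ (∀ x, a x ∈ L) ∧ (∀ x ∈ L, a x = 0) ∧ Sq X a := Iff.rfl

theorem MQ_conj (h : a ∈ MQ X L) (hg : g ∈ X) (hL : g ∈ glStab L) : cj g a ∈ MQ X L :=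
  ⟨fun x => (hL _).1 (h.1 _), fun x hx => by
    rw [cj_apply, h.2.1 _ ((hL _).2 (by rwa [apply_inv_apply])), map_zero], h.2.2.conj hg⟩

theorem MQ_conj' (h : a ∈ MQ X L) (hg : g ∈ X) {L' : Submodule F V} (hL : ∀ x, x ∈ L ↔ g x ∈ L') :
    cj g a ∈ MQ X L' :=
  ⟨fun x => (hL _).1 (h.1 _), fun x hx => by
    rw [cj_apply, h.2.1 _ ((hL _).2 (by rwa [apply_inv_apply])), map_zero], h.2.2.conj hg⟩

end H13.KL
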