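import Mathlib

/-!
Abstract systems of transvection groups (McLaughlin's theorem, combinatorial part).
-/

set_option autoImplicit false

namespace H13.McL

variable {F V V' : Type*} [Field F] [AddCommGroup V] [Module F V] [AddCommGroup V'] [Module F V']

/-- a system of transvection groups `x ↦ x + c φ(x) v` without isolated members -/
structure TS (b : V →ₗ[F] V' →ₗ[F] F) (r : V → V' → Prop) : Prop where
  two : (2 : F) ≠ 0
  inc : ∀ {v φ}, r v φ → b v φ = 0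
  zl : ∀ φ, r 0 φ
  zr : ∀ v, r v 0
  sl : ∀ {v φ} (c : F), r v φ → r (c • v) φ
  sr : ∀ {v φ} (c : F), r v φ → r v (c • φ)
  al : ∀ {v w φ}, r v φ → r w φ → r (v + w) φ
  ar : ∀ {v φ ψ}, r v φ → r v ψ → r v (φ + ψ)
  conj : ∀ {v φ w ψ}, r v φ → r w ψ → r (w + b w φ • v) (ψ - b v ψ • φ)
  opp : ∀ {v φ}, r v φ → v ≠ 0 → φ ≠ 0 → ∃ u χ, r u χ ∧ b u φ ≠ 0 ∧ b v χ ≠ 0
  rad : ∀ {v φ w ψ u χ}, r v φ → r w ψ → r u χ → b w φ = 0 → b v ψ = 0 → b (v + w) χ = 0 → b u (φ + ψ) = 0 →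
    b u φ ≠ 0 → b v χ ≠ 0 → r (v + w) (φ + ψ)

variable (b : V →ₗ[F] V' →ₗ[F] F) (r : V → V' → Prop)

/-- centres -/
def P (v : V) : Prop := v ≠ 0 ∧ ∃ φ, φ ≠ 0 ∧ r v φ

/-- `v` moves `x` -/
def N (v x : V) : Prop := v ≠ 0 ∧ ∃ φ, r v φ ∧ b x φ ≠ 0

/-- same component -/
def E (v w : V) : Prop := P r v ∧ P r w ∧ ∃ u, N b r u v ∧ N b r u w

variable {b r} {u v w x y z : V} {φ ψ χ ω : V'}

theorem N.P (h : N b r v x) : P r v := let ⟨h, φ, h1, h2⟩ := h; ⟨h, φ, fun e => h2 (by simp [e]), h1⟩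

theorem N.mk' (h : r v φ) (h1 : b x φ ≠ 0) (h2 : b v χ ≠ 0) : N b r v x := ⟨fun e => h2 (by simp [e]), φ, h, h1⟩

theorem N.ne (h : N b r v x) : x ≠ 0 := fun e => let ⟨_, _, _, h2⟩ := h; h2 (by simp [e])

theorem N.or (h : N b r v (x + y)) : N b r v x ∨ N b r v y := by
  obtain ⟨h, φ, h1, h2⟩ := h
  by_cases e : b x φ = 0
  · exact Or.inr ⟨h, φ, h1, by simpa [e] using h2⟩
  · exact Or.inl ⟨h, φ, h1, e⟩

theorem N.smul (h : N b r v x) {c : F} (hc : c ≠ 0) : N b r v (c • x) :=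
  let ⟨h, φ, h1, h2⟩ := h; ⟨h, φ, h1, by simp [hc, h2]⟩

theorem N.of_smul {c : F} (h : N b r v (c • x)) : N b r v x :=
  let ⟨h, φ, h1, h2⟩ := h; ⟨h, φ, h1, fun e => h2 (by simp [e])⟩

theorem N.add (h : N b r v x) (h' : ¬ N b r v y) (c : F) : N b r v (x + c • y) :=
  (N.or (y := -c • y) (by simpa using h)).resolve_right fun e => h' e.of_smul

theorem N.add' (h : N b r v x) (h' : ¬ N b r v y) {c : F} (hc : c ≠ 0) : N b r v (y + c • x) := by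
  simpa [add_comm] using (h.smul hc).add h' 1

theorem E.symm (h : E b r v w) : E b r w v := let ⟨h1, h2, u, h3, h4⟩ := h; ⟨h2, h1, u, h4, h3⟩

namespace TS

variable (h : TS b r)
include h

theorem flip : TS b.flip fun φ v => r v φ :=
  ⟨h.two, h.inc, h.zr, h.zl, h.sr, h.sl, h.ar, h.al,
    fun h1 h2 => by simpa [sub_eq_add_neg] using h.conj (h.sr (-1) h1) h2,
    fun h1 h2 h3 => let ⟨u, χ, h4, h5, h6⟩ := h.opp h1 h3 h2; ⟨χ, u, h4, h6, h5⟩,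
    fun h1 h2 h3 h4 h5 h6 h7 h8 h9 => h.rad h1 h2 h3 h5 h4 h7 h6 h9 h8⟩

theorem not_N : ¬ N b r v v := fun ⟨_, _, h1, h2⟩ => h2 (h.inc h1)

theorem of_sl {c : F} (hc : c ≠ 0) (h1 : r (c • v) φ) : r v φ := by simpa [hc] using h.sl c⁻¹ h1

theorem of_sr {c : F} (hc : c ≠ 0) (h1 : r v (c • φ)) : r v φ := by simpa [hc] using h.sr c⁻¹ h1

theorem move (h1 : r v φ) (h2 : r w ψ) (h3 : b w φ ≠ 0) (c : F) : r (w + c • v) (ψ - (b v ψ * (c / b w φ)) • φ) := by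
  simpa [h3, smul_smul] using h.conj (h.sr (c / b w φ) h1) h2

theorem comm (h1 : r v φ) (h2 : r w ψ) (h3 : b w φ ≠ 0) (h4 : b v ψ = 0) : r v ψ := by
  simpa using h.al (show r (w + v) ψ by simpa [h4] using h.move h1 h2 h3 1) (h.sl (-1) h2)

theorem P_add (h1 : N b r v w) (h2 : P r w) (c : F) : P r (w + c • v) := by
  obtain ⟨-, φ, h1, h3⟩ := h1
  obtain ⟨-, ψ, h4, h2⟩ := h2
  refine ⟨fun e => h3 (by simpa [h.inc h1] using congrArg (b · φ) e), _, fun e => h4 ?_, h.move h1 h2 h3 c⟩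
  have := congrArg (b w) e
  simp only [map_sub, h.inc h2, map_smul, smul_eq_mul, zero_sub, map_zero, neg_eq_zero, mul_eq_zero (b := b w φ), h3,
    or_false] at this
  simpa [this] using e

theorem P_smul (h1 : P r v) {c : F} (hc : c ≠ 0) : P r (c • v) :=
  let ⟨h1, φ, h2, h3⟩ := h1; ⟨smul_ne_zero hc h1, φ, h2, h.sl c h3⟩

theorem line (h1 : N b r v w) {c : F} (h2 : N b r (w + c • v) x) : N b r v x ∨ N b r w x := by
  obtain ⟨hv, φ, h1, h3⟩ := h1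
  obtain ⟨-, ω, h2, h4⟩ := h2
  by_cases e : b x φ = 0
  · exact Or.inr ⟨fun e => h3 (by simp [e]), _, by simpa using h.move h1 h2 (by simpa [h.inc h1]) (-c), by simpa [e]⟩
  · exact Or.inl ⟨hv, φ, h1, e⟩

theorem exists_N (h1 : P r v) : ∃ u, N b r u v :=
  let ⟨h1, _, h2, h3⟩ := h1; let ⟨u, _, h4, h5, h6⟩ := h.opp h3 h1 h2
  ⟨u, fun e => h5 (by simp [e]), _, h4, h6⟩

variable [Finite V']

theorem card_le (h1 : N b r v x) (c : F) : {ψ | r x ψ}.ncard ≤ {ψ | r (x + c • v) ψ}.ncard := by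
  obtain ⟨-, φ, h1, h3⟩ := h1
  refine Set.ncard_le_ncard_of_injOn _ (fun ψ h2 => h.move h1 h2 h3 c) fun ψ _ ψ' _ e => ?_
  have := congrArg (b v) e
  simp only [map_sub, map_smul, h.inc h1, smul_zero, sub_zero] at this
  simpa [this] using e

theorem card_opp (h1 : N b r u w) (h2 : N b r w u) : {ψ | r w ψ}.ncard ≤ {ψ | r u ψ}.ncard := by
  simpa using (h.card_le h1 1).trans (h.card_le (h2.add' h.not_N one_ne_zero) (-1))

theorem N_symm (h1 : N b r v w) (h2 : P r w) : N b r w v := by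
  by_contra h3
  obtain ⟨hv, φ, h1, h4⟩ := h1
  obtain ⟨hw, ψ, h5, h2⟩ := h2
  have k : ∀ ψ, r w ψ → b v ψ = 0 := fun ψ h2 => by by_contra e; exact h3 ⟨hw, ψ, h2, e⟩
  have k' : {ψ | r w ψ} ⊆ {ψ | r v ψ} := fun ψ h2 => h.comm h1 h2 h4 (k ψ h2)
  suffices {ψ | r v ψ}.ncard ≤ {ψ | r w ψ}.ncard from
    h4 (h.inc (show φ ∈ {ψ | r w ψ} from Set.eq_of_subset_of_ncard_le k' this ▸ h1))
  obtain ⟨u, χ, h6, h7, h8⟩ := h.opp (k' h2) hv h5
  refine (h.card_opp (.mk' h6 h8 h7) ⟨hv, ψ, k' h2, h7⟩).trans ?_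
  by_cases e : b w χ = 0
  · have h9 : b (u + b u φ • v) ψ ≠ 0 := by simpa [k ψ h2]
    refine le_trans ?_ (h.card_opp ⟨hw, ψ, h2, h9⟩ (.mk' (h.conj h1 h6) (by simp [e, h8, h4]) h9))
    simpa [h.inc (k' h2)] using h.card_le ⟨hv, ψ, k' h2, h7⟩ (b u φ)
  · exact h.card_opp ⟨hw, ψ, h2, h7⟩ (.mk' h6 e h7)

omit [Finite V'] in
theorem E_refl (h1 : P r v) : E b r v v := let ⟨u, h2⟩ := h.exists_N h1; ⟨h1, h1, u, h2, h2⟩

theorem E_step (h1 : E b r v y) (h2 : N b r y w) (hw : P r w) : E b r v w := by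
  obtain ⟨hv, hy, a, h3, h4⟩ := h1
  refine ⟨hv, hw, ?_⟩
  by_cases e : N b r a w
  · exact ⟨a, h3, e⟩
  by_cases e' : N b r y v
  · exact ⟨y, e', h2⟩
  have h5 := h.P_add h4 hy 1
  exact ⟨_, h.N_symm ((h.N_symm h3 hv).add' (fun e => e' (h.N_symm e hy)) one_ne_zero) h5,
    h.N_symm ((h.N_symm h2 hw).add (fun e'' => e (h.N_symm e'' h3.P)) 1) h5⟩

theorem E_trans (h1 : E b r v w) (h2 : E b r w x) : E b r v x :=
  let ⟨hw, hx, _, h3, h4⟩ := h2; h.E_step (h.E_step h1 (h.N_symm h3 hw) h3.P) h4 hx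

theorem E_of_N (h1 : N b r v w) (hw : P r w) : E b r v w := h.E_step (h.E_refl h1.P) h1 hw

theorem add_aux (hv : P r v) (hw : P r w) (e : ¬ N b r w v) (h1 : N b r u v) (h2 : N b r u w) (h3 : N b r u (v + w)) :
    P r (v + w) := by
  have h4 := h.P_add (h.N_symm h1 hv) h1.P 1
  have h5 := h.P_add ((h.N_symm h2 hw).add e 1) h4 1
  have h6 := h.P_add (show N b r u (u + (1 : F) • v + (1 : F) • w) by
    simpa [add_assoc] using h3.add' h.not_N one_ne_zero) h5 (-1)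
  rwa [show u + (1 : F) • v + (1 : F) • w + (-1 : F) • u = v + w by module] at h6

theorem add_aux2 (hv : P r v) (hw : P r w) (e : ¬ N b r w v) (h1 : N b r u v) (h2 : N b r u w) (h3 : N b r y (v + w))
    (h4 : ¬ N b r y w) (h5 : N b r u y) : P r (v + w) := by
  by_cases h6 : N b r u (v + w)
  · exact h.add_aux hv hw e h1 h2 h6
  obtain ⟨c, hc, h7⟩ : ∃ c : F, c ≠ 0 ∧ N b r v (u + c • y) := by
    have := ((h.N_symm h1 hv).smul h.two)
    rw [show (2 : F) • u = (u + (1 : F) • y) + (u + (-1 : F) • y) by module] at this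
    exact this.or.elim (fun e => ⟨1, one_ne_zero, e⟩) fun e => ⟨-1, by simp, e⟩
  have h8 := h.P_add (h.N_symm h5 h3.P) h1.P c
  refine h.add_aux hv hw e (h.N_symm h7 h8) (h.N_symm ((h.N_symm h2 hw).add (fun e => h4 (h.N_symm e h3.P)) c) h8) ?_
  refine (h.line (h5.add' h.not_N hc) (c := -1) ?_).resolve_left h6
  obtain ⟨h9, φ, h10, h11⟩ := h3
  exact ⟨by simp [hc, h9], φ, by simpa using h.sl c h10, h11⟩

theorem add_aux3 (hv : P r v) (hw : P r w) (e : ¬ N b r w v) (h1 : N b r u v) (h2 : N b r u w) (h3 : N b r y (v + w))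
    (h4 : ¬ N b r y w) : P r (v + w) := by
  by_cases h5 : N b r u y
  · exact h.add_aux2 hv hw e h1 h2 h3 h4 h5
  have h6 := h.N_symm (h3.or.resolve_right h4) hv
  have h7 := h.P_add h6 h3.P 1
  have h8 : ¬ N b r v (v + w) := fun e' => e'.or.elim h.not_N fun e' => e (h.N_symm e' hw)
  refine h.add_aux2 hv hw e h1 h2 (y := y + (1 : F) • v) ?_ (fun e' => ?_) (h1.add' h5 one_ne_zero)
  · exact (h.line (h6.add h.not_N 1) (c := -1) (by simpa using h3)).resolve_left h8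
  · exact (h.N_symm e' hw).or.elim (fun e' => h4 (h.N_symm e' h3.P)) fun e' => e e'.of_smul

theorem add_P (h1 : E b r v w) (h0 : v + w ≠ 0) : P r (v + w) := by
  obtain ⟨hv, hw, u, h1, h2⟩ := h1
  by_cases e : N b r w v
  · simpa using h.P_add e hv 1
  by_cases h3 : ∃ y, N b r y (v + w)
  · obtain ⟨y, h3⟩ := h3
    by_cases h4 : N b r y w
    · by_cases h5 : N b r y v
      · exact h.add_aux hv hw e h5 h4 h3
      · rw [add_comm] at h3 ⊢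
        exact h.add_aux3 hw hv (fun e' => e (h.N_symm e' hw)) h2 h1 h3 h5
    · exact h.add_aux3 hv hw e h1 h2 h3 h4
  have k : ∀ {y ω}, y ≠ 0 → r y ω → b (v + w) ω = 0 := fun {y ω} h4 h5 => by by_contra e; exact h3 ⟨y, h4, ω, h5, e⟩
  obtain ⟨-, φ, h4, h5⟩ := h.N_symm h1 hv
  obtain ⟨-, ψ, h6, h7⟩ := h.N_symm h2 hw
  obtain ⟨hu, χ, h8, h9⟩ := h1
  have h10 := h.sr (-(b u φ / b u ψ)) h6
  have h11 := h.rad h4 h10 h8 (by simpa [h.inc h4] using k hv.1 h4) (by simpa [h.inc h6] using k hw.1 h10) (k hu h8)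
    (by simp [h7]) h5 h9
  by_cases e' : φ + -(b u φ / b u ψ) • ψ = 0
  · rw [← neg_eq_iff_add_eq_zero] at e'
    exact ⟨h0, φ, fun e => h5 (by simp [e]), h.al h4 (by simpa [← e'] using h.sr (-1) h10)⟩
  · exact ⟨h0, _, e', h11⟩

theorem E_add (h1 : E b r v w) (h0 : v + w ≠ 0) : E b r v (v + w) := by
  have h2 := h.add_P h1 h0
  obtain ⟨y, hy⟩ := h.exists_N h2
  exact hy.or.elim (fun e => ⟨h1.1, h2, y, e, hy⟩) fun e => h.E_trans h1 ⟨h1.2.1, h2, y, e, hy⟩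

/-- the component subspace -/
def W (v : V) : Submodule F V where
  carrier := {w | w = 0 ∨ E b r v w}
  zero_mem' := Or.inl rfl
  add_mem' := by
    rintro x y (rfl | hx) (rfl | hy)
    · simp
    · simp [hy]
    · simp [hx]
    · exact (em _).imp_right fun e => h.E_trans hx (h.E_add (h.E_trans hx.symm hy) e)
  smul_mem' := by
    rintro c x (rfl | ⟨h1, h2, u, h3, h4⟩)
    · simp
    · by_cases hc : c = 0
      · simp [hc]
      · exact Or.inr ⟨h1, h.P_smul h2 hc, u, h3, h4.smul hc⟩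

theorem mem_W : w ∈ h.W v ↔ w = 0 ∨ E b r v w := Iff.rfl

theorem W_eq (h1 : E b r v w) : h.W v = h.W w :=
  Submodule.ext fun _ => or_congr_right ⟨h.E_trans h1.symm, h.E_trans h1⟩

theorem mem_of_N (h1 : N b r y w) (hw : w ∈ h.W v) : y ∈ h.W v :=
  hw.elim (fun e => (h1.ne e).elim) fun e => Or.inr (h.E_trans e (h.E_of_N h1 e.2.1).symm)

theorem mem_of_N' (h1 : N b r w y) (hw : w ∈ h.W v) (hy : P r y) : y ∈ h.W v := h.mem_of_N (h.N_symm h1 hy) hw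

theorem P_of_mem (hw : w ∈ h.W v) (h0 : w ≠ 0) : P r w := (hw.resolve_left h0).2.1

theorem eq_of_N (h1 : N b r x y) (hx : x ∈ h.W v) (hy : y ∈ h.W w) : h.W v = h.W w := by
  rw [h.W_eq (hx.resolve_left h1.1), h.W_eq ((h.mem_of_N h1 hy).resolve_left h1.1)]

theorem opp' (h1 : r v φ) (hv : v ≠ 0) (h0 : φ ≠ 0) (hx : v ∈ h.W x) : ∃ u ∈ h.W x, b u φ ≠ 0 :=
  let ⟨u, _, h2, h3, h4⟩ := h.opp h1 hv h0; ⟨u, h.mem_of_N (.mk' h2 h4 h3) hx, h3⟩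

theorem full (h1 : r w φ) (hw : w ∈ h.W x) (hv : v ∈ h.W x) (h2 : N b r w v) (h3 : b v φ = 0) :
    ∀ y ∈ h.W x, b y φ = 0 → r y φ := by
  have k : ∀ y ∈ h.W x, N b r w y → b y φ = 0 → r y φ := fun y hy h2 h3 =>
    let ⟨_, _, h4, h5⟩ := h.N_symm h2 (h.P_of_mem hy h2.ne); h.comm h4 h1 h5 h3
  intro y hy h4
  by_cases e : N b r w y
  · exact k y hy e h4
  simpa using h.al (k _ (add_mem hy (Submodule.smul_mem _ 1 hv)) (h2.add' e one_ne_zero) (by simp [h3, h4]))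
    (h.sl (-1) (k v hv h2 h3))

theorem linear_case (hv : v ∈ h.W x) (hw : w ∈ h.W x) (h0 : φ ≠ 0) (hw0 : w ≠ 0) (h1 : r v φ) (h2 : r w ψ)
    (h3 : b w φ = 0) (h4 : b v ψ ≠ 0) (hy : y ∈ h.W x) (hy0 : y ≠ 0) (h5 : r y ω) :
    ∀ z ∈ h.W x, b z ω = 0 → r z ω := by
  have h6 := h.full (h.comm h2 h1 h4 h3) hw hv ⟨hw0, ψ, h2, h4⟩ (h.inc h1)
  by_cases e : b y φ = 0
  · by_cases e' : ∃ a ∈ h.W x, b a ω = 0 ∧ b a φ ≠ 0
    · obtain ⟨a, ha, h7, h8⟩ := e'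
      exact h.full h5 hy ha ⟨hy0, φ, h6 y hy e, h8⟩ h7
    push Not at e'
    by_cases hω : ω = 0
    · exact fun z _ _ => hω ▸ h.zr z
    obtain ⟨u, hu, h7⟩ := h.opp' h5 hy0 hω hy
    have h8 : φ = (b u φ / b u ω) • ω := by
      by_contra h8
      obtain ⟨a, ha, h9⟩ := h.opp' (h.ar (h6 y hy e) (h.sr (-(b u φ / b u ω)) h5)) hy0 (by
        rwa [neg_smul, ← sub_eq_add_neg, sub_ne_zero]) hy
      have := e' (a - (b a ω / b u ω) • u) (sub_mem ha (Submodule.smul_mem _ _ hu)) (by simp [h7])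
      refine h9 ?_
      simp only [map_sub, map_smul, LinearMap.sub_apply, LinearMap.smul_apply, smul_eq_mul, map_add] at this ⊢
      linear_combination this
    exact fun z hz h9 => h.of_sr (fun e => h0 (by rw [h8, e, zero_smul])) (h8 ▸ h6 z hz (e' z hz h9))
  obtain ⟨a, ha, h7, h8, h9⟩ : ∃ a ∈ h.W x, a ≠ 0 ∧ b a φ = 0 ∧ b a ω = 0 := by
    by_cases e' : b w ω = 0
    · exact ⟨w, hw, hw0, h3, e'⟩
    · exact ⟨b w ω • v - b v ω • w, sub_mem (Submodule.smul_mem _ _ hv) (Submodule.smul_mem _ _ hw),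
        fun e => by simpa [h.inc h2, h4, e'] using congrArg (b · ψ) e, by simp [h3, h.inc h1], by simp [mul_comm]⟩
  exact h.full h5 hy ha (h.N_symm ⟨h7, φ, h6 a ha h8, e⟩ (h.P_of_mem hy hy0)) h9

theorem symp_case (hS : ∀ {v w φ ψ}, v ∈ h.W x → w ∈ h.W x → φ ≠ 0 → w ≠ 0 → r v φ → r w ψ → b w φ = 0 → b v ψ = 0) :
    ∃ B : LinearMap.BilinForm F (h.W x), B.IsAlt ∧ ∀ v : h.W x, v ≠ 0 → ∃ φ, φ ≠ 0 ∧ r v φ ∧ (∀ y, B v y = b y φ) ∧
      ∀ ψ, r v ψ → ∃ c : F, ∀ y : h.W x, b y ψ = c * B v y := by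
  by_cases h0 : ∃ u ∈ h.W x, u ≠ 0
  swap
  · exact ⟨0, fun _ => rfl, fun v hv => (h0 ⟨v, v.2, by simpa using hv⟩).elim⟩
  obtain ⟨u, hu, h0⟩ := h0
  obtain ⟨-, χ, hχ, h1⟩ := h.P_of_mem hu h0
  let Γ : Set (V × V') := {p | p.1 ∈ h.W x ∧ r p.1 p.2 ∧ b u p.2 = -b p.1 χ ∧ b p.1 χ ≠ 0}
  have k1 : ∀ p ∈ Γ, ∀ q ∈ Γ, b q.1 p.2 + b p.1 q.2 = 0 := by
    rintro ⟨v, φ⟩ ⟨hv, h2, h3, h4⟩ ⟨w, ψ⟩ ⟨hw, h5, h6, h7⟩
    dsimp only at *
    by_cases e : b w φ = 0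
    · simp [e, hS hv hw (fun e => h4 (by simpa [e] using h3)) (fun e => h7 (by simp [e])) h2 h5 e]
    have := hS hu (add_mem hw (Submodule.smul_mem _ _ hv)) hχ (fun e' => e (by
      simpa [h.inc h2] using congrArg (b · φ) e')) h1 (h.move h2 h5 e (-(b w χ / b v χ))) (by simp [h4])
    simp only [map_sub, map_smul, smul_eq_mul, h3, h6] at this
    field_simp at this
    exact mul_left_cancel₀ h7 (by linear_combination -this)
  have k2 : ∀ p ∈ Submodule.span F Γ, ∀ q ∈ Submodule.span F Γ, b q.1 p.2 + b p.1 q.2 = 0 := fun p hp q hq => by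
    induction hp, hq using Submodule.span_induction₂ with
    | mem_mem p q hp hq => exact k1 p hp q hq
    | zero_left => simp
    | zero_right => simp
    | add_left _ _ _ _ _ _ h1 h2 => simp only [Prod.fst_add, Prod.snd_add, map_add, LinearMap.add_apply]; linear_combination h1 + h2
    | add_right _ _ _ _ _ _ h1 h2 => simp only [Prod.fst_add, Prod.snd_add, map_add, LinearMap.add_apply]; linear_combination h1 + h2
    | smul_left c _ _ _ _ h1 => simp only [Prod.smul_fst, Prod.smul_snd, map_smul, LinearMap.smul_apply, smul_eq_mul]; linear_combination c * h1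
    | smul_right c _ _ _ _ h1 => simp only [Prod.smul_fst, Prod.smul_snd, map_smul, LinearMap.smul_apply, smul_eq_mul]; linear_combination c * h1
  have k3 : ∀ {v φ}, v ∈ h.W x → r v φ → φ ≠ 0 → b v χ ≠ 0 → ∃ c : F, c ≠ 0 ∧ (v, c • φ) ∈ Γ := fun {v φ} hv h2 h3 h4 =>
    have h5 : b u φ ≠ 0 := fun e => h4 (hS hv hu h3 h0 h2 h1 e)
    ⟨-(b v χ / b u φ), by simp [h4, h5], hv, h.sr _ h2, by simp [h5], h4⟩
  have k4 : ∀ {v φ}, v ∈ h.W x → v ≠ 0 → r v φ → φ ≠ 0 → ∃ c : F, c ≠ 0 ∧ (v, c • φ) ∈ Submodule.span F Γ := by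
    intro v φ hv h5 h2 h3
    by_cases h4 : b v χ = 0
    swap
    · exact (k3 hv h2 h3 h4).imp fun c hc => ⟨hc.1, Submodule.subset_span hc.2⟩
    obtain ⟨-, -, y, h6, h7⟩ := h.E_trans (hu.resolve_left h0).symm (hv.resolve_left h5)
    have hy := h.mem_of_N h6 hu
    obtain ⟨hy0, ω, h8, h9⟩ := h6
    obtain ⟨c, hc, -, h10, h11, h12⟩ := k3 hy h8 (fun e => h9 (by simp [e])) fun e => h9 (hS hu hy hχ hy0 h1 h8 e)
    dsimp only at h10 h11 h12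
    have h13 : b y φ ≠ 0 := fun e => let ⟨_, _, h14, h15⟩ := h7; h15 (hS hv hy h3 hy0 h2 h14 e)
    have h14 : b v (c • ω) ≠ 0 := fun e => h13 (hS hy hv (fun e => h12 (by simpa [e] using h11)) h5 h10 h2 e)
    refine ⟨-(b v (c • ω) * (1 / b y φ)), by simpa [h13] using h14, ?_⟩
    have h15 : (y + (1 : F) • v, c • ω - (b v (c • ω) * (1 / b y φ)) • φ) ∈ Γ :=
      ⟨add_mem hy (Submodule.smul_mem _ _ hv), h.move h2 h10 h13 1, by
        simpa [h4, hS hu hv hχ h5 h1 h2 h4] using h11, by simpa [h4]⟩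
    have := (Submodule.span F Γ).sub_mem (Submodule.subset_span h15)
      (Submodule.subset_span (show (y, c • ω) ∈ Γ from ⟨hy, h10, h11, h12⟩))
    convert this using 1
    simp
  have k5 : ∀ p ∈ Submodule.span F Γ, p.1 ∈ h.W x := fun p hp =>
    (Submodule.span_le (p := (h.W x).comap (LinearMap.fst F V V'))).2 (fun _ h => h.1) hp
  have k6 : ∀ y : h.W x, ∃ φ, (y.1, φ) ∈ Submodule.span F Γ := fun y => by
    by_cases e : y.1 = 0
    · exact ⟨0, e ▸ zero_mem _⟩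
    obtain ⟨-, φ, h2, h3⟩ := h.P_of_mem y.2 e
    obtain ⟨c, -, h4⟩ := k4 y.2 e h3 h2
    exact ⟨_, h4⟩
  obtain ⟨s, hs⟩ := LinearMap.exists_rightInverse_of_surjective (((LinearMap.fst F V V').domRestrict
    (Submodule.span F Γ)).codRestrict (h.W x) fun p => k5 p p.2) (LinearMap.range_eq_top.2 fun y =>
      let ⟨φ, h⟩ := k6 y; ⟨⟨_, h⟩, rfl⟩)
  have hs' : ∀ y, (s y).1.1 = y.1 := fun y => congrArg Subtype.val (LinearMap.congr_fun hs y)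
  have k7 : ∀ (v : h.W x) φ, (v.1, φ) ∈ Submodule.span F Γ → ∀ y : h.W x, b y (s v).1.2 = b y φ := fun v φ h2 y => by
    obtain ⟨ψ, h3⟩ := k6 y
    have h4 := k2 _ (s v).2 _ h3
    have h5 := k2 _ h2 _ h3
    rw [hs'] at h4
    linear_combination h4 - h5
  refine ⟨(b.compl₁₂ (h.W x).subtype ((LinearMap.snd F V V').comp ((Submodule.subtype _).comp s))).flip,
    fun v => ?_, fun v hv => ?_⟩
  · have := k2 _ (s v).2 _ (s v).2
    rw [hs', ← two_mul, mul_eq_zero] at this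
    exact this.resolve_left h.two
  have e : v.1 ≠ 0 := by simpa using hv
  obtain ⟨-, φ, h2, h3⟩ := h.P_of_mem v.2 e
  obtain ⟨c, hc, h4⟩ := k4 v.2 e h3 h2
  refine ⟨_, smul_ne_zero hc h2, h.sr c h3, k7 v _ h4, fun ψ h5 => ?_⟩
  by_cases e' : ψ = 0
  · exact ⟨0, by simp [e']⟩
  obtain ⟨d, hd, h6⟩ := k4 v.2 e h5 e'
  exact ⟨d⁻¹, fun y => by erw [k7 v _ h6]; simp [hd]⟩

variable [Finite V]

theorem E_flip (h1 : r v φ) (h2 : r w ψ) (hφ : φ ≠ 0) (hψ : ψ ≠ 0) (h3 : E b r v w) :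
    E b.flip (fun φ v => r v φ) φ ψ := by
  have k : ∀ {v φ w ψ}, r v φ → r w ψ → φ ≠ 0 → ψ ≠ 0 → N b r v w → E b.flip (fun φ v => r v φ) φ ψ := by
    rintro v φ w ψ h1 h2 hφ hψ ⟨hv, φ', h3, h4⟩
    obtain ⟨u, χ, h5, h6, h7⟩ := h.opp h1 hv hφ
    have h8 : φ' ≠ 0 := fun e => h4 (by simp [e])
    have h9 : P (fun φ v => r v φ) χ := ⟨fun e => h7 (by simp [e]), u, fun e => h6 (by simp [e]), h5⟩
    exact h.flip.E_trans (h.flip.E_trans (h.flip.E_of_N ⟨hφ, v, h1, h7⟩ h9) (h.flip.E_of_N ⟨h8, v, h3, h7⟩ h9).symm)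
      (h.flip.E_of_N ⟨hψ, w, h2, h4⟩ ⟨h8, v, hv, h3⟩).symm
  obtain ⟨-, -, u, h4, h5⟩ := h3
  obtain ⟨-, χ, h6, h7⟩ := h4.P
  exact h.flip.E_trans (k h7 h1 h6 hφ h4).symm (k h7 h2 h6 hψ h5)

/-- the functionals belonging to a component -/
theorem exists_dual (x : V) : ∃ Φ : Submodule F V', ∀ φ, φ ∈ Φ ↔ φ = 0 ∨ ∃ v ∈ h.W x, v ≠ 0 ∧ r v φ := by
  by_cases hx : P r x
  swap
  · exact ⟨⊥, fun φ => ⟨Or.inl, fun e => e.elim id fun ⟨v, hv, h0, _⟩ => (hx (hv.resolve_left h0).1).elim⟩⟩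
  obtain ⟨h0, χ, hχ, h1⟩ := id hx
  refine ⟨h.flip.W χ, fun φ => ⟨fun e => e.imp_right fun e => ?_, fun e => (em _).imp_right fun h2 => ?_⟩⟩
  · obtain ⟨-, v, hv, h2⟩ := e.2.1
    exact ⟨v, Or.inr (h.flip.E_flip h1 h2 h0 hv e), hv, h2⟩
  · obtain ⟨v, hv, h3, h4⟩ := e.resolve_left h2
    exact h.E_flip h1 h4 hχ h2 (hv.resolve_left h3)

omit [Finite V] in
theorem nondeg {a : V} (hy : y ∈ h.W a) (h1 : ∀ v ∈ h.W a, v ≠ 0 → ∀ φ, r v φ → b y φ = 0) : y = 0 := by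
  by_contra h0
  obtain ⟨u, hu⟩ := h.exists_N (h.P_of_mem hy h0)
  obtain ⟨h2, φ, h3, h4⟩ := id hu
  exact h4 (h1 u (h.mem_of_N hu hy) h2 φ h3)

theorem perfect (a : V) : (∀ x, ∃ w ∈ h.W a, ∀ v ∈ h.W a, v ≠ 0 → ∀ φ, r v φ → b w φ = b x φ) ∧
    ∀ θ : Module.Dual F (h.W a), ∃ φ, (φ = 0 ∨ ∃ v ∈ h.W a, v ≠ 0 ∧ r v φ) ∧ ∀ y : h.W a, θ y = b y φ := by
  obtain ⟨Φ, hΦ⟩ := h.exists_dual a
  let B := b.compl₁₂ (h.W a).subtype Φ.subtype
  refine ⟨fun x => ?_, fun θ => ?_⟩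
  · obtain ⟨w, hw⟩ := (LinearMap.flip_injective_iff₁ (B := B)).1 ((injective_iff_map_eq_zero B.flip).2 fun φ e => by
      by_contra h0
      have h0 : φ.1 ≠ 0 := by simpa using h0
      obtain ⟨v, hv, h1, h2⟩ := ((hΦ φ).1 φ.2).resolve_left h0
      obtain ⟨u, hu, h3⟩ := h.opp' h2 h1 h0 hv
      exact h3 (LinearMap.congr_fun e ⟨u, hu⟩)) ((b x).comp Φ.subtype)
    exact ⟨w, w.2, fun v hv h0 φ h1 => LinearMap.congr_fun hw ⟨φ, (hΦ φ).2 (Or.inr ⟨v, hv, h0, h1⟩)⟩⟩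
  · obtain ⟨φ, e⟩ := (LinearMap.flip_surjective_iff₁ (B := B)).2 ((injective_iff_map_eq_zero B).2 fun y e =>
      Subtype.ext (h.nondeg y.2 fun v hv h0 φ h1 => LinearMap.congr_fun e ⟨φ, (hΦ φ).2 (Or.inr ⟨v, hv, h0, h1⟩)⟩)) θ
    exact ⟨φ, (hΦ φ).1 φ.2, fun y => (LinearMap.congr_fun e y).symm⟩

end TS

end H13.McL
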