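import Cfsg.Agent.H13.McL
import Cfsg.Agent.H12.Lin
import Cfsg.Agent.H12.TvGen
import Cfsg.Agent.H1.Wielandt

/-!
McLaughlin's theorem over prime fields of odd order.
-/

set_option autoImplicit false

namespace H13.McL

open Module H12 Cfsg

section

variable {F V : Type*} [Field F] [AddCommGroup V] [Module F V]

instance [Finite V] : Finite (V ≃ₗ[F] V) := Finite.of_injective _ DFunLike.coe_injective

instance [Finite F] [Finite V] : Finite (Dual F V) := Finite.of_injective _ DFunLike.coe_injective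

/-- transvection pairs of a linear group -/
def R (H : Subgroup (V ≃ₗ[F] V)) (v : V) (φ : Dual F V) : Prop := Tr H v φ ∧ φ v = 0

/-- the unipotent group of a flag -/
def flagU (A B C : Submodule F V) : Subgroup (V ≃ₗ[F] V) where
  carrier := {g | (∀ x, g x - x ∈ A) ∧ (∀ x ∈ A, g x - x ∈ B) ∧ ∀ x ∈ C, g x = x}
  one_mem' := by simp
  mul_mem' := fun {g k} ⟨h1, h2, h3⟩ ⟨h4, h5, h6⟩ => ⟨fun x => by simpa using add_mem (h1 (k x)) (h4 x),
    fun x hx => by simpa using add_mem (h2 (k x) (by simpa using add_mem (h4 x) hx)) (h5 x hx),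
    fun x hx => by simp [h6 x hx, h3 x hx]⟩
  inv_mem' := fun {g} ⟨h1, h2, h3⟩ => ⟨fun x => by simpa using neg_mem (h1 (g⁻¹ x)),
    fun x hx => by simpa using neg_mem (h2 (g⁻¹ x) (by simpa using sub_mem hx (h1 (g⁻¹ x)))),
    fun x hx => g.injective (by simp [h3 x hx])⟩

/-- restriction to an invariant subspace -/
def res (W : Submodule F V) [FiniteDimensional F V] : glStab W →* (W ≃ₗ[F] W) where
  toFun g := LinearEquiv.ofSubmodules g.1 W W (mem_glStab_iff_map.1 g.2)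
  map_one' := by ext x; rfl
  map_mul' a b := by ext x; rfl

theorem tr_rad {H : Subgroup (V ≃ₗ[F] V)} {v w u : V} {φ ψ χ : Dual F V} (h1 : R H v φ) (h2 : R H w ψ) (h3 : R H u χ)
    (h4 : φ w = 0) (h5 : ψ v = 0) (h6 : χ w = -χ v) (h7 : ψ u = -φ u) :
    Tr H (v + w) ((2 * φ u * χ v) • (φ + ψ)) := by
  obtain ⟨a, ha, e1⟩ := h1.1
  obtain ⟨b, hb, e2⟩ := h2.1.neg_right h2.2
  obtain ⟨c, hc, e3⟩ := h3.1.conj_tr h1.1 h3.2
  obtain ⟨d, hd, e4⟩ := h3.1.conj_tr (h2.1.neg_right h2.2) h3.2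
  refine ⟨a * b * (c * d) * (c * d * (a * b))⁻¹, mul_mem (mul_mem (mul_mem ha hb) (mul_mem hc hd))
    (inv_mem (mul_mem (mul_mem hc hd) (mul_mem ha hb))), fun x => ?_⟩
  obtain ⟨x, rfl⟩ := (c * d * (a * b)).surjective x
  rw [LinearEquiv.mul_apply, inv_apply_apply]
  simp only [LinearEquiv.mul_apply, e1, e2, e3, e4, map_add, map_smul, LinearMap.sub_apply, LinearMap.smul_apply,
    LinearMap.neg_apply, LinearMap.add_apply, h1.2, h2.2, h3.2, h4, h5, h6, h7, smul_eq_mul]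
  module

end

section

variable {p : ℕ} [Fact p.Prime] {V : Type*} [AddCommGroup V] [Module (ZMod p) V]

theorem flagU_isPGroup (hp : Odd p) (A B : Submodule (ZMod p) V) : IsPGroup p (flagU A B B) := by
  rintro ⟨g, h1, h2, h3⟩
  refine ⟨1, Subtype.ext (LinearEquiv.toLinearMap_injective ?_)⟩
  obtain ⟨r, e⟩ := (Commute.one_left (g.toLinearMap - 1 : End (ZMod p) V)).exists_add_pow_prime_eq (Fact.out : p.Prime)
  have hk : 3 ≤ p := by have := (Fact.out : p.Prime).two_le; obtain ⟨_, hp⟩ := hp; omega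
  have e1 : (g.toLinearMap - 1 : End (ZMod p) V) ^ 3 = 0 := LinearMap.ext fun x => by
    simpa [pow_succ, -map_sub, sub_eq_zero] using h3 _ (h2 _ (h1 x))
  have e2 : (p : End (ZMod p) V) = 0 := by rw [← map_natCast (algebraMap (ZMod p) _), ZMod.natCast_self, map_zero]
  rw [e2, pow_eq_zero_of_le hk e1] at e
  exact (map_pow LinearEquiv.automorphismGroup.toLinearMapMonoidHom g _).trans (by simpa [← End.one_eq_id] using e)

theorem R.sr {H : Subgroup (V ≃ₗ[ZMod p] V)} {v : V} {φ : Dual (ZMod p) V} (c : ZMod p) (h : R H v φ) :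
    R H v (c • φ) := by
  refine ⟨?_, by simp [h.2]⟩
  rw [← ZMod.natCast_zmod_val c]
  induction c.val with
  | zero => simpa using tr_zero_right
  | succ n ih => simpa [add_smul] using ih.add_right h.1 (by simp [h.2])

variable [Finite V] {H : Subgroup (V ≃ₗ[ZMod p] V)}

theorem ts (hp : Odd p) (hO : pCore p H = ⊥) : TS (Dual.eval (ZMod p) V) (R H) := by
  have h2 : (2 : ZMod p) ≠ 0 := fun e => by
    have := (Nat.prime_dvd_prime_iff_eq Fact.out Nat.prime_two).1 ((ZMod.natCast_eq_zero_iff 2 p).1 e)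
    rw [this] at hp; exact absurd hp (by decide)
  refine ⟨h2, And.right, fun _ => ⟨tr_zero_left, by simp⟩, fun _ => ⟨tr_zero_right, rfl⟩,
    fun c h => ⟨(tr_smul c).2 (h.sr c).1, by simp [h.2]⟩, R.sr, fun h h' => ⟨h.1.add_left h'.1 h'.2, by simp [h.2, h'.2]⟩,
    fun h h' => ⟨h.1.add_right h'.1 h.2, by simp [h.2, h'.2]⟩,
    fun h h' => ⟨h.1.conj_tr h'.1 h.2, by simp [h.2, h'.2, mul_comm]⟩, fun {v φ} h hv hφ => ?_,
    fun {v φ w ψ u χ} h1 h3 h4 h5 h6 h7 h8 h9 h10 => ?_⟩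
  · by_contra! h1
    obtain ⟨⟨t, ht, e⟩, h0⟩ := id h
    have k : ∀ {v w : V} {φ ψ : Dual (ZMod p) V} {a b : V ≃ₗ[ZMod p] V}, (∀ x, a x = x + φ x • v) →
        (∀ x, b x = x + ψ x • w) → φ v = 0 → ψ w = 0 → ψ v = 0 →
        IsPGroup p (Subgroup.zpowers a ⊔ Subgroup.zpowers b : Subgroup _) := by
      intro v w φ ψ a b ea eb h1 h2 h3
      refine (flagU_isPGroup hp (Submodule.span _ {v, w}) (Submodule.span _ {v})).to_le (sup_le ?_ ?_) <;>
        refine Subgroup.zpowers_le.2 ⟨fun x => ?_, fun x hx => ?_, fun x hx => ?_⟩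
      · simpa [ea] using Submodule.smul_mem _ _ (Submodule.subset_span (by simp))
      · simpa [ea] using Submodule.smul_mem _ _ (Submodule.mem_span_singleton_self v)
      · obtain ⟨c, rfl⟩ := Submodule.mem_span_singleton.1 hx; simp [ea, h1]
      · simpa [eb] using Submodule.smul_mem _ _ (Submodule.subset_span (by simp))
      · obtain ⟨c, d, rfl⟩ := Submodule.mem_span_pair.1 hx; simp [eb, h2, h3]
      · obtain ⟨c, rfl⟩ := Submodule.mem_span_singleton.1 hx; simp [eb, h3]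
    have := H1.baer_suzuki_of (p := p) (A := Subgroup.zpowers t) (by simpa) (fun g hg => by
      rw [H1.conj_smul_zpowers]
      have e' : ∀ x, (g * t * g⁻¹) x = x + (φ ∘ₗ (g⁻¹).toLinearMap) x • g v := fun x => by simp [e]
      by_cases e2 : φ (g v) = 0
      · rw [sup_comm]; exact k e' e (by simp [h0]) h0 e2
      · exact k e e' h0 (by simp [h0]) (h1 _ _ ⟨h.1.conj hg, by simp [h0]⟩ e2)) (Subgroup.mem_zpowers t)
    rw [hO, Subgroup.map_bot, Subgroup.mem_bot] at this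
    exact hφ (LinearMap.ext fun x => by simpa [this, hv] using e x)
  · have := R.sr (2 * φ u * χ v)⁻¹ ⟨tr_rad h1 h3 h4 h5 h6 (eq_neg_of_add_eq_zero_right (by simpa using h7))
      (eq_neg_of_add_eq_zero_right (by simpa using h8)), by simp [h1.2, h3.2, show φ w = 0 from h5, show ψ v = 0 from h6]⟩
    rwa [smul_smul, inv_mul_cancel₀ (a := 2 * φ u * χ v) (mul_ne_zero (mul_ne_zero h2 h9) h10), one_smul] at this

end

variable {F V : Type*} [Field F] [AddCommGroup V] [Module F V] [Finite V] {H : Subgroup (V ≃ₗ[F] V)}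

/-- the subgroup attached to a subspace -/
def K (H : Subgroup (V ≃ₗ[F] V)) (W : Submodule F V) : Subgroup (V ≃ₗ[F] V) :=
  Subgroup.closure {g | ∃ v ∈ W, v ≠ 0 ∧ ∃ φ, R H v φ ∧ ∀ x, g x = x + φ x • v}

omit [Finite V] in
theorem K_le (W : Submodule F V) : K H W ≤ H := (Subgroup.closure_le _).2 fun g ⟨_, _, _, _, ⟨⟨k, hk, e⟩, _⟩, e'⟩ =>
  (LinearEquiv.ext fun x => (e x).trans (e' x).symm : k = g) ▸ hk

omit [Finite V] in
theorem K_flag {W U : Submodule F V} (h : ∀ v ∈ W, v ≠ 0 → ∀ φ, R H v φ → ∀ y ∈ U, φ y = 0) :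
    K H W ≤ flagU W W U := (Subgroup.closure_le _).2 fun g ⟨v, hv, h0, φ, h1, e⟩ =>
  ⟨fun x => by simpa [e] using W.smul_mem _ hv, fun x _ => by simpa [e] using W.smul_mem _ hv,
    fun x hx => by simp [e, h v hv h0 φ h1 x hx]⟩

omit [Finite V] in
theorem K_stab (W : Submodule F V) : K H W ≤ glStab W := (Subgroup.closure_le _).2 fun _ ⟨_, hv, _, _, h1, e⟩ =>
  mem_glStab_of_tr e (Or.inl hv) (by simp [h1.2])

theorem range_eq (W : Submodule F V) (Y : Subgroup (W ≃ₗ[F] W))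
    (h1 : ∀ v : W, v ≠ 0 → ∀ φ, R H v φ → ∀ g : W ≃ₗ[F] W, (∀ x, g x = x + φ x • v) → g ∈ Y)
    (h2 : Y ≤ ((res W).comp (Subgroup.inclusion (K_stab (H := H) W))).range) :
    ((res W).comp (Subgroup.inclusion (K_stab (H := H) W))).range = Y := by
  refine le_antisymm ?_ h2
  rintro _ ⟨⟨g, hg⟩, rfl⟩
  induction hg using Subgroup.closure_induction with
  | mem g hg =>
    obtain ⟨v, hv, h0, φ, h3, e⟩ := hg
    exact h1 ⟨v, hv⟩ (by simpa using h0) φ h3 _ fun x => Subtype.ext (e x)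
  | one => exact one_mem Y
  | mul g k hg hk h3 h4 => exact mul_mem h3 h4
  | inv g hg h3 => exact (map_inv ((res W).comp (Subgroup.inclusion (K_stab (H := H) W))) ⟨g, hg⟩).symm ▸ inv_mem h3

theorem tr_range {W : Submodule F V} {v : W} {φ : Dual F V} (h : R H v φ) {θ : Dual F W}
    (e : ∀ y : W, θ y = φ y) : Tr ((res W).comp (Subgroup.inclusion (K_stab (H := H) W))).range v θ := by
  by_cases h0 : v = 0
  · exact h0 ▸ tr_zero_left
  obtain ⟨g, -, e'⟩ := h.1
  exact ⟨_, ⟨⟨g, Subgroup.subset_closure ⟨v, v.2, by simpa using h0, φ, h, e'⟩⟩, rfl⟩,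
    fun x => Subtype.ext ((e' x).trans (by simp [e]))⟩

variable [Finite F] (h : TS (Dual.eval F V) (R H))
include h

theorem range_cases (a : V) : ((res (h.W a)).comp (Subgroup.inclusion (K_stab (H := H) _))).range = SLV _ _ ∨
    ∃ B : LinearMap.BilinForm F (h.W a), ∃ hB : B.IsAlt, B.Nondegenerate ∧
      ((res (h.W a)).comp (Subgroup.inclusion (K_stab (H := H) _))).range = (CForm.ofAlt B hB).isom := by
  by_cases hS : ∀ {v w φ ψ}, v ∈ h.W a → w ∈ h.W a → φ ≠ 0 → w ≠ 0 → R H v φ → R H w ψ → φ w = 0 → ψ v = 0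
  · obtain ⟨B, hB, h1⟩ := h.symp_case hS
    have h2 : (CForm.ofAlt B hB).Nondeg := fun v h2 => by
      by_contra h0
      obtain ⟨φ, h3, h4, h5, -⟩ := h1 v h0
      obtain ⟨u, hu, h6⟩ := h.opp' h4 (by simpa using h0) h3 v.2
      exact h6 ((h5 ⟨u, hu⟩).symm.trans (h2 _))
    refine Or.inr ⟨B, hB, ⟨h2, fun v h3 => h2 v fun y => hB.isRefl _ _ (h3 y)⟩,
      range_eq _ _ (fun v h0 φ h3 g e => ?_) fun g hg => ?_⟩
    · obtain ⟨-, -, -, -, h4⟩ := h1 v h0
      obtain ⟨c, hc⟩ := h4 φ h3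
      refine (CForm.mem_isom_ofAlt hB).2 fun x y => ?_
      simp only [e, map_add, map_smul, LinearMap.add_apply, LinearMap.smul_apply, show ∀ y : h.W a, φ y = _ from hc,
        hB v, ← hB.neg_eq v x, smul_eq_mul]
      ring
    · have := (closure_tvSet_alt h2).ge (Subgroup.mem_top ⟨g, hg⟩)
      refine Subgroup.mem_comap.1 ((Subgroup.closure_le (Subgroup.comap (Subgroup.subtype _) _)).2 ?_ this)
      rintro _ ⟨v, hv, c, hc, rfl⟩
      by_cases h0 : v = 0
      · exact (show 1 = H11.tv _ hv hc from H11.isom_ext fun x => by simp [H11.tv_apply, h0]) ▸ one_mem _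
      obtain ⟨φ, -, h3, h4, -⟩ := h1 v h0
      obtain ⟨k, hk, e⟩ := tr_range (h.sr c h3) (θ := c • B v) fun y => congrArg (c * ·) (h4 y)
      exact Subgroup.mem_comap.2 ((show k = (H11.tv _ hv hc).1 from LinearEquiv.ext e) ▸ hk :)
  push Not at hS
  obtain ⟨v, w, φ, ψ, hv, hw, h0, h1, h2, h3, h4, h5⟩ := hS
  refine Or.inl (range_eq _ _ (fun v _ φ h6 g e => ?_) (SLV_le_of_tr fun y θ e => ?_))
  · obtain ⟨k, hk, e'⟩ := tr_SLV (v := v) (φ := φ ∘ₗ (h.W a).subtype) h6.2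
    exact (show k = g from LinearEquiv.ext fun x => (e' x).trans (e x).symm) ▸ hk
  · obtain ⟨ω, h6, h7⟩ := (h.perfect a).2 θ
    refine tr_range ?_ h7
    rcases h6 with rfl | ⟨z, hz, h8, h9⟩
    · exact h.zr _
    · exact h.linear_case hv hw h0 h1 h2 h3 h4 h5 hz h8 h9 y y.2 ((h7 y).symm.trans e)

end H13.McL
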