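import Mathlib
import Cfsg.Agent.H27.DicksonFin

set_option autoImplicit false

namespace H13.P2

open Subgroup

theorem solv_of_index_two {G : Type*} [Group G] (c : G) (h : (zpowers c).index = 2) :
    Group.IsSolvable G := by
  haveI : (zpowers c).Normal := Subgroup.normal_of_index_eq_two h
  haveI : Group.IsSolvable (zpowers c) := by
    letI := IsCyclic.commGroup (α := zpowers c)
    infer_instance
  haveI : IsCyclic (G ⧸ zpowers c) := by
    haveI : Fact (Nat.Prime 2) := ⟨Nat.prime_two⟩
    exact isCyclic_of_prime_card (p := 2) (by rw [← h]; rfl)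
  haveI : Group.IsSolvable (G ⧸ zpowers c) := by
    letI := IsCyclic.commGroup (α := G ⧸ zpowers c)
    infer_instance
  exact Group.isSolvable_of_ker_le_range (zpowers c).subtype (QuotientGroup.mk' (zpowers c)) (by simp)

theorem dihedral_solv (k : ℕ) [NeZero k] : Group.IsSolvable (DihedralGroup k) := by
  apply solv_of_index_two (DihedralGroup.r 1)
  have h1 := (zpowers (DihedralGroup.r (1 : ZMod k))).card_mul_index
  rw [Nat.card_zpowers, DihedralGroup.orderOf_r_one, DihedralGroup.nat_card] at h1
  have := NeZero.pos k
  nlinarith

theorem eq_two_three {n : ℕ} (hn : n ≠ 0) (h : ∀ p : ℕ, p.Prime → p ∣ n → p = 2 ∨ p = 3) :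
    n = 2 ^ n.factorization 2 * 3 ^ n.factorization 3 := by
  apply Nat.eq_of_factorization_eq hn (by positivity)
  intro r
  rw [Nat.factorization_mul (by positivity) (by positivity), Nat.Prime.factorization_pow Nat.prime_two,
    Nat.Prime.factorization_pow Nat.prime_three]
  simp only [Finsupp.add_apply, Finsupp.single_apply]
  by_cases h2 : 2 = r
  · subst h2; simp
  by_cases h3 : 3 = r
  · subst h3; simp
  simp only [h2, h3, if_false, add_zero]
  by_contra hne
  have hr : r.Prime := by
    by_contra hr; exact hne (Nat.factorization_eq_zero_of_not_prime n hr)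
  have := h r hr (Nat.dvd_of_factorization_pos hne)
  omega

/-- a Hall {2,3} subgroup characterised by its order -/
theorem hall_iff {G : Type*} [Group G] [Finite G] (H : Subgroup G) :
    ((∀ p : ℕ, p.Prime → p ∣ Nat.card H → p ∈ ({2, 3} : Set ℕ)) ∧
      ∀ p : ℕ, p.Prime → p ∈ ({2, 3} : Set ℕ) → ¬ p ∣ H.index) ↔
    Nat.card H = 2 ^ (Nat.card G).factorization 2 * 3 ^ (Nat.card G).factorization 3 := by
  have hc := H.card_mul_index
  have h0 : Nat.card H ≠ 0 := Nat.card_pos.ne'
  have hi : H.index ≠ 0 := index_ne_zero_of_finite
  have hf : ∀ r, (Nat.card G).factorization r = (Nat.card H).factorization r + H.index.factorization r := by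
    intro r; rw [← hc, Nat.factorization_mul h0 hi]; rfl
  constructor
  · rintro ⟨h1, h2⟩
    rw [hf, hf, Nat.factorization_eq_zero_of_not_dvd (h2 2 Nat.prime_two (by simp)),
      Nat.factorization_eq_zero_of_not_dvd (h2 3 Nat.prime_three (by simp))]
    exact eq_two_three h0 fun p hp hd => by simpa using h1 p hp hd
  · intro h
    constructor
    · intro p hp hd
      rw [h] at hd
      rcases (Nat.Prime.dvd_mul hp).1 hd with h' | h'
      · left; exact (Nat.prime_dvd_prime_iff_eq hp Nat.prime_two).1 (hp.dvd_of_dvd_pow h')
      · right; exact (Nat.prime_dvd_prime_iff_eq hp Nat.prime_three).1 (hp.dvd_of_dvd_pow h')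
    · have e : ∀ r, (Nat.card H).factorization r =
          (if 2 = r then (Nat.card G).factorization 2 else 0) +
            (if 3 = r then (Nat.card G).factorization 3 else 0) := by
        intro r
        rw [h, Nat.factorization_mul (by positivity) (by positivity),
          Nat.Prime.factorization_pow Nat.prime_two, Nat.Prime.factorization_pow Nat.prime_three]
        simp only [Finsupp.add_apply, Finsupp.single_apply]
      intro p hp hm hd
      have h1 := hp.factorization_pos_of_dvd hi hd
      have h2 := hf p
      have h3 := e p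
      rcases hm with rfl | rfl
      · simp at h3; omega
      · simp at h3; omega

end H13.P2
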