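import Cfsg.Agent.H13.P2a
import Cfsg.Agent.H13.P2c
import Cfsg.Agent.H27.FinSubfield
import Cfsg.Agent.H11.LowDim

set_option autoImplicit false

namespace H13.P2

open Matrix MatrixGroups Subgroup

section gen
variable {G : Type*} [Group G]

/-- `x` and `y` generate a solvable group -/
def Sv (x y : G) : Prop := Group.IsSolvable (closure ({x, y} : Set G))

theorem Sv.of_le {x y a b : G} (h : Sv a b) (hx : x ∈ closure ({a, b} : Set G))
    (hy : y ∈ closure ({a, b} : Set G)) : Sv x y := by
  have l : closure ({x, y} : Set G) ≤ closure ({a, b} : Set G) := by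
    rw [closure_le]; rintro _ (rfl | rfl) <;> assumption
  haveI : Group.IsSolvable (closure ({a, b} : Set G)) := h
  exact Group.isSolvable_of_isSolvable_injective (inclusion_injective l)

theorem mem_l (a b : G) : a ∈ closure ({a, b} : Set G) := subset_closure (Or.inl rfl)
theorem mem_r (a b : G) : b ∈ closure ({a, b} : Set G) := subset_closure (Or.inr rfl)

theorem Sv.symm {x y : G} (h : Sv x y) : Sv y x := h.of_le (mem_r _ _) (mem_l _ _)

theorem sv_of_norm {x y : G} (N : Subgroup G) (hN : ∀ a ∈ N, ∀ b ∈ N, a * b = b * a) (hx : x ∈ N)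
    (hy : y ∈ normalizer (N : Set G)) : Sv x y := by
  let K := closure ({x, y} : Set G)
  have l : K ≤ normalizer (N : Set G) := by
    rw [closure_le]; rintro _ (rfl | rfl)
    · exact le_normalizer hx
    · exact hy
  let M := normalizer (N : Set G)
  let π := QuotientGroup.mk' (N.subgroupOf M)
  let φ : K →* M ⧸ N.subgroupOf M := π.comp (inclusion l)
  have hr : ∀ k : K, φ k ∈ zpowers (π ⟨y, hy⟩) := by
    rintro ⟨k, hk⟩
    induction hk using closure_induction with
    | mem a ha =>
      rcases ha with rfl | rfl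
      · rw [show φ ⟨a, _⟩ = 1 from (QuotientGroup.eq_one_iff _).2 hx]; exact one_mem _
      · exact mem_zpowers _
    | one => exact (map_one φ).symm ▸ one_mem _
    | mul a b ha hb h1 h2 => exact (map_mul φ ⟨a, ha⟩ ⟨b, hb⟩).symm ▸ mul_mem h1 h2
    | inv a ha h1 => exact (map_inv φ ⟨a, ha⟩).symm ▸ inv_mem h1
  haveI : Group.IsSolvable (zpowers (π ⟨y, hy⟩)) := by
    letI := IsCyclic.commGroup (α := zpowers (π ⟨y, hy⟩))
    infer_instance
  haveI : Group.IsSolvable (N.subgroupOf K) :=
    Group.isSolvable_of_comm fun a b => Subtype.ext (Subtype.ext (hN _ a.2 _ b.2))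
  refine Group.isSolvable_of_ker_le_range (N.subgroupOf K).subtype (φ.codRestrict _ hr) fun k hk => ?_
  rw [range_subtype]
  exact (QuotientGroup.eq_one_iff (inclusion l k)).1 (congrArg Subtype.val hk)

theorem sv_of_inv {x y : G} (h : y * x * y⁻¹ = x ∨ y * x * y⁻¹ = x⁻¹) : Sv x y := by
  refine sv_of_norm (zpowers x) ?_ (mem_zpowers x) ?_
  · rintro _ ⟨i, rfl⟩ _ ⟨j, rfl⟩; exact zpow_mul_comm x i j
  · rw [mem_normalizer_iff_map_conj_eq, MonoidHom.map_zpowers]
    rcases h with h | h
    · exact congrArg zpowers h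
    · exact (congrArg zpowers h).trans zpowers_inv

theorem sv_dih {x y : G} (hx : x * x = 1) (h : y * y = 1 ∨ x * y * (x * y) = 1) : Sv x y := by
  have i : x⁻¹ = x := inv_eq_of_mul_eq_one_right hx
  rcases h with h | h
  · have : Sv (x * y) y := sv_of_inv (Or.inr (by
      rw [_root_.mul_inv_rev, i, inv_eq_of_mul_eq_one_right h, mul_assoc, mul_assoc, h, mul_one]))
    exact this.of_le (by simpa using mul_mem (mem_l (x * y) y) (inv_mem (mem_r (x * y) y))) (mem_r _ _)
  · exact (sv_of_inv (Or.inr (by rw [i, eq_inv_iff_mul_eq_one, mul_assoc, h]))).symm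

theorem sv_a4 {x y : G} (hx : x * x = 1) (hy : y ^ 3 = 1) (h : (x * y) ^ 3 = 1) : Sv x y := by
  have i : x⁻¹ = x := inv_eq_of_mul_eq_one_right hx
  have y2 : y * y = y⁻¹ := by rw [eq_inv_iff_mul_eq_one, ← hy, pow_succ, sq]
  have e : x * (y * x * y⁻¹) * (y⁻¹ * x * y) = 1 := by
    have : y⁻¹ * y⁻¹ = y := by rw [← _root_.mul_inv_rev, y2, inv_inv]
    rw [← h, show x * (y * x * y⁻¹) * (y⁻¹ * x * y) = x * y * x * (y⁻¹ * y⁻¹) * x * y by group, this]
    simp only [pow_succ, pow_zero, one_mul, mul_assoc]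
  set u := y * x * y⁻¹ with hu
  set w := y⁻¹ * x * y with hw
  have u2 : u * u = 1 := by rw [hu, show y * x * y⁻¹ * (y * x * y⁻¹) = y * (x * x) * y⁻¹ by group, hx]; group
  have w2 : w * w = 1 := by rw [hw, show y⁻¹ * x * y * (y⁻¹ * x * y) = y⁻¹ * (x * x) * y by group, hx]; group
  have e1 : w = x * u := by
    rw [← inv_eq_of_mul_eq_one_right w2, eq_comm, eq_inv_iff_mul_eq_one, e]
  have c : x * u = u * x := by
    rw [← e1, ← inv_eq_of_mul_eq_one_right w2, e1, _root_.mul_inv_rev, i, inv_eq_of_mul_eq_one_right u2]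
  refine sv_of_norm (closure {x, u}) ?_ (mem_l _ _) ?_
  · intro a ha b hb
    have := isMulCommutative_closure (k := {x, u}) (by
      rintro _ (rfl | rfl) _ (rfl | rfl) <;> simp [c])
    exact congrArg Subtype.val (this.is_comm.comm (⟨a, ha⟩ : closure ({x, u} : Set G)) ⟨b, hb⟩)
  · rw [mem_normalizer_iff_map_conj_eq, MonoidHom.map_closure, Set.image_pair]
    change closure {u, y * u * y⁻¹} = _
    have : y * u * y⁻¹ = x * u := by
      rw [← e1, hu, hw, show y * (y * x * y⁻¹) * y⁻¹ = (y * y) * x * (y * y)⁻¹ by group, y2, inv_inv]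
    rw [this]
    apply le_antisymm <;> rw [closure_le] <;> rintro _ (rfl | rfl)
    · exact mem_r _ _
    · exact mul_mem (mem_l _ _) (mem_r _ _)
    · simpa using mul_mem (mem_r u (_ * u)) (inv_mem (mem_l u _))
    · exact mem_l _ _

theorem Sv.map {G' : Type*} [Group G'] (e : G ≃* G') {x y : G} (h : Sv x y) : Sv (e x) (e y) := by
  haveI : Group.IsSolvable (closure ({x, y} : Set G)) := h
  have : closure ({e x, e y} : Set G') = (closure ({x, y} : Set G)).map e.toMonoidHom := by
    rw [MonoidHom.map_closure, Set.image_pair]; rfl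
  unfold Sv
  rw [this]
  exact Group.isSolvable_of_surjective (MonoidHom.subgroupMap_surjective _ _)

theorem card_sv_conj {x x' : G} (h : IsConj x x') :
    Nat.card {y // Sv x y} = Nat.card {y // Sv x' y} := by
  obtain ⟨c, rfl⟩ := isConj_iff.1 h
  refine Nat.card_congr ((MulAut.conj c).toEquiv.subtypeEquiv fun y => ⟨fun h => h.map (MulAut.conj c), fun h => ?_⟩)
  simpa [mul_assoc] using h.map (MulAut.conj c⁻¹)

end gen

variable {F : Type*} [Field F]

/-- image in PGL -/
abbrev tp : PSL(2, F) →* H27.PG F := ProjectiveSpecialLinearGroup.toPGL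

theorem tp_inj : Function.Injective (tp (F := F)) := ProjectiveSpecialLinearGroup.toPGL_injective

theorem sv_fix (p : ℕ) [Fact p.Prime] [CharP F p] {x y : PSL(2, F)} (z : H27.P1 F) (hx : tp x • z = z)
    (hy : tp y • z = z) : Sv x y := by
  let K := closure ({x, y} : Set PSL(2, F))
  have l : ∀ k ∈ K, tp k • z = z := by
    have : K ≤ (MulAction.stabilizer _ z).comap tp := by
      rw [closure_le]; rintro _ (rfl | rfl) <;> assumption
    exact fun k hk => this hk
  have cm : ∀ a b : K, a ^ p = 1 → b ^ p = 1 → a * b = b * a := fun a b ha hb =>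
    Subtype.ext (tp_inj (by
      simpa using H27.unip_comm_of_fixed p (l _ a.2) (l _ b.2)
        (by rw [← map_pow, ← coe_pow, ha]; simp) (by rw [← map_pow, ← coe_pow, hb]; simp)))
  let N : Subgroup K :=
    { carrier := {k | k ^ p = 1}
      one_mem' := one_pow _
      mul_mem' := fun {a b} ha hb => by
        change _ ^ _ = _
        rw [Commute.mul_pow (cm a b ha hb), ha, hb, one_mul]
      inv_mem' := fun {a} ha => by change _ ^ _ = _; rw [inv_pow, ha, inv_one] }
  refine ⟨⟨2, ?_⟩⟩
  have : derivedSeries K 1 ≤ N := by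
    rw [derivedSeries_one, commutator_def, commutator_le]
    intro a _ b _
    exact Subtype.ext (tp_inj (by
      simpa [commutatorElement_def] using H27.comm_unip_of_fixed p (l _ a.2) (l _ b.2)))
  rw [derivedSeries_succ, eq_bot_iff, commutator_le]
  intro a ha b hb
  exact commutatorElement_eq_one_iff_mul_comm.2 (cm a b (this ha) (this hb))

variable [Fintype F]

theorem not_solv (h4 : 4 ≤ Fintype.card F) : ¬ Group.IsSolvable PSL(2, F) := by
  intro h
  haveI := H11.psl_simple_of_perfect (H11.sl2_perfect h4)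
  obtain ⟨x, -, hx, -⟩ := far h4
  have h1 : commutator PSL(2, F) = ⊤ := by
    rw [commutator_def, ← map_top_of_surjective pm pm_surj, ← map_commutator, ← commutator_def,
      H11.sl2_perfect h4]
  exact (Group.IsSolvable.commutator_lt_top_of_nontrivial PSL(2, F)).ne h1

theorem nec (p : ℕ) [hp : Fact p.Prime] [CharP F p] {r : ℕ} (hr : r.Prime) (hF : Fintype.card F = p ^ r)
    (h23 : p = 2 ∨ p = 3 ∧ ¬ IsSquare (-1 : F)) {x y : PSL(2, F)} (h : Sv x y) :
    (∃ z : H27.P1 F, tp x • z = z ∧ tp y • z = z) ∨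
    (¬ p ∣ orderOf x ∧ (y * x * y⁻¹ = x ∨ y * x * y⁻¹ = x⁻¹)) ∨
    (x * x = 1 ∧ (y * y = 1 ∨ x * y * (x * y) = 1)) ∨
    (p = 3 ∧ ∀ s : SL(2, F), pm s ∈ closure ({x, y} : Set PSL(2, F)) → trace s.1 ^ 3 = trace s.1) := by
  let K := closure ({x, y} : Set PSL(2, F))
  haveI : Group.IsSolvable K := h
  let ψ : K →* H27.PG F := tp.comp K.subtype
  have hψ : Function.Injective ψ := tp_inj.comp K.subtype_injective
  let x' : K := ⟨x, mem_l _ _⟩
  let y' : K := ⟨y, mem_r _ _⟩
  have ox : orderOf x' = orderOf x := (orderOf_coe x').symm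
  have a5 : ¬ Nonempty (K ≃* alternatingGroup (Fin 5)) := fun ⟨e⟩ => by
    haveI : Group.IsSolvable (alternatingGroup (Fin 5)) := Group.isSolvable_of_surjective (f := e.toMonoidHom) e.surjective
    exact absurd (IsSimpleGroup.comm_iff_isSolvable.2 this) (by decide)
  have h4 : 4 ≤ Fintype.card F := by
    rw [hF]
    exact (Nat.pow_le_pow_left hp.out.two_le 2).trans (Nat.pow_le_pow_right hp.out.pos hr.two_le)
  rcases H27.dickson_hom p ψ hψ with ⟨h, hp'⟩ | ⟨-, z, hz⟩ | ⟨c, hc, hi, h2⟩ |
    ⟨hp', h⟩ | ⟨-, h⟩ | ⟨c, F₀, h3', -, h1, h2⟩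
  · right; left
    refine ⟨fun e => hp' (e.trans (ox ▸ orderOf_dvd_natCard x')), Or.inl ?_⟩
    letI := IsCyclic.commGroup (α := K)
    rw [mul_inv_eq_iff_eq_mul]
    exact congrArg Subtype.val (mul_comm y' x')
  · exact Or.inl ⟨z, hz x', hz y'⟩
  · by_cases hx : x' ∈ zpowers c
    · right; left
      refine ⟨fun e => hc (e.trans (ox ▸ orderOf_dvd_of_mem_zpowers hx)), ?_⟩
      by_cases hy : y' ∈ zpowers c
      · left
        obtain ⟨i, hi⟩ := hx
        obtain ⟨j, hj⟩ := hy
        rw [mul_inv_eq_iff_eq_mul]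
        exact congrArg Subtype.val (show y' * x' = x' * y' by rw [← hi, ← hj]; exact zpow_mul_comm c j i)
      · right
        have e1 := h2 _ hy
        have e2 := h2 (y' * x') fun e => hy (by simpa using mul_mem e (inv_mem hx))
        refine congrArg Subtype.val (show y' * x' * y'⁻¹ = x'⁻¹ from ?_)
        rw [inv_eq_of_mul_eq_one_right e1, eq_inv_iff_mul_eq_one, mul_assoc, e2]
    · right; right; left
      refine ⟨congrArg Subtype.val (h2 _ hx), ?_⟩
      by_cases hy : y' ∈ zpowers c
      · exact Or.inr (congrArg Subtype.val (h2 (x' * y') fun e => hx (by simpa using mul_mem e (inv_mem hy))))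
      · exact Or.inl (congrArg Subtype.val (h2 _ hy))
  · exfalso
    have d : p ∣ 6 := by rcases h23 with rfl | ⟨rfl, -⟩ <;> norm_num
    rcases h with ⟨⟨e⟩⟩ | ⟨⟨e⟩⟩ | h
    · have h2 := two_mul_nat_card_alternatingGroup (α := Fin 4)
      rw [Nat.card_perm, Nat.card_fin, ← Nat.card_congr e.toEquiv, show Nat.factorial 4 = 24 from rfl] at h2
      exact hp' (d.trans (by omega))
    · have h2 := Nat.card_congr e.toEquiv
      rw [Nat.card_perm, Nat.card_fin, show Nat.factorial 4 = 24 from rfl] at h2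
      exact hp' (d.trans (by omega))
    · exact a5 h
  · exact absurd h a5
  · obtain ⟨m, -, hm⟩ := H27.subfield_card_pow F₀
    letI := Fintype.ofFinite F₀
    obtain ⟨k, -, hk⟩ := FiniteField.card F₀ p
    rw [← Nat.card_eq_fintype_card] at hk
    rw [hk, ← pow_mul, Nat.card_eq_fintype_card, hF] at hm
    have hm' := Nat.pow_right_injective hp.out.two_le hm
    rcases (Nat.dvd_prime hr).1 (Dvd.intro _ hm'.symm) with e | e
    · rw [e, pow_one] at hk
      rcases h23 with rfl | ⟨rfl, hs⟩
      · omega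
      refine Or.inr (Or.inr (Or.inr ⟨rfl, fun s hs' => ?_⟩))
      obtain ⟨g, hg, hg'⟩ := H27.mem_pglOf_iff.1 (h2 ⟨_, hs'⟩)
      obtain ⟨C, rfl⟩ := ProjGenLinGroup.mk_surjective c
      change _ = _ * ProjGenLinGroup.mk (Matrix.SpecialLinearGroup.toGL s) * _ at hg
      rw [← map_inv, ← map_mul, ← map_mul, H27.pg_mk_eq_mk_iff] at hg
      obtain ⟨t, t0, ht⟩ := hg
      have e1 : (C⁻¹ * Matrix.SpecialLinearGroup.toGL s * C).1 = t • g.1 := by ext i j; exact ht i j
      have e2 := congrArg trace e1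
      have e3 := congrArg det e1
      rw [Units.val_mul, Units.val_mul, trace_mul_cycle, ← Units.val_mul, mul_inv_cancel, Units.val_one,
        one_mul, trace_smul, trace_fin_two (g.1)] at e2
      rw [Units.val_mul, Units.val_mul, det_units_conj', det_smul, det_fin_two (g.1)] at e3
      change det s.1 = _ at e3
      change trace s.1 = _ at e2
      rw [s.2, Fintype.card_fin] at e3
      have m1 := H27.pow_card_of_mem (add_mem (hg' 0 0) (hg' 1 1))
      have m2 := H27.pow_card_of_mem (sub_mem (mul_mem (hg' 0 0) (hg' 1 1)) (mul_mem (hg' 0 1) (hg' 1 0)))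
      rw [hk] at m1 m2
      rw [e2, smul_eq_mul]
      generalize g.1 0 0 + g.1 1 1 = τ at *
      have d0 := H27.gl_det_ne g
      generalize g.1 0 0 * g.1 1 1 - g.1 0 1 * g.1 1 0 = δ at *
      have : (δ - 1) * (δ + 1) = 0 := mul_left_cancel₀ d0 (by linear_combination m2)
      rcases mul_eq_zero.1 this with e | e
      · linear_combination t ^ 3 * m1 - t * τ * e3 - t ^ 3 * τ * e
      · exact absurd ⟨t, by linear_combination -e3 - t ^ 2 * e⟩ hs
    · exfalso
      have : F₀ = ⊤ := H27.subfield_eq_of_card (by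
        rw [hk, e, ← hF, ← Nat.card_eq_fintype_card]; exact (Nat.card_congr Subfield.topEquiv.toEquiv).symm)
      subst this
      apply not_solv h4
      refine Group.isSolvable_of_surjective (f := K.subtype) fun g => ?_
      obtain ⟨k, hk⟩ := h1 (c⁻¹ * tp g * c) (by
        rw [H27.pslOf_top]
        have := H27.instPSNormal.conj_mem _ (show tp g ∈ H27.PS F by
          rw [← H27.range_psl_toPGL]; exact ⟨_, rfl⟩) c⁻¹
        rwa [inv_inv] at this)
      exact ⟨k, tp_inj (hk.trans (by simp [mul_assoc]))⟩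

end H13.P2
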