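import Cfsg.Agent.H13.P2d

set_option autoImplicit false

namespace H13.P2

open Matrix MatrixGroups Subgroup Finset

variable {F : Type*} [Field F]

theorem pm_eq {s t : SL(2, F)} (h : pm s = pm t) : s = t ∨ s = -t := by
  obtain ⟨r, hr, e⟩ := of_pm_one (s := s * t⁻¹) (by rw [map_mul, h, map_inv, mul_inv_cancel])
  rcases mul_self_eq_one_iff.1 hr with rfl | rfl
  · left; rw [← mul_inv_eq_one]; exact Subtype.ext (by simpa using e)
  · right
    rw [← neg_one_mul, ← mul_inv_eq_iff_eq_mul]; exact Subtype.ext (by simpa using e)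

theorem sq_one {s : SL(2, F)} (h : pm s * pm s = 1) :
    trace s.1 = 0 ∨ s = 1 ∨ s = -1 := by
  by_cases h1 : pm s = 1
  · exact Or.inr (pm_eq (h1.trans (map_one pm).symm))
  · exact Or.inl (tr_zero (orderOf_eq_prime (by rw [sq, h]) h1))

theorem sq_of_tr {s : SL(2, F)} (h : trace s.1 = 0) : pm s * pm s = 1 := by
  rw [← map_mul]
  apply pm_one (r := -1)
  rw [Matrix.SpecialLinearGroup.coe_mul, sq_eq, h]; simp

theorem fix_iff (s : SL(2, F)) (v : Fin 2 → F) (hv : v ≠ 0) :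
    tp (pm s) • Projectivization.mk F v hv = Projectivization.mk F v hv ↔
      (s.1 0 0 * v 0 + s.1 0 1 * v 1) * v 1 = (s.1 1 0 * v 0 + s.1 1 1 * v 1) * v 0 :=
  H27.mk_smul_eq_iff (Matrix.SpecialLinearGroup.toGL s) v v hv hv

theorem fix_inf (s : SL(2, F)) : tp (pm s) • H27.inf F = H27.inf F ↔ s.1 1 0 = 0 :=
  H27.smul_inf_eq_inf (Matrix.SpecialLinearGroup.toGL s)

theorem fix_aff (s : SL(2, F)) (t : F) : tp (pm s) • H27.aff t = H27.aff t ↔
    s.1 0 0 * t + s.1 0 1 = (s.1 1 0 * t + s.1 1 1) * t :=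
  H27.smul_aff_eq_aff (Matrix.SpecialLinearGroup.toGL s) t t

theorem isConj_of {X P Y : SL(2, F)} (h : X.1 * P.1 = P.1 * Y.1) : IsConj (pm Y) (pm X) :=
  isConj_iff.2 ⟨pm P, by
    rw [mul_inv_eq_iff_eq_mul, ← map_mul, ← map_mul]; exact congrArg pm (Subtype.ext h.symm)⟩

/-- diagonal -/
def dg (l : F) (h : l ≠ 0) : SL(2, F) := ⟨!![l, 0; 0, l⁻¹], by simp [det_fin_two, h]⟩
/-- unipotent -/
def up (l : F) : SL(2, F) := ⟨!![1, l; 0, 1], by simp [det_fin_two]⟩

theorem nf_split (X : SL(2, F)) {l : F} (h : l ^ 2 - trace X.1 * l + 1 = 0) (h1 : l ^ 2 ≠ 1) :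
    ∃ m : F, ∃ h0 : m ≠ 0, m ^ 2 ≠ 1 ∧ IsConj (pm (dg m h0)) (pm X) := by
  have d := det2 X
  rw [trace_fin_two] at h
  have l0 : l ≠ 0 := by rintro rfl; simp at h
  by_cases c : X.1 1 0 = 0
  · rw [c, mul_zero, sub_zero] at d
    have a0 : X.1 0 0 ≠ 0 := left_ne_zero_of_mul_eq_one d
    have e : X.1 1 1 = (X.1 0 0)⁻¹ := eq_inv_of_mul_eq_one_right d
    have a1 : X.1 0 0 ^ 2 ≠ 1 := fun k => by
      have e1 : X.1 1 1 = X.1 0 0 := mul_left_cancel₀ a0 (by linear_combination d - k)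
      have : (l - X.1 0 0) ^ 2 = 0 := by rw [e1] at h; linear_combination h + k
      exact h1 (by rw [sub_eq_zero.1 (pow_eq_zero_iff two_ne_zero |>.1 this), k])
    have a2 : 1 - X.1 0 0 ^ 2 ≠ 0 := fun k => a1 (by linear_combination -k)
    refine ⟨_, a0, a1, isConj_of (P := ⟨!![1, X.1 0 0 * X.1 0 1 / (1 - X.1 0 0 ^ 2); 0, 1], by
      simp [det_fin_two]⟩) ?_⟩
    ext i j
    fin_cases i <;> fin_cases j <;> simp [dg, mul_apply, Fin.sum_univ_two, c, e]
    field_simp; ring
  · have a2 : l ^ 2 - 1 ≠ 0 := sub_ne_zero.2 h1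
    refine ⟨l, l0, h1, isConj_of (P := ⟨!![l - X.1 1 1, (1 - l * X.1 1 1) / (X.1 1 0 * (l ^ 2 - 1));
      X.1 1 0, l / (l ^ 2 - 1)], by rw [det_fin_two_of]; field_simp; ring⟩) ?_⟩
    ext i j
    fin_cases i <;> fin_cases j <;> simp [dg, mul_apply, Fin.sum_univ_two] <;> field_simp
    · linear_combination -h - d
    · linear_combination -l ^ 2 * d - h
    · ring
    · ring

theorem nf_par (X : SL(2, F)) (h : trace X.1 = 2) : ∃ b : F, IsConj (pm (up b)) (pm X) := by
  have d := det2 X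
  rw [trace_fin_two] at h
  by_cases c : X.1 1 0 = 0
  · rw [c, mul_zero, sub_zero] at d
    have : (X.1 0 0 - 1) ^ 2 = 0 := by linear_combination X.1 0 0 * h - d
    have e := sub_eq_zero.1 (pow_eq_zero_iff two_ne_zero |>.1 this)
    refine ⟨X.1 0 1, isConj_of (P := 1) ?_⟩
    ext i j
    fin_cases i <;> fin_cases j <;> simp [up, c, e]
    linear_combination h - e
  · refine ⟨-(X.1 1 0)⁻¹, isConj_of (P := ⟨!![1 - X.1 1 1, -(X.1 1 0)⁻¹; X.1 1 0, 0], by
      rw [det_fin_two_of]; field_simp; ring⟩) ?_⟩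
    ext i j
    fin_cases i <;> fin_cases j <;> simp [up, mul_apply, Fin.sum_univ_two] <;> try field_simp
    · linear_combination h - d
    · linear_combination -h
    · ring

variable [Fintype F]

theorem card_lift (P : PSL(2, F) → Prop) :
    Nat.card {s : SL(2, F) // P (pm s)} = Nat.gcd 2 (Fintype.card F - 1) * Nat.card {y // P y} := by
  have := QuotientGroup.card_preimage_mk (center SL(2, F)) {y | P y}
  rw [H11.card_center_sl, Fintype.card_fin] at this
  exact this

open Classical in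
theorem count (P : F → F → F → F → Prop) :
    Nat.card {s : SL(2, F) // P (s.1 0 0) (s.1 0 1) (s.1 1 0) (s.1 1 1)} =
      ∑ a : F, ∑ b : F, ∑ c : F, ∑ d : F, if a * d - b * c = 1 ∧ P a b c d then 1 else 0 := by
  rw [← Fintype.sum_prod_type', ← Fintype.sum_prod_type' (f := fun (x : F × F) c => ∑ d, _),
    ← Fintype.sum_prod_type' (f := fun (x : (F × F) × F) d => _), ← card_filter, ← Fintype.card_subtype,
    ← Nat.card_eq_fintype_card]
  refine Nat.card_congr ⟨fun s => ⟨(((s.1.1 0 0, s.1.1 0 1), s.1.1 1 0), s.1.1 1 1), det2 s.1, s.2⟩,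
    fun x => ⟨⟨!![x.1.1.1.1, x.1.1.1.2; x.1.1.2, x.1.2], by rw [det_fin_two_of]; exact x.2.1⟩, x.2.2⟩,
    fun s => Subtype.ext (Subtype.ext ?_), fun x => rfl⟩
  exact (eta_fin_two _).symm

open Classical in
theorem count2 (Q : F → F → F → Prop) (P : F → F → F → F → Prop)
    (h : ∀ a b c d, c ≠ 0 → a * d - b * c = 1 → (P a b c d ↔ Q a c d)) (h0 : ∀ a b d, P a b 0 d) :
    Nat.card {s : SL(2, F) // P (s.1 0 0) (s.1 0 1) (s.1 1 0) (s.1 1 1)} =
      Fintype.card F * (Fintype.card F - 1) +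
        ∑ c ∈ univ.erase (0 : F), ∑ a : F, ∑ d : F, if Q a c d then 1 else 0 := by
  rw [count]
  have : ∀ a : F, ∑ b : F, ∑ c : F, ∑ d : F, (if a * d - b * c = 1 ∧ P a b c d then 1 else 0) =
      ∑ c : F, ∑ d : F, ∑ b : F, (if a * d - b * c = 1 ∧ P a b c d then 1 else 0) := fun a => by
    rw [sum_comm]; exact sum_congr rfl fun c _ => sum_comm
  simp only [this]
  rw [sum_comm, ← add_sum_erase _ _ (mem_univ (0 : F))]
  congr 1
  · simp only [mul_zero, sub_zero, h0, and_true, sum_const, card_univ, smul_eq_mul]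
    simp only [← mul_sum]
    congr 1
    rw [← add_sum_erase _ _ (mem_univ (0 : F)), sum_congr (s₁ := univ.erase (0 : F)) rfl (g := fun _ => 1),
      sum_const, card_erase_of_mem (mem_univ _)]
    · simp
    · intro a ha
      have a0 := ne_of_mem_erase ha
      rw [sum_eq_single a⁻¹]
      · simp [a0]
      · intro d _ hd; rw [if_neg]; exact fun e => hd (eq_inv_of_mul_eq_one_right e)
      · simp
  · refine sum_congr rfl fun c hc => sum_congr rfl fun a _ => sum_congr rfl fun d _ => ?_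
    have c0 := ne_of_mem_erase hc
    rw [sum_eq_single ((a * d - 1) / c)]
    · have e : a * d - (a * d - 1) / c * c = 1 := by field_simp; ring
      simp only [e, true_and, h _ _ _ _ c0 e]
    · intro b _ hb; rw [if_neg]; exact fun e => hb (by field_simp; linear_combination -e.1)
    · simp

theorem root_or (X : SL(2, F)) :
    (∃ l, l ^ 2 - trace X.1 * l + 1 = 0) ∨ orderOf (pm X) ∣ Fintype.card F + 1 := by
  by_cases h1 : pm X = 1
  · right; rw [h1, orderOf_one]; exact one_dvd _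
  by_contra! h
  apply h.2
  obtain ⟨P, a, b, c, d⟩ := H27.exists_conj_companion (Matrix.SpecialLinearGroup.toGL X)
    (fun e => h1 (tp_inj (e.trans (map_one tp).symm)))
  have hd : H27.dt (Matrix.SpecialLinearGroup.toGL X) = 1 := det2 X
  have hm : ProjGenLinGroup.mk (P⁻¹ * Matrix.SpecialLinearGroup.toGL X * P) ∈ H27.stdTorus (trace X.1) 1 := by
    rw [H27.mk_mem_stdTorus, a, b, c, d, hd, trace_fin_two]
    exact ⟨by ring, by simp⟩
  have := H27.card_stdTorus (trace X.1) 1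
  haveI ie : IsEmpty {a : F // a ^ 2 + trace X.1 * a + 1 = 0} :=
    ⟨fun a => h.1 (-a.1) (by linear_combination a.2)⟩
  rw [Nat.card_of_isEmpty (α := {a : F // a ^ 2 + trace X.1 * a + 1 = 0}), add_zero] at this
  rw [← this, ← orderOf_injective _ tp_inj]
  have e := (H27.stdTorus (trace X.1) 1).orderOf_dvd_natCard hm
  rw [map_mul, map_mul, map_inv] at e
  convert e using 1
  have := (MulAut.conj (ProjGenLinGroup.mk P)⁻¹).orderOf_eq (tp (pm X))
  rw [MulAut.conj_apply, inv_inv] at this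
  exact this.symm

theorem pow_root (p : ℕ) [Fact p.Prime] [CharP F p] (X : SL(2, F)) {l : F}
    (h : l ^ 2 - trace X.1 * l + 1 = 0) :
    (l ^ 2 = 1 ∧ pm X ^ p = 1) ∨ (l ^ 2 ≠ 1 ∧ pm X ^ (Fintype.card F - 1) = 1) := by
  have l0 : l ≠ 0 := by rintro rfl; simp at h
  have e : trace X.1 = l + l⁻¹ := by field_simp; linear_combination -h
  by_cases h1 : l ^ 2 = 1
  · left
    have := pow_par (s := X) (e := l) (by rw [← sq, h1]) (by
      rw [e, inv_eq_of_mul_eq_one_right (by rw [← sq, h1]), two_mul]) p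
    rw [CharP.cast_eq_zero, zero_mul, zero_smul, add_zero] at this
    exact ⟨h1, by rw [← map_pow]; exact pm_one this⟩
  · right
    have := pow_eig (s := X) (mul_inv_cancel₀ l0) e (Fintype.card F - 1)
    rw [inv_pow, FiniteField.pow_card_sub_one_eq_one l l0, inv_one] at this
    have h6 : l - l⁻¹ ≠ 0 := fun k => h1 (by field_simp at k; linear_combination k)
    refine ⟨h1, ?_⟩
    rw [← map_pow]
    apply pm_one (r := 1)
    apply smul_right_injective _ h6
    change (l - l⁻¹) • X.1 ^ _ = _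
    rw [this]; module

theorem fix_root {X : SL(2, F)} {z : H27.P1 F} (h : tp (pm X) • z = z) :
    ∃ l, l ^ 2 - trace X.1 * l + 1 = 0 := by
  have d := det2 X
  rw [trace_fin_two]
  rcases H27.inf_or_aff z with rfl | ⟨t, rfl⟩
  · rw [fix_inf] at h
    exact ⟨X.1 0 0, by linear_combination -d - X.1 0 1 * h⟩
  · rw [fix_aff] at h
    exact ⟨X.1 1 0 * t + X.1 1 1, by linear_combination -d - X.1 1 0 * h⟩

end H13.P2
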