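import Cfsg.Agent.H13.P2e

set_option autoImplicit false

namespace H13.P2

open Matrix MatrixGroups Subgroup Finset

variable {F : Type*} [Field F]

theorem cube {s : SL(2, F)} (h3 : (3 : F) = 0) (h : trace s.1 ^ 2 = 1) : pm s ^ 3 = 1 := by
  have := pow_par (s := s) (e := -trace s.1) (by linear_combination h) (by linear_combination trace s.1 * h3) 3
  rw [Nat.cast_ofNat, h3, zero_mul, zero_smul, add_zero] at this
  rw [← map_pow]; exact pm_one this

theorem tr3 {s : SL(2, F)} (h3 : (3 : F) = 0) (h : trace s.1 ^ 3 = trace s.1) :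
    pm s * pm s = 1 ∨ pm s ^ 3 = 1 := by
  by_cases h0 : trace s.1 = 0
  · exact Or.inl (sq_of_tr h0)
  · exact Or.inr (cube h3 (mul_left_cancel₀ h0 (by linear_combination h)))

theorem ent {s t : SL(2, F)} (h : pm s = pm t) : ∃ e : F, (e = 1 ∨ e = -1) ∧ ∀ i j, s.1 i j = e * t.1 i j := by
  rcases pm_eq h with rfl | rfl
  · exact ⟨1, Or.inl rfl, by simp⟩
  · exact ⟨-1, Or.inr rfl, by simp⟩

theorem coe_dg (l : F) (h : l ≠ 0) : (dg l h).1 = !![l, 0; 0, l⁻¹] := rfl
theorem coe_up (l : F) : (up l).1 = !![1, l; 0, 1] := rfl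
theorem me (s t : SL(2, F)) (i j : Fin 2) : (s * t).1 i j = s.1 i 0 * t.1 0 j + s.1 i 1 * t.1 1 j := by
  rw [Matrix.SpecialLinearGroup.coe_mul, mul_apply, Fin.sum_univ_two]
theorem dg_inv (l : F) (h : l ≠ 0) : (dg l h)⁻¹ = dg l⁻¹ (inv_ne_zero h) := by
  rw [inv_eq_iff_mul_eq_one]
  apply Subtype.ext
  ext i j
  rw [me, coe_dg, coe_dg]
  fin_cases i <;> fin_cases j <;> simp [h]

variable [Fintype F] (p : ℕ) [hp : Fact p.Prime] [CharP F p] {r : ℕ} (hr : r.Prime)
  (hF : Fintype.card F = p ^ r) (h23 : p = 2 ∨ p = 3 ∧ ¬ IsSquare (-1 : F))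
include hr hF h23

omit h23 in
theorem aux {x : PSL(2, F)} (h1 : x ≠ 1) (h2 : x * x ≠ 1) :
    (orderOf x ∣ Fintype.card F - 1 ∨ orderOf x ∣ Fintype.card F + 1 → x ^ p ≠ 1) ∧
    (orderOf x ∣ Fintype.card F - 1 → ¬ orderOf x ∣ Fintype.card F + 1) := by
  have hq : 0 < Fintype.card F := Fintype.card_pos
  constructor
  · intro h e
    rw [orderOf_eq_prime e h1] at h
    have d : p ∣ Fintype.card F := hF ▸ dvd_pow_self p hr.ne_zero
    rcases h with h | h
    · exact hp.out.one_lt.ne' (Nat.dvd_one.1 ((Nat.dvd_sub_iff_right hq d).1 h))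
    · exact hp.out.one_lt.ne' (Nat.dvd_one.1 ((Nat.dvd_add_right d).1 h))
  · intro a b
    have := Nat.dvd_sub b a
    rw [show Fintype.card F + 1 - (Fintype.card F - 1) = 2 by omega, orderOf_dvd_iff_pow_eq_one, sq] at this
    exact h2 this

theorem nonsplit {x : PSL(2, F)} (h1 : x ≠ 1) (h2 : x * x ≠ 1) (h : orderOf x ∣ Fintype.card F + 1) :
    Nat.card {y // Sv x y} = 2 * ((Fintype.card F + 1) / Nat.gcd 2 (Fintype.card F - 1)) := by
  obtain ⟨a1, a2⟩ := aux p hr hF h1 h2
  have a3 := a1 (Or.inr h)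
  obtain ⟨X, rfl⟩ := pm_surj x
  have k : ∀ y, Sv (pm X) y ↔ y * pm X * y⁻¹ = pm X ∨ y * pm X * y⁻¹ = (pm X)⁻¹ := fun y => by
    refine ⟨fun hs => ?_, sv_of_inv⟩
    rcases nec p hr hF h23 hs with ⟨z, hz, -⟩ | ⟨-, e⟩ | ⟨e, -⟩ | ⟨rfl, e⟩
    · obtain ⟨l, hl⟩ := fix_root hz
      rcases pow_root p X hl with ⟨-, e⟩ | ⟨-, e⟩
      · exact absurd e a3
      · exact absurd h (a2 (orderOf_dvd_of_pow_eq_one e))
    · exact e
    · exact absurd e h2
    · rcases tr3 (by exact_mod_cast CharP.cast_eq_zero F 3) (e X (mem_l _ _)) with e | e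
      · exact absurd e h2
      · exact absurd e a3
  obtain ⟨a, s, hT, hc⟩ := H27.exists_isTorus p (c := tp (pm X)) (by
    rw [← map_pow, Ne, map_eq_one_iff _ tp_inj]; exact a3)
  have ho : orderOf a = Fintype.card F + 1 := hT.ord.resolve_left fun e => a2 (by
    rw [← e, ← orderOf_injective _ tp_inj]; exact orderOf_dvd_of_mem_zpowers hc) h
  rw [← ho, ← hT.card_PS]
  have k2 : ∀ y, Sv (pm X) y ↔ tp y ∈ zpowers a ⊔ zpowers s := fun y => by
    rw [k]
    constructor
    · intro e
      refine hT.norm _ hc (by rwa [Ne, map_eq_one_iff _ tp_inj]) _ ?_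
      rcases e with e | e
      · left; rw [← map_inv, ← map_mul, ← map_mul, e]
      · right; rw [← map_inv, ← map_mul, ← map_mul, e, map_inv]
    · intro e
      obtain ⟨i, hi⟩ := hc
      change a ^ i = _ at hi
      rcases H4.mem_sup_cases (k := -1) (by rw [hT.inv, _root_.zpow_neg_one]) (by rw [hT.s_sq]; exact one_mem _)
        e with ⟨j, hj⟩ | ⟨j, hj⟩
      · left; apply tp_inj; rw [map_mul, map_mul, map_inv, hj, ← hi]; group
      · right; apply tp_inj
        rw [map_mul, map_mul, map_inv, map_inv, hj, ← hi,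
          show a ^ j * s * a ^ i * (a ^ j * s)⁻¹ = a ^ j * (s * a ^ i * s⁻¹) * a ^ (-j) by group,
          ← conj_zpow, hT.inv]; group
  refine Nat.card_eq_of_bijective (fun y => ⟨tp y.1, (k2 _).1 y.2, by
    rw [← H27.range_psl_toPGL]; exact ⟨_, rfl⟩⟩) ⟨fun y z e => Subtype.ext (tp_inj (congrArg Subtype.val e)), ?_⟩
  rintro ⟨g, h3, h4⟩
  rw [← H27.range_psl_toPGL] at h4
  obtain ⟨y, rfl⟩ := h4
  exact ⟨⟨y, (k2 _).2 h3⟩, rfl⟩

theorem split {x : PSL(2, F)} (h1 : x ≠ 1) (h2 : x * x ≠ 1) (h : orderOf x ∣ Fintype.card F - 1) :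
    Nat.gcd 2 (Fintype.card F - 1) * Nat.card {y // Sv x y} = 2 * Fintype.card F * (Fintype.card F - 1) := by
  classical
  obtain ⟨X, rfl⟩ := pm_surj x
  obtain ⟨a1, a2⟩ := aux p hr hF h1 h2
  obtain ⟨l, hl⟩ := (root_or X).resolve_right (a2 h)
  obtain ⟨m, m0, m1, hc⟩ := nf_split X hl ((pow_root p X hl).resolve_left fun e => a1 (Or.inl h) e.2).1
  rw [← card_sv_conj hc, ← card_lift]
  have b2 : pm (dg m m0) * pm (dg m m0) ≠ 1 := fun e => h2 (by
    rw [← sq] at e ⊢; exact isConj_one_right.1 (e ▸ hc.pow 2))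
  have b3 : pm (dg m m0) ^ p ≠ 1 := fun e => a1 (Or.inl h) (isConj_one_right.1 (e ▸ hc.pow p))
  have t0 : m ^ 2 + 1 ≠ 0 := fun e => b2 (sq_of_tr (by simp [dg]; field_simp; linear_combination e))
  have t1 : m ^ 2 - 1 ≠ 0 := sub_ne_zero.2 m1
  have k : ∀ Y : SL(2, F), Sv (pm (dg m m0)) (pm Y) ↔
      Y.1 0 1 = 0 ∨ Y.1 1 0 = 0 ∨ (Y.1 0 0 = 0 ∧ Y.1 1 1 = 0) := fun Y => by
    constructor
    · intro hs
      rcases nec p hr hF h23 hs with ⟨z, hz, hz'⟩ | ⟨-, e⟩ | ⟨e, -⟩ | ⟨rfl, e⟩
      · rcases H27.inf_or_aff z with rfl | ⟨t, rfl⟩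
        · exact Or.inr (Or.inl ((fix_inf _).1 hz'))
        · rw [fix_aff] at hz hz'
          simp [dg] at hz
          have : t = 0 := by
            rcases hz with hz | hz
            · exact absurd (by field_simp at hz; exact hz) m1
            · exact hz
          left; simpa [this] using hz'
      · rw [mul_inv_eq_iff_eq_mul, mul_inv_eq_iff_eq_mul, ← map_inv, ← map_mul, ← map_mul, ← map_mul] at e
        rcases e with e | e
        · obtain ⟨e, he, hh⟩ := ent e
          have := hh 0 1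
          rw [me, me, coe_dg] at this
          simp at this
          field_simp at this
          left
          rcases he with rfl | rfl
          · exact (mul_eq_zero.1 (by linear_combination -this)).resolve_left t1
          · exact (mul_eq_zero.1 (by linear_combination this)).resolve_left t0
        · obtain ⟨e, he, hh⟩ := ent e
          have e1 := hh 0 0
          have e2 := hh 1 1
          rw [me, me, dg_inv, coe_dg, coe_dg] at e1 e2
          simp at e1 e2
          field_simp at e1 e2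
          right; right
          rcases he with rfl | rfl
          · exact ⟨(mul_eq_zero.1 (by linear_combination e1)).resolve_left t1,
              (mul_eq_zero.1 (by linear_combination -e2)).resolve_left t1⟩
          · exact ⟨(mul_eq_zero.1 (by linear_combination e1)).resolve_left t0,
              (mul_eq_zero.1 (by linear_combination e2)).resolve_left t0⟩
      · exact absurd e b2
      · rcases tr3 (by exact_mod_cast CharP.cast_eq_zero F 3) (e _ (mem_l _ _)) with e | e
        · exact absurd e b2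
        · exact absurd e b3
    · rintro (e | e | ⟨e1, e2⟩)
      · exact sv_fix p (H27.aff 0) ((fix_aff _ _).2 (by simp [dg])) ((fix_aff _ _).2 (by simp [e]))
      · exact sv_fix p (H27.inf F) ((fix_inf _).2 (by simp [dg])) ((fix_inf _).2 e)
      · refine sv_of_inv (Or.inr ?_)
        rw [mul_inv_eq_iff_eq_mul, ← map_inv, ← map_mul, ← map_mul]
        congr 1
        apply Subtype.ext
        ext i j
        rw [me, me, dg_inv, coe_dg, coe_dg]
        fin_cases i <;> fin_cases j <;> simp [e1, e2, mul_comm]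
  simp only [k]
  rw [count2 (fun a c d => a * d = 1 ∨ (a = 0 ∧ d = 0)) (fun a b c d => b = 0 ∨ c = 0 ∨ (a = 0 ∧ d = 0))
    (fun a b c d hc e => by
      simp only [hc, false_or]
      exact or_congr_left ⟨fun k => by simpa [k] using e,
        fun k => (mul_eq_zero.1 (by linear_combination k - e)).resolve_right hc⟩) (by simp),
    sum_congr rfl (g := fun _ => Fintype.card F), sum_const, card_erase_of_mem (mem_univ _), card_univ,
    smul_eq_mul]
  · ring
  · intro c _
    rw [sum_congr rfl (g := fun _ => 1)]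
    · simp
    · intro a _
      rw [sum_eq_single a⁻¹]
      · by_cases a0 : a = 0 <;> simp [a0]
      · intro d _ hd
        rw [if_neg]
        rintro (e | ⟨rfl, rfl⟩)
        · exact hd (eq_inv_of_mul_eq_one_right e)
        · simp at hd
      · simp

end H13.P2
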