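import Cfsg.Agent.H13.P2f

set_option autoImplicit false

namespace H13.P2

open Matrix MatrixGroups Subgroup Finset

variable {F : Type*} [Field F]

theorem up_fix {b : F} (hb : b ≠ 0) {z : H27.P1 F} (h : tp (pm (up b)) • z = z) : z = H27.inf F := by
  rcases H27.inf_or_aff z with rfl | ⟨t, rfl⟩
  · rfl
  · rw [fix_aff, coe_up] at h
    simp [hb] at h

theorem up_add (a b : F) : up a * up b = up (a + b) := Subtype.ext (by
  rw [Matrix.SpecialLinearGroup.coe_mul, coe_up, coe_up, coe_up]; simp [add_comm])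

theorem tr2 (s : SL(2, F)) : trace s.1 = s.1 0 0 + s.1 1 1 := trace_fin_two _

variable [Fintype F]

theorem sb (P : F → Prop) (inst : ∀ d, Decidable (P d)) (s : Finset F) (h : ∀ d, P d ↔ d ∈ s) :
    ∑ d, @ite ℕ (P d) (inst d) 1 0 = #s := by
  classical
  rw [sum_congr rfl (g := fun d => if d ∈ s then 1 else 0) fun d _ => by simp only [h]]
  simp

theorem even_inv [CharP F 2] {r : ℕ} (hr : r.Prime) (hF : Fintype.card F = 2 ^ r) {x : PSL(2, F)}
    (hx : orderOf x = 2) : Nat.card {y // Sv x y} = 3 * Fintype.card F * (Fintype.card F - 1) := by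
  classical
  have h2 : (2 : F) = 0 := by exact_mod_cast CharP.cast_eq_zero F 2
  have o : orderOf (pm (up (1 : F))) = 2 := by
    refine ord_two (by rw [tr2, coe_up]; simp; linear_combination h2) fun k => ?_
    obtain ⟨r, -, hr⟩ := of_pm_one k
    have a1 := congrFun (congrFun hr 0) 1
    simp [coe_up] at a1
  have he : Even (Fintype.card F) := by
    rw [← Nat.not_odd_iff_even]; exact fun ho => H11.two_ne_zero_of_odd_card ho h2
  have := card_lift fun y => Sv (pm (up (1 : F))) y
  rw [H27.gcd_two_of_even he Fintype.card_pos, one_mul] at this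
  rw [card_sv_conj (conj_two hx o), ← this]
  have k : ∀ Y : SL(2, F), Sv (pm (up 1)) (pm Y) ↔
      Y.1 1 0 = 0 ∨ Y.1 0 0 + Y.1 1 1 = 0 ∨ Y.1 0 0 + Y.1 1 1 + Y.1 1 0 = 0 := fun Y => by
    have t : trace (up 1 * Y).1 = Y.1 0 0 + Y.1 1 1 + Y.1 1 0 := by
      rw [tr2, me, me, coe_up]; simp; ring
    constructor
    · intro hs
      rcases nec 2 hr hF (Or.inl rfl) hs with ⟨z, hz, hz'⟩ | ⟨e, -⟩ | ⟨-, e | e⟩ | ⟨e, -⟩
      · rw [up_fix one_ne_zero hz, fix_inf] at hz'
        exact Or.inl hz'
      · rw [o] at e; exact absurd dvd_rfl e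
      · rcases sq_one e with e | rfl | rfl
        · exact Or.inr (Or.inl (tr2 Y ▸ e))
        · left; simp
        · left; simp
      · rw [← map_mul] at e
        rcases sq_one e with e | e | e
        · exact Or.inr (Or.inr (t ▸ e))
        all_goals
          have := me (up 1) Y 1 0
          rw [e, coe_up] at this
          left; simpa using this.symm
      · omega
    · have x2 : pm (up (1 : F)) * pm (up 1) = 1 := by rw [← sq, ← orderOf_dvd_iff_pow_eq_one, o]
      rintro (e | e | e)
      · exact sv_fix 2 (H27.inf F) ((fix_inf _).2 (by simp [coe_up])) ((fix_inf _).2 e)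
      · exact sv_dih x2 (Or.inl (sq_of_tr ((tr2 Y).trans e)))
      · exact sv_dih x2 (Or.inr (by rw [← map_mul]; exact sq_of_tr (t.trans e)))
  simp only [k]
  rw [count2 (fun a c d => a + d = 0 ∨ a + d + c = 0) (fun a b c d => c = 0 ∨ a + d = 0 ∨ a + d + c = 0)
    (fun a b c d hc e => by simp only [hc, false_or]) (by simp),
    sum_congr rfl (g := fun _ => Fintype.card F * 2), sum_const, card_erase_of_mem (mem_univ _), card_univ,
    smul_eq_mul]
  · ring
  · intro c hc
    rw [sum_congr rfl (g := fun _ => 2)]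
    · simp
    · intro a _
      refine (sb _ _ {-a, -a - c} fun d => ?_).trans
        (card_pair (fun e => ne_of_mem_erase hc (by linear_combination e)))
      simp only [mem_insert, mem_singleton]
      exact or_congr ⟨fun e => by linear_combination e, fun e => by linear_combination e⟩
        ⟨fun e => by linear_combination e, fun e => by linear_combination e⟩

theorem ord_three [CharP F 3] {r : ℕ} (hr : r.Prime) (hF : Fintype.card F = 3 ^ r) (hm : ¬ IsSquare (-1 : F))
    {x : PSL(2, F)} (hx : orderOf x = 3) :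
    2 * Nat.card {y // Sv x y} = Fintype.card F * (Fintype.card F + 5) := by
  classical
  have h3 : (3 : F) = 0 := by exact_mod_cast CharP.cast_eq_zero F 3
  have h2 : (2 : F) ≠ 0 := fun e => one_ne_zero (α := F) (by linear_combination h3 - e)
  have d : 3 ∣ Fintype.card F := hF ▸ dvd_pow_self 3 hr.ne_zero
  have hq : 0 < Fintype.card F := Fintype.card_pos
  obtain ⟨β, hc⟩ : ∃ β, IsConj (pm (up β)) x := by
    obtain ⟨X, rfl⟩ := pm_surj x
    obtain ⟨l, hl⟩ := (root_or X).resolve_right (by rw [hx]; omega)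
    have h1 := ((pow_root 3 X hl).resolve_right fun e => by
      have := orderOf_dvd_of_pow_eq_one e.2
      rw [hx] at this; omega).1
    rcases sq_eq_one_iff.mp h1 with rfl | rfl
    · exact nf_par X (by linear_combination -hl)
    · rw [← pm_neg]; exact nf_par (-X) (by simp; linear_combination -hl)
  have o : orderOf (pm (up β)) = 3 := by
    obtain ⟨c, hc⟩ := isConj_iff.1 hc
    rw [← hc] at hx
    exact ((MulAut.conj c).orderOf_eq _).symm.trans hx
  have b0 : β ≠ 0 := by
    rintro rfl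
    rw [pm_one (r := 1) (by simp [coe_up, one_fin_two]), orderOf_one] at o
    omega
  have := card_lift fun y => Sv (pm (up β)) y
  rw [H27.gcd_two_of_odd (H11.odd_card_of_two_ne_zero h2)] at this
  rw [← card_sv_conj hc, ← this]
  have x3 : pm (up β) ^ 3 = 1 := by rw [← o, pow_orderOf_eq_one]
  have t : ∀ (γ : F) (Y : SL(2, F)), trace (up γ * Y).1 = Y.1 0 0 + Y.1 1 1 + γ * Y.1 1 0 := fun γ Y => by
    rw [tr2, me, me, coe_up]; simp; ring
  have k : ∀ Y : SL(2, F), Sv (pm (up β)) (pm Y) ↔
      Y.1 1 0 = 0 ∨ ((β * Y.1 1 0) ^ 2 = 1 ∧ (Y.1 0 0 + Y.1 1 1) ^ 3 = Y.1 0 0 + Y.1 1 1) := fun Y => by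
    constructor
    · intro hs
      rcases nec 3 hr hF (Or.inr ⟨rfl, hm⟩) hs with ⟨z, hz, hz'⟩ | ⟨e, -⟩ | ⟨e, -⟩ | ⟨-, e⟩
      · rw [up_fix b0 hz, fix_inf] at hz'
        exact Or.inl hz'
      · rw [o] at e; exact absurd dvd_rfl e
      · rw [← sq, ← orderOf_dvd_iff_pow_eq_one, o] at e; omega
      · have e1 := e Y (mem_r _ _)
        have e2 := e (up β * Y) (mul_mem (mem_l _ _) (mem_r _ _))
        rw [t] at e2
        rw [tr2] at e1
        by_cases c : Y.1 1 0 = 0
        · exact Or.inl c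
        refine Or.inr ⟨mul_left_cancel₀ (mul_ne_zero b0 c) ?_, e1⟩
        generalize Y.1 0 0 + Y.1 1 1 = τ at *
        linear_combination e2 - e1 - (τ ^ 2 * β * Y.1 1 0 + τ * (β * Y.1 1 0) ^ 2) * h3
    · rintro (e | ⟨e1, e2⟩)
      · exact sv_fix 3 (H27.inf F) ((fix_inf _).2 (by simp [coe_up])) ((fix_inf _).2 e)
      · have kk : ∀ V : SL(2, F), trace V.1 = 0 → V.1 1 0 = Y.1 1 0 → Sv (pm V) (pm (up β)) := by
          intro V h1 h4
          refine sv_a4 (sq_of_tr h1) x3 ?_
          rw [← map_mul]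
          apply cube h3
          rw [Matrix.SpecialLinearGroup.coe_mul, trace_mul_comm, ← Matrix.SpecialLinearGroup.coe_mul, t,
            ← tr2, h1, h4, zero_add, e1]
        have l : ∀ γ, (up γ * Y).1 1 0 = Y.1 1 0 := fun γ => by rw [me, coe_up]; simp
        have : (Y.1 0 0 + Y.1 1 1) * ((Y.1 0 0 + Y.1 1 1 + β * Y.1 1 0) *
            (Y.1 0 0 + Y.1 1 1 + (β + β) * Y.1 1 0)) = 0 := by
          generalize Y.1 0 0 + Y.1 1 1 = τ at *
          linear_combination e2 + 2 * τ * e1 + (τ + τ ^ 2 * β * Y.1 1 0) * h3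
        rcases mul_eq_zero.1 this with e | e
        · exact (kk Y ((tr2 Y).trans e) rfl).symm
        rcases mul_eq_zero.1 e with e | e
        · refine (kk _ ((t β Y).trans e) (l β)).of_le (mem_r _ _) ?_
          simpa using mul_mem (inv_mem (mem_r (pm (up β * Y)) (pm (up β)))) (mem_l _ _)
        · refine (kk _ ((t _ Y).trans e) (l _)).of_le (mem_r _ _) ?_
          have := mem_r (pm (up (β + β) * Y)) (pm (up β))
          have := mul_mem (inv_mem this) (mul_mem (inv_mem this) (mem_l _ _))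
          rw [← up_add] at this ⊢
          simpa [mul_assoc] using this
  simp only [k]
  rw [count2 (fun a c d => (β * c) ^ 2 = 1 ∧ (a + d) ^ 3 = a + d)
    (fun a b c d => c = 0 ∨ ((β * c) ^ 2 = 1 ∧ (a + d) ^ 3 = a + d))
    (fun a b c d hc e => by simp only [hc, false_or]) (by simp),
    sum_congr rfl (g := fun c => if (β * c) ^ 2 = 1 then Fintype.card F * 3 else 0), ← sum_filter, sum_const,
    show filter (fun c => (β * c) ^ 2 = 1) (univ.erase 0) = {β⁻¹, -β⁻¹} from ?_, card_pair, smul_eq_mul]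
  · obtain ⟨n, hn⟩ : ∃ n, Fintype.card F = n + 1 := ⟨_, (Nat.succ_pred_eq_of_pos hq).symm⟩
    rw [hn, Nat.add_sub_cancel]; ring
  · exact fun e => inv_ne_zero b0 ((mul_eq_zero.1 (by linear_combination e)).resolve_left h2)
  · ext c
    simp only [mem_filter, mem_erase, mem_univ, and_true, mem_insert, mem_singleton]
    constructor
    · rintro ⟨-, e⟩
      rcases sq_eq_one_iff.mp e with e | e
      · exact Or.inl (eq_inv_of_mul_eq_one_right e)
      · right; field_simp; linear_combination e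
    · rintro (rfl | rfl) <;> simp [b0]
  · intro c _
    split_ifs with hc
    · rw [sum_congr rfl (g := fun _ => 3)]
      · simp
      · intro a _
        simp only [hc, true_and]
        rw [← card_filter, card_eq_three]
        refine ⟨-a, 1 - a, -1 - a, fun e => one_ne_zero (α := F) (by linear_combination -e),
          fun e => one_ne_zero (α := F) (by linear_combination e), fun e => h2 (by linear_combination e), ?_⟩
        ext d
        simp only [mem_filter, mem_univ, true_and, mem_insert, mem_singleton]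
        constructor
        · intro e
          rcases mul_eq_zero.1 (show (d + a) * ((d - (1 - a)) * (d - (-1 - a))) = 0 by linear_combination e)
            with e | e
          · exact Or.inl (eq_neg_of_add_eq_zero_left e)
          · exact Or.inr ((mul_eq_zero.1 e).imp sub_eq_zero.1 sub_eq_zero.1)
        · rintro (rfl | rfl | rfl) <;> ring
    · simp [hc]

theorem reidx (h2 : (2 : F) ≠ 0) (f : F → F → ℕ) : ∑ a, ∑ d, f (a + d) (a - d) = ∑ s, ∑ t, f s t := by
  rw [← Fintype.sum_prod_type', ← Fintype.sum_prod_type']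
  refine Fintype.sum_bijective (fun x => (x.1 + x.2, x.1 - x.2)) (Finite.injective_iff_bijective.1 ?_) _ _
    fun _ => rfl
  rintro ⟨a, b⟩ ⟨c, d⟩ e
  obtain ⟨e1, e2⟩ := Prod.mk.inj e
  exact Prod.ext (mul_left_cancel₀ h2 (by linear_combination e1 + e2))
    (mul_left_cancel₀ h2 (by linear_combination e1 - e2))

open Classical in
theorem two_sq (hm : ¬ IsSquare (-1 : F)) {n : F} (hn : n ≠ 0) :
    ∑ t : F, ∑ u : F, (if t ^ 2 + u ^ 2 = n then 1 else 0) = Fintype.card F + 1 := by
  have hF : ringChar F ≠ 2 := fun e => hm (FiniteField.isSquare_of_char_two e _)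
  have : ∀ t : F, ((∑ u : F, (if t ^ 2 + u ^ 2 = n then 1 else 0) : ℕ) : ℤ) =
      quadraticChar F n * quadraticChar F (-n⁻¹ * t ^ 2 + 1) + 1 := fun t => by
    rw [← map_mul, ← quadraticChar_card_sqrts hF, sb _ _ {x : F | x ^ 2 = n * (-n⁻¹ * t ^ 2 + 1)}.toFinset]
    intro d
    rw [Set.mem_toFinset, Set.mem_ofPred_eq, show n * (-n⁻¹ * t ^ 2 + 1) = n - t ^ 2 by field_simp; ring,
      eq_sub_iff_add_eq']
  apply Nat.cast_injective (R := ℤ)
  rw [Nat.cast_sum, sum_congr rfl fun t _ => this t, sum_add_distrib, ← mul_sum,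
    sum_quad hF (neg_ne_zero.2 (inv_ne_zero hn)), mul_neg, ← map_mul, show n * -n⁻¹ = -1 by field_simp,
    quadraticChar_neg_one_iff_not_isSquare.2 hm]
  simp [add_comm]

theorem odd_inv [CharP F 3] {r : ℕ} (hr : r.Prime) (hF : Fintype.card F = 3 ^ r) (hm : ¬ IsSquare (-1 : F))
    {x : PSL(2, F)} (hx : orderOf x = 2) :
    Nat.card {y // Sv x y} = Fintype.card F * (Fintype.card F + 1) := by
  classical
  have h3 : (3 : F) = 0 := by exact_mod_cast CharP.cast_eq_zero F 3
  have h2 : (2 : F) ≠ 0 := fun e => one_ne_zero (α := F) (by linear_combination h3 - e)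
  let J : SL(2, F) := ⟨!![0, -1; 1, 0], by simp [det_fin_two]⟩
  have hJ : J.1 = !![0, -1; 1, 0] := rfl
  have j0 : trace J.1 = 0 := by simp [hJ]
  have o := ord_two' h2 j0
  have := card_lift fun y => Sv (pm J) y
  rw [H27.gcd_two_of_odd (H11.odd_card_of_two_ne_zero h2)] at this
  rw [card_sv_conj (conj_two hx o)]
  apply Nat.eq_of_mul_eq_mul_left two_pos
  rw [← this]
  have x2 := sq_of_tr j0
  have k : ∀ Y : SL(2, F), Sv (pm J) (pm Y) ↔
      Y.1 0 0 + Y.1 1 1 = 0 ∨ Y.1 0 1 - Y.1 1 0 = 0 ∨ (Y.1 0 0 - Y.1 1 1 = 0 ∧ Y.1 0 1 + Y.1 1 0 = 0) ∨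
        ((Y.1 0 0 + Y.1 1 1) ^ 2 = 1 ∧ (Y.1 0 1 - Y.1 1 0) ^ 2 = 1) := fun Y => by
    have t : trace (J * Y).1 = Y.1 0 1 - Y.1 1 0 := by
      rw [tr2, me, me, hJ]; simp; ring
    constructor
    · intro hs
      rcases nec 3 hr hF (Or.inr ⟨rfl, hm⟩) hs with ⟨z, hz, -⟩ | ⟨-, e⟩ | ⟨-, e | e⟩ | ⟨-, e⟩
      · obtain ⟨l, hl⟩ := fix_root hz
        exact absurd ⟨l, by rw [j0] at hl; linear_combination -hl⟩ hm
      · rw [inv_eq_of_mul_eq_one_right x2, or_self, mul_inv_eq_iff_eq_mul, ← map_mul, ← map_mul] at e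
        obtain ⟨e, he, hh⟩ := ent e
        have e1 := hh 0 0
        have e2 := hh 0 1
        rw [me, me, hJ] at e1 e2
        simp at e1 e2
        rcases he with rfl | rfl
        · exact Or.inr (Or.inr (Or.inl ⟨by linear_combination e2, by linear_combination e1⟩))
        · exact Or.inr (Or.inl (by linear_combination e1))
      · rcases sq_one e with e | rfl | rfl
        · exact Or.inl (tr2 Y ▸ e)
        · right; left; simp
        · right; left; simp
      · rw [← map_mul] at e
        rcases sq_one e with e | e | e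
        · exact Or.inr (Or.inl (t ▸ e))
        all_goals
          have e1 := me J Y 1 0
          have e2 := me J Y 0 1
          rw [e, hJ] at e1 e2
          simp at e1 e2
          left; rw [← e1, e2, add_zero]
      · have e1 := e Y (mem_r _ _)
        have e2 := e (J * Y) (mul_mem (mem_l _ _) (mem_r _ _))
        rw [t] at e2
        rw [tr2] at e1
        by_cases c1 : Y.1 0 0 + Y.1 1 1 = 0
        · exact Or.inl c1
        by_cases c2 : Y.1 0 1 - Y.1 1 0 = 0
        · exact Or.inr (Or.inl c2)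
        exact Or.inr (Or.inr (Or.inr ⟨mul_left_cancel₀ c1 (by linear_combination e1),
          mul_left_cancel₀ c2 (by linear_combination e2)⟩))
    · rintro (e | e | ⟨e1, e2⟩ | ⟨e1, e2⟩)
      · exact sv_dih x2 (Or.inl (sq_of_tr ((tr2 Y).trans e)))
      · exact sv_dih x2 (Or.inr (by rw [← map_mul]; exact sq_of_tr (t.trans e)))
      · refine sv_of_inv (Or.inl ?_)
        rw [mul_inv_eq_iff_eq_mul, ← map_mul, ← map_mul]
        congr 1
        apply Subtype.ext
        ext i j
        rw [me, me, hJ]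
        fin_cases i <;> fin_cases j <;> simp <;>
          first | linear_combination e1 | linear_combination -e1 | linear_combination e2 | linear_combination -e2
      · exact sv_a4 x2 (cube h3 (by rw [tr2, e1])) (by rw [← map_mul]; exact cube h3 (by rw [t, e2]))
  simp only [k]
  rw [count (fun a b c d => a + d = 0 ∨ b - c = 0 ∨ (a - d = 0 ∧ b + c = 0) ∨ ((a + d) ^ 2 = 1 ∧ (b - c) ^ 2 = 1))]
  let g : F → F → F → F → ℕ := fun s t u v => if t ^ 2 + u ^ 2 = s ^ 2 + v ^ 2 - 1 ∧
    (s = 0 ∨ v = 0 ∨ (t = 0 ∧ u = 0) ∨ (s ^ 2 = 1 ∧ v ^ 2 = 1)) then 1 else 0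
  have e1 : ∀ a : F, (∑ b : F, ∑ c : F, ∑ d : F, if a * d - b * c = 1 ∧ (a + d = 0 ∨ b - c = 0 ∨
      (a - d = 0 ∧ b + c = 0) ∨ ((a + d) ^ 2 = 1 ∧ (b - c) ^ 2 = 1)) then 1 else 0) =
      ∑ d : F, ∑ v : F, ∑ u : F, g (a + d) (a - d) u v := fun a => by
    rw [sum_congr rfl fun b _ => sum_comm, sum_comm]
    refine sum_congr rfl fun d _ => ?_
    rw [sum_comm (f := fun v u => g (a + d) (a - d) u v), ← reidx h2 (g (a + d) (a - d))]
    refine sum_congr rfl fun b _ => sum_congr rfl fun c _ => if_congr (and_congr_left' ?_) rfl rfl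
    exact ⟨fun e => by linear_combination -e - (a * d - b * c) * h3,
      fun e => by linear_combination -e - (a * d - b * c) * h3⟩
  have e2 : ∀ s v : F, ∑ t : F, ∑ u : F, g s t u v = (if s ^ 2 + v ^ 2 = 1 then 1 else 0) +
      (Fintype.card F + 1) * if s ^ 2 + v ^ 2 ≠ 1 ∧ (s = 0 ∨ v = 0 ∨ (s ^ 2 = 1 ∧ v ^ 2 = 1)) then 1 else 0 := by
    intro s v
    have z : ∀ t u : F, t ^ 2 + u ^ 2 = 0 → t = 0 ∧ u = 0 := fun t u e => by
      by_cases h : u = 0
      · exact ⟨by simpa [h] using e, h⟩
      · exact absurd ⟨t / u, by field_simp; linear_combination -e⟩ hm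
    by_cases h : s ^ 2 + v ^ 2 = 1
    · rw [if_pos h, if_neg (by simp [h]), sum_eq_single 0, sum_eq_single 0]
      · simp [g, h]
      · intro u _ hu; exact if_neg fun e => hu (z 0 u (by rw [e.1, h, sub_self])).2
      · simp
      · intro t _ ht
        exact sum_eq_zero fun u _ => if_neg fun e => ht (z t u (by rw [e.1, h, sub_self])).1
      · simp
    · rw [if_neg h, zero_add]
      have h' := sub_ne_zero.2 h
      split_ifs with h1
      · rw [mul_one, ← two_sq hm h']
        refine sum_congr rfl fun t _ => sum_congr rfl fun u _ => ?_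
        simp only [g]
        congr 1
        exact propext (and_iff_left (by tauto))
      · refine sum_eq_zero fun t _ => sum_eq_zero fun u _ => if_neg ?_
        rintro ⟨e, k | k | ⟨rfl, rfl⟩ | k⟩
        · tauto
        · tauto
        · exact h' (by simpa using e.symm)
        · tauto
  have c3 : 3 ≤ Fintype.card F := hF ▸ Nat.le_self_pow hr.ne_zero 3
  have pm1 : (1 : F) ≠ -1 := fun e => h2 (by linear_combination e)
  have e3 : ∑ s : F, ∑ v : F, (if s ^ 2 + v ^ 2 ≠ 1 ∧ (s = 0 ∨ v = 0 ∨ (s ^ 2 = 1 ∧ v ^ 2 = 1)) then 1 else 0) + 1 =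
      2 * Fintype.card F := by
    have f : ∀ s : F, ∑ v : F, (if s ^ 2 + v ^ 2 ≠ 1 ∧ (s = 0 ∨ v = 0 ∨ (s ^ 2 = 1 ∧ v ^ 2 = 1)) then 1 else 0) =
        1 + (if s = 0 then Fintype.card F - 3 else 0) + (if s ∈ ({1, -1} : Finset F) then 1 else 0) := by
      intro s
      by_cases s0 : s = 0
      · subst s0
        rw [sb _ _ ({1, -1} : Finset F)ᶜ (by simp), card_compl, card_pair pm1]
        simp; omega
      by_cases s1 : s ^ 2 = 1
      · rw [sb _ _ ({1, -1} : Finset F), card_pair pm1, if_neg s0, if_pos (by simpa using s1)]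
        intro d
        simp only [s0, s1, false_or, true_and, mem_insert, mem_singleton, ← sq_eq_one_iff]
        constructor
        · rintro ⟨e, rfl | e'⟩
          · simp at e
          · exact e'
        · intro e; exact ⟨by simp [e], Or.inr e⟩
      · rw [sb _ _ ({0} : Finset F), card_singleton, if_neg s0, if_neg (by simpa using s1)]
        intro d
        simp only [s0, s1, false_or, false_and, or_false, mem_singleton]
        exact ⟨fun e => e.2, fun e => ⟨by simpa [e] using s1, e⟩⟩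
    simp only [f, sum_add_distrib, sum_const, card_univ, smul_eq_mul, mul_one, sum_ite_eq', mem_univ, if_true]
    rw [sb _ _ ({1, -1} : Finset F) fun _ => Iff.rfl, card_pair pm1]
    omega
  have e4 : (∑ a : F, ∑ d : F, ∑ v : F, ∑ u : F, g (a + d) (a - d) u v) =
      ∑ s : F, ∑ v : F, ∑ t : F, ∑ u : F, g s t u v := by
    rw [reidx h2 (fun s t => ∑ v : F, ∑ u : F, g s t u v)]
    exact sum_congr rfl fun s _ => sum_comm
  convert (sum_congr rfl fun a _ => e1 a).trans (e4.trans ?_)
  simp only [e2, sum_add_distrib, ← mul_sum]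
  have e5 := two_sq hm (one_ne_zero (α := F))
  have : ∀ a b c : ℕ, a = c + 1 → b + 1 = 2 * c → a + (c + 1) * b = 2 * (c * (c + 1)) := by
    rintro _ b c rfl h; nlinarith
  exact this _ _ _ (by convert e5) e3

end H13.P2
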