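import Mathlib
import Cfsg.Agent.H13.At2
import Cfsg.Agent.H21.TwoGen
import Cfsg.Agent.H10.Syl

/-! Sylow subgroups with abelianisation of order `p²`. -/

set_option autoImplicit false

namespace H13.Pq

open Subgroup Cfsg
open scoped Pointwise commutatorElement

variable {G : Type*} [Group G] [Finite G] {p : ℕ} [hp : Fact p.Prime]

omit hp in
theorem cls (A : Subgroup G) (y : G) : Nat.card A =
    {z | ∃ a ∈ A, ⁅a, y⁆ = z}.ncard * Nat.card (A ⊓ centralizer {y} : Subgroup G) := by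
  rw [@At.card_orb G G _ (MulAction.compHom G MulAut.conj) _ A y,
    ← Set.ncard_image_of_injective _ (mul_left_injective y⁻¹)]
  congr 2
  · ext z
    exact ⟨fun ⟨_, ⟨a, ha, e⟩, h⟩ => ⟨a, ha, h ▸ e ▸ rfl⟩, fun ⟨a, ha, e⟩ => ⟨_, ⟨a, ha, rfl⟩, e⟩⟩
  · congr 3
    ext g
    rw [mem_inf, mem_inf, mem_centralizer_singleton_iff]
    exact and_congr_right' mul_inv_eq_iff_eq_mul

theorem cyc {K : Subgroup G} [K.Normal] (h : K ≤ frattini G) (hi : K.index ∣ p) : IsCyclic G := by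
  haveI : IsCyclic (G ⧸ K) := isCyclic_of_card_dvd_prime hi
  obtain ⟨y, hy⟩ := IsCyclic.exists_generator (α := G ⧸ K)
  obtain ⟨y, rfl⟩ := QuotientGroup.mk_surjective y
  refine isCyclic_iff_exists_zpowers_eq_top.2 ⟨y, H1.eq_top_of_sup_of_le_frattini h
    (eq_top_iff.2 fun g _ => ?_)⟩
  obtain ⟨k, hk⟩ := hy g
  exact mem_sup_of_normal_right.2 ⟨y ^ k, ⟨k, rfl⟩, _, QuotientGroup.eq.1 hk, by simp⟩

theorem small (hG : IsPGroup p G) (h : (commutator G).index ∣ p) : Nat.card G ∣ p := by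
  haveI := cyc (H1.commutator_le_frattini_of_isNilpotent hG.isNilpotent) h
  rwa [(commutator_eq_bot_iff G).2 inferInstance, index_bot] at h

theorem low (hG : IsPGroup p G) (h : p ^ 2 ∣ Nat.card G) (y : G) :
    p ^ 2 ∣ Nat.card (centralizer {y}) := by
  by_cases hy : y ∈ center G
  · rwa [(eq_top_iff' _).2 fun g => mem_centralizer_singleton_iff.2 (mem_center_iff.1 hy g), card_top]
  haveI : Nontrivial G := nontrivial_of_ne y 1 fun e => hy (e ▸ one_mem _)
  haveI := hG.center_nontrivial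
  obtain ⟨a, ha⟩ := (hG.to_subgroup (center G)).exists_card_eq
  obtain ⟨b, hb⟩ := (hG.to_subgroup (centralizer {y})).exists_card_eq
  have h1 := (card_le_of_le (center_le_centralizer {y})).lt_of_ne fun e =>
    hy (eq_of_le_of_card_ge (center_le_centralizer {y}) e.ge ▸ mem_centralizer_singleton_iff.2 rfl)
  have h2 := Finite.one_lt_card (α := center G)
  rw [ha, hb, Nat.pow_lt_pow_iff_right hp.out.one_lt] at h1
  rw [ha, ← pow_zero p, Nat.pow_lt_pow_iff_right hp.out.one_lt] at h2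
  exact hb ▸ pow_dvd_pow p (by omega)

theorem dv {a b k : ℕ} (h : a * b ∣ p ^ (k + 1)) (ha : a ≠ 1) : b ∣ p ^ k := by
  obtain ⟨i, -, rfl⟩ := (Nat.dvd_prime_pow hp.out).1 ((dvd_mul_right a b).trans h)
  obtain ⟨j, rfl⟩ := Nat.exists_eq_succ_of_ne_zero (n := i) fun e => ha (by rw [e, pow_zero])
  rw [pow_succ', pow_succ', mul_assoc] at h
  exact (dvd_mul_left _ _).trans (Nat.dvd_of_mul_dvd_mul_left hp.out.pos h)

theorem up (P : Sylow p G) {N C : Subgroup G} [N.Normal] (hi : N.relIndex P ∣ p)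
    (h : ¬ p ^ 2 ∣ Nat.card (N ⊓ C : Subgroup G)) : ¬ p ^ 3 ∣ Nat.card C := fun h1 => by
  have h2 := relIndex_dvd_index_of_normal N C
  rw [← relIndex_mul_index (le_sup_right : N ≤ P.1 ⊔ N), relIndex_sup_right] at h2
  rw [← relIndex_bot_left, ← relIndex_mul_relIndex ⊥ (N ⊓ C) C bot_le inf_le_right, relIndex_bot_left,
    inf_relIndex_right] at h1
  have h3 := h1.trans (mul_dvd_mul_left _ (h2.trans (mul_dvd_mul_right hi _)))
  rw [mul_left_comm, pow_succ'] at h3
  exact h (Nat.Coprime.dvd_of_dvd_mul_right (((Nat.Prime.coprime_iff_not_dvd hp.out).2 fun e =>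
    P.not_dvd_index (e.trans (index_dvd_of_le le_sup_left))).pow_left 2)
    (Nat.dvd_of_mul_dvd_mul_left hp.out.pos h3))

omit hp in
theorem tr_normal {A : Type*} [CommGroup A] {H : Subgroup G} [hH : H.Normal] (ϕ : H →* A) (g : H)
    (h : ∀ t ∉ H, ∀ k, ϕ ⟨t⁻¹ * g * t, k⟩ = 1) : MonoidHom.transfer ϕ g = ϕ g := by
  have h1 : ∀ (T : H.LeftTransversal) (q : G ⧸ H), (((g : G) • T).2.leftQuotientEquiv q : G) =
      g * T.2.leftQuotientEquiv q := fun T q => by
    rw [smul_apply_eq_smul_apply_inv_smul, smul_eq_mul]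
    congr 3
    obtain ⟨q, rfl⟩ := QuotientGroup.mk_surjective q
    exact QuotientGroup.eq.2 (by simpa using hH.conj_mem _ g.2 q⁻¹)
  rw [MonoidHom.transfer_def ϕ default, leftTransversals.diff]
  simp only [h1, ← mul_assoc]
  have h2 := fun q => (default : H.LeftTransversal).2.quotientGroupMk_leftQuotientEquiv q
  rw [Finset.prod_eq_single (1 : G ⧸ H) (fun q _ hq => h _ (fun e => hq (by
    rw [← h2 q]; exact (QuotientGroup.eq_one_iff _).2 e)) _) (by simp)]
  have h3 := (QuotientGroup.eq_one_iff _).1 (h2 1)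
  exact (congrArg ϕ (show _ = (⟨_, h3⟩ : H)⁻¹ * g * ⟨_, h3⟩ from rfl)).trans (by simp)

omit hp in
theorem abel {N P : Subgroup G} [hN : N.Normal] (hc : ∀ a ∈ N, ∀ b ∈ N, a * b = b * a) {y : P}
    (hy : N.subgroupOf P ⊔ zpowers y = ⊤) :
    Nat.card (⁅P, P⁆ : Subgroup G) * Nat.card (N ⊓ centralizer {(y : G)} : Subgroup G) ≤ Nat.card N := by
  have h1 : ∀ a ∈ N, ⁅a, (y : G)⁆ ∈ N := fun a ha => by
    simpa [commutatorElement_def, mul_assoc] using mul_mem ha (hN.conj_mem _ (inv_mem ha) y)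
  let φ : N →* G := MonoidHom.mk' (fun a => ⁅(a : G), (y : G)⁆) fun a b => by
    have := hc _ a.2 _ (h1 b b.2)
    calc _ = a * ⁅(b : G), (y : G)⁆ * (y * (a : G)⁻¹ * (y : G)⁻¹) := by
          simp only [commutatorElement_def, Subgroup.coe_mul]; group
      _ = _ := by rw [this, mul_assoc, hc _ (h1 b b.2) _ (mul_mem a.2 (hN.conj_mem _ (inv_mem a.2) y))]
                  simp only [commutatorElement_def, mul_assoc]
  have hφ : ∀ u : P, u ∈ φ.range.subgroupOf P ↔ ∃ a ∈ N, ⁅a, (y : G)⁆ = u := fun u =>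
    ⟨fun ⟨a, e⟩ => ⟨a, a.2, e⟩, fun ⟨a, ha, e⟩ => ⟨⟨a, ha⟩, e⟩⟩
  haveI : (φ.range.subgroupOf P).Normal := normalizer_eq_top_iff.1 (eq_top_iff.2 (hy.ge.trans
    (sup_le (fun n hn => mem_normalizer_fintype fun u hu => by
      obtain ⟨a, ha, e⟩ := (hφ _).1 hu
      rwa [show n * u = u * n from Subtype.ext (hc _ hn _ (e ▸ h1 a ha)), mul_inv_cancel_right])
      (zpowers_le.2 (mem_normalizer_fintype fun u hu => by
        obtain ⟨a, ha, e⟩ := (hφ _).1 hu
        refine (hφ _).2 ⟨_, hN.conj_mem _ ha y, ?_⟩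
        change _ = y * (u : G) * (y : G)⁻¹
        simp only [← e, commutatorElement_def]; group)))))
  let f := QuotientGroup.mk' (φ.range.subgroupOf P)
  have h2 : ∀ n ∈ N.subgroupOf P, f n * f y = f y * f n := fun n hn =>
    commutatorElement_eq_one_iff_mul_comm.1 (by
      rw [← map_commutatorElement]
      exact (QuotientGroup.eq_one_iff _).2 ⟨⟨n, hn⟩, rfl⟩)
  have h3 : ∀ x : P, (∀ n ∈ N.subgroupOf P, f n * f x = f x * f n) → f y * f x = f x * f y →
      x ∈ (center _).comap f := fun x h3 h4 => mem_center_iff.2 fun g => by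
    obtain ⟨g, rfl⟩ := QuotientGroup.mk'_surjective _ g
    exact mem_centralizer_singleton_iff.1 ((hy.ge.trans (sup_le (c := (centralizer {f x}).comap f)
      (fun n hn => mem_centralizer_singleton_iff.2 (h3 n hn))
      (zpowers_le.2 (mem_centralizer_singleton_iff.2 h4)))) (mem_top g))
  have h4 := hy.ge.trans (sup_le (fun n hn => h3 n (fun m hm => by
    rw [← map_mul, ← map_mul, show m * n = n * m from Subtype.ext (hc _ hm _ hn)]) (h2 n hn).symm)
    (zpowers_le.2 (h3 y h2 rfl)))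
  rw [cls N y]
  refine Nat.mul_le_mul_right _ (Set.ncard_le_ncard (s := ((⁅P, P⁆ : Subgroup G) : Set G))
    fun z hz => ?_)
  obtain ⟨a, e⟩ := (commutator_le.2 fun a ha b hb => (QuotientGroup.eq_one_iff
    (N := φ.range.subgroupOf P) ⁅(⟨a, ha⟩ : P), ⟨b, hb⟩⁆).1 (by
      rw [← QuotientGroup.mk'_apply, map_commutatorElement, commutatorElement_eq_one_iff_mul_comm]
      exact mem_center_iff.1 (h4 (mem_top _)) _) : ⁅P, P⁆ ≤ φ.range) hz
  exact ⟨a, a.2, e⟩

theorem semi {P : Sylow p G} (h : H21.TG.Hyp P) (hO : pCore p G = ⊥) {y : P.1}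
    (hy : (layer G).subgroupOf P.1 ⊔ zpowers y = ⊤) (hi : (layer G).relIndex P ∣ p)
    (hd : (⁅P.1, P.1⁆ : Subgroup G).relIndex (layer G ⊓ P) ∣ p) {K : Subgroup G} (hK : IsComponent K)
    (hn : ¬ P.1 ≤ normalizer (K : Set G)) :
    ¬ p ^ 2 ∣ Nat.card (layer G ⊓ centralizer {(y : G)} : Subgroup G) := by
  have hF : fittingSubgroup G = ⊥ := by rw [H1.fitting_eq_pCore_of_pPrimeCore_eq_bot h.core, hO]
  have hNK := H1.layer_le_normalizer_component hK
  have hC := H1.normalizer_le_normalizer_centralizer K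
  have hZ : ∀ k ∈ K, k ∈ centralizer (K : Set G) → k = 1 := fun k h1 h2 => mem_bot.1 (hF.le
    (H1.le_fitting_of_subnormal (H := K ⊓ centralizer (K : Set G)) (H1.isSubnormal_of_le_normalizer
      inf_le_left (H2.le_normalizer_inf le_normalizer (le_normalizer.trans hC)) hK.1)
      (H1.isNilpotent_of_isMulCommutative ⟨⟨fun a b => Subtype.ext (b.2.2 _ a.2.1)⟩⟩) ⟨h1, h2⟩))
  have h1 : ∀ t ∈ P.1, t ∉ layer G → ∀ k ∈ K, t⁻¹ * k * t ∈ centralizer (K : Set G) :=
    fun t ht h1 k hk => by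
      have h2 := relIndex_mul_relIndex (layer G ⊓ P) (normalizer (K : Set G) ⊓ P) P
        (inf_le_inf_right _ hNK) inf_le_right
      rw [inf_relIndex_right, inf_relIndex_right, mul_comm] at h2
      have h3 := relIndex_eq_one.1 (Nat.dvd_one.1 (dv (p := p) (k := 0) (by rwa [h2, zero_add, pow_one])
        (mt relIndex_eq_one.1 hn)))
      exact commutator_eq_bot_iff_le_centralizer.1 (H1.commutator_eq_bot_of_component_ne
        (H1.isComponent_conj hK t⁻¹) hK fun e => h1 (h3 ⟨by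
          simpa using inv_mem (H1.mem_normalizer_iff_conj_smul_eq.2 e), ht⟩).1) ⟨k, hk, by simp⟩
  have h2 : ∀ n ∈ layer G, ∃ k ∈ K, ∃ d ∈ centralizer (K : Set G), k * d = n := fun n hn =>
    (H1.mem_sup_of_le_normalizer (le_normalizer.trans hC)).1 (H1.layer_le_iff.2 (fun L hL => by
      by_cases e : L = K
      · exact e ▸ le_sup_left
      · exact le_sup_of_le_right (commutator_eq_bot_iff_le_centralizer.1
          (H1.commutator_eq_bot_of_component_ne hL hK e))) hn)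
  have hS := ((H10.isSylowIn_top P).inf_of_le_normalizer (N := layer G) le_top
    le_normalizer_of_normal).inf_of_le_normalizer (H1.le_layer hK) hNK
  have h3 : ∀ q ∈ P.1 ⊓ layer G, ∃ k ∈ P.1 ⊓ layer G ⊓ K, k⁻¹ * q ∈ centralizer (K : Set G) :=
    fun q hq => by
      obtain ⟨k, hk, d, hd, rfl⟩ := h2 q hq.2
      refine ⟨k, (hS.eq_of_le (Q := K ⊓ (P.1 ⊓ layer G ⊔ centralizer (K : Set G))) (fun x => ?_)
        (le_inf inf_le_right (inf_le_left.trans le_sup_left)) inf_le_left).le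
        ⟨hk, by simpa using mul_mem (mem_sup_left hq) (mem_sup_right (inv_mem hd))⟩, by simpa⟩
      obtain ⟨x, x1, x2⟩ := x
      obtain ⟨q, hq, d, hd, rfl⟩ := (H1.mem_sup_of_le_normalizer
        (inf_le_right.trans (hNK.trans hC))).1 x2
      obtain ⟨n, e⟩ := P.2 ⟨q, hq.1⟩
      refine ⟨n, Subtype.ext (hZ _ (pow_mem x1 _) ?_)⟩
      have h3 := (show Commute (q * d) d from hd _ x1).inv_right.mul_pow (p ^ n)
      rw [mul_inv_cancel_right, show q ^ p ^ n = 1 from congrArg Subtype.val e, inv_pow,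
        eq_mul_inv_iff_mul_eq, one_mul] at h3
      exact h3.subst (motive := (· ∈ centralizer (K : Set G))) (pow_mem hd _)
  let f := K.normalizerMonoidHom
  have hf : ∀ a b : normalizer (K : Set G), f a = f b ↔ (a : G)⁻¹ * b ∈ centralizer (K : Set G) :=
    fun a b => by rw [eq_comm, MonoidHom.eq_iff, normalizerMonoidHom_ker]; rfl
  let H := (layer G).subgroupOf P.1
  obtain ⟨κ, hκ⟩ : ∃ κ : H →* MulAut K, ∀ a b : H, κ a = κ b ↔
      ((a : P.1) : G)⁻¹ * (b : P.1) ∈ centralizer (K : Set G) :=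
    ⟨f.comp ((P.1.subtype.comp H.subtype).codRestrict _ fun x => hNK x.2), fun a b => hf _ _⟩
  obtain ⟨ϕ, hϕ⟩ : ∃ ϕ : H →* Abelianization κ.range, ∀ a, ϕ a = .of (κ.rangeRestrict a) :=
    ⟨Abelianization.of.comp κ.rangeRestrict, fun _ => rfl⟩
  have hϕ' : ∀ a b : H, ((a : P.1) : G)⁻¹ * (b : P.1) ∈ centralizer (K : Set G) → ϕ a = ϕ b :=
    fun a b e => by rw [hϕ, hϕ, show κ.rangeRestrict a = κ.rangeRestrict b from
      Subtype.ext ((hκ a b).2 e)]
  let W := (MonoidHom.transfer ϕ).comp H.subtype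
  have h4 : Function.Surjective W := fun a => by
    obtain ⟨a, rfl⟩ := QuotientGroup.mk_surjective a
    obtain ⟨q, rfl⟩ := κ.rangeRestrict_surjective a
    obtain ⟨k, hk, e⟩ := h3 q ⟨q.1.2, q.2⟩
    have := tr_normal ϕ ⟨⟨k, hk.1.1⟩, hk.1.2⟩ fun t ht u =>
      (hϕ' 1 _ (by simpa using h1 t t.2 ht k hk.2)).symm.trans (map_one ϕ)
    rw [hϕ' _ q e, hϕ] at this
    exact ⟨⟨⟨k, hk.1.1⟩, hk.1.2⟩, this⟩
  have h5 : Nat.card κ.range ∣ p := small ((P.2.to_subgroup H).of_surjective _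
    κ.rangeRestrict_surjective) (by
      have := index_dvd_of_le (show (commutator P.1).subgroupOf H ≤ W.ker from fun x hx =>
        H3.map_eq_one_of_mem_commutator (MonoidHom.transfer ϕ) hx)
      rw [index_ker, MonoidHom.range_eq_top.2 h4, card_top] at this
      refine this.trans ?_
      rwa [← map_subtype_commutator, ← subgroupOf_map_subtype,
        relIndex_map_map_of_injective _ _ (subtype_injective _)] at hd)
  have h6 : Nat.card (P.1 ⊓ layer G ⊓ K : Subgroup G) ≤ p := (Nat.card_le_card_of_injective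
    (fun x => κ.rangeRestrict ⟨⟨x.1, x.2.1.1⟩, x.2.1.2⟩) fun a b e => Subtype.ext (inv_mul_eq_one.1
      (hZ _ (mul_mem (inv_mem a.2.2) b.2.2) ((hκ _ _).1 (congrArg Subtype.val e))))).trans
    (Nat.le_of_dvd hp.out.pos h5)
  have h7 : ∀ c ∈ layer G ⊓ centralizer {(y : G)}, c ∈ centralizer (K : Set G) → c = 1 :=
    fun c hc h7 => mem_bot.1 (hF.le (H1.centralizer_gf_le_fitting (by
      rw [H1.gf_eq_layer_sup_pCore h.core, hO, sup_bot_eq, ← zpowers_le, le_centralizer_iff]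
      refine H1.layer_le_iff.2 fun L hL => ?_
      obtain ⟨x, hx, rfl⟩ := h.comp_conj hO hK hL
      obtain ⟨n, hn, _, ⟨i, rfl⟩, e⟩ := mem_sup_of_normal_left.1 (hy.ge (mem_top (⟨x, hx⟩ : P.1)⁻¹))
      rintro _ ⟨k, hk, rfl⟩ _ ⟨j, rfl⟩
      refine (Commute.zpow_left ?_ j).eq
      have e1 : x = ((y : G) ^ i)⁻¹ * (n : G)⁻¹ := by
        rw [← mul_inv_rev]; exact (inv_eq_iff_eq_inv.1 (congrArg Subtype.val e).symm)
      have e2 : Commute c ((y : G) ^ i) := Commute.zpow_right (mem_centralizer_singleton_iff.1 hc.2) i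
      have e3 : Commute c _ := (h7 _ ((mem_normalizer_iff''.1 (hNK hn) k).1 hk)).symm
      rw [show (MulAut.conj x).toMonoidHom k = ((y : G) ^ i)⁻¹ * ((n : G)⁻¹ * k * n) * (y : G) ^ i by
        rw [e1, MulEquiv.coe_toMonoidHom, MulAut.conj_apply]; group]
      exact (e2.inv_right.mul_right e3).mul_right e2)))
  have h8 : Nat.card (layer G ⊓ centralizer {(y : G)} : Subgroup G) ∣ Nat.card K := by
    let g := f.comp (inclusion (inf_le_left.trans hNK : layer G ⊓ centralizer {(y : G)} ≤ _))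
    rw [Nat.card_congr (MonoidHom.ofInjective (f := g) fun a b e => Subtype.ext (inv_mul_eq_one.1
      (h7 _ (mul_mem (inv_mem a.2) b.2) ((hf _ _).1 e)))).toEquiv]
    refine (card_dvd_of_le ?_).trans (card_range_dvd (f.comp (inclusion le_normalizer)))
    rintro _ ⟨a, rfl⟩
    obtain ⟨k, hk, d, hd, e⟩ := h2 a a.2.1
    exact ⟨⟨k, hk⟩, (hf _ _).2 (by simpa [← e])⟩
  intro h9
  have h10 := h9.trans h8
  rw [← relIndex_bot_left, ← relIndex_mul_relIndex ⊥ _ K bot_le hS.1, relIndex_bot_left] at h10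
  have := Nat.le_of_dvd Nat.card_pos (Nat.Coprime.dvd_of_dvd_mul_right
    (((Nat.Prime.coprime_iff_not_dvd hp.out).2 hS.not_dvd_relIndex).pow_left 2) h10)
  nlinarith [hp.out.two_le]

theorem main {P : Sylow p G} (h : H21.TG.Hyp P) (hd : (⁅P.1, P.1⁆ : Subgroup G).relIndex P = p ^ 2)
    (hs : ¬ ∃ S : Subgroup G, S.Normal ∧ IsSimpleGroup S ∧ ¬ IsMulCommutative S ∧
      centralizer (S : Set G) = ⊥) : ∃ y ∈ P.1, ¬ p ^ 3 ∣ Nat.card (centralizer {y}) := by
  obtain ⟨N, h1, h2, h3⟩ := h.exists_min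
  have h4 := h.gf_eq h2 h3
  obtain ⟨y, hy⟩ := h.exists_gen (h.not_le h2)
  have hF := H1.commutator_le_frattiniOf_of_isNilpotent P.2.isNilpotent
  have h5 : ⁅P.1, P.1⁆ ≤ N ⊓ P := by
    rw [← map_subtype_commutator, ← subgroupOf_map_subtype]
    exact map_mono (H21.TG.commutator_le hy)
  have h6 := relIndex_mul_relIndex _ _ _ h5 inf_le_right
  rw [hd, inf_relIndex_right] at h6
  have h7 := dv (k := 1) h6.dvd fun e => h.not_le h2 ((relIndex_eq_one.1 e).trans hF)
  have h8 := fun h : ¬ P.1 ≤ N => dv (k := 1) ((mul_comm _ _).trans h6).dvd (mt relIndex_eq_one.1 h)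
  rw [pow_one] at h7 h8
  refine ⟨y, y.2, up P h7 ?_⟩
  by_cases hO : pCore p G = ⊥
  · rw [H1.gf_eq_layer_sup_pCore h.core, hO, sup_bot_eq] at h4
    subst h4
    obtain ⟨K, hK⟩ : ∃ K : Subgroup G, IsComponent K := by
      simpa [H1.layer_eq_bot_iff] using h2
    have h9 : ¬ P.1 ≤ normalizer (K : Set G) := fun h9 => by
      have e : layer G = K := (H1.layer_le_iff.2 fun L hL => by
        obtain ⟨x, hx, rfl⟩ := h.comp_conj hO hK hL
        exact (H1.mem_normalizer_iff_conj_smul_eq.1 (h9 hx)).le).antisymm (H1.le_layer hK)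
      have e1 := H1.centralizer_gf_le_fitting (G := G)
      rw [H1.gf_eq_layer_sup_pCore h.core, H1.fitting_eq_pCore_of_pPrimeCore_eq_bot h.core, hO,
        sup_bot_eq, e, le_bot_iff] at e1
      exact hs ⟨K, e ▸ h1, H1.isSimpleGroup_of_isQuasisimple hK.2 (by
        rw [H1.center_eq_subgroupOf, e1, bot_subgroupOf]), fun e =>
          H1.Quasisimple.not_isSolvable hK.2 (H1.isSolvable_of_isMulCommutative e), e1⟩
    exact semi h hO hy h7 (h8 fun e => h9 (e.trans (H1.layer_le_normalizer_component hK))) hK h9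
  have h9 := (h3 _ inferInstance hO).trans (H1.pCore_le_sylow P)
  have h10 : ∀ a ∈ N, ∀ b ∈ N, a * b = b * a := fun a ha b hb =>
    commutatorElement_eq_one_iff_mul_comm.1 (mem_bot.1 ((h.eq_bot
      ((commutator_mono h9 h9).trans hF)).le (commutator_mem_commutator ha hb)))
  have h11 := abel h10 hy
  have h12 := Nat.le_of_dvd hp.out.pos (h8 fun e => h.na ⟨⟨fun a b =>
    Subtype.ext (h10 _ (e a.2) _ (e b.2))⟩⟩)
  rw [inf_eq_left.2 h9] at h5 h12
  rw [← relIndex_bot_left N, ← relIndex_mul_relIndex ⊥ _ N bot_le h5, relIndex_bot_left] at h11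
  have := (Nat.le_of_mul_le_mul_left h11 Nat.card_pos).trans h12
  exact fun h => by nlinarith [Nat.le_of_dvd Nat.card_pos h, hp.out.two_le]

end H13.Pq
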