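import Cfsg.Agent.H4.BG38
import Cfsg.Agent.H0.Rep34
import Cfsg.Agent.S0033

/-! Coprime elementary abelian operator groups with unique invariant Sylow subgroups: basics. -/

set_option autoImplicit false
set_option linter.unusedSectionVars false

namespace H13.Pt
open Cfsg Subgroup H19

universe u
variable {Γ : Type u} [Group Γ] [Finite Γ] {r p q : ℕ} {π : Set ℕ}
  {G A B K L X Y D E V W N : Subgroup Γ}

theorem bm (h : X ≤ Y) (e : Y = ⊥) : X = ⊥ := H19.eq_bot_mono h e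
theorem nbm (h : X ≤ Y) (e : X ≠ ⊥) : Y ≠ ⊥ := H19.ne_bot_mono h e

/-- a `B`-invariant subgroup of `G` -/
structure Inv (G B X : Subgroup Γ) : Prop where
  le : X ≤ G
  nm : B ≤ N(X)

theorem Inv.inf (h1 : Inv G B X) (h2 : B ≤ N(Y)) : Inv G B (X ⊓ Y) :=
  ⟨inf_le_left.trans h1.le, norms_inf h1.nm h2⟩
theorem Inv.sup (h1 : Inv G B X) (h2 : Inv G B Y) : Inv G B (X ⊔ Y) :=
  ⟨sup_le h1.le h2.le, norms_sup h1.nm h2.nm⟩
theorem Inv.comm (h1 : Inv G B X) (h2 : Inv G B Y) : Inv G B ⁅X, Y⁆ :=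
  ⟨commg_le_of_le h1.le h2.le, norms_comm h1.nm h2.nm⟩
theorem Inv.comm' (h1 : Inv G B X) (h2 : B ≤ N(Y)) (h3 : Y ≤ N(X)) : Inv G B ⁅X, Y⁆ :=
  ⟨(commg_le_left h3).trans h1.le, norms_comm h1.nm h2⟩
theorem Inv.cent (h1 : Inv G B X) (h2 : B ≤ N(Y)) : Inv G B (X ⊓ C(Y)) := h1.inf (norms_cent h2)
theorem Inv.norm (h1 : Inv G B X) (h2 : B ≤ N(Y)) : Inv G B (X ⊓ N(Y)) := h1.inf (norms_norm h2)
theorem Inv.Oc (h1 : Inv G B X) (π : Set ℕ) : Inv G B (Oc π X) :=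
  ⟨(Oc_le _ _).trans h1.le, norms_Oc _ h1.nm⟩
theorem Inv.mono (h1 : Inv G B X) (h : A ≤ B) : Inv G A X := ⟨h1.le, h.trans h1.nm⟩
theorem Inv.to (h1 : Inv G B X) (h : X ≤ K) : Inv K B X := ⟨h, h1.nm⟩
theorem Inv.up (h1 : Inv K B X) (h : K ≤ G) : Inv G B X := ⟨h1.le.trans h, h1.nm⟩
theorem Inv.bot : Inv G B ⊥ := ⟨bot_le, (NormalIn.bot B).norm⟩
theorem Inv.quo (h : Inv G B X) (N : Subgroup Γ) : Inv (quo N G) (quo N B) (quo N X) :=
  ⟨quo_mono N h.le, quo_norms h.nm⟩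

/-- the hypothesis of Pettet's theorem (for odd `r`) -/
structure Hyp (r : ℕ) (G A : Subgroup Γ) : Prop where
  pr : r.Prime
  odd : r ≠ 2
  ab : Abelem r A
  nm : A ≤ N(G)
  cop : PiG {r}ᶜ G
  uq : ∀ p X Y, Inv G A X → Inv G A Y → PG p X → PG p Y → PG p (X ⊔ Y)
  co : Odd #(G ⊓ C(A))

/-- the invariant Sylow subgroup -/
def S (G A : Subgroup Γ) (p : ℕ) : Subgroup Γ := sSup {X | Inv G A X ∧ PG p X}

namespace Hyp
variable (h : Hyp r G A)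
include h

theorem top : Inv G A G := ⟨le_rfl, h.nm⟩
theorem comm : Ab A := h.ab.1
theorem pg : PG r A := H19.abelem_pg h.pr h.ab
theorem sol : Sol A := h.pg.sol
theorem cp (hX : X ≤ G) (hD : D ≤ A) : (#X).Coprime #D :=
  (h.cop.of_le hX).coprime' (h.pg.of_le hD)
theorem nA (hD : D ≤ A) : A ≤ N(D) := norms_of_comm h.comm le_rfl hD
theorem cA (hD : D ≤ A) (hE : E ≤ A) : D ≤ C(E) := cents_of_comm h.comm hD hE
theorem sub (hK : Inv G A K) : Hyp r K A :=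
  ⟨h.pr, h.odd, h.ab, hK.nm, h.cop.of_le hK.le, fun p X Y a b => h.uq p X Y (a.up hK.le) (b.up hK.le),
    odd_mono h.co (inf_le_inf_right _ hK.le)⟩

omit h in
theorem le_S (hX : Inv G A X) (hp : PG p X) : X ≤ S G A p := le_sSup ⟨hX, hp⟩

theorem S_eq {P : Subgroup Γ} (hP : Syl p P G) (hn : A ≤ N(P)) : S G A p = P :=
  le_antisymm (sSup_le fun X hX => by
    have := hP.max le_sup_right (sup_le hX.1.le hP.le) (h.uq p X P hX.1 ⟨hP.le, hn⟩ hX.2 hP.pi)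
    exact le_sup_left.trans this.le) (le_S ⟨hP.le, hn⟩ hP.pi)

theorem S_syl (p : ℕ) : Syl p (S G A p) G := by
  obtain ⟨P, hP, hn⟩ := inv_syl_exists p h.nm (h.cp le_rfl le_rfl) (Or.inl h.sol)
  rwa [h.S_eq hP hn]

theorem S_inv (p : ℕ) : Inv G A (S G A p) := by
  obtain ⟨P, hP, hn⟩ := inv_syl_exists p h.nm (h.cp le_rfl le_rfl) (Or.inl h.sol)
  rw [h.S_eq hP hn]; exact ⟨hP.le, hn⟩

theorem S_pg (p : ℕ) : PG p (S G A p) := (h.S_syl p).pi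
theorem S_le (p : ℕ) : S G A p ≤ G := (h.S_syl p).le

theorem S_sub (hK : Inv G A K) (p : ℕ) : S K A p = K ⊓ S G A p :=
  le_antisymm (le_inf ((h.sub hK).S_le p) (le_S (((h.sub hK).S_inv p).up hK.le) ((h.sub hK).S_pg p)))
    (le_S ((hK.inf (h.S_inv p).nm).to inf_le_left) ((h.S_pg p).infr K))

theorem inf_S (hK : Inv G A K) (p : ℕ) : Syl p (K ⊓ S G A p) K :=
  h.S_sub hK p ▸ (h.sub hK).S_syl p

theorem S_norm (p : ℕ) : G ⊓ C(A) ≤ N(S G A p) := fun c hc => by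
  refine mem_norm_of_cj_le (le_S ⟨cj_le_of_mem hc.1 (h.S_le p), ?_⟩ ((h.S_pg p).J c))
  rw [← cj_norm]
  exact (cj_of_mem_cent hc.2).ge.trans (cj_mono c (h.S_inv p).nm)

theorem quo_le_S (hN : N ⊴ G) (hA : A ≤ N(N)) {X : Subgroup (Quo N)}
    (hX : Inv (quo N G) (quo N A) X) (hp : PG p X) : X ≤ quo N (S G A p) := by
  have h1 : Inv G A (qpre N X) := ⟨qpre_le hN.le hX.le, norms_qpre hA hX.nm⟩
  have h2 := (h.inf_S h1 p).quo (qpre_le_norm X)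
  rw [quo_qpre] at h2
  exact (h2.eq_self hp).ge.trans (quo_mono N inf_le_right)

theorem quo (hN : N ⊴ G) (hA : A ≤ N(N)) : Hyp r (quo N G) (quo N A) := by
  refine ⟨h.pr, h.odd, abelem_quo h.ab N, quo_norms h.nm, h.cop.quo N, fun p X Y a b c d => ?_, ?_⟩
  · exact ((h.S_pg p).quo N).of_le (sup_le (h.quo_le_S hN hA a c) (h.quo_le_S hN hA b d))
  · rw [quo_inf_cent' hA hN.le (h.cp hN.le le_rfl) (Or.inl h.sol)]
    exact odd_quo h.co N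

theorem quo_cent (hN : N ≤ G) (hA : A ≤ N(N)) (hX : A ≤ N(X)) (hD : D ≤ A)
    (hc : X ⊓ C(D) ≤ C(A)) : H19.quo N X ⊓ C(H19.quo N D) ≤ C(H19.quo N A) := by
  rw [quo_inf_cent (hD.trans hA) (hD.trans hX) (h.cp (inf_le_left.trans hN) hD)
    (Or.inl (sol_mono h.sol hD))]
  exact quo_cents hc

theorem two_cent (hX : X ≤ G) (h2 : PG 2 X) : X ⊓ C(A) = ⊥ :=
  (h2.infl _).eq_bot (PiN.of_not_dvd fun d =>
    (Nat.not_even_iff_odd.2 (odd_mono h.co (inf_le_inf_right _ hX))) (even_iff_two_dvd.2 d))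

theorem sup_cent (hX : Inv G A X) (hD : D ≤ A) : ⁅X, D⁆ ⊔ (X ⊓ C(D)) = X :=
  commg_sup_cent (hD.trans hX.nm) (h.cp hX.le hD) (Or.inl (sol_mono h.sol hD))

theorem cc (hX : Inv G A X) (hD : D ≤ A) : ⁅⁅X, D⁆, D⁆ = ⁅X, D⁆ :=
  commg_commg (hD.trans hX.nm) (h.cp hX.le hD)

theorem invc (hX : Inv G A X) (hD : D ≤ A) : Inv G A ⁅X, D⁆ := hX.comm' (h.nA hD) (hD.trans hX.nm)

/-- `[X, A] ≤ N` as soon as `X ≤ N C(A)` -/
theorem comm_le (hN : A ≤ N(N)) (hXN : X ≤ N(N)) (hD : D ≤ A) (hX : X ≤ N ⊔ (X ⊓ C(D))) : ⁅X, D⁆ ≤ N :=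
  (commutator_mono hX le_rfl).trans (commg_sup_left_le (commg_le_left (hD.trans hN))
    ((commg_eq_bot.2 inf_le_right).le.trans bot_le) le_normalizer (inf_le_left.trans hXN))

theorem comm_le_line (hX : Inv G A X) (hD : D ≤ A) (hc : X ⊓ C(D) ≤ C(A)) : ⁅X, A⁆ ≤ ⁅X, D⁆ :=
  h.comm_le (h.invc hX hD).nm (commg_norml _ _) le_rfl
    ((h.sup_cent hX hD).ge.trans (sup_le_sup_left (le_inf inf_le_left hc) _))

theorem L0 (hX : Inv G A X) (hY : Inv G A Y) (hq : PG q X) (hp : PG p Y) (ne : p ≠ q)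
    (hn : X ≤ N(Y)) : Y ⊓ C(A) ≤ C(X) := by
  have hs : Syl q X (Y ⊔ X) := by
    have := (sdprod_sup hn ((hp.sing_ne ne).inf_eq_bot' hq)).hall_right (π := {q}ᶜ)
      ((sdprod_sup hn ((hp.sing_ne ne).inf_eq_bot' hq)).hall_of_pi (hp.sing_ne ne) hq.compl_compl)
    rwa [compl_compl] at this
  have e : (Y ⊔ X) ⊓ S G A q = X :=
    hs.max (le_inf le_sup_right (le_S hX hq)) inf_le_left ((h.S_pg q).infr _)
  have n : Y ⊓ C(A) ≤ N(X) := e ▸ norms_inf (norms_of_le (inf_le_left.trans le_sup_left))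
    ((inf_le_inf_right _ hY.le).trans (h.S_norm q))
  refine commg_eq_bot.1 (bm (le_inf ?_ (commg_le_right n)) ((hp.sing_ne ne).inf_eq_bot' hq))
  exact (commutator_mono inf_le_left le_rfl).trans (commg_le_left hn)

end Hyp

theorem thom (hD : (#D).Prime) (hn : D ≤ N(X)) (hc : X ⊓ C(D) = ⊥) : Nil X := by
  obtain ⟨a, a1, ao, rfl⟩ := (el1_of_prime le_rfl hD).exists_gen
  have ha := hn (mem_zpowers a)
  haveI := Fact.mk hD
  let φ : MulAut X := X.normalizerMonoidHom ⟨a, ha⟩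
  have fp : ∀ y : X, φ y = y → y = 1 := fun y e => Subtype.ext (mem_bot.1 (hc.le ⟨y.2, by
    rw [cent_zpowers]
    have : a * y * a⁻¹ = y := congrArg Subtype.val e
    exact mem_cent1.2 (by rw [← this, inv_mul_cancel_right, this])⟩))
  by_cases e : φ = 1
  · haveI : Subsingleton X := ⟨fun x y => (fp x (by rw [e]; rfl)).trans (fp y (by rw [e]; rfl)).symm⟩
    infer_instance
  refine Cfsg.Agent.S0033.result φ fp _ hD (orderOf_eq_prime ?_ e)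
  rw [← map_pow, show (⟨a, ha⟩ : N(X)) ^ #(zpowers a) = 1 from
    Subtype.ext (by rw [← ao]; exact pow_orderOf_eq_one a), map_one]

theorem cent_le_Phi (hp : PG p W) (hn : X ≤ N(W)) (hc : (#W).Coprime #X) (h : W ≤ ⁅W, X⁆) :
    W ⊓ C(X) ≤ Phi W := by
  have nP := H4.norms_Phi hn
  have e := ab_commg_inf_cent (H4.abelem_quo_Phi hp).1 (quo_norms (K := Phi W) hn) (cop_quo hc _)
  rw [← quo_comm (H4.Phi_normal W).norm nP] at e
  refine (quo_eq_bot_iff (inf_le_left.trans (H4.Phi_normal W).norm)).1 (bm ?_ e)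
  exact le_inf (quo_mono _ (inf_le_left.trans h)) (quo_cents inf_le_right)

theorem Sh0 (hr : r.Prime) (r2 : r ≠ 2) (hD : #D = r) (hq : PG q X) (hp : PG p Y) (ne : p ≠ q)
    (cX : PiG {r}ᶜ X) (cY : PiG {r}ᶜ Y) (nX : D ≤ N(X)) (nY : D ≤ N(Y)) (hn : X ≤ N(Y))
    (hX : X ≤ ⁅X, D⁆) (h2 : q = 2 → X ⊓ C(D) = ⊥) (hc : Y ⊓ C(D) ≤ C(X)) : X ≤ C(Y) := by
  have pD : PG r D := PiN.of_card hr hD
  have hD' : (#D).Prime := hD ▸ hr
  have cXY : (#Y).Coprime #X := (hp.sing_ne ne).coprime' hq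
  have lW : ⁅Y, X⁆ ≤ Y := commg_le_left hn
  have pW := hp.of_le lW
  have nW : X ≤ N(⁅Y, X⁆) := commg_normr _ _
  have dW : D ≤ N(⁅Y, X⁆) := norms_comm nY nX
  have cW := H4.cop_mono cXY lW le_rfl
  have cWD : (#⁅Y, X⁆).Coprime #D := (cY.of_le lW).coprime' pD
  have eW : ⁅⁅Y, X⁆, X⁆ = ⁅Y, X⁆ := commg_commg hn cXY
  have hP : ⁅Y, X⁆ ⊓ C(D) ≤ Phi ⁅Y, X⁆ :=
    (le_inf inf_le_left ((inf_le_inf_right _ lW).trans hc)).trans (cent_le_Phi pW nW cW eW.ge)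
  suffices hs : ⁅⁅Y, X⁆, X⁆ ≤ Phi ⁅Y, X⁆ by
    have := cents_symm (H18.coprime_cent_Phi cW hs)
    exact cents_symm (commg_eq_bot.1 (eW ▸ commg_eq_bot.2 this))
  by_cases x0 : X = ⊥
  · rw [x0, commutator_bot_right]; exact bot_le
  by_cases w0 : ⁅Y, X⁆ = ⊥
  · rw [w0, commutator_bot_left]; exact bot_le
  have pp := pW.prime_of_ne_bot w0
  have pq := hq.prime_of_ne_bot x0
  by_cases q2 : q = 2
  · set W := ⁅Y, X⁆
    have nP := H4.norms_Phi nW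
    have dP := H4.norms_Phi dW
    have wP := (H4.Phi_normal W).norm
    have cP : (#(Phi W)).Coprime #D := H4.cop_mono cWD (H4.Phi_le _) le_rfl
    have e1 : quo (Phi W) W ⊓ C(quo (Phi W) D) = ⊥ := by
      rw [quo_inf_cent' dP (H4.Phi_le _) cP (Or.inl pD.sol), quo_eq_bot hP]
    have e2 : quo (Phi W) X ⊓ C(quo (Phi W) D) = ⊥ := by
      rw [quo_inf_cent dP nX (H4.cop_mono cP inf_le_left le_rfl) (Or.inl pD.sol), h2 q2]
      exact im_bot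
    have nil : Nil (quo (Phi W) W ⊔ quo (Phi W) X) := by
      refine thom (D := quo (Phi W) D) (by rwa [H4.card_quo_of_cop dP cP])
        (norms_sup (quo_norms dW) (quo_norms nX)) ?_
      rw [sup_inf_cent_of_disjoint (quo_norms dW) (quo_norms nX) (quo_norms nW)
        (inf_eq_bot_of_cop (cop_quo cW _)), e1, e2, sup_idem]
    exact (quo_cents_iff wP nP).1 (nil_cents nil le_sup_left le_sup_right (cop_quo cW _))
  · have oX : Odd #X := by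
      obtain ⟨k, hk⟩ := hq.exists_card
      rw [hk]; exact (pq.odd_of_ne_two q2).pow
    refine (commutator_mono le_rfl (hX.trans (commutator_comm X D).le)).trans ?_
    exact H4.abelem_quo_cent1 hq.sol nX oX (hD ▸ hr.odd_of_ne_two r2) (cX.coprime' pD) hD' pp
      (H4.Phi_normal _) (H4.abelem_quo_Phi pW) nW dW (H4.norms_Phi nW) (H4.norms_Phi dW)
      (hq.sing_ne ne.symm) (H4.pi'_of_cop_of_ne_bot pW w0 cWD)
      (H4.cop_mono cWD (H4.Phi_le _) le_rfl) hP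

namespace Hyp
variable (h : Hyp r G A)
include h

theorem Sh (hX : Inv G A X) (hY : Inv G A Y) (hq : PG q X) (hp : PG p Y) (ne : p ≠ q)
    (hn : X ≤ N(Y)) (hD : El r 1 D A) (x1 : X ≤ ⁅X, A⁆) (x2 : X ⊓ C(D) ≤ C(A))
    (hc : Y ⊓ C(D) ≤ C(X)) : X ≤ C(Y) :=
  Sh0 h.pr h.odd hD.card1 hq hp ne (h.cop.of_le hX.le) (h.cop.of_le hY.le) (hD.le.trans hX.nm)
    (hD.le.trans hY.nm) hn (x1.trans (h.comm_le_line hX hD.le x2))
    (fun e => bm (le_inf inf_le_left x2) (h.two_cent hX.le (e ▸ hq))) hc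

theorem Sh' (hX : Inv G A X) (hY : Inv G A Y) (hq : PG q X) (hp : PG p Y) (ne : p ≠ q)
    (hn : X ≤ N(Y)) (hD : El r 1 D A) (x1 : X ≤ ⁅X, A⁆) (x2 : X ⊓ C(D) ≤ C(A))
    (hc : Y ⊓ C(D) ≤ C(A)) : X ≤ C(Y) :=
  h.Sh hX hY hq hp ne hn hD x1 x2 ((le_inf inf_le_left hc).trans (h.L0 hX hY hq hp ne hn))

theorem Lgen0 (hs : Sol G) (hX : Inv G A X) (hq : PG q X) (x1 : X ≤ ⁅X, A⁆)
    (hp : ∀ p, p.Prime → p ≠ q → ∃ D, El r 1 D A ∧ S G A p ⊓ C(D) ≤ C(A) ∧ X ⊓ C(D) ≤ C(A)) :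
    X ≤ Oc {q} G := by
  set N := Oc {q} G
  have hN : N ⊴ G := Oc_normal _ _
  have hA : A ≤ N(N) := norms_Oc _ h.nm
  have h' := h.quo hN hA
  have xN := hX.le.trans hN.norm
  have key : H19.quo N X ≤ C(Fit (H19.quo N G)) := by
    refine cents_symm (Fit_le_of_Oc fun p pp => ?_)
    by_cases e : p = q
    · rw [e, Oc_quo_Oc]; exact bot_le
    obtain ⟨D, hD, d1, d2⟩ := hp p pp e
    have iV := h'.top.Oc {p}
    refine cents_symm (h'.Sh' (hX.quo N) iV (hq.quo N) (Oc_pi _ _) e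
      ((quo_mono N hX.le).trans (Oc_norm _ _))
      (hD.quo (hD.le.trans hA) (inf_eq_bot_of_cop (h.cp hN.le hD.le))) ?_
      (h.quo_cent hN.le hA hX.nm hD.le d2) ?_)
    · rw [← quo_comm xN hA]; exact quo_mono N x1
    · exact (inf_le_inf_right _ (h.quo_le_S hN hA iV (Oc_pi _ _))).trans
        (h.quo_cent hN.le hA (h.S_inv p).nm hD.le d1)
  have := (hq.quo N).le_Oc_of_le_Fit
    ((le_inf (quo_mono N hX.le) key).trans (cent_Fit_le (sol_quo hs N)))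
  rw [Oc_quo_Oc, le_bot_iff] at this
  exact (quo_eq_bot_iff xN).1 this

theorem Lgen (hK : Inv G A K) (hs : Sol K) (hX : Inv K A X) (hq : PG q X) (x1 : X ≤ ⁅X, A⁆)
    (hp : ∀ p, p.Prime → p ≠ q → ∃ D, El r 1 D A ∧ K ⊓ S G A p ⊓ C(D) ≤ C(A) ∧ X ⊓ C(D) ≤ C(A)) :
    X ≤ Oc {q} K :=
  (h.sub hK).Lgen0 hs hX hq x1 fun p a b => h.S_sub hK p ▸ hp p a b

/-- if some line of `A` has the same fixed points in `K` as `A`, then `[K_q, A] ≤ O_q(K)` -/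
theorem L1 (hK : Inv G A K) (hs : Sol K) (hD : El r 1 D A) (hc : K ⊓ C(D) ≤ C(A))
    (hX : Inv K A X) (hq : PG q X) : ⁅X, A⁆ ≤ Oc {q} K :=
  h.Lgen hK hs ((h.sub hK).invc hX le_rfl) (hq.of_le (commg_le_left hX.nm))
    ((h.sub hK).cc hX le_rfl).ge fun p _ _ => ⟨D, hD,
      (inf_le_inf_right _ inf_le_left).trans hc,
      (inf_le_inf_right _ ((h.sub hK).invc hX le_rfl).le).trans hc⟩

end Hyp

end H13.Pt
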