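import Cfsg.Agent.H13.Pt1
import Cfsg.Agent.H19.Amb6

/-! Operator groups of rank two: generation lemmas and the key commutator lemma. -/

set_option autoImplicit false
set_option linter.unusedSectionVars false

namespace H13.Pt
open Cfsg Subgroup H19
open scoped commutatorElement

universe u
variable {Γ : Type u} [Group Γ] [Finite Γ] {r p q : ℕ} {π : Set ℕ}
  {G A B K L X Y D E F V W N R U : Subgroup Γ}

theorem norms_sSup {s : Set (Subgroup Γ)} (h : ∀ X ∈ s, B ≤ N(X)) : B ≤ N(sSup s) := fun g hg =>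
  mem_norm_of_cj_le (cj_le_iff.2 (sSup_le fun X hX => cj_le_iff.1
    ((cj_of_mem_norm (h X hX hg)).le.trans (le_sSup hX))))

/-- `[C_X(D), A]` -/
abbrev dd (A X D : Subgroup Γ) : Subgroup Γ := ⁅X ⊓ C(D), A⁆

theorem dd_mono (h : X ≤ Y) (D : Subgroup Γ) : dd A X D ≤ dd A Y D :=
  commutator_mono (inf_le_inf_right _ h) le_rfl

theorem dd_bot : dd A X D = ⊥ ↔ X ⊓ C(D) ≤ C(A) := commg_eq_bot

/-- the elements acting trivially on `Y / U` -/
def St (U Y : Subgroup Γ) : Subgroup Γ := qpre U C(quo U Y)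

theorem le_St (h : U ⊴ Y) : X ≤ St U Y ↔ ⁅Y, X⁆ ≤ U := by
  constructor
  · intro l
    have n := l.trans (qpre_le_norm _)
    exact (quo_cents_iff h.norm n).1 (cents_symm ((quo_le_iff n).2 l))
  · intro l
    have n : X ≤ N(U) := norms_of_commg_le ((commutator_mono h.le le_rfl).trans l)
    exact (quo_le_iff n).1 (cents_symm ((quo_cents_iff h.norm n).2 l))

structure H2 (r : ℕ) (G A : Subgroup Γ) : Prop extends Hyp r G A where
  rk : El r 2 A A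

theorem exists_line4 (hA : El r 2 A A) (r2 : r ≠ 2) (hD : El r 1 D A) (hE : El r 1 E A)
    (hF : El r 1 F A) : ∃ K, El r 1 K A ∧ K ≠ D ∧ K ≠ E ∧ K ≠ F := by
  by_contra hc
  push Not at hc
  have cov : (A : Set Γ) \ {1} ⊆ ((D : Set Γ) \ {1}) ∪ ((E : Set Γ) \ {1}) ∪ ((F : Set Γ) \ {1}) := by
    rintro x ⟨hx, x1⟩
    have hK := el1_zpowers' hA.prime hx (hA.ab.2 x hx) x1
    have m := mem_zpowers x
    by_cases a : zpowers x = D
    · exact Or.inl (Or.inl ⟨a ▸ m, x1⟩)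
    by_cases b : zpowers x = E
    · exact Or.inl (Or.inr ⟨b ▸ m, x1⟩)
    exact Or.inr ⟨hc _ hK a b ▸ m, x1⟩
  have c : ∀ X : Subgroup Γ, ((X : Set Γ) \ {1}).ncard + 1 = #X := fun X => by
    rw [Set.ncard_sdiff_singleton_add_one (one_mem X)]; rfl
  have l := (Set.ncard_le_ncard cov).trans ((Set.ncard_union_le _ _).trans
    (Nat.add_le_add_right (Set.ncard_union_le _ _) _))
  have := c A; have := c D; have := c E; have := c F
  have := hA.card; have := hD.card1; have := hE.card1; have := hF.card1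
  have h3 : 3 ≤ r := by have := hA.prime.two_le; omega
  nlinarith

namespace Hyp
variable (h : Hyp r G A)
include h

theorem invC (hX : Inv G A X) (hD : D ≤ A) : Inv G A (X ⊓ C(D)) := hX.cent (h.nA hD)
theorem invd (hX : Inv G A X) (hD : D ≤ A) : Inv G A (dd A X D) := h.invc (h.invC hX hD) le_rfl
theorem dd_le (hX : Inv G A X) (hD : D ≤ A) : dd A X D ≤ X ⊓ C(D) := commg_le_left (h.invC hX hD).nm
theorem dd_le1 (hX : Inv G A X) (hD : D ≤ A) : dd A X D ≤ X := (h.dd_le hX hD).trans inf_le_left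
theorem dd_le2 (hX : Inv G A X) (hD : D ≤ A) : dd A X D ≤ C(D) := (h.dd_le hX hD).trans inf_le_right
theorem dd_cc (hX : Inv G A X) (hD : D ≤ A) : dd A X D ≤ ⁅dd A X D, A⁆ := (h.cc (h.invC hX hD) le_rfl).ge
theorem dd_pg (hX : Inv G A X) (hD : D ≤ A) (hp : PiG π X) : PiG π (dd A X D) := hp.of_le (h.dd_le1 hX hD)

theorem L3 (hV : Inv G A V) (hY : Inv G A Y) (pV : PG p V) (pY : PG q Y) (ne : p ≠ q)
    (hn : Y ≤ N(V)) : ⁅V, Y⁆ ≤ ⁅V, A⁆ := by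
  have iW : Inv G A ⁅V, Y⁆ := hV.comm hY
  have lW : ⁅V, Y⁆ ≤ V := commg_le_left hn
  have c : (#V).Coprime #Y := (pV.sing_ne ne).coprime' pY
  have e := cent_le_Phi (pV.of_le lW) (commg_normr V Y) (H4.cop_mono c lW le_rfl) (commg_commg hn c).ge
  have := H1.eq_of_sup_of_le_frattiniOf (commg_le_left iW.nm) (le_refl (Phi ⁅V, Y⁆))
    ((h.sup_cent iW le_rfl).ge.trans (sup_le_sup_left ((le_inf inf_le_left
      ((inf_le_inf_right _ lW).trans (h.L0 hY hV pY pV ne hn))).trans e) _))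
  exact this.ge.trans (commutator_mono lW le_rfl)

end Hyp

namespace H2
variable (h : H2 r G A)
include h

theorem sub (hK : Inv G A K) : H2 r K A := ⟨h.toHyp.sub hK, h.rk⟩

theorem quo (hN : N ⊴ G) (hA : A ≤ N(N)) : H2 r (quo N G) (quo N A) :=
  ⟨h.toHyp.quo hN hA, h.rk.quo hA (inf_eq_bot_of_cop (h.cp hN.le le_rfl))⟩

theorem cA2 (hD : El r 1 D A) (hE : El r 1 E A) (ne : D ≠ E) : C(D) ⊓ C(E) ≤ C(A) := by
  rw [← h.rk.sup_eq hD hE ne, cent_sup]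

theorem cA3 (hD : El r 1 D A) (hE : El r 1 E A) (ne : D ≠ E) (hX : X ≤ C(D)) : X ⊓ C(E) ≤ C(A) :=
  (inf_le_inf_right _ hX).trans (h.cA2 hD hE ne)

theorem ex1 (hD : El r 1 D A) : ∃ K, El r 1 K A ∧ K ≠ D := h.rk.exists_el1_ne hD

theorem ex0 : ∃ K, El r 1 K A := h.rk.exists_sub (by norm_num)

theorem gen0 (hX : Inv G A X) (h1 : ∀ D, El r 1 D A → dd A X D ≤ L) (h2 : X ⊓ C(A) ≤ L) : X ≤ L :=
  h.rk.le_of_cent_le hX.nm (h.cop.of_le hX.le) fun D hD =>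
    (h.sup_cent (h.invC hX hD.le) le_rfl).ge.trans
      (sup_le (h1 D hD) ((inf_le_inf_right _ inf_le_left).trans h2))

theorem gen1 (hX : Inv G A X) (hN : A ≤ N(N)) (hXN : X ≤ N(N))
    (h1 : ∀ D, El r 1 D A → dd A X D ≤ N) : ⁅X, A⁆ ≤ N :=
  h.comm_le hN hXN le_rfl (h.gen0 hX (fun D hD => (h1 D hD).trans le_sup_left) le_sup_right)

theorem gen2 (hX : Inv G A X) (hN : A ≤ N(N)) (hXN : X ≤ N(N)) (hE : El r 1 E A)
    (h1 : ∀ D, El r 1 D A → D ≠ E → dd A X D ≤ N) : ⁅X, E⁆ ≤ N := by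
  refine h.comm_le hN hXN hE.le (h.gen0 hX (fun D hD => ?_)
    ((inf_le_inf_left _ (cent_mono hE.le)).trans le_sup_right))
  by_cases e : D = E
  · subst e; exact (h.dd_le hX hD.le).trans le_sup_right
  · exact (h1 D hD e).trans le_sup_left

theorem gen3 (hX : Inv G A X) (hn : ∀ D, El r 1 D A → X ≤ N(dd A X D)) (hE : El r 1 E A)
    (h1 : ∀ D, El r 1 D A → D ≠ E → dd A X D ≤ L) : ⁅X, E⁆ ≤ L :=
  (h.gen2 (N := sSup {Y | Y ≤ L ∧ A ≤ N(Y) ∧ X ≤ N(Y)}) hX (norms_sSup fun _ a => a.2.1)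
    (norms_sSup fun _ a => a.2.2) hE fun D hD ne =>
      le_sSup ⟨h1 D hD ne, (h.invd hX hD.le).nm, hn D hD⟩).trans (sSup_le fun _ a => a.1)

theorem L1' (hK : Inv G A K) (hs : Sol K) (hE : El r 1 E A) (hc : K ≤ C(E))
    (hX : Inv K A X) (hq : PG q X) : ⁅X, A⁆ ≤ Oc {q} K := by
  obtain ⟨D, hD, ne⟩ := h.ex1 hE
  exact h.L1 hK hs hD (h.cA3 hE hD ne.symm hc) hX hq

theorem dd_Oc (hE : El r 1 E A) (hs : Sol (G ⊓ C(E))) (hX : Inv G A X) (hq : PG q X) :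
    dd A X E ≤ Oc {q} (G ⊓ C(E)) :=
  h.L1' (h.invC h.top hE.le) hs hE inf_le_right
    ((h.invC hX hE.le).to (inf_le_inf_right _ hX.le)) (hq.infl _)

theorem dd_dd (hE : El r 1 E A) (hs : Sol (G ⊓ C(E))) (hX : Inv G A X) (hY : Inv G A Y)
    (hp : PG p X) (hq : PG q Y) (ne : p ≠ q) : dd A X E ≤ C(dd A Y E) :=
  cents_mono (Oc_cents (Oc_normal {q} _) ((Oc_pi _ _).sing_ne ne.symm)) (h.dd_Oc hE hs hX hp)
    (h.dd_Oc hE hs hY hq)

/-- `C_Y(E)` centralises a subgroup of `C(E)` of the form `[X, A]` normalising `Y` -/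
theorem cent_of_norm (hE : El r 1 E A) (hs : Sol (G ⊓ C(E))) (hX : Inv G A X) (hY : Inv G A Y)
    (hp : PG p X) (hq : PG q Y) (ne : p ≠ q) (x1 : X ≤ ⁅X, A⁆) (x2 : X ≤ C(E)) (hn : X ≤ N(Y)) :
    Y ⊓ C(E) ≤ C(X) := by
  have l : X ≤ Oc {p} (G ⊓ C(E)) :=
    x1.trans ((commutator_mono (le_inf le_rfl x2) le_rfl).trans (h.dd_Oc hE hs hX hp))
  refine commg_eq_bot.1 (bm (le_inf ?_ ?_) (((Oc_pi {p} (G ⊓ C(E))).sing_ne ne).inf_eq_bot' hq))
  · exact (commutator_mono (inf_le_inf_right _ hY.le) l).trans (commg_le_right (Oc_norm _ _))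
  · exact (commutator_mono inf_le_left le_rfl).trans (commg_le_left hn)

theorem L4 (hK : Inv G A K) (hs : Sol K) (hE : El r 1 E A) (hK2 : PiG {p, q} K)
    (hc : K ⊓ S G A p ⊓ C(E) ≤ C(A)) (hX : Inv K A X) (hq : PG q X) : ⁅X, E⁆ ≤ Oc {q} K := by
  have h' := h.sub hK
  refine h'.gen2 hX (norms_Oc _ hK.nm) (hX.le.trans (Oc_norm _ _)) hE fun D hD ne => ?_
  refine h.Lgen hK hs (h'.invd hX hD.le) (h'.dd_pg hX hD.le hq) (h'.dd_cc hX hD.le) fun s ps sq =>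
    ⟨E, hE, ?_, h.cA3 hD hE ne (h'.dd_le2 hX hD.le)⟩
  by_cases e : s = p
  · exact e ▸ hc
  · rw [((h.S_pg s).infr K).eq_bot ((hK2.infl _).compl_sing (by simp [e, sq])), bot_inf_eq]
    exact bot_le

theorem lemN (aV : Ab V) (hV : Inv G A V) (hX : Inv G A X) (hY : Inv G A Y) (pV : PG p V)
    (pX : PG q X) (pY : PG q Y) (ne : p ≠ q) (nX : X ≤ N(V)) (nY : Y ≤ N(V)) (c : Y ≤ C(X))
    (hD : El r 1 D A) (hE : El r 1 E A) (de : D ≠ E) (vD : V ⊓ C(D) ≤ C(X)) (y1 : Y ≤ ⁅Y, A⁆)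
    (y2 : Y ≤ C(E)) : Y ≤ C(⁅V, X⁆) := by
  have lW : ⁅V, X⁆ ≤ V := commg_le_left nX
  refine h.Sh hY (hV.comm hX) pY (pV.of_le lW) ne (norms_comm nY (norms_of_cents c)) hD y1
    (h.cA3 hE hD de.symm y2) ?_
  refine (le_inf inf_le_left ((inf_le_inf_right _ lW).trans vD)).trans ?_
  rw [ab_commg_inf_cent aV nX ((pV.sing_ne ne).coprime' pX)]
  exact bot_le

end H2

/-- the minimal configuration of Lemma M -/
structure MC (r p q : ℕ) (G A V Y R E : Subgroup Γ) : Prop extends H2 r G A where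
  sG : Sol G
  iV : Inv G A V
  iY : Inv G A Y
  iR : Inv G A R
  pV : PG p V
  pR : PG p R
  pY : PG q Y
  ne : p ≠ q
  yV : Y ≤ N(V)
  rV : R ≤ N(V)
  rY : R ≤ N(Y)
  hE : El r 1 E A
  rE : R ≤ C(E)
  rA : R ≤ ⁅R, A⁆

structure MC' (r p q : ℕ) (G A V Y R E : Subgroup Γ) : Prop extends MC r p q G A V Y R E where
  aV : Ab V
  vY : V ≤ ⁅V, Y⁆
  fa : Y ⊓ C(V) = ⊥
  yR : Y ≤ ⁅Y, R⁆
  ih : ∀ X, X < Y → A ≤ N(X) → R ≤ N(X) → X ≤ C(R)

namespace MC'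
variable (h : MC' r p q G A V Y R E)
include h

theorem sC (D : Subgroup Γ) : Sol (G ⊓ C(D)) := sol_mono h.sG inf_le_left

theorem v0 : V ⊓ C(Y) = ⊥ :=
  bm (inf_le_inf_right _ h.vY) (ab_commg_inf_cent h.aV h.yV ((h.pV.sing_ne h.ne).coprime' h.pY))

theorem yE : Y ≤ ⁅Y, E⁆ := by
  have c := h.cent_of_norm h.hE (h.sC E) h.iR h.iY h.pR h.pY h.ne h.rA h.rE h.rY
  have n : R ≤ N(⁅Y, E⁆) := norms_comm h.rY (norms_of_cents h.rE)
  refine h.yR.trans ((commutator_mono (h.sup_cent h.iY h.hE.le).ge le_rfl).trans ?_)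
  exact commg_sup_left_le (commg_le_left n) ((commg_eq_bot.2 c).le.trans bot_le) le_normalizer
    (inf_le_left.trans (commg_norml _ _))

theorem K1 (hU : U ⊴ Y) (hD : El r 1 D A) (hc : ∀ ρ ∈ R, ⁅Y, cj ρ D⁆ ≤ U) : Y ≤ U := by
  have h1 : ⁅Y, D⁆ ≤ U := by simpa using hc 1 (one_mem _)
  by_cases e : D = E
  · exact h.yE.trans (e ▸ h1)
  refine h.yR.trans ((le_St hU).1 (h.rA.trans ((h.comm_le_line h.iR hD.le
    (h.cA3 h.hE hD (Ne.symm e) h.rE)).trans (commutator_le.2 fun ρ hρ d hd => ?_))))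
  rw [commutatorElement_def]
  exact mul_mem ((le_St hU).2 (hc ρ hρ) (conj_mem_cj.2 hd)) (inv_mem ((le_St hU).2 h1 hd))

theorem K1' (hU : U ⊴ Y) (hR : R ≤ N(U)) (hD : El r 1 D A) (hc : ⁅Y, D⁆ ≤ U) : Y ≤ U :=
  h.K1 hU hD fun ρ hρ => by
    have := cj_mono ρ hc
    rwa [cj_comm, cj_of_mem_norm (h.rY hρ), cj_of_mem_norm (hR hρ)] at this

theorem vD (hX : Inv G A X) (l : X ≤ Y) (hD : El r 1 D A) : V ⊓ C(D) ≤ C(dd A X D) :=
  h.cent_of_norm hD (h.sC D) (h.invd hX hD.le) h.iV (h.dd_pg hX hD.le (h.pY.of_le l)) h.pV h.ne.symm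
    (h.dd_cc hX hD.le) (h.dd_le2 hX hD.le) ((h.dd_le1 hX hD.le).trans (l.trans h.yV))

theorem N1 (hX : Inv G A X) (l : X ≤ Y) (hD : El r 1 D A) (hF : El r 1 F A) (ne : D ≠ F)
    (c : dd A Y F ≤ C(dd A X D)) : dd A Y F ≤ C(⁅V, dd A X D⁆) :=
  h.lemN h.aV h.iV (h.invd hX hD.le) (h.invd h.iY hF.le) h.pV (h.dd_pg hX hD.le (h.pY.of_le l))
    (h.dd_pg h.iY hF.le h.pY) h.ne ((h.dd_le1 hX hD.le).trans (l.trans h.yV))
    ((h.dd_le1 h.iY hF.le).trans h.yV) c hD hF ne (h.vD hX l hD) (h.dd_cc h.iY hF.le)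
    (h.dd_le2 h.iY hF.le)

theorem zA (na : ¬ Ab Y) : Z(Y) ≤ C(A) := by
  have iZ : Inv G A Z(Y) := h.iY.cent h.iY.nm
  have zR : Z(Y) ≤ C(R) := h.ih _ (lt_of_le_of_ne inf_le_left fun e =>
    na (comm_iff_le_cent.2 (e.ge.trans inf_le_right))) iZ.nm (norms_inf h.rY (norms_cent h.rY))
  refine commg_eq_bot.1 (le_bot_iff.1 (h.gen1 iZ (NormalIn.bot _).norm (NormalIn.bot _).norm fun D hD => ?_))
  have l := h.dd_le1 iZ hD.le
  have i0 := h.invd iZ hD.le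
  have yW : Y ≤ N(⁅V, dd A Z(Y) D⁆) :=
    norms_comm h.yV (norms_of_cents (cents_symm (l.trans inf_le_right)))
  have rW : R ≤ N(⁅V, dd A Z(Y) D⁆) := norms_comm h.rV (norms_of_cents (cents_symm (l.trans zR)))
  have := h.K1' (inf_cent_normal yW) (norms_inf h.rY (norms_cent rW)) hD
    (h.gen2 h.iY (h.iY.cent (h.iV.comm i0).nm).nm (inf_cent_normal yW).norm hD fun F hF ne =>
      le_inf (h.dd_le1 h.iY hF.le) (h.N1 iZ inf_le_left hD hF ne.symm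
        (cents_mono (cents_symm (inf_le_right : Z(Y) ≤ C(Y))) (h.dd_le1 h.iY hF.le) l)))
  have w0 := bm (le_inf (commg_le_left ((l.trans inf_le_left).trans h.yV))
    (cents_symm (this.trans inf_le_right))) h.v0
  exact (le_inf (l.trans inf_le_left) (cents_symm (commg_eq_bot.1 w0))).trans h.fa.le

theorem ddc (hD : El r 1 D A) (hF : El r 1 F A) (ne : D ≠ F) : dd A Y D ≤ C(dd A Y F) := by
  by_cases na : Ab Y
  · exact cents_of_comm na (h.dd_le1 h.iY hD.le) (h.dd_le1 h.iY hF.le)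
  have dR : ⁅Y, Y⁆ ≤ C(R) := h.ih _ (sol_der_lt h.pY.sol fun e => na (e ▸ comm_bot))
    (norms_der h.iY.nm) (norms_der h.rY)
  have dZ : ⁅Y, Y⁆ ≤ C(Y) := by
    refine cents_symm (h.yR.trans (commg_eq_bot.1 (three_subgroup ?_ ?_)))
    · rw [commg_eq_bot.2 (cents_symm dR), commutator_bot_left]
    · exact commg_eq_bot.2 ((commg_le_left (norms_der le_normalizer)).trans dR)
  have dA := (le_inf (der_le Y) dZ).trans (h.zA na)
  refine (h.comm_le_line (h.invC h.iY hD.le) hF.le (h.cA3 hD hF ne inf_le_right)).trans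
    (commg_eq_bot.1 (three_subgroup ?_ ?_))
  · rw [commg_eq_bot.2 (cents_symm (h.dd_le2 h.iY hF.le)), commutator_bot_left]
  · exact commg_eq_bot.2 ((commutator_mono (h.dd_le1 h.iY hF.le) inf_le_left).trans
      (dA.trans (cent_mono hF.le)))

theorem ddn (hD : El r 1 D A) : Y ≤ N(dd A Y D) := by
  refine h.gen0 h.iY (fun F hF => ?_) (norms_comm (norms_inf (norms_of_le inf_le_left)
    (norms_cent (norms_of_cents (inf_le_right.trans (cent_mono hD.le))))) (norms_of_cents inf_le_right))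
  by_cases e : F = D
  · exact e ▸ le_normalizer
  · exact norms_of_cents (h.ddc hF hD e)

theorem mx (hU : U ⊴ Y) (u1 : V ⊓ C(U) ≠ ⊥) (m : ∀ W, W ⊴ Y → V ⊓ C(W) ≠ ⊥ → #W ≤ #U) :
    ∃ D, El r 1 D A ∧ D ≠ E ∧ ⁅Y, D⁆ ≤ U := by
  have : ∃ D, El r 1 D A ∧ D ≠ E ∧ ¬ dd A Y D ≤ C(V ⊓ C(U)) := by
    by_contra hc
    push Not at hc
    exact u1 (bm (le_inf inf_le_left (cents_symm (h.yE.trans (h.gen3 h.iY (fun _ => h.ddn) h.hE hc))))
      h.v0)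
  obtain ⟨D, hD, ne, nc⟩ := this
  refine ⟨D, hD, ne, h.gen3 h.iY (fun _ => h.ddn) hD fun F hF fd => ?_⟩
  have yU : Y ≤ N(V ⊓ C(U)) := norms_inf h.yV (norms_cent hU.norm)
  have yW := norms_comm yU (h.ddn hD)
  have lW : ⁅V ⊓ C(U), dd A Y D⁆ ≤ V ⊓ C(U) := commg_le_left ((h.dd_le1 h.iY hD.le).trans yU)
  have e : U = Y ⊓ C(⁅V ⊓ C(U), dd A Y D⁆) := by
    have l : U ≤ Y ⊓ C(⁅V ⊓ C(U), dd A Y D⁆) := le_inf hU.le (cents_symm (lW.trans inf_le_right))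
    refine eq_of_le_of_card_eq l (le_antisymm (card_le l) (m _ (inf_cent_normal yW) ?_))
    exact nbm (le_inf (lW.trans inf_le_left) (cents_symm inf_le_right))
      fun e => nc (cents_symm (commg_eq_bot.1 e))
  rw [e]
  exact le_inf (h.dd_le1 h.iY hF.le) ((h.N1 h.iY le_rfl hD hF fd.symm (h.ddc hF hD fd)).trans
    (cent_mono (commutator_mono inf_le_left le_rfl)))

theorem core : V = ⊥ := by
  by_contra v1
  obtain ⟨U, ⟨hU, u1⟩, m⟩ := Set.exists_max_image {U : Subgroup Γ | U ⊴ Y ∧ V ⊓ C(U) ≠ ⊥}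
    (fun U => #U) (Set.toFinite _) ⟨⊥, NormalIn.bot _, by simpa using v1⟩
  have ny : ∀ W, V ⊓ C(W) ≠ ⊥ → ¬ Y ≤ W := fun W w l =>
    w (bm (inf_le_inf_left _ (cent_mono l)) h.v0)
  obtain ⟨D, hD, de, hc⟩ := h.mx hU u1 fun W a b => m W ⟨a, b⟩
  refine ny U u1 (h.K1 hU hD fun ρ hρ => ?_)
  have yρ := cj_of_mem_norm (h.rY (inv_mem hρ))
  have hU' : cj ρ⁻¹ U ⊴ Y := yρ ▸ hU.J ρ⁻¹
  have u1' : V ⊓ C(cj ρ⁻¹ U) ≠ ⊥ := by
    rw [← cj_of_mem_norm (h.rV (inv_mem hρ)), ← cj_cent, ← cj_inf]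
    simpa using u1
  obtain ⟨F, hF, fe, hc'⟩ := h.mx hU' u1' fun W a b => by simpa using m W ⟨a, b⟩
  suffices s : F = D by
    have := cj_mono ρ (s ▸ hc')
    rwa [cj_comm, cj_of_mem_norm (h.rY hρ), cj_cj, mul_inv_cancel, cj_one] at this
  by_contra fd
  have c2 : cj ρ⁻¹ D ≤ St (cj ρ⁻¹ U) Y := (le_St hU').2 (by
    have := cj_mono ρ⁻¹ hc
    rwa [cj_comm, yρ] at this)
  have n2 : cj ρ⁻¹ D ≤ N(R) := cj_le_of_mem (le_normalizer (inv_mem hρ)) (hD.le.trans h.iR.nm)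
  have aT : A ≤ R ⊔ (St (cj ρ⁻¹ U) Y ⊓ N(R)) := by
    rw [← h.rk.sup_eq hF hD fd]
    refine sup_le ((le_inf ((le_St hU').2 hc') (hF.le.trans h.iR.nm)).trans le_sup_right) ?_
    have := cj_le_of_mem (mem_sup_left hρ) ((le_inf c2 n2).trans
      (le_sup_right : _ ≤ R ⊔ (St (cj ρ⁻¹ U) Y ⊓ N(R))))
    rwa [cj_cj, mul_inv_cancel, cj_one] at this
  refine ny _ u1' (h.yE.trans ((le_St hU').1 fun a ha => ?_))
  obtain ⟨σ, hσ, t, ht, e⟩ := (mem_sup_of_norm inf_le_right).1 (aT (h.hE.le ha))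
  have cm : a * σ⁻¹ = σ⁻¹ * a := mem_cent.1 (h.rE (inv_mem hσ)) a ha
  have e2 : t = a * σ⁻¹ := by rw [cm, e, inv_mul_cancel_left]
  have := constt_mem {r} ht.1
  rwa [e2, constt_eq (h.hE.pg.elt ha) ((h.cop.of_le h.iR.le).elt (inv_mem hσ)) cm] at this

end MC'

theorem MC.main : ∀ (n : ℕ) {Γ : Type u} [Group Γ] [Finite Γ] {G A V Y R E : Subgroup Γ},
    MC r p q G A V Y R E → #V + #Y = n → ⁅Y, R⁆ ≤ C(V) := by
  intro n
  induction n using Nat.strong_induction_on with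
  | _ n ih =>
  intro Γ _ _ G A V Y R E h hn
  have cY : (#Y).Coprime #R := (h.pY.sing_ne h.ne.symm).coprime' h.pR
  have cV : (#V).Coprime #Y := (h.pV.sing_ne h.ne).coprime' h.pY
  have sY : ∀ X, X < Y → A ≤ N(X) → R ≤ N(X) → ⁅X, R⁆ ≤ C(V) := fun X l a b =>
    ih _ (hn ▸ Nat.add_lt_add_left (card_lt l) _) { h with
      iY := ⟨l.le.trans h.iY.le, a⟩, pY := h.pY.of_le l.le, yV := l.le.trans h.yV, rY := b } rfl
  have lY : ⁅Y, R⁆ ≤ Y := commg_le_left h.rY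
  by_cases yR : Y ≤ ⁅Y, R⁆
  swap
  · rw [← commg_commg h.rY cY]
    exact sY _ (lt_of_le_of_ne lY fun e => yR e.ge) (h.iY.comm h.iR).nm (commg_normr _ _)
  refine lY.trans ?_
  have lV : ⁅V, Y⁆ ≤ V := commg_le_left h.yV
  by_cases vY : V ≤ ⁅V, Y⁆
  swap
  · have := ih _ (hn ▸ Nat.add_lt_add_right (card_lt (lt_of_le_of_ne lV fun e => vY e.ge)) _)
      { h with
        iV := h.iV.comm h.iY, pV := h.pV.of_le lV, yV := commg_normr _ _,
        rV := norms_comm h.rV h.rY } rfl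
    refine cents_symm (commg_eq_bot.1 ?_)
    rw [← commg_commg h.yV cV]
    exact commg_eq_bot.2 (cents_symm (yR.trans this))
  have qu : ∀ N : Subgroup Γ, N ≠ ⊥ → (N ≤ V ∨ N ≤ Y) → A ≤ N(N) → V ≤ N(N) → Y ≤ N(N) →
      R ≤ N(N) → ⁅V, Y⁆ ≤ N := by
    intro N n1 nl nA nV nY nR
    have iL : Inv G A (V ⊔ Y ⊔ R) := (h.iV.sup h.iY).sup h.iR
    have lV : V ≤ V ⊔ Y ⊔ R := le_sup_left.trans le_sup_left
    have lY : Y ≤ V ⊔ Y ⊔ R := le_sup_right.trans le_sup_left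
    have hN : N ⊴ V ⊔ Y ⊔ R := ⟨nl.elim (·.trans lV) (·.trans lY), sup_le (sup_le nV nY) nR⟩
    have lt : ∀ X : Subgroup Γ, X ≤ N(N) → N ≤ X → #(quo N X) < #X := fun X a b => by
      rw [card_quo a, ← card_mul_relIndex b]
      exact (Nat.lt_mul_iff_one_lt_left (relIndex_pos _ _)).2 (ne_bot_iff_one_lt_card.1 n1)
    have le : ∀ X : Subgroup Γ, #(quo N X) ≤ #X := fun X => Nat.le_of_dvd (card_pos _) (card_quo_dvd _ _)
    have := ih (#(quo N V) + #(quo N Y)) (hn ▸ nl.elim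
      (fun l => Nat.add_lt_add_of_lt_of_le (lt V nV l) (le Y))
      (fun l => Nat.add_lt_add_of_le_of_lt (le V) (lt Y nY l)))
      (G := quo N (V ⊔ Y ⊔ R)) (A := quo N A) (R := quo N R) (E := quo N E)
      ⟨(h.toH2.sub iL).quo hN nA, sol_quo (sol_mono h.sG iL.le) N, (h.iV.to lV).quo N,
        (h.iY.to lY).quo N, (h.iR.to le_sup_right).quo N, h.pV.quo N, h.pR.quo N, h.pY.quo N, h.ne,
        quo_norms h.yV, quo_norms h.rV, quo_norms h.rY,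
        h.hE.quo (h.hE.le.trans nA) (inf_eq_bot_of_cop (h.cp (hN.le.trans iL.le) h.hE.le)),
        quo_cents h.rE, by rw [← quo_comm nR nA]; exact quo_mono N h.rA⟩ rfl
    rw [← quo_comm nY nR] at this
    exact (quo_cents_iff nV nY).1 (cents_symm ((quo_mono N yR).trans this))
  by_cases p1 : Phi V = ⊥
  swap
  · exact H18.coprime_cent_Phi cV (qu _ p1 (Or.inl (H4.Phi_le _)) (H4.norms_Phi h.iV.nm)
      (H4.Phi_normal _).norm (H4.norms_Phi h.yV) (H4.norms_Phi h.rV))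
  by_cases fa : Y ⊓ C(V) = ⊥
  swap
  · have := qu _ fa (Or.inr inf_le_left) (h.iY.cent h.iV.nm).nm
      (norms_of_cents (cents_symm inf_le_right)) (inf_cent_normal h.yV).norm
      (norms_inf h.rY (norms_cent h.rV))
    exact cents_symm (commg_eq_bot.1 (bm (le_inf lV (this.trans inf_le_left)) (inf_eq_bot_of_cop cV)))
  rw [MC'.core ⟨h, (H4.abelem_of_Phi_eq_bot h.pV p1).1, vY, fa, yR, fun X l a b => commg_eq_bot.1
    (bm (le_inf ((commg_le_left b).trans l.le) (sY X l a b)) fa)⟩]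
  simp

end H13.Pt
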