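import Cfsg.Agent.H13.Pt2
import Cfsg.Agent.H2.Factor
import Cfsg.Agent.S0144

/-! Invariant `{p, q}`-subgroups. -/

set_option autoImplicit false
set_option linter.unusedSectionVars false

namespace H13.Pt
open Cfsg Subgroup H19
open scoped commutatorElement

universe u
variable {Γ : Type u} [Group Γ] [Finite Γ] {r p q s : ℕ} {π : Set ℕ}
  {G A B K L X Y D E F V W N R U H M : Subgroup Γ}

theorem pq_symm (h : PiG {p, q} H) : PiG {q, p} H := Set.pair_comm p q ▸ h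
theorem pq_l (h : PG p H) (q : ℕ) : PiG {p, q} H := h.sing (by simp)
theorem pq_r (h : PG q H) (p : ℕ) : PiG {p, q} H := h.sing (by simp)

theorem sol_pq (hp : p.Prime) (hq : q.Prime) (h : PiG {p, q} H) : Sol H := by
  obtain ⟨a, b, e, h1, h2⟩ := exists_pi_factor {p} (card_ne_zero H)
  have h3 : PiN {q} b := fun s ps d => by
    have := h s ps (e ▸ d.mul_left a)
    have := h2 s ps d
    simp_all
  obtain ⟨i, rfl⟩ := h1.exists_pow (by rintro rfl; exact card_ne_zero H (by simpa using e))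
  obtain ⟨j, rfl⟩ := h3.exists_pow (by rintro rfl; exact card_ne_zero H (by simpa using e))
  exact Cfsg.Agent.S0144.result p q i j hp hq e

theorem Oc_compl (h : PiG {p, q} H) (ne : p ≠ q) : Oc {q}ᶜ H = Oc {p} H :=
  Oc_congr fun s ps d => by
    have := h s ps d
    simp only [Set.mem_insert_iff, Set.mem_singleton_iff, Set.mem_compl_iff] at *
    constructor
    · tauto
    · rintro rfl; exact ne

theorem pq_other (h : PiG {p, q} H) (h1 : s ≠ p) (h2 : s ≠ q) (hX : X ≤ H) (hs : PG s X) : X = ⊥ :=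
  hs.eq_bot ((h.of_le hX).compl_sing (by simp [h1, h2]))

theorem Fit_le2 (h : PiG {p, q} H) (h1 : Oc {p} H ≤ K) (h2 : Oc {q} H ≤ K) : Fit H ≤ K :=
  Fit_le_of_Oc fun s _ => by
    by_cases a : s = p
    · exact a ▸ h1
    by_cases b : s = q
    · exact b ▸ h2
    rw [pq_other h a b (Oc_le _ _) (Oc_pi _ _)]; exact bot_le

theorem faith (hs : Sol H) (h : PiG {p, q} H) (ne : p ≠ q) (h0 : Oc {q} H = ⊥) (hX : X ≤ H)
    (hq : PG q X) (hc : X ≤ C(Oc {p} H)) : X = ⊥ :=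
  bm (le_inf ((le_inf hX hc).trans (H18.cent_pcore_sub hs ((Oc_compl (pq_symm h) ne.symm).trans h0)))
    le_rfl) (((Oc_pi {p} H).sing_ne ne).inf_eq_bot' hq)

namespace H2
variable (h : H2 r G A)
include h

theorem L2a (hH : Inv G A H) (hs : Sol H) (h2 : PiG {p, q} H) (ne : p ≠ q) (hz : H ≤ C(Oc {q} H))
    (hR : Inv H A R) (pR : PG p R) (hE : El r 1 E A) (rE : R ≤ C(E)) (rA : R ≤ ⁅R, A⁆) :
    R ≤ Oc {p} H := by
  have g := h.sub hH
  set V := Oc {p} H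
  have hV : V ⊴ H := Oc_normal _ _
  have iV : Inv H A V := g.top.Oc _
  have pV : PG p V := Oc_pi _ _
  set U := qpre V (Oc {q} (H19.quo V H))
  have hU : U ⊴ H := qpre_normal hV (Oc_normal _ _)
  have iU : Inv H A U := ⟨hU.le, norms_qpre iV.nm (norms_Oc _ (quo_norms hH.nm))⟩
  have sY := g.inf_S iU q
  set Y := U ⊓ S H A q
  have iY : Inv H A Y := iU.inf (g.S_inv q).nm
  have qY : H19.quo V Y = Oc {q} (H19.quo V H) := by
    have := sY.quo (hU.le.trans hV.norm)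
    rw [quo_qpre] at this
    exact this.eq_self (Oc_pi _ _)
  have eU : U = V ⊔ Y := by rw [← qpre_quo (iY.le.trans hV.norm), qY]
  have iM : Inv H A (U ⊔ R) := iU.sup hR
  have iN : Inv H A ((U ⊔ R) ⊓ N(Y)) := iM.norm iY.nm
  have iP : Inv H A ((U ⊔ R) ⊓ N(Y) ⊓ S H A p) := iN.inf (g.S_inv p).nm
  set P := (U ⊔ R) ⊓ N(Y) ⊓ S H A p
  have pP : PG p P := (g.S_pg p).infr _
  have r1 : R ≤ V ⊔ P := by
    have fr := sY.frattini (left_normal_sup (hU.norms hR.le))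
    have : R ≤ V ⊔ (U ⊔ R) ⊓ N(Y) := le_sup_right.trans (fr.ge.trans (sup_le (eU.le.trans
      (sup_le_sup_left (le_inf (sY.le.trans le_sup_left) le_normalizer) _)) le_sup_right))
    exact (le_inf this (Hyp.le_S hR pR)).trans
      (sup_inf_modl (hV.norms iN.le) (Hyp.le_S iV pV)).le
  have r2 : R ≤ V ⊔ dd A P E := by
    have := (le_inf r1 rE).trans (sup_inf_cent (hE.le.trans iV.nm) (hE.le.trans iP.nm)
      (hV.norms iP.le) (g.cp (inf_le_left.trans hV.le) hE.le) (Or.inl hE.pg.sol)).le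
    have n : V ⊔ dd A P E ⊴ V ⊔ P ⊓ C(E) := ⟨sup_le_sup_left (g.dd_le iP hE.le) _, sup_le
      (norms_of_le le_sup_left) (norms_sup (hV.norms (inf_le_left.trans iP.le)) (commg_norml _ _))⟩
    exact rA.trans ((commutator_mono (this.trans (sup_le_sup_right inf_le_left _)) le_rfl).trans
      (commg_sup_left_le ((commg_le_left iV.nm).trans le_sup_left) le_sup_right
        (n.norms le_sup_left) (n.norms le_sup_right)))
  have i2 := g.invd iP hE.le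
  have p2 := g.dd_pg iP hE.le pP
  have n2 : dd A P E ≤ N(Y) := (g.dd_le1 iP hE.le).trans (inf_le_left.trans inf_le_right)
  have m := MC.main _ ⟨g, hs, iV, iY, i2, pV, p2, sY.pi, ne, hV.norms iY.le, hV.norms i2.le, n2, hE,
    g.dd_le2 iP hE.le, g.dd_cc iP hE.le⟩ rfl
  have l1 : ⁅Y, dd A P E⁆ ≤ Y := commg_le_left n2
  have l2 : ⁅Y, dd A P E⁆ ≤ Oc {q} H := (sY.pi.of_le l1).le_Oc_of_le_Fit
    ((le_inf (l1.trans iY.le) (cents_symm (Fit_le2 h2 (cents_symm m)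
      (cents_symm ((l1.trans iY.le).trans hz))))).trans (cent_Fit_le hs))
  have c : Y ≤ C(dd A P E) := by
    refine commg_eq_bot.1 ?_
    rw [← commg_commg n2 ((sY.pi.sing_ne ne.symm).coprime' p2)]
    exact commg_eq_bot.2 (l2.trans (cents_symm (i2.le.trans hz)))
  have := faith (sol_quo hs V) (pq_symm (h2.quo V)) ne.symm (Oc_quo_Oc _ _) (quo_mono V i2.le)
    (p2.quo V) (qY ▸ quo_cents (cents_symm c))
  exact r2.trans (sup_le le_rfl ((quo_eq_bot_iff (hV.norms i2.le)).1 this))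

theorem L2 (hH : Inv G A H) (hs : Sol H) (h2 : PiG {p, q} H) (ne : p ≠ q)
    (hX : Inv H A X) (pX : PG p X) (hc : X ≤ C(Oc {q} H)) : ⁅X, A⁆ ≤ Oc {p} H := by
  have g := h.sub hH
  have n : H ⊓ C(Oc {q} H) ⊴ H := (Oc_normal _ _).inf_cent
  have i1 : Inv H A (H ⊓ C(Oc {q} H)) := g.top.cent (g.top.Oc _).nm
  refine g.gen1 hX (g.top.Oc _).nm (hX.le.trans (Oc_norm _ _)) fun D hD => ?_
  refine (g.L2a i1 (sol_mono hs inf_le_left) (h2.infl _) ne
    (inf_le_right.trans (cent_mono (Oc_le_Oc n)))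
    ((g.invd hX hD.le).to ((g.dd_le1 hX hD.le).trans (le_inf hX.le hc))) (g.dd_pg hX hD.le pX) hD
    (g.dd_le2 hX hD.le) (g.dd_cc hX hD.le)).trans (Oc_le_Oc n)

end H2

/-- the operator group `A C_G(A)` -/
abbrev AC (G A : Subgroup Γ) : Subgroup Γ := A ⊔ G ⊓ C(A)

theorem Inv.a (h : Inv G (AC G A) X) : Inv G A X := h.mono le_sup_left

/-- the Hall `{p, q}`-subgroup of an invariant solvable subgroup -/
abbrev hl (G A K : Subgroup Γ) (p q : ℕ) : Subgroup Γ := K ⊓ S G A p ⊔ K ⊓ S G A q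

namespace Hyp
variable (h : Hyp r G A)
include h

theorem bC (hD : D ≤ A) : AC G A ≤ C(D) := sup_le (h.cA le_rfl hD) (inf_le_right.trans (cent_mono hD))
theorem bN (hD : D ≤ A) : AC G A ≤ N(D) := norms_of_cents (h.bC hD)
theorem btop : Inv G (AC G A) G := ⟨le_rfl, sup_le h.nm (norms_of_le inf_le_left)⟩
theorem bS (p : ℕ) : Inv G (AC G A) (S G A p) := ⟨h.S_le p, sup_le (h.S_inv p).nm (h.S_norm p)⟩
theorem bc (hX : Inv G (AC G A) X) (hD : D ≤ A) : Inv G (AC G A) ⁅X, D⁆ :=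
  hX.comm' (h.bN hD) (hD.trans hX.a.nm)
theorem bd (hX : Inv G (AC G A) X) (hD : D ≤ A) : Inv G (AC G A) (dd A X D) :=
  h.bc (hX.cent (h.bN hD)) le_rfl
theorem bhl (hK : Inv G (AC G A) K) (p q : ℕ) : Inv G (AC G A) (hl G A K p q) :=
  (hK.inf (h.bS p).nm).sup (hK.inf (h.bS q).nm)

theorem le_hl (hX : Inv G A X) (h2 : PiG {p, q} X) (l : X ≤ K) : X ≤ hl G A K p q :=
  le_of_exists_syl fun s ps d => ⟨_, h.inf_S hX s, by
    rcases h2 s ps d with rfl | rfl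
    · exact (inf_le_inf_right _ l).trans le_sup_left
    · exact (inf_le_inf_right _ l).trans le_sup_right⟩

theorem hall_ge (hK : Inv G A K) (hH : Hall π H K) (n : A ≤ N(H)) (hp : p ∈ π) :
    K ⊓ S G A p ≤ H :=
  ((hH.sub_syl hp (h.inf_S ⟨hH.le.trans hK.le, n⟩ p)).eq_of_le (h.inf_S hK p)
    (inf_le_inf_right _ hH.le)).ge.trans inf_le_left

theorem hl_pq (hK : Inv G A K) (hs : Sol K) (p q : ℕ) : PiG {p, q} (hl G A K p q) := by
  obtain ⟨H, hH, n⟩ := inv_hall_exists {p, q} hK.nm (h.cp hK.le le_rfl) hs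
  exact hH.pi.of_le (sup_le (h.hall_ge hK hH n (by simp)) (h.hall_ge hK hH n (by simp)))

theorem fac (hH : Inv G A H) (h2 : PiG {p, q} H) (ne : p ≠ q) :
    _root_.H2.FacIn (H ⊓ S G A p) (H ⊓ S G A q) H := by
  refine (_root_.H2.facIn_of_coprime_relIndex ?_).mono inf_le_left inf_le_left le_rfl
  refine ((h.inf_S hH q).idx.coprime (PiN.mono' ((h.inf_S hH p).idx.inter (h2.relIndex _)) ?_)).symm
  intro s _ _ hs
  simp only [Set.mem_inter_iff, Set.mem_insert_iff, Set.mem_singleton_iff, Set.mem_compl_iff] at *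
  tauto

end Hyp

/-- a maximal `A C_G(A)`-invariant `{p, q}`-subgroup -/
structure Mx (G A : Subgroup Γ) (p q : ℕ) (H : Subgroup Γ) : Prop where
  inv : Inv G (AC G A) H
  pq : PiG {p, q} H
  max : ∀ K, Inv G (AC G A) K → PiG {p, q} K → H ≤ K → K = H

theorem Mx.symm (h : Mx G A p q H) : Mx G A q p H :=
  ⟨h.inv, pq_symm h.pq, fun K a b => h.max K a (pq_symm b)⟩

theorem exists_mx (hX : Inv G (AC G A) X) (h2 : PiG {p, q} X) : ∃ H, Mx G A p q H ∧ X ≤ H := by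
  obtain ⟨H, ⟨a, b, c⟩, m⟩ := Set.exists_max_image
    {H : Subgroup Γ | Inv G (AC G A) H ∧ PiG {p, q} H ∧ X ≤ H} (fun U => #U) (Set.toFinite _)
    ⟨X, hX, h2, le_rfl⟩
  exact ⟨H, ⟨a, b, fun K d e f => (eq_of_le_of_card_eq f
    (le_antisymm (card_le f) (m K ⟨d, e, c.trans f⟩))).symm⟩, c⟩

/-- the local hypotheses -/
structure LC (r : ℕ) (G A : Subgroup Γ) : Prop extends H2 r G A where
  sN : ∀ U, Inv G A U → U ≠ ⊥ → Sol U → Sol (G ⊓ N(U))
  sC : ∀ E, El r 1 E A → Sol (G ⊓ C(E))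

namespace LC
variable (h : LC r G A)
include h

theorem ex_mx (hK : Inv G (AC G A) K) (hs : Sol K) (p q : ℕ) :
    ∃ H, Mx G A p q H ∧ ∀ X, Inv G A X → PiG {p, q} X → X ≤ K → X ≤ H := by
  obtain ⟨H, a, b⟩ := exists_mx (h.bhl hK p q) (h.hl_pq hK.a hs p q)
  exact ⟨H, a, fun X c d e => (h.le_hl c d e).trans b⟩

theorem ex_norm (hU : Inv G (AC G A) U) (u1 : U ≠ ⊥) (hs : Sol U) (p q : ℕ) :
    ∃ H, Mx G A p q H ∧ ∀ X, Inv G A X → PiG {p, q} X → X ≤ N(U) → X ≤ H := by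
  obtain ⟨H, a, b⟩ := h.ex_mx (h.btop.norm hU.nm) (h.sN U hU.a u1 hs) p q
  exact ⟨H, a, fun X c d e => b X c d (le_inf c.le e)⟩

theorem mx_c (hH : Mx G A p q H) : S G A p ⊓ C(A) ≤ H := by
  have i := (h.bS p).cent (h.bN le_rfl)
  exact le_sup_right.trans (hH.max _ (hH.inv.sup i) (hH.pq.sup (pq_l ((h.S_pg p).infl _) q)
    ((inf_le_inf_right _ (h.S_le p)).trans (le_sup_right.trans hH.inv.nm))) le_sup_left).le

theorem mx_norm (hp : p.Prime) (hq : q.Prime) (hH : Mx G A p q H) (hU : Inv G (AC G A) U)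
    (u1 : U ≠ ⊥) (hn : U ⊴ H) (hX : Inv G A X) (h2 : PiG {p, q} X) (l : X ≤ N(U)) : X ≤ H := by
  obtain ⟨K, a, b⟩ := h.ex_norm hU u1 (sol_mono (sol_pq hp hq hH.pq) hn.le) p q
  exact (b X hX h2 l).trans (hH.max K a.inv a.pq (b H hH.inv.a hH.pq hn.norm)).le

theorem mx_uniq (ne : p ≠ q) (hH : Mx G A p q H) (hK : Mx G A p q K) (h1 : S G A p ≤ H)
    (h2 : S G A p ≤ K) : H = K := by
  have f : ∀ H, Mx G A p q H → S G A p ≤ H → _root_.H2.FacIn (H ⊓ S G A q) (S G A p) H :=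
    fun H a b => (h.fac a.inv.a a.pq ne).symm.mono le_rfl inf_le_right le_rfl
  have pm := (_root_.H2.permutes_of_facIn (f H hH h1) inf_le_left h1).sup_left
    (_root_.H2.permutes_of_facIn (f K hK h2) inf_le_left h2)
  have : PiG {p, q} (H ⊔ K) := by
    refine PiN.of_le (PiN.dvd ?_ (_root_.H2.FacIn.card_dvd pm le_sup_left le_sup_right))
      (sup_le ((f H hH h1).le_sup.trans (sup_le_sup_right le_sup_left _))
        ((f K hK h2).le_sup.trans (sup_le_sup_right le_sup_right _)))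
    exact (pq_r ((h.S_pg q).of_le (sup_le inf_le_right inf_le_right)) p).mul (pq_l (h.S_pg p) q)
  exact (hH.max _ (hH.inv.sup hK.inv) this le_sup_left).symm.trans
    (hK.max _ (hH.inv.sup hK.inv) this le_sup_right)

theorem bu0 (hp : p.Prime) (hq : q.Prime) (ne : p ≠ q) (hH : Mx G A p q H) (hK : Mx G A p q K)
    (h1 : Oc {q} H ≠ ⊥) (z : Z(Oc {q} H) ≤ K) (hX : X ≤ K) (pX : PG p X) (nX : X ⊴ H) :
    X ≤ Oc {p} K := by
  have iZ : Inv G (AC G A) Z(Oc {q} H) := (hH.inv.Oc _).cent (hH.inv.Oc _).nm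
  have nZ : Z(Oc {q} H) ⊴ H := ⟨inf_le_left.trans (Oc_le _ _), (Oc_norm _ _).trans (norm_le_norm_center _)⟩
  have l := h.mx_norm hp hq hH iZ ((Oc_pi _ _).center_ne_bot h1) nZ (hK.inv.a.norm iZ.a.nm)
    (hK.pq.infl _) inf_le_right
  rw [← Oc_compl hK.pq ne]
  refine (le_Oc (nX.of_le (le_inf hX (nZ.norms nX.le)) l) (pX.sing_ne ne)).trans
    (H18.p'core_norm_pgroup ((Oc_pi _ _).infl _) z (sol_pq hp hq hK.pq))

theorem bu1 (hp : p.Prime) (hq : q.Prime) (ne : p ≠ q) (hH : Mx G A p q H) (hK : Mx G A p q K)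
    (h1 : Oc {p} H ≠ ⊥) (h2 : Oc {q} H ≠ ⊥) (z1 : Z(Oc {p} H) ≤ K) (z2 : Z(Oc {q} H) ≤ K) :
    Oc {q} K ≤ H ∧ Oc {p} K ≠ ⊥ := by
  have iZ : Inv G (AC G A) Z(Oc {p} H) := (hH.inv.Oc _).cent (hH.inv.Oc _).nm
  have nZ : Z(Oc {p} H) ⊴ H := ⟨inf_le_left.trans (Oc_le _ _), (Oc_norm _ _).trans (norm_le_norm_center _)⟩
  have z0 := (Oc_pi _ _).center_ne_bot h1
  have l := h.bu0 hp hq ne hH hK h2 z2 z1 ((Oc_pi _ _).infl _) nZ
  exact ⟨h.mx_norm hp hq hH iZ z0 nZ (hK.inv.a.Oc _) (pq_r (Oc_pi _ _) p) (norms_of_cents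
    ((Oc_cents (Oc_normal {p} K) ((Oc_pi _ _).sing_ne ne)).trans (cent_mono l))), nbm l z0⟩

theorem bu (hp : p.Prime) (hq : q.Prime) (ne : p ≠ q) (hH : Mx G A p q H) (hK : Mx G A p q K)
    (h1 : Oc {p} H ≠ ⊥) (h2 : Oc {q} H ≠ ⊥) (z1 : Z(Oc {p} H) ≤ K) (z2 : Z(Oc {q} H) ≤ K) :
    K = H := by
  obtain ⟨a1, a2⟩ := h.bu1 hp hq ne hH hK h1 h2 z1 z2
  obtain ⟨b1, b2⟩ := h.bu1 hq hp ne.symm hH.symm hK.symm h2 h1 z2 z1
  obtain ⟨c1, -⟩ := h.bu1 hq hp ne.symm hK.symm hH.symm b2 a2 (inf_le_left.trans a1)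
    (inf_le_left.trans b1)
  have e : Oc {p} H = Oc {p} K := le_antisymm
    (h.bu0 hp hq ne hH hK h2 z2 c1 (Oc_pi _ _) (Oc_normal _ _))
    (h.bu0 hp hq ne hK hH b2 (inf_le_left.trans a1) b1 (Oc_pi _ _) (Oc_normal _ _))
  exact (hK.max H hH.inv hH.pq (h.mx_norm hp hq hH (hH.inv.Oc _) h1 (Oc_normal _ _) hK.inv.a hK.pq
    (e ▸ Oc_norm _ _))).symm

theorem bu2 (hp : p.Prime) (hq : q.Prime) (ne : p ≠ q) (hH : Mx G A p q H)
    (h1 : Oc {p} H ≠ ⊥) (h2 : Oc {q} H ≠ ⊥) (hU : Inv G (AC G A) U) (u1 : U ≠ ⊥)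
    (l : U ≤ Oc {p} H) (hX : Inv G A X) (x2 : PiG {p, q} X) (n : X ≤ N(U)) : X ≤ H := by
  obtain ⟨K, a, b⟩ := h.ex_norm hU u1 ((Oc_pi _ _).of_le l).sol p q
  refine (b X hX x2 n).trans (h.bu hp hq ne hH a h1 h2 ?_ ?_).le
  · exact b _ ((hH.inv.a.Oc _).cent (hH.inv.a.Oc _).nm) (pq_l ((Oc_pi _ _).infl _) _)
      (norms_of_cents (inf_le_right.trans (cent_mono l)))
  · exact b _ ((hH.inv.a.Oc _).cent (hH.inv.a.Oc _).nm) (pq_r ((Oc_pi _ _).infl _) _)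
      (norms_of_cents (inf_le_left.trans ((Oc_cents (Oc_normal {p} H)
        ((Oc_pi _ _).sing_ne ne)).trans (cent_mono l))))

end LC

end H13.Pt
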