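import Cfsg.Agent.H13.Pt3
import Cfsg.Agent.S0621

/-! The maximal invariant `{p, q}`-subgroups. -/

set_option autoImplicit false
set_option linter.unusedSectionVars false

namespace H13.Pt
open Cfsg Subgroup H19
open scoped commutatorElement

universe u
variable {Γ : Type u} [Group Γ] [Finite Γ] {r p q s : ℕ} {π : Set ℕ}
  {G A B K L X Y D E F V W N R U H M P : Subgroup Γ}

def sl2 : Matrix.SpecialLinearGroup (Fin 2) (ZMod 2) := ⟨!![0, 1; 1, 0], by decide⟩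
def sl3 : Matrix.SpecialLinearGroup (Fin 2) (ZMod 3) := ⟨!![2, 0; 0, 2], by decide⟩

theorem sl_even (h : p = 2 ∨ p = 3) : 2 ∣ Nat.card (Matrix.SpecialLinearGroup (Fin 2) (ZMod p)) := by
  haveI : Fact (Nat.Prime 2) := ⟨Nat.prime_two⟩
  rcases h with rfl | rfl
  · have : orderOf sl2 = 2 := orderOf_eq_prime (by decide) (by decide)
    have e := orderOf_dvd_natCard sl2
    rwa [this] at e
  · have : orderOf sl3 = 2 := orderOf_eq_prime (by decide) (by decide)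
    have e := orderOf_dvd_natCard sl3
    rwa [this] at e

theorem Hyp.tfac (h : Hyp r H A) (hs : Sol H) (hp : p.Prime) (h0 : Oc {p}ᶜ H = ⊥) (hP : Syl p P H) :
    H ≤ (H ⊓ C(Ohm1 p Z(P))) ⊔ (H ⊓ N(H9.JJ p P)) := by
  haveI := Fact.mk hp
  haveI := Fact.mk h.pr
  have e0 : pPrimeCore p H = ⊥ := by rw [H18.pPrimeCore_eq hp, h0, bot_subgroupOf]
  by_cases hf : IsThompsonFactorizable p H
  · obtain ⟨T, hT⟩ := hP.exists_sylow
    have eT : (T : Subgroup H) = P.subgroupOf H := by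
      rw [← hT]; exact (comap_map_eq_self_of_injective H.subtype_injective _).symm
    intro g hg
    obtain ⟨x, hx, c, hc, n, hn, e⟩ := H9.isThompsonFactorizable_iff.1 hf T ⟨g, hg⟩
    rw [e0, mem_bot] at hx
    rw [eT, ← H28.omegaOneCenter_subgroupOf hP.le,
      H1.centralizer_subgroupOf ((H28.omegaOneCenter_le p P).trans hP.le)] at hc
    rw [eT, ← H9.JJ_subgroupOf hP.le, ← subgroupOf_normalizer_eq ((H9.JJ_le p P).trans hP.le)] at hn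
    have : g = c * n := by simpa [hx] using congrArg Subtype.val e
    exact this ▸ mul_mem (mem_sup_left ⟨c.2, hc⟩) (mem_sup_right ⟨n.2, hn⟩)
  obtain ⟨h23, W, D, -, d, -, -, -, hn, ⟨e⟩⟩ := Cfsg.Agent.S0621.result H A h.nm h.ab
    (h.cop.not_dvd h.pr rfl) (H1.isPSolvable_of_isSolvable hs) e0 hf
  exfalso
  refine Nat.not_even_iff_odd.2 (odd_mono h.co d) (even_iff_two_dvd.2 ((sl_even h23).trans ?_))
  rw [← Nat.card_congr e.toEquiv]
  exact card_quotient_dvd_card _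

namespace H2
variable (h : H2 r G A)
include h

/-- a nontrivial action forces a large support -/
theorem supp (hX : Inv G A X) (hV : Inv G A V) (pX : PG q X) (pV : PG p V) (ne : p ≠ q)
    (n : X ≤ N(V)) (hE : El r 1 E A) (x1 : X ≤ ⁅X, A⁆) (x2 : X ≤ C(E)) (nc : ¬ X ≤ C(V))
    (hD : El r 1 D A) (de : D ≠ E) : dd A V D ≠ ⊥ := fun e =>
  nc (h.Sh' hX hV pX pV ne n hD x1 (h.cA3 hE hD de.symm x2) (dd_bot.1 e))

theorem cent_of_dd (hX : Inv G A X) (hV : Inv G A V) (pX : PG q X) (pV : PG p V) (ne : p ≠ q)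
    (n : X ≤ N(V)) (hE : El r 1 E A) (e : dd A V E = ⊥) : ⁅X, E⁆ ≤ C(V) := by
  refine (h.gen2 hX (hX.cent hV.nm).nm (inf_cent_normal n).norm hE fun D hD de =>
    le_inf (h.dd_le1 hX hD.le) ?_).trans inf_le_right
  by_contra nc
  exact h.supp (h.invd hX hD.le) hV (h.dd_pg hX hD.le pX) pV ne ((h.dd_le1 hX hD.le).trans n) hD
    (h.dd_cc hX hD.le) (h.dd_le2 hX hD.le) nc hE de.symm e

theorem dd_bot_of (hE : El r 1 E A) (hD : El r 1 D A) (de : D ≠ E) (hX : X ≤ C(E)) : dd A X D = ⊥ :=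
  dd_bot.2 (h.cA3 hE hD de.symm hX)

end H2

namespace LC
variable (h : LC r G A)
include h

theorem ex_dd (hH : Mx G A p q H) (hX : Inv G A X) (pX : PG p X) (nl : ¬ X ≤ H) :
    ∃ E, El r 1 E A ∧ ¬ dd A X E ≤ H := by
  by_contra hc
  push Not at hc
  exact nl (h.gen0 hX hc ((inf_le_inf_right _ (Hyp.le_S hX pX)).trans (h.mx_c hH)))

theorem S1 (hp : p.Prime) (hq : q.Prime) (ne : p ≠ q) (hH : Mx G A p q H)
    (h1 : Oc {p} H ≠ ⊥) (h2 : Oc {q} H ≠ ⊥) (nl : ¬ S G A p ≤ H) :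
    ∃ E, El r 1 E A ∧ H ⊓ S G A p ≤ C(E) ∧ ¬ dd A (S G A p) E ≤ H := by
  have iP : Inv G (AC G A) (H ⊓ S G A p) := hH.inv.inf (h.bS p).nm
  have pP := (h.S_pg p).infr H
  have iN := (h.S_inv p).norm iP.a.nm
  have pN := (h.S_pg p).infl N(H ⊓ S G A p)
  obtain ⟨E, hE, nR⟩ := h.ex_dd hH iN pN fun l => ((h.S_pg p).lt_norm (lt_of_le_of_ne inf_le_right
    fun e => nl (e.ge.trans inf_le_left))).not_ge (le_inf l inf_le_left)
  refine ⟨E, hE, ?_, fun l => nR ((dd_mono inf_le_left E).trans l)⟩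
  have iR := h.invd iN hE.le
  have pR := pq_l (h.dd_pg iN hE.le pN) q
  have d0 : dd A (Oc {q} H) E = ⊥ := by
    by_contra d1
    refine nR (h.bu2 hq hp ne.symm hH.symm h2 h1 (h.bd (hH.inv.Oc _) hE.le) d1
      (h.dd_le1 (hH.inv.a.Oc _) hE.le) iR (pq_symm pR) (norms_of_cents ?_))
    exact h.dd_dd hE (h.sC E hE) iN (hH.inv.a.Oc _) pN (Oc_pi _ _) ne
  have c := h.cent_of_dd iP.a (hH.inv.a.Oc _) pP (Oc_pi _ _) ne.symm
    (inf_le_left.trans (Oc_norm _ _)) hE d0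
  have iX := h.bc iP hE.le
  have lX : ⁅H ⊓ S G A p, E⁆ ≤ H ⊓ S G A p := commg_le_left (hE.le.trans iP.a.nm)
  have l := h.L2 hH.inv.a (sol_pq hp hq hH.pq) hH.pq ne (iX.a.to (lX.trans inf_le_left))
    (pP.of_le lX) c
  by_contra nc
  exact nR (h.bu2 hp hq ne hH h1 h2 iX (fun e => nc (commg_eq_bot.1 e))
    (((h.cc iP.a hE.le).ge.trans (commutator_mono le_rfl hE.le)).trans l) iR pR
    (norms_comm ((h.dd_le1 iN hE.le).trans inf_le_right) (norms_of_cents (h.dd_le2 iN hE.le))))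

theorem L2' (hp : p.Prime) (hq : q.Prime) (ne : p ≠ q) (hH : Mx G A p q H) (h0 : Oc {q} H = ⊥)
    (hX : Inv G A X) (pX : PG p X) (l : X ≤ H) : ⁅X, A⁆ ≤ Oc {p} H :=
  h.L2 hH.inv.a (sol_pq hp hq hH.pq) hH.pq ne (hX.to l) pX (by rw [h0]; simp)

theorem T (hp : p.Prime) (hq : q.Prime) (ne : p ≠ q) (hH : Mx G A p q H) (h0 : Oc {q} H = ⊥) :
    S G A p ≤ H := by
  by_contra nl
  obtain ⟨H, ⟨hH, h0, nl⟩, m⟩ := Set.exists_max_image
    {H : Subgroup Γ | Mx G A p q H ∧ Oc {q} H = ⊥ ∧ ¬ S G A p ≤ H} (fun H => #(H ⊓ S G A p))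
    (Set.toFinite _) ⟨H, hH, h0, nl⟩
  have hs := sol_pq hp hq hH.pq
  have h0' : Oc {p}ᶜ H = ⊥ := (Oc_compl (pq_symm hH.pq) ne.symm).trans h0
  have iP : Inv G (AC G A) (H ⊓ S G A p) := hH.inv.inf (h.bS p).nm
  have sP := h.inf_S hH.inv.a p
  have iV := hH.inv.Oc {p}
  have v1 : Oc {p} H ≠ ⊥ := fun e => nl (by
    have : H = ⊥ := by
      by_contra h1
      exact Fit_ne_bot hs h1 ((Fit_eq_Oc h0').trans e)
    exact (hH.max _ (h.bS p) (pq_l (h.S_pg p) q) (this.le.trans bot_le)).le)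
  have vP : Oc {p} H ≤ H ⊓ S G A p := Oc_le_hall sP
  obtain ⟨M, hM, pM⟩ := exists_mx (h.bS p) (pq_l (h.S_pg p) q)
  have nM : ¬ H ≤ M := fun l => nl (pM.trans (hH.max M hM.inv hM.pq l).le)
  have iZ : Inv G (AC G A) Z(S G A p) := (h.bS p).cent (h.bS p).nm
  have zH : Z(S G A p) ≤ H := h.mx_norm hp hq hH iV v1 (Oc_normal _ _) iZ.a
    (pq_l ((h.S_pg p).infl _) q)
    (norms_of_cents (inf_le_right.trans (cent_mono (vP.trans inf_le_right))))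
  have c1 : H ⊓ C(Ohm1 p Z(H ⊓ S G A p)) ≤ M := by
    have iO : Inv G (AC G A) (Ohm1 p Z(S G A p)) :=
      ⟨(Ohm1_le _ _).trans iZ.le, norms_Ohm1 p iZ.nm⟩
    obtain ⟨K, a, b⟩ := h.ex_norm iO
      ((h.S_pg p).Ohm1_center_ne_bot (nbm (vP.trans inf_le_right) v1)) (sol_of_ab (abelem_Ohm1_center _ _).1) p q
    rw [h.mx_uniq ne hM a pM (b _ (h.S_inv p) (pq_l (h.S_pg p) q)
      (le_normalizer.trans (norm_le_norm_Ohm1_center p _)))]
    refine b _ (hH.inv.a.cent (iP.a.nm.trans (norm_le_norm_Ohm1_center p _))) (hH.pq.infl _)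
      (norms_of_cents (inf_le_right.trans (cent_mono (Ohm1_mono p ?_))))
    exact le_inf (le_inf zH inf_le_left) (inf_le_right.trans (cent_mono inf_le_right))
  haveI := Fact.mk hp
  have nJ := H9.normalizer_le_normalizer_JJ p (H ⊓ S G A p)
  have lJ := H9.JJ_le p (H ⊓ S G A p)
  have iJ : Inv G (AC G A) (H9.JJ p (H ⊓ S G A p)) := ⟨lJ.trans iP.le, iP.nm.trans nJ⟩
  obtain ⟨K, hK, bK⟩ := h.ex_norm iJ (H9.JJ_ne_bot_of_isPGroup sP.pi.isPGroup (nbm vP v1))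
    (sP.pi.of_le lJ).sol p q
  have iN := hH.inv.a.norm iJ.a.nm
  have nK := bK _ iN (hH.pq.infl _) inf_le_right
  have n2 : ¬ H ⊓ N(H9.JJ p (H ⊓ S G A p)) ≤ M := fun l =>
    nM (((h.toHyp.sub hH.inv.a).tfac hs hp h0' sP).trans (sup_le c1 l))
  have nPK : ¬ S G A p ≤ K := fun l => n2 (h.mx_uniq ne hM hK pM l ▸ nK)
  have lt : H ⊓ S G A p < K ⊓ S G A p := ((h.S_pg p).lt_norm (lt_of_le_of_ne inf_le_right
    fun e => nl (e.ge.trans inf_le_left))).trans_le (le_inf (bK _ ((h.S_inv p).norm iP.a.nm)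
      (pq_l ((h.S_pg p).infl _) q) (inf_le_right.trans nJ)) inf_le_left)
  have k2 : Oc {q} K ≠ ⊥ := fun e => (card_lt lt).not_ge (m K ⟨hK, e, nPK⟩)
  have iB := iN.inf (h.S_inv q).nm
  have pB := (h.S_pg q).infr (H ⊓ N(H9.JJ p (H ⊓ S G A p)))
  obtain ⟨F, hF, nB⟩ := h.ex_dd hM.symm iB pB fun l => n2 ((h.le_hl iN (hH.pq.infl _) le_rfl).trans
    (sup_le (inf_le_right.trans pM) l))
  have lB := h.dd_le1 iB hF.le
  have bH := lB.trans (inf_le_left.trans inf_le_left)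
  have pB' := h.dd_pg iB hF.le pB
  have nc : ¬ dd A (H ⊓ N(H9.JJ p (H ⊓ S G A p)) ⊓ S G A q) F ≤ C(Oc {p} H) := fun c =>
    nB ((faith hs hH.pq ne h0 bH pB' c).le.trans bot_le)
  have vK : Oc {p} H ≤ K ⊓ S G A p := vP.trans lt.le
  by_cases k1 : Oc {p} K = ⊥
  · have l := (h.dd_cc iB hF.le).trans (h.L2' hq hp ne.symm hK.symm k1 (h.invd iB hF.le) pB'
      (lB.trans (inf_le_left.trans nK)))
    refine nc (commg_eq_bot.1 (bm (le_inf ?_ ?_)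
      (((Oc_pi {p} H).sing_ne ne).inf_eq_bot' (Oc_pi {q} K))))
    · exact commg_le_right (bH.trans (Oc_norm _ _))
    · exact (commutator_mono l (vK.trans inf_le_left)).trans (commg_le_left (Oc_norm _ _))
  obtain ⟨E, hE, c, -⟩ := h.S1 hp hq ne hK k1 k2 nPK
  obtain ⟨D, hD, d1, d2, -⟩ := exists_line4 h.rk h.odd hE hF hF
  exact h.supp (h.invd iB hF.le) iV.a pB' (Oc_pi _ _) ne (bH.trans (Oc_norm _ _)) hF
    (h.dd_cc iB hF.le) (h.dd_le2 iB hF.le) nc hD d2 (h.dd_bot_of hE hD d1 (vK.trans c))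

theorem ex_cent (hE : El r 1 E A) (p q : ℕ) :
    ∃ H, Mx G A p q H ∧ S G A p ⊓ C(E) ≤ H ∧ S G A q ⊓ C(E) ≤ H := by
  obtain ⟨H, a, b⟩ := h.ex_mx (h.btop.cent (h.bN hE.le)) (h.sC E hE) p q
  exact ⟨H, a, b _ (h.invC (h.S_inv p) hE.le) (pq_l ((h.S_pg p).infl _) q)
    (inf_le_inf_right _ (h.S_le p)), b _ (h.invC (h.S_inv q) hE.le) (pq_r ((h.S_pg q).infl _) p)
    (inf_le_inf_right _ (h.S_le q))⟩

theorem ML0 (hp : p.Prime) (hq : q.Prime) (ne : p ≠ q) (hH : Mx G A p q H)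
    (h1 : Oc {p} H ≠ ⊥) (h2 : Oc {q} H ≠ ⊥) (hE : El r 1 E A) (l : S G A p ⊓ C(E) ≤ H)
    (d1 : dd A (S G A p) E ≠ ⊥) : S G A p ≤ H := by
  by_contra nl
  obtain ⟨D, hD, c, nd⟩ := h.S1 hp hq ne hH h1 h2 nl
  have de : D ≠ E := fun e => nd (e ▸ (h.dd_le (h.S_inv p) hE.le).trans l)
  exact d1 (dd_bot.2 ((le_inf inf_le_right ((le_inf l inf_le_left).trans c)).trans
    (h.cA2 hE hD de.symm)))

theorem pq_of_le (hH : Mx G A p q H) (h1 : S G A p ≤ H) (h2 : S G A q ≤ H) :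
    PiG {p, q} (S G A p ⊔ S G A q) := hH.pq.of_le (sup_le h1 h2)

theorem ML1 (hp : p.Prime) (hq : q.Prime) (ne : p ≠ q) (hH : Mx G A p q H) (h0 : Oc {q} H = ⊥)
    (hE : El r 1 E A) (l : S G A q ⊓ C(E) ≤ H) (d1 : dd A (S G A q) E ≠ ⊥) :
    PiG {p, q} (S G A p ⊔ S G A q) := by
  have pH := h.T hp hq ne hH h0
  by_cases nl : S G A q ≤ H
  · exact h.pq_of_le hH pH nl
  have iQ := h.S_inv q
  obtain ⟨D, hD, nd⟩ := h.ex_dd hH.symm iQ (h.S_pg q) nl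
  have yH := (h.dd_le iQ hE.le).trans l
  have de : D ≠ E := fun e => nd (e ▸ yH)
  have iV := hH.inv.a.Oc {p}
  have iY := h.invd iQ hE.le
  have pY := h.dd_pg iQ hE.le (h.S_pg q)
  have nY := yH.trans (Oc_norm {p} H)
  have nc : ¬ dd A (S G A q) E ≤ C(Oc {p} H) := fun c =>
    d1 (faith (sol_pq hp hq hH.pq) hH.pq ne h0 yH pY c)
  have v1 := h.supp iY iV pY (Oc_pi _ _) ne nY hE (h.dd_cc iQ hE.le) (h.dd_le2 iQ hE.le) nc hD de
  have vP := Hyp.le_S iV (Oc_pi _ _)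
  obtain ⟨K, hK, k1, k2⟩ := h.ex_cent hD p q
  have nP : ¬ S G A p ≤ K := fun l =>
    nd ((h.dd_le iQ hD.le).trans (k2.trans (h.mx_uniq ne hK hH l pH).le))
  have o2 : Oc {q} K ≠ ⊥ := fun e => nP (h.T hp hq ne hK e)
  have o1 : Oc {p} K = ⊥ := by
    by_contra o1
    exact nP (h.ML0 hp hq ne hK o1 o2 hD k1 (nbm (dd_mono vP D) v1))
  have yW := (commutator_mono inf_le_left le_rfl).trans (h.L2' hq hp ne.symm hK.symm o1 iQ (h.S_pg q)
    (h.T hq hp ne.symm hK.symm o1) : _ ≤ Oc {q} K) (a := dd A (S G A q) E)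
  refine (nc (h.Sh iY iV pY (Oc_pi _ _) ne nY hD (h.dd_cc iQ hE.le)
    (h.cA3 hE hD de.symm (h.dd_le2 iQ hE.le)) (commg_eq_bot.1 (bm (le_inf ?_ ?_)
      (((Oc_pi {p} H).sing_ne ne).inf_eq_bot' (Oc_pi {q} K)))))).elim
  · exact (commutator_mono inf_le_left le_rfl).trans (commg_le_left nY)
  · exact (commutator_mono ((inf_le_inf_right _ vP).trans k1) yW).trans (commg_le_right (Oc_norm _ _))

theorem ML (hp : p.Prime) (hq : q.Prime) (ne : p ≠ q) (hE : El r 1 E A)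
    (d1 : dd A (S G A p) E ≠ ⊥) (d2 : dd A (S G A q) E ≠ ⊥) : PiG {p, q} (S G A p ⊔ S G A q) := by
  obtain ⟨H, hH, k1, k2⟩ := h.ex_cent hE p q
  by_cases o2 : Oc {q} H = ⊥
  · exact h.ML1 hp hq ne hH o2 hE k2 d2
  by_cases o1 : Oc {p} H = ⊥
  · exact sup_comm (S G A q) _ ▸ pq_symm (h.ML1 hq hp ne.symm hH.symm o1 hE k1 d1)
  exact h.pq_of_le hH (h.ML0 hp hq ne hH o1 o2 hE k1 d1)
    (h.ML0 hq hp ne.symm hH.symm o2 o1 hE k2 d2)

end LC

end H13.Pt
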