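import Mathlib

/-! Rank 3 actions of `PSL_n(q)` (S2194): definitions and chunk statements (paper proofs: notes/R3.md). -/

set_option autoImplicit false
set_option linter.unusedSectionVars false

open Module MulAction

namespace H13.R3

universe u

section defs
variable {F : Type u} [Field F] {V : Type u} [AddCommGroup V] [Module F V]
  {G : Type u} [Group G] [DistribMulAction G V] [SMulCommClass G F V]

/-- the linear map of a group element -/
def lin (F : Type u) [Field F] (V : Type u) [AddCommGroup V] [Module F V] [DistribMulAction G V]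
    [SMulCommClass G F V] (g : G) : V ≃ₗ[F] V := DistribMulAction.toLinearEquiv F V g

@[simp] theorem lin_apply (g : G) (v : V) : lin F V g v = g • v := rfl

/-- contragredient action on the dual space -/
scoped instance dualAct : DistribMulAction G (Dual F V) where
  smul g f := f ∘ₗ (lin F V g⁻¹).toLinearMap
  one_smul f := by ext v; change f ((1 : G)⁻¹ • v) = f v; rw [inv_one, one_smul]
  mul_smul g h f := by
    ext v; change f ((g * h)⁻¹ • v) = f (h⁻¹ • g⁻¹ • v); rw [mul_inv_rev, mul_smul]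
  smul_zero g := rfl
  smul_add g f f' := rfl

@[simp] theorem dsmul_apply (g : G) (f : Dual F V) (v : V) : (g • f) v = f (g⁻¹ • v) := rfl

scoped instance dualComm : SMulCommClass G F (Dual F V) where
  smul_comm _ _ _ := rfl

/-- the stabilizer of a subspace -/
def St (G : Type u) [Group G] [DistribMulAction G V] (W : Submodule F V) : Subgroup G where
  carrier := {g | ∀ u, g • u ∈ W ↔ u ∈ W}
  one_mem' u := by rw [one_smul]
  mul_mem' {a b} ha hb u := by rw [mul_smul, ha, hb]
  inv_mem' {a} ha u := by rw [← ha, smul_inv_smul]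

theorem mem_St {W : Submodule F V} {g : G} : g ∈ St G W ↔ ∀ u, g • u ∈ W ↔ u ∈ W := Iff.rfl

/-- the stabilizer of `W` acts on `V ⧸ W` -/
scoped instance quotAct (W : Submodule F V) : DistribMulAction (St G W) (V ⧸ W) where
  smul g := W.mapQ W (lin F V (g : G)).toLinearMap fun u hu => (g.2 u).2 hu
  one_smul a := by
    induction a using Submodule.Quotient.induction_on with
    | H v => change Submodule.Quotient.mk ((1 : G) • v) = _; rw [one_smul]
  mul_smul g h a := by
    induction a using Submodule.Quotient.induction_on with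
    | H v =>
      change Submodule.Quotient.mk (((g : G) * h) • v) = Submodule.Quotient.mk ((g : G) • (h : G) • v)
      rw [mul_smul]
  smul_zero g := map_zero (W.mapQ W (lin F V (g : G)).toLinearMap fun u hu => (g.2 u).2 hu)
  smul_add g := map_add (W.mapQ W (lin F V (g : G)).toLinearMap fun u hu => (g.2 u).2 hu)

theorem qsmul_mk {W : Submodule F V} (g : St G W) (v : V) :
    g • (Submodule.Quotient.mk v : V ⧸ W) = Submodule.Quotient.mk ((g : G) • v) := rfl

scoped instance quotComm (W : Submodule F V) : SMulCommClass (St G W) F (V ⧸ W) where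
  smul_comm g c a := map_smul (W.mapQ W (lin F V (g : G)).toLinearMap fun u hu => (g.2 u).2 hu) c a

/-- `g` is the transvection `u ↦ u + f u • v` -/
def Tv (g : G) (v : V) (f : Dual F V) : Prop :=
  v ≠ 0 ∧ f ≠ 0 ∧ f v = 0 ∧ ∀ u, g • u = u + f u • v

/-- the line spanned by two vectors -/
def ln (F : Type u) [Field F] [Module F V] (x y : V) : Submodule F V := Submodule.span F {x, y}
/-- the plane spanned by three vectors -/
def pl (F : Type u) [Field F] [Module F V] (x y z : V) : Submodule F V := Submodule.span F {x, y, z}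
/-- independent pair -/
def Ind (F : Type u) [Field F] [Module F V] (x y : V) : Prop := x ≠ 0 ∧ y ∉ F ∙ x
/-- independent triple -/
def Ind3 (F : Type u) [Field F] [Module F V] (x y z : V) : Prop := Ind F x y ∧ z ∉ ln F x y

variable (F V)
def IsTv (g : G) : Prop := ∃ (v : V) (f : Dual F V), Tv g v f
/-- `J` contains the scalars -/
def Sc (J : Subgroup G) : Prop := ∀ c : F, c ≠ 0 → ∃ z ∈ J, ∀ u : V, z • u = c • u
/-- 2-transitive on points -/
def Two (J : Subgroup G) : Prop :=
  ∀ x y x' y' : V, Ind F x y → Ind F x' y' → ∃ j ∈ J, j • x = x' ∧ ∃ c : F, j • y = c • y'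
def Irr (J : Subgroup G) : Prop :=
  ∀ U : Submodule F V, (∀ j ∈ J, ∀ u ∈ U, j • u ∈ U) → U = ⊥ ∨ U = ⊤
/-- no transvections in `J` -/
def NoTv (J : Subgroup G) : Prop := ∀ t ∈ J, ¬ IsTv F V t
/-- `G` contains `SL(V)` -/
def SLe (G : Type u) [Group G] [DistribMulAction G V] : Prop :=
  ∀ σ : V ≃ₗ[F] V, LinearEquiv.det σ = 1 → ∃ g : G, ∀ v, g • v = σ v
variable {F}
/-- transitive on nonzero vectors -/
def PT (J : Subgroup G) : Prop := ∀ v w : V, v ≠ 0 → w ≠ 0 → ∃ j ∈ J, j • v = w
variable {V} (F)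
/-- same `J`-orbit of lines -/
def LE (J : Subgroup G) (a b : V × V) : Prop :=
  ∃ j ∈ J, j • a.1 ∈ ln F b.1 b.2 ∧ j • a.2 ∈ ln F b.1 b.2
/-- same `J`-orbit of (point, line) flags -/
def FE (J : Subgroup G) (a b : V × V) : Prop := ∃ j ∈ J, j • a.1 = b.1 ∧ j • a.2 ∈ ln F b.1 b.2
/-- same `J`-orbit of planes -/
def PE (J : Subgroup G) (a b : V × V × V) : Prop :=
  ∃ j ∈ J, j • a.1 ∈ pl F b.1 b.2.1 b.2.2 ∧ j • a.2.1 ∈ pl F b.1 b.2.1 b.2.2 ∧
    j • a.2.2 ∈ pl F b.1 b.2.1 b.2.2
/-- the affine group induced on the line `⟨x,y⟩` by the stabilizer of the flag -/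
def Aff (J : Subgroup G) (x y : V) : Set (F × F) :=
  {a | ∃ j ∈ J, j • x = a.1 • x ∧ j • y = y + a.2 • x}
variable {F}

/-- a symmetric `J`-equivariant family of `d`-dimensional subspaces `R v ∋ v` -/
structure Rel (J : Subgroup G) (R : V → Submodule F V) (d : ℕ) : Prop where
  dim : ∀ v, v ≠ 0 → finrank F (R v) = d
  self : ∀ v, v ≠ 0 → v ∈ R v
  symm : ∀ v w, v ≠ 0 → w ≠ 0 → w ∈ R v → v ∈ R w
  eqv : ∀ j ∈ J, ∀ v w, v ≠ 0 → w ∈ R v → j • w ∈ R (j • v)

def Spr (R : V → Submodule F V) : Prop := ∀ v w, v ≠ 0 → w ≠ 0 → w ∈ R v → R w = R v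

end defs

/-- at most two classes -/
def Le2 {α : Type*} (S : α → Prop) (r : α → α → Prop) : Prop :=
  ∀ a b c, S a → S b → S c → r a b ∨ r a c ∨ r b c
/-- at most three classes -/
def Le3 {α : Type*} (S : α → Prop) (r : α → α → Prop) : Prop :=
  ∀ a b c d, S a → S b → S c → S d → r a b ∨ r a c ∨ r a d ∨ r b c ∨ r b d ∨ r c d

/-- number of `J`-orbits meeting `S` -/
noncomputable def nos {G A : Type*} [Group G] [MulAction G A] (J : Subgroup G) (S : Set A) : ℕ :=
  (Quotient.mk (orbitRel J A) '' S).ncard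

/-- number of double cosets -/
noncomputable def dc {G : Type*} [Group G] (A B : Subgroup G) : ℕ :=
  Nat.card (orbitRel.Quotient A (G ⧸ B))

/-- the global hypotheses -/
structure Hy (F V : Type u) [Field F] [AddCommGroup V] [Module F V] {G : Type u} [Group G]
    [DistribMulAction G V] [SMulCommClass G F V] (H : Subgroup G) : Prop where
  n5 : 5 ≤ finrank F V
  fa : ∀ g : G, (∀ v : V, g • v = v) → g = 1
  sl : SLe F V G
  sc : Sc F V H
  mx : IsCoatom H
  r3 : dc H H = 3
  nt : ∃ t : G, IsTv F V t ∧ t ∉ H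

/-! ### Chunks -/

/-- no generalized pentagon -/
def PENT : Prop := ∀ (F V : Type u) [Field F] [Fintype F] [AddCommGroup V] [Module F V] [Finite V]
  (R : V → Submodule F V), finrank F V = 5 → (∀ v, v ≠ 0 → finrank F (R v) = 3 ∧ v ∈ R v) →
  (∀ v w, v ≠ 0 → w ≠ 0 → w ∈ R v → v ∈ R w) →
  (∀ v w, Ind F v w → w ∈ R v → finrank F (R v ⊓ R w : Submodule F V) = 2) →
  (∀ v w, v ≠ 0 → w ∉ R v → finrank F (R v ⊓ R w : Submodule F V) = 1) → False

/-- Perin's lemma -/
def PL : Prop := ∀ (F V G : Type u) [Field F] [Fintype F] [AddCommGroup V] [Module F V] [Finite V]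
  [Group G] [Finite G] [DistribMulAction G V] [SMulCommClass G F V] (H : Subgroup G) (r e : ℕ),
  (∀ g : G, (∀ v : V, g • v = v) → g = 1) → r.Prime → r ∣ Fintype.card F ^ e - 1 →
  (∀ k, 0 < k → k < e → ¬ r ∣ Fintype.card F ^ k - 1) → 0 < e → finrank F V < 2 * e →
  r ∣ Nat.card H →
  (∀ W : Submodule F V, finrank F W + e = finrank F V → ∃ a ∈ H, ∃ b ∈ H, a ∈ St G W ∧ b ∈ St G W ∧
    ∃ v ∈ W, ∃ f : Dual F V, v ≠ 0 ∧ f v = 0 ∧ (∃ w ∈ W, f w ≠ 0) ∧
      ∀ u ∈ W, (a * b * a⁻¹ * b⁻¹) • u = u + f u • v) →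
  ¬ NoTv F V H

/-- two orbits on points, two on lines, three on flags is impossible for irreducible groups -/
def L1 : Prop := ∀ (F V G : Type u) [Field F] [Fintype F] [AddCommGroup V] [Module F V] [Finite V]
  [Group G] [DistribMulAction G V] [SMulCommClass G F V] (H : Subgroup G),
  4 ≤ finrank F V → Sc F V H → Irr F V H → ¬ PT V H →
  Le2 (fun v : V => v ≠ 0) (fun v w => ∃ h ∈ H, h • v = w) →
  Le2 (fun a : V × V => Ind F a.1 a.2) (LE F H) →
  (∃ a b : V × V, Ind F a.1 a.2 ∧ Ind F b.1 b.2 ∧ ¬ LE F H a b) →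
  Le3 (fun a : V × V => Ind F a.1 a.2) (FE F H) → False

/-- point-transitive groups containing a transvection -/
def TV : Prop := ∀ (F V G : Type u) [Field F] [Fintype F] [AddCommGroup V] [Module F V] [Finite V]
  [Group G] [Finite G] [DistribMulAction G V] [SMulCommClass G F V] (H : Subgroup G),
  4 ≤ finrank F V → (∀ g : G, (∀ v : V, g • v = v) → g = 1) → PT V H → ¬ NoTv F V H →
  (∀ t : G, IsTv F V t → t ∈ H) ∨
    ∃ (R : V → Submodule F V) (d : ℕ), Rel H R d ∧ d + 1 = finrank F V

/-- two orbits on ordered pairs of points, the type depending only on the line -/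
def ST : Prop := ∀ (F V G : Type u) [Field F] [Fintype F] [AddCommGroup V] [Module F V] [Finite V]
  [Group G] [Finite G] [DistribMulAction G V] [SMulCommClass G F V] (J : Subgroup G)
  (T : V → V → Prop), Sc F V J → PT V J → (∀ j ∈ J, ∀ v w, T (j • v) (j • w) ↔ T v w) →
  (∀ v w v' w', Ind F v w → Ind F v' w' → ln F v w = ln F v' w' → (T v w ↔ T v' w')) →
  (∀ v w v' w', Ind F v w → Ind F v' w' → (T v w ↔ T v' w') →
    ∃ j ∈ J, j • v = v' ∧ ∃ c : F, j • w = c • w') →
  (∃ v w, Ind F v w ∧ T v w) → (∃ v w, Ind F v w ∧ ¬ T v w) →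
  ∃ (b : Prop) (R : V → Submodule F V) (d : ℕ), Rel J R d ∧ 2 ≤ d ∧ d < finrank F V ∧
    (∀ v w, Ind F v w → (w ∈ R v ↔ (T v w ↔ b))) ∧ (Spr R ∨ d + 1 = finrank F V)

/-- 2-transitive groups induce all transvections on every plane -/
def M1 : Prop := ∀ (F V G : Type u) [Field F] [Fintype F] [AddCommGroup V] [Module F V] [Finite V]
  [Group G] [Finite G] [DistribMulAction G V] [SMulCommClass G F V] (H : Subgroup G),
  Sc F V H → Two F V H → ∀ x y z w : V, Ind3 F x y z → w ∈ ln F x y →
    ∃ h ∈ H, h • x = x ∧ h • y = y ∧ h • z = z + w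

/-- line-transitive with a distinguished point on every line -/
def C2 : Prop := ∀ (F V G : Type u) [Field F] [Fintype F] [AddCommGroup V] [Module F V] [Finite V]
  [Group G] [Finite G] [DistribMulAction G V] [SMulCommClass G F V] (H : Subgroup G) (x y : V),
  3 ≤ finrank F V → Sc F V H → PT V H →
  (∀ a b : V × V, Ind F a.1 a.2 → Ind F b.1 b.2 → LE F H a b) → Ind F x y →
  (∀ h ∈ H, h • x ∈ ln F x y → h • y ∈ ln F x y → h • x ∈ F ∙ x) →
  (∀ l m : F, l ≠ 0 → (l, m) ∈ Aff F H x y) → False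

/-- flag-transitive, `PGL₂` doubly transitive on the cosets of the group induced on a line -/
def C3 : Prop := ∀ (F V G : Type u) [Field F] [Fintype F] [AddCommGroup V] [Module F V] [Finite V]
  [Group G] [Finite G] [DistribMulAction G V] [SMulCommClass G F V] (H : Subgroup G) (x y : V)
  (m : ℕ), 3 ≤ finrank F V → (∀ g : G, (∀ v : V, g • v = v) → g = 1) → Sc F V H →
  (∀ a b : V × V, Ind F a.1 a.2 → Ind F b.1 b.2 → FE F H a b) → ¬ Two F V H → Ind F x y →
  m * (Aff F H x y).ncard = Fintype.card F * (Fintype.card F - 1) →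
  m - 1 ∣ (Fintype.card F + 1) * (Aff F H x y).ncard →
  Fintype.card F = 2 ∧ Odd (Nat.card H)

/-- invariant null polarity -/
def NP : Prop := ∀ (F V G : Type u) [Field F] [Fintype F] [AddCommGroup V] [Module F V] [Finite V]
  [Group G] [Finite G] [DistribMulAction G V] [SMulCommClass G F V] (H : Subgroup G)
  (R : V → Submodule F V) (d : ℕ), Hy F V H → Rel H R d → d + 1 = finrank F V → False

/-- invariant spread -/
def SPR : Prop := ∀ (F V G : Type u) [Field F] [Fintype F] [AddCommGroup V] [Module F V] [Finite V]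
  [Group G] [Finite G] [DistribMulAction G V] [SMulCommClass G F V] (H : Subgroup G)
  (R : V → Submodule F V) (d : ℕ), Hy F V H → NoTv F V H → Rel H R d → 2 ≤ d → d < finrank F V →
  Spr R → False

/-- the doubly transitive case -/
def MAIN : Prop := ∀ (F V G : Type u) [Field F] [Fintype F] [AddCommGroup V] [Module F V] [Finite V]
  [Group G] [Finite G] [DistribMulAction G V] [SMulCommClass G F V] (H : Subgroup G),
  Hy F V H → NoTv F V H → Two F V H →
  (6 ≤ finrank F V → Le2 (fun a : V × V × V => Ind3 F a.1 a.2.1 a.2.2) (PE F H)) → False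

end H13.R3
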