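import Cfsg.Agent.H13.R3_0

/-! API for S2194: frames, orbit counting, Brauer's lemma, Sylow transitivity, counting functionals. -/

set_option autoImplicit false
set_option linter.unusedSectionVars false

open Module MulAction

namespace H13.R3

universe u

/-! ### counting -/
section count
variable {α β : Type*} [Finite α] [Finite β]

theorem dcount_le (X : Set α) (Y : Set β) (r : α → β → Prop) {m n : ℕ}
    (hm : ∀ x ∈ X, m ≤ {y | y ∈ Y ∧ r x y}.ncard) (hn : ∀ y ∈ Y, {x | x ∈ X ∧ r x y}.ncard ≤ n) :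
    X.ncard * m ≤ Y.ncard * n := by
  classical
  have := Fintype.ofFinite α
  have := Fintype.ofFinite β
  rw [Set.ncard_eq_toFinset_card' X, Set.ncard_eq_toFinset_card' Y]
  refine Finset.card_mul_le_card_mul r (fun x hx => ?_) (fun y hy => ?_)
  · refine (hm x (by simpa using hx)).trans (le_of_eq ?_)
    rw [Set.ncard_eq_toFinset_card']; congr 1; ext; simp [Finset.mem_bipartiteAbove]
  · refine (le_of_eq ?_).trans (hn y (by simpa using hy))
    rw [Set.ncard_eq_toFinset_card']; congr 1; ext; simp [Finset.mem_bipartiteBelow]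

theorem dcount (X : Set α) (Y : Set β) (r : α → β → Prop) {m n : ℕ}
    (hm : ∀ x ∈ X, {y | y ∈ Y ∧ r x y}.ncard = m) (hn : ∀ y ∈ Y, {x | x ∈ X ∧ r x y}.ncard = n) :
    X.ncard * m = Y.ncard * n :=
  le_antisymm (dcount_le X Y r (fun x hx => (hm x hx).ge) fun y hy => (hn y hy).le)
    (dcount_le Y X (fun y x => r x y) (fun y hy => (hn y hy).ge) fun x hx => (hm x hx).le)

theorem ncard_pairs_le (S : Set (α × β)) (X : Set α) {m : ℕ} (h1 : ∀ a ∈ S, a.1 ∈ X)
    (hm : ∀ x ∈ X, {y | (x, y) ∈ S}.ncard ≤ m) : S.ncard ≤ X.ncard * m := by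
  have := dcount_le S X (fun a x => a.1 = x) (m := 1) (n := m) (fun a ha => by
    rw [show {y | y ∈ X ∧ a.1 = y} = {a.1} by
      ext y; constructor
      · rintro ⟨-, h⟩; exact h.symm
      · rintro rfl; exact ⟨h1 a ha, rfl⟩, Set.ncard_singleton]) (fun x hx => by
    refine le_trans ?_ (hm x hx)
    refine Set.ncard_le_ncard_of_injOn (fun a => a.2) ?_ ?_
    · rintro ⟨a, b⟩ ⟨h, rfl⟩; exact h
    · rintro ⟨a, b⟩ ⟨-, rfl⟩ ⟨a', b'⟩ ⟨-, h⟩ h'; exact Prod.ext h.symm h')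
  simpa using this

theorem le_ncard_pairs (S : Set (α × β)) (X : Set α) {m : ℕ}
    (hm : ∀ x ∈ X, m ≤ {y | (x, y) ∈ S}.ncard) : X.ncard * m ≤ S.ncard := by
  have := dcount_le X S (fun x a => a.1 = x) (m := m) (n := 1) (fun x hx => by
    refine (hm x hx).trans ?_
    refine Set.ncard_le_ncard_of_injOn (fun y => (x, y)) (fun y hy => ⟨hy, rfl⟩) ?_
    intro a _ b _ h; exact (Prod.ext_iff.1 h).2) (fun a _ => by
    rw [← Set.ncard_singleton a.1]
    exact Set.ncard_le_ncard (fun x hx => hx.2.symm))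
  simpa using this

theorem ncard_pairs (S : Set (α × β)) (X : Set α) {m : ℕ} (h1 : ∀ a ∈ S, a.1 ∈ X)
    (hm : ∀ x ∈ X, {y | (x, y) ∈ S}.ncard = m) : S.ncard = X.ncard * m :=
  le_antisymm (ncard_pairs_le S X h1 fun x hx => (hm x hx).le)
    (le_ncard_pairs S X fun x hx => (hm x hx).ge)

end count

/-! ### orbits -/
section orb
variable {G A : Type*} [Group G] [MulAction G A] {J : Subgroup G}

theorem qeq {a b : A} : Quotient.mk (orbitRel J A) a = Quotient.mk (orbitRel J A) b ↔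
    ∃ j ∈ J, j • b = a := by
  rw [Quotient.eq, orbitRel_apply]
  exact ⟨fun ⟨j, h⟩ => ⟨j, j.2, h⟩, fun ⟨j, hj, h⟩ => ⟨⟨j, hj⟩, h⟩⟩

theorem osymm {a b : A} (h : ∃ j ∈ J, j • a = b) : ∃ j ∈ J, j • b = a := by
  obtain ⟨j, hj, rfl⟩ := h; exact ⟨j⁻¹, J.inv_mem hj, inv_smul_smul j a⟩

theorem otrans {a b c : A} (h : ∃ j ∈ J, j • a = b) (h' : ∃ j ∈ J, j • b = c) :
    ∃ j ∈ J, j • a = c := by
  obtain ⟨j, hj, rfl⟩ := h; obtain ⟨k, hk, rfl⟩ := h'
  exact ⟨k * j, J.mul_mem hk hj, mul_smul k j a⟩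

theorem nos_univ : nos J (Set.univ : Set A) = Nat.card (orbitRel.Quotient J A) := by
  rw [nos, Set.image_univ, Quotient.mk_surjective.range_eq, Set.ncard_univ]

variable [Finite A]

theorem nos_mono {S T : Set A} (h : S ⊆ T) : nos J S ≤ nos J T :=
  Set.ncard_le_ncard (Set.image_mono h)

/-- upper bound from a finite set of representatives -/
theorem nos_le {S : Set A} (T : Set A) (h : ∀ s ∈ S, ∃ a ∈ T, ∃ j ∈ J, j • a = s) :
    nos J S ≤ T.ncard := by
  refine le_trans (Set.ncard_le_ncard ?_) (Set.ncard_image_le (f := Quotient.mk (orbitRel J A)))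
  rintro _ ⟨s, hs, rfl⟩
  obtain ⟨a, ha, h⟩ := h s hs
  exact ⟨a, ha, (qeq.2 h).symm⟩

/-- lower bound from pairwise inequivalent elements -/
theorem le_nos {S : Set A} (T : Set A) (hT : T ⊆ S)
    (h : ∀ a ∈ T, ∀ b ∈ T, ∀ j ∈ J, j • a = b → a = b) : T.ncard ≤ nos J S := by
  refine le_trans (le_of_eq ?_) (nos_mono hT)
  refine (Set.InjOn.ncard_image ?_).symm
  intro a ha b hb hab
  obtain ⟨j, hj, e⟩ := qeq.1 hab
  exact (h b hb a ha j hj e).symm

theorem nos_union {S T : Set A} (h : ∀ a ∈ S, ∀ j ∈ J, j • a ∉ T) :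
    nos J (S ∪ T) = nos J S + nos J T := by
  rw [nos, Set.image_union, Set.ncard_union_eq]; · rfl
  rw [Set.disjoint_left]
  rintro _ ⟨a, ha, rfl⟩ ⟨b, hb, e⟩
  obtain ⟨j, hj, e⟩ := qeq.1 e
  exact h a ha j hj (e ▸ hb)

theorem nos_pos {S : Set A} (h : S.Nonempty) : 1 ≤ nos J S :=
  (Set.ncard_pos (Set.toFinite _)).2 (h.image _)

theorem tr_of_nos {S : Set A} (h : nos J S ≤ 1) {a b : A} (ha : a ∈ S) (hb : b ∈ S) :
    ∃ j ∈ J, j • a = b :=
  qeq.1 ((Set.ncard_le_one_iff (Set.toFinite _)).1 h ⟨b, hb, rfl⟩ ⟨a, ha, rfl⟩)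

theorem le2_of_nos {S : Set A} (h : nos J S ≤ 2) : Le2 (· ∈ S) fun a b => ∃ j ∈ J, j • a = b := by
  intro a b c ha hb hc
  by_contra hn
  simp only [not_or] at hn
  obtain ⟨h1, h2, h3⟩ := hn
  have e1 : ∀ {x y : A}, (¬ ∃ j ∈ J, j • x = y) →
      Quotient.mk (orbitRel J A) x ≠ Quotient.mk (orbitRel J A) y := fun h e => h (qeq.1 e.symm)
  have : ({Quotient.mk (orbitRel J A) a, Quotient.mk (orbitRel J A) b,
      Quotient.mk (orbitRel J A) c} : Set _).ncard ≤ nos J S := by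
    refine Set.ncard_le_ncard ?_
    rintro _ (rfl | rfl | rfl)
    exacts [⟨a, ha, rfl⟩, ⟨b, hb, rfl⟩, ⟨c, hc, rfl⟩]
  rw [Set.ncard_eq_three.2 ⟨_, _, _, e1 h1, e1 h2, e1 h3, rfl⟩] at this
  omega

theorem le3_of_nos {S : Set A} (h : nos J S ≤ 3) : Le3 (· ∈ S) fun a b => ∃ j ∈ J, j • a = b := by
  intro a b c d ha hb hc hd
  by_contra hn
  simp only [not_or] at hn
  obtain ⟨h1, h2, h3, h4, h5, h6⟩ := hn
  have e1 : ∀ {x y : A}, (¬ ∃ j ∈ J, j • x = y) →
      Quotient.mk (orbitRel J A) x ≠ Quotient.mk (orbitRel J A) y := fun h e => h (qeq.1 e.symm)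
  have : ({Quotient.mk (orbitRel J A) a, Quotient.mk (orbitRel J A) b,
      Quotient.mk (orbitRel J A) c, Quotient.mk (orbitRel J A) d} : Set _).ncard ≤ nos J S := by
    refine Set.ncard_le_ncard ?_
    rintro _ (rfl | rfl | rfl | rfl)
    exacts [⟨a, ha, rfl⟩, ⟨b, hb, rfl⟩, ⟨c, hc, rfl⟩, ⟨d, hd, rfl⟩]
  rw [Set.ncard_insert_of_notMem (by
      simp only [Set.mem_insert_iff, Set.mem_singleton_iff, not_or]; exact ⟨e1 h1, e1 h2, e1 h3⟩),
    Set.ncard_eq_three.2 ⟨_, _, _, e1 h4, e1 h5, e1 h6, rfl⟩] at this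
  omega

/-- two values -/
theorem Le2.two {α : Type*} {S : α → Prop} {r : α → α → Prop} (h : Le2 S r) (hS : ∃ a, S a) :
    ∃ a b, S a ∧ S b ∧ ∀ c, S c → r a c ∨ r b c := by
  obtain ⟨a, ha⟩ := hS
  by_cases hb : ∀ c, S c → r a c
  · exact ⟨a, a, ha, ha, fun c hc => Or.inl (hb c hc)⟩
  · push Not at hb
    obtain ⟨b, hb, hab⟩ := hb
    refine ⟨a, b, ha, hb, fun c hc => ?_⟩
    rcases h a b c ha hb hc with h | h | h
    exacts [absurd h hab, Or.inl h, Or.inr h]

omit [Finite A] in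
theorem ncard_orb (J : Subgroup G) (a : A) :
    {b | ∃ j ∈ J, j • a = b}.ncard = (J ⊓ stabilizer G a).relIndex J := by
  have e : {b | ∃ j ∈ J, j • a = b} = orbit J a := by
    ext b; exact ⟨fun ⟨j, hj, h⟩ => ⟨⟨j, hj⟩, h⟩, fun ⟨j, h⟩ => ⟨j, j.2, h⟩⟩
  rw [e, ← index_stabilizer, Subgroup.inf_relIndex_left, Subgroup.relIndex]
  rfl

omit [Finite A] in
/-- an orbit of a subgroup of `H` has size dividing `|H|` -/
theorem orb_dvd {H : Subgroup G} (hJ : J ≤ H) {S : Set A} {a : A} (h1 : ∀ j ∈ J, j • a ∈ S)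
    (h2 : ∀ b ∈ S, ∃ j ∈ J, j • a = b) : S.ncard ∣ Nat.card H := by
  have e : S = {b | ∃ j ∈ J, j • a = b} :=
    Set.ext fun b => ⟨h2 b, fun ⟨j, hj, h⟩ => h ▸ h1 j hj⟩
  rw [e, ncard_orb]
  exact (Subgroup.relIndex_dvd_card _ _).trans (Subgroup.card_dvd_of_le hJ)

/-- a Sylow subgroup of a group transitive on a set of prime power size is transitive -/
theorem sylow_trans [Finite G] {p k : ℕ} [hp : Fact p.Prime] {S : Set A}
    (h1 : ∀ j ∈ J, ∀ a ∈ S, j • a ∈ S) (h2 : ∀ a ∈ S, ∀ b ∈ S, ∃ j ∈ J, j • a = b)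
    (hc : S.ncard = p ^ k) :
    ∃ P : Subgroup G, P ≤ J ∧ IsPGroup p P ∧ ∀ a ∈ S, ∀ b ∈ S, ∃ g ∈ P, g • a = b := by
  obtain ⟨P⟩ : Nonempty (Sylow p J) := inferInstance
  have hle : (P : Subgroup J).map J.subtype ≤ J := Subgroup.map_subtype_le _
  refine ⟨(P : Subgroup J).map J.subtype, hle, P.isPGroup'.map _, fun a ha => ?_⟩
  set Q := (P : Subgroup J).map J.subtype
  have hi : ¬ p ∣ Q.relIndex J := by
    rw [Subgroup.relIndex, Subgroup.subgroupOf, Subgroup.comap_map_eq_self_of_injective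
      J.subtype_injective]
    exact P.not_dvd_index
  have e : S = {b | ∃ j ∈ J, j • a = b} :=
    Set.ext fun b => ⟨h2 a ha b, fun ⟨j, hj, h⟩ => h ▸ h1 j hj a ha⟩
  have hsub : {b | ∃ j ∈ Q, j • a = b} ⊆ S := fun b ⟨j, hj, h⟩ => h ▸ h1 j (hle hj) a ha
  have hd : p ^ k ∣ {b | ∃ j ∈ Q, j • a = b}.ncard := by
    have h3 := Subgroup.relIndex_mul_relIndex (Q ⊓ stabilizer G a) Q J inf_le_left hle
    have h4 := Subgroup.relIndex_mul_relIndex (Q ⊓ stabilizer G a) (J ⊓ stabilizer G a) J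
      (inf_le_inf_right _ hle) inf_le_left
    rw [← ncard_orb J a, ← e, hc, ← h3] at h4
    rw [ncard_orb]
    exact (Nat.Coprime.pow_left k ((Nat.Prime.coprime_iff_not_dvd hp.out).2 hi)).dvd_of_dvd_mul_right
      (h4 ▸ Dvd.intro_left _ rfl)
  have hpos : 0 < {b | ∃ j ∈ Q, j • a = b}.ncard :=
    (Set.ncard_pos (Set.toFinite _)).2 ⟨a, 1, Q.one_mem, one_smul _ _⟩
  have := Set.eq_of_subset_of_ncard_le hsub (hc ▸ Nat.le_of_dvd hpos hd)
  intro b hb
  rw [← this] at hb; exact hb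

/-- Burnside -/
theorem burn [Finite G] (J : Subgroup G) (A : Type*) [MulAction G A] [Finite A] :
    ∑ᶠ j : J, {a : A | (j : G) • a = a}.ncard = nos J (Set.univ : Set A) * Nat.card J := by
  classical
  have := Fintype.ofFinite J
  have := Fintype.ofFinite A
  have := Fintype.ofFinite (orbitRel.Quotient J A)
  have h := sum_card_fixedBy_eq_card_orbits_mul_card_group J A
  rw [nos_univ, finsum_eq_sum_of_fintype, Nat.card_eq_fintype_card, Nat.card_eq_fintype_card, ← h]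
  refine Finset.sum_congr rfl fun j _ => ?_
  rw [← Nat.card_eq_fintype_card, ← Nat.card_coe_set_eq]; rfl

end orb

/-! ### linear algebra -/
section lin
variable {F : Type u} [Field F] {V : Type u} [AddCommGroup V] [Module F V]
  {G : Type u} [Group G] [DistribMulAction G V] [SMulCommClass G F V] {x y z v w : V} {g : G}

theorem gsz : g • v = 0 ↔ v = 0 := smul_eq_zero_iff_eq g
theorem gsc (g : G) (c : F) (v : V) : g • c • v = c • g • v := smul_comm g c v

theorem mem_ln {u : V} : u ∈ ln F x y ↔ ∃ a b : F, a • x + b • y = u := Submodule.mem_span_pair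
theorem mem_pl {u : V} : u ∈ pl F x y z ↔ ∃ a b c : F, a • x + b • y + c • z = u :=
  Submodule.mem_span_triple
theorem l_ln : x ∈ ln F x y := Submodule.subset_span (by simp)
theorem r_ln : y ∈ ln F x y := Submodule.subset_span (by simp)
theorem ln_comm (x y : V) : ln F x y = ln F y x := by rw [ln, ln, Set.pair_comm]
theorem ln_le {U : Submodule F V} : ln F x y ≤ U ↔ x ∈ U ∧ y ∈ U := by
  rw [ln, Submodule.span_le, Set.insert_subset_iff, Set.singleton_subset_iff]; rfl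
theorem pl_le {U : Submodule F V} : pl F x y z ≤ U ↔ x ∈ U ∧ y ∈ U ∧ z ∈ U := by
  rw [pl, Submodule.span_le, Set.insert_subset_iff, Set.insert_subset_iff,
    Set.singleton_subset_iff]; rfl
theorem p1_pl : x ∈ pl F x y z := Submodule.subset_span (by simp)
theorem p2_pl : y ∈ pl F x y z := Submodule.subset_span (by simp)
theorem p3_pl : z ∈ pl F x y z := Submodule.subset_span (by simp)
theorem ln_le_pl : ln F x y ≤ pl F x y z := ln_le.2 ⟨p1_pl, p2_pl⟩
theorem sp_le_ln : (F ∙ x) ≤ ln F x y := (Submodule.span_singleton_le_iff_mem _ _).2 l_ln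
theorem ln_eq_sup (x y : V) : ln F x y = (F ∙ x) ⊔ (F ∙ y) := by
  rw [ln, Submodule.span_insert]
theorem pl_eq_sup (x y z : V) : pl F x y z = ln F x y ⊔ (F ∙ z) := by
  rw [ln, pl, ← Submodule.span_union]; congr 1; ext; simp only [Set.mem_insert_iff, Set.mem_union, Set.mem_singleton_iff, or_assoc]

theorem smul_mem_sp {u : V} (g : G) (h : u ∈ F ∙ x) : g • u ∈ F ∙ (g • x) := by
  obtain ⟨a, rfl⟩ := Submodule.mem_span_singleton.1 h
  exact Submodule.mem_span_singleton.2 ⟨a, (gsc g a x).symm⟩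
theorem smul_mem_ln {u : V} (g : G) (h : u ∈ ln F x y) : g • u ∈ ln F (g • x) (g • y) := by
  obtain ⟨a, b, rfl⟩ := mem_ln.1 h
  exact mem_ln.2 ⟨a, b, by rw [smul_add, gsc, gsc]⟩
theorem smul_mem_pl {u : V} (g : G) (h : u ∈ pl F x y z) :
    g • u ∈ pl F (g • x) (g • y) (g • z) := by
  obtain ⟨a, b, c, rfl⟩ := mem_pl.1 h
  exact mem_pl.2 ⟨a, b, c, by rw [smul_add, smul_add, gsc, gsc, gsc]⟩
theorem smul_mem_sp_iff {u : V} : g • u ∈ F ∙ (g • x) ↔ u ∈ F ∙ x :=
  ⟨fun h => by simpa using smul_mem_sp g⁻¹ h, smul_mem_sp g⟩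
theorem smul_mem_ln_iff {u : V} : g • u ∈ ln F (g • x) (g • y) ↔ u ∈ ln F x y :=
  ⟨fun h => by simpa using smul_mem_ln g⁻¹ h, smul_mem_ln g⟩
theorem smul_mem_pl_iff {u : V} : g • u ∈ pl F (g • x) (g • y) (g • z) ↔ u ∈ pl F x y z :=
  ⟨fun h => by simpa using smul_mem_pl g⁻¹ h, smul_mem_pl g⟩

theorem Ind.smul (h : Ind F x y) (g : G) : Ind F (g • x) (g • y) :=
  ⟨fun e => h.1 (gsz.1 e), fun e => h.2 (smul_mem_sp_iff.1 e)⟩
theorem Ind3.smul (h : Ind3 F x y z) (g : G) : Ind3 F (g • x) (g • y) (g • z) :=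
  ⟨h.1.smul g, fun e => h.2 (smul_mem_ln_iff.1 e)⟩
theorem Ind.ne0 (h : Ind F x y) : y ≠ 0 := fun e => h.2 (e ▸ Submodule.zero_mem _)
theorem ind_iff : Ind F x y ↔ ∀ a b : F, a • x + b • y = 0 → a = 0 ∧ b = 0 := by
  constructor
  · rintro ⟨h1, h2⟩ a b e
    have hb : b = 0 := by
      by_contra hb
      refine h2 (Submodule.mem_span_singleton.2 ⟨-(b⁻¹ * a), ?_⟩)
      have : y = b⁻¹ • (b • y) := by rw [smul_smul, inv_mul_cancel₀ hb, one_smul]
      rw [this, eq_neg_of_add_eq_zero_right e]; module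
    rw [hb, zero_smul, add_zero, smul_eq_zero] at e
    exact ⟨e.resolve_right h1, hb⟩
  · intro h
    refine ⟨fun e => one_ne_zero (h 1 0 (by simp [e])).1, fun e => ?_⟩
    obtain ⟨a, e⟩ := Submodule.mem_span_singleton.1 e
    exact neg_ne_zero.2 one_ne_zero (h a (-1) (by simp [e])).2
theorem Ind.symm (h : Ind F x y) : Ind F y x :=
  ind_iff.2 fun a b e => (ind_iff.1 h b a (by rw [add_comm, e])).symm
theorem Ind.li (h : Ind F x y) : LinearIndependent F ![x, y] :=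
  LinearIndependent.pair_iff.2 (ind_iff.1 h)
theorem Ind3.li (h : Ind3 F x y z) : LinearIndependent F ![x, y, z] := by
  have : LinearIndependent F (Fin.snoc ![x, y] z : Fin 3 → V) :=
    linearIndependent_finSnoc.2 ⟨h.1.li, by
      rw [Matrix.range_cons_cons_empty]; exact h.2⟩
  convert this using 1
  ext i; fin_cases i <;> rfl
theorem Ind.sml (h : Ind F x y) {a b : F} (ha : a ≠ 0) (hb : b ≠ 0) : Ind F (a • x) (b • y) :=
  ind_iff.2 fun c d e => by
    rw [smul_smul, smul_smul] at e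
    have := ind_iff.1 h _ _ e
    exact ⟨(mul_eq_zero.1 this.1).resolve_right ha, (mul_eq_zero.1 this.2).resolve_right hb⟩

theorem finrank_sup_sp [FiniteDimensional F V] {W : Submodule F V} (h : z ∉ W) :
    finrank F (W ⊔ (F ∙ z) : Submodule F V) = finrank F W + 1 := by
  have hz : z ≠ 0 := fun e => h (e ▸ W.zero_mem)
  have := Submodule.finrank_sup_add_finrank_inf_eq W (F ∙ z)
  rw [finrank_span_singleton hz, (Submodule.disjoint_span_singleton_of_notMem h).eq_bot,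
    finrank_bot] at this
  omega
theorem Ind.finrank [FiniteDimensional F V] (h : Ind F x y) : finrank F (ln F x y) = 2 := by
  rw [ln_eq_sup, finrank_sup_sp h.2, finrank_span_singleton h.1]
theorem Ind3.finrank [FiniteDimensional F V] (h : Ind3 F x y z) : finrank F (pl F x y z) = 3 := by
  rw [pl_eq_sup, finrank_sup_sp h.2, h.1.finrank]
theorem finrank_ln_le (x y : V) : finrank F (ln F x y) ≤ 2 := by
  classical
  have := finrank_span_finset_le_card (R := F) ({x, y} : Finset V)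
  rw [Set.finrank, Finset.coe_pair] at this
  exact this.trans Finset.card_le_two
theorem ln_eq [FiniteDimensional F V] {a b : V} (h : Ind F a b) (ha : a ∈ ln F x y)
    (hb : b ∈ ln F x y) : ln F a b = ln F x y :=
  Submodule.eq_of_le_of_finrank_le (ln_le.2 ⟨ha, hb⟩) (h.finrank ▸ finrank_ln_le x y)
theorem pl_eq [FiniteDimensional F V] {a b c : V} (h : Ind3 F a b c) (h' : Ind3 F x y z)
    (ha : a ∈ pl F x y z) (hb : b ∈ pl F x y z) (hc : c ∈ pl F x y z) : pl F a b c = pl F x y z :=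
  Submodule.eq_of_le_of_finrank_eq (pl_le.2 ⟨ha, hb, hc⟩) (h.finrank.trans h'.finrank.symm)
theorem sp_eq {a : V} (ha : a ≠ 0) (h : a ∈ F ∙ x) : (F ∙ a) = F ∙ x := by
  obtain ⟨c, rfl⟩ := Submodule.mem_span_singleton.1 h
  exact Submodule.span_singleton_smul_eq (IsUnit.mk0 c fun e => ha (by rw [e, zero_smul])) x
theorem ex_notMem [FiniteDimensional F V] {A B : Submodule F V} (h : finrank F A < finrank F B) :
    ∃ u ∈ B, u ∉ A := by
  by_contra hn
  push Not at hn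
  exact absurd (Submodule.finrank_mono (show B ≤ A from hn)) (by omega)
theorem ex_notMem' [FiniteDimensional F V] {A : Submodule F V} (h : finrank F A < finrank F V) :
    ∃ u, u ∉ A := by
  obtain ⟨u, -, hu⟩ := ex_notMem (B := ⊤) (A := A) (by rwa [finrank_top]); exact ⟨u, hu⟩

theorem mem_St_of [Finite V] {W : Submodule F V} (h : ∀ u ∈ W, g • u ∈ W) : g ∈ St G W := by
  intro u
  refine ⟨fun hu => ?_, h u⟩
  have hinj : Function.Injective (fun a : W => (⟨g • (a : V), h a a.2⟩ : W)) := fun a b e =>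
    Subtype.ext (MulAction.injective g (congrArg Subtype.val e))
  obtain ⟨a, e⟩ := Finite.injective_iff_surjective.1 hinj ⟨g • u, hu⟩
  rw [← MulAction.injective g (congrArg Subtype.val e)]; exact a.2
theorem mem_St_sp [Finite V] (h : g • x ∈ F ∙ x) : g ∈ St G (F ∙ x) :=
  mem_St_of fun _ hu => (Submodule.span_singleton_le_iff_mem _ _).2 h (smul_mem_sp g hu)
theorem mem_St_ln [Finite V] (h : g • x ∈ ln F x y) (h' : g • y ∈ ln F x y) :
    g ∈ St G (ln F x y) := mem_St_of fun _ hu => ln_le.2 ⟨h, h'⟩ (smul_mem_ln g hu)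
theorem mem_St_pl [Finite V] (h : g • x ∈ pl F x y z) (h' : g • y ∈ pl F x y z)
    (h'' : g • z ∈ pl F x y z) : g ∈ St G (pl F x y z) :=
  mem_St_of fun _ hu => pl_le.2 ⟨h, h', h''⟩ (smul_mem_pl g hu)
theorem Sc.mem_St {J : Subgroup G} (h : Sc F V J) (W : Submodule F V) {c : F} (hc : c ≠ 0) :
    ∃ z ∈ J ⊓ St G W, ∀ u : V, z • u = c • u := by
  obtain ⟨z, hz, e⟩ := h c hc
  exact ⟨z, ⟨hz, fun u => by rw [e]; exact W.smul_mem_iff hc⟩, e⟩

theorem ex_dual {W : Submodule F V} (h : z ∉ W) : ∃ f : Dual F V, f z = 1 ∧ ∀ u ∈ W, f u = 0 := by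
  obtain ⟨f, h1, h2⟩ := Submodule.exists_dual_map_eq_bot_of_notMem h inferInstance
  refine ⟨(f z)⁻¹ • f, by simp [h1], fun u hu => ?_⟩
  have : f u = 0 := by
    have : f u ∈ W.map f := ⟨u, hu, rfl⟩
    rwa [h2] at this
  simp [this]
theorem ex_dual1 (h : z ≠ 0) : ∃ f : Dual F V, f z = 1 :=
  (ex_dual (W := (⊥ : Submodule F V)) (by simpa using h)).imp fun _ h => h.1

theorem dsmul_sc {f : Dual F V} {c : F} (hc : c ≠ 0) (h : ∀ u : V, g • u = c • u) :
    g • f = c⁻¹ • f := by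
  ext v
  have : g⁻¹ • v = c⁻¹ • v := by
    rw [inv_smul_eq_iff, h, smul_smul, mul_inv_cancel₀ hc, one_smul]
  simp [this]
theorem dsmul_smul (g : G) (f : Dual F V) (v : V) : (g • f) (g • v) = f v := by simp
theorem Tv.conj {f : Dual F V} (h : Tv g v f) (k : G) : Tv (k * g * k⁻¹) (k • v) (k • f) :=
  ⟨fun e => h.1 (gsz.1 e), fun e => h.2.1 (gsz.1 e), by rw [dsmul_smul, h.2.2.1], fun u => by
    rw [mul_smul, mul_smul, h.2.2.2, smul_add, smul_inv_smul, gsc, dsmul_apply]⟩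
theorem IsTv.conj (h : IsTv F V g) (k : G) : IsTv F V (k * g * k⁻¹) := by
  obtain ⟨v, f, h⟩ := h; exact ⟨_, _, h.conj k⟩

/-! ### cardinalities -/
variable [Fintype F] [Finite V]

instance fd : FiniteDimensional F V := Module.Finite.of_finite
instance finDual : Finite (Dual F V) := Module.finite_of_finite F
instance finQuot (W : Submodule F V) : Finite (V ⧸ W) := Finite.of_surjective _ W.mkQ_surjective

theorem q2 (F : Type u) [Field F] [Fintype F] : 2 ≤ Fintype.card F := Fintype.one_lt_card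
theorem card_V (F V : Type u) [Field F] [AddCommGroup V] [Module F V] [Fintype F] [Finite V] :
    Nat.card V = Fintype.card F ^ finrank F V := by
  rw [Module.natCard_eq_pow_finrank (K := F), Nat.card_eq_fintype_card]
theorem ncard_sub (U : Submodule F V) : (U : Set V).ncard = Fintype.card F ^ finrank F U := by
  rw [← card_V F U]; exact (Nat.card_coe_set_eq _).symm
theorem ncard_diff {A B : Submodule F V} (h : B ≤ A) : {u | u ∈ A ∧ u ∉ B}.ncard =
    Fintype.card F ^ finrank F A - Fintype.card F ^ finrank F B := by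
  rw [← ncard_sub, ← ncard_sub, ← Set.ncard_sdiff (SetLike.coe_subset_coe.2 h)]; rfl
theorem ncard_compl (B : Submodule F V) : {u | u ∉ B}.ncard =
    Fintype.card F ^ finrank F V - Fintype.card F ^ finrank F B := by
  rw [← finrank_top F V, ← ncard_diff le_top]; simp
theorem ncard_ne0 (A : Submodule F V) : {u | u ∈ A ∧ u ≠ 0}.ncard =
    Fintype.card F ^ finrank F A - 1 := by
  have := ncard_diff (bot_le (a := A))
  simpa using this
theorem ncard_ne0' : {u : V | u ≠ 0}.ncard = Fintype.card F ^ finrank F V - 1 := by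
  have := ncard_compl (⊥ : Submodule F V)
  simpa using this
theorem finrank_ker {f : Dual F V} (hf : f ≠ 0) : finrank F (LinearMap.ker f) + 1 = finrank F V :=
  Module.Dual.finrank_ker_add_one_of_ne_zero hf
theorem finrank_ann (W : Submodule F V) :
    finrank F W + finrank F W.dualAnnihilator = finrank F V :=
  Subspace.finrank_add_finrank_dualAnnihilator_eq W

/-- fibres of a surjective linear map -/
theorem ncard_fib {U : Type u} [AddCommGroup U] [Module F U] (φ : V →ₗ[F] U)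
    (hφ : Function.Surjective φ) (c : U) :
    {v | φ v = c}.ncard * Fintype.card F ^ finrank F U = Fintype.card F ^ finrank F V := by
  obtain ⟨v0, rfl⟩ := hφ c
  have e : {v | φ v = φ v0} = (fun u => u + v0) '' (LinearMap.ker φ : Set V) := by
    ext v
    simp only [Set.mem_ofPred_eq, Set.mem_image, SetLike.mem_coe, LinearMap.mem_ker]
    exact ⟨fun h => ⟨v - v0, by rw [map_sub, h, sub_self], sub_add_cancel _ _⟩,
      by rintro ⟨u, hu, rfl⟩; rw [map_add, hu, zero_add]⟩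
  rw [e, Set.ncard_image_of_injective _ (add_left_injective v0), ncard_sub, ← pow_add,
    ← φ.finrank_range_add_finrank_ker, LinearMap.range_eq_top.2 hφ, finrank_top, add_comm]

theorem card_dual {k : ℕ} {v : Fin k → V} (hv : LinearIndependent F v) (c : Fin k → F) :
    {f : Dual F V | ∀ i, f (v i) = c i}.ncard * Fintype.card F ^ k =
      Fintype.card F ^ finrank F V := by
  let φ : Dual F V →ₗ[F] (Fin k → F) := LinearMap.pi fun i => Dual.eval F V (v i)
  have hs : Function.Surjective φ := by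
    intro c
    obtain ⟨f, hf⟩ := LinearMap.exists_extend ((Basis.span hv).constr F c)
    refine ⟨f, funext fun i => ?_⟩
    have := LinearMap.congr_fun hf (Basis.span hv i)
    rw [Basis.constr_basis, LinearMap.comp_apply, Submodule.subtype_apply, Basis.span_apply] at this
    exact this
  have := ncard_fib φ hs c
  rw [finrank_fintype_fun_eq_card, Fintype.card_fin, Subspace.dual_finrank_eq] at this
  rw [← this]; congr 2; ext f; simp [φ, funext_iff]
theorem card_dual1 (h : x ≠ 0) (a : F) : {f : Dual F V | f x = a}.ncard * Fintype.card F =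
    Fintype.card F ^ finrank F V := by
  have := card_dual (v := ![x]) (by simpa using h) ![a]
  rw [pow_one] at this; rw [← this]; congr 2; ext f; simp [Fin.forall_fin_succ]
theorem card_dual2 (h : Ind F x y) (a b : F) :
    {f : Dual F V | f x = a ∧ f y = b}.ncard * Fintype.card F ^ 2 =
      Fintype.card F ^ finrank F V := by
  rw [← card_dual h.li ![a, b]]; congr 2; ext f; simp [Fin.forall_fin_succ]
theorem card_dual3 (h : Ind3 F x y z) (a b c : F) :
    {f : Dual F V | f x = a ∧ f y = b ∧ f z = c}.ncard * Fintype.card F ^ 3 =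
      Fintype.card F ^ finrank F V := by
  rw [← card_dual h.li ![a, b, c]]; congr 2; ext f; simp [Fin.forall_fin_succ]
theorem card_fib1 {f : Dual F V} (hf : f ≠ 0) (a : F) :
    {v | f v = a}.ncard * Fintype.card F = Fintype.card F ^ finrank F V := by
  have := ncard_fib f (LinearMap.surjective_iff_ne_zero.2 hf) a
  rwa [finrank_self, pow_one] at this

/-- a `p`-group acting linearly fixes a nonzero vector -/
theorem pfix {p : ℕ} [hp : Fact p.Prime] [CharP F p] {P : Subgroup G} (hP : IsPGroup p P)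
    (hV : 0 < finrank F V) : ∃ v : V, v ≠ 0 ∧ ∀ g ∈ P, g • v = v := by
  obtain ⟨k, -, hk⟩ := FiniteField.card F p
  have hd : p ∣ Nat.card V := by
    rw [card_V F V, hk, ← pow_mul]
    exact dvd_pow_self p (Nat.mul_ne_zero k.ne_zero hV.ne')
  obtain ⟨b, hb, hb0⟩ := hP.exists_fixed_point_of_prime_dvd_card_of_fixed_point V hd (a := 0)
    (fun g => smul_zero g)
  exact ⟨b, hb0.symm, fun g hg => hb ⟨g, hg⟩⟩

/-! ### Brauer's lemma -/
theorem fix_dual (g : G) :
    {f : Dual F V | g • f = f}.ncard = {v : V | g • v = v}.ncard := by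
  let φ : V →ₗ[F] V := (lin F V g⁻¹).toLinearMap - LinearMap.id
  have e1 : {f : Dual F V | g • f = f} = (LinearMap.range φ).dualAnnihilator := by
    ext f
    simp only [Set.mem_ofPred_eq, SetLike.mem_coe, Submodule.mem_dualAnnihilator, LinearMap.mem_range]
    constructor
    · rintro h _ ⟨v, rfl⟩
      have := LinearMap.congr_fun h v
      simpa [φ, sub_eq_zero] using this
    · intro h; ext v
      have := h _ ⟨v, rfl⟩
      simpa [φ, sub_eq_zero] using this
  have e2 : {v : V | g • v = v} = LinearMap.ker φ := by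
    ext v; simp only [φ, Set.mem_ofPred_eq, SetLike.mem_coe, LinearMap.mem_ker, LinearMap.sub_apply,
      LinearEquiv.coe_coe, lin_apply, LinearMap.id_apply, sub_eq_zero, inv_smul_eq_iff]
    exact eq_comm
  rw [e1, e2, ncard_sub, ncard_sub]
  congr 1
  have h1 := finrank_ann (LinearMap.range φ)
  have h2 := φ.finrank_range_add_finrank_ker
  omega

theorem br [Finite G] (J : Subgroup G) :
    nos J (Set.univ : Set (Dual F V)) = nos J (Set.univ : Set V) := by
  have h1 := burn J V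
  have h2 := burn J (Dual F V)
  simp only [fix_dual] at h2
  exact Nat.eq_of_mul_eq_mul_right Nat.card_pos (h2.symm.trans h1)

theorem brq [Finite G] {J : Subgroup G} {W : Submodule F V} (hJ : J ≤ St G W) :
    nos J (W.dualAnnihilator : Set (Dual F V)) =
      nos (J.subgroupOf (St G W)) (Set.univ : Set (V ⧸ W)) := by
  rw [← br (F := F)]
  have hs : ∀ (j : St G W) (f : Dual F (V ⧸ W)),
      (j • f) ∘ₗ W.mkQ = (j : G) • (f ∘ₗ W.mkQ : Dual F V) := fun j f => by ext v; rfl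
  have hi : ∀ f f' : Dual F (V ⧸ W), f ∘ₗ W.mkQ = f' ∘ₗ W.mkQ → f = f' := fun f f' h =>
    Submodule.linearMap_qext W h
  let ψ : Quotient (orbitRel (J.subgroupOf (St G W)) (Dual F (V ⧸ W))) →
      Quotient (orbitRel J (Dual F V)) :=
    Quotient.map (fun f => f ∘ₗ W.mkQ) (by
      rintro f f' ⟨j, rfl⟩
      exact ⟨⟨(j : St G W), j.2⟩, (hs j f').symm⟩)
  have hψ : Function.Injective ψ := by
    intro a b
    induction a using Quotient.inductionOn
    induction b using Quotient.inductionOn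
    intro e
    obtain ⟨j, hj, e⟩ := qeq.1 e
    exact qeq.2 ⟨⟨j, hJ hj⟩, hj, hi _ _ ((hs _ _).trans e)⟩
  rw [nos, nos, ← Set.ncard_image_of_injective _ hψ, Set.image_image]
  congr 1; ext a; constructor
  · rintro ⟨f, hf, rfl⟩
    exact ⟨W.liftQ f fun u hu => (Submodule.mem_dualAnnihilator f).1 hf u hu, trivial, rfl⟩
  · rintro ⟨f, -, rfl⟩
    refine ⟨f ∘ₗ W.mkQ, (Submodule.mem_dualAnnihilator _).2 fun u hu => ?_, rfl⟩
    rw [LinearMap.comp_apply, Submodule.mkQ_apply, (Submodule.Quotient.mk_eq_zero W).2 hu, map_zero]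

theorem nos_split (J : Subgroup G) {S : Set V} (h : (0 : V) ∈ S) :
    nos J S = nos J {v | v ∈ S ∧ v ≠ 0} + 1 := by
  have e : S = {v | v ∈ S ∧ v ≠ 0} ∪ {0} := by
    ext v; by_cases hv : v = 0 <;> simp [hv, h]
  conv_lhs => rw [e]
  rw [nos_union fun a ha j _ h => ha.2 (gsz.1 h), nos, nos, Set.image_singleton,
    Set.ncard_singleton]

theorem pt_dual [Finite G] {J : Subgroup G} (h : PT V J) : PT (Dual F V) J := by
  intro f f' hf hf'
  have h1 := br (F := F) (V := V) J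
  rw [nos_split J (Set.mem_univ _), nos_split J (Set.mem_univ (0 : V))] at h1
  refine tr_of_nos (S := {v | v ∈ Set.univ ∧ v ≠ 0}) ?_ ⟨trivial, hf⟩ ⟨trivial, hf'⟩
  by_cases hV : ∃ v : V, v ≠ 0
  · obtain ⟨v, hv⟩ := hV
    have := nos_le (J := J) (S := {v : V | v ∈ Set.univ ∧ v ≠ 0}) {v}
      fun s hs => ⟨v, rfl, h v s hv hs.2⟩
    rw [Set.ncard_singleton] at this; omega
  · exact absurd (LinearMap.ext fun v => by rw [not_not.1 (not_exists.1 hV v)]; simp) hf

/-- the orbits on the functionals not vanishing on `W` -/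
theorem nos_off [Finite G] {J : Subgroup G} {W : Submodule F V} (hJ : J ≤ St G W) :
    nos J {f : Dual F V | f ∉ W.dualAnnihilator} +
      nos (J.subgroupOf (St G W)) (Set.univ : Set (V ⧸ W)) = nos J (Set.univ : Set V) := by
  rw [← brq hJ, ← br (F := F), ← nos_union]
  · congr 1; ext f; exact ⟨fun _ => trivial, fun _ => (em _).symm⟩
  · intro f hf j hj h
    refine hf ((Submodule.mem_dualAnnihilator _).2 fun u hu => ?_)
    rw [← dsmul_smul j]
    exact (Submodule.mem_dualAnnihilator _).1 h _ ((hJ hj u).2 hu)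

theorem notMem_ann_sp {f : Dual F V} : f ∉ (F ∙ x).dualAnnihilator ↔ f x ≠ 0 := by
  rw [Submodule.mem_dualAnnihilator, not_iff_not]
  refine ⟨fun h => h x (Submodule.mem_span_singleton_self x), fun h u hu => ?_⟩
  obtain ⟨a, rfl⟩ := Submodule.mem_span_singleton.1 hu
  rw [map_smul, h, smul_zero]

/-! ### Witt type lemmas for groups containing `SL(V)` -/
theorem SLe.tv0 (sl : SLe F V G) {f : Dual F V} (h : f v = 0) :
    ∃ g : G, ∀ u, g • u = u + f u • v := by
  obtain ⟨g, hg⟩ := sl _ (LinearEquiv.transvection.det_eq_one h)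
  exact ⟨g, fun u => by rw [hg, LinearEquiv.transvection.apply]⟩
theorem SLe.tv (sl : SLe F V G) {f : Dual F V} (hv : v ≠ 0) (hf : f ≠ 0) (h : f v = 0) :
    ∃ g : G, Tv g v f := (sl.tv0 h).imp fun _ hg => ⟨hv, hf, h, hg⟩

theorem SLe.step0 (sl : SLe F V G) {W : Submodule F V} {z z' : V}
    (h : z ∉ W ⊔ (F ∙ (z' - z))) : ∃ g : G, (∀ u ∈ W, g • u = u) ∧ g • z = z' ∧
      ∀ u, g • u - u ∈ F ∙ (z' - z) := by
  obtain ⟨f, h1, h2⟩ := ex_dual h
  obtain ⟨g, hg⟩ := sl.tv0 (f := f) (v := z' - z)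
    (h2 _ (Submodule.mem_sup_right (Submodule.mem_span_singleton_self _)))
  refine ⟨g, fun u hu => ?_, by rw [hg, h1, one_smul, add_sub_cancel], fun u => ?_⟩
  · rw [hg, h2 u (Submodule.mem_sup_left hu), zero_smul, add_zero]
  · rw [hg, add_sub_cancel_left]
    exact Submodule.smul_mem _ _ (Submodule.mem_span_singleton_self _)

theorem SLe.step1 (sl : SLe F V G) {W : Submodule F V} {z z' : V} (hz : z ∉ W)
    (h : z' ∉ W ⊔ (F ∙ z)) : ∃ g : G, (∀ u ∈ W, g • u = u) ∧ g • z = z' := by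
  refine (sl.step0 (W := W) (z := z) (z' := z') fun e => ?_).imp fun g hg => ⟨hg.1, hg.2.1⟩
  obtain ⟨w, hw, _, hc, e⟩ := Submodule.mem_sup.1 e
  obtain ⟨c, rfl⟩ := Submodule.mem_span_singleton.1 hc
  by_cases hc : c = 0
  · rw [hc, zero_smul, add_zero] at e; exact hz (e ▸ hw)
  · refine h (Submodule.mem_sup.2 ⟨-(c⁻¹ • w), W.neg_mem (W.smul_mem _ hw), (c⁻¹ + 1) • z,
      Submodule.mem_span_singleton.2 ⟨_, rfl⟩, ?_⟩)
    have : z' = c⁻¹ • (c • (z' - z)) + z := by
      rw [smul_smul, inv_mul_cancel₀ hc, one_smul, sub_add_cancel]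
    rw [this, eq_sub_iff_add_eq'.2 e]; module

/-- Witt step -/
theorem SLe.step (sl : SLe F V G) {W : Submodule F V} {z z' : V} (hz : z ∉ W) (hz' : z' ∉ W)
    (hd : finrank F W + 1 < finrank F V) : ∃ g : G, (∀ u ∈ W, g • u = u) ∧ g • z = z' := by
  by_cases h : z' ∈ W ⊔ (F ∙ z)
  · obtain ⟨a, ha⟩ := ex_notMem' (A := W ⊔ (F ∙ z)) (by rw [finrank_sup_sp hz]; exact hd)
    obtain ⟨g, h1, h2⟩ := sl.step1 hz ha
    obtain ⟨k, h3, h4⟩ := sl.step1 hz' (z' := a) fun e => ha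
      (sup_le le_sup_left ((Submodule.span_singleton_le_iff_mem _ _).2 h) e)
    exact ⟨k⁻¹ * g, fun u hu => by rw [mul_smul, h1 u hu, inv_smul_eq_iff, h3 u hu],
      by rw [mul_smul, h2, inv_smul_eq_iff, h4]⟩
  · exact sl.step1 hz h

/-- projective Witt step -/
theorem SLe.step' (sl : SLe F V G) {W : Submodule F V} {z z' : V} (hz : z ∉ W) (hz' : z' ∉ W) :
    ∃ g : G, (∀ u ∈ W, g • u = u) ∧ ∃ c : F, c ≠ 0 ∧ g • z = c • z' := by
  by_cases h : z' ∈ W ⊔ (F ∙ z)
  · obtain ⟨w, hw, _, hc, e⟩ := Submodule.mem_sup.1 h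
    obtain ⟨c, rfl⟩ := Submodule.mem_span_singleton.1 hc
    have hc : c ≠ 0 := fun hc => by rw [hc, zero_smul, add_zero] at e; exact hz' (e ▸ hw)
    obtain ⟨g, h1, h2, -⟩ := sl.step0 (W := W) (z := z) (z' := c⁻¹ • z') (by
      have : c⁻¹ • z' - z = c⁻¹ • w := by
        rw [← e, smul_add, smul_smul, inv_mul_cancel₀ hc, one_smul, add_sub_cancel_right]
      rwa [this, sup_eq_left.2 ((Submodule.span_singleton_le_iff_mem _ _).2 (W.smul_mem _ hw))])
    exact ⟨g, h1, c⁻¹, inv_ne_zero hc, h2⟩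
  · exact (sl.step1 hz h).imp fun g hg => ⟨hg.1, 1, one_ne_zero, by rw [hg.2, one_smul]⟩

theorem SLe.w1 (sl : SLe F V G) (hd : 1 < finrank F V) {x' : V} (h : x ≠ 0) (h' : x' ≠ 0) :
    ∃ g : G, g • x = x' :=
  (sl.step (W := ⊥) (by simpa using h) (by simpa using h') (by simpa using hd)).imp fun _ h => h.2
theorem SLe.w2 (sl : SLe F V G) (hd : 2 < finrank F V) {x' y' : V} (h : Ind F x y)
    (h' : Ind F x' y') : ∃ g : G, g • x = x' ∧ g • y = y' := by
  obtain ⟨g, rfl⟩ := sl.w1 (by omega) h.1 h'.1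
  obtain ⟨k, h1, h2⟩ := sl.step (h.smul g).2 h'.2 (by rw [finrank_span_singleton h'.1]; exact hd)
  exact ⟨k * g, by rw [mul_smul, h1 _ (Submodule.mem_span_singleton_self _)], by rw [mul_smul, h2]⟩
theorem SLe.w3 (sl : SLe F V G) (hd : 3 < finrank F V) {x' y' z' : V} (h : Ind3 F x y z)
    (h' : Ind3 F x' y' z') : ∃ g : G, g • x = x' ∧ g • y = y' ∧ g • z = z' := by
  obtain ⟨g, rfl, rfl⟩ := sl.w2 (by omega) h.1 h'.1
  obtain ⟨k, h1, h2⟩ := sl.step (h.smul g).2 h'.2 (by rw [h'.1.finrank]; exact hd)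
  exact ⟨k * g, by rw [mul_smul, h1 _ l_ln], by rw [mul_smul, h1 _ r_ln], by rw [mul_smul, h2]⟩
theorem SLe.w4 (sl : SLe F V G) (hd : 4 < finrank F V) {x' y' z' w' : V} (h : Ind3 F x y z)
    (h' : Ind3 F x' y' z') (hw : w ∉ pl F x y z) (hw' : w' ∉ pl F x' y' z') :
    ∃ g : G, g • x = x' ∧ g • y = y' ∧ g • z = z' ∧ g • w = w' := by
  obtain ⟨g, rfl, rfl, rfl⟩ := sl.w3 (by omega) h h'
  obtain ⟨k, h1, h2⟩ := sl.step (fun e => hw (smul_mem_pl_iff.1 e)) hw'
    (by rw [h'.finrank]; exact hd)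
  exact ⟨k * g, by rw [mul_smul, h1 _ p1_pl], by rw [mul_smul, h1 _ p2_pl],
    by rw [mul_smul, h1 _ p3_pl], by rw [mul_smul, h2]⟩

/-! ### the relations `LE`, `FE`, `PE` -/
variable {J : Subgroup G}
theorem LE.iff {a b : V × V} (ha : Ind F a.1 a.2) : LE F J a b ↔
    ∃ j ∈ J, ln F (j • a.1) (j • a.2) = ln F b.1 b.2 :=
  ⟨fun ⟨j, hj, h1, h2⟩ => ⟨j, hj, ln_eq (ha.smul j) h1 h2⟩,
    fun ⟨j, hj, h⟩ => ⟨j, hj, h ▸ l_ln, h ▸ r_ln⟩⟩
theorem LE.symm {a b : V × V} (ha : Ind F a.1 a.2) (h : LE F J a b) : LE F J b a := by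
  obtain ⟨j, hj, h⟩ := (LE.iff ha).1 h
  exact ⟨j⁻¹, J.inv_mem hj, by rw [← smul_mem_ln_iff (g := j), smul_inv_smul, h]; exact l_ln,
    by rw [← smul_mem_ln_iff (g := j), smul_inv_smul, h]; exact r_ln⟩
theorem LE.trans {a b c : V × V} (h : LE F J a b) (h' : LE F J b c) : LE F J a c := by
  obtain ⟨j, hj, h1, h2⟩ := h
  obtain ⟨k, hk, h3, h4⟩ := h'
  exact ⟨k * j, J.mul_mem hk hj, by rw [mul_smul]; exact ln_le.2 ⟨h3, h4⟩ (smul_mem_ln k h1),
    by rw [mul_smul]; exact ln_le.2 ⟨h3, h4⟩ (smul_mem_ln k h2)⟩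
theorem LE.of_mem {a b : V × V} (h1 : a.1 ∈ ln F b.1 b.2) (h2 : a.2 ∈ ln F b.1 b.2) :
    LE F J a b := ⟨1, J.one_mem, by rwa [one_smul], by rwa [one_smul]⟩
theorem FE.symm {a b : V × V} (ha : Ind F a.1 a.2) (h : FE F J a b) : FE F J b a := by
  obtain ⟨j, hj, h1, h2⟩ := h
  refine ⟨j⁻¹, J.inv_mem hj, by rw [← h1, inv_smul_smul], ?_⟩
  rw [← smul_mem_ln_iff (g := j), smul_inv_smul, ln_eq (ha.smul j) (h1 ▸ l_ln) h2]; exact r_ln
theorem FE.trans {a b c : V × V} (h : FE F J a b) (h' : FE F J b c) : FE F J a c := by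
  obtain ⟨j, hj, h1, h2⟩ := h
  obtain ⟨k, hk, h3, h4⟩ := h'
  exact ⟨k * j, J.mul_mem hk hj, by rw [mul_smul, h1, h3],
    by rw [mul_smul]; exact ln_le.2 ⟨h3 ▸ l_ln, h4⟩ (smul_mem_ln k h2)⟩
theorem FE.le {a b : V × V} (h : FE F J a b) : LE F J a b := by
  obtain ⟨j, hj, h1, h2⟩ := h; exact ⟨j, hj, h1 ▸ l_ln, h2⟩
theorem PE.symm {a b : V × V × V} (ha : Ind3 F a.1 a.2.1 a.2.2) (hb : Ind3 F b.1 b.2.1 b.2.2)
    (h : PE F J a b) : PE F J b a := by
  obtain ⟨j, hj, h1, h2, h3⟩ := h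
  have e := pl_eq (ha.smul j) hb h1 h2 h3
  exact ⟨j⁻¹, J.inv_mem hj, by rw [← smul_mem_pl_iff (g := j), smul_inv_smul, e]; exact p1_pl,
    by rw [← smul_mem_pl_iff (g := j), smul_inv_smul, e]; exact p2_pl,
    by rw [← smul_mem_pl_iff (g := j), smul_inv_smul, e]; exact p3_pl⟩
theorem PE.trans {a b c : V × V × V} (h : PE F J a b) (h' : PE F J b c) : PE F J a c := by
  obtain ⟨j, hj, h1, h2, h3⟩ := h
  obtain ⟨k, hk, h4⟩ := h'
  exact ⟨k * j, J.mul_mem hk hj, by rw [mul_smul]; exact pl_le.2 h4 (smul_mem_pl k h1),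
    by rw [mul_smul]; exact pl_le.2 h4 (smul_mem_pl k h2),
    by rw [mul_smul]; exact pl_le.2 h4 (smul_mem_pl k h3)⟩
theorem Two.pt (h : Two F V J) (hd : 1 < finrank F V) : PT V J := by
  intro v w hv hw
  obtain ⟨a, ha⟩ := ex_notMem' (A := F ∙ v) (by rwa [finrank_span_singleton hv])
  obtain ⟨b, hb⟩ := ex_notMem' (A := F ∙ w) (by rwa [finrank_span_singleton hw])
  obtain ⟨j, hj, e, -⟩ := h v a w b ⟨hv, ha⟩ ⟨hw, hb⟩
  exact ⟨j, hj, e⟩

end lin

end H13.R3
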