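import Cfsg.Agent.H13.R3_2

/-! Permutation characters and their inner products (S2194). -/

set_option autoImplicit false
set_option linter.unusedSectionVars false

open Module MulAction

namespace H13.R3

universe u

theorem ncard_image_le_of {α τ σ : Type*} [Finite α] (S : Set α) (φ : α → τ) (ψ : α → σ)
    (h : ∀ a ∈ S, ∀ b ∈ S, ψ a = ψ b → φ a = φ b) : (φ '' S).ncard ≤ (ψ '' S).ncard := by
  rcases S.eq_empty_or_nonempty with rfl | ⟨a0, -⟩
  · simp
  have : ∀ t, ∃ a, t ∈ φ '' S → a ∈ S ∧ φ a = t := fun t => by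
    by_cases ht : t ∈ φ '' S
    · obtain ⟨a, ha⟩ := ht; exact ⟨a, fun _ => ha⟩
    · exact ⟨a0, fun h => absurd h ht⟩
  choose s hs using this
  refine Set.ncard_le_ncard_of_injOn (fun t => ψ (s t)) (fun t ht => ⟨_, (hs t ht).1, rfl⟩)
    (fun t ht t' ht' e => ?_) ((Set.toFinite S).image _)
  rw [← (hs t ht).2, ← (hs t' ht').2]
  exact h _ (hs t ht).1 _ (hs t' ht').1 e

theorem ncard_image_congr {α τ σ : Type*} [Finite α] (S : Set α) (φ : α → τ) (ψ : α → σ)
    (h : ∀ a ∈ S, ∀ b ∈ S, φ a = φ b ↔ ψ a = ψ b) : (φ '' S).ncard = (ψ '' S).ncard :=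
  le_antisymm (ncard_image_le_of S φ ψ fun a ha b hb => (h a ha b hb).2)
    (ncard_image_le_of S ψ φ fun a ha b hb => (h a ha b hb).1)

section dcs
variable {G : Type*} [Group G] [Finite G] {A B H : Subgroup G}

/-- number of double cosets meeting `S` -/
noncomputable def dcs (A B : Subgroup G) (S : Set G) : ℕ := nos A ((↑) '' S : Set (G ⧸ B))

theorem dcs_univ : dcs A B Set.univ = dc A B := by
  rw [dcs, Set.image_univ, QuotientGroup.mk_surjective.range_eq, dc_eq_nos]

theorem dcs_eq {τ : Type*} (S : Set G) (φ : G → τ)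
    (h : ∀ a ∈ S, ∀ b ∈ S, φ a = φ b ↔ DC A B a b) : dcs A B S = (φ '' S).ncard := by
  rw [dcs, nos, Set.image_image]
  exact ncard_image_congr _ _ _ fun a ha b hb => by
    rw [h a ha b hb, qeq, dc_iff]; exact ⟨DC.symm, DC.symm⟩

theorem dcs_union {S T : Set G} (h : ∀ a ∈ S, ∀ b ∈ T, ¬ DC A B a b) :
    dcs A B (S ∪ T) = dcs A B S + dcs A B T := by
  rw [dcs, Set.image_union, nos_union]; · rfl
  rintro _ ⟨a, ha, rfl⟩ j hj ⟨b, hb, e⟩
  exact h a ha b hb (dc_iff.1 ⟨j, hj, e.symm⟩)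

theorem dcs_one {S : Set G} {a : G} (ha : a ∈ S) (h : ∀ b ∈ S, DC A B a b) : dcs A B S = 1 := by
  rw [dcs_eq S (fun _ => ()) fun b hb c hc => ⟨fun _ => (h b hb).symm.trans (h c hc), fun _ => rfl⟩,
    Set.Nonempty.image_const ⟨a, ha⟩, Set.ncard_singleton]

theorem dcs_mono {S T : Set G} (h : S ⊆ T) : dcs A B S ≤ dcs A B T := nos_mono (Set.image_mono h)

theorem dcs_pos {S : Set G} (h : S.Nonempty) : 1 ≤ dcs A B S := nos_pos (h.image _)

theorem dcs_le_of_le {A' B' : Subgroup G} (hA : A ≤ A') (hB : B ≤ B') (S : Set G) :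
    dcs A' B' S ≤ dcs A B S := by
  rw [dcs, dcs, nos, nos, Set.image_image, Set.image_image]
  let ψ : Quotient (orbitRel A (G ⧸ B)) → Quotient (orbitRel A' (G ⧸ B')) := fun c =>
    Quotient.mk _ (c.out.out : G)
  refine le_trans (Set.ncard_le_ncard ?_) (Set.ncard_image_le (f := ψ))
  rintro _ ⟨g, hg, rfl⟩
  refine ⟨_, ⟨g, hg, rfl⟩, qeq.2 (dc_iff.2 ?_)⟩
  have := qeq.1 (Quotient.out_eq (Quotient.mk (orbitRel A (G ⧸ B)) (g : G ⧸ B)))
  rw [← QuotientGroup.out_eq' (Quotient.out _)] at this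
  obtain ⟨a, ha, b, hb, e⟩ := dc_iff.1 this
  exact ⟨a, hA ha, b, hB hb, e⟩

theorem le_dcs {S : Set G} (T : Set G) (hT : T ⊆ S) (h : ∀ a ∈ T, ∀ b ∈ T, DC A B a b → a = b) :
    T.ncard ≤ dcs A B S := by
  refine le_trans (le_of_eq ?_) (dcs_mono hT)
  rw [dcs_eq T id fun a ha b hb => ⟨fun e => (show a = b from e) ▸ DC.refl a, h a ha b hb⟩,
    Set.image_id]

theorem dcs_le {τ : Type*} [Finite τ] {S : Set G} (φ : G → τ) (T : Set τ) (h1 : ∀ a ∈ S, φ a ∈ T)
    (h : ∀ a ∈ S, ∀ b ∈ S, φ a = φ b → DC A B a b) : dcs A B S ≤ T.ncard := by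
  rw [dcs, nos, Set.image_image]
  rcases S.eq_empty_or_nonempty with rfl | ⟨a0, -⟩
  · simp
  have : ∀ t, ∃ a, t ∈ φ '' S → a ∈ S ∧ φ a = t := fun t => by
    by_cases ht : t ∈ φ '' S
    · obtain ⟨a, ha⟩ := ht; exact ⟨a, fun _ => ha⟩
    · exact ⟨a0, fun h => absurd h ht⟩
  choose s hs using this
  refine le_trans (Set.ncard_le_ncard ?_)
    (Set.ncard_image_le (f := fun t => Quotient.mk (orbitRel A (G ⧸ B)) (s t : G ⧸ B)))
  rintro _ ⟨g, hg, rfl⟩
  have := hs _ ⟨g, hg, rfl⟩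
  exact ⟨_, h1 g hg, qeq.2 (dc_iff.2 (h _ hg _ this.1 this.2.symm))⟩

theorem dcs_eq_one {S : Set G} (h : dcs A B S ≤ 1) {a b : G} (ha : a ∈ S) (hb : b ∈ S) :
    DC A B a b := dc_iff.1 (tr_of_nos h ⟨a, ha, rfl⟩ ⟨b, hb, rfl⟩)

theorem dc_top_right : dc A ⊤ = 1 := by
  rw [← dcs_univ]
  exact dcs_one (Set.mem_univ 1) fun b _ => ⟨1, A.one_mem, b, trivial, by group⟩

theorem dcs_le_relIndex (hB : B ≤ H) : dcs A B H ≤ B.relIndex H := by
  refine le_trans Set.ncard_image_le (le_of_eq ?_)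
  have := ncard_orb H ((1 : G) : G ⧸ B)
  rw [stabilizer_quotient, inf_eq_right.2 hB] at this
  rw [← this]; congr 1; ext c
  simp only [Set.mem_image, SetLike.mem_coe, Set.mem_ofPred_eq, MulAction.Quotient.smul_coe,
    smul_eq_mul, mul_one]

/-- rank two: the nontrivial suborbit -/
theorem rank_two {P K : Subgroup G} (hA : A ≤ P) (hK : K ≤ A)
    (hn : ∀ g ∈ P, ∀ k ∈ K, g⁻¹ * k * g ∈ A) (h : dcs A A P = 2) :
    A.relIndex P - 1 ∣ K.relIndex A := by
  have hu : (P : Set G) = (A : Set G) ∪ {g | g ∈ P ∧ g ∉ A} := by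
    ext g; by_cases hg : g ∈ A
    · simp [hg, hA hg]
    · simp [hg]
  have hd : ∀ a ∈ (A : Set G), ∀ b ∈ {g | g ∈ P ∧ g ∉ A}, ¬ DC A A a b := by
    rintro a ha b hb ⟨c, hc, d, hd, rfl⟩
    exact hb.2 (A.mul_mem (A.mul_mem hc ha) hd)
  rw [hu, dcs_union hd, dcs_one A.one_mem fun b hb => dc_one.2 hb] at h
  obtain ⟨g, hg⟩ : {g | g ∈ P ∧ g ∉ A}.Nonempty := by
    by_contra hn
    rw [Set.not_nonempty_iff_eq_empty.1 hn] at h
    simp [dcs, nos] at h
  have h1 := ncard_orb P ((1 : G) : G ⧸ A)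
  rw [stabilizer_quotient, inf_eq_right.2 hA] at h1
  have h2 := ncard_orb A (g : G ⧸ A)
  have e : {b : G ⧸ A | ∃ j ∈ P, j • ((1 : G) : G ⧸ A) = b} =
      insert ((1 : G) : G ⧸ A) {b | ∃ j ∈ A, j • (g : G ⧸ A) = b} := by
    ext c; constructor
    · rintro ⟨j, hj, rfl⟩
      rw [MulAction.Quotient.smul_coe, smul_eq_mul, mul_one]
      by_cases hjA : j ∈ A
      · exact Or.inl (QuotientGroup.eq.2 (by simpa using hjA))
      · exact Or.inr (dc_iff.2 (dcs_eq_one (by omega) hg ⟨hj, hjA⟩))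
    · rintro (rfl | ⟨j, hj, rfl⟩)
      · exact ⟨1, P.one_mem, one_smul _ _⟩
      · exact ⟨j * g, P.mul_mem (hA hj) hg.1, by
          rw [MulAction.Quotient.smul_coe, MulAction.Quotient.smul_coe, smul_eq_mul, mul_one,
            smul_eq_mul]⟩
  have hn1 : ((1 : G) : G ⧸ A) ∉ {b | ∃ j ∈ A, j • (g : G ⧸ A) = b} :=
    fun h => hg.2 (dc_one.1 (dc_iff.1 h).symm)
  rw [e, Set.ncard_insert_of_notMem hn1, h2] at h1
  rw [← h1, Nat.add_sub_cancel]
  refine Subgroup.relIndex_dvd_of_le_left _ (le_inf hK fun k hk => ?_)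
  rw [mem_stabilizer_iff, MulAction.Quotient.smul_coe, smul_eq_mul, eq_comm, QuotientGroup.eq,
    ← mul_assoc]
  exact hn g hg.1 k hk

/-- a group of odd order has three orbits only on sets of odd size -/
theorem odd_index (h : dc H H = 3) (ho : Odd (Nat.card H)) : Odd H.index := by
  classical
  have := Fintype.ofFinite (orbitRel.Quotient H (G ⧸ H))
  have e := Nat.card_congr (selfEquivSigmaOrbits' H (G ⧸ H))
  rw [Nat.card_sigma] at e
  rw [Subgroup.index, e, Finset.odd_sum_iff_odd_card_odd]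
  have : ∀ c : orbitRel.Quotient H (G ⧸ H), Odd (Nat.card c.orbit) := fun c => by
    induction c using Quotient.inductionOn' with
    | h a =>
      refine Odd.of_dvd_nat ho ?_
      rw [orbitRel.Quotient.orbit_mk, Nat.card_coe_set_eq, ← index_stabilizer]
      exact Subgroup.index_dvd_card _
  rw [Finset.filter_true_of_mem fun c _ => this c, Finset.card_univ, ← Nat.card_eq_fintype_card]
  rw [dc] at h; rw [h]; decide

end dcs

section chr
variable {G : Type*} [Group G] [Fintype G] {A B H : Subgroup G}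

/-- permutation character on the cosets of `A` -/
noncomputable def pc (A : Subgroup G) (g : G) : ℚ := {c : G ⧸ A | g • c = c}.ncard

/-- inner product -/
noncomputable def ip : (G → ℚ) →ₗ[ℚ] (G → ℚ) →ₗ[ℚ] ℚ :=
  LinearMap.mk₂ ℚ (fun f f' => (∑ g, f g * f' g) / Fintype.card G)
    (fun _ _ _ => by simp only [Pi.add_apply, add_mul, Finset.sum_add_distrib, add_div])
    (fun _ _ _ => by
      simp only [Pi.smul_apply, smul_eq_mul, mul_assoc, ← Finset.mul_sum, mul_div_assoc])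
    (fun _ _ _ => by simp only [Pi.add_apply, mul_add, Finset.sum_add_distrib, add_div])
    (fun _ _ _ => by
      simp only [Pi.smul_apply, smul_eq_mul, mul_left_comm, ← Finset.mul_sum, mul_div_assoc])

theorem ip_apply (f f' : G → ℚ) : ip f f' = (∑ g, f g * f' g) / Fintype.card G := rfl
theorem ip_comm (f f' : G → ℚ) : ip f f' = ip f' f := by simp only [ip_apply, mul_comm]
theorem ip_nonneg (f : G → ℚ) : 0 ≤ ip f f :=
  div_nonneg (Finset.sum_nonneg fun _ _ => mul_self_nonneg _) (Nat.cast_nonneg _)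
theorem ip_zero {f : G → ℚ} (h : ip f f ≤ 0) (g : G) : f g = 0 := by
  have h1 := le_antisymm h (ip_nonneg f)
  rw [ip_apply, div_eq_zero_iff, Finset.sum_eq_zero_iff_of_nonneg fun _ _ => mul_self_nonneg _] at h1
  rcases h1 with h1 | h1
  · exact mul_self_eq_zero.1 (h1 g (Finset.mem_univ g))
  · exact absurd h1 (Nat.cast_ne_zero.2 Fintype.card_ne_zero)

theorem pc_one : pc A 1 = A.index := by simp [pc, Subgroup.index]
theorem pc_top : pc (⊤ : Subgroup G) = 1 := by
  ext g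
  have : Subsingleton (G ⧸ (⊤ : Subgroup G)) := QuotientGroup.subsingleton_quotient_top
  rw [pc, show {c : G ⧸ (⊤ : Subgroup G) | g • c = c} = {((1 : G) : G ⧸ (⊤ : Subgroup G))} from
    Set.ext fun c => ⟨fun _ => Subsingleton.elim _ _, fun _ => Subsingleton.elim _ _⟩]
  simp

theorem fix_iff {g y : G} : g • (y : G ⧸ A) = y ↔ y⁻¹ * g * y ∈ A := by
  rw [MulAction.Quotient.smul_coe, smul_eq_mul, eq_comm, QuotientGroup.eq, mul_assoc]

theorem pc_mul (A : Subgroup G) (g : G) :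
    pc A g * Nat.card A = {y : G | y⁻¹ * g * y ∈ A}.ncard := by
  have := dcount {c : G ⧸ A | g • c = c} {y : G | y⁻¹ * g * y ∈ A} (fun c y => (y : G ⧸ A) = c)
    (m := Nat.card A) (n := 1) (fun c hc => by
      induction c using QuotientGroup.induction_on with
      | H z =>
        rw [← Set.ncard_image_of_injective _ (mul_right_injective z⁻¹),
          show Nat.card A = (A : Set G).ncard from Nat.card_coe_set_eq (A : Set G)]
        congr 1; ext a; constructor
        · rintro ⟨y, ⟨-, h⟩, rfl⟩; exact QuotientGroup.eq.1 h.symm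
        · intro ha
          have e : ((z * a : G) : G ⧸ A) = z := QuotientGroup.mk_mul_of_mem z ha
          exact ⟨z * a, ⟨fix_iff.1 (by rw [e]; exact hc), e⟩, by simp⟩)
    (fun y hy => by
      rw [← Set.ncard_singleton (y : G ⧸ A)]; congr 1; ext c
      exact ⟨fun h => h.2.symm, by rintro rfl; exact ⟨fix_iff.2 hy, rfl⟩⟩)
  rw [pc, ← Nat.cast_mul, this, mul_one]

theorem pc_conj (B : Subgroup G) (g y : G) : pc B (y⁻¹ * g * y) = pc B g := by
  rw [pc, pc, ← Set.ncard_image_of_injective _ (MulAction.injective y)]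
  congr 2; ext c; constructor
  · rintro ⟨c, hc, rfl⟩
    have : (y⁻¹ * g * y) • c = c := hc
    rwa [mul_smul, mul_smul, inv_smul_eq_iff] at this
  · intro hc
    exact ⟨y⁻¹ • c, by
      change _ = _; rw [mul_smul, mul_smul, smul_inv_smul, hc], smul_inv_smul _ _⟩

theorem ip_pc (A B : Subgroup G) : ip (pc A) (pc B) = dc A B := by
  classical
  have hA : (Nat.card A : ℚ) ≠ 0 := Nat.cast_ne_zero.2 Nat.card_pos.ne'
  have hG : (Fintype.card G : ℚ) ≠ 0 := Nat.cast_ne_zero.2 Fintype.card_ne_zero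
  have hb := burn A (G ⧸ B)
  rw [finsum_eq_sum_of_fintype, ← dc_eq_nos] at hb
  have hb' : ∑ a : A, pc B a = dc A B * Nat.card A := by
    simp only [pc]; exact_mod_cast hb
  rw [ip_apply, div_eq_iff hG]
  refine mul_right_cancel₀ hA ?_
  calc (∑ g, pc A g * pc B g) * Nat.card A
      = ∑ g, ∑ y : G, if y⁻¹ * g * y ∈ A then pc B (y⁻¹ * g * y) else 0 := by
        rw [Finset.sum_mul]
        refine Finset.sum_congr rfl fun g _ => ?_
        simp only [pc_conj]
        rw [mul_right_comm, pc_mul, ← Finset.sum_filter, Finset.sum_const, nsmul_eq_mul,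
          Set.ncard_eq_toFinset_card', Set.toFinset_ofPred]
    _ = ∑ y : G, ∑ a : A, pc B a := by
        rw [Finset.sum_comm]
        refine Finset.sum_congr rfl fun y _ => ?_
        rw [← Finset.sum_subtype (Finset.univ.filter (· ∈ A)) (by simp) (pc B), Finset.sum_filter]
        exact Fintype.sum_equiv (MulAut.conj y⁻¹).toEquiv _ _ fun g => by simp
    _ = _ := by rw [Finset.sum_const, hb', Finset.card_univ, nsmul_eq_mul]; ring

theorem dc_comm (A B : Subgroup G) : dc A B = dc B A := by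
  have := ip_comm (pc A) (pc B)
  rw [ip_pc, ip_pc] at this; exact_mod_cast this
theorem ip_one_right (A : Subgroup G) : ip (pc A) 1 = 1 := by
  rw [← pc_top, ip_pc, dc_top_right, Nat.cast_one]
theorem ip_one_left (A : Subgroup G) : ip 1 (pc A) = 1 := by rw [ip_comm, ip_one_right]
theorem ip_one_one : ip (1 : G → ℚ) 1 = 1 := by
  have := ip_one_right (⊤ : Subgroup G); rwa [pc_top] at this

end chr

end H13.R3
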