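import Cfsg.Agent.H13.R3_3

/-! Ranks: Mackey formula for subgroups of a line stabilizer, points, planes (S2194). -/

set_option autoImplicit false
set_option linter.unusedSectionVars false

open Module MulAction

namespace H13.R3

universe u

variable {F : Type u} [Field F] [Fintype F] {V : Type u} [AddCommGroup V] [Module F V] [Finite V]
  {G : Type u} [Group G] [Finite G] [DistribMulAction G V] [SMulCommClass G F V]
  {H Y Y' A : Subgroup G} {x y : V}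

/-- the elements acting as scalars on the line `⟨x,y⟩` -/
def KK (F : Type u) [Field F] [Module F V] (G : Type u) [Group G] [DistribMulAction G V]
    [SMulCommClass G F V] (x y : V) : Subgroup G where
  carrier := {g | ∃ c : F, c ≠ 0 ∧ g • x = c • x ∧ g • y = c • y}
  one_mem' := ⟨1, one_ne_zero, by simp, by simp⟩
  mul_mem' := by
    rintro a b ⟨c, hc, h1, h2⟩ ⟨d, hd, h3, h4⟩
    exact ⟨d * c, mul_ne_zero hd hc, by rw [mul_smul, h3, gsc, h1, mul_smul],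
      by rw [mul_smul, h4, gsc, h2, mul_smul]⟩
  inv_mem' := by
    rintro a ⟨c, hc, h1, h2⟩
    exact ⟨c⁻¹, inv_ne_zero hc,
      by rw [inv_smul_eq_iff, gsc, h1, smul_smul, inv_mul_cancel₀ hc, one_smul],
      by rw [inv_smul_eq_iff, gsc, h2, smul_smul, inv_mul_cancel₀ hc, one_smul]⟩

theorem KK_fix {g : G} (h : ∀ u ∈ ln F x y, g • u = u) : g ∈ KK F G x y :=
  ⟨1, one_ne_zero, by rw [h x l_ln, one_smul], by rw [h y r_ln, one_smul]⟩
theorem fix_ln {g : G} {a b : V} (ha : g • a = a) (hb : g • b = b) : ∀ u ∈ ln F a b, g • u = u := by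
  intro u hu
  obtain ⟨c, d, rfl⟩ := mem_ln.1 hu
  rw [smul_add, gsc, gsc, ha, hb]
theorem KK.sc {g : G} (h : g ∈ KK F G x y) : ∃ c : F, c ≠ 0 ∧ ∀ u ∈ ln F x y, g • u = c • u := by
  obtain ⟨c, hc, h1, h2⟩ := h
  refine ⟨c, hc, fun u hu => ?_⟩
  obtain ⟨a, b, rfl⟩ := mem_ln.1 hu
  rw [smul_add, gsc, gsc, h1, h2]; module
theorem KK_le : KK F G x y ≤ St G (ln F x y) := fun g hg => by
  obtain ⟨c, -, h⟩ := KK.sc hg
  exact mem_St_of fun u hu => by rw [h u hu]; exact Submodule.smul_mem _ _ hu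
theorem KK_le1 : KK F G x y ≤ St G (F ∙ x) := fun g ⟨c, _, h, _⟩ =>
  mem_St_sp (h ▸ Submodule.smul_mem _ _ (Submodule.mem_span_singleton_self _))
theorem KK_conj {g k : G} (hg : g ∈ St G (ln F x y)) (hk : k ∈ KK F G x y) :
    g⁻¹ * k * g ∈ KK F G x y := by
  obtain ⟨c, hc, h⟩ := KK.sc hk
  exact ⟨c, hc, by rw [mul_smul, mul_smul, h _ ((hg x).2 l_ln), gsc, inv_smul_smul],
    by rw [mul_smul, mul_smul, h _ ((hg y).2 r_ln), gsc, inv_smul_smul]⟩
theorem Sc.mono (h : Sc F V H) (h' : ∀ (g : G) (c : F), c ≠ 0 → (∀ u : V, g • u = c • u) → g ∈ A) :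
    Sc F V A := fun c hc => by
  obtain ⟨z, -, e⟩ := h c hc; exact ⟨z, h' z c hc e, e⟩
theorem Sc.KK (h : Sc F V H) (hY : KK F G x y ≤ Y) : Sc F V Y :=
  h.mono fun _ c hc e => hY ⟨c, hc, e x, e y⟩
theorem Sc.St (h : Sc F V H) (W : Submodule F V) : Sc F V (St G W) :=
  h.mono fun _ _ hc e u => by rw [e]; exact W.smul_mem_iff hc
theorem Sc.orb (h : Sc F V A) {a b : V} (hb : b ≠ 0) (hab : b ∈ F ∙ a) : ∃ j ∈ A, j • a = b := by
  obtain ⟨c, rfl⟩ := Submodule.mem_span_singleton.1 hab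
  obtain ⟨z, hz, e⟩ := h c fun e => hb (by rw [e, zero_smul])
  exact ⟨z, hz, e a⟩

/-- number of orbits on the points of the line -/
noncomputable def bb (F : Type u) [Field F] [Module F V] (Y : Subgroup G) (x y : V) : ℕ :=
  nos Y {u | u ∈ ln F x y ∧ u ≠ 0}

theorem mem_St_two {g : G} {a b : V} (hi : Ind F a b) (ha : a ∈ ln F x y) (hb : b ∈ ln F x y)
    (ha' : g • a ∈ ln F x y) (hb' : g • b ∈ ln F x y) : g ∈ St G (ln F x y) :=
  mem_St_of fun u hu => ln_le.2 ⟨ha', hb'⟩ (smul_mem_ln g (by rwa [ln_eq hi ha hb]))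

theorem ex_ind (hi : Ind F x y) {a : V} (ha : a ≠ 0) : ∃ b ∈ ln F x y, Ind F a b := by
  obtain ⟨b, h1, h2⟩ := ex_notMem (A := F ∙ a) (B := ln F x y)
    (by rw [finrank_span_singleton ha, hi.finrank]; omega)
  exact ⟨b, h1, ha, h2⟩

theorem dcs_pt (sc : Sc F V A) (hx : x ≠ 0) (S : Set G) :
    dcs A (St G (F ∙ x)) S = nos A ((· • x) '' S) := by
  rw [nos, Set.image_image]
  refine dcs_eq S _ fun a _ b _ => ?_
  rw [qeq]; constructor
  · rintro ⟨j, hj, e⟩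
    refine DC.symm ⟨j, hj, (j * b)⁻¹ * a, mem_St_sp ?_, by group⟩
    rw [mul_smul, ← e, ← mul_smul j, inv_smul_smul]; exact Submodule.mem_span_singleton_self _
  · rintro ⟨j, hj, k, hk, rfl⟩
    refine osymm (otrans ⟨j, hj, rfl⟩ (sc.orb (fun e => hx (gsz.1 e)) ?_))
    rw [mul_smul (j * a), ← mul_smul j]
    exact smul_mem_sp _ ((hk x).2 (Submodule.mem_span_singleton_self _))

section main
variable (sl : SLe F V G) (sc : Sc F V H) (n5 : 5 ≤ finrank F V) (hi : Ind F x y)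
include sl n5 hi

theorem dc_pt (sA : Sc F V A) : dc A (St G (F ∙ x)) = nos A {v : V | v ≠ 0} := by
  rw [← dcs_univ, dcs_pt sA hi.1]; congr 1; ext v
  exact ⟨by rintro ⟨g, -, rfl⟩; exact fun e => hi.1 (gsz.1 e),
    fun hv => (sl.w1 (by omega) hi.1 hv).imp fun g hg => ⟨trivial, hg⟩⟩

theorem ex_line {a b : V} (h : Ind F a b) (ha : a ∈ ln F x y) (hb : b ∈ ln F x y) :
    ∃ g ∈ St G (ln F x y), g • x = a ∧ g • y = b := by
  obtain ⟨g, h1, h2⟩ := sl.w2 (by omega) hi h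
  exact ⟨g, mem_St_ln (h1 ▸ ha) (h2 ▸ hb), h1, h2⟩

theorem img_line : (· • x) '' (St G (ln F x y) : Set G) = {u | u ∈ ln F x y ∧ u ≠ 0} := by
  ext u; constructor
  · rintro ⟨g, hg, rfl⟩; exact ⟨(hg x).2 l_ln, fun e => hi.1 (gsz.1 e)⟩
  · rintro ⟨h1, h2⟩
    obtain ⟨b, hb, h3⟩ := ex_ind hi h2
    obtain ⟨g, hg, e, -⟩ := ex_line sl n5 hi h3 h1 hb
    exact ⟨g, hg, e⟩

theorem dcs_flag (sA : Sc F V A) (hA : A ≤ St G (ln F x y)) :
    dcs A (St G (F ∙ x) ⊓ St G (ln F x y)) (St G (ln F x y)) = bb F A x y := by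
  rw [bb, ← img_line sl n5 hi, ← dcs_pt sA hi.1]
  refine le_antisymm ?_ (dcs_le_of_le le_rfl inf_le_left _)
  rw [dcs, dcs, nos, nos, Set.image_image, Set.image_image]
  refine ncard_image_le_of _ _ _ fun a ha b hb e => qeq.2 (dc_iff.2 ?_)
  obtain ⟨j, hj, k, hk, rfl⟩ := dc_iff.1 (qeq.1 e)
  exact ⟨j, hj, k, ⟨hk, ((St G (ln F x y)).mul_mem_cancel_left
    ((St G (ln F x y)).mul_mem (hA hj) hb)).1 ha⟩, rfl⟩

theorem nos_out (hY : KK F G x y ≤ Y) : nos Y {u | u ∉ ln F x y} = 1 := by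
  obtain ⟨z, hz⟩ := ex_notMem' (A := ln F x y) (by rw [hi.finrank]; omega)
  refine le_antisymm ((nos_le {z} fun s hs => ⟨z, rfl, ?_⟩).trans (by simp)) (nos_pos ⟨z, hz⟩)
  obtain ⟨g, h1, h2⟩ := sl.step hz hs (by rw [hi.finrank]; omega)
  exact ⟨g, hY (KK_fix h1), h2⟩

theorem dc_Y1 (sY : Sc F V Y) (hY : KK F G x y ≤ Y) (hP : Y ≤ St G (ln F x y)) :
    dc Y (St G (F ∙ x)) = bb F Y x y + 1 := by
  rw [dc_pt sl n5 hi sY, bb, ← nos_out sl n5 hi hY, ← nos_union]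
  · congr 1; ext u
    by_cases hu : u ∈ ln F x y
    · simp [hu]
    · simpa [hu] using fun e : u = 0 => hu (e ▸ Submodule.zero_mem _)
  · exact fun a ha j hj h => h ((hP hj a).2 ha.1)

include sc in
theorem dc_11 : dc (St G (F ∙ x)) (St G (F ∙ x)) = 2 := by
  rw [dc_pt sl n5 hi (sc.St _)]
  refine le_antisymm ((nos_le {x, y} fun s hs => ?_).trans ((Set.ncard_insert_le _ _).trans (by simp))) ?_
  · by_cases h : s ∈ F ∙ x
    · exact ⟨x, by simp, (sc.St _).orb hs h⟩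
    · obtain ⟨g, h1, h2⟩ := sl.w2 (by omega) hi ⟨hi.1, h⟩
      exact ⟨y, by simp, g, mem_St_sp (h1.symm ▸ Submodule.mem_span_singleton_self _), h2⟩
  · have hxy : x ≠ y := fun e => hi.2 (e ▸ Submodule.mem_span_singleton_self _)
    rw [← Set.ncard_pair hxy]
    refine le_nos _ (by rintro _ (rfl | rfl); exacts [hi.1, hi.ne0]) ?_
    rintro a (rfl | rfl) b (rfl | rfl) j hj e
    · rfl
    · exact absurd (e ▸ (hj _).2 (Submodule.mem_span_singleton_self _)) hi.2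
    · exact absurd ((hj _).1 (e.symm ▸ Submodule.mem_span_singleton_self _)) hi.2
    · rfl

theorem bb_P : bb F (St G (ln F x y)) x y = 1 := by
  refine le_antisymm ((nos_le {x} fun s hs => ⟨x, rfl, ?_⟩).trans (by simp))
    (nos_pos ⟨x, l_ln, hi.1⟩)
  rw [← img_line sl n5 hi] at hs; exact hs

include sc in
theorem bb_B : bb F (St G (F ∙ x) ⊓ St G (ln F x y)) x y = 2 := by
  refine le_antisymm ((nos_le {x, y} fun s hs => ?_).trans ((Set.ncard_insert_le _ _).trans (by simp))) ?_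
  · by_cases h : s ∈ F ∙ x
    · exact ⟨x, by simp, (sc.KK (le_inf KK_le1 KK_le)).orb hs.2 h⟩
    · obtain ⟨g, hg, h1, h2⟩ := ex_line sl n5 hi ⟨hi.1, h⟩ l_ln hs.1
      exact ⟨y, by simp, g, ⟨mem_St_sp (h1.symm ▸ Submodule.mem_span_singleton_self _), hg⟩, h2⟩
  · have hxy : x ≠ y := fun e => hi.2 (e ▸ Submodule.mem_span_singleton_self _)
    rw [← Set.ncard_pair hxy]
    refine le_nos _ (by rintro _ (rfl | rfl); exacts [⟨l_ln, hi.1⟩, ⟨r_ln, hi.ne0⟩]) ?_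
    rintro a (rfl | rfl) b (rfl | rfl) j hj e
    · rfl
    · exact absurd (e ▸ (hj.1 _).2 (Submodule.mem_span_singleton_self _)) hi.2
    · exact absurd ((hj.1 _).1 (e.symm ▸ Submodule.mem_span_singleton_self _)) hi.2
    · rfl

theorem dcs_skew (hY : KK F G x y ≤ Y) (hY' : KK F G x y ≤ Y') :
    dcs Y Y' {g | ∀ u ∈ ln F x y, g • u ∈ ln F x y → u = 0} = 1 := by
  have key : ∀ g : G, (∀ u ∈ ln F x y, g • u ∈ ln F x y → u = 0) →
      g • x ∉ ln F x y ∧ g • y ∉ pl F x y (g • x) := fun g hg => by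
    refine ⟨fun h => hi.1 (hg x l_ln h), fun h => ?_⟩
    obtain ⟨a, b, c, e⟩ := mem_pl.1 h
    have := hg ((-c) • x + (1 : F) • y) (mem_ln.2 ⟨_, _, rfl⟩) (mem_ln.2 ⟨a, b, by
      rw [smul_add g, gsc, gsc, ← e]; generalize g • x = X; module⟩)
    exact one_ne_zero (ind_iff.1 hi _ _ this).2
  obtain ⟨z, hz⟩ := ex_notMem' (A := ln F x y) (by rw [hi.finrank]; omega)
  have h3 : Ind3 F x y z := ⟨hi, hz⟩
  obtain ⟨w, hw⟩ := ex_notMem' (A := pl F x y z) (by rw [h3.finrank]; omega)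
  have hzw : Ind F z w := ⟨fun e => hz (e ▸ Submodule.zero_mem _), fun e =>
    hw ((Submodule.span_singleton_le_iff_mem _ _).2 p3_pl e)⟩
  obtain ⟨g, rfl, rfl⟩ := sl.w2 (by omega) hi hzw
  refine dcs_one (a := g) (fun u hu h => ?_) fun b hb => ?_
  · obtain ⟨a, b, rfl⟩ := mem_ln.1 hu
    rw [smul_add, gsc, gsc] at h
    have hb : b = 0 := by
      by_contra hb
      refine hw (((pl F x y (g • x)).smul_mem_iff hb).1 ?_)
      exact ((pl F x y (g • x)).add_mem_iff_right (Submodule.smul_mem _ a p3_pl)).1 (ln_le_pl h)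
    rw [hb, zero_smul, add_zero] at h ⊢
    have ha : a = 0 := by
      by_contra ha; exact hz (((ln F x y).smul_mem_iff ha).1 h)
    rw [ha, zero_smul]
  · obtain ⟨k, h1, h2, h4, h5⟩ := sl.w4 (by omega) h3 ⟨hi, (key b hb).1⟩ hw (key b hb).2
    refine ⟨k, hY (KK_fix (fix_ln h1 h2)), (k * g)⁻¹ * b, hY' (KK_fix (fix_ln ?_ ?_)), by group⟩
    · rw [mul_smul, inv_smul_eq_iff, mul_smul, h4]
    · rw [mul_smul, inv_smul_eq_iff, mul_smul, h5]

include sc in
theorem dcs_meet (hY : KK F G x y ≤ Y) (hP : Y ≤ St G (ln F x y)) (hY' : KK F G x y ≤ Y')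
    (hP' : Y' ≤ St G (ln F x y)) :
    dcs Y Y' {g | g ∉ St G (ln F x y) ∧ ∃ u ∈ ln F x y, u ≠ 0 ∧ g • u ∈ ln F x y} =
      bb F Y x y * bb F Y' x y := by
  set S := {g | g ∉ St G (ln F x y) ∧ ∃ u ∈ ln F x y, u ≠ 0 ∧ g • u ∈ ln F x y}
  have : ∀ g : G, ∃ u, g ∈ S → u ∈ ln F x y ∧ u ≠ 0 ∧ g • u ∈ ln F x y := fun g => by
    by_cases hg : g ∈ S
    · obtain ⟨u, hu⟩ := hg.2; exact ⟨u, fun _ => hu⟩
    · exact ⟨0, fun h => absurd h hg⟩
  choose u hu using this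
  have uq : ∀ g ∈ S, ∀ v ∈ ln F x y, v ≠ 0 → g • v ∈ ln F x y →
      Quotient.mk (orbitRel Y V) (g • u g) = Quotient.mk (orbitRel Y V) (g • v) ∧
      Quotient.mk (orbitRel Y' V) (u g) = Quotient.mk (orbitRel Y' V) v := by
    intro g hg v h1 h2 h3
    have : u g ∈ F ∙ v := by
      by_contra hn
      exact hg.1 (mem_St_two ⟨h2, hn⟩ h1 (hu g hg).1 h3 (hu g hg).2.2)
    exact ⟨qeq.2 ((sc.KK hY).orb (fun e => (hu g hg).2.1 (gsz.1 e)) (smul_mem_sp g this)),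
      qeq.2 ((sc.KK hY').orb (hu g hg).2.1 this)⟩
  rw [dcs_eq S (fun g => (Quotient.mk (orbitRel Y V) (g • u g), Quotient.mk (orbitRel Y' V) (u g))),
    bb, bb, nos, nos, ← Set.ncard_prod]
  · congr 1; ext c; constructor
    · rintro ⟨g, hg, rfl⟩
      exact ⟨⟨_, ⟨(hu g hg).2.2, fun e => (hu g hg).2.1 (gsz.1 e)⟩, rfl⟩,
        ⟨_, ⟨(hu g hg).1, (hu g hg).2.1⟩, rfl⟩⟩
    · obtain ⟨c, c'⟩ := c
      rintro ⟨⟨p, hp, rfl⟩, ⟨p', hp', rfl⟩⟩
      obtain ⟨w, hw, h1⟩ := ex_ind hi hp'.2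
      obtain ⟨z, hz⟩ := ex_notMem' (A := ln F x y) (by rw [hi.finrank]; omega)
      obtain ⟨g, rfl, rfl⟩ := sl.w2 (by omega) h1 (x' := p) (y' := z) ⟨hp.2, fun e =>
        hz ((Submodule.span_singleton_le_iff_mem _ _).2 hp.1 e)⟩
      have hg : g ∈ S := ⟨fun h => hz ((h w).2 hw), p', hp'.1, hp'.2, hp.1⟩
      exact ⟨g, hg, Prod.ext (uq g hg p' hp'.1 hp'.2 hp.1).1 (uq g hg p' hp'.1 hp'.2 hp.1).2⟩
  · intro g' hg' g hg
    constructor
    · intro e
      obtain ⟨a, ha, e1⟩ := qeq.1 (congrArg Prod.fst e)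
      obtain ⟨b, hb, e2⟩ := qeq.1 (congrArg Prod.snd e)
      obtain ⟨w, hw, h1⟩ := ex_ind hi (hu g' hg').2.1
      have e3 : (a * g * b⁻¹) • u g' = g' • u g' := by
        rw [mul_smul, mul_smul, ← e2, inv_smul_smul, e1, e2]
      have n1 : g' • w ∉ ln F x y := fun h =>
        hg'.1 (mem_St_two h1 (hu g' hg').1 hw (hu g' hg').2.2 h)
      have n2 : (a * g * b⁻¹) • w ∉ ln F x y := fun h => by
        have := mem_St_two h1 (hu g' hg').1 hw (e3 ▸ (hu g' hg').2.2) h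
        rw [(St G (ln F x y)).mul_mem_cancel_right ((St G (ln F x y)).inv_mem (hP' hb)),
          (St G (ln F x y)).mul_mem_cancel_left (hP ha)] at this
        exact hg.1 this
      obtain ⟨k, k1, k2⟩ := sl.step n1 n2 (by rw [hi.finrank]; omega)
      refine DC.trans ⟨k, hY (KK_fix k1), (k * g')⁻¹ * (a * g * b⁻¹), hY' (KK_fix ?_), by group⟩
        (DC.symm ⟨a, ha, b⁻¹, Y'.inv_mem hb, rfl⟩)
      rw [← ln_eq h1 (hu g' hg').1 hw]
      refine fix_ln ?_ ?_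
      · rw [mul_smul, e3, inv_smul_eq_iff, mul_smul, k1 _ (hu g' hg').2.2]
      · rw [mul_smul, inv_smul_eq_iff, mul_smul k, k2]
    · rintro ⟨a, ha, b, hb, rfl⟩
      have h1 : b⁻¹ • u g' ∈ ln F x y := (hP' (Y'.inv_mem hb) _).2 (hu g' hg').1
      have e : (a * g' * b) • b⁻¹ • u g' = a • g' • u g' := by
        rw [mul_smul, mul_smul, smul_inv_smul]
      have := uq _ hg _ h1 (fun e => (hu g' hg').2.1 (gsz.1 e))
        (e ▸ (hP ha _).2 (hu g' hg').2.2)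
      refine Prod.ext (this.1.trans ?_).symm (this.2.trans ?_).symm
      · rw [e]; exact qeq.2 ⟨a, ha, rfl⟩
      · exact qeq.2 ⟨b⁻¹, Y'.inv_mem hb, rfl⟩

include sc in
/-- Mackey formula -/
theorem mackey (hY : KK F G x y ≤ Y) (hP : Y ≤ St G (ln F x y)) (hY' : KK F G x y ≤ Y')
    (hP' : Y' ≤ St G (ln F x y)) :
    dc Y Y' = dcs Y Y' (St G (ln F x y)) + bb F Y x y * bb F Y' x y + 1 := by
  rw [← dcs_meet sl sc n5 hi hY hP hY' hP', ← dcs_skew sl n5 hi hY hY', ← dcs_union, ← dcs_union,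
    ← dcs_univ]
  · congr 1; ext g
    refine ⟨fun _ => ?_, fun _ => trivial⟩
    by_cases h1 : g ∈ St G (ln F x y)
    · exact Or.inl (Or.inl h1)
    by_cases h2 : ∃ u ∈ ln F x y, u ≠ 0 ∧ g • u ∈ ln F x y
    · exact Or.inl (Or.inr ⟨h1, h2⟩)
    · exact Or.inr fun u hu h => by_contra fun h0 => h2 ⟨u, hu, h0, h⟩
  · rintro g hg _ h ⟨a, ha, b, hb, rfl⟩
    obtain ⟨u, h1, h2, h3⟩ : ∃ u ∈ ln F x y, u ≠ 0 ∧ g • u ∈ ln F x y :=
      hg.elim (fun hg => ⟨x, l_ln, hi.1, (hg x).2 l_ln⟩) fun hg => hg.2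
    refine h2 (gsz.1 (h (b⁻¹ • u) ((hP' (Y'.inv_mem hb) _).2 h1) ?_))
    rw [mul_smul, mul_smul, smul_inv_smul]; exact (hP ha _).2 h3
  · rintro g hg _ h ⟨a, ha, b, hb, rfl⟩
    exact h.1 ((St G (ln F x y)).mul_mem ((St G (ln F x y)).mul_mem (hP ha) hg) (hP' hb))

include sc in
theorem dc_Y2 (hY : KK F G x y ≤ Y) (hP : Y ≤ St G (ln F x y)) :
    dc Y (St G (ln F x y)) = bb F Y x y + 2 := by
  rw [mackey sl sc n5 hi hY hP KK_le le_rfl, bb_P sl n5 hi,
    dcs_one (Subgroup.one_mem _) fun b hb => ⟨1, Y.one_mem, b, hb, by group⟩]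
  ring

include sc in
theorem dc_YB (hY : KK F G x y ≤ Y) (hP : Y ≤ St G (ln F x y)) :
    dc Y (St G (F ∙ x) ⊓ St G (ln F x y)) = 3 * bb F Y x y + 1 := by
  rw [mackey sl sc n5 hi hY hP (le_inf KK_le1 KK_le) inf_le_right, bb_B sl sc n5 hi,
    dcs_flag sl n5 hi (sc.KK hY) hP]
  ring

end main

/-! ### planes -/
section pairs
open scoped Pointwise

theorem mem_psmul {g : G} {B : Submodule F V} {u : V} : u ∈ g • B ↔ g⁻¹ • u ∈ B := by
  rw [Submodule.mem_smul_pointwise_iff_exists]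
  exact ⟨by rintro ⟨b, hb, rfl⟩; rwa [inv_smul_smul], fun h => ⟨_, h, smul_inv_smul _ _⟩⟩
theorem finrank_psmul (g : G) (B : Submodule F V) :
    finrank F (g • B : Submodule F V) = finrank F B := (lin F V g).finrank_map_eq B
theorem psmul_inf (g : G) (A B : Submodule F V) : g • (A ⊓ B) = g • A ⊓ g • B := by
  ext u; simp only [mem_psmul, Submodule.mem_inf]
theorem psmul_St {g : G} {A : Submodule F V} : g ∈ St G A ↔ g • A = A :=
  ⟨fun h => by ext u; rw [mem_psmul]; exact (St G A).inv_mem h u,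
    fun h u => by rw [← h, mem_psmul, inv_smul_smul, h]⟩

theorem SLe.pairs (sl : SLe F V G) (A : Submodule F V) (k : ℕ) : ∀ B B' : Submodule F V,
    finrank F B = finrank F B' → finrank F (A ⊓ B : Submodule F V) = finrank F (A ⊓ B' : Submodule F V) →
    finrank F B ≤ finrank F (B ⊓ B' : Submodule F V) + k → ∃ g ∈ St G A, g • B = B' := by
  have h0 : ∀ B B' : Submodule F V, finrank F B = finrank F B' → B ≤ B' → ∃ g ∈ St G A, g • B = B' :=
    fun B B' h h' => ⟨1, Subgroup.one_mem _, by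
      rw [one_smul]; exact Submodule.eq_of_le_of_finrank_eq h' h⟩
  induction k with
  | zero =>
    intro B B' h1 _ h3
    exact h0 B B' h1 (inf_eq_left.1 (Submodule.eq_of_le_of_finrank_le inf_le_left h3))
  | succ k ih =>
    intro B B' h1 h2 h3
    by_cases hB : B ≤ B'
    · exact h0 B B' h1 hB
    obtain ⟨g, hg, z, hz, z', hz', e0, e, fx⟩ : ∃ g ∈ St G A, ∃ z ∈ B, ∃ z' ∈ B', z' ∉ B ∧
        g • z = z' ∧ ∀ u ∈ B ⊓ B', g • u = u := by
      by_cases hA : A ⊓ B ≤ A ⊓ B'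
      · have eA := Submodule.eq_of_le_of_finrank_eq hA h2
        obtain ⟨z, hz, hz1⟩ := SetLike.not_le_iff_exists.1 hB
        obtain ⟨z', hz', hz2⟩ := SetLike.not_le_iff_exists.1 fun h : B' ≤ B =>
          hB (Submodule.eq_of_le_of_finrank_eq h h1.symm).ge
        obtain ⟨g, g1, c, hc, g2⟩ := sl.step' (W := (B ⊓ B') ⊔ A) (z := z) (z' := z') (fun h => by
          obtain ⟨w, hw, a, ha, rfl⟩ := Submodule.mem_sup.1 h
          exact hz1 (B'.add_mem hw.2 (hA ⟨ha, (B.add_mem_iff_right hw.1).1 hz⟩).2)) (fun h => by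
          obtain ⟨w, hw, a, ha, rfl⟩ := Submodule.mem_sup.1 h
          exact hz2 (B.add_mem hw.1 (eA.ge ⟨ha, (B'.add_mem_iff_right hw.2).1 hz'⟩).2))
        exact ⟨g, mem_St_of fun u hu => (g1 u (Submodule.mem_sup_right hu)).symm ▸ hu, z, hz, c • z',
          B'.smul_mem c hz', fun h => hz2 ((B.smul_mem_iff hc).1 h), g2,
          fun u hu => g1 u (Submodule.mem_sup_left hu)⟩
      · obtain ⟨z, hz, hz1⟩ := SetLike.not_le_iff_exists.1 hA
        obtain ⟨z', hz', hz2⟩ := SetLike.not_le_iff_exists.1 fun h : A ⊓ B' ≤ A ⊓ B =>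
          hA (Submodule.eq_of_le_of_finrank_eq h h2.symm).ge
        obtain ⟨g, g1, g2, g3⟩ := sl.step0 (W := B ⊓ B') (z := z) (z' := z') (fun h => by
          obtain ⟨w, hw, _, ha, e⟩ := Submodule.mem_sup.1 h
          obtain ⟨c, rfl⟩ := Submodule.mem_span_singleton.1 ha
          by_cases hc : 1 + c = 0
          · refine hz2 ⟨hz'.1, ?_⟩
            have : z' = w := by
              rw [eq_neg_of_add_eq_zero_right hc] at e
              rw [eq_sub_of_add_eq e]; module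
            exact this ▸ hw.1
          · refine hz1 ⟨hz.1, (B'.smul_mem_iff hc).1 ?_⟩
            have : (1 + c) • z = w + c • z' := by
              rw [eq_sub_of_add_eq e]; module
            exact this ▸ B'.add_mem hw.2 (B'.smul_mem c hz'.2))
        refine ⟨g, mem_St_of fun u hu => ?_, z, hz.2, z', hz'.2, fun h => hz2 ⟨hz'.1, h⟩, g2, g1⟩
        have := A.add_mem ((Submodule.span_singleton_le_iff_mem _ _).2 (A.sub_mem hz'.1 hz.1)
          (g3 u)) hu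
        rwa [sub_add_cancel] at this
    obtain ⟨g', hg', e'⟩ := ih (g • B) B' ((finrank_psmul g B).trans h1)
      (by rw [← h2, ← finrank_psmul g (A ⊓ B), psmul_inf, psmul_St.1 hg]) (by
        have : (B ⊓ B') ⊔ (F ∙ z') ≤ g • B ⊓ B' := sup_le (fun u hu => ⟨by
          rw [← fx u hu]; exact Submodule.smul_mem_pointwise_smul _ _ _ hu.1, hu.2⟩)
          ((Submodule.span_singleton_le_iff_mem _ _).2
            ⟨e ▸ Submodule.smul_mem_pointwise_smul _ _ _ hz, hz'⟩)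
        have h4 := Submodule.finrank_mono this
        rw [finrank_sup_sp (W := B ⊓ B') fun h => e0 h.1] at h4
        rw [finrank_psmul]; omega)
    exact ⟨g' * g, Subgroup.mul_mem _ hg' hg, by rw [mul_smul, e']⟩

theorem dc_St_le (sl : SLe F V G) (A B : Submodule F V) :
    dc (St G A) (St G B) ≤ finrank F B + 1 := by
  rw [← dcs_univ]
  refine (dcs_le (τ := Fin (finrank F B + 1)) (fun g => ⟨finrank F (A ⊓ g • B : Submodule F V),
    Nat.lt_succ_of_le ((Submodule.finrank_mono inf_le_right).trans (finrank_psmul g B).le)⟩)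
    Set.univ (fun _ _ => trivial) fun a _ b _ e => ?_).trans (by simp)
  obtain ⟨g, hg, e⟩ := sl.pairs A _ (a • B) (b • B) (by rw [finrank_psmul, finrank_psmul])
    (congrArg Fin.val e) (Nat.le_add_left _ _)
  exact ⟨g, hg, (g * a)⁻¹ * b, psmul_St.2 (by rw [mul_smul, ← e, ← mul_smul g, inv_smul_smul]),
    by group⟩

/-- a group stabilising a subspace of dimension and codimension at least two has at least three
orbits on lines -/
theorem three_le (sl : SLe F V G) (hi : Ind F x y) {U : Submodule F V} (hA : A ≤ St G U)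
    (h1 : 2 ≤ finrank F U) (h2 : finrank F U + 2 ≤ finrank F V) :
    3 ≤ dc A (St G (ln F x y)) := by
  obtain ⟨a, ha, ha0⟩ := ex_ne0 (A := U) (by omega)
  obtain ⟨b, hb, hb0⟩ := ex_notMem (A := F ∙ a) (B := U) (by rw [finrank_span_singleton ha0]; omega)
  obtain ⟨c, hc⟩ := ex_notMem' (A := U) (by omega)
  obtain ⟨d, hd⟩ := ex_notMem' (A := U ⊔ F ∙ c) (by rw [finrank_sup_sp hc]; omega)
  obtain ⟨g1, e1, e2⟩ := sl.w2 (by omega) hi (⟨ha0, hb0⟩ : Ind F a b)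
  obtain ⟨g2, e3, e4⟩ := sl.w2 (by omega) hi (⟨ha0, fun h =>
    hc ((Submodule.span_singleton_le_iff_mem _ _).2 ha h)⟩ : Ind F a c)
  obtain ⟨g3, e5, e6⟩ := sl.w2 (by omega) hi (⟨fun e => hc (e ▸ U.zero_mem), fun h =>
    hd (Submodule.mem_sup_right h)⟩ : Ind F c d)
  have k1 : ∀ g, DC A (St G (ln F x y)) g1 g → ∀ u ∈ ln F x y, g • u ∈ U := by
    rintro _ ⟨j, hj, k, hk, rfl⟩ u hu
    rw [mul_smul, mul_smul, hA hj]
    exact ln_le.2 ⟨e1 ▸ ha, e2 ▸ hb⟩ (smul_mem_ln g1 ((hk u).2 hu))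
  have k3 : ¬ DC A (St G (ln F x y)) g2 g3 := by
    rintro ⟨j, hj, k, hk, e⟩
    obtain ⟨s, t, e'⟩ := mem_ln.1 (((St G (ln F x y)).inv_mem hk x).2 l_ln)
    have h3 : g3 • k⁻¹ • x ∈ U := by
      rw [← e, mul_smul, mul_smul, smul_inv_smul, hA hj, e3]; exact ha
    rw [← e', smul_add, gsc, gsc, e5, e6] at h3
    have ht : t = 0 := by
      by_contra ht
      refine hd (((U ⊔ F ∙ c).smul_mem_iff ht).1 (((U ⊔ F ∙ c).add_mem_iff_right
        (Submodule.mem_sup_right (Submodule.mem_span_singleton.2 ⟨s, rfl⟩))).1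
        (Submodule.mem_sup_left h3)))
    rw [ht, zero_smul, add_zero] at h3
    have hs : s = 0 := by_contra fun hs => hc ((U.smul_mem_iff hs).1 h3)
    rw [hs, ht, zero_smul, zero_smul, add_zero] at e'
    exact hi.1 (gsz.1 e'.symm)
  by_contra hn
  rcases le2_of_dc (A := A) (B := St G (ln F x y)) (by omega) g1 g2 g3 with h | h | h
  · exact hc (e4 ▸ k1 g2 h y r_ln)
  · exact hc (e5 ▸ k1 g3 h x l_ln)
  · exact k3 h

end pairs

end H13.R3
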