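import Cfsg.Agent.H13.R3_4

/-! Orders of the parabolic subgroups and character values at a transvection (S2194). -/

set_option autoImplicit false
set_option linter.unusedSectionVars false

open Module MulAction

namespace H13.R3

universe u

variable {F : Type u} [Field F] [Fintype F] {V : Type u} [AddCommGroup V] [Module F V] [Finite V]
  {G : Type u} [Group G] [DistribMulAction G V] [SMulCommClass G F V]
  {H Y Y' A : Subgroup G} {x y : V}

/-- order of the pointwise stabilizer of the frame -/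
noncomputable def k0 (G : Type u) [Group G] [DistribMulAction G V] (x y : V) : ℕ :=
  {g : G | g • x = x ∧ g • y = y}.ncard

theorem cardS (A : Subgroup G) : Nat.card A = (A : Set G).ncard := Nat.card_coe_set_eq (A : Set G)

/-- the elements acting on the line like an element of `H` -/
def YY (F : Type u) [Field F] [Module F V] [SMulCommClass G F V] (H : Subgroup G) (x y : V) :
    Subgroup G where
  carrier := {g | ∃ h ∈ H ⊓ St G (ln F x y), ∀ u ∈ ln F x y, g • u = h • u}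
  one_mem' := ⟨1, Subgroup.one_mem _, fun _ _ => rfl⟩
  mul_mem' := by
    rintro a b ⟨c, hc, h1⟩ ⟨d, hd, h2⟩
    exact ⟨c * d, Subgroup.mul_mem _ hc hd, fun u hu => by
      rw [mul_smul, h2 u hu, h1 _ ((hd.2 u).2 hu), mul_smul]⟩
  inv_mem' := by
    rintro a ⟨c, hc, h1⟩
    exact ⟨c⁻¹, Subgroup.inv_mem _ hc, fun u hu => by
      rw [inv_smul_eq_iff, h1 _ ((((St G _).inv_mem hc.2) u).2 hu), smul_inv_smul]⟩

theorem YY_le : YY F H x y ≤ St G (ln F x y) := by
  rintro g ⟨h, hh, e⟩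
  exact mem_St_of fun u hu => by rw [e u hu]; exact (hh.2 u).2 hu
theorem le_YY : H ⊓ St G (ln F x y) ≤ YY F H x y := fun h hh => ⟨h, hh, fun _ _ => rfl⟩
theorem agree {g h : G} (h1 : g • x = h • x) (h2 : g • y = h • y) :
    ∀ u ∈ ln F x y, g • u = h • u := by
  intro u hu
  obtain ⟨c, d, rfl⟩ := mem_ln.1 hu
  rw [smul_add, smul_add, gsc, gsc, gsc, gsc, h1, h2]

variable [Finite G]

theorem KK_le_YY (sc : Sc F V H) : KK F G x y ≤ YY F H x y := fun g hg => by
  obtain ⟨c, hc, h⟩ := KK.sc hg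
  obtain ⟨z, hz, e⟩ := sc.mem_St (ln F x y) hc
  exact ⟨z, hz, fun u hu => by rw [h u hu, e]⟩

theorem k0_pos : 0 < k0 G x y :=
  (Set.ncard_pos (Set.toFinite _)).2 ⟨1, one_smul _ _, one_smul _ _⟩

section
variable (sl : SLe F V G) (n5 : 5 ≤ finrank F V) (hi : Ind F x y)
include sl n5 hi

theorem fr (S : Set (V × V)) (hS : ∀ a ∈ S, Ind F a.1 a.2) :
    {g : G | (g • x, g • y) ∈ S}.ncard = S.ncard * k0 G x y := by
  have := dcount {g : G | (g • x, g • y) ∈ S} S (fun g a => (g • x, g • y) = a) (m := 1)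
    (n := k0 G x y) (fun g hg => by
      rw [← Set.ncard_singleton (g • x, g • y)]; congr 1; ext a
      exact ⟨fun h => h.2.symm, by rintro rfl; exact ⟨hg, rfl⟩⟩) (fun a ha => by
      obtain ⟨k, h1, h2⟩ := sl.w2 (by omega) hi (hS a ha)
      rw [k0, ← Set.ncard_image_of_injective {g : G | g • x = x ∧ g • y = y}
        (mul_right_injective k)]
      congr 1; ext g; constructor
      · rintro ⟨-, rfl⟩
        exact ⟨k⁻¹ * g, ⟨by rw [mul_smul, inv_smul_eq_iff, h1], by
          rw [mul_smul, inv_smul_eq_iff, h2]⟩, by simp⟩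
      · rintro ⟨g, hg, rfl⟩
        have : ((k * g) • x, (k * g) • y) = a := by
          rw [mul_smul, mul_smul, hg.1, hg.2, h1, h2]
        exact ⟨by rw [Set.mem_ofPred_eq, this]; exact ha, this⟩)
  rwa [mul_one] at this

theorem card_G : Nat.card G = (Fintype.card F ^ finrank F V - 1) *
    (Fintype.card F ^ finrank F V - Fintype.card F) * k0 G x y := by
  rw [← ncard_frames', ← fr sl n5 hi {a : V × V | Ind F a.1 a.2} fun a ha => ha, ← Set.ncard_univ]
  congr 1; ext g; exact ⟨fun _ => hi.smul g, fun _ => trivial⟩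

theorem card_P2 : Nat.card (St G (ln F x y)) =
    (Fintype.card F ^ 2 - 1) * (Fintype.card F ^ 2 - Fintype.card F) * k0 G x y := by
  rw [← hi.finrank, ← ncard_frames, ← fr sl n5 hi _ fun a ha => ha.1, cardS]
  congr 1; ext g
  exact ⟨fun h => ⟨hi.smul g, (h x).2 l_ln, (h y).2 r_ln⟩, fun h => mem_St_ln h.2.1 h.2.2⟩

theorem card_P1W {W : Submodule F V} (hx : x ∈ W) :
    {g : G | g • x ∈ F ∙ x ∧ g • y ∈ W}.ncard =
    (Fintype.card F - 1) * (Fintype.card F ^ finrank F W - Fintype.card F) * k0 G x y := by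
  have h1 := ncard_ne0 (F ∙ x)
  rw [finrank_span_singleton hi.1, pow_one] at h1
  rw [← h1, ← ncard_pairs {a : V × V | Ind F a.1 a.2 ∧ a.1 ∈ F ∙ x ∧ a.2 ∈ W}
    {u | u ∈ F ∙ x ∧ u ≠ 0}
    (fun a ha => ⟨ha.2.1, ha.1.1⟩) (fun u hu => ?_), ← fr sl n5 hi _ fun a ha => ha.1]
  · congr 1; ext g; exact ⟨fun h => ⟨hi.smul g, h⟩, fun h => h.2⟩
  · rw [← ncard_off hu.2 ((Submodule.span_singleton_le_iff_mem _ _).2 hx hu.1)]
    congr 1; ext b; exact ⟨fun h => ⟨h.2.2, h.1.2⟩, fun h => ⟨⟨hu.2, h.2⟩, hu.1, h.1⟩⟩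

theorem card_P1 : Nat.card (St G (F ∙ x)) =
    (Fintype.card F - 1) * (Fintype.card F ^ finrank F V - Fintype.card F) * k0 G x y := by
  rw [← finrank_top F V, ← card_P1W sl n5 hi Submodule.mem_top, cardS]
  congr 1; ext g
  exact ⟨fun h => ⟨(h x).2 (Submodule.mem_span_singleton_self _), trivial⟩, fun h => mem_St_sp h.1⟩

theorem card_B : Nat.card (St G (F ∙ x) ⊓ St G (ln F x y) : Subgroup G) =
    (Fintype.card F - 1) * (Fintype.card F ^ 2 - Fintype.card F) * k0 G x y := by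
  rw [← hi.finrank, ← card_P1W sl n5 hi l_ln, cardS]
  congr 1; ext g
  exact ⟨fun h => ⟨(h.1 x).2 (Submodule.mem_span_singleton_self _), (h.2 y).2 r_ln⟩,
    fun h => ⟨mem_St_sp h.1, mem_St_ln (sp_le_ln h.1) h.2⟩⟩

theorem card_K : Nat.card (KK F G x y) = (Fintype.card F - 1) * k0 G x y := by
  have h1 : {c : F | c ≠ 0}.ncard = Fintype.card F - 1 := by
    have := ncard_ne0' (F := F) (V := F); rwa [finrank_self, pow_one] at this
  rw [← h1, ← Set.ncard_image_of_injective _ (f := fun c : F => (c • x, c • y))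
    (fun c d e => smul_left_injective F hi.1 (congrArg Prod.fst e)), ← fr sl n5 hi _ (by
      rintro _ ⟨c, hc, rfl⟩; exact hi.sml hc hc), cardS]
  congr 1; ext g
  exact ⟨fun ⟨c, hc, h1, h2⟩ => ⟨c, hc, Prod.ext h1.symm h2.symm⟩, fun ⟨c, hc, h⟩ =>
    ⟨c, hc, (congrArg Prod.fst h).symm, (congrArg Prod.snd h).symm⟩⟩

theorem card_Y (sc : Sc F V H)
    (ht : ∀ u ∈ ln F x y, u ≠ 0 → ∃ h ∈ H ⊓ St G (ln F x y), h • x = u) :
    Nat.card (YY F H x y) = (Fintype.card F ^ 2 - 1) * (Aff F H x y).ncard * k0 G x y := by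
  rw [← hi.finrank, ← ncard_ne0, ← ncard_pairs {a : V × V | ∃ h ∈ H ⊓ St G (ln F x y),
    h • x = a.1 ∧ h • y = a.2} {u | u ∈ ln F x y ∧ u ≠ 0} (by
      rintro a ⟨h, hh, e, -⟩
      exact ⟨e ▸ (hh.2 x).2 l_ln, e ▸ (hi.smul h).1⟩) (fun u hu => ?_),
    ← fr sl n5 hi _ (by rintro a ⟨h, -, e1, e2⟩; rw [← e1, ← e2]; exact hi.smul h), cardS]
  · congr 1; ext g
    exact ⟨fun ⟨h, hh, e⟩ => ⟨h, hh, (e x l_ln).symm, (e y r_ln).symm⟩,
      fun ⟨h, hh, e1, e2⟩ => ⟨h, hh, agree e1.symm e2.symm⟩⟩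
  · obtain ⟨k, hk, rfl⟩ := ht u hu.1 hu.2
    have l0 : ∀ a ∈ Aff F H x y, a.1 ≠ 0 := by
      rintro a ⟨j, -, e, -⟩ h0
      rw [h0, zero_smul] at e; exact hi.1 (gsz.1 e)
    rw [← Set.InjOn.ncard_image (f := fun a : F × F => k • a.1⁻¹ • (y + a.2 • x))]
    · congr 1; ext b; constructor
      · rintro ⟨h, hh, e1, e2⟩
        dsimp only at e1 e2
        have hj := (H ⊓ St G (ln F x y)).mul_mem ((H ⊓ St G (ln F x y)).inv_mem hk) hh
        obtain ⟨c, d, e⟩ := mem_ln.1 ((hj.2 y).2 r_ln)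
        have e3 : (k⁻¹ * h) • x = x := by rw [mul_smul, e1, inv_smul_smul]
        have hd : d ≠ 0 := fun h0 => (hi.smul (k⁻¹ * h)).2 (by
          rw [e3, ← e, h0, zero_smul, add_zero]; exact Submodule.mem_span_singleton.2 ⟨c, rfl⟩)
        obtain ⟨z, hz, ez⟩ := sc d⁻¹ (inv_ne_zero hd)
        refine ⟨(d⁻¹, d⁻¹ * c), ⟨z * (k⁻¹ * h), H.mul_mem hz hj.1, by rw [mul_smul, e3, ez], ?_⟩, ?_⟩
        · rw [mul_smul, ← e, ez, smul_add, smul_smul, smul_smul, inv_mul_cancel₀ hd, one_smul,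
            add_comm]
        · dsimp only
          rw [← e2, inv_inv, smul_add d, smul_smul, mul_inv_cancel_left₀ hd, add_comm, e, mul_smul,
            smul_inv_smul]
      · rintro ⟨a, ha, rfl⟩
        obtain ⟨z, hz, ez⟩ := sc a.1⁻¹ (inv_ne_zero (l0 a ha))
        obtain ⟨j, hj, e1, e2⟩ := id ha
        have e3 : (z * j) • x = x := by
          rw [mul_smul, e1, ez, smul_smul, inv_mul_cancel₀ (l0 a ha), one_smul]
        have e4 : (z * j) • y = a.1⁻¹ • (y + a.2 • x) := by rw [mul_smul, e2, ez]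
        refine ⟨k * (z * j), Subgroup.mul_mem _ hk ⟨H.mul_mem hz hj, mem_St_ln (e3.symm ▸ l_ln) ?_⟩,
          by rw [mul_smul, e3], by rw [mul_smul, e4]⟩
        rw [e4]
        exact Submodule.smul_mem _ _ (Submodule.add_mem _ r_ln (Submodule.smul_mem _ _ l_ln))
    · intro a ha b hb e
      have e1 := MulAction.injective k e
      have := ind_iff.1 hi (a.1⁻¹ * a.2 - b.1⁻¹ * b.2) (a.1⁻¹ - b.1⁻¹) (by
        rw [← sub_eq_zero] at e1; rw [← e1]; module)
      have h1 : a.1 = b.1 := inv_injective (sub_eq_zero.1 this.2)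
      have h2 := sub_eq_zero.1 this.1
      rw [h1] at h2
      exact Prod.ext h1 (mul_left_cancel₀ (inv_ne_zero (l0 b hb)) h2)

theorem idx_P2 : (St G (ln F x y)).index * ((Fintype.card F ^ 2 - 1) * (Fintype.card F - 1)) =
    (Fintype.card F ^ finrank F V - 1) * (Fintype.card F ^ (finrank F V - 1) - 1) := by
  have h := (St G (ln F x y)).index_mul_card
  rw [card_P2 sl n5 hi, card_G sl n5 hi, ← mul_assoc] at h
  have h := Nat.eq_of_mul_eq_mul_right k0_pos h
  obtain ⟨n, hn⟩ : ∃ n, finrank F V = n + 1 := ⟨finrank F V - 1, by omega⟩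
  rw [hn] at h ⊢
  rw [Nat.add_sub_cancel]
  refine Nat.eq_of_mul_eq_mul_right (Fintype.card_pos (α := F)) ?_
  rw [mul_assoc, mul_assoc, mul_assoc, Nat.sub_one_mul (Fintype.card F),
    Nat.sub_one_mul (Fintype.card F ^ n), ← pow_succ, ← sq, h]

theorem idx_mod : ((St G (ln F x y)).index : F) = 1 ∧
    ((St G (F ∙ x)).index : F) = 1 ∧
    ((St G (F ∙ x) ⊓ St G (ln F x y) : Subgroup G).index : F) = 1 := by
  have hq : (Fintype.card F : F) = 0 := FiniteField.cast_card_eq_zero F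
  have c1 : ∀ n, 0 < n → ((Fintype.card F ^ n - 1 : ℕ) : F) = -1 := fun n hn => by
    rw [Nat.cast_sub (Nat.one_le_pow _ _ Fintype.card_pos), Nat.cast_pow, hq, zero_pow hn.ne']; simp
  have c0 := c1 1 one_pos
  rw [pow_one] at c0
  have h2 := congrArg (Nat.cast : ℕ → F) (idx_P2 (G := G) sl n5 hi)
  simp only [Nat.cast_mul] at h2
  rw [c0, c1 _ two_pos, c1 _ (by omega), c1 _ (by omega)] at h2
  have hpos : 0 < Fintype.card F ^ finrank F V - Fintype.card F := by
    have := Nat.pow_lt_pow_right (q2 F) (show 1 < finrank F V by omega)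
    rw [pow_one] at this; omega
  have h1 := (St G (F ∙ x)).index_mul_card
  rw [card_P1 sl n5 hi, card_G sl n5 hi, ← mul_assoc, ← mul_assoc] at h1
  have h1 := congrArg (Nat.cast : ℕ → F)
    (Nat.eq_of_mul_eq_mul_right hpos (Nat.eq_of_mul_eq_mul_right k0_pos h1))
  rw [Nat.cast_mul, c0, c1 _ (by omega)] at h1
  have h3 := (St G (F ∙ x) ⊓ St G (ln F x y) : Subgroup G).index_mul_card
  have h4 := (St G (ln F x y)).index_mul_card
  rw [card_B sl n5 hi, ← h4, card_P2 sl n5 hi, ← mul_assoc, ← mul_assoc, ← mul_assoc,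
    ← mul_assoc] at h3
  have hpos2 : 0 < Fintype.card F ^ 2 - Fintype.card F := by
    have := Nat.pow_lt_pow_right (q2 F) (show 1 < 2 by omega)
    rw [pow_one] at this; omega
  have h3 := congrArg (Nat.cast : ℕ → F)
    (Nat.eq_of_mul_eq_mul_right hpos2 (Nat.eq_of_mul_eq_mul_right k0_pos h3))
  have h2' : ((St G (ln F x y)).index : F) = 1 := by simpa using h2
  rw [Nat.cast_mul, Nat.cast_mul, c0, c1 _ two_pos, h2'] at h3
  exact ⟨h2', by simpa using h1, by simpa using h3⟩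

theorem val {G : Type u} [Group G] [Fintype G] [DistribMulAction G V] [SMulCommClass G F V]
    (sl : SLe F V G) {t : G} (ht : IsTv F V t) : ∃ α : ℚ, 0 ≤ α ∧
    pc (St G (ln F x y)) t ≤ 2 * α ∧ pc (St G (F ∙ x)) t ≤ α ∧
    ∀ Y : Subgroup G, KK F G x y ≤ Y → Y ≤ St G (ln F x y) →
      Y.relIndex (St G (ln F x y)) * α ≤ pc Y t := by
  obtain ⟨v, f, hv, hf, h0, ht⟩ := ht
  have hk := finrank_ker hf
  obtain ⟨n, hn⟩ : ∃ n, finrank F (LinearMap.ker f) = n + 4 := ⟨finrank F V - 5, by omega⟩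
  have hq := q2 F
  have hN : finrank F V = n + 5 := by omega
  set M := (Fintype.card F ^ (n + 4) - 1) * (Fintype.card F ^ (n + 4) - Fintype.card F) with hM
  have cK : M * k0 G x y ≤ {g : G | g⁻¹ * t * g ∈ KK F G x y}.ncard := by
    rw [hM, ← hn, ← ncard_frames, ← fr sl n5 hi _ fun a ha => ha.1]
    refine Set.ncard_le_ncard fun g hg => ⟨1, one_ne_zero, ?_, ?_⟩
    · rw [mul_smul, mul_smul, ht, show f (g • x) = 0 from hg.2.1]; simp
    · rw [mul_smul, mul_smul, ht, show f (g • y) = 0 from hg.2.2]; simp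
  have cv : ∀ {W : Submodule F V} {g : G} {u : V}, g⁻¹ * t * g ∈ St G W → u ∈ W →
      f (g • u) = 0 ∨ g⁻¹ • v ∈ W := fun {W g u} h hu => by
    have := (h u).2 hu
    rw [mul_smul, mul_smul, ht, smul_add, inv_smul_smul, gsc, W.add_mem_iff_right hu] at this
    by_cases h1 : f (g • u) = 0
    · exact Or.inl h1
    · exact Or.inr ((W.smul_mem_iff h1).1 this)
  have c1 : {g : G | g⁻¹ * t * g ∈ St G (F ∙ x)}.ncard ≤
      (Fintype.card F ^ (n + 4) - 1) * (Fintype.card F ^ (n + 5) - Fintype.card F) * k0 G x y := by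
    rw [← hn, ← hN, ← ncard_ne0, ← ncard_pairs {a : V × V | Ind F a.1 a.2 ∧ f a.1 = 0}
      {u | u ∈ LinearMap.ker f ∧ u ≠ 0}
      (fun a ha => ⟨ha.2, ha.1.1⟩) (fun u hu => ?_), ← fr sl n5 hi _ fun a ha => ha.1]
    · refine Set.ncard_le_ncard fun g hg => ⟨hi.smul g, ?_⟩
      rcases cv hg (Submodule.mem_span_singleton_self x) with h | h
      · exact h
      · have : g • x ∈ F ∙ v := by
          rw [← smul_inv_smul g v, smul_mem_sp_iff, sp_eq (fun e => hv (gsz.1 e)) h]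
          exact Submodule.mem_span_singleton_self x
        obtain ⟨c, e⟩ := Submodule.mem_span_singleton.1 this
        change f (g • x) = 0
        rw [← e, map_smul, h0, smul_zero]
    · have := ncard_compl (F ∙ u)
      rw [finrank_span_singleton hu.2, pow_one] at this
      rw [← this]; congr 1; ext b; exact ⟨fun h => h.1.2, fun h => ⟨⟨hu.2, h⟩, hu.1⟩⟩
  have c2 : {g : G | g⁻¹ * t * g ∈ St G (ln F x y)}.ncard ≤ 2 * M * k0 G x y := by
    have a1 := ncard_frames (LinearMap.ker f)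
    rw [hn, ← hM] at a1
    have a2 : {a : V × V | a.1 ∈ F ∙ v}.ncard ≤ Fintype.card F ^ 1 * Fintype.card F ^ (n + 5) := by
      rw [← finrank_span_singleton (K := F) hv, ← ncard_sub, ← hN, ← card_V F V]
      exact ncard_pairs_le _ _ (fun a ha => ha) fun u _ => by
        rw [← Set.ncard_univ]; exact Set.ncard_le_ncard (Set.subset_univ _)
    have a3 : {a : V × V | a.2 ∈ ln F a.1 v}.ncard ≤
        Fintype.card F ^ (n + 5) * Fintype.card F ^ 2 := by
      rw [← hN, ← card_V F V, ← Set.ncard_univ]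
      exact ncard_pairs_le _ _ (fun a _ => trivial) fun u _ => (ncard_sub (ln F u v)).le.trans
        (Nat.pow_le_pow_right (by omega) (finrank_ln_le _ _))
    have a4 : Fintype.card F ^ 1 * Fintype.card F ^ (n + 5) +
        Fintype.card F ^ (n + 5) * Fintype.card F ^ 2 ≤ M := by
      rw [hM]
      have b1 : Fintype.card F ^ 4 ≤ Fintype.card F ^ (n + 4) :=
        Nat.pow_le_pow_right (by omega) (by omega)
      rw [pow_succ _ (n + 4)]
      generalize Fintype.card F ^ (n + 4) = Q at b1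
      generalize Fintype.card F = q at b1 hq
      have b2 : q ^ 3 + q ^ 2 + q + 1 ≤ Q := by nlinarith [Nat.pow_le_pow_left hq 2, Nat.pow_le_pow_left hq 3]
      zify [show 1 ≤ Q by omega, show q ≤ Q by omega] at b2 ⊢
      nlinarith
    refine le_trans ?_ (Nat.mul_le_mul_right _ (show {a : V × V | Ind F a.1 a.2 ∧
      ((Ind F a.1 a.2 ∧ a.1 ∈ LinearMap.ker f ∧ a.2 ∈ LinearMap.ker f) ∨ a.1 ∈ F ∙ v ∨
        a.2 ∈ ln F a.1 v)}.ncard ≤ 2 * M from ?_))
    · rw [← fr sl n5 hi _ fun a ha => ha.1]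
      refine Set.ncard_le_ncard fun g hg => ⟨hi.smul g, ?_⟩
      by_cases h : g⁻¹ • v ∈ ln F x y
      · right
        have h1 := smul_mem_ln g h
        rw [smul_inv_smul] at h1
        by_cases h2 : g • x ∈ F ∙ v
        · exact Or.inl h2
        · right
          change g • y ∈ ln F (g • x) v
          rw [ln_eq (Ind.symm ⟨hv, h2⟩) l_ln h1]; exact r_ln
      · exact Or.inl ⟨hi.smul g, (cv hg l_ln).resolve_right h, (cv hg r_ln).resolve_right h⟩
    · refine le_trans (Set.ncard_le_ncard (t := {a : V × V | Ind F a.1 a.2 ∧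
        a.1 ∈ LinearMap.ker f ∧ a.2 ∈ LinearMap.ker f} ∪ ({a : V × V | a.1 ∈ F ∙ v} ∪
        {a : V × V | a.2 ∈ ln F a.1 v})) fun a ha => ha.2) ?_
      have := Set.ncard_union_le {a : V × V | a.1 ∈ F ∙ v} {a : V × V | a.2 ∈ ln F a.1 v}
      refine (Set.ncard_union_le _ _).trans ?_
      omega
  have p2 : (0 : ℚ) < Nat.card (St G (ln F x y)) := Nat.cast_pos.2 Nat.card_pos
  have p1 : (0 : ℚ) < Nat.card (St G (F ∙ x)) := Nat.cast_pos.2 Nat.card_pos
  refine ⟨(M * k0 G x y : ℕ) / Nat.card (St G (ln F x y)), by positivity, ?_, ?_, fun Y h1 h2 => ?_⟩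
  · rw [← mul_div_assoc, le_div_iff₀ p2, pc_mul]
    exact_mod_cast (by rw [← mul_assoc]; exact c2)
  · rw [le_div_iff₀ p2, ← mul_le_mul_iff_left₀ p1, mul_right_comm, pc_mul]
    have : {g : G | g⁻¹ * t * g ∈ St G (F ∙ x)}.ncard * Nat.card (St G (ln F x y)) ≤
        M * k0 G x y * Nat.card (St G (F ∙ x)) := by
      refine (Nat.mul_le_mul_right _ c1).trans ?_
      rw [card_P2 sl n5 hi, card_P1 sl n5 hi, hM, hN]
      have b1 : Fintype.card F ^ 3 ≤ Fintype.card F ^ (n + 4) :=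
        Nat.pow_le_pow_right (by omega) (by omega)
      have b2 : (Fintype.card F ^ 2 - 1) * (Fintype.card F ^ 2 - Fintype.card F) ≤
          (Fintype.card F ^ (n + 4) - Fintype.card F) * (Fintype.card F - 1) := by
        generalize Fintype.card F ^ (n + 4) = Q at b1
        generalize Fintype.card F = q at b1 hq
        have : q ≤ q ^ 2 := by nlinarith
        have : q ≤ q ^ 3 := by nlinarith
        zify [show 1 ≤ q ^ 2 by omega, show q ≤ q ^ 2 by omega, show q ≤ Q by omega,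
          show 1 ≤ q by omega] at b1 hq ⊢
        nlinarith
      calc _ = ((Fintype.card F ^ 2 - 1) * (Fintype.card F ^ 2 - Fintype.card F)) *
          ((Fintype.card F ^ (n + 4) - 1) * (Fintype.card F ^ (n + 5) - Fintype.card F) *
            k0 G x y * k0 G x y) := by ring
        _ ≤ _ := Nat.mul_le_mul_right _ b2
        _ = _ := by ring
    exact_mod_cast this
  · have pY : (0 : ℚ) < Nat.card Y := Nat.cast_pos.2 Nat.card_pos
    have e : (Y.relIndex (St G (ln F x y)) : ℚ) * Nat.card Y = Nat.card (St G (ln F x y)) := by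
      have := (Y.subgroupOf (St G (ln F x y))).index_mul_card
      rw [Nat.card_congr (Subgroup.subgroupOfEquivOfLe h2).toEquiv] at this
      exact_mod_cast this
    rw [← mul_le_mul_iff_left₀ pY, pc_mul, mul_right_comm, e, mul_div_cancel₀ _ p2.ne']
    have : M * k0 G x y ≤ {g : G | g⁻¹ * t * g ∈ Y}.ncard :=
      cK.trans (Set.ncard_le_ncard fun g hg => h1 (show g⁻¹ * t * g ∈ KK F G x y from hg))
    exact_mod_cast this

end

end H13.R3
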