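import Cfsg.Agent.H13.R3_5

/-! Irreducibility, the characteristic divides the degree, Bessel's inequality (S2194). -/

set_option autoImplicit false
set_option linter.unusedSectionVars false

open Module MulAction

namespace H13.R3

universe u

variable {F : Type u} [Field F] [Fintype F] {V : Type u} [AddCommGroup V] [Module F V] [Finite V]
  {G : Type u} [Group G] [Fintype G] [DistribMulAction G V] [SMulCommClass G F V]
  {H Y Y' A : Subgroup G} {x y : V}

/-- the transvections with centre `x` -/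
def QQ (F : Type u) [Field F] [Module F V] (G : Type u) [Group G] [DistribMulAction G V]
    [SMulCommClass G F V] (x : V) : Subgroup G where
  carrier := {g | ∃ f : Dual F V, f x = 0 ∧ ∀ u, g • u = u + f u • x}
  one_mem' := ⟨0, rfl, by simp⟩
  mul_mem' := by
    rintro a b ⟨f, h1, h2⟩ ⟨f', h3, h4⟩
    exact ⟨f + f', by simp [h1, h3], fun u => by
      rw [mul_smul, h4, h2, map_add, map_smul, h1, LinearMap.add_apply]; simp only [smul_zero]; module⟩
  inv_mem' := by
    rintro a ⟨f, h1, h2⟩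
    exact ⟨-f, by simp [h1], fun u => by
      rw [inv_smul_eq_iff, h2, map_add, map_smul, h1, LinearMap.neg_apply]
      simp only [smul_zero]; module⟩

theorem QQ_p (fa : ∀ g : G, (∀ v : V, g • v = v) → g = 1) (p : ℕ) [CharP F p] :
    IsPGroup p (QQ F G x) := by
  rintro ⟨g, f, h1, h2⟩
  refine ⟨1, Subtype.ext (fa _ fun v => ?_)⟩
  have : ∀ k : ℕ, g ^ k • v = v + ((k : F) * f v) • x := fun k => by
    induction k with
    | zero => simp
    | succ k ih =>
      rw [pow_succ', mul_smul, ih, h2, map_add, map_smul, h1]; push_cast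
      simp only [smul_zero]; module
  change g ^ p ^ 1 • v = v
  rw [pow_one, this, CharP.cast_eq_zero]; simp

theorem ex_frame (h : 2 ≤ finrank F V) {x : V} (hx : x ≠ 0) : ∃ y, Ind F x y := by
  obtain ⟨y, hy⟩ := ex_notMem' (A := F ∙ x) (by rw [finrank_span_singleton hx]; omega)
  exact ⟨y, hx, hy⟩

theorem low (hY : Y' ≤ St G (ln F x y)) : dcs (YY F H x y) Y' (St G (ln F x y)) +
    dc H (St G (ln F x y)) ≤ dc H Y' + 1 := by
  set P := St G (ln F x y)
  have hu : (Set.univ : Set G) = {g | DC H P 1 g} ∪ {g | ¬ DC H P 1 g} := by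
    ext g; simp [em]
  have hd : ∀ {B : Subgroup G}, B ≤ P → ∀ a ∈ {g | DC H P 1 g}, ∀ b ∈ {g | ¬ DC H P 1 g},
      ¬ DC H B a b := fun hB a ha b hb ⟨j, hj, k, hk, e⟩ => hb (DC.trans ha ⟨j, hj, k, hB hk, e⟩)
  rw [← dcs_univ, ← dcs_univ, hu, dcs_union (hd le_rfl), dcs_union (hd hY),
    dcs_one (S := {g | DC H P 1 g}) (a := 1) (DC.refl 1) fun b hb => hb]
  have h1 := dcs_le_of_le (le_refl H) hY {g | ¬ DC H P 1 g}
  have h2 : dcs H Y' P ≤ dcs H Y' {g | DC H P 1 g} :=
    dcs_mono fun g hg => ⟨1, H.one_mem, g, hg, by group⟩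
  have h3 : dcs (YY F H x y) Y' P ≤ dcs H Y' P := by
    rw [dcs, dcs, nos, nos, Set.image_image, Set.image_image]
    refine ncard_image_le_of _ _ _ fun a ha b hb e => qeq.2 (dc_iff.2 ?_)
    obtain ⟨j, hj, k, hk, rfl⟩ := dc_iff.1 (qeq.1 e)
    exact ⟨j, le_YY ⟨hj, (P.mul_mem_cancel_right hb).1 ((P.mul_mem_cancel_right (hY hk)).1 ha)⟩,
      k, hk, rfl⟩
  omega

theorem le_of_dc {g g' : G} (h : DC H (St G (ln F x y)) g g') :
    LE F H (g • x, g • y) (g' • x, g' • y) := by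
  obtain ⟨j, hj, k, hk, rfl⟩ := h
  have hk' := (St G (ln F x y)).inv_mem hk
  refine ⟨j, hj, ?_, ?_⟩
  · simpa [mul_smul] using smul_mem_ln (j * g * k) ((hk' x).2 l_ln)
  · simpa [mul_smul] using smul_mem_ln (j * g * k) ((hk' y).2 r_ln)

theorem dc_of_le {g g' : G} (h : LE F H (g • x, g • y) (g' • x, g' • y)) :
    DC H (St G (ln F x y)) g g' := by
  obtain ⟨j, hj, h1, h2⟩ := h
  refine ⟨j, hj, (g'⁻¹ * j * g)⁻¹, Subgroup.inv_mem _ (mem_St_ln ?_ ?_), by group⟩
  · rw [← smul_mem_ln_iff (g := g'), mul_smul, mul_smul, smul_inv_smul]; exact h1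
  · rw [← smul_mem_ln_iff (g := g'), mul_smul, mul_smul, smul_inv_smul]; exact h2

theorem fe_of_dc (sc : Sc F V H) (hx : x ≠ 0) {g g' : G}
    (h : DC H (St G (F ∙ x) ⊓ St G (ln F x y)) g g') : FE F H (g • x, g • y) (g' • x, g' • y) := by
  obtain ⟨j, hj, k, hk, rfl⟩ := h
  obtain ⟨c, e⟩ := Submodule.mem_span_singleton.1 ((hk.1 x).2 (Submodule.mem_span_singleton_self _))
  have hc : c ≠ 0 := fun h => hx (gsz.1 (by rw [← e, h, zero_smul]))
  obtain ⟨z, hz, ez⟩ := sc c hc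
  refine ⟨z * j, H.mul_mem hz hj, by rw [mul_smul, ez, mul_smul, ← e, gsc, mul_smul], ?_⟩
  rw [mul_smul z j, ez]
  refine Submodule.smul_mem _ _ ?_
  simpa [mul_smul] using smul_mem_ln (j * g * k) ((((St G (ln F x y)).inv_mem hk.2) y).2 r_ln)

theorem pe_of_dc {z : V} {g g' : G} (h : DC H (St G (pl F x y z)) g g') :
    PE F H (g • x, g • y, g • z) (g' • x, g' • y, g' • z) := by
  obtain ⟨j, hj, k, hk, rfl⟩ := h
  have hk' := (St G (pl F x y z)).inv_mem hk
  refine ⟨j, hj, ?_, ?_, ?_⟩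
  · simpa [mul_smul] using smul_mem_pl (j * g * k) ((hk' x).2 p1_pl)
  · simpa [mul_smul] using smul_mem_pl (j * g * k) ((hk' y).2 p2_pl)
  · simpa [mul_smul] using smul_mem_pl (j * g * k) ((hk' z).2 p3_pl)

theorem pc_tv (nt : NoTv F V H) {t : G} (ht : IsTv F V t) : pc H t = 0 := by
  have h := pc_mul H t
  rw [show {y : G | y⁻¹ * t * y ∈ H} = ∅ from Set.eq_empty_of_forall_notMem fun y hy =>
    nt _ hy (by simpa using ht.conj y⁻¹)] at h
  simpa [Nat.card_pos.ne'] using h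

namespace Hy
variable (hy : Hy F V H)
include hy

theorem w2 (hi : Ind F x y) (a : V × V) (ha : Ind F a.1 a.2) : ∃ g : G, (g • x, g • y) = a :=
  (hy.sl.w2 (by have := hy.n5; omega) hi ha).imp fun _ h => Prod.ext h.1 h.2

theorem d22 (hi : Ind F x y) : dc (St G (ln F x y)) (St G (ln F x y)) = 3 := by
  rw [dc_Y2 hy.sl hy.sc hy.n5 hi KK_le le_rfl, bb_P hy.sl hy.n5 hi]
theorem d21 (hi : Ind F x y) : dc (St G (ln F x y)) (St G (F ∙ x)) = 2 := by
  rw [dc_Y1 hy.sl hy.n5 hi (hy.sc.St _) KK_le le_rfl, bb_P hy.sl hy.n5 hi]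
theorem dB2 (hi : Ind F x y) : dc (St G (F ∙ x) ⊓ St G (ln F x y)) (St G (ln F x y)) = 4 := by
  rw [dc_Y2 hy.sl hy.sc hy.n5 hi (le_inf KK_le1 KK_le) inf_le_right, bb_B hy.sl hy.sc hy.n5 hi]
theorem dB1 (hi : Ind F x y) : dc (St G (F ∙ x) ⊓ St G (ln F x y)) (St G (F ∙ x)) = 3 := by
  rw [dc_Y1 hy.sl hy.n5 hi (hy.sc.KK (le_inf KK_le1 KK_le)) (le_inf KK_le1 KK_le) inf_le_right,
    bb_B hy.sl hy.sc hy.n5 hi]
theorem dBB (hi : Ind F x y) :
    dc (St G (F ∙ x) ⊓ St G (ln F x y)) (St G (F ∙ x) ⊓ St G (ln F x y)) = 7 := by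
  rw [dc_YB hy.sl hy.sc hy.n5 hi (le_inf KK_le1 KK_le) inf_le_right, bb_B hy.sl hy.sc hy.n5 hi]

theorem three (hi : Ind F x y) (h : 3 ≤ dc H (St G (ln F x y))) :
    H.index = (St G (ln F x y)).index := by
  have := ip_zero (f := pc H - pc (St G (ln F x y))) (by
    simp only [map_sub, LinearMap.sub_apply, ip_pc, hy.r3, hy.d22 hi, dc_comm _ H]
    have : (3 : ℚ) ≤ dc H (St G (ln F x y)) := by exact_mod_cast h
    push_cast; linarith) 1
  rw [Pi.sub_apply, pc_one, pc_one, sub_eq_zero] at this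
  exact_mod_cast this

theorem eq_St {U : Submodule F V} (h0 : U ≠ ⊥) (h1 : U ≠ ⊤) (h : H ≤ St G U) : H = St G U := by
  by_contra hn
  have := hy.mx.2 _ (lt_of_le_of_ne h hn)
  obtain ⟨a, ha, ha0⟩ := Submodule.exists_mem_ne_zero_of_ne_bot h0
  obtain ⟨b, -, hb⟩ := SetLike.exists_of_lt (lt_top_iff_ne_top.2 h1)
  obtain ⟨g, rfl⟩ := hy.sl.w1 (by have := hy.n5; omega) ha0 (x' := b) fun e => hb (e ▸ U.zero_mem)
  exact hb (((this ▸ Subgroup.mem_top g : g ∈ St G U) a).2 ha)

open scoped Pointwise in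
theorem irr (hi : Ind F x y) (h : dc H (St G (ln F x y)) ≤ 2) : Irr F V H := by
  intro U hU
  by_contra hn
  push Not at hn
  have hH : H ≤ St G U := fun j hj => mem_St_of (hU j hj)
  have e := hy.eq_St hn.1 hn.2 hH
  have r3 := hy.r3
  have n5 := hy.n5
  have h0 : finrank F U ≠ 0 := fun h => hn.1 (Submodule.finrank_eq_zero.1 h)
  have h1 := Submodule.finrank_lt hn.2
  by_cases k1 : finrank F U = 1
  · obtain ⟨a, ha, ha0⟩ := Submodule.exists_mem_ne_zero_of_ne_bot hn.1
    have eU : (F ∙ a) = U := Submodule.eq_of_le_of_finrank_eq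
      ((Submodule.span_singleton_le_iff_mem _ _).2 ha) (by rw [finrank_span_singleton ha0, k1])
    obtain ⟨b, hb⟩ := ex_frame (F := F) (by omega) ha0
    have := dc_11 hy.sl hy.sc n5 hb
    rw [eU, ← e] at this; omega
  by_cases k2 : finrank F U + 1 = finrank F V
  · have : dc (St G U) (St G U) ≤ 2 := by
      rw [← dcs_univ]
      refine (dcs_le (fun g => g • U = U) Set.univ (fun _ _ => trivial)
        fun a _ b _ e => ?_).trans (by simp)
      have hd : ∀ g : G, g • U ≠ U →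
          finrank F (U ⊓ g • U : Submodule F V) + 2 = finrank F V := fun g hg => by
        have h2 := finrank_inf_ge U (g • U)
        have h3 := finrank_psmul g U
        have h4 : finrank F (U ⊓ g • U : Submodule F V) < finrank F U :=
          Submodule.finrank_lt_finrank_of_lt (lt_of_le_of_ne inf_le_left fun h =>
            hg (Submodule.eq_of_le_of_finrank_eq (inf_eq_left.1 h) h3.symm).symm)
        omega
      obtain ⟨g, hg, e⟩ := hy.sl.pairs U _ (a • U) (b • U) (by rw [finrank_psmul, finrank_psmul])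
        (by
          by_cases ha : a • U = U
          · rw [ha, (iff_of_eq e).1 ha]
          · have := hd a ha; have := hd b fun h => ha ((iff_of_eq e).2 h); omega) (Nat.le_add_left _ _)
      exact ⟨g, hg, (g * a)⁻¹ * b, psmul_St.2 (by rw [mul_smul, ← e, ← mul_smul g, inv_smul_smul]),
        by group⟩
    rw [← e] at this; omega
  · have := three_le hy.sl hi hH (by omega) (by omega); omega

theorem p0 (hI : Irr F V H) : (H.index : F) = 0 := by
  obtain ⟨p, hc⟩ := CharP.exists F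
  have hp : Fact p.Prime := ⟨CharP.char_is_prime F p⟩
  rw [CharP.cast_eq_zero_iff F p]
  by_contra hn
  obtain ⟨x, -, hx⟩ := ex_ne0 (A := (⊤ : Submodule F V)) (by
    rw [finrank_top]; have := hy.n5; omega)
  obtain ⟨c, hc⟩ := (QQ_p (F := F) (x := x) hy.fa p).nonempty_fixed_point_of_prime_not_dvd_card (G ⧸ H) hn
  induction c using QuotientGroup.induction_on with
  | H a =>
  have inv : ∀ j ∈ H, ∀ v : V, QQ F G v ≤ H → QQ F G (j • v) ≤ H := by
    rintro j hj v hv g ⟨f, h1, h2⟩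
    have : j⁻¹ * g * j ∈ H := hv ⟨j⁻¹ • f, by simpa using h1, fun u => by
      rw [mul_smul, mul_smul, h2, smul_add, gsc]; simp⟩
    exact (H.mul_mem_cancel_left (H.inv_mem hj)).1 ((H.mul_mem_cancel_right hj).1 this)
  have sm : ∀ (c : F) (v : V), QQ F G v ≤ H → QQ F G (c • v) ≤ H := by
    rintro c v hv g ⟨f, h1, h2⟩
    exact hv ⟨c • f, by simpa using h1, fun u => by rw [h2, smul_smul, mul_comm]; rfl⟩
  let C : Submodule F V :=
    { carrier := {v | QQ F G v ≤ H}
      zero_mem' := by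
        rintro g ⟨f, -, h2⟩
        rw [hy.fa g fun v => by simpa using h2 v]; exact H.one_mem
      smul_mem' := sm
      add_mem' := fun {v w} hv hw => by
        by_cases h : v ∈ F ∙ w
        · obtain ⟨c, rfl⟩ := Submodule.mem_span_singleton.1 h
          have := sm (c + 1) w hw
          rwa [add_smul, one_smul] at this
        · obtain ⟨f, h1, h2⟩ := ex_dual h
          have h3 := h2 w (Submodule.mem_span_singleton_self _)
          obtain ⟨t, ht⟩ := hy.sl.tv0 h3
          have := inv t (hw ⟨f, h3, ht⟩) v hv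
          rwa [ht, h1, one_smul] at this }
  have ha : a⁻¹ • x ∈ C := by
    rintro g ⟨f, h1, h2⟩
    have := fix_iff.1 (hc ⟨a * g * a⁻¹, a • f, h1, fun u => by
      rw [mul_smul, mul_smul, h2, smul_add, gsc]; simp⟩)
    simpa [mul_assoc] using this
  rcases hI C inv with h | h
  · exact hx (gsz.1 ((Submodule.eq_bot_iff _).1 h _ ha))
  · obtain ⟨t, ⟨v, f, ht⟩, hH⟩ := hy.nt
    exact hH ((h ▸ Submodule.mem_top : v ∈ C) ⟨f, ht.2.2⟩)

theorem bessel (hi : Ind F x y) (h0 : (H.index : F) = 0) :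
    ((dc H (St G (F ∙ x)) : ℤ) - 1) ^ 2 +
      ((dc H (St G (ln F x y)) : ℤ) - dc H (St G (F ∙ x))) ^ 2 +
      ((dc H (St G (F ∙ x) ⊓ St G (ln F x y)) : ℤ) - dc H (St G (ln F x y)) -
        dc H (St G (F ∙ x)) + 1) ^ 2 ≤ 1 := by
  have d11 := dc_11 hy.sl hy.sc hy.n5 hi
  have d21 := hy.d21 hi
  have d22 := hy.d22 hi
  have dB1 := hy.dB1 hi
  have dB2 := hy.dB2 hi
  have dBB := hy.dBB hi
  obtain ⟨i2, i1, iB⟩ := idx_mod (G := G) hy.sl hy.n5 hi
  generalize St G (F ∙ x) ⊓ St G (ln F x y) = B at *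
  generalize St G (F ∙ x) = P at *
  generalize St G (ln F x y) = L at *
  by_contra hn
  have := ip_zero (f := pc H - 1 - ((dc H P : ℚ) - 1) • (pc P - 1) -
    ((dc H L : ℚ) - dc H P) • (pc L - pc P) -
    ((dc H B : ℚ) - dc H L - dc H P + 1) • (pc B - pc L - pc P + 1)) (by
    simp only [map_sub, map_add, map_smul, LinearMap.sub_apply, LinearMap.add_apply,
      LinearMap.smul_apply, smul_eq_mul, ip_pc, ip_one_left, ip_one_right, ip_one_one, hy.r3,
      dc_comm P H, dc_comm L H, dc_comm B H, dc_comm P L, dc_comm P B, dc_comm L B, d11, d21, d22,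
      dB1, dB2, dBB]
    have : (2 : ℚ) ≤ ((dc H P : ℚ) - 1) ^ 2 + ((dc H L : ℚ) - dc H P) ^ 2 +
        ((dc H B : ℚ) - dc H L - dc H P + 1) ^ 2 := by
      have : (2 : ℤ) ≤ _ := not_le.1 hn
      exact_mod_cast this
    push_cast; linarith) 1
  simp only [Pi.sub_apply, Pi.add_apply, Pi.smul_apply, Pi.one_apply, pc_one, smul_eq_mul] at this
  have h1 : (H.index : ℤ) - 1 - ((dc H P : ℤ) - 1) * (P.index - 1) -
      ((dc H L : ℤ) - dc H P) * (L.index - P.index) -
      ((dc H B : ℤ) - dc H L - dc H P + 1) * (B.index - L.index - P.index + 1) = 0 := by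
    exact_mod_cast this
  have h2 := congrArg (Int.cast : ℤ → F) h1
  push_cast at h2
  rw [h0, i1, i2, iB] at h2
  simp at h2

theorem planes (hi : Ind F x y) (h6 : 6 ≤ finrank F V) (hL : dc H (St G (ln F x y)) = 1) :
    Le2 (fun a : V × V × V => Ind3 F a.1 a.2.1 a.2.2) (PE F H) := by
  obtain ⟨z, hz⟩ := ex_notMem' (A := ln F x y) (by rw [hi.finrank]; omega)
  have h3 : Ind3 F x y z := ⟨hi, hz⟩
  have d33 := dc_St_le hy.sl (pl F x y z) (pl F x y z)
  have d32 := three_le hy.sl hi (le_refl (St G (pl F x y z))) (by rw [h3.finrank]; omega)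
    (by rw [h3.finrank]; omega)
  have d22 := hy.d22 hi
  rw [h3.finrank] at d33
  have key : dc H (St G (pl F x y z)) ≤ 2 := by
    generalize St G (pl F x y z) = E at *
    generalize St G (ln F x y) = L at *
    have := ip_nonneg (pc H - 1 - ((dc H E : ℚ) - 1) • (pc E - pc L))
    simp only [map_sub, map_smul, LinearMap.sub_apply, LinearMap.smul_apply, smul_eq_mul, ip_pc,
      ip_one_left, ip_one_right, ip_one_one, hy.r3, dc_comm E H, dc_comm L H, dc_comm L E, d22,
      hL] at this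
    by_contra hn
    have h1 : (3 : ℚ) ≤ dc H E := by exact_mod_cast not_le.1 hn
    have h2 : (dc E E : ℚ) ≤ 4 := by exact_mod_cast d33
    have h4 : (3 : ℚ) ≤ dc E L := by exact_mod_cast d32
    push_cast at this
    nlinarith [mul_nonneg (sq_nonneg ((dc H E : ℚ) - 1))
      (show (0 : ℚ) ≤ 1 - (dc E E - 2 * dc E L + 3) by linarith)]
  rintro ⟨a1, a2, a3⟩ ⟨b1, b2, b3⟩ ⟨c1, c2, c3⟩ ha hb hc
  obtain ⟨a, rfl, rfl, rfl⟩ := hy.sl.w3 (by omega) h3 ha
  obtain ⟨b, rfl, rfl, rfl⟩ := hy.sl.w3 (by omega) h3 hb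
  obtain ⟨c, rfl, rfl, rfl⟩ := hy.sl.w3 (by omega) h3 hc
  exact (le2_of_dc key a b c).imp pe_of_dc (Or.imp pe_of_dc pe_of_dc)

end Hy

end H13.R3
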