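import Cfsg.Agent.H13.R3_6

/-! The cases C1, C2, C3 and the assembly (S2194). -/

set_option autoImplicit false
set_option linter.unusedSectionVars false

open Module MulAction

namespace H13.R3

universe u

variable {F : Type u} [Field F] [Fintype F] {V : Type u} [AddCommGroup V] [Module F V] [Finite V]
  {G : Type u} [Group G] [Fintype G] [DistribMulAction G V] [SMulCommClass G F V]
  {H Y Y' A : Subgroup G} {x y : V}

theorem le_of_dcs {P : Subgroup G} (h : dcs Y Y P ≤ 1) : P ≤ Y := fun _ hg =>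
  dc_one.1 (dcs_eq_one h P.one_mem hg)

theorem bb_pos (hi : Ind F x y) : 1 ≤ bb F Y x y := nos_pos ⟨x, l_ln, hi.1⟩

theorem YY_tr (h : bb F (YY F H x y) x y ≤ 1) {a b : V} (ha : a ∈ ln F x y) (ha0 : a ≠ 0)
    (hb : b ∈ ln F x y) (hb0 : b ≠ 0) : ∃ j ∈ H ⊓ St G (ln F x y), j • a = b := by
  obtain ⟨g, ⟨j, hj, e⟩, rfl⟩ := tr_of_nos h ⟨ha, ha0⟩ ⟨hb, hb0⟩
  exact ⟨j, hj, (e a ha).symm⟩

namespace Hy
variable (hy : Hy F V H)
include hy

theorem le2L (hi : Ind F x y) (h : dc H (St G (ln F x y)) ≤ 2) :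
    Le2 (fun a : V × V => Ind F a.1 a.2) (LE F H) := by
  intro a b c ha hb hc
  obtain ⟨a, rfl⟩ := hy.w2 hi a ha
  obtain ⟨b, rfl⟩ := hy.w2 hi b hb
  obtain ⟨c, rfl⟩ := hy.w2 hi c hc
  exact (le2_of_dc h a b c).imp le_of_dc (Or.imp le_of_dc le_of_dc)

theorem le1L (hi : Ind F x y) (h : dc H (St G (ln F x y)) ≤ 1) (a b : V × V) (ha : Ind F a.1 a.2)
    (hb : Ind F b.1 b.2) : LE F H a b := by
  obtain ⟨a, rfl⟩ := hy.w2 hi a ha
  obtain ⟨b, rfl⟩ := hy.w2 hi b hb
  exact le_of_dc (le1_of_dc h a b)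

theorem exL (hi : Ind F x y) (h : 2 ≤ dc H (St G (ln F x y))) :
    ∃ a b : V × V, Ind F a.1 a.2 ∧ Ind F b.1 b.2 ∧ ¬ LE F H a b := by
  by_contra hn
  push Not at hn
  rw [← dcs_univ, dcs_one (Set.mem_univ 1) fun b _ =>
    dc_of_le (hn _ _ (hi.smul 1) (hi.smul b))] at h
  omega

theorem le3F (hi : Ind F x y) (h : dc H (St G (F ∙ x) ⊓ St G (ln F x y)) ≤ 3) :
    Le3 (fun a : V × V => Ind F a.1 a.2) (FE F H) := by
  intro a b c d ha hb hc hd
  obtain ⟨a, rfl⟩ := hy.w2 hi a ha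
  obtain ⟨b, rfl⟩ := hy.w2 hi b hb
  obtain ⟨c, rfl⟩ := hy.w2 hi c hc
  obtain ⟨d, rfl⟩ := hy.w2 hi d hd
  have f := fun a b => fe_of_dc (y := y) (g := a) (g' := b) hy.sc hi.1
  exact (le3_of_dc h a b c d).imp (f _ _) (Or.imp (f _ _) (Or.imp (f _ _) (Or.imp (f _ _)
    (Or.imp (f _ _) (f _ _)))))

theorem le1F (hi : Ind F x y) (h : dc H (St G (F ∙ x) ⊓ St G (ln F x y)) ≤ 1) (a b : V × V)
    (ha : Ind F a.1 a.2) (hb : Ind F b.1 b.2) : FE F H a b := by
  obtain ⟨a, rfl⟩ := hy.w2 hi a ha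
  obtain ⟨b, rfl⟩ := hy.w2 hi b hb
  exact fe_of_dc hy.sc hi.1 (le1_of_dc h a b)

theorem pt_iff (hi : Ind F x y) : PT V H ↔ dc H (St G (F ∙ x)) = 1 := by
  rw [dc_pt hy.sl hy.n5 hi hy.sc]
  exact ⟨fun h => le_antisymm ((nos_le {x} fun s hs => ⟨x, rfl, h x s hi.1 hs⟩).trans (by simp))
    (nos_pos ⟨x, hi.1⟩), fun h v w hv hw => tr_of_nos h.le hv hw⟩

theorem lowB (hi : Ind F x y) : bb F (YY F H x y) x y + dc H (St G (ln F x y)) ≤
    dc H (St G (F ∙ x) ⊓ St G (ln F x y)) + 1 := by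
  rw [← dcs_flag hy.sl hy.n5 hi (hy.sc.KK (KK_le_YY hy.sc)) YY_le]
  exact low inf_le_right

/-- if `H` induces the full group on a line -/
theorem full (hi : Ind F x y) (h : St G (ln F x y) ≤ YY F H x y) {a b : V} (hab : Ind F a b)
    (ha : a ∈ ln F x y) (hb : b ∈ ln F x y) : ∃ j ∈ H, j • a = x ∧ j • b = y := by
  obtain ⟨g, hg, h1, h2⟩ := ex_line hy.sl hy.n5 hi hab ha hb
  obtain ⟨j, hj, e⟩ := h hg
  exact ⟨j⁻¹, H.inv_mem hj.1, by rw [inv_smul_eq_iff, ← e x l_ln, h1],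
    by rw [inv_smul_eq_iff, ← e y r_ln, h2]⟩

theorem cases (hi : Ind F x y) (h0 : (H.index : F) = 0) (hP : dc H (St G (F ∙ x)) = 1) :
    (dc H (St G (ln F x y)) = 2 ∧ dc H (St G (F ∙ x) ⊓ St G (ln F x y)) = 2) ∨
    (dc H (St G (ln F x y)) = 1 ∧ dc H (St G (F ∙ x) ⊓ St G (ln F x y)) = 2) ∨
    (dc H (St G (ln F x y)) = 1 ∧ dc H (St G (F ∙ x) ⊓ St G (ln F x y)) = 1) := by
  have h := hy.bessel hi h0
  have h1 := hy.lowB hi
  have h2 := bb_pos (Y := YY F H x y) hi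
  have h3 : 1 ≤ dc H (St G (ln F x y)) := (dcs_pos Set.univ_nonempty).trans dcs_univ.le
  rw [hP] at h
  generalize dc H (St G (ln F x y)) = a at *
  generalize dc H (St G (F ∙ x) ⊓ St G (ln F x y)) = b at *
  push_cast at h
  have h4 : a ≤ 2 := by
    by_contra hn
    have : (3 : ℤ) ≤ a := by omega
    nlinarith [sq_nonneg ((b : ℤ) - a - 1 + 1)]
  have h5 : b ≤ a + 1 := by
    by_contra hn
    have : (a : ℤ) + 2 ≤ b := by omega
    nlinarith [sq_nonneg ((a : ℤ) - 1)]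
  interval_cases a
  · omega
  · left; refine ⟨rfl, ?_⟩
    by_contra hn
    rw [show b = 3 by omega] at h; norm_num at h

theorem c1 (nt : NoTv F V H) (hi : Ind F x y) (hP : dc H (St G (F ∙ x)) = 1)
    (hL : dc H (St G (ln F x y)) = 2) (hB : dc H (St G (F ∙ x) ⊓ St G (ln F x y)) = 2) :
    St G (ln F x y) ≤ YY F H x y := by
  have hb : bb F (YY F H x y) x y = 1 := by
    have := hy.lowB hi; have := bb_pos (Y := YY F H x y) hi; omega
  have d11 := dc_11 hy.sl hy.sc hy.n5 hi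
  have d21 := hy.d21 hi
  have d22 := hy.d22 hi
  have dYY := mackey hy.sl hy.sc hy.n5 hi (KK_le_YY hy.sc) YY_le (KK_le_YY hy.sc) (YY_le (H := H))
  have dY2 := dc_Y2 hy.sl hy.sc hy.n5 hi (KK_le_YY hy.sc) (YY_le (H := H))
  have dY1 := dc_Y1 hy.sl hy.n5 hi (hy.sc.KK (KK_le_YY hy.sc)) (KK_le_YY hy.sc) (YY_le (H := H))
  have lo := low (H := H) (YY_le (H := H) (F := F) (x := x) (y := y))
  have hm := dcs_le_relIndex (A := YY F H x y) (YY_le (H := H) (F := F) (x := x) (y := y))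
  obtain ⟨t, ht, -⟩ := hy.nt
  obtain ⟨α, a0, -, a1, aY⟩ := val hy.sl hy.n5 hi hy.sl ht
  have aY := aY _ (KK_le_YY hy.sc) YY_le
  have h0 := pc_tv nt ht
  refine le_of_dcs ?_
  rw [hb] at dYY dY2 dY1
  generalize St G (F ∙ x) = P at *
  generalize YY F H x y = Y at *
  generalize St G (ln F x y) = L at *
  by_contra hn
  have q1 : (2 : ℚ) ≤ dcs Y Y L := by exact_mod_cast not_le.1 hn
  have q2 : (dcs Y Y L : ℚ) + 1 ≤ dc H Y := by exact_mod_cast (by omega : _ + 1 ≤ dc H Y)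
  have q3 : (dcs Y Y L : ℚ) ≤ Y.relIndex L := by exact_mod_cast hm
  have := ip_zero (f := pc H - 1 - pc Y + pc P) (by
    simp only [map_sub, map_add, LinearMap.sub_apply, LinearMap.add_apply, ip_pc, ip_one_left,
      ip_one_right, ip_one_one, hy.r3, dc_comm P H, dc_comm Y H, dc_comm P Y, d11, dYY, dY1, hP]
    push_cast; linarith) t
  simp only [Pi.sub_apply, Pi.add_apply, Pi.one_apply, h0] at this
  nlinarith

theorem c2 (hC : C2.{u}) (nt : NoTv F V H) (h0 : (H.index : F) = 0) (hi : Ind F x y)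
    (hP : dc H (St G (F ∙ x)) = 1) (hL : dc H (St G (ln F x y)) = 1)
    (hB : dc H (St G (F ∙ x) ⊓ St G (ln F x y)) = 2) : False := by
  have n5 := hy.n5
  have hb : bb F (YY F H x y) x y = 2 := by
    have := hy.lowB hi
    refine le_antisymm (by omega) (not_lt.1 fun h => ?_)
    rw [← dcs_univ, dcs_one (Set.mem_univ 1) fun b _ => ?_] at hB
    · omega
    obtain ⟨j, hj, k, hk, rfl⟩ := le1_of_dc hL.le 1 b
    obtain ⟨l, hl, e⟩ := YY_tr (H := H) (by omega) l_ln hi.1 ((hk x).2 l_ln) (hi.smul k).1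
    exact ⟨j * l, H.mul_mem hj hl.1, l⁻¹ * k, ⟨mem_St_sp (by
      rw [mul_smul, ← e, inv_smul_smul]; exact Submodule.mem_span_singleton_self _),
      Subgroup.mul_mem _ (Subgroup.inv_mem _ hl.2) hk⟩, by group⟩
  have hidx : (YY F H x y).index = (St G (F ∙ x) ⊓ St G (ln F x y) : Subgroup G).index := by
    have d11 := dc_11 hy.sl hy.sc hy.n5 hi
    have d21 := hy.d21 hi
    have d22 := hy.d22 hi
    have dBB := hy.dBB hi
    have dYY := mackey hy.sl hy.sc hy.n5 hi (KK_le_YY hy.sc) YY_le (KK_le_YY hy.sc) (YY_le (H := H))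
    have dY2 := dc_Y2 hy.sl hy.sc hy.n5 hi (KK_le_YY hy.sc) (YY_le (H := H))
    have dYB := dc_YB hy.sl hy.sc hy.n5 hi (KK_le_YY hy.sc) (YY_le (H := H))
    have dY1 := dc_Y1 hy.sl hy.n5 hi (hy.sc.KK (KK_le_YY hy.sc)) (KK_le_YY hy.sc) (YY_le (H := H))
    have lo := low (H := H) (YY_le (H := H) (F := F) (x := x) (y := y))
    have hm := dcs_le_relIndex (A := YY F H x y) (YY_le (H := H) (F := F) (x := x) (y := y))
    obtain ⟨t, ht, -⟩ := hy.nt
    obtain ⟨α, a0, a2, a1, aY⟩ := val hy.sl hy.n5 hi hy.sl ht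
    have aY := aY _ (KK_le_YY hy.sc) YY_le
    have h0 := pc_tv nt ht
    rw [hb] at dYY dY2 dY1 dYB
    generalize St G (F ∙ x) ⊓ St G (ln F x y) = B at *
    generalize St G (F ∙ x) = P at *
    generalize YY F H x y = Y at *
    generalize St G (ln F x y) = L at *
    by_cases hn : dcs Y Y L ≤ 2
    · have q1 : (dcs Y Y L : ℚ) ≤ 2 := by exact_mod_cast hn
      have := ip_zero (f := pc Y - pc B) (by
        simp only [map_sub, LinearMap.sub_apply, ip_pc, dc_comm B Y, dYY, dYB, dBB]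
        push_cast; linarith) 1
      rw [Pi.sub_apply, pc_one, pc_one, sub_eq_zero] at this
      exact_mod_cast this
    exfalso
    have q1 : (3 : ℚ) ≤ dcs Y Y L := by exact_mod_cast not_le.1 hn
    have q2 : (dcs Y Y L : ℚ) ≤ dc H Y := by exact_mod_cast (by omega : _ ≤ dc H Y)
    have q3 : (dcs Y Y L : ℚ) ≤ Y.relIndex L := by exact_mod_cast hm
    have := ip_zero (f := pc H - 1 - 1 - pc Y + pc P + pc L) (by
      simp only [map_sub, map_add, LinearMap.sub_apply, LinearMap.add_apply, ip_pc, ip_one_left,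
        ip_one_right, ip_one_one, hy.r3, dc_comm P H, dc_comm Y H, dc_comm P Y, dc_comm L H,
        dc_comm P L, dc_comm L Y, d11, dYY, dY1, hP, hL, d21, d22, dY2]
      push_cast; linarith) t
    simp only [Pi.sub_apply, Pi.add_apply, Pi.one_apply, h0] at this
    nlinarith
  obtain ⟨p, hc⟩ := CharP.exists F
  have hp : Fact p.Prime := ⟨CharP.char_is_prime F p⟩
  have hnd : ¬ p ∣ Nat.card (St G (ln F x y) ⧸ (YY F H x y).subgroupOf (St G (ln F x y))) := by
    intro h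
    have h1 := Subgroup.relIndex_mul_index (YY_le (H := H) (F := F) (x := x) (y := y))
    have h2 := (idx_mod (G := G) hy.sl n5 hi).2.2
    rw [← hidx, ← h1, Nat.cast_mul, (CharP.cast_eq_zero_iff F p ((YY F H x y).relIndex _)).2 h,
      zero_mul] at h2
    exact zero_ne_one h2
  obtain ⟨c, hc⟩ := ((QQ_p (F := F) (x := x) hy.fa p).comap_subtype
    (K := St G (ln F x y))).nonempty_fixed_point_of_prime_not_dvd_card _ hnd
  induction c using QuotientGroup.induction_on with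
  | H a =>
  have hi' := hi.smul (a : G)⁻¹
  have ha' := (St G (ln F x y)).inv_mem a.2
  have eW : ln F ((a : G)⁻¹ • x) ((a : G)⁻¹ • y) = ln F x y :=
    ln_eq hi' ((ha' x).2 l_ln) ((ha' y).2 r_ln)
  have hμ : ∀ μ : F, ∃ j ∈ YY F H x y, j • (a : G)⁻¹ • y = (a : G)⁻¹ • y + μ • (a : G)⁻¹ • x := by
    intro μ
    have := Fintype.ofFinite (St G (ln F x y))
    obtain ⟨f, f1, f2⟩ := ex_dual hi.2
    have f3 := f2 x (Submodule.mem_span_singleton_self _)
    obtain ⟨g, hg⟩ := hy.sl.tv0 (f := μ • f) (v := x) (by simp [f3])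
    have hg2 : g ∈ St G (ln F x y) := mem_St_of fun u hu => by
      rw [hg]; exact Submodule.add_mem _ hu (Submodule.smul_mem _ _ l_ln)
    have := fix_iff.1 (hc ⟨⟨g, hg2⟩, μ • f, by simp [f3], hg⟩)
    refine ⟨_, this, ?_⟩
    change ((a : G)⁻¹ * g * a) • _ = _
    rw [mul_smul, mul_smul, smul_inv_smul, hg, smul_add, gsc]; simp [f1]
  generalize (a : G)⁻¹ • x = x' at hi' eW hμ
  generalize (a : G)⁻¹ • y = y' at hi' eW hμ
  have sY := hy.sc.KK (KK_le_YY (x := x) (y := y) hy.sc)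
  have hfix : YY F H x y ≤ St G (F ∙ x') := fun g hg => mem_St_sp (by
    by_contra hn
    have k1 : ∀ u ∈ ln F x y, u ∉ (F ∙ x') → ∃ j ∈ YY F H x y, j • y' = u := fun u hu hu' => by
      obtain ⟨c, d, rfl⟩ := mem_ln.1 (eW ▸ hu)
      have hd : d ≠ 0 := fun h => hu' (by
        rw [h, zero_smul, add_zero]; exact Submodule.mem_span_singleton.2 ⟨c, rfl⟩)
      obtain ⟨z, hz, ez⟩ := sY d hd
      refine otrans (hμ (d⁻¹ * c)) ⟨z, hz, ?_⟩
      rw [ez, smul_add, smul_smul, mul_inv_cancel_left₀ hd, add_comm]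
    have := nos_le (J := YY F H x y) (S := {u | u ∈ ln F x y ∧ u ≠ 0}) {y'} fun u hu =>
      ⟨y', rfl, by
        by_cases h : u ∈ F ∙ x'
        · exact otrans (k1 _ ((YY_le hg _).2 (eW ▸ l_ln)) hn)
            (otrans (osymm ⟨g, hg, rfl⟩) (sY.orb hu.2 h))
        · exact k1 u hu.1 h⟩
    rw [Set.ncard_singleton, ← bb, hb] at this; omega)
  have hYB : YY F H x y = St G (F ∙ x') ⊓ St G (ln F x' y') := by
    refine Subgroup.eq_of_le_of_card_ge (le_inf hfix (eW.symm ▸ YY_le)) (le_of_eq ?_)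
    have h1 := card_G hy.sl n5 hi
    rw [card_G hy.sl n5 hi'] at h1
    have hpos : 0 < (Fintype.card F ^ finrank F V - 1) *
        (Fintype.card F ^ finrank F V - Fintype.card F) := by
      have := Nat.pow_lt_pow_right (q2 F) (show 1 < finrank F V by omega)
      have := q2 F
      rw [pow_one] at *; exact Nat.mul_pos (by omega) (by omega)
    have h2 := (YY F H x y).index_mul_card
    rw [hidx, ← (St G (F ∙ x) ⊓ St G (ln F x y) : Subgroup G).index_mul_card] at h2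
    rw [card_B hy.sl n5 hi', Nat.eq_of_mul_eq_mul_left hpos h1, ← card_B hy.sl n5 hi,
      Nat.eq_of_mul_eq_mul_left (Nat.pos_of_ne_zero Subgroup.index_ne_zero_of_finite) h2]
  refine hC F V G H x' y' (by omega) hy.sc ((hy.pt_iff hi).2 hP) (hy.le1L hi hL.le) hi'
    (fun h hh h1 h2 => (hfix (le_YY ⟨hh, eW ▸ mem_St_ln h1 h2⟩) _).2
      (Submodule.mem_span_singleton_self _)) fun l m hl => ?_
  obtain ⟨g, hg, g1, g2⟩ := ex_line hy.sl n5 hi' (a := l • x') (b := y' + m • x') (ind_iff.2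
    fun c d e => by
      have := ind_iff.1 hi' (c * l + d * m) d (by rw [← e]; module)
      rw [this.2, zero_mul, add_zero] at this
      exact ⟨(mul_eq_zero.1 this.1).resolve_right hl, by
        have := ind_iff.1 hi' (c * l + d * m) d (by rw [← e]; module); exact this.2⟩)
    (Submodule.smul_mem _ _ l_ln) (Submodule.add_mem _ r_ln (Submodule.smul_mem _ _ l_ln))
  obtain ⟨j, hj, e⟩ : g ∈ YY F H x y := hYB ▸ ⟨mem_St_sp
    (g1 ▸ Submodule.mem_span_singleton.2 ⟨l, rfl⟩), hg⟩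
  exact ⟨j, hj.1, by rw [← e _ (eW ▸ l_ln), g1], by rw [← e _ (eW ▸ r_ln), g2]⟩

theorem c3 (hC : C3.{u}) (nt : NoTv F V H) (h0 : (H.index : F) = 0) (hi : Ind F x y)
    (hL : dc H (St G (ln F x y)) = 1) (hB : dc H (St G (F ∙ x) ⊓ St G (ln F x y)) = 1) :
    Two F V H := by
  have n5 := hy.n5
  have hb : bb F (YY F H x y) x y = 1 := by
    have := hy.lowB hi; have := bb_pos (Y := YY F H x y) hi; omega
  have hr : dcs (YY F H x y) (YY F H x y) (St G (ln F x y)) ≤ 2 := by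
    have d22 := hy.d22 hi
    have dYY := mackey hy.sl hy.sc hy.n5 hi (KK_le_YY hy.sc) YY_le (KK_le_YY hy.sc) (YY_le (H := H))
    have dY2 := dc_Y2 hy.sl hy.sc hy.n5 hi (KK_le_YY hy.sc) (YY_le (H := H))
    have lo := low (H := H) (YY_le (H := H) (F := F) (x := x) (y := y))
    have hm := dcs_le_relIndex (A := YY F H x y) (YY_le (H := H) (F := F) (x := x) (y := y))
    obtain ⟨t, ht, -⟩ := hy.nt
    obtain ⟨α, a0, a2, -, aY⟩ := val hy.sl hy.n5 hi hy.sl ht
    have aY := aY _ (KK_le_YY hy.sc) YY_le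
    have h0 := pc_tv nt ht
    rw [hb] at dYY dY2
    generalize YY F H x y = Y at *
    generalize St G (ln F x y) = L at *
    by_contra hn
    have q1 : (3 : ℚ) ≤ dcs Y Y L := by exact_mod_cast not_le.1 hn
    have q2 : (dcs Y Y L : ℚ) ≤ dc H Y := by exact_mod_cast (by omega : _ ≤ dc H Y)
    have q3 : (dcs Y Y L : ℚ) ≤ Y.relIndex L := by exact_mod_cast hm
    have := ip_zero (f := pc H - 1 - pc Y + pc L) (by
      simp only [map_sub, map_add, LinearMap.sub_apply, LinearMap.add_apply, ip_pc, ip_one_left,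
        ip_one_right, ip_one_one, hy.r3, dc_comm Y H, dc_comm L H, dc_comm L Y, dYY, hL, d22, dY2]
      push_cast; linarith) t
    simp only [Pi.sub_apply, Pi.add_apply, Pi.one_apply, h0] at this
    nlinarith
  by_contra hn
  rcases hr.lt_or_eq with hr | hr
  · refine hn fun a b a' b' h h' => ?_
    have key : ∀ a b : V, Ind F a b → ∃ j ∈ H, j • a = x ∧ j • b = y := fun a b h => by
      obtain ⟨j, hj, h1, h2⟩ := hy.le1L hi hL.le (a, b) (x, y) h hi
      obtain ⟨k, hk, h3, h4⟩ := hy.full hi (le_of_dcs (by omega)) (h.smul j) h1 h2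
      exact ⟨k * j, H.mul_mem hk hj, by rw [mul_smul, h3], by rw [mul_smul, h4]⟩
    obtain ⟨j, hj, h1, h2⟩ := key a b h
    obtain ⟨k, hk, h3, h4⟩ := key a' b' h'
    exact ⟨k⁻¹ * j, H.mul_mem (H.inv_mem hk) hj, by rw [mul_smul, h1, inv_smul_eq_iff, h3], 1,
      by rw [mul_smul, h2, inv_smul_eq_iff, one_smul, h4]⟩
  have hd := rank_two YY_le (KK_le_YY hy.sc) (fun g hg k hk => KK_le_YY hy.sc (KK_conj hg hk)) hr
  have cY := card_Y hy.sl n5 hi hy.sc fun u hu h0 => YY_tr hb.le l_ln hi.1 hu h0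
  have rel : ∀ {A B : Subgroup G}, A ≤ B → A.relIndex B * Nat.card A = Nat.card B := fun h => by
    rw [← Nat.card_congr (Subgroup.subgroupOfEquivOfLe h).toEquiv]
    exact Subgroup.index_mul_card _
  have h1 := rel (YY_le (H := H) (F := F) (x := x) (y := y))
  have h2 := rel (KK_le_YY (x := x) (y := y) hy.sc)
  rw [cY, card_P2 hy.sl n5 hi, ← mul_assoc] at h1
  rw [cY, card_K hy.sl n5 hi, ← mul_assoc] at h2
  have h1 := Nat.eq_of_mul_eq_mul_right k0_pos h1
  have h2 := Nat.eq_of_mul_eq_mul_right k0_pos h2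
  have hq := q2 F
  have e1 : Fintype.card F ^ 2 - 1 = (Fintype.card F + 1) * (Fintype.card F - 1) := by
    rw [← Nat.sq_sub_sq, one_pow]
  obtain ⟨h3, h4⟩ := hC F V G H x y ((YY F H x y).relIndex (St G (ln F x y))) (by omega) hy.fa
    hy.sc (hy.le1F hi hB.le) hn hi (by
      refine Nat.eq_of_mul_eq_mul_left (show 0 < Fintype.card F ^ 2 - 1 by
        rw [e1]; exact Nat.mul_pos (by omega) (by omega)) ?_
      rw [mul_left_comm, h1, Nat.mul_sub_one, sq]) (by
      rw [e1, mul_right_comm] at h2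
      rwa [Nat.eq_of_mul_eq_mul_right (by omega) h2] at hd)
  obtain ⟨k, hk⟩ := odd_index hy.r3 h4
  have h5 := FiniteField.cast_card_eq_zero F
  rw [h3] at h5
  rw [hk, Nat.cast_add, Nat.cast_mul, h5] at h0
  simp at h0

theorem main (l1 : L1.{u}) (tv : TV.{u}) (st : ST.{u}) (c2 : C2.{u}) (c3 : C3.{u})
    (mn : MAIN.{u}) : H.index * ((Fintype.card F ^ 2 - 1) * (Fintype.card F - 1)) =
      (Fintype.card F ^ finrank F V - 1) * (Fintype.card F ^ (finrank F V - 1) - 1) := by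
  have n5 := hy.n5
  obtain ⟨x, -, hx⟩ := ex_ne0 (A := (⊤ : Submodule F V)) (by rw [finrank_top]; omega)
  obtain ⟨y, hi⟩ := ex_frame (F := F) (by omega) hx
  by_cases h3 : 3 ≤ dc H (St G (ln F x y))
  · rw [hy.three hi h3, idx_P2 hy.sl n5 hi]
  exfalso
  have hI := hy.irr hi (by omega)
  have h0 := hy.p0 hI
  have hP : PT V H := by
    by_contra hn
    have h := hy.bessel hi h0
    have h1 : 1 ≤ dc H (St G (F ∙ x)) := (dcs_pos Set.univ_nonempty).trans dcs_univ.le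
    have h2 := mt (hy.pt_iff hi).2 hn
    have h4 : dc H (St G (F ∙ x)) = 2 ∧ dc H (St G (ln F x y)) = 2 ∧
        dc H (St G (F ∙ x) ⊓ St G (ln F x y)) = 3 := by
      generalize dc H (St G (F ∙ x) ⊓ St G (ln F x y)) = c at *
      generalize dc H (St G (F ∙ x)) = a at *
      generalize dc H (St G (ln F x y)) = b at *
      have a1 := sq_nonneg ((b : ℤ) - a)
      have a2 := sq_nonneg ((c : ℤ) - b - a + 1)
      have a3 : a = 2 := by
        by_contra hn
        have : (3 : ℤ) ≤ a := by omega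
        nlinarith
      subst a3
      have a4 : (b : ℤ) - (2 : ℕ) = 0 := pow_eq_zero_iff two_ne_zero |>.1 (by push_cast at *; nlinarith)
      have a5 : (c : ℤ) - b - (2 : ℕ) + 1 = 0 :=
        pow_eq_zero_iff two_ne_zero |>.1 (by push_cast at *; nlinarith)
      omega
    refine l1 F V G H (by omega) hy.sc hI hn ?_ (hy.le2L hi h4.2.1.le) (hy.exL hi h4.2.1.ge)
      (hy.le3F hi h4.2.2.le)
    exact le2_of_nos ((dc_pt hy.sl n5 hi hy.sc).ge.trans h4.1.le)
  have nt : NoTv F V H := by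
    by_contra hn
    rcases tv F V G H (by omega) hy.fa hP hn with h | ⟨R, d, hR, hd⟩
    · obtain ⟨t, ht, htH⟩ := hy.nt; exact htH (h t ht)
    · exact np F V G H R d hy hR hd
  rcases hy.cases hi h0 ((hy.pt_iff hi).1 hP) with h | h | h
  · have fl : ∀ v w, Ind F v w → St G (ln F v w) ≤ YY F H v w := fun v w hvw => by
      have hP' := (hy.pt_iff hvw).1 hP
      obtain ⟨a, b, ha, hb, hab⟩ := hy.exL hi h.1.ge
      rcases hy.cases hvw h0 hP' with h' | h' | h'
      exacts [hy.c1 nt hvw hP' h'.1 h'.2, absurd (hy.le1L hvw h'.1.le a b ha hb) hab,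
        absurd (hy.le1L hvw h'.1.le a b ha hb) hab]
    obtain ⟨-, R, d, hR, h2, hd, -, hs⟩ := st F V G H (fun v w => LE F H (v, w) (x, y)) hy.sc hP
      (fun j hj v w => ⟨fun h => LE.trans ⟨j, hj, l_ln, r_ln⟩ h, fun h => LE.trans
        ⟨j⁻¹, H.inv_mem hj, by simpa using l_ln, by simpa using r_ln⟩ h⟩)
      (fun v w v' w' _ _ e => ⟨fun h => LE.trans (b := (v, w)) (LE.of_mem (e ▸ l_ln) (e ▸ r_ln)) h,
        fun h => LE.trans (b := (v', w')) (LE.of_mem (e ▸ l_ln) (e ▸ r_ln)) h⟩)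
      (fun v w v' w' h1 h2 e => by
        obtain ⟨j, hj, h4, h5⟩ : LE F H (v, w) (v', w') := by
          by_cases hT : LE F H (v, w) (x, y)
          · exact hT.trans ((e.1 hT).symm h2)
          · rcases hy.le2L hi h.1.le (v, w) (v', w') (x, y) h1 h2 hi with h6 | h6 | h6
            exacts [h6, absurd h6 hT, absurd (e.2 h6) hT]
        obtain ⟨k, hk, h6, h7⟩ := hy.full h2 (fl v' w' h2) (h1.smul j) h4 h5
        exact ⟨k * j, H.mul_mem hk hj, by rw [mul_smul, h6], 1, by rw [mul_smul, h7, one_smul]⟩)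
      ⟨x, y, hi, LE.of_mem l_ln r_ln⟩ (by
        obtain ⟨a, b, ha, hb, hab⟩ := hy.exL hi h.1.ge
        by_cases h1 : LE F H a (x, y)
        · exact ⟨b.1, b.2, hb, fun h2 => hab (h1.trans (LE.symm hb h2))⟩
        · exact ⟨a.1, a.2, ha, h1⟩)
    rcases hs with hs | hs
    exacts [spr F V G H R d hy nt hR h2 hd hs, np F V G H R d hy hR hs]
  · exact hy.c2 c2 nt h0 hi ((hy.pt_iff hi).1 hP) h.1 h.2
  · exact mn F V G H hy nt (hy.c3 c3 nt h0 hi h.1 h.2) fun h6 => hy.planes hi h6 h.1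

end Hy

end H13.R3
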