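import Cfsg.Agent.H13.R3_7

/-! Transfer to the statement S2194. -/

set_option autoImplicit false
set_option linter.unusedSectionVars false

open Module MulAction

namespace H13.R3

universe u

theorem transfer (l1 : L1.{u}) (tv : TV.{u}) (st : ST.{u}) (c2 : C2.{u}) (c3 : C3.{u})
    (mn : MAIN.{u}) {G X : Type*} [Group G] [Finite G] [MulAction G X] [FaithfulSMul G X]
    [Fintype X] {F : Type u} [Field F] [Fintype F] (n : ℕ) (hn : 5 ≤ n)
    (e : G ≃* Matrix.ProjectiveSpecialLinearGroup (Fin n) F) (hprim : IsPreprimitive G X) (x : X)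
    (h3 : Nat.card (orbitRel.Quotient (stabilizer G x) X) = 3) :
    Fintype.card X * ((Fintype.card F ^ 2 - 1) * (Fintype.card F - 1)) =
      (Fintype.card F ^ n - 1) * (Fintype.card F ^ (n - 1) - 1) := by
  classical
  let ι : Matrix.SpecialLinearGroup (Fin n) F →* ((Fin n → F) ≃ₗ[F] (Fin n → F)) :=
    Matrix.SpecialLinearGroup.toLin'
  let z : Fˣ →* ((Fin n → F) ≃ₗ[F] (Fin n → F)) := DistribMulAction.toModuleAut F (Fin n → F)
  have hz : ∀ (c : Fˣ) (σ : (Fin n → F) ≃ₗ[F] (Fin n → F)), Commute σ (z c) := fun c σ =>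
    LinearEquiv.ext fun v => σ.map_smul (c : F) v
  let π := ι.noncommCoprod z fun a c => hz c (ι a)
  let θ : Matrix.SpecialLinearGroup (Fin n) F × Fˣ →* G :=
    e.symm.toMonoidHom.comp ((QuotientGroup.mk' _).comp (MonoidHom.fst _ _))
  have hθ : ∀ a, θ a = 1 ↔ a.1 ∈ Subgroup.center _ := fun a => by
    simp [θ]
  have hker : π.rangeRestrict.ker ≤ θ.ker := fun a ha => by
    have h1 : ι a.1 * z a.2 = 1 := congrArg Subtype.val ha
    refine (hθ a).2 (Subgroup.mem_center_iff.2 fun g => Matrix.SpecialLinearGroup.toLin'_injective ?_)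
    change ι (g * a.1) = ι (a.1 * g)
    rw [map_mul, map_mul, eq_inv_of_mul_eq_one_left h1]
    exact (hz a.2 (ι g)).inv_right
  let Θ : π.range →* G := π.rangeRestrict.liftOfSurjective π.rangeRestrict_surjective ⟨θ, hker⟩
  have hΘ : ∀ a, Θ (π.rangeRestrict a) = θ a := fun a =>
    MonoidHom.liftOfRightInverse_comp_apply _ _ _ _ a
  have hs : Function.Surjective Θ := fun g => by
    obtain ⟨a, ha⟩ := QuotientGroup.mk_surjective (e g)
    exact ⟨π.rangeRestrict (a, 1), by rw [hΘ]; simp [θ, ha]⟩
  have : Finite ((Fin n → F) ≃ₗ[F] (Fin n → F)) :=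
    Finite.of_injective _ (DFunLike.coe_injective (F := (Fin n → F) ≃ₗ[F] (Fin n → F)))
  have := Fintype.ofFinite π.range
  have hr : finrank F (Fin n → F) = n := by simp
  have : Nontrivial X := by
    by_contra hX
    have := not_nontrivial_iff_subsingleton.1 hX
    have := Nat.card_le_card_of_surjective (β := orbitRel.Quotient (stabilizer G x) X) _
      Quotient.mk_surjective
    have := Finite.card_le_one_iff_subsingleton.2 ‹Subsingleton X›
    omega
  have sl : SLe F (Fin n → F) π.range := fun σ hσ =>
    ⟨π.rangeRestrict (⟨LinearMap.toMatrix' σ.toLinearMap, by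
      rw [LinearMap.det_toMatrix', ← LinearEquiv.coe_det, hσ, Units.val_one]⟩, 1), fun v => by
      change ι _ (z 1 v) = _
      rw [map_one]
      exact LinearMap.congr_fun (Matrix.toLin'_toMatrix' σ.toLinearMap) v⟩
  have hy : Hy F (Fin n → F) ((stabilizer G x).comap Θ) :=
    { n5 := hr.symm ▸ hn
      fa := fun g h => Subtype.ext (LinearEquiv.ext h)
      sl := sl
      sc := fun c hc => ⟨π.rangeRestrict (1, Units.mk0 c hc), by
        rw [Subgroup.mem_comap, hΘ, (hθ _).2 (Subgroup.one_mem _)]; exact Subgroup.one_mem _,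
        fun v => by change ι 1 (z _ v) = _; rw [map_one]; rfl⟩
      mx := Subgroup.isCoatom_comap_of_surjective hs
        ((isCoatom_stabilizer_iff_preprimitive G x).2 hprim)
      r3 := by
        rw [← dcs_univ, dcs_eq _ (fun g => Quotient.mk (orbitRel (stabilizer G x) X) (Θ g • x)),
          ← h3, ← Set.ncard_univ]
        · congr 1
          refine Set.eq_univ_of_forall fun c => ?_
          induction c using Quotient.inductionOn with
          | h a =>
            obtain ⟨g, rfl⟩ := exists_smul_eq G x a
            obtain ⟨g, rfl⟩ := hs g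
            exact ⟨g, trivial, rfl⟩
        · intro a _ b _
          rw [qeq]; constructor
          · rintro ⟨j, hj, h⟩
            obtain ⟨j, rfl⟩ := hs j
            refine DC.symm ⟨j, hj, (j * b)⁻¹ * a, ?_, by group⟩
            rw [Subgroup.mem_comap, mem_stabilizer_iff, map_mul, map_inv, map_mul, mul_smul,
              inv_smul_eq_iff, mul_smul, h]
          · rintro ⟨j, hj, k, hk, rfl⟩
            refine osymm ⟨Θ j, hj, ?_⟩
            rw [map_mul, map_mul, mul_smul, mul_smul, mem_stabilizer_iff.1 hk]
      nt := by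
        by_contra hc
        push Not at hc
        obtain ⟨v, -, hv⟩ := ex_ne0 (A := (⊤ : Submodule F (Fin n → F))) (by
          rw [finrank_top]; omega)
        obtain ⟨w, hw⟩ := ex_frame (F := F) (by omega) hv
        obtain ⟨f, f1, f2⟩ := ex_dual hw.2
        obtain ⟨t, ht⟩ := sl.tv hv (f := f) (fun h => by simp [h] at f1)
          (f2 v (Submodule.mem_span_singleton_self _))
        have h1 : Θ t = 1 := eq_of_smul_eq_smul fun a : X => by
          obtain ⟨g, rfl⟩ := exists_smul_eq G x a
          obtain ⟨g, rfl⟩ := hs g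
          have := hc _ (IsTv.conj ⟨_, _, ht⟩ g⁻¹)
          rw [Subgroup.mem_comap, mem_stabilizer_iff, map_mul, map_mul, map_inv, inv_inv, mul_smul,
            mul_smul, inv_smul_eq_iff] at this
          rw [this, one_smul]
        obtain ⟨a, rfl⟩ := π.rangeRestrict_surjective t
        rw [hΘ, hθ] at h1
        obtain ⟨k, k1, k2⟩ := sl.w2 (by omega) hw hw.symm
        obtain ⟨b, rfl⟩ := π.rangeRestrict_surjective k
        have h2 : π.rangeRestrict b * π.rangeRestrict a = π.rangeRestrict a * π.rangeRestrict b := by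
          rw [← map_mul, ← map_mul]
          exact congrArg _ (Prod.ext (Subgroup.mem_center_iff.1 h1 _) (mul_comm _ _))
        have h4 := congrArg (· • w) h2
        simp only [mul_smul, ht.2.2.2, smul_add, gsc, k1, k2, f1, one_smul,
          f2 v (Submodule.mem_span_singleton_self _), zero_smul] at h4
        exact hw.ne0 (add_left_cancel h4) }
  have := hy.main l1 tv st c2 c3 mn
  rwa [Subgroup.index_comap_of_surjective _ hs, index_stabilizer_of_transitive,
    Nat.card_eq_fintype_card, hr] at this

end H13.R3
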