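import Mathlib

set_option autoImplicit false

namespace H13.Ro

open MulAction
open scoped Pointwise

section gluck
variable {Γ X : Type*} [Group Γ] [Finite Γ] [MulAction Γ X] {p : ℕ} [hp : Fact p.Prime]

theorem gluck1 (p2 : p ≠ 2) (hΓ : IsPGroup p Γ) (S : Subgroup Γ) :
    ∀ x : X, ∃ Δ ⊆ orbit S x, ∀ s ∈ S, s • Δ = Δ → ∀ y ∈ orbit S x, s • y = y := by
  induction S using WellFoundedLT.induction with | ind S ih =>
  intro x
  by_cases h : S ≤ stabilizer Γ x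
  · refine ⟨∅, Set.empty_subset _, fun s hs _ y ⟨t, ht⟩ => ?_⟩
    obtain rfl : x = y := (h t.2).symm.trans ht
    exact h hs
  obtain ⟨T', hT', hle⟩ := (eq_top_or_exists_le_coatom ((stabilizer Γ x).subgroupOf S)).resolve_left
    fun e => h (Subgroup.subgroupOf_eq_top.1 e)
  haveI := (hΓ.to_subgroup S).isNilpotent
  have hn := Subgroup.NormalizerCondition.normal_of_coatom T' Group.normalizerCondition_of_isNilpotent hT'
  let T := T'.map S.subtype
  have TS : T ≤ S := Subgroup.map_subtype_le _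
  have lt : T < S := lt_of_le_of_ne TS fun e => hT'.1 (by
    rw [eq_top_iff]; intro s _
    obtain ⟨t, ht, e'⟩ : s.1 ∈ T := e.symm ▸ s.2
    exact (show t = s from Subtype.ext e') ▸ ht)
  have cj : ∀ s ∈ S, ∀ t ∈ T, s * t * s⁻¹ ∈ T := by
    rintro s hs _ ⟨t, ht, rfl⟩; exact ⟨_, hn.conj_mem t ht ⟨s, hs⟩, rfl⟩
  have so : ∀ s ∈ S, ∀ y : X, s • orbit T y = orbit T (s • y) := fun s hs y => by
    ext z
    constructor
    · rintro ⟨_, ⟨t, rfl⟩, rfl⟩
      exact ⟨⟨_, cj s hs _ t.2⟩, by simp [Subgroup.smul_def, mul_smul]⟩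
    · rintro ⟨t, rfl⟩
      exact ⟨_, ⟨⟨_, cj _ (inv_mem hs) _ t.2⟩, rfl⟩, by simp [Subgroup.smul_def, mul_smul]⟩
  have key : ∀ B : Set X, ∃ a b : Set X, (∃ y, B = orbit T y) → a ⊆ B ∧ b ⊆ B ∧ 2 * a.ncard < B.ncard ∧
      B.ncard < 2 * b.ncard ∧ ∀ s ∈ T, (s • a = a ∨ s • b = b) → ∀ y ∈ B, s • y = y := fun B => by
    by_cases hB : ∃ y, B = orbit T y
    · obtain ⟨y, rfl⟩ := hB
      obtain ⟨Δ, h1, h2⟩ := ih T lt y
      have fin : (orbit T y).Finite := Set.finite_range _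
      have c := Set.ncard_sdiff_add_ncard_of_subset h1 fin
      haveI := fin.to_subtype
      obtain ⟨n, hn⟩ := (hΓ.to_subgroup T).card_orbit y
      rw [Nat.card_coe_set_eq] at hn
      have o : Odd (orbit T y).ncard := hn ▸ (hp.out.odd_of_ne_two p2).pow
      have h3 : ∀ s ∈ T, (s • Δ = Δ ∨ s • (orbit T y \ Δ) = orbit T y \ Δ) → ∀ z ∈ orbit T y, s • z = z := by
        rintro s hs (e | e)
        · exact h2 s hs e
        · refine h2 s hs ?_
          rw [← Set.sdiff_sdiff_cancel_left h1, Set.smul_set_sdiff, e,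
            show s • orbit T y = orbit T y from smul_orbit (⟨s, hs⟩ : T) y]
      obtain ⟨k, hk⟩ := o
      by_cases l : Δ.ncard ≤ k
      · exact ⟨Δ, _, fun _ => ⟨h1, Set.sdiff_subset, by omega, by omega, h3⟩⟩
      · exact ⟨_, Δ, fun _ => ⟨Set.sdiff_subset, h1, by omega, by omega, fun s hs e => h3 s hs e.symm⟩⟩
    · exact ⟨∅, ∅, fun e => absurd e hB⟩
  choose sm lg hk using key
  classical
  let c : Set X → Set X := fun B => if B = orbit T x then sm B else lg B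
  have cB : ∀ y, c (orbit T y) ⊆ orbit T y := fun y => by
    simp only [c]; split_ifs
    · exact (hk _ ⟨y, rfl⟩).1
    · exact (hk _ ⟨y, rfl⟩).2.1
  have i : ∀ y ∈ orbit S x, {z | z ∈ orbit S x ∧ z ∈ c (orbit T z)} ∩ orbit T y = c (orbit T y) := fun y hy => by
    ext z
    constructor
    · rintro ⟨⟨-, h1⟩, h2⟩; rwa [orbit_eq_iff.2 h2] at h1
    · intro h1
      have h2 := cB y h1
      refine ⟨⟨?_, by rwa [orbit_eq_iff.2 h2]⟩, h2⟩
      obtain ⟨t, rfl⟩ := h2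
      exact mem_orbit_of_mem_orbit (⟨t.1, TS t.2⟩ : S) hy
  refine ⟨{z | z ∈ orbit S x ∧ z ∈ c (orbit T z)}, fun z hz => hz.1, fun s hs e => ?_⟩
  have j : ∀ y ∈ orbit S x, s • c (orbit T y) = c (orbit T (s • y)) := fun y hy => by
    rw [← i y hy, Set.smul_set_inter, e, so s hs, i (s • y) (mem_orbit_of_mem_orbit (⟨s, hs⟩ : S) hy)]
  have sT : s ∈ T := by
    have : orbit T (s • x) = orbit T x := by
      by_contra ne
      have e1 := congrArg Set.ncard (j x (mem_orbit_self x))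
      have e2 := congrArg Set.ncard (so s hs x)
      simp only [Set.ncard_smul_set, c, if_true, if_neg ne] at e1 e2
      have := (hk _ ⟨x, rfl⟩).2.2.1
      have := (hk _ ⟨s • x, rfl⟩).2.2.2.1
      omega
    obtain ⟨t, ht⟩ := orbit_eq_iff.1 this
    have : (t : Γ)⁻¹ * s ∈ T := ⟨⟨_, mul_mem (inv_mem (TS t.2)) hs⟩, hle (show _ • x = x by
      rw [Subgroup.coe_subtype, mul_smul, ← ht]; exact inv_smul_smul _ _), rfl⟩
    simpa using mul_mem t.2 this
  intro y hy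
  have := j y hy
  rw [show orbit T (s • y) = orbit T y from orbit_smul (⟨s, sT⟩ : T) y] at this
  refine (hk _ ⟨y, rfl⟩).2.2.2.2 s sT ?_ y (mem_orbit_self y)
  simp only [c] at this
  split_ifs at this
  · exact Or.inl this
  · exact Or.inr this

theorem gluck (p2 : p ≠ 2) (hΓ : IsPGroup p Γ) : ∃ Δ : Set X, ∀ s : Γ, s • Δ = Δ → ∀ y : X, s • y = y := by
  have key : ∀ B : Set X, ∃ a : Set X, (∃ y, B = orbit (⊤ : Subgroup Γ) y) → a ⊆ B ∧
      ∀ s : Γ, s • a = a → ∀ y ∈ B, s • y = y := fun B => by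
    by_cases hB : ∃ y, B = orbit (⊤ : Subgroup Γ) y
    · obtain ⟨y, rfl⟩ := hB
      obtain ⟨Δ, h1, h2⟩ := gluck1 p2 hΓ ⊤ y
      exact ⟨Δ, fun _ => ⟨h1, fun s => h2 s trivial⟩⟩
    · exact ⟨∅, fun e => absurd e hB⟩
  choose c hc using key
  refine ⟨{z | z ∈ c (orbit (⊤ : Subgroup Γ) z)}, fun s e y => (hc _ ⟨y, rfl⟩).2 s ?_ y (mem_orbit_self y)⟩
  have i : {z | z ∈ c (orbit (⊤ : Subgroup Γ) z)} ∩ orbit (⊤ : Subgroup Γ) y = c (orbit (⊤ : Subgroup Γ) y) := by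
    ext z
    constructor
    · rintro ⟨h1, h2⟩; rwa [Set.mem_ofPred_eq, orbit_eq_iff.2 h2] at h1
    · intro h1
      have h2 := (hc _ ⟨y, rfl⟩).1 h1
      exact ⟨by rwa [Set.mem_ofPred_eq, orbit_eq_iff.2 h2], h2⟩
  rw [← i, Set.smul_set_inter, e, show s • orbit (⊤ : Subgroup Γ) y = _ from smul_orbit (⟨s, trivial⟩ : (⊤ : Subgroup Γ)) y]

end gluck

theorem cyc {B V : Type*} [Group B] [Finite B] [AddCommGroup V] [Nontrivial V] (ρ : Representation ℤ B V)
    (hc : ∀ a b : B, a * b = b * a) (h : ∀ b v, ρ b v = v → v ≠ 0 → b = 1) : IsCyclic B := by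
  letI : CommGroup B := { (inferInstance : Group B) with mul_comm := hc }
  haveI : IsNoetherianRing (MonoidAlgebra ℤ B) := Algebra.FiniteType.isNoetherianRing ℤ _
  haveI : Nontrivial ρ.asModule := ‹Nontrivial V›
  obtain ⟨P, hP⟩ := associatedPrimes.nonempty (MonoidAlgebra ℤ B) ρ.asModule
  obtain ⟨h1, v, hv⟩ := isAssociatedPrime_iff.1 hP
  have m : ∀ r, r ∈ P ↔ r • v = 0 := fun r => by simp [hv]
  refine isCyclic_of_injective_ringHom ((Ideal.Quotient.mk P).toMonoidHom.comp (MonoidAlgebra.of ℤ B))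
    ((injective_iff_map_eq_one _).2 fun b hb => h b (ρ.asModuleEquiv v) ?_ fun e => h1.ne_top ?_)
  · have : MonoidAlgebra.of ℤ B b - 1 ∈ P := Ideal.Quotient.eq.1 hb
    rw [m, sub_smul, one_smul, sub_eq_zero] at this
    conv_rhs => rw [← this]
    rw [Representation.asModuleEquiv_map_smul]; simp
  · rw [Ideal.eq_top_iff_one, m, one_smul]; exact e

section fam
variable {H V : Type*} [Group H] [Finite H] [AddCommGroup V] (ρ : Representation ℤ H V)

/-- fixed points -/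
def Fx (M : Subgroup H) : Submodule ℤ V := ⨅ m ∈ M, LinearMap.ker (ρ m - 1)

omit [Finite H] in
theorem mem_Fx {M : Subgroup H} {v : V} : v ∈ Fx ρ M ↔ ∀ m ∈ M, ρ m v = v := by simp [Fx, sub_eq_zero]

/-- norm map -/
noncomputable def Nm (M : Subgroup H) : Module.End ℤ V :=
  letI := Fintype.ofFinite M
  ∑ m : M, ρ m

/-- conjugation -/
@[reducible] def cact (H : Type*) [Group H] : MulAction H (Subgroup H) :=
  MulAction.compHom _ (MulAut.conj : H →* MulAut H)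

attribute [local instance] cact

omit [Finite H] in
theorem mem_c {h x : H} {M : Subgroup H} : x ∈ h • M ↔ h⁻¹ * x * h ∈ M := by
  change x ∈ MulAut.conj h • M ↔ _
  rw [Subgroup.mem_pointwise_smul_iff_inv_smul_mem]; simp

omit [Finite H] in
theorem card_c (h : H) (M : Subgroup H) : Nat.card ↥(h • M) = Nat.card M :=
  Nat.card_congr (Subgroup.equivSMul (MulAut.conj h) M).toEquiv.symm

omit [Finite H] in
theorem mul_ap (a b : H) (v : V) : ρ (a * b) v = ρ a (ρ b v) := by rw [map_mul]; rfl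

omit [Finite H] in
theorem inj (h : H) {v : V} (e : ρ h v = 0) : v = 0 := by
  have := congrArg (ρ h⁻¹) e
  rwa [← mul_ap, inv_mul_cancel, map_one, map_zero] at this

omit [Finite H] in
theorem Fx_c (h : H) {M : Subgroup H} {v : V} (hv : v ∈ Fx ρ M) : ρ h v ∈ Fx ρ (h • M) :=
  (mem_Fx ρ).2 fun m hm => by
    conv_rhs => rw [← (mem_Fx ρ).1 hv _ (mem_c.1 hm)]
    simp only [← mul_ap, mul_assoc, mul_inv_cancel_left]

theorem Nm_mem (M : Subgroup H) (v : V) : Nm ρ M v ∈ Fx ρ M := (mem_Fx ρ).2 fun m hm => by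
  letI := Fintype.ofFinite M
  simp only [Nm, LinearMap.sum_apply, map_sum, ← mul_ap]
  exact Fintype.sum_equiv (Equiv.mulLeft (⟨m, hm⟩ : M)) _ _ fun _ => rfl

theorem Nm_of {M : Subgroup H} {v : V} (hv : v ∈ Fx ρ M) : Nm ρ M v = Nat.card M • v := by
  letI := Fintype.ofFinite M
  simp only [Nm, LinearMap.sum_apply]
  rw [Finset.sum_congr rfl fun m _ => (mem_Fx ρ).1 hv m.1 m.2]; simp

theorem Nm_c (h : H) (M : Subgroup H) (v : V) : Nm ρ (h • M) (ρ h v) = ρ h (Nm ρ M v) := by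
  letI := Fintype.ofFinite M
  letI := Fintype.ofFinite ↥(h • M)
  simp only [Nm, LinearMap.sum_apply, map_sum, ← mul_ap]
  refine (Fintype.sum_equiv (show M ≃ ↥(h • M) from (Subgroup.equivSMul (MulAut.conj h) M).toEquiv) _ _
    fun m => ?_).symm
  change _ = ρ (h * m * h⁻¹ * h) v
  simp

theorem orth {B M M' : Subgroup H} (hm : ∀ K ≤ B, Fx ρ K ≠ ⊥ → Nat.card K ≤ Nat.card M) (h1 : M ≤ B) (h2 : M' ≤ B)
    (hc : Nat.card M' = Nat.card M) (hn : ∀ m ∈ M, m • M' = M') (ne : M ≠ M') {v : V} (hv : v ∈ Fx ρ M') :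
    Nm ρ M v = 0 := by
  letI := Fintype.ofFinite M
  have a : Nm ρ M v ∈ Fx ρ M' := by
    simp only [Nm, LinearMap.sum_apply]
    exact Submodule.sum_mem _ fun m _ => hn m m.2 ▸ Fx_c ρ _ hv
  by_contra e
  have := hm (M ⊔ M') (sup_le h1 h2) fun z => e (by
    rw [← Submodule.mem_bot ℤ, ← z, mem_Fx]
    intro m hm
    refine (sup_le (b := M') (c := (MulAction.stabilizer (V →ₗ[ℤ] V)ˣ (Nm ρ M v)).comap ρ.toHomUnits) ?_ ?_) hm
    · exact (mem_Fx ρ).1 (Nm_mem ρ M v)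
    · exact (mem_Fx ρ).1 a)
  exact ne ((Subgroup.eq_of_le_of_card_ge le_sup_left this).trans
    (Subgroup.eq_of_le_of_card_ge le_sup_right (hc ▸ this)).symm)

variable [Finite V] {p : ℕ} [hp : Fact p.Prime] (hV : ¬ p ∣ Nat.card V)
include hV

omit [Finite H] in
theorem cancel {n : ℕ} {v : V} (h : p ^ n • v = 0) : v = 0 := by
  have h1 := addOrderOf_dvd_of_nsmul_eq_zero h
  have h2 := addOrderOf_dvd_natCard v
  exact AddMonoid.addOrderOf_eq_one_iff.1 (Nat.eq_one_of_dvd_coprimes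
    (((Nat.Prime.coprime_iff_not_dvd hp.out).2 hV).pow_left n) h1 h2)

theorem fam (F Δ : Set (Subgroup H)) (hΔ : Δ ⊆ F) (hF : ∀ M ∈ F, IsPGroup p M)
    (ho : ∀ M ∈ F, ∀ M' ∈ F, M ≠ M' → ∀ v ∈ Fx ρ M', Nm ρ M v = 0) (w : Subgroup H → V)
    (hw : ∀ M ∈ Δ, w M ∈ Fx ρ M ∧ w M ≠ 0) :
    ∃ v, ∀ x, ρ x v = v → ∀ M ∈ Δ, x • M ∈ F → x • M ∈ Δ ∧ ρ x (w M) = w (x • M) := by
  classical
  let D := Δ.toFinite.toFinset
  refine ⟨∑ M ∈ D, w M, fun x hx M hM hM' => ?_⟩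
  have k : ∀ K ∈ F, Nm ρ K (∑ M ∈ D, w M) = if K ∈ Δ then Nat.card K • w K else 0 := fun K hK => by
    have z : ∀ L ∈ D, L ≠ K → Nm ρ K (w L) = 0 := fun L hL ne => by
      have hL : L ∈ Δ := by simpa [D] using hL
      exact ho K hK L (hΔ hL) ne.symm _ (hw L hL).1
    rw [map_sum]
    split_ifs with h
    · rw [Finset.sum_eq_single_of_mem K (by simpa [D] using h) z, Nm_of ρ (hw K h).1]
    · exact Finset.sum_eq_zero fun L hL => z L hL fun e => h (by simpa [D, e] using hL)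
  have e := Nm_c ρ x M (∑ M ∈ D, w M)
  rw [hx, k _ hM', k _ (hΔ hM), if_pos hM, map_nsmul, card_c] at e
  obtain ⟨n, hn⟩ := IsPGroup.iff_card.1 (hF M (hΔ hM))
  rw [hn] at e
  split_ifs at e with h
  · exact ⟨h, (sub_eq_zero.1 (cancel hV (n := n) (by rw [smul_sub, e, sub_self]))).symm⟩
  · exact absurd (inj ρ x (cancel hV e.symm)) (hw M hM).2

end fam

end H13.Ro
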