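import Cfsg.Agent.H13.Ro1
import Cfsg.Agent.S3762
import Cfsg.Agent.H1.Core

set_option autoImplicit false

namespace H13.Ro

open MulAction
open scoped Pointwise

attribute [local instance] cact

universe u
variable {H V : Type u} [Group H] [Finite H] [AddCommGroup V] (ρ : Representation ℤ H V)

theorem ex_max [Nontrivial V] (B : Subgroup H) :
    ∃ M ≤ B, Fx ρ M ≠ ⊥ ∧ ∀ K ≤ B, Fx ρ K ≠ ⊥ → Nat.card K ≤ Nat.card M := by
  obtain ⟨M, h1, h2⟩ := Set.exists_max_image {K : Subgroup H | K ≤ B ∧ Fx ρ K ≠ ⊥} (fun K => Nat.card K)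
    (Set.toFinite _) ⟨⊥, bot_le, by
      rw [show Fx ρ ⊥ = ⊤ from eq_top_iff.2 fun v _ => (mem_Fx ρ).2 (by simp)]; exact top_ne_bot⟩
  exact ⟨M, h1.1, h1.2, fun K a b => h2 K ⟨a, b⟩⟩

theorem stab {B M : Subgroup H} (hm : ∀ K ≤ B, Fx ρ K ≠ ⊥ → Nat.card K ≤ Nat.card M) (h1 : M ≤ B) {w : V}
    (hw : w ∈ Fx ρ M) (w0 : w ≠ 0) {x : H} (hx : x ∈ B) (e : ρ x w = w) : x ∈ M := by
  have := hm (M ⊔ Subgroup.zpowers x) (sup_le h1 (Subgroup.zpowers_le.2 hx)) fun z => w0 (by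
    rw [← Submodule.mem_bot ℤ, ← z, mem_Fx]
    intro m hm
    refine (sup_le (c := (MulAction.stabilizer (V →ₗ[ℤ] V)ˣ w).comap ρ.toHomUnits) ?_ ?_) hm
    · exact (mem_Fx ρ).1 hw
    · exact Subgroup.zpowers_le.2 e)
  rw [Subgroup.eq_of_le_of_card_ge le_sup_left this]
  exact Subgroup.mem_sup_right (Subgroup.mem_zpowers x)

omit [Finite H] in
theorem c_self {M : Subgroup H} {m : H} (hm : m ∈ M) : m • M = M := by
  ext x; rw [mem_c, mul_mem_cancel_right hm, mul_mem_cancel_left (inv_mem hm)]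

omit [Finite H] in
theorem c_comm {M : Subgroup H} {c : H} (h : ∀ m ∈ M, m * c = c * m) : c • M = M := by
  ext x; rw [mem_c]
  refine ⟨fun e => ?_, fun e => by rwa [mul_assoc, h x e, inv_mul_cancel_left]⟩
  have := h _ e
  rwa [show c⁻¹ * x * c = x from mul_right_cancel (b := c) (by rw [this]; group)] at e

omit [Finite H] in
theorem c_le {M B : Subgroup H} {c : H} (h : M ≤ B) (hc : ∀ b ∈ B, c * b * c⁻¹ ∈ B) : c • M ≤ B := fun x hx => by
  simpa [mul_assoc] using hc _ (h (mem_c.1 hx))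

theorem cl2 {R : Type*} [Group R] {p : ℕ} {E C : Subgroup R} (c1 : ∀ e ∈ E, ∀ r ∈ C, e * r = r * e) (c2 : E ⊔ C = ⊤)
    (c3 : E = ⊥ ∨ Cfsg.IsExtraspecial p E) (c4 : IsCyclic C) (x y : R) : x⁻¹ * y⁻¹ * x * y ∈ Subgroup.center R := by
  have k : ∀ z, (∀ e ∈ E, e * z = z * e) → (∀ e ∈ C, e * z = z * e) → z ∈ Subgroup.center R := fun z h1 h2 =>
    Subgroup.mem_center_iff.2 fun g => by
      have : E ⊔ C ≤ Subgroup.centralizer {z} := sup_le (fun e he => Subgroup.mem_centralizer_singleton_iff.2 (h1 e he))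
        fun e he => Subgroup.mem_centralizer_singleton_iff.2 (h2 e he)
      exact Subgroup.mem_centralizer_singleton_iff.1 (this (c2 ▸ trivial))
  let π := QuotientGroup.mk' (Subgroup.center R)
  have s : ∀ g, ∃ e ∈ E, π e = π g := fun g => by
    have : C.map π = ⊥ := (Subgroup.map_eq_bot_iff _).2 fun c hc => (QuotientGroup.eq_one_iff c).2
      (k c (fun e he => c1 e he c hc) fun e he =>
        congrArg Subtype.val (c4.isMulCommutative.is_comm.comm (⟨e, he⟩ : C) ⟨c, hc⟩))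
    have h := Subgroup.mem_map_of_mem π (show g ∈ E ⊔ C from c2 ▸ trivial)
    rwa [Subgroup.map_sup, this, sup_bot_eq] at h
  obtain ⟨e, he, e1⟩ := s x
  obtain ⟨f, hf, f1⟩ := s y
  rw [← QuotientGroup.eq_one_iff]
  change π _ = 1
  simp only [map_mul, map_inv, ← e1, ← f1]
  simp only [← map_mul, ← map_inv]
  have m := mul_mem (mul_mem (mul_mem (inv_mem he) (inv_mem hf)) he) hf
  refine (QuotientGroup.eq_one_iff _).2 (k _ (fun g hg => ?_) fun g hg => (c1 _ m g hg).symm)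
  rcases c3 with rfl | c3
  · rw [Subgroup.mem_bot.1 hg]; simp
  · have : (⟨e, he⟩ : E)⁻¹ * (⟨f, hf⟩ : E)⁻¹ * (⟨e, he⟩ : E)⁻¹⁻¹ * (⟨f, hf⟩ : E)⁻¹⁻¹ ∈ Subgroup.center E :=
      c3.1.2.2 ▸ Subgroup.commutator_mem_commutator (Subgroup.mem_top _) (Subgroup.mem_top _)
    simpa using congrArg Subtype.val (Subgroup.mem_center_iff.1 this ⟨g, hg⟩)

variable [Finite V] {p : ℕ} [hp : Fact p.Prime] (hV : ¬ p ∣ Nat.card V) (p2 : p ≠ 2)
include hV p2

theorem class2 [Nontrivial V] (R : Subgroup H) (hR : IsPGroup p R)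
    (hc : ∀ x ∈ R, ∀ y ∈ R, ∀ z ∈ R, z * (x⁻¹ * y⁻¹ * x * y) = x⁻¹ * y⁻¹ * x * y * z)
    (hz : ∀ z ∈ R, (∀ r ∈ R, r * z = z * r) → ∀ v, ρ z v = v → v ≠ 0 → z = 1) :
    ∃ v, ∀ x ∈ R, ρ x v = v → x = 1 := by
  classical
  obtain ⟨M, h1, h2, h3⟩ := ex_max ρ R
  obtain ⟨w, w1, w0⟩ := (Submodule.ne_bot_iff _).1 h2
  have le : ∀ r ∈ R, ∀ K ≤ R, r • K ≤ R := fun r hr K hK =>
    c_le hK fun b hb => mul_mem (mul_mem hr hb) (inv_mem hr)
  have nrm : ∀ K ≤ R, ∀ x ∈ R, x • K = K → ∀ r ∈ R, x • r • K = r • K := fun K hK x hx e r hr => by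
    rw [← mul_smul, show x * r = r * x * (x⁻¹ * r⁻¹ * x * r) by group, mul_smul, mul_smul,
      c_comm fun m hm => hc x hx r hr m (hK hm), e]
  have cm : ∀ t ∈ R, ∀ x ∈ t • M, ∀ r ∈ R, x ∈ r • t • M → r * x = x * r := fun t ht x hx r hr e => by
    have xR := le t ht M h1 hx
    have := hz _ (mul_mem (mul_mem (mul_mem (inv_mem xR) (inv_mem hr)) xR) hr) (hc x xR r hr) (ρ t w)
      ((mem_Fx ρ).1 (Fx_c ρ t w1) _ (by
        rw [mul_assoc, mul_assoc, ← mul_assoc r⁻¹]; exact mul_mem (inv_mem hx) (mem_c.1 e)))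
      fun e => w0 (inj ρ t e)
    rw [show x * r = r * x * (x⁻¹ * r⁻¹ * x * r) by group, this, mul_one]
  have fin : ∀ t ∈ R, ∀ x ∈ t • M, (∀ r ∈ R, r * x = x * r) → x = 1 := fun t ht x hx h =>
    hz x (le t ht M h1 hx) h (ρ t w) ((mem_Fx ρ).1 (Fx_c ρ t w1) _ hx) fun e => w0 (inj ρ t e)
  by_cases hn : ∀ r ∈ R, r • M = M
  · refine ⟨w, fun x hx e => ?_⟩
    have := stab ρ h3 h1 w1 w0 hx e
    exact fin 1 (one_mem _) x (by rwa [one_smul]) fun r hr => cm 1 (one_mem _) x (by rwa [one_smul]) r hr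
      (by rwa [one_smul, hn r hr])
  push Not at hn
  obtain ⟨t, ht, hn⟩ := hn
  have ch : ∀ K : Subgroup H, ∃ r, (∃ r ∈ R, K = r • M) → r ∈ R ∧ K = r • M := fun K => by
    by_cases h : ∃ r ∈ R, K = r • M
    · obtain ⟨r, h⟩ := h; exact ⟨r, fun _ => h⟩
    · exact ⟨1, fun e => absurd e h⟩
  choose τ hτ using ch
  obtain ⟨v, hv⟩ := fam ρ hV {K | ∃ r ∈ R, K = r • M} ({K | ∃ r ∈ R, K = r • M} \ {M}) Set.sdiff_subset
    (by rintro _ ⟨r, hr, rfl⟩; exact hR.to_le (le r hr M h1))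
    (by
      rintro _ ⟨r, hr, rfl⟩ _ ⟨s, hs, rfl⟩ ne v hv
      refine orth ρ (by simpa only [card_c] using h3) (le r hr M h1) (le s hs M h1) (by simp only [card_c])
        (fun m hm => ?_) ne hv
      have := nrm _ (le r hr M h1) m (le r hr M h1 hm) (c_self hm) _ (mul_mem hs (inv_mem hr))
      rwa [mul_smul, inv_smul_smul] at this)
    (fun K => ρ (τ K) w) fun K hK => ⟨by
      nth_rewrite 1 [(hτ K hK.1).2]; exact Fx_c ρ _ w1, fun e => w0 (inj ρ _ e)⟩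
  refine ⟨v, fun x hx e => ?_⟩
  have x0 : x • M = M := by
    by_contra ne
    refine (hv x⁻¹ ?_ _ ⟨⟨x, hx, rfl⟩, ne⟩ ⟨1, one_mem _, by simp⟩).1.2 (by simp)
    conv_lhs => rw [← e, ← mul_ap, inv_mul_cancel, map_one]
    rfl
  have x1 : ∀ r ∈ R, r • M ≠ M → x ∈ r • M := fun r hr ne => by
    have := (hv x e _ ⟨⟨r, hr, rfl⟩, ne⟩ ⟨x * r, mul_mem hx hr, by rw [mul_smul]⟩).2
    rw [nrm M h1 x hx x0 r hr] at this
    refine stab ρ (by simpa only [card_c] using h3) (le r hr M h1) ?_ (fun e => w0 (inj ρ _ e)) hx this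
    nth_rewrite 1 [(hτ _ ⟨r, hr, rfl⟩).2]; exact Fx_c ρ _ w1
  refine fin t ht x (x1 t ht hn) fun r hr => ?_
  by_cases a : r • t • M = M
  · by_cases b : r⁻¹ • t • M = M
    · exfalso
      have : r * r ∈ stabilizer H (t • M) := by
        rw [mem_stabilizer_iff, mul_smul, a]; nth_rewrite 1 [← b]; rw [smul_inv_smul]
      obtain ⟨n, hn'⟩ := hR ⟨r, hr⟩
      obtain ⟨k, hk⟩ := (hp.out.odd_of_ne_two p2).pow (n := n)
      have e1 : r ^ (2 * k + 1) = 1 := hk ▸ congrArg Subtype.val hn'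
      have := pow_mem this (k + 1)
      rw [← sq, ← pow_mul, show 2 * (k + 1) = 2 * k + 1 + 1 by ring, pow_succ, e1, one_mul] at this
      exact hn (this.symm.trans a)
    · have := cm t ht x (x1 t ht hn) _ (inv_mem hr) (by
        rw [← mul_smul] at b ⊢; exact x1 _ (mul_mem (inv_mem hr) ht) b)
      exact (Commute.inv_left_iff.1 this).eq
  · exact cm t ht x (x1 t ht hn) r hr (by rw [← mul_smul] at a ⊢; exact x1 _ (mul_mem hr ht) a)

omit [Finite H] [AddCommGroup V] [Finite V] hp hV p2 in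
/-- the claim -/
def Cl (p n : ℕ) : Prop := ∀ (H V : Type u) [Group H] [Finite H] [AddCommGroup V] [Finite V]
  (ρ : Representation ℤ H V), Nat.card V < n → ¬ p ∣ Nat.card V → ∀ R : Subgroup H, R.Normal → IsPGroup p R →
    ∀ a ∈ R, ρ a ≠ 1 → ∃ v, ∀ h, ρ (h * a * h⁻¹) v ≠ v

omit p2 in
theorem sub (ih : Cl.{u} p (Nat.card V)) (K : Subgroup H) (U : Submodule ℤ V) (hU : U ≠ ⊤)
    (h : ∀ g ∈ K, ∀ u ∈ U, ρ g u ∈ U) (R : Subgroup H) [R.Normal] (hR : IsPGroup p R) {a : H} (ha : a ∈ R)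
    (hK : a ∈ K) (hn : ∃ u ∈ U, ρ a u ≠ u) : ∃ v ∈ U, ∀ h ∈ K, ρ (h * a * h⁻¹) v ≠ v := by
  obtain ⟨v, hv⟩ := ih K U (Representation.subrepresentation (ρ.comp K.subtype) U fun g u hu => h g g.2 u hu)
    (Finite.card_subtype_lt (x := ((Submodule.eq_top_iff'.not.1 hU |> not_forall.1).choose))
      (Submodule.eq_top_iff'.not.1 hU |> not_forall.1).choose_spec)
    (fun e => hV (e.trans (AddSubgroup.card_addSubgroup_dvd_card U.toAddSubgroup))) (R.subgroupOf K) inferInstance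
    (hR.comap_of_injective _ K.subtype_injective) ⟨a, hK⟩ ha fun e => by
      obtain ⟨u, hu, ne⟩ := hn
      exact ne (congrArg Subtype.val (LinearMap.congr_fun e ⟨u, hu⟩))
  exact ⟨v, v.2, fun h hh e => hv ⟨h, hh⟩ (Subtype.ext e)⟩

theorem step (ih : Cl.{u} p (Nat.card V)) (hf : ∀ g, ρ g = 1 → g = 1) (R : Subgroup H) [hn : R.Normal]
    (hR : IsPGroup p R) {a : H} (ha : a ∈ R) (a1 : ρ a ≠ 1) : ∃ v, ∀ h, ρ (h * a * h⁻¹) v ≠ v := by
  classical
  haveI : Nontrivial V := by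
    by_contra! h; exact a1 (Subsingleton.elim _ _)
  by_cases irr : ∀ U : Submodule ℤ V, (∀ g, ∀ u ∈ U, ρ g u ∈ U) → U ≠ ⊥ → U = ⊤
  swap
  · push Not at irr
    obtain ⟨U, h1, h2, h3⟩ := irr
    by_cases hu : ∃ u ∈ U, ρ a u ≠ u
    · obtain ⟨v, -, hv⟩ := sub ρ hV ih ⊤ U h3 (fun g _ => h1 g) R hR ha trivial hu
      exact ⟨v, fun h => hv h trivial⟩
    push Not at hu
    have c := AddSubgroup.card_eq_card_quotient_mul_card_addSubgroup U.toAddSubgroup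
    have c1 : 1 < Nat.card U.toAddSubgroup := (AddSubgroup.one_lt_card_iff_ne_bot _).2 fun e => h2 (by
      rwa [← Submodule.toAddSubgroup_inj, Submodule.bot_toAddSubgroup])
    haveI : Finite (V ⧸ U) := Finite.of_surjective _ (Submodule.Quotient.mk_surjective U)
    obtain ⟨v, hv⟩ := ih H (V ⧸ U) (ρ.quotient U fun g u hu => h1 g u hu)
      (by rw [c]; exact lt_mul_of_one_lt_right Nat.card_pos c1)
      (fun e => hV (c ▸ e.mul_right _)) R hn hR a ha fun e => a1 (LinearMap.ext fun v => by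
        have e1 : ρ a v - v ∈ U := (Submodule.Quotient.eq U).1 (LinearMap.congr_fun e (Submodule.Quotient.mk v))
        have e2 : ∀ n : ℕ, ρ (a ^ n) v = v + n • (ρ a v - v) := fun n => by
          induction n with
          | zero => simp
          | succ n ih => rw [pow_succ', mul_ap, ih, map_add, map_nsmul, hu _ e1, succ_nsmul]; abel
        obtain ⟨n, hn⟩ := hR ⟨a, ha⟩
        have := e2 (p ^ n)
        rw [show a ^ p ^ n = 1 from congrArg Subtype.val hn, map_one, Module.End.one_apply, left_eq_add] at this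
        exact sub_eq_zero.1 (cancel hV this))
    obtain ⟨v, rfl⟩ := Submodule.Quotient.mk_surjective U v
    exact ⟨v, fun h e => hv h (congrArg Submodule.Quotient.mk e)⟩
  by_cases hB : ∀ B : Subgroup H, B.Normal → B ≤ R → (∀ x ∈ B, ∀ y ∈ B, x * y = y * x) →
      ∀ b ∈ B, ∀ v, ρ b v = v → v ≠ 0 → b = 1
  · obtain ⟨E, C, c1, c2, c3, c4⟩ := Cfsg.Agent.S3762.result hR fun A hA hA' =>
      cyc (ρ.comp (R.subtype.comp A.subtype)) hA'.is_comm.comm fun b v e v0 => Subtype.ext (Subtype.ext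
        (hB (A.map R.subtype) inferInstance (Subgroup.map_subtype_le _) (by
          rintro _ ⟨x, hx, rfl⟩ _ ⟨y, hy, rfl⟩
          exact congrArg (fun t : A => t.1.1) (hA'.is_comm.comm ⟨x, hx⟩ ⟨y, hy⟩)) _ ⟨b, b.2, rfl⟩ v e v0))
    obtain ⟨v, hv⟩ := class2 ρ hV p2 R hR (fun x hx y hy z hz => congrArg Subtype.val (Subgroup.mem_center_iff.1
      (cl2 c1 c2 c3 (c4.resolve_right fun e => p2 e.1) ⟨x, hx⟩ ⟨y, hy⟩) ⟨z, hz⟩)) fun z hz h =>
      hB ((Subgroup.center R).map R.subtype) inferInstance (Subgroup.map_subtype_le _) (by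
        rintro _ ⟨x, hx, rfl⟩ _ ⟨y, hy, rfl⟩
        exact congrArg Subtype.val (Subgroup.mem_center_iff.1 hy x)) z
        ⟨⟨z, hz⟩, Subgroup.mem_center_iff.2 fun r => Subtype.ext (h r r.2), rfl⟩
    refine ⟨v, fun h e => a1 ?_⟩
    rw [show a = 1 by simpa [mul_inv_eq_iff_eq_mul] using hv _ (hn.conj_mem a ha h) e, map_one]
  push Not at hB
  obtain ⟨B, hB, BR, cB, b, hb, u, b1, u0, b2⟩ := hB
  obtain ⟨M, h1, h2, h3⟩ := ex_max ρ B
  let F := {K : Subgroup H | K ≤ B ∧ Fx ρ K ≠ ⊥ ∧ Nat.card K = Nat.card M}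
  have M0 : ∃ M, M ∈ F := ⟨M, h1, h2, rfl⟩
  have Fc : ∀ h : H, ∀ K ∈ F, h • K ∈ F := fun h K hK => by
    obtain ⟨w, w1, w0⟩ := (Submodule.ne_bot_iff _).1 hK.2.1
    exact ⟨c_le hK.1 fun b hb => hB.conj_mem b hb h, (Submodule.ne_bot_iff _).2 ⟨_, Fx_c ρ h w1,
      fun e => w0 (inj ρ _ e)⟩, (card_c _ _).trans hK.2.2⟩
  have Fp : ∀ K ∈ F, IsPGroup p K := fun K hK => hR.to_le (hK.1.trans BR)
  have Fo : ∀ K ∈ F, ∀ L ∈ F, K ≠ L → ∀ v ∈ Fx ρ L, Nm ρ K v = 0 := fun K hK L hL ne v hv =>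
    orth ρ (by rw [hK.2.2]; exact h3) hK.1 hL.1 (hL.2.2.trans hK.2.2.symm)
      (fun m hm => c_comm fun l hl => cB l (hL.1 hl) m (hK.1 hm)) ne hv
  by_cases hF : ∀ K ∈ F, a • K = K
  · obtain ⟨K, hK, hu⟩ : ∃ K ∈ F, ∃ u ∈ Fx ρ K, ρ a u ≠ u := by
      by_contra! h
      have : (⨆ K ∈ F, Fx ρ K) ≤ LinearMap.ker (ρ a - 1) := iSup₂_le fun K hK u hu => by
        simpa [sub_eq_zero] using h K hK u hu
      rw [irr (⨆ K ∈ F, Fx ρ K) (fun g => (show (⨆ K ∈ F, Fx ρ K) ≤ (⨆ K ∈ F, Fx ρ K).comap (ρ g) from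
        iSup₂_le fun K hK u hu => (le_iSup₂ (f := fun K (_ : K ∈ F) => Fx ρ K) _ (Fc g K hK)) (Fx_c ρ g hu)))
        fun e => ?_] at this
      · exact a1 (LinearMap.ext fun v => by simpa [sub_eq_zero] using this (Submodule.mem_top (x := v)))
      · obtain ⟨K, hK⟩ := M0
        exact hK.2.1 (eq_bot_iff.2 (e ▸ le_iSup₂ (f := fun K (_ : K ∈ F) => Fx ρ K) K hK))
    have nt : Fx ρ K ≠ ⊤ := fun e => by
      have : K = ⊥ := eq_bot_iff.2 fun k hk => hf k (LinearMap.ext fun v => (mem_Fx ρ).1 (e ▸ trivial) k hk)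
      have h4 := h3 (Subgroup.zpowers b) (Subgroup.zpowers_le.2 hb) ((Submodule.ne_bot_iff _).2 ⟨u, (mem_Fx ρ).2
        (Subgroup.zpowers_le.2 (show b ∈ (MulAction.stabilizer (V →ₗ[ℤ] V)ˣ u).comap ρ.toHomUnits from b1)), u0⟩)
      rw [← hK.2.2, this, Subgroup.card_bot, Nat.card_zpowers] at h4
      exact b2 (orderOf_eq_one_iff.1 (le_antisymm h4 (orderOf_pos b)))
    obtain ⟨w, w1, hw⟩ := sub ρ hV ih (stabilizer H K) (Fx ρ K) nt
      (fun g hg u hu => (show g • K = K from hg) ▸ Fx_c ρ g hu) R hR ha (hF K hK) hu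
    · have w0 : w ≠ 0 := fun e => hw 1 (one_mem _) (by simp [e])
      have ch : ∀ L : Subgroup H, ∃ r : H, (∃ r : H, L = r • K) → L = r • K := fun L => by
        by_cases h : ∃ r : H, L = r • K
        · obtain ⟨r, h⟩ := h; exact ⟨r, fun _ => h⟩
        · exact ⟨1, fun e => absurd e h⟩
      choose τ hτ using ch
      obtain ⟨v, hv⟩ := fam ρ hV F {L | ∃ r : H, L = r • K} (by rintro _ ⟨r, rfl⟩; exact Fc r K hK) Fp Fo
        (fun L => ρ (τ L) w) fun L hL => ⟨by nth_rewrite 1 [hτ L hL]; exact Fx_c ρ _ w1, fun e => w0 (inj ρ _ e)⟩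
      refine ⟨v, fun h e => ?_⟩
      have e1 : (h * a * h⁻¹) • h • K = h • K := by rw [mul_smul, inv_smul_smul, mul_smul, hF K hK]
      have := (hv _ e _ ⟨h, rfl⟩ (e1.symm ▸ Fc h K hK)).2
      rw [e1] at this
      refine hw ((τ (h • K))⁻¹ * h) (by
        rw [mem_stabilizer_iff, mul_smul, inv_smul_eq_iff]; exact hτ _ ⟨h, rfl⟩) ?_
      have := congrArg (ρ (τ (h • K))⁻¹) this
      rw [← mul_ap, ← mul_ap, ← mul_ap, inv_mul_cancel, map_one] at this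
      refine Eq.trans ?_ this
      congr 2; group
  · push Not at hF
    obtain ⟨K, hK, hne⟩ := hF
    letI : MulAction H F :=
      { smul := fun h K => ⟨h • K.1, Fc h _ K.2⟩
        one_smul := fun K => Subtype.ext (one_smul _ _)
        mul_smul := fun a b K => Subtype.ext (mul_smul _ _ _) }
    obtain ⟨Δ, hΔ⟩ := gluck (Γ := R) (X := F) p2 hR
    have ch : ∀ L : Subgroup H, ∃ w, L ∈ F → w ∈ Fx ρ L ∧ w ≠ 0 := fun L => by
      by_cases h : L ∈ F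
      · obtain ⟨w, h⟩ := (Submodule.ne_bot_iff _).1 h.2.1; exact ⟨w, fun _ => h⟩
      · exact ⟨0, fun e => absurd e h⟩
    choose w hw using ch
    obtain ⟨v, hv⟩ := fam ρ hV F (Subtype.val '' Δ) (by rintro _ ⟨L, -, rfl⟩; exact L.2) Fp Fo w
      (by rintro _ ⟨L, -, rfl⟩; exact hw _ L.2)
    refine ⟨v, fun h e => hne ?_⟩
    have := hΔ ⟨_, hn.conj_mem a ha h⟩ (Set.eq_of_subset_of_ncard_le (by
      rintro _ ⟨L, hL, rfl⟩
      obtain ⟨L', h1, h2⟩ := (hv _ e _ ⟨L, hL, rfl⟩ (Fc _ _ L.2)).1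
      have : L' = (⟨_, hn.conj_mem a ha h⟩ : R) • L := Subtype.ext h2
      show (⟨_, hn.conj_mem a ha h⟩ : R) • L ∈ Δ
      exact this ▸ h1) (Set.ncard_smul_set _ _).ge) ⟨h • K, Fc h K hK⟩
    have : (h * a * h⁻¹) • h • K = h • K := congrArg Subtype.val this
    rwa [mul_smul, inv_smul_smul, mul_smul, smul_left_cancel_iff] at this

omit hV in
theorem cl (n : ℕ) : Cl.{u} p n := by
  induction n using Nat.strong_induction_on with | h n ih =>
  intro H V _ _ _ _ ρ hn hV R hR hp' a ha a1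
  let π := QuotientGroup.mk' ρ.ker
  obtain ⟨v, hv⟩ := step (QuotientGroup.lift ρ.ker ρ le_rfl) hV p2 (ih _ hn) (fun g hg => by
    obtain ⟨g, rfl⟩ := QuotientGroup.mk_surjective g
    exact (QuotientGroup.eq_one_iff g).2 hg) (R.map π) (hn := hR.map π (QuotientGroup.mk'_surjective _))
    (hp'.map π) (Subgroup.mem_map_of_mem π ha) a1
  exact ⟨v, fun h => hv (π h)⟩

end H13.Ro
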