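import Cfsg.Agent.H13.Ro2
import Cfsg.Agent.H1.Fitting

set_option autoImplicit false

namespace H13.Ro

open scoped IsMulCommutative

universe u

theorem main {p : ℕ} [hp : Fact p.Prime] (p2 : p ≠ 2) (n : ℕ) : ∀ (G : Type u) [Group G] [Finite G],
    Nat.card G < n → Group.IsSolvable G → ∀ A : Subgroup G, IsPGroup p A →
    (∀ c : G, ∃ g, IsConj c g ∧ ∃ N : Subgroup G, IsPGroup p N ∧ A ≤ N ∧
      ∀ a ∈ A, ∀ x ∈ N, g * a * g⁻¹ * x * (g * a * g⁻¹)⁻¹ ∈ N) → A ≤ Cfsg.pCore p G := by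
  induction n with
  | zero => intro G _ _ h; omega
  | succ n ih =>
  intro G _ _ hn hG A hA h
  by_cases t : (⊤ : Subgroup G) = ⊥
  · exact le_top.trans (t ▸ bot_le)
  obtain ⟨V, q, hq, -, hV, V0, ⟨Vc, Vq⟩, -⟩ := H1.exists_minimal_normal_elementary_le ⊤ t inferInstance
  let π := QuotientGroup.mk' V
  have c := Subgroup.card_eq_card_quotient_mul_card_subgroup V
  have hq' : IsPGroup q V := H1.isPGroup_of_isElementaryAbelian ⟨Vc, Vq⟩
  have k := ih (G ⧸ V) (by
    have := (Subgroup.one_lt_card_iff_ne_bot V).2 V0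
    have := Nat.card_pos (α := G ⧸ V)
    nlinarith) inferInstance (A.map π) (hA.map π) fun c => by
      obtain ⟨c, rfl⟩ := QuotientGroup.mk_surjective c
      obtain ⟨g, h1, N, h2, h3, h4⟩ := h c
      refine ⟨π g, π.map_isConj h1, N.map π, h2.map π, Subgroup.map_mono h3, ?_⟩
      rintro _ ⟨a, ha, rfl⟩ _ ⟨x, hx, rfl⟩
      exact ⟨_, h4 a ha x hx, by simp⟩
  by_cases e : q = p
  · rw [← H1.comap_pCore_quotient V (e ▸ hq')]
    exact Subgroup.map_le_iff_le_comap.1 k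
  haveI := Fact.mk hq
  have hd : ¬ p ∣ Nat.card (Additive V) := fun d => by
    obtain ⟨m, hm⟩ := IsPGroup.iff_card.1 hq'
    rw [show Nat.card (Additive V) = _ from hm] at d
    exact e ((Nat.prime_dvd_prime_iff_eq hp.out hq).1 (hp.out.dvd_of_dvd_pow d)).symm
  let ρ0 : Representation ℤ G (Additive V) :=
    (Representation.ofMulDistribMulAction (MulAut V) V).comp MulAut.conjNormal
  have r0 : ∀ g v, ((ρ0 g v).toMul : G) = g * v.toMul * g⁻¹ := fun g v => rfl
  let ρ : Representation ℤ (G ⧸ V) (Additive V) := QuotientGroup.lift V ρ0 fun g hg => LinearMap.ext fun v =>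
    Additive.toMul.injective (Subtype.ext (by
      rw [r0, mul_inv_eq_iff_eq_mul]
      exact congrArg Subtype.val (mul_comm (⟨g, hg⟩ : V) v.toMul)))
  intro a ha
  by_cases a1 : ρ (π a) = 1
  · let C := (Cfsg.pCore p (G ⧸ V)).comap π ⊓ ρ0.ker
    haveI : Group.IsNilpotent (Cfsg.pCore p (G ⧸ V)) := H1.pCore_isPGroup.isNilpotent
    have : Group.IsNilpotent C := Subgroup.isNilpotent_of_ker_le_center (H := Cfsg.pCore p (G ⧸ V))
      ((π.comp C.subtype).codRestrict (Cfsg.pCore p (G ⧸ V)) fun x => x.2.1) fun x hx => Subgroup.mem_center_iff.2 fun y => Subtype.ext (by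
        have hx : x.1 ∈ V := (QuotientGroup.eq_one_iff _).1 (congrArg Subtype.val hx)
        have := r0 y (Additive.ofMul ⟨x, hx⟩)
        rw [show ρ0 y = 1 from y.2.2] at this
        exact (eq_mul_inv_iff_mul_eq.1 this).symm)
    exact H1.le_pCore_of_subnormal (H1.isSubnormal_of_le_of_isNilpotent
      (Subgroup.zpowers_le.2 (show a ∈ C from ⟨k ⟨a, ha, rfl⟩, a1⟩)) this (Subgroup.Normal.isSubnormal inferInstance))
      (hA.to_le (Subgroup.zpowers_le.2 ha)) (Subgroup.mem_zpowers a)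
  exfalso
  obtain ⟨v, hv⟩ := cl p2 _ (G ⧸ V) (Additive V) ρ (Nat.lt_succ_self _) hd _ inferInstance H1.pCore_isPGroup
    (π a) (k ⟨a, ha, rfl⟩) a1
  obtain ⟨g, h1, N, h2, h3, h4⟩ := h v.toMul
  obtain ⟨c, rfl⟩ := isConj_iff.1 h1
  set w := ρ0 c v
  have e1 : ρ0 a (w - ρ0 a w) = w - ρ0 a w := by
    have m : (w - ρ0 a w - ρ0 a (w - ρ0 a w)).toMul.1 ∈ N := by
      convert mul_mem (h4 a ha a (h3 ha)) (inv_mem (h3 ha))
      simp only [toMul_sub, div_eq_mul_inv, Subgroup.coe_mul, Subgroup.coe_inv, r0, w]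
      group
    have := Subgroup.disjoint_def.1 (IsPGroup.disjoint_of_ne p q (Ne.symm e) N V h2 hq') m (Subtype.prop _)
    exact (sub_eq_zero.1 (Additive.toMul.injective (Subtype.ext this))).symm
  have e2 : ∀ n : ℕ, ρ0 (a ^ n) w = w - n • (w - ρ0 a w) := fun n => by
    induction n with
    | zero => simp
    | succ n ih => rw [pow_succ', mul_ap, ih, map_sub, map_nsmul, e1, succ_nsmul]; abel
  obtain ⟨m, hm⟩ := hA ⟨a, ha⟩
  have := e2 (p ^ m)
  rw [show a ^ p ^ m = 1 from congrArg Subtype.val hm, map_one, Module.End.one_apply, eq_comm, sub_eq_self] at this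
  have := sub_eq_zero.1 (cancel hd this)
  refine hv (π c⁻¹) (sub_eq_zero.1 (inj ρ0 c ?_))
  change ρ0 c (ρ0 (c⁻¹ * a * c⁻¹⁻¹) v - v) = _
  rw [map_sub, ← mul_ap, show c * (c⁻¹ * a * c⁻¹⁻¹) = a * c by group, mul_ap]
  exact sub_eq_zero.2 this.symm

end H13.Ro
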