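/-
S3159, chunk EN: involutions of `Sp₈(2)` and some centralizers.
-/
import Cfsg.Agent.H26.SX8

set_option autoImplicit false
set_option synthInstance.maxSize 2000
open Cfsg Subgroup H19 H23.F4 H26.SX
namespace H13.SX

theorem comm_T8 {g : Sp8} {p : V8} (h : g • p = p) : Commute g (T8 p) := by
  have := conj_T8 g p
  rw [h, mul_inv_eq_iff_eq_mul] at this; exact this
theorem fix_e0 {g : Sp8} (h : Commute g (T8 e0)) : g • e0 = e0 :=
  (by decide +kernel : ∀ q : V8, T8 q = T8 e0 → q = e0) _ (by rw [← conj_T8, h.eq, mul_inv_cancel_right])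
theorem comm_X8 {g : Sp8} {p q : V8} (h : g • p = p) (h' : g • q = q) : Commute g (X8 p q) := by
  have := conj_X8 g p q
  rw [h, h', mul_inv_eq_iff_eq_mul] at this; exact this
theorem mv {a c : V8} (ac : ω8 a c = true) : ∃ g : Sp8, g • a = e0 ∧ g • c = f0 :=
  (ex_hyp8 (M := ⊤) (fun _ => trivial) ac).imp fun _ h => h.2
theorem ex_dual : ∀ c : V8, c ≠ 0 → ∃ c', ω8 c c' = true := by decide +kernel

theorem idx8 : C[T8 e0].index = 255 := by
  have e : C[T8 e0] = MulAction.stabilizer Sp8 e0 := Subgroup.ext fun g =>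
    mem_cent1.trans ⟨fun h => fix_e0 h, fun h => comm_T8 h⟩
  have o : MulAction.orbit Sp8 e0 = {0}ᶜ := Set.ext fun v => ⟨by
    rintro ⟨g, rfl⟩ h
    exact absurd (by simpa using congrArg (g⁻¹ • ·) (show g • e0 = 0 from h)) (by decide : e0 ≠ 0), fun h => by
    obtain ⟨c, hc⟩ := ex_dual v h
    obtain ⟨g, e, -⟩ := mv hc
    exact ⟨g⁻¹, by simp [← e]⟩⟩
  rw [e, MulAction.index_stabilizer, o, Set.ncard_compl, Set.ncard_singleton, show Nat.card V8 = 256 from Nat.card_fin 256]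

theorem dual8 (l : V8 → Bool) (h : ∀ x y, l (x + y) = xor (l x) (l y)) : ∃ c, ∀ v, l v = ω8 v c := by
  have h0 : l 0 = false := by simpa using h 0 0
  have s : ∀ b v, l (sc8 b v) = (b && l v) := fun b v => by cases b <;> simp [h0]
  refine ⟨sc8 (l (up f1)) (up e1) + sc8 (l (up e1)) (up f1) + sc8 (l (up f2)) (up e2) + sc8 (l (up e2)) (up f2) +
    sc8 (l (up f3)) (up e3) + sc8 (l (up e3)) (up f3) + sc8 (l f0) e0 + sc8 (l e0) f0, fun v => ?_⟩
  conv_lhs => rw [decomp8 v]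
  simp only [h, s, ω8_add_right, ω8_sc_right, Bool.and_comm, Bool.xor_comm, Bool.xor_left_comm, Bool.xor_assoc]

theorem hyp2 (c d : V8) : ∃ a b, ω8 a b = true ∧ ω8 a c = false ∧ ω8 b c = false ∧ ω8 a d = false ∧ ω8 b d = false := by
  obtain ⟨g, hg⟩ : ∃ g : Sp8, ∀ v, ω8 v e0 = false → ω8 v (g • c) = false := by
    by_cases h : c = 0
    · exact ⟨1, by simp [h]⟩
    · obtain ⟨c', hc⟩ := ex_dual c h
      obtain ⟨g, e, -⟩ := mv hc
      exact ⟨g, fun v => e ▸ id⟩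
  obtain ⟨a, b, h1, h2, h3⟩ := (by decide +kernel : ∀ d : V8, ∃ a b : V, ω a b = true ∧ ω8 (up a) d = false ∧
    ω8 (up b) d = false) (g • d)
  exact ⟨g⁻¹ • up a, g⁻¹ • up b, by simpa, by simp [ω8_smul_left, hg], by simp [ω8_smul_left, hg],
    by simpa [ω8_smul_left], by simpa [ω8_smul_left]⟩

theorem fixp {y : Sp8} {a b : V8} (ab : ω8 a b = true) (ya : y • a = a) (yb : y • b = b) : ∃ k, IsConj y (emb k) := by
  obtain ⟨g, g1, g2⟩ := mv ab
  obtain ⟨k, e⟩ := ex_emb (g := g * y * g⁻¹) (by simp [mul_smul, ← g1, ya]) (by simp [mul_smul, ← g2, yb])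
  exact ⟨k, isConj_iff.2 ⟨g, e⟩⟩

theorem fix3 {x : Sp8} (h0 : x • e0 = e0) (h3 : x ^ 3 = 1) : ∃ m : Sp8, ∃ g, m • e0 = e0 ∧ m * x * m⁻¹ = emb g := by
  have w : ∀ v, ω8 e0 (x • v) = ω8 e0 v := fun v => by rw [← h0, ω8_smul, h0]
  have c : x • x • x • f0 = f0 := by rw [← mul_smul, ← mul_smul, ← pow_three', h3, one_smul]
  obtain ⟨m, m1, m2⟩ := mv (a := e0) (c := f0 + x • f0 + x • x • f0) (by simp [w])
  have c' : x • (f0 + x • f0 + x • x • f0) = f0 + x • f0 + x • x • f0 := by simp only [smul_add, c]; abel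
  obtain ⟨k, e⟩ := ex_emb (g := m * x * m⁻¹) (by rw [mul_smul, mul_smul, ← m1, inv_smul_smul, h0])
    (by rw [mul_smul, mul_smul, ← m2, inv_smul_smul, c'])
  exact ⟨m, k, m1, e⟩

def σ1 : Sp8 := X8 (e0 + up e1) (f0 + up f1)
def σ2 : Sp8 := X8 (e0 + up e2) (f0 + up f2)
def d0 : Sp8 := T8 e0 * T8 f0
/-- the involutions of rank four -/
def y4 (ε : Bool) : Sp8 := emb sw12 * X8 e0 (up e3) * rb (T8 e0) ε

theorem cl4 {k : Sp} (kk : k * k = 1) (h1 : k • e1 = e1) (h2 : k • f1 = f1) :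
    (∃ a b, ω a b = true ∧ Pp [e1, f1] a ∧ Pp [e1, f1] b ∧ k • a = a ∧ k • b = b) ∨
      ∃ m : Sp, ∃ ε, m • e1 = e1 ∧ m • f1 = f1 ∧ k = m * (X e2 e3 * Tb ε e2) * m⁻¹ := by
  have p : ∀ v, Pp [e1, f1] v → Pp [e1, f1] (k • v) := fun v => Fx.pp (by simp [Fx, h1, h2])
  have q : ∀ v, Pp [e1, f1, e2, f2] v → Pp [e1, f1, k • e2, k • f2] (k • v) := fun v h => by
    rw [show [e1, f1, k • e2, k • f2] = [e1, f1, e2, f2].map (k • ·) by simp [h1, h2]]
    intro q hq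
    obtain ⟨u, hu, rfl⟩ := List.mem_map.1 hq
    simpa using h u hu
  have L : ∀ v, lin e1 f1 (k • e2) (k • f2) (k • e3) (k • f3) v = k • v := fun v => by rw [ap_lin k v, h1, h2]
  have := (by decide +kernel : ∀ a, Pp [e1, f1] a → ∀ b, Pp [e1, f1] b → ω a b = true → ∀ c, Pp [e1, f1, a, b] c →
    ∀ d, Pp [e1, f1, a, b] d → ω c d = true → lin e1 f1 a b c d a = e2 → lin e1 f1 a b c d b = f2 →
    lin e1 f1 a b c d c = e3 → lin e1 f1 a b c d d = f3 →
    (∃ x, Pp [e1, f1] x ∧ lin e1 f1 a b c d x = x ∧ ∃ y, ω x y = true ∧ Pp [e1, f1] y ∧ lin e1 f1 a b c d y = y) ∨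
    ∃ y, Pp [e1, f1] y ∧ ∃ z, Pp [e1, f1, y] z ∧ ∃ ε, SB e1 f1 (lin e1 f1 a b c d z + z) y
      (lin e1 f1 a b c d y + y + sc ε (lin e1 f1 a b c d z + z)) z) (k • e2) (p _ (by decide)) (k • f2) (p _ (by decide))
    (by simp; rfl) (k • e3) (q _ (by decide)) (k • f3) (q _ (by decide)) (by simp; rfl)
  simp only [L, inv_smul2 kk, true_imp_iff] at this
  rcases this with ⟨x, x1, x2, y, y1, y2, y3⟩ | ⟨y, -, z, -, ε, sb⟩
  · exact .inl ⟨x, y, y1, x1, y2, x2, y3⟩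
  · obtain ⟨m, m1, m2, m3, m4, m5, m6⟩ := exists_lin sb
    obtain ⟨a1, a2, a3, a4, a5, a6⟩ := (by decide +kernel : ∀ ε, (X e2 e3 * Tb ε e2) • e1 = e1 ∧
      (X e2 e3 * Tb ε e2) • f1 = f1 ∧ (X e2 e3 * Tb ε e2) • e2 = e2 ∧ (X e2 e3 * Tb ε e2) • f2 = f2 + e3 + sc ε e2 ∧
      (X e2 e3 * Tb ε e2) • e3 = e3 ∧ (X e2 e3 * Tb ε e2) • f3 = f3 + e2) ε
    refine .inr ⟨m, ε, m1, m2, eq_mul_inv_of_mul_eq (ext6 ?_ ?_ ?_ ?_ ?_ ?_)⟩ <;> rw [mul_smul, mul_smul m] <;>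
      simp [a1, a2, a3, a4, a5, a6, m1, m2, m3, m4, m5, m6, h1, h2, inv_smul2 kk, add_comm, add_left_comm]

theorem nf4 {y : Sp8} (yy : y * y = 1) (h1 : ω8 e0 (y • e0) = false) (h2 : ω8 f0 (y • f0) = false)
    (h3 : ω8 e0 (y • f0) = false) : (∃ k, IsConj y (emb k)) ∨ ∃ ε, IsConj y (y4 ε) := by
  have y2 : ∀ v : V8, y • y • v = v := fun v => by rw [← mul_smul, yy, one_smul]
  have a := eq_up (v := y • e0) (by rwa [ω8_comm]) (by rw [← ω8_smul y, y2, h3])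
  have b := eq_up (v := y • f0) (by rwa [ω8_comm]) (by rwa [ω8_comm])
  obtain ⟨n, n1, n2⟩ := ex_hyp (a := lo (y • e0)) (b := lo (y • f0)) (by rw [← ω8_up, a, b]; simp)
  have a' : ((emb n)⁻¹ * y * emb n) • e0 = up e1 := by simp [mul_smul, inv_smul_eq_iff, n1, a]
  have b' : ((emb n)⁻¹ * y * emb n) • f0 = up f1 := by simp [mul_smul, inv_smul_eq_iff, n2, b]
  have c : IsConj y ((emb n)⁻¹ * y * emb n) := isConj_iff.2 ⟨(emb n)⁻¹, by rw [inv_inv]⟩
  have zz : (emb n)⁻¹ * y * emb n * ((emb n)⁻¹ * y * emb n) = 1 := by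
    rw [show ∀ a b : Sp8, a⁻¹ * b * a * (a⁻¹ * b * a) = a⁻¹ * (b * b) * a from fun a b => by group, yy]; simp
  generalize (emb n)⁻¹ * y * emb n = z at a' b' c zz
  have z2 : ∀ v : V8, z • z • v = v := fun v => by rw [← mul_smul, zz, one_smul]
  obtain ⟨k, e⟩ := ex_emb (g := σ1 * z) (by rw [mul_smul, a']; decide +kernel) (by rw [mul_smul, b']; decide +kernel)
  have k1 : k • e1 = e1 := up_inj (by rw [← emb_up, ← e, mul_smul, ← a', z2, a']; decide +kernel)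
  have k2 : k • f1 = f1 := up_inj (by rw [← emb_up, ← e, mul_smul, ← b', z2, b']; decide +kernel)
  have cm : ∀ {k : Sp}, k • e1 = e1 → k • f1 = f1 → Commute (emb k) σ1 := fun h h' => comm_X8 (by simp [h]) (by simp [h'])
  have ss : σ1 * σ1 = 1 := by decide +kernel
  obtain rfl : z = σ1 * emb k := by rw [← e, ← mul_assoc, ss, one_mul]
  have kk : k * k = 1 := emb_inj (by
    rwa [mul_assoc, ← mul_assoc (emb k), (cm k1 k2).eq, mul_assoc, ← mul_assoc, ss, one_mul, ← map_mul, ← map_one emb] at zz)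
  have f : ∀ a, Pp [e1, f1] a → σ1 • up a = up a := by decide +kernel
  rcases cl4 kk k1 k2 with ⟨u, v, uv, p1, p2, ku, kv⟩ | ⟨m, ε, m1, m2, rfl⟩
  · exact .inl ((fixp (a := up u) (b := up v) (by simpa) (by simp [mul_smul, ku, f u p1])
      (by simp [mul_smul, kv, f v p2])).imp fun _ h => c.trans h)
  · refine .inr ⟨ε, c.trans (isConj_iff.2 ⟨σ2 * (emb m)⁻¹, ?_⟩)⟩
    rw [← (by decide +kernel : ∀ ε, σ2 * (σ1 * emb (X e2 e3 * Tb ε e2)) * σ2⁻¹ = y4 ε), map_mul, map_mul, map_inv,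
      ← mul_assoc σ1, ← mul_assoc σ1, ← (cm m1 m2).eq]
    group

/-- the classes of involutions -/
theorem nf {y : Sp8} (yy : y * y = 1) : (∃ k, IsConj y (emb k)) ∨ ∃ ε, IsConj y (y4 ε) := by
  have y2 : ∀ v : V8, y • y • v = v := fun v => by rw [← mul_smul, yy, one_smul]
  have sy : ∀ u v, ω8 u (y • v) = ω8 v (y • u) := fun u v => by rw [← ω8_smul y u, y2, ω8_comm]
  obtain ⟨c, hc⟩ := dual8 (fun v => ω8 v (y • v)) fun x z => by
    simp only [smul_add, ω8_add_left, ω8_add_right, sy x z]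
    cases ω8 x (y • x) <;> cases ω8 z (y • x) <;> simp
  by_cases h : ∃ u v, ω8 u c = false ∧ ω8 v c = false ∧ ω8 u v = true ∧ ω8 u (y • v) = false
  · obtain ⟨u, v, h1, h2, h3, h4⟩ := h
    obtain ⟨g, g1, g2⟩ := mv h3
    have c' : IsConj y (g * y * g⁻¹) := isConj_iff.2 ⟨g, rfl⟩
    exact (nf4 (y := g * y * g⁻¹) (by rw [conj_mul, yy]; simp) (by simp [← g1, mul_smul, hc, h1])
      (by simp [← g2, mul_smul, hc, h2]) (by simp [← g1, ← g2, mul_smul, h4])).imp (·.imp fun _ h => c'.trans h)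
      (·.imp fun _ h => c'.trans h)
  · have k : ∀ u v, ω8 u c = false → ω8 v c = false → ω8 u (y • v + v) = false := fun u v hu hv => by
      by_contra n
      cases e : ω8 u v
      · exact h ⟨u, y • v, hu, by rw [← hc, ω8_smul, hc, hv], by simpa [e] using n, by rw [y2, e]⟩
      · exact h ⟨u, v, hu, hv, e, by simpa [e] using n⟩
    obtain ⟨c', hc'⟩ : ∃ c', ∀ u, ω8 u c = false ∨ ω8 (u + c') c = false := by
      by_cases c0 : c = 0
      · exact ⟨0, by simp [c0]⟩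
      · obtain ⟨c', e⟩ := ex_dual c c0
        exact ⟨c', fun u => by cases h : ω8 u c <;> simp [h, ω8_comm c', e]⟩
    have f : ∀ v, ω8 v c = false → ω8 v (y • c' + c') = false → y • v = v := fun v h1 h2 =>
      add_eq_zero8.1 (nondeg8 _ fun u _ => by
        rw [ω8_comm]
        rcases hc' u with e | e
        · exact k u v e h1
        · have := k _ v e h1
          rw [ω8_add_left, ω8_add_right (z := c'), sy c', ω8_comm c', ← ω8_add_right, h2] at this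
          simpa using this)
    obtain ⟨a, b, ab, a1, b1, a2, b2⟩ := hyp2 c (y • c' + c')
    exact .inl (fixp ab (f a a1 a2) (f b b1 b2))

theorem c4 {k : Sp} (h : Commute k ww) (h4 : k ^ 4 = 1) : k * k = 1 := by
  have := (by decide +kernel : ∀ a, a + ww • a + ww • ww • a = 0 → ∀ c, c + ww • c + ww • ww • c = 0 → ω a c = false →
    ω a (ww • c) = false → ω a (ww • a) = true → ω c (ww • c) = true → ∀ e, ww • e = e → ∀ f, ww • f = f → ω e f = true →
    sq6 (sq6 (a, ww • a, c, ww • c, e, f)) = tup 1 → sq6 (a, ww • a, c, ww • c, e, f) = tup 1)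
  have z : ∀ v : V, v + ww • v + ww • ww • v = 0 → k • v + ww • k • v + ww • ww • k • v = 0 := fun v e => by
    rw [cm h, cm h, ← smul_add, ← smul_add, e, smul_zero]
  have t : tup k = (k • e1, ww • k • e1, k • e2, ww • k • e2, k • e3, k • f3) := by
    rw [cm h, cm h]; exact congrArg₂ _ rfl (congrArg₂ _ (congrArg _ (by decide +kernel)) (congrArg₂ _ rfl
      (congrArg₂ _ (congrArg _ (by decide +kernel)) rfl)))
  refine tup_inj ?_
  rw [← pow_two, tup_sq, t]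
  refine this _ (z _ (by decide +kernel)) _ (z _ (by decide +kernel)) (by simp; rfl) ?_ ?_ ?_ _
    (cm_fix h (by decide +kernel)) _ (cm_fix h (by decide +kernel)) (by simp; rfl) (by
      rw [← t, ← tup_sq, ← tup_sq, ← pow_mul, h4])
  all_goals rw [cm h, ω_smul]; decide +kernel

theorem sq8 {p : V} {ε : Bool} {k : Sp} {U : Sp8} (e : U = X8 e0 (up p) * rb (T8 e0) ε * emb k)
    (c : Commute U (emb ww)) (h4 : U ^ 4 = 1) (h2 : U * U ≠ 1) : ∃ q ∈ [e3, f3, e3 + f3], U * U = X8 e0 (up q) * T8 e0 := by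
  obtain ⟨a0, a1, a2⟩ := (by decide +kernel : ∀ p ε, (X8 e0 (up p) * rb (T8 e0) ε) • e0 = e0 ∧
    lo ((X8 e0 (up p) * rb (T8 e0) ε) • f0) = p ∧ ∀ v, lo ((X8 e0 (up p) * rb (T8 e0) ε) • up v) = v) p ε
  have l : ∀ (k : Sp) v, lo (emb k • v) = k • lo v := fun k v => by simp [emb_smul, lo_add]
  have wp : ww • p = p := by
    rw [← a1, ← l, ← emb_f0 k, ← mul_smul _ (emb k), ← e, ← mul_smul, ← c.eq, mul_smul, emb_f0]
  have cm' : ∀ {k : Sp} {p}, emb k * (X8 e0 (up p) * rb (T8 e0) ε) = X8 e0 (up (k • p)) * rb (T8 e0) ε * emb k :=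
    fun {k p} => by
      rw [← mul_assoc, ← mul_inv_cancel_right (emb k * _) (emb k)⁻¹, conj_X8, inv_inv, mul_assoc, mul_assoc,
        (rb_comm (comm_T8 (emb_e0 k)) ε).eq, emb_e0, emb_up]
  have ck : Commute k ww := emb_inj (by
    have := c.eq
    rw [e, ← mul_assoc (emb ww), cm', wp, mul_assoc, mul_assoc _ (emb ww), mul_left_cancel_iff] at this
    rwa [map_mul, map_mul])
  have u0 : U • e0 = e0 := by rw [e, mul_smul, emb_e0, a0]
  have H : ∀ w, ω8 w e0 = false → ω8 (U • w) e0 = false ∧ lo (U • w) = k • lo w := fun w hw =>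
    ⟨by rw [← u0, ω8_smul, hw], by
      have : U • w = U • up (lo w) + sc8 (ω8 w f0) e0 := by
        conv_lhs => rw [← up_lo w, hi, hw]
        simp [u0]
      rw [this, lo_add, e, mul_smul, emb_up, a2]
      cases ω8 w f0 <;> exact add_zero _⟩
  have kk := c4 ck (ext_v fun v => by
    have h1 := H _ (ω8_up_e0 v)
    have h2 := H _ h1.1
    have h3 := H _ h2.1
    have := (H _ h3.1).2
    rw [h3.2, h2.2, h1.2] at this
    simp only [← mul_smul, ← pow_two, ← pow_succ', h4, one_smul, lo_up] at this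
    exact this.symm)
  rw [e, mul_assoc, ← mul_assoc (emb k), cm', mul_assoc _ (emb k), ← map_mul, kk, map_one, mul_one] at h2 ⊢
  exact (by decide +kernel : ∀ p, ww • p = p → ∀ p', ww • p' = p' → (p' = 0 ↔ p = 0) → ∀ ε,
    X8 e0 (up p) * rb (T8 e0) ε * (X8 e0 (up p') * rb (T8 e0) ε) ≠ 1 → ∃ q ∈ [e3, f3, e3 + f3],
    X8 e0 (up p) * rb (T8 e0) ε * (X8 e0 (up p') * rb (T8 e0) ε) = X8 e0 (up q) * T8 e0) p wp _ (cm_fix ck wp)
    (smul_eq_zero_iff_eq k) ε h2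

theorem cj8 : ∀ q ∈ [e3, f3, e3 + f3], ∃ n ∈ [emb (wd [8, 24, 32]) * σ2, emb (wd [8, 16, 24]) * σ2, emb (wd [8, 24]) * σ2],
    n * X8 e0 (up q) * n⁻¹ = emb sw23 ∧ n * emb ww * n⁻¹ = d0 * emb d1 := by decide +kernel

theorem cE {g : Sp} (h1 : Commute g d1) (h2 : Commute g (d2 * d3)) (h3 : Commute g sw23) : ∃ t, g * g = dA t := by
  have := (by decide +kernel : ∀ u, (d2 * d3) • u = u → ω u (d1 • u) = true → ∀ a, d1 • a = a →
    ω a ((d2 * d3) • a) = true → ω a (sw23 • a) = false → ω a ((d2 * d3) • sw23 • a) = false →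
    ∃ t, sq6 (u, d1 • u, a, (d2 * d3) • a, sw23 • a, (d2 * d3) • sw23 • a) = tup (dA t))
    (g • e1) (cm_fix h2 (by decide +kernel)) (by rw [cm h1, ω_smul]; decide +kernel) (g • e2)
    (cm_fix h1 (by decide +kernel)) (by rw [cm h2, ω_smul]; decide +kernel) (by rw [cm h3, ω_smul]; decide +kernel)
    (by rw [cm h3, cm h2, ω_smul]; decide +kernel)
  rw [cm h1, cm h3, cm h2, cm h2, show d1 • e1 = f1 by decide +kernel, show (d2 * d3) • e2 = f2 by decide +kernel,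
    show sw23 • e2 = e3 by decide +kernel, show (d2 * d3) • e3 = f3 by decide +kernel] at this
  exact this.imp fun t h => tup_inj (by rw [← pow_two, tup_sq]; exact h)

end H13.SX
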