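/-
S3140, chunks `BS` and `MD`.
-/
import Cfsg.Agent.H12.T31
import Cfsg.Agent.H10.Dihedral

set_option autoImplicit false

namespace H13.T3
open Cfsg Subgroup H8.LS H12.T3

universe u
variable {G : Type u} [Group G]

theorem ix_le (M C : Subgroup G) {ι : Type} [Fintype ι] (e : ι → G) (he : ∀ i, e i ∈ C)
    (h : ∀ g ∈ C, ∃ i, g * (e i)⁻¹ ∈ M) : M.relIndex C ≤ Fintype.card ι := by
  rw [← Nat.card_eq_fintype_card]
  refine Nat.card_le_card_of_surjective
    (fun i => (QuotientGroup.mk ⟨(e i)⁻¹, inv_mem (he i)⟩ : C ⧸ M.subgroupOf C)) fun q => ?_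
  obtain ⟨g, rfl⟩ := QuotientGroup.mk_surjective q
  obtain ⟨i, hi⟩ := h _ (inv_mem g.2)
  refine ⟨i, QuotientGroup.eq.2 (mem_subgroupOf.2 ?_)⟩
  simpa using inv_mem hi

theorem sq_mem {F : Subgroup G} {t : G} (S : Se F t) (tt : t * t = 1) (g : G) : g * g ∈ F :=
  (S.ix g).elim (fun k => mul_mem k k) fun k => by
    have := mul_mem k (S.nm.conj_mem _ k t)
    rwa [mul_assoc t, mul_inv_cancel_right, mul_assoc, ← mul_assoc t, tt, one_mul] at this

theorem phi_mem {F : Subgroup G} {t : G} (S : Se F t) (tt : t * t = 1) (φ : S3 →* G) (s : S3) : φ s ∈ F := by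
  haveI := sS3
  haveI := S.nm
  rcases (inferInstance : (F.comap φ).Normal).eq_bot_or_eq_top with h | h
  · have : z0 ∈ F.comap φ := by
      rw [mem_comap, ← r0.1.2.2.2.1, map_mul]; exact sq_mem S tt _
    exact absurd (h.le this) r0.2.1
  · exact h.ge (mem_top s)

section St
variable {φ : S3 →* G} {t f : G} {h b : Bool} {X : Subgroup G}

/-- `φ(SL₃(3)) X` -/
def MX (S : St φ t h b f X) : S3 × X →* G :=
  MonoidHom.mk' (fun p => φ p.1 * p.2) fun p q => by
    simp only [Prod.fst_mul, Prod.snd_mul, map_mul, coe_mul, mul_assoc]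
    rw [← mul_assoc (φ q.1), ← S.Xφ _ p.2.2, mul_assoc]

theorem mem_MX (S : St φ t h b f X) {g : G} : g ∈ (MX S).range ↔ ∃ s, ∃ x ∈ X, g = φ s * x :=
  ⟨fun ⟨p, e⟩ => ⟨p.1, p.2, p.2.2, e.symm⟩, fun ⟨s, x, m, e⟩ => ⟨(s, ⟨x, m⟩), e.symm⟩⟩

theorem phi_MX (S : St φ t h b f X) (s : S3) : φ s ∈ (MX S).range := (mem_MX S).2 ⟨s, 1, one_mem _, (mul_one _).symm⟩

theorem MX_t (S : St φ t h b f X) {g : G} (m : g ∈ (MX S).range) : g * t = t * g := by
  obtain ⟨s, x, hx, rfl⟩ := (mem_MX S).1 m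
  rw [mul_assoc, S.Xt x hx, ← mul_assoc, S.tφ, mul_assoc]

/-- the coset representatives -/
def rp (t f : G) (i : Bool × Bool) : G := cond i.1 t 1 * cond i.2 f 1

theorem rp_t (S : St φ t h b f X) (i : Bool × Bool) : rp t f i * t = t * rp t f i := by
  obtain ⟨_ | _, _ | _⟩ := i <;> simp [rp, S.ft, mul_assoc]

theorem rp_cm (S : St φ t h b f X) (i j : Bool × Bool) : rp t f i * rp t f j = rp t f j * rp t f i := by
  have c : Commute t f := S.ft.symm
  have a : ∀ i : Bool × Bool, Commute t (rp t f i) ∧ Commute f (rp t f i) := by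
    rintro ⟨_ | _, _ | _⟩ <;> simp [rp, c, c.symm]
  change Commute _ _
  obtain ⟨_ | _, _ | _⟩ := i <;> simp [rp] <;> first | exact (a j).1 | exact (a j).2 | exact (a j).1.mul_left (a j).2

theorem rp_φ (S : St φ t h b f X) (i : Bool × Bool) (s : S3) : ∃ s', rp t f i * φ s = φ s' * rp t f i := by
  obtain ⟨_ | _, _ | _⟩ := i
  · exact ⟨s, by simp [rp]⟩
  · exact ⟨_, by simpa [rp] using S.fφ s⟩
  · exact ⟨s, by simpa [rp] using (S.tφ s).symm⟩
  · exact ⟨cond h (γ0 s) s, by simp only [rp, cond_true]; rw [mul_assoc, S.fφ, ← mul_assoc, ← S.tφ, mul_assoc]⟩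

theorem cov' (S : St φ t h b f X) {g : G} (c : g * t = t * g) : ∃ m ∈ (MX S).range, ∃ i, g = m * rp t f i := by
  obtain ⟨s, x, hx, e⟩ := S.cov g c
  refine ⟨_, (mem_MX S).2 ⟨s, x, hx, rfl⟩, ?_⟩
  rcases e with e | e | e | e
  exacts [⟨(false, false), by simpa [rp] using e⟩, ⟨(true, false), by simpa [rp] using e⟩,
    ⟨(false, true), by simpa [rp] using e⟩, ⟨(true, true), by simpa [rp] using e⟩]

theorem MX_nm (S : St φ t h b f X) {g m : G} (c : g * t = t * g) (hm : m ∈ (MX S).range) : g * m * g⁻¹ ∈ (MX S).range := by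
  obtain ⟨m', hm', i, rfl⟩ := cov' S c
  obtain ⟨s, x, hx, rfl⟩ := (mem_MX S).1 hm
  obtain ⟨s', e⟩ := rp_φ S i s
  have : m' * rp t f i * (φ s * x) * (m' * rp t f i)⁻¹ = m' * (φ s' * (rp t f i * x * (rp t f i)⁻¹)) * m'⁻¹ := by
    rw [← mul_assoc (φ s'), ← mul_assoc (φ s'), ← e]; group
  rw [this]
  exact mul_mem (mul_mem hm' ((mem_MX S).2 ⟨_, _, S.nm _ (rp_t S i) x hx, rfl⟩)) (inv_mem hm')

theorem act_MX (S : St φ t h b f X) {g : G} (m : g ∈ (MX S).range) : ∃ s, ∀ r, g * φ r = φ (s * r * s⁻¹) * g := by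
  obtain ⟨s, x, hx, rfl⟩ := (mem_MX S).1 m
  exact ⟨s, fun r => by rw [mul_assoc, S.Xφ x hx]; simp [mul_assoc]⟩

theorem t_MX [Finite G] (S : St φ t h b f X) : t ∉ (MX S).range := fun m => by
  obtain ⟨s, x, hx, e⟩ := (mem_MX S).1 m
  have : s = 1 := zS3.le (mem_center_iff.2 fun r => S.inj (by
    have := S.tφ r
    rw [e, mul_assoc, S.Xφ x hx, ← mul_assoc, ← mul_assoc] at this
    rw [map_mul, map_mul]; exact mul_right_cancel this))
  rw [this, map_one, one_mul] at e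
  obtain ⟨k, hk⟩ := S.od
  have o : x ^ Nat.card X = 1 := congrArg Subtype.val (pow_card_eq_one' (x := (⟨x, hx⟩ : X)))
  rw [hk, pow_succ, pow_mul, ← e, sq, S.t2, one_pow, one_mul] at o
  exact S.t1 o

theorem f_MX (S : St φ t true b f X) {g : G} (a : ∀ r, g * φ r = φ (γ0 r) * g) : g ∉ (MX S).range := fun m => by
  obtain ⟨s, e⟩ := act_MX S m
  exact γInn ⟨s, MulEquiv.ext fun r => S.inj (mul_right_cancel ((e r).symm.trans (a r)))⟩

theorem card_MX [Finite G] (S : St φ t h b f X) : ¬ 32 ∣ Nat.card (MX S).range := fun d => by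
  have := d.trans (card_range_dvd (MX S))
  rw [Nat.card_prod, cS3] at this
  obtain ⟨k, hk⟩ := S.od
  rw [hk] at this
  omega

theorem syl_t [Finite G] (S : St φ t h b f X) : ¬ cond h 128 64 ∣ Nat.card (centralizer ({t} : Set G)) := fun d => by
  have le : (MX S).range ≤ centralizer {t} := fun g m => mem_centralizer_singleton_iff.2 (MX_t S m)
  have e := ((MX S).range.subgroupOf (centralizer {t})).index_mul_card
  rw [Nat.card_congr (subgroupOfEquivOfLe le).toEquiv] at e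
  have p : ((MX S).range.subgroupOf (centralizer {t})).index ≠ 0 := index_ne_zero_of_finite
  have n := card_MX S
  rw [← e] at d
  cases h
  · have i : ((MX S).range.subgroupOf (centralizer {t})).index ≤ 2 :=
      ix_le (MX S).range (centralizer {t}) (fun i : Bool => rp t f (i, false))
        (fun i => mem_centralizer_singleton_iff.2 (rp_t S _)) fun g c => by
          obtain ⟨m, hm, ⟨i, j⟩, rfl⟩ := cov' S (mem_centralizer_singleton_iff.1 c)
          exact ⟨i, by cases j <;> simpa [rp, S.f1 rfl] using hm⟩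
    generalize ((MX S).range.subgroupOf (centralizer {t})).index = j at *
    simp only [cond_false] at d
    interval_cases j <;> omega
  · have i : ((MX S).range.subgroupOf (centralizer {t})).index ≤ 4 :=
      ix_le (MX S).range (centralizer {t}) (rp t f)
        (fun i => mem_centralizer_singleton_iff.2 (rp_t S _)) fun g c => by
          obtain ⟨m, hm, i, rfl⟩ := cov' S (mem_centralizer_singleton_iff.1 c)
          exact ⟨i, by simpa using hm⟩
    generalize ((MX S).range.subgroupOf (centralizer {t})).index = j at *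
    simp only [cond_true] at d
    interval_cases j <;> omega

end St

theorem γz : γ0 z0 = z0 := by decide +kernel

theorem bs : BS.{u} := fun G _ _ φ t h b f X S => by
  obtain ⟨⟨r1, r2, r3, r4, r5, r6, r7, r8, r9⟩, s1, s2, s3, s4, s5, g1, g2, g3, g4, g5⟩ := r0
  have ct : ∀ s, φ s * t * (φ s)⁻¹ = t := fun s => by rw [S.tφ, mul_inv_cancel_right]
  refine
    { z2 := by simp [← map_mul, r1], t2 := S.t2, u2 := by simp [← map_mul, r2], v2 := by simp [← map_mul, r3]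
      w2 := by simp [← map_mul, r4], f2 := S.f2, zt := (S.tφ _).symm, zu := by simp [← map_mul, r5]
      zv := by simp [← map_mul, r6], zf := by rw [S.fφ, γz, Bool.cond_self], tu := S.tφ _, tv := S.tφ _, tw := S.tφ _
      tf := S.ft, uv := by simp [← map_mul, r7], wu := by simp [← map_mul, r8], wv := by simp [← map_mul, r9]
      fu := by rw [S.fφ, g1, Bool.cond_self], fv := by rw [S.fφ, g2, Bool.cond_self]
      fw := by rw [S.fφ, g3]; cases h <;> simp
      f1 := S.f1, z1 := fun c => s1 (S.inj (c.trans φ.map_one.symm)), syl := syl_t S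
      r1 := ⟨φ a0, ct _, by simp [← s2], by simp only [← map_inv, ← map_mul, s3], by
        rw [mul_inv_eq_iff_eq_mul, S.fφ, g4, Bool.cond_self]⟩
      r3 := ⟨φ c0, ct _, by simp [← s4], by simp only [← map_inv, ← map_mul, s5], ?_⟩
      lam := ⟨(MX S).range, fun g x cg cx => ?_, phi_MX S _, phi_MX S _, phi_MX S _, t_MX S, ?_⟩ }
  · rintro rfl
    rw [mul_inv_eq_iff_eq_mul, mul_assoc _ f, S.fφ, ← mul_assoc, ← mul_assoc]
    simp only [← map_mul, cond_true]
    rw [mul_assoc c0, g5, map_mul, mul_assoc]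
  · obtain ⟨m, hm, i, rfl⟩ := cov' S cg
    obtain ⟨m', hm', j, rfl⟩ := cov' S cx
    have : (m' * rp t f j)⁻¹ * (m * rp t f i * (m' * rp t f j) * (m * rp t f i)⁻¹) =
        (rp t f j)⁻¹ * (m'⁻¹ * m * (rp t f i * m' * (rp t f i)⁻¹)) * (rp t f j)⁻¹⁻¹ *
          ((rp t f j * rp t f i)⁻¹ * (rp t f i * rp t f j)) * m⁻¹ := by
      rw [rp_cm S j i, inv_mul_cancel, mul_one, _root_.mul_inv_rev m, ← mul_assoc _ _ m⁻¹, mul_assoc _ (m' * _),
        mul_assoc m', (show Commute (rp t f j) (rp t f i) from rp_cm S j i).inv_right.eq]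
      group
    rw [this, rp_cm S j i, inv_mul_cancel, mul_one]
    refine mul_mem (MX_nm S ?_ (mul_mem (mul_mem (inv_mem hm') hm) (MX_nm S (rp_t S i) hm'))) (inv_mem hm)
    exact (show Commute (rp t f j) t from rp_t S j).inv_left.eq
  · rintro rfl
    exact ⟨f_MX S S.fφ, f_MX S fun r => by rw [mul_assoc, S.fφ, ← mul_assoc, ← S.tφ, mul_assoc]; rfl⟩

/-! ### the model -/

theorem q8_ind {P : Q8 → Prop} (h1 : P (.a 1)) (h2 : P (.xa 0)) (hm : ∀ x y, P x → P y → P (x * y)) (q : Q8) : P q := by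
  have a2 := hm _ _ h1 h1
  have a3 := hm _ _ a2 h1
  rcases (by decide : ∀ q : Q8, q = .a 1 ∨ q = .a 1 * .a 1 ∨ q = .a 1 * .a 1 * .a 1 ∨ q = .a 1 * .a 1 * .a 1 * .a 1 ∨
    q = .xa 0 ∨ q = .xa 0 * .a 1 ∨ q = .xa 0 * (.a 1 * .a 1) ∨ q = .xa 0 * (.a 1 * .a 1 * .a 1)) q with
    rfl | rfl | rfl | rfl | rfl | rfl | rfl | rfl
  exacts [h1, a2, a3, hm _ _ a3 h1, h2, hm _ _ h2 h1, hm _ _ h2 a2, hm _ _ h2 a3]

theorem ex_q8 {a b u : G} (aa : a * a = u) (bb : b * b = u) (uu : u * u = 1) (ba : b * a * b⁻¹ = a⁻¹) :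
    ∃ κ : Q8 →* G, κ (.a 1) = a ∧ κ (.xa 0) = b := by
  have h4 : a ^ (2 * 2) = 1 := by rw [pow_mul, sq, sq, aa, uu]
  have h2 : b * b = a ^ 2 := by rw [sq, aa, bb]
  exact ⟨H10.quaternionHom a b h4 h2 ba, by simpa using H10.quaternionHom_a a b h4 h2 ba 1,
    by simpa using H10.quaternionHom_xa a b h4 h2 ba 0⟩

theorem q8_cm {κ κ' : Q8 →* G} (h1 : Commute (κ (.a 1)) (κ' (.a 1))) (h2 : Commute (κ (.a 1)) (κ' (.xa 0)))
    (h3 : Commute (κ (.xa 0)) (κ' (.a 1))) (h4 : Commute (κ (.xa 0)) (κ' (.xa 0))) (p q : Q8) : Commute (κ p) (κ' q) := by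
  refine q8_ind (P := fun p => Commute (κ p) (κ' q)) ?_ ?_ (fun x y a b => by rw [map_mul]; exact a.mul_left b) p <;>
    refine q8_ind (P := fun q => Commute _ (κ' q)) ‹_› ‹_› (fun x y a b => by rw [map_mul]; exact a.mul_right b) q

theorem q8_t {κ : Q8 →* G} {t : G} (h1 : t * κ (.a 1) * t⁻¹ = (κ (.a 1))⁻¹) (h2 : t * κ (.xa 0) * t⁻¹ = κ (.a 1) * κ (.xa 0))
    (p : Q8) : t * κ p * t⁻¹ = κ (qt p) :=
  q8_ind (P := fun p => t * κ p * t⁻¹ = κ (qt p)) (by rw [h1, ← map_inv]; rfl) (by rw [h2, ← map_mul]; rfl)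
    (fun x y a b => by
      rw [(by decide : ∀ x y : Q8, qt (x * y) = qt x * qt y), map_mul, map_mul, ← a, ← b]; group) p

/-- an iterated commutator of `s` is `wz` modulo `wc` -/
def fz : ℕ → W → Bool
  | 0, _ => false
  | n + 1, s => s = wz || s = wz * wc ||
      (s ≠ 1 && s ≠ wc && [wa, wb, wv, wx, wy].any fun g => fz n (s * g * s⁻¹ * g⁻¹))

theorem fz_ok : ∀ s : W, s = 1 ∨ s = wc ∨ fz 6 s = true := by decide +kernel

theorem fz_ker {ι : W →* G} (hc : ι wc = 1) : ∀ n s, fz n s = true → ι s = 1 → ι wz = 1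
  | 0, _, h, _ => by simp [fz] at h
  | n + 1, s, h, e => by
    simp only [fz, Bool.or_eq_true, decide_eq_true_eq, Bool.and_eq_true, List.any_eq_true] at h
    rcases h with (rfl | rfl) | ⟨-, g, -, h⟩
    · exact e
    · rwa [map_mul, hc, mul_one] at e
    · exact fz_ker hc n _ h (by simp [e])

theorem wq_cases : ∀ s ∈ WQ, ∃ s0 ∈ [s, s * wc], s0 * s0 = 1 ∨ s0 = wx ∨ s0 = wy ∨ s0 = wx * wy ∨
    s0⁻¹ = wx ∨ s0⁻¹ = wy ∨ s0⁻¹ = wx * wy := by decide +kernel

theorem md : MD.{u} := fun G _ _ F φ t f X a b x y P => by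
  obtain ⟨⟨r1, r2, r3, r4, r5, r6, r7, r8, r9⟩, s1, -⟩ := r0
  have D := P.pd
  have zz : φ z0 * φ z0 = 1 := by simp [← map_mul, r1]
  have uu : φ u0 * φ u0 = 1 := by simp [← map_mul, r2]
  have vv : φ v0 * φ v0 = 1 := by simp [← map_mul, r3]
  have z1 : φ z0 ≠ 1 := fun c => s1 (P.st.inj (c.trans φ.map_one.symm))
  set v := φ v0 with hv
  obtain ⟨κ1, a1, b1⟩ := ex_q8 D.aa D.bb uu D.ba
  obtain ⟨κ3, a3, b3⟩ := ex_q8 D.xx D.yy zz D.yx
  let κ2 : Q8 →* G := (MulAut.conj v).toMonoidHom.comp κ1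
  have e2 : ∀ p, κ2 p = v * κ1 p * v⁻¹ := fun _ => rfl
  have iv : v⁻¹ = v := inv_eq_of_mul_eq_one_right vv
  have v1 : ∀ p, v * κ1 p = κ2 p * v := fun p => by rw [e2, inv_mul_cancel_right]
  have v2 : ∀ p, v * κ2 p = κ1 p * v := fun p => by rw [e2, ← mul_assoc, ← mul_assoc, vv, one_mul, iv]
  have c12 : ∀ p q, Commute (κ1 p) (κ2 q) := q8_cm (by rw [e2, a1]; exact D.a2) (by rw [e2, a1, b1]; exact D.ab)
    (by
      rw [e2, a1, b1]
      have := congrArg (fun g => v * g * v⁻¹) D.ab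
      simp only [iv] at this ⊢
      change b * (v * a * v) = v * a * v * b
      calc b * (v * a * v) = v * (v * b * v * a) * v := by simp only [← mul_assoc, vv, one_mul]
        _ = v * (a * (v * b * v)) * v := this.symm
        _ = v * a * v * b := by simp only [mul_assoc, vv, mul_one])
    (by rw [e2, b1]; exact D.b2)
  have c13 : ∀ p q, Commute (κ1 p) (κ3 q) := q8_cm (by rw [a1, a3]; exact D.ax) (by rw [a1, b3]; exact D.ay)
    (by rw [b1, a3]; exact D.bx) (by rw [b1, b3]; exact D.by')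
  have v3 : ∀ p, Commute v (κ3 p) := q8_ind (by rw [a3]; exact D.vx) (by rw [b3]; exact D.vy)
    fun x y a b => by rw [map_mul]; exact a.mul_right b
  have c23 : ∀ p q, Commute (κ2 p) (κ3 q) := fun p q => by
    rw [e2]; exact ((v3 q).mul_left (c13 p q)).mul_left (v3 q).inv_left
  have mv : ∀ p q r p' q' r', κ1 p * κ2 q * κ3 r * (κ1 p' * κ2 q' * κ3 r') = κ1 (p * p') * κ2 (q * q') * κ3 (r * r') :=
    fun p q r p' q' r' => by
      rw [((c13 p' r).mul_left (c23 q' r)).symm.mul_mul_mul_comm, (c12 p' q).symm.mul_mul_mul_comm]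
      simp only [map_mul]
  have vm : ∀ p q r, v * (κ1 p * κ2 q * κ3 r) = κ1 q * κ2 p * κ3 r * v := fun p q r => by
    rw [← mul_assoc, ← mul_assoc, v1, mul_assoc _ v, v2, ← mul_assoc, mul_assoc _ v, (v3 r).eq, ← mul_assoc, (c12 q p).eq]
  let ι : W →* G := MonoidHom.mk' (fun s => κ1 s.p * κ2 s.q * κ3 s.r * cond s.s v 1) (by
    rintro ⟨p, q, r, _ | _⟩ ⟨p', q', r', s'⟩
    · simp only [W.mul_def, cond_false, mul_one, Bool.false_xor]
      rw [← mv, mul_assoc]
    · simp only [W.mul_def, cond_true, Bool.true_xor]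
      rw [← mv, mul_assoc _ v, ← mul_assoc v, vm, mul_assoc _ v, mul_assoc]
      cases s' <;> simp [vv])
  have eι : ∀ s, ι s = κ1 s.p * κ2 s.q * κ3 s.r * cond s.s v 1 := fun _ => rfl
  have k1 : κ1 (.a 2) = φ u0 := by rw [← D.aa, ← a1, ← map_mul]; rfl
  have k3 : κ3 (.a 2) = φ z0 := by rw [← D.xx, ← a3, ← map_mul]; rfl
  have hc : ι wc = 1 := by
    rw [eι]
    simp only [wc, e2, k1, k3, cond_false, mul_one, hv, ← map_inv, ← map_mul]
    rw [show u0 * (v0 * u0 * v0⁻¹) * z0 = 1 by decide +kernel, map_one]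
  have ez : ι wz = φ z0 := by simp [eι, wz, k3]
  have ker : ∀ s, ι s = 1 ↔ s = 1 ∨ s = wc := fun s => ⟨fun e => by
    rcases fz_ok s with h | h | h
    exacts [.inl h, .inr h, absurd (ez ▸ fz_ker hc _ _ h e) z1], by
      rintro (rfl | rfl)
      exacts [map_one _, hc]⟩
  have sub : ∀ K : Subgroup G, a ∈ K → b ∈ K → v ∈ K → x ∈ K → y ∈ K → ∀ s, ι s ∈ K := fun K ha hb hv hx hy s => by
    have m1 : ∀ p, κ1 p ∈ K := q8_ind (a1 ▸ ha) (b1 ▸ hb) fun x y a b => by rw [map_mul]; exact mul_mem a b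
    have m3 : ∀ p, κ3 p ∈ K := q8_ind (a3 ▸ hx) (b3 ▸ hy) fun x y a b => by rw [map_mul]; exact mul_mem a b
    rw [eι, e2]
    refine mul_mem (mul_mem (mul_mem (m1 _) (mul_mem (mul_mem hv (m1 _)) (inv_mem hv))) (m3 _)) ?_
    cases s.s
    exacts [one_mem _, hv]
  have φF := phi_mem P.se P.st.t2 φ
  have i3 : ∀ r, ι ⟨1, 1, r, false⟩ = κ3 r := fun r => by simp [eι]
  refine ⟨ι, P.se, P.tF, ?_, φF, sub F P.aF P.bF (φF _) P.xF P.yF, ker, ez, by simp [eι, wu, k1], by simp [eι, wv, hv], fun s => ?_,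
    P.sy, fun g hg s hs s' e sq => ?_⟩
  · have : ι wf = f := by rw [D.ff, eι]; simp [wf, e2, a1, a3]
    rw [this]; exact P.st
  · have t1 := q8_t (t := t) (κ := κ1) (by rw [a1]; exact D.ta) (by rw [a1, b1]; exact D.tb)
    have t3 := q8_t (t := t) (κ := κ3) (by rw [a3]; exact D.tx) (by rw [a3, b3]; exact D.ty)
    have tv : t * v = v * t := (P.st.tφ _).symm
    have t2 : ∀ p, t * κ2 p * t⁻¹ = κ2 (qt p) := fun p => by
      rw [e2, e2, ← t1, ← mul_assoc, ← mul_assoc, tv, mul_assoc _ v⁻¹, ← _root_.mul_inv_rev, tv]; group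
    have tc : t * cond s.s v 1 * t⁻¹ = cond s.s v 1 := by cases s.s <;> simp [tv]
    rw [eι, eι]
    simp only [wt]
    rw [← t1, ← t2, ← t3]
    conv_rhs => rw [← tc]
    group
  · have key : ∀ (e : G) (s' : W), e = x ∨ e = y ∨ e = x * y → g * e * g⁻¹ = ι s' → ι s' * ι s' = φ z0 → s' ∈ WQ :=
      fun e s' he h sq => by
        have := P.nf g hg e he (h ▸ sub _ (subset_closure (by simp)) (subset_closure (by simp)) (subset_closure (by simp [hv]))
          (subset_closure (by simp)) (subset_closure (by simp)) s') (by rw [h, sq])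
        obtain ⟨r, hr⟩ : g * e * g⁻¹ ∈ κ3.range := (closure_le _).2 (by
          rintro _ (rfl | rfl)
          exacts [⟨_, a3⟩, ⟨_, b3⟩]) this
        have k := (ker ((⟨1, 1, r, false⟩ : W)⁻¹ * s')).1 (by rw [map_mul, map_inv, i3, hr, h, inv_mul_cancel])
        have m : (⟨1, 1, r, false⟩ : W) ∈ WQ := ⟨rfl, rfl, .inl rfl⟩
        rw [← mul_inv_cancel_left (⟨1, 1, r, false⟩ : W) s']
        refine mul_mem m ?_
        rcases k with k | k <;> rw [k]
        exacts [one_mem _, by decide]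
    obtain ⟨s0, h0, k⟩ := wq_cases s hs
    have e0 : ι s0 = ι s := by rcases List.mem_pair.1 h0 with rfl | rfl <;> simp [hc]
    rw [← e0] at e
    have ix : ι wx = x := by rw [← a3]; exact i3 _
    have iy : ι wy = y := by rw [← b3]; exact i3 _
    have inv : ∀ e : G, e = x ∨ e = y ∨ e = x * y → ι s0⁻¹ = e → s' ∈ WQ := fun e' he h =>
      inv_mem_iff.1 (key e' s'⁻¹ he (by rw [← h, map_inv, map_inv, ← e]; group) (by
        rw [map_inv, ← _root_.mul_inv_rev, sq]; exact inv_eq_of_mul_eq_one_right zz))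
    rcases k with k | rfl | rfl | rfl | k | k | k
    · refine absurd ?_ z1
      rw [← sq, ← e, show g * ι s0 * g⁻¹ * (g * ι s0 * g⁻¹) = g * ι (s0 * s0) * g⁻¹ by rw [map_mul]; group, k]; simp
    · exact key _ _ (.inl ix) e sq
    · exact key _ _ (.inr (.inl iy)) e sq
    · exact key _ _ (.inr (.inr (by rw [map_mul, ix, iy]))) e sq
    · exact inv _ (.inl rfl) (k ▸ ix)
    · exact inv _ (.inr (.inl rfl)) (k ▸ iy)
    · exact inv _ (.inr (.inr rfl)) (by rw [k, map_mul, ix, iy])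

end H13.T3
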