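import Cfsg.Agent.H13.MP2
import Cfsg.Agent.H11.Bridge

/-!
# Tensor decompositions: contractions, lines, the stabiliser
-/

set_option autoImplicit false
set_option maxHeartbeats 400000

namespace H13.KL

open Module H12 TensorProduct

variable {F : Type*} [Field F] {U W : Type*} [AddCommGroup U] [Module F U] [AddCommGroup W]
  [Module F W]

variable (U) in
/-- Contraction of the right factor. -/
noncomputable def cR : Dual F W →ₗ[F] (U ⊗[F] W →ₗ[F] U) where
  toFun φ := (TensorProduct.rid F U).toLinearMap ∘ₗ LinearMap.lTensor U φ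
  map_add' φ ψ := TensorProduct.ext' fun u w => by simp [add_smul]
  map_smul' c φ := TensorProduct.ext' fun u w => by simp [mul_smul]

variable (W) in
/-- Contraction of the left factor. -/
noncomputable def cL : Dual F U →ₗ[F] (U ⊗[F] W →ₗ[F] W) where
  toFun φ := (TensorProduct.lid F W).toLinearMap ∘ₗ LinearMap.rTensor W φ
  map_add' φ ψ := TensorProduct.ext' fun u w => by simp [add_smul]
  map_smul' c φ := TensorProduct.ext' fun u w => by simp [mul_smul]

@[simp] theorem cR_tmul (φ : Dual F W) (u : U) (w : W) : cR U φ (u ⊗ₜ w) = φ w • u := by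
  simp [cR]

@[simp] theorem cL_tmul (φ : Dual F U) (u : U) (w : W) : cL W φ (u ⊗ₜ w) = φ u • w := by
  simp [cL]

theorem cR_cL (ψ : Dual F U) (φ : Dual F W) (x : U ⊗[F] W) : ψ (cR U φ x) = φ (cL W ψ x) := by
  induction x with
  | zero => simp
  | tmul u w => simp [mul_comm]
  | add x y a b => simp [a, b]

theorem cR_map (φ : Dual F W) (A : End F U) (B : End F W) (x : U ⊗[F] W) :
    cR U φ (TensorProduct.map A B x) = A (cR U (φ ∘ₗ B) x) := by
  induction x with
  | zero => simp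
  | tmul u w => simp
  | add x y a b => simp [a, b]

theorem cL_map (φ : Dual F U) (A : End F U) (B : End F W) (x : U ⊗[F] W) :
    cL W φ (TensorProduct.map A B x) = B (cL W (φ ∘ₗ A) x) := by
  induction x with
  | zero => simp
  | tmul u w => simp
  | add x y a b => simp [a, b]

theorem map_smulRight (A : End F U) (φ : Dual F W) (w : W) (x : U ⊗[F] W) :
    TensorProduct.map A (φ.smulRight w) x = A (cR U φ x) ⊗ₜ w := by
  induction x with
  | zero => simp
  | tmul u w => simp [smul_tmul']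
  | add x y a b => simp [a, b, add_tmul]

theorem map_smulRight' (B : End F W) (φ : Dual F U) (u : U) (x : U ⊗[F] W) :
    TensorProduct.map (φ.smulRight u) B x = u ⊗ₜ B (cL W φ x) := by
  induction x with
  | zero => simp
  | tmul u w => simp [smul_tmul']
  | add x y a b => simp [a, b, tmul_add]

theorem tmul_left_inj {u u' : U} {w : W} (hw : w ≠ 0) (h : u ⊗ₜ[F] w = u' ⊗ₜ w) : u = u' := by
  obtain ⟨φ, hφ⟩ := exists_dual_one (F := F) hw
  simpa [hφ] using congrArg (cR U φ) h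

theorem tmul_right_inj {u : U} {w w' : W} (hu : u ≠ 0) (h : u ⊗ₜ[F] w = u ⊗ₜ w') : w = w' := by
  obtain ⟨φ, hφ⟩ := exists_dual_one (F := F) hu
  simpa [hφ] using congrArg (cL W φ) h

theorem tmul_ne_zero {u : U} {w : W} (hu : u ≠ 0) (hw : w ≠ 0) : u ⊗ₜ[F] w ≠ 0 := fun h =>
  hu (tmul_left_inj hw (h.trans (zero_tmul U w).symm))

variable (F U) in
/-- The subspace `U ⊗ w`. -/
def line (w : W) : Submodule F (U ⊗[F] W) := LinearMap.range ((TensorProduct.mk F U W).flip w)

theorem mem_line {w : W} {x : U ⊗[F] W} : x ∈ line F U w ↔ ∃ u, u ⊗ₜ w = x := Iff.rfl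

theorem tmul_mem_line (u : U) (w : W) : u ⊗ₜ w ∈ line F U w := ⟨u, rfl⟩

theorem finrank_line {w : W} (hw : w ≠ 0) : finrank F (line F U w) = finrank F U :=
  LinearMap.finrank_range_of_inj fun _ _ h => tmul_left_inj hw h

theorem mem_span_of_tmul_mem_line {u : U} {w w' : W} (hu : u ≠ 0) (h : u ⊗ₜ w' ∈ line F U w) :
    w' ∈ Submodule.span F {w} := by
  obtain ⟨φ, hφ⟩ := exists_dual_one (F := F) hu
  obtain ⟨v, hv⟩ := h
  have := congrArg (cL W φ) hv
  simp only [LinearMap.flip_apply, mk_apply, cL_tmul, hφ, one_smul] at this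
  exact Submodule.mem_span_singleton.2 ⟨_, this⟩

theorem line_le_of_mem_span {w w' : W} (h : w' ∈ Submodule.span F {w}) :
    line F U w' ≤ line F U w := by
  obtain ⟨c, rfl⟩ := Submodule.mem_span_singleton.1 h
  rintro _ ⟨u, rfl⟩
  exact ⟨c • u, by simp [smul_tmul]⟩

theorem sum_tmul_cL {ι : Type*} [Fintype ι] (b : Basis ι F U) (x : U ⊗[F] W) :
    ∑ i, b i ⊗ₜ cL W (b.coord i) x = x := by
  induction x with
  | zero => simp
  | tmul u w =>
    conv_rhs => rw [← b.sum_repr u, sum_tmul]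
    simp [smul_tmul]
  | add x y a b => simp [a, b, tmul_add, Finset.sum_add_distrib]

theorem mem_of_forall_dual {Y : Submodule F W} {y : W}
    (h : ∀ φ : Dual F W, (∀ w ∈ Y, φ w = 0) → φ y = 0) : y ∈ Y := by
  by_contra hc
  obtain ⟨φ, h1, h2⟩ := exists_dual_eq_one hc
  exact one_ne_zero (h2.symm.trans (h φ h1))

theorem mem_line_of_cR [FiniteDimensional F U] {w : W} {x : U ⊗[F] W}
    (h : ∀ φ : Dual F W, φ w = 0 → cR U φ x = 0) : x ∈ line F U w := by
  rw [← sum_tmul_cL (Module.finBasis F U) x]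
  refine Submodule.sum_mem _ fun i _ => line_le_of_mem_span (mem_of_forall_dual fun φ hφ => ?_)
    (tmul_mem_line _ _)
  rw [← cR_cL, h φ (hφ w (Submodule.mem_span_singleton_self w)), map_zero]

theorem eq_zero_of_cR [FiniteDimensional F U] {x : U ⊗[F] W}
    (h : ∀ φ : Dual F W, cR U φ x = 0) : x = 0 := by
  obtain ⟨u, hu⟩ := mem_line_of_cR (w := 0) fun φ _ => h φ
  simpa using hu.symm

theorem eq_zero_of_cL [FiniteDimensional F U] {x : U ⊗[F] W}
    (h : ∀ φ : Dual F U, cL W φ x = 0) : x = 0 := by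
  rw [← sum_tmul_cL (Module.finBasis F U) x]
  simp [h]

variable (F U W) in
/-- The stabiliser of the tensor decomposition. -/
def tenStab : Subgroup ((U ⊗[F] W) ≃ₗ[F] (U ⊗[F] W)) where
  carrier := {g | ∃ (α : U ≃ₗ[F] U) (β : W ≃ₗ[F] W), g = TensorProduct.congr α β}
  one_mem' := ⟨1, 1, TensorProduct.congr_refl_refl.symm⟩
  mul_mem' := by
    rintro _ _ ⟨a, b, rfl⟩ ⟨c, d, rfl⟩
    exact ⟨a * c, b * d, (TensorProduct.congr_mul _ _ _ _).symm⟩
  inv_mem' := by
    rintro _ ⟨a, b, rfl⟩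
    exact ⟨a⁻¹, b⁻¹, rfl⟩

theorem congr_mem (α : U ≃ₗ[F] U) (β : W ≃ₗ[F] W) : TensorProduct.congr α β ∈ tenStab F U W :=
  ⟨α, β, rfl⟩

theorem mem_tenStab {g : (U ⊗[F] W) ≃ₗ[F] (U ⊗[F] W)} : g ∈ tenStab F U W ↔
    ∃ (α : U ≃ₗ[F] U) (β : W ≃ₗ[F] W), ∀ u w, g (u ⊗ₜ w) = α u ⊗ₜ β w :=
  ⟨fun ⟨a, b, h⟩ => ⟨a, b, fun u w => by simp [h]⟩, fun ⟨a, b, h⟩ => ⟨a, b,
    LinearEquiv.toLinearMap_injective (TensorProduct.ext' fun u w => by simp [h])⟩⟩

theorem congr_apply (α : U ≃ₗ[F] U) (β : W ≃ₗ[F] W) (x : U ⊗[F] W) :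
    TensorProduct.congr α β x = TensorProduct.map (α : U →ₗ[F] U) (β : W →ₗ[F] W) x := rfl

theorem congr_inv (α : U ≃ₗ[F] U) (β : W ≃ₗ[F] W) :
    (TensorProduct.congr α β)⁻¹ = TensorProduct.congr α⁻¹ β⁻¹ := rfl

theorem congr_mem_line (α : U ≃ₗ[F] U) (β : W ≃ₗ[F] W) {w : W} {x : U ⊗[F] W} :
    x ∈ line F U w ↔ TensorProduct.congr α β x ∈ line F U (β w) := by
  have key : ∀ (α : U ≃ₗ[F] U) (β : W ≃ₗ[F] W) {w : W} {x : U ⊗[F] W}, x ∈ line F U w →
      TensorProduct.congr α β x ∈ line F U (β w) := by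
    rintro α β w _ ⟨u, rfl⟩
    exact ⟨α u, by simp⟩
  refine ⟨key α β, fun h => ?_⟩
  have := key α⁻¹ β⁻¹ h
  rwa [← congr_inv, inv_apply_apply, inv_apply_apply] at this

theorem congr_one_tr {β : W ≃ₗ[F] W} {B : End F W} (h : ∀ w, β w = w + B w) (x : U ⊗[F] W) :
    TensorProduct.congr (1 : U ≃ₗ[F] U) β x = x + TensorProduct.map 1 B x := by
  induction x with
  | zero => simp
  | tmul u w => simp [h, tmul_add]
  | add x y a b => simp only [map_add, a, b]; abel

theorem congr_tr_one {α : U ≃ₗ[F] U} {A : End F U} (h : ∀ u, α u = u + A u) (x : U ⊗[F] W) :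
    TensorProduct.congr α (1 : W ≃ₗ[F] W) x = x + TensorProduct.map A 1 x := by
  induction x with
  | zero => simp
  | tmul u w => simp [h, add_tmul]
  | add x y a b => simp only [map_add, a, b]; abel

variable (F U W) in
/-- `β ↦ 1 ⊗ β`. -/
noncomputable def rH : (W ≃ₗ[F] W) →* ((U ⊗[F] W) ≃ₗ[F] (U ⊗[F] W)) where
  toFun β := TensorProduct.congr 1 β
  map_one' := TensorProduct.congr_refl_refl
  map_mul' a b := by rw [← TensorProduct.congr_mul, mul_one]

variable (F U W) in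
/-- `α ↦ α ⊗ 1`. -/
noncomputable def lH : (U ≃ₗ[F] U) →* ((U ⊗[F] W) ≃ₗ[F] (U ⊗[F] W)) where
  toFun α := TensorProduct.congr α 1
  map_one' := TensorProduct.congr_refl_refl
  map_mul' a b := by rw [← TensorProduct.congr_mul, mul_one]

theorem smulRight_mul {φ ψ : Dual F W} {v w : W} :
    (φ.smulRight v : End F W) * ψ.smulRight w = φ w • ψ.smulRight v :=
  LinearMap.ext fun x => by simp [smul_smul, mul_comm]

variable [Finite F] [FiniteDimensional F U] [FiniteDimensional F W]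

theorem congr_one_mem_SLV {β : W ≃ₗ[F] W} (h : β ∈ SLV F W) :
    TensorProduct.congr (1 : U ≃ₗ[F] U) β ∈ SLV F (U ⊗[F] W) := by
  refine SLV_le_of_tr (X := (SLV F (U ⊗[F] W)).comap (rH F U W)) (fun w φ e => ?_) h
  refine ⟨LinearEquiv.transvection e, ?_, fun _ => rfl⟩
  obtain ⟨t, h1, h2⟩ := exists_sq_SLV (a := TensorProduct.map (1 : End F U) (φ.smulRight w))
    (by rw [← TensorProduct.map_mul, smulRight_mul, e]; simp)
  rw [Subgroup.mem_comap]
  convert h1
  exact LinearEquiv.ext fun x => (congr_one_tr (β := LinearEquiv.transvection e)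
    (B := φ.smulRight w) (fun _ => rfl) x).trans (h2 x).symm

theorem congr_mem_SLV_one {α : U ≃ₗ[F] U} (h : α ∈ SLV F U) :
    TensorProduct.congr α (1 : W ≃ₗ[F] W) ∈ SLV F (U ⊗[F] W) := by
  refine SLV_le_of_tr (X := (SLV F (U ⊗[F] W)).comap (lH F U W)) (fun w φ e => ?_) h
  refine ⟨LinearEquiv.transvection e, ?_, fun _ => rfl⟩
  obtain ⟨t, h1, h2⟩ := exists_sq_SLV (a := TensorProduct.map (φ.smulRight w) (1 : End F W))
    (by rw [← TensorProduct.map_mul, smulRight_mul, e]; simp)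
  rw [Subgroup.mem_comap]
  convert h1
  exact LinearEquiv.ext fun x => (congr_tr_one (α := LinearEquiv.transvection e)
    (A := φ.smulRight w) (fun _ => rfl) x).trans (h2 x).symm

end H13.KL
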