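/-
The `ϖ`-local setting for Suzuki's prime graph theorem: a simple group `G` with a set `w` of odd
primes such that centralizers of `w`-elements are `w`-groups and normalizers of nontrivial
`w`-subgroups have odd order.  `Loc` replaces "proper subgroup" and `Mx` "maximal subgroup" in the
local analysis of Bender-Glauberman.
-/
import Cfsg.Agent.H20.FT

set_option autoImplicit false
set_option linter.unusedSectionVars false

namespace H13.V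
open Cfsg Subgroup H19

/-- the standing hypothesis -/
class VS (G : Type*) [Group G] where
  w : Set ℕ
  simple : IsSimpleGroup G
  nonab : ¬ IsMulCommutative G
  cent : ∀ x : G, (orderOf x).Prime → orderOf x ∈ w → PiG w C[x]
  odd : ∀ X : Subgroup G, X ≠ ⊥ → PiG w X → Odd #N(X)
  ex : ∃ p ∈ w, p.Prime ∧ p ∣ Nat.card G

/-- the set of primes of the standing hypothesis -/
abbrev vw (G : Type*) [Group G] [h : VS G] : Set ℕ := h.w

section defs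
variable {G : Type*} [Group G] [VS G]

/-- `H` normalizes a nontrivial `w`-subgroup -/
def Loc (H : Subgroup G) : Prop := ∃ X : Subgroup G, X ≠ ⊥ ∧ PiG (vw G) X ∧ H ≤ N(X)

/-- maximal `w`-local subgroups -/
def Mx (M : Subgroup G) : Prop := Loc M ∧ ∀ H : Subgroup G, Loc H → M ≤ H → H = M

/-- `𝓜(X) = {M}` -/
structure UniqMax (X M : Subgroup G) : Prop where
  max : Mx M
  le : X ≤ M
  uniq : ∀ L : Subgroup G, Mx L → X ≤ L → L = M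

/-- `X ∈ 𝓤` -/
abbrev Uniq (X : Subgroup G) : Prop := ∃! M : Subgroup G, Mx M ∧ X ≤ M

/-- `σ(M)` -/
def sigma (M : Subgroup G) : Set ℕ := {p | p ∈ Cfsg.sigma M ∧ p ∈ vw G}
/-- `β(G)` -/
def betaG (G : Type*) [Group G] [VS G] : Set ℕ := {p | IsIdealPrime p G ∧ p ∈ vw G}
/-- `β(M)` -/
def beta (M : Subgroup G) : Set ℕ := {p | p ∈ alpha M ∧ p ∈ betaG G}
/-- `τ₁(M)` -/
def tau1 (M : Subgroup G) : Set ℕ := {p | p ∉ sigma M ∧ prk p M = 1 ∧ ¬ p ∣ #(⁅M, M⁆)}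
/-- `τ₂(M)` -/
def tau2 (M : Subgroup G) : Set ℕ := {p | p ∉ sigma M ∧ prk p M = 2}
/-- `τ₃(M)` -/
def tau3 (M : Subgroup G) : Set ℕ := {p | p ∉ sigma M ∧ prk p M = 1 ∧ p ∣ #(⁅M, M⁆)}
/-- `M_σ` -/
abbrev Ms (M : Subgroup G) : Subgroup G := Oc (sigma M) M
/-- `M_β` -/
abbrev Mb (M : Subgroup G) : Subgroup G := Oc (beta M) M

/-- `E = E₁E₂E₃` is a complement to `M_σ` in `M` with its Hall `τᵢ(M)`-subgroups (BG §12) -/
structure SigmaCompl (M E E1 E2 E3 : Subgroup G) : Prop where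
  hall : Hall (sigma M)ᶜ E M
  hall1 : Hall (tau1 M) E1 E
  hall2 : Hall (tau2 M) E2 E
  hall3 : Hall (tau3 M) E3 E
  grp : ∀ x ∈ E2 ⊔ E1, ∃ a ∈ E2, ∃ b ∈ E1, x = a * b

/-- BG §11: `M` is exceptional with respect to `p`, `A₀`, `A` -/
structure Exceptional (p : ℕ) (M A0 A : Subgroup G) : Prop where
  not_sigma : p ∉ sigma M
  elA : El p 2 A M
  elA0 : El p 1 A0 A
  norm : N(A0) ≤ M

/-- κ(M) in the form of BG §14 (equal to `Cfsg.kappa M` for a maximal `M`) -/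
def kap (M : Subgroup G) : Set ℕ :=
  {p | p ∈ tau1 M ∪ tau3 M ∧ ∃ P, El p 1 P M ∧ Ms M ⊓ C(P) ≠ ⊥}

/-- `K` is a Hall `κ(M)`-subgroup and `U` a `K`-invariant Hall `(σ(M) ∪ κ(M))'`-subgroup of `M` -/
structure KappaCompl (M U K : Subgroup G) : Prop where
  hallU : Hall (sigma M ∪ kap M)ᶜ U M
  hallK : Hall (kap M) K M
  norm : K ≤ N(U)

/-- `M ∈ 𝓜_F` -/
def TypeF (M : Subgroup G) : Prop := Mx M ∧ kap M = ∅
/-- `M ∈ 𝓜_P` -/
def TypeP (M : Subgroup G) : Prop := Mx M ∧ (kap M).Nonempty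
/-- `M ∈ 𝓜_{P₁}` -/
def TypeP1 (M : Subgroup G) : Prop := TypeP M ∧ PiG (sigma M ∪ kap M) M
/-- `M ∈ 𝓜_{P₂}` -/
def TypeP2 (M : Subgroup G) : Prop := TypeP M ∧ ¬ PiG (sigma M ∪ kap M) M

/-- `𝓜_σ(x)`: the maximal subgroups `M` with `x ∈ M_σ` -/
def sigMax (x : G) : Set (Subgroup G) := {M | Mx M ∧ x ∈ Ms M}
/-- `ℓ_σ(x) = 1`, in the form "`x ≠ 1` is a `σ(M)`-element for some maximal `M`" -/
def Ell1 (x : G) : Prop := x ≠ 1 ∧ ∃ M : Subgroup G, Mx M ∧ PiE (sigma M) x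

open Classical in
/-- `N(x)` of BG 14.4: a maximal subgroup containing `C_G(x)` (junk `⊤` if there is none) -/
noncomputable def sigN (x : G) : Subgroup G :=
  if h : ∃ L : Subgroup G, Mx L ∧ C[x] ≤ L then h.choose else ⊤

open Classical in
/-- `R(x)` of BG 14.4 -/
noncomputable def sigR (x : G) : Subgroup G :=
  if 1 < (sigMax x).ncard then Ms (sigN x) ⊓ C[x] else ⊥

/-- `M̃ = ⋃ x R(x)` over `x ∈ M_σ^#` -/
def sigSupp (M : Subgroup G) : Set G := {g | ∃ x ∈ Ms M, x ≠ 1 ∧ ∃ r ∈ sigR x, g = x * r}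

end defs

variable {G : Type*} [Group G] [Finite G] [VS G] {π ρ : Set ℕ} {p q n : ℕ}
  {A B E H K L M P Q R S U V X Y : Subgroup G}

/-! ### local subgroups -/

theorem mFT_simple : IsSimpleGroup G := VS.simple
theorem mFT_even : Even (Nat.card G) :=
  haveI := mFT_simple (G := G); H20.even_card_of_simple G VS.nonab
theorem loc_mono (hle : H ≤ K) (h : Loc K) : Loc H :=
  let ⟨X, h1, h2, h3⟩ := h; ⟨X, h1, h2, hle.trans h3⟩
theorem Loc.mono (h : Loc K) (hle : H ≤ K) : Loc H := loc_mono hle h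
theorem Loc.infl (h : Loc H) (K : Subgroup G) : Loc (H ⊓ K) := h.mono inf_le_left
theorem Loc.infr (h : Loc K) (H : Subgroup G) : Loc (H ⊓ K) := h.mono inf_le_right
theorem Loc.odd (h : Loc H) : Odd #H :=
  let ⟨X, h1, h2, h3⟩ := h; odd_mono (VS.odd X h1 h2) h3
theorem Loc.sol (h : Loc H) : Sol H := H20.sol_of_odd h.odd
theorem mFT_odd (h : Loc H) : Odd #H := h.odd
theorem mFT_sol (h : Loc H) : Sol H := h.sol
theorem mFT_quo_odd (K : Subgroup G) (h : Loc H) : Odd #(quo K H) := odd_quo h.odd K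
theorem Loc.ne_top (h : Loc H) : H ≠ ⊤ := fun e => by
  have := h.odd
  rw [e, card_top] at this
  exact Nat.not_even_iff_odd.2 this mFT_even
theorem Loc.J (h : Loc H) (g : G) : Loc (cj g H) :=
  let ⟨X, h1, h2, h3⟩ := h
  ⟨cj g X, by simpa using h1, h2.J g, by rw [← cj_norm]; exact cj_mono g h3⟩
theorem loc_norm (h1 : X ≠ ⊥) (h2 : PiG (vw G) X) : Loc N(X) := ⟨X, h1, h2, le_rfl⟩
theorem loc_cent (h1 : X ≠ ⊥) (h2 : PiG (vw G) X) : Loc C(X) :=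
  (loc_norm h1 h2).mono (cent_le_norm X)
theorem loc_bot : Loc (⊥ : Subgroup G) := by
  obtain ⟨p, h1, h2, h3⟩ := VS.ex (G := G)
  obtain ⟨X, hX⟩ := exists_el1 (H := (⊤ : Subgroup G)) h2 (by rwa [card_top])
  exact ⟨X, hX.ne_bot, hX.pi h1, bot_le⟩
theorem loc_of_w (h : PiG (vw G) H) : Loc H := by
  by_cases e : H = ⊥
  · exact e ▸ loc_bot
  · exact (loc_norm e h).mono le_normalizer
theorem mFT_nonsol : ¬ Sol (⊤ : Subgroup G) := fun h => by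
  haveI := mFT_simple (G := G)
  have h1 := sol_der_lt h top_ne_bot
  rcases IsSimpleGroup.eq_bot_or_eq_top_of_normal ⁅(⊤ : Subgroup G), (⊤ : Subgroup G)⁆ inferInstance with e | e
  · refine VS.nonab (G := G) ⟨⟨fun a b => ?_⟩⟩
    exact mul_comm_of_comm (comm_iff_der.2 e) (mem_top a) (mem_top b)
  · exact h1.ne e
theorem sol_ne_top (h : Sol H) : H ≠ ⊤ := fun e => mFT_nonsol (e ▸ h)
theorem mFT_norm_ne_top (h1 : H ≠ ⊥) (h2 : H ≠ ⊤) : N(H) ≠ ⊤ := fun e => by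
  haveI := mFT_simple (G := G)
  exact (IsSimpleGroup.eq_bot_or_eq_top_of_normal H (normalizer_eq_top_iff.1 e)).elim h1 h2
theorem cent1_w {x : G} (h : PiE (vw G) x) (h1 : x ≠ 1) : PiG (vw G) C[x] := by
  obtain ⟨p, X, hX⟩ := exists_el1_zpowers h1
  obtain ⟨y, -, h2, rfl⟩ := hX.exists_gen
  have hp : p ∈ vw G := hX.mem_pi (piG_zpowers.2 h)
  exact (VS.cent y (h2 ▸ hX.prime) (h2 ▸ hp)).of_le
    (cent1_le_cent1_of_mem_zpowers (hX.le (mem_zpowers y)))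
theorem loc_cent1 {x : G} (h : PiE (vw G) x) (h1 : x ≠ 1) : Loc C[x] := loc_of_w (cent1_w h h1)
theorem cent_w (h1 : X ≠ ⊥) (h2 : PiG (vw G) X) : PiG (vw G) C(X) :=
  let ⟨_, hx, e⟩ := exists_ne_one h1; (cent1_w (h2.elt hx) e).of_le (cent_le_cent1 hx)
theorem cent_w' (hp : p ∈ vw G) (hp' : p.Prime) (h : p ∣ #X) : PiG (vw G) C(X) :=
  let ⟨_, hY⟩ := exists_el1 hp' h; (cent_w hY.ne_bot (hY.pi hp)).of_le (cent_mono hY.le)
theorem w_of_cent (h1 : X ≠ ⊥) (h2 : PiG (vw G) X) (h : K ≤ C(X)) : PiG (vw G) K :=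
  (cent_w h1 h2).of_le h
/-- a group centralizing a nontrivial element of a `w`-group is a `w`-group -/
theorem w_of_cent_ne_bot (h2 : PiG (vw G) X) (h : X ⊓ C(K) ≠ ⊥) : PiG (vw G) K :=
  w_of_cent h (h2.infl _) (cents_symm inf_le_right)
theorem wE_of_cent1_ne_bot {x : G} (h2 : PiG (vw G) X) (h : X ⊓ C[x] ≠ ⊥) : PiE (vw G) x :=
  piG_zpowers.1 (w_of_cent_ne_bot h2 (by rwa [cent_zpowers]))
theorem w'_cent_eq_bot (h2 : PiG (vw G) X) (hp : p ∉ vw G) (hK : PG p K) (h1 : K ≠ ⊥) :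
    X ⊓ C(K) = ⊥ := by_contra fun e => hp (hK.mem_of_ne_bot h1 (w_of_cent_ne_bot h2 e))
theorem w'_semireg (h2 : PiG (vw G) X) (hK : PiG (vw G)ᶜ K) : Semireg X K := fun _ hx e =>
  by_contra fun h => e ((wE_of_cent1_ne_bot h2 h).e_eq_one (hK.elt hx))
theorem vw_odd (hp : p ∈ vw G) (hp' : p.Prime) : Odd p := by
  refine hp'.odd_of_ne_two ?_
  rintro rfl
  obtain ⟨X, hX⟩ := exists_el1 (H := (⊤ : Subgroup G)) hp' (by rw [card_top]; exact mFT_even.two_dvd)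
  have := (loc_of_w (hX.pi hp)).odd
  rw [hX.card1] at this
  exact absurd this (by decide)
theorem XP.vloc (h : PG p H) (hp : p ∈ vw G) : Loc H := loc_of_w (h.sing hp)
theorem XP.vnorm (h : PG p H) (hp : p ∈ vw G) (h1 : H ≠ ⊥) : Loc N(H) :=
  loc_norm h1 (h.sing hp)
theorem XP.vcent (h : PG p H) (hp : p ∈ vw G) (h1 : H ≠ ⊥) : Loc C(H) :=
  loc_cent h1 (h.sing hp)
theorem XE.vnorm (h : El p (n + 1) A H) (hp : p ∈ vw G) : Loc N(A) :=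
  XP.vnorm h.pg hp h.ne_bot
theorem XE.vcent (h : El p (n + 1) A H) (hp : p ∈ vw G) : Loc C(A) :=
  XP.vcent h.pg hp h.ne_bot
theorem XE.vcentw (h : El p (n + 1) A H) (hp : p ∈ vw G) : PiG (vw G) C(A) :=
  cent_w h.ne_bot (h.pi hp)
/-- a noncyclic elementary abelian subgroup of a local subgroup is a `w`-group -/
theorem Loc.el2 (h : Loc H) (hA : El p 2 A H) : p ∈ vw G := by
  obtain ⟨X, h1, h2, h3⟩ := h
  by_contra hp
  obtain ⟨Y, hY, e⟩ := hA.exists_cent_ne_bot (hA.le.trans h3) (h2.compl_sing hp) h1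
  exact e (w'_cent_eq_bot h2 hp hY.pg hY.ne_bot)
theorem Loc.w_of_prk (h : Loc H) (hr : 2 ≤ prk p H) : p ∈ vw G :=
  let ⟨_, hA⟩ := exists_el_succ hr; h.el2 hA
theorem Loc.prk_le (h : Loc H) (hp : p ∉ vw G) : prk p H ≤ 1 :=
  not_lt.1 fun e => hp (h.w_of_prk e)
theorem Loc.w_of_ncyc (h : Loc H) (hP : PG p P) (hle : P ≤ H) (hc : ¬ Cyc P) : p ∈ vw G :=
  (h.mono hle).w_of_prk (hP.two_le_prk (h.mono hle).odd hc)
theorem Loc.cyc_of_w' (h : Loc H) (hP : PG p P) (hle : P ≤ H) (hp : p ∉ vw G) : Cyc P :=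
  by_contra fun e => hp (h.w_of_ncyc hP hle e)
/-- a `p'`-group normalized by a noncyclic elementary abelian `w`-group is a `w`-group -/
theorem w_of_el2 (hA : El p 2 A H) (hp : p ∈ vw G) (hn : A ≤ N(K)) (hK : PiG {p}ᶜ K) :
    PiG (vw G) K := by
  intro q hq hd
  by_contra hw
  obtain ⟨Q, hQ, hQA⟩ := inv_syl_exists q hn (hK.coprime' hA.pg) (Or.inl hA.pg.sol)
  obtain ⟨Y, hY, e⟩ := hA.exists_cent_ne_bot hQA (hK.of_le hQ.le) (hQ.sne_bot hq hd)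
  refine hw (((hQ.pi.infl _).mem_of_ne_bot e) (w_of_cent hY.ne_bot (hY.pi hp) inf_le_right))
theorem w_of_ncyc_ab (hab : Ab A) (hA : PG p A) (hc : ¬ Cyc A) (hp : p ∈ vw G) (hn : A ≤ N(K))
    (hK : PiG {p}ᶜ K) : PiG (vw G) K :=
  let ⟨_, hB⟩ := hA.exists_el2 (XP.vloc hA hp).odd hc; w_of_el2 hB hp (hB.le.trans hn) hK
theorem mFT_prime_odd (h : Loc H) (hd : p ∣ #H) : Odd p := h.odd.of_dvd_nat hd
theorem mFT_two_lt (h : Loc H) (hp : p.Prime) (hd : p ∣ #H) : 2 < p :=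
  lt_of_le_of_ne hp.two_le (odd_prime_ne_two h.odd hd).symm
theorem mFT_cyc_of_prk (hL : Loc P) (hP : PG p P) (h : prk p P ≤ 1) : Cyc P :=
  hP.cyc_of_prk hL.odd h
theorem mFT_cyc_of_prk' (hL : Loc M) (hP : PG p P) (hle : P ≤ M) (h : prk p M ≤ 1) : Cyc P :=
  mFT_cyc_of_prk (hL.mono hle) hP ((prk_mono p hle).trans h)

/-! ### maximal local subgroups -/

theorem mmax_exists (h : Loc H) : ∃ M, Mx M ∧ H ≤ M :=
  let ⟨M, h1, h2, h3⟩ := H1.exists_maximal_ge (P := Loc) h; ⟨M, ⟨h2, h3⟩, h1⟩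
theorem mmax_max (hM : Mx M) (hle : M ≤ H) (h : Loc H) : H = M := hM.2 H h hle
theorem eq_mmax (hM : Mx M) (hL : Mx L) (hle : M ≤ L) : M = L := (mmax_max hM hle hL.1).symm
theorem coatom_J (hM : Mx M) (g : G) : Mx (cj g M) :=
  ⟨hM.1.J g, fun H h1 h2 => (cj_eq_iff.2 (hM.2 _ (h1.J g⁻¹) (cj_le_iff.1 h2)).symm).symm⟩
@[simp] theorem mx_cj {g : G} : Mx (cj g M) ↔ Mx M :=
  ⟨fun h => by simpa using coatom_J h g⁻¹, fun h => coatom_J h g⟩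
theorem XC.vmx (h : Cjg M L) (hM : Mx M) : Mx L := let ⟨g, e⟩ := h; e ▸ coatom_J hM g
theorem Mx.loc (hM : Mx M) (h : H ≤ M) : Loc H := hM.1.mono h
theorem Mx.odd (hM : Mx M) (h : H ≤ M) : Odd #H := (hM.loc h).odd
theorem Mx.ne_top (hM : Mx M) : M ≠ ⊤ := hM.1.ne_top
theorem mmax_sol (hM : Mx M) : Sol M := hM.1.sol
theorem mmax_sub_sol (hM : Mx M) (h : H ≤ M) : Sol H := sol_mono (mmax_sol hM) h
theorem mmax_norm (hM : Mx M) (h1 : X ≠ ⊥) (h2 : PiG (vw G) X) (h : M ≤ N(X)) : N(X) = M :=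
  mmax_max hM h (loc_norm h1 h2)
theorem Fit_w (hM : Mx M) : PiG (vw G) (Fit M) := by
  obtain ⟨X, h1, h2, h3⟩ := hM.1
  have e := mmax_norm hM h1 h2 h3
  have hX : X ⊴ M := ⟨e ▸ le_normalizer, h3⟩
  have h4 : Fit X ≠ ⊥ := Fit_ne_bot (mmax_sub_sol hM hX.le) h1
  have h5 : Oc (vw G)ᶜ (Fit M) = ⊥ :=
    (w_of_cent h4 (h2.of_le (Fit_le X)) (cents_symm (nil_cents_pi (Fit_nil M) (Fit_le_Fit hX)
      (Oc_le _ _) (h2.of_le (Fit_le X)) (Oc_pi _ _)))).eq_bot (Oc_pi _ _)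
  have h6 := (nil_dprod (Fit_nil M) (vw G)).sup
  rw [h5, sup_bot_eq] at h6
  exact h6 ▸ Oc_pi _ _
theorem nil_normal_w (hM : Mx M) (h : X ⊴ M) (hn : Nil X) : PiG (vw G) X :=
  (Fit_w hM).of_le (le_Fit h hn)
theorem mmax_normal (hM : Mx M) (h : X ⊴ M) (h1 : X ≠ ⊥) : N(X) = M :=
  mmax_max hM h.norm ((loc_norm (Fit_ne_bot (mmax_sub_sol hM h.le) h1)
    (nil_normal_w hM h.Fit (Fit_nil X))).mono (norm_le_norm_Fit X))
theorem mmax_ne_bot (hM : Mx M) : M ≠ ⊥ := by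
  obtain ⟨X, h1, h2, h3⟩ := hM.1
  exact ne_bot_mono (mmax_norm hM h1 h2 h3 ▸ le_normalizer) h1
theorem UniqMax.isUniq (h : UniqMax X M) : Uniq X :=
  ⟨M, ⟨h.max, h.le⟩, fun L hL => h.uniq L hL.1 hL.2⟩
theorem uniq_iff : Uniq X ↔ ∃ M, UniqMax X M :=
  ⟨fun ⟨M, h1, h2⟩ => ⟨M, h1.1, h1.2, fun L h3 h4 => h2 L ⟨h3, h4⟩⟩, fun ⟨_, h⟩ => h.isUniq⟩
theorem uniqMax_of_uniq (h : Uniq X) (hM : Mx M) (hle : X ≤ M) : UniqMax X M :=
  ⟨hM, hle, fun _ h1 h2 => h.unique ⟨h1, h2⟩ ⟨hM, hle⟩⟩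
theorem eq_of_uniq (h : Uniq X) (hM : Mx M) (hL : Mx L) (h1 : X ≤ M) (h2 : X ≤ L) :
    M = L := h.unique ⟨hM, h1⟩ ⟨hL, h2⟩
theorem UniqMax.sub (h : UniqMax X M) (hle : X ≤ H) (hH : Loc H) : H ≤ M := by
  obtain ⟨L, hL, h1⟩ := mmax_exists hH
  rwa [← h.uniq L hL (hle.trans h1)]
theorem UniqMax.mono (h : UniqMax X M) (hle : X ≤ Y) (hY : Loc Y) : UniqMax Y M :=
  ⟨h.max, h.sub hle hY, fun L h1 h2 => h.uniq L h1 (hle.trans h2)⟩
theorem UniqMax.mono' (h : UniqMax X M) (hle : X ≤ Y) (hY : Y ≤ M) : UniqMax Y M :=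
  h.mono hle (loc_mono hY h.max.1)
theorem UniqMax.J (h : UniqMax X M) (g : G) : UniqMax (cj g X) (cj g M) :=
  ⟨coatom_J h.max g, cj_mono g h.le, fun _ h1 h2 =>
    (cj_eq_iff.2 (h.uniq _ (coatom_J h1 g⁻¹) (cj_le_iff.1 h2)).symm).symm⟩
theorem UniqMax.eq (h1 : UniqMax X M) (h2 : UniqMax X L) : M = L := h2.uniq M h1.max h1.le
theorem uniq_mono (h : Uniq X) (hle : X ≤ Y) (hY : Loc Y) : Uniq Y :=
  let ⟨_, h⟩ := uniq_iff.1 h; (h.mono hle hY).isUniq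
theorem uniq_J (h : Uniq X) (g : G) : Uniq (cj g X) := let ⟨_, h⟩ := uniq_iff.1 h; (h.J g).isUniq
theorem uniq_loc (h : Uniq X) : Loc X := let ⟨_, h⟩ := uniq_iff.1 h; loc_mono h.le h.max.1
theorem uniq_sub (h : Uniq X) (hM : Mx M) (h1 : X ≤ M) (hle : X ≤ H) (hH : Loc H) : H ≤ M :=
  (uniqMax_of_uniq h hM h1).sub hle hH
theorem exists_mmax_ne (hM : Mx M) (hX : Loc X) (h : ¬ UniqMax X M) :
    ∃ L, Mx L ∧ X ≤ L ∧ L ≠ M := by
  by_contra e; push Not at e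
  obtain ⟨L, h1, h2⟩ := mmax_exists hX
  exact h ⟨hM, e L h1 h2 ▸ h2, e⟩

theorem norm_mmax (hM : Mx M) : N(M) = M := mmax_normal hM (NormalIn.refl M) (mmax_ne_bot hM)
theorem mem_of_cj_eq (hM : Mx M) {g : G} (h : cj g M = M) : g ∈ M :=
  norm_mmax hM ▸ mem_norm_iff_cj.2 h
theorem cj_ne_of_not_mem (hM : Mx M) {g : G} (h : g ∉ M) : cj g M ≠ M :=
  fun e => h (mem_of_cj_eq hM e)
theorem exists_mmax : ∃ M : Subgroup G, Mx M :=
  (mmax_exists loc_bot).imp fun _ h => h.1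
theorem exists_not_mem (hM : Mx M) : ∃ g, g ∉ M := by
  by_contra e; push Not at e; exact hM.ne_top (eq_top_iff.2 fun g _ => e g)
theorem UniqMax.norm_le (h : UniqMax X M) : N(X) ≤ M := fun g hg =>
  mem_of_cj_eq h.max (h.uniq _ (coatom_J h.max g) (cj_of_mem_norm hg ▸ cj_mono g h.le))
theorem UniqMax.mem_of_cj_le (h : UniqMax X M) {g : G} (hg : cj g X ≤ M) : g ∈ M :=
  inv_mem_iff.1 (mem_of_cj_eq h.max (h.uniq _ (coatom_J h.max g⁻¹) (cj_le_iff.1 hg)))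
theorem UniqMax.mem_of_le_cj (h : UniqMax X M) {g : G} (hg : X ≤ cj g M) : g ∈ M :=
  mem_of_cj_eq h.max (h.uniq _ (coatom_J h.max g) hg)
theorem uniq_norm_le (h : Uniq X) (hM : Mx M) (hle : X ≤ M) : N(X) ≤ M :=
  (uniqMax_of_uniq h hM hle).norm_le
theorem UniqMax.ne_bot (h : UniqMax X M) : X ≠ ⊥ := by
  rintro rfl
  have := h.norm_le; rw [norm_bot] at this; exact h.max.ne_top (top_le_iff.1 this)
theorem uniq_ne_bot (h : Uniq X) : X ≠ ⊥ := let ⟨_, h⟩ := uniq_iff.1 h; h.ne_bot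
/-- `𝓜(C(X)) = {M}` forces `N(X) ≤ M` -/
theorem UniqMax.norm_le_of_cent (h : UniqMax C(X) M) : N(X) ≤ M :=
  (norm_le_norm_cent X).trans h.norm_le
theorem exists_mmax_norm (h1 : X ≠ ⊥) (h2 : PiG (vw G) X) : ∃ L, Mx L ∧ N(X) ≤ L :=
  mmax_exists (loc_norm h1 h2)
theorem ne_bot_of_norm_le (hM : Loc M) (h : N(X) ≤ M) : X ≠ ⊥ := by
  rintro rfl; rw [norm_bot] at h; exact hM.ne_top (top_le_iff.1 h)
theorem der_lt_mmax (hM : Mx M) : ⁅M, M⁆ < M := sol_der_lt (mmax_sol hM) (mmax_ne_bot hM)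
theorem Fit_mmax_ne_bot (hM : Mx M) : Fit M ≠ ⊥ := Fit_ne_bot (mmax_sol hM) (mmax_ne_bot hM)

/-! ### the prime sets -/

theorem mem_sigma : p ∈ sigma M ↔ p.Prime ∧ p ∣ #M ∧ p ∈ vw G ∧ ∃ P, Syl p P M ∧ N(P) ≤ M := by
  rw [sigma, Set.mem_setOf, H19.mem_sigma]; tauto
theorem sigma_prime (h : p ∈ sigma M) : p.Prime := h.1.1
theorem sigma_dvd (h : p ∈ sigma M) : p ∣ #M := h.1.2.1
theorem sigma_w (h : p ∈ sigma M) : p ∈ vw G := h.2
theorem sigma_sub_w : sigma M ⊆ vw G := fun _ h => h.2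
theorem XP.vsw {m : ℕ} (h : PiN (sigma M) m) : PiN (vw G) m := h.mono sigma_sub_w
theorem mem_sigma_of (hM : Loc M) (hw : p ∈ vw G) (hP : Syl p P M) (h : N(P) ≤ M) : p ∈ sigma M :=
  ⟨H19.mem_sigma_of hM.ne_top hP h, hw⟩
theorem norm_sigma_Sylow (hp : p ∈ sigma M) (hP : Syl p P M) : N(P) ≤ M :=
  H19.norm_sigma_Sylow hp.1 hP
theorem not_norm_sigma' (hM : Loc M) (hw : p ∈ vw G) (hp : p ∉ sigma M) (hP : Syl p P M) :
    ¬ N(P) ≤ M := fun h => hp (mem_sigma_of hM hw hP h)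
theorem sigma_Sylow_G (hp : p ∈ sigma M) (hP : Syl p P M) : Syl p P ⊤ := H19.sigma_Sylow_G hp.1 hP
theorem sigma_Sylow_neq1 (hp : p ∈ sigma M) (hP : Syl p P M) : P ≠ ⊥ :=
  H19.sigma_Sylow_neq1 hp.1 hP
theorem sigma_not_dvd_index (hp : p ∈ sigma M) : ¬ p ∣ M.relIndex ⊤ := H19.sigma_not_dvd_index hp.1
theorem XH.vsigma_top (h : Hall π H M) (hs : π ⊆ sigma M) : Hall π H ⊤ :=
  h.sigma_top fun _ e => (hs e).1
theorem alpha_w (hM : Loc M) (h : p ∈ alpha M) : p ∈ vw G := hM.w_of_prk (mem_alpha.1 h).le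
theorem mem_beta : p ∈ beta M ↔ p ∈ alpha M ∧ p ∈ betaG G := Iff.rfl
theorem beta_sub_alpha : beta M ⊆ alpha M := fun _ h => h.1
theorem beta_sub_betaG : beta M ⊆ betaG G := fun _ h => h.2
theorem beta_prime (h : p ∈ beta M) : p.Prime := h.1.1
theorem betaG_prime (h : p ∈ betaG G) : p.Prime := h.1.1
theorem betaG_w (h : p ∈ betaG G) : p ∈ vw G := h.2
theorem beta_w (h : p ∈ beta M) : p ∈ vw G := h.2.2
theorem mem_betaG (hw : p ∈ vw G) (hP : Syl p P ⊤) : p ∈ betaG G ↔ ¬ Narrow p P :=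
  (and_iff_left hw).trans (H19.mem_betaG hP)
theorem betaG_not_narrow (h : p ∈ betaG G) (hP : Syl p P ⊤) : ¬ Narrow p P :=
  (mem_betaG h.2 hP).1 h
theorem betaG_prk (h : p ∈ betaG G) : 2 < prk p (⊤ : Subgroup G) := H19.betaG_prk h.1
/-- `β(M) = σ(M) ∩ β(G)` -/
theorem beta_of_sigma (hs : p ∈ sigma M) (h : p ∈ betaG G) : p ∈ beta M :=
  ⟨(H19.beta_of_sigma hs.1 h.1).1, h⟩
theorem mem_tau1 : p ∈ tau1 M ↔ p ∉ sigma M ∧ prk p M = 1 ∧ ¬ p ∣ #(⁅M, M⁆) := Iff.rfl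
theorem mem_tau2 : p ∈ tau2 M ↔ p ∉ sigma M ∧ prk p M = 2 := Iff.rfl
theorem mem_tau3 : p ∈ tau3 M ↔ p ∉ sigma M ∧ prk p M = 1 ∧ p ∣ #(⁅M, M⁆) := Iff.rfl
theorem tau1_prime (h : p ∈ tau1 M) : p.Prime := prime_of_prk_pos (h.2.1 ▸ one_pos)
theorem tau2_prime (h : p ∈ tau2 M) : p.Prime := prime_of_prk_pos (h.2 ▸ two_pos)
theorem tau3_prime (h : p ∈ tau3 M) : p.Prime := prime_of_prk_pos (h.2.1 ▸ one_pos)
theorem tau1_sigma' (h : p ∈ tau1 M) : p ∉ sigma M := h.1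
theorem tau2_sigma' (h : p ∈ tau2 M) : p ∉ sigma M := h.1
theorem tau3_sigma' (h : p ∈ tau3 M) : p ∉ sigma M := h.1
theorem tau1_dvd (h : p ∈ tau1 M) : p ∣ #M := (prk_pos_iff.1 (h.2.1 ▸ one_pos)).2
theorem tau1_tau3' (h : p ∈ tau1 M) : p ∉ tau3 M := fun e => h.2.2 e.2.2
theorem tau2_w (hM : Loc M) (h : p ∈ tau2 M) : p ∈ vw G := hM.w_of_prk h.2.ge
theorem tau1_prk (h : p ∈ tau1 M) : prk p M = 1 := (mem_tau1.1 h).2.1
theorem tau2_prk (h : p ∈ tau2 M) : prk p M = 2 := (mem_tau2.1 h).2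
theorem tau3_prk (h : p ∈ tau3 M) : prk p M = 1 := (mem_tau3.1 h).2.1
theorem tau2_dvd (h : p ∈ tau2 M) : p ∣ #M := (prk_pos_iff.1 (tau2_prk h ▸ two_pos)).2
theorem tau3_dvd (h : p ∈ tau3 M) : p ∣ #M := (prk_pos_iff.1 (tau3_prk h ▸ one_pos)).2
theorem tau1_tau2' (h : p ∈ tau1 M) : p ∉ tau2 M := fun e => by
  have := tau1_prk h; have := tau2_prk e; omega
theorem tau2_tau3' (h : p ∈ tau2 M) : p ∉ tau3 M := fun e => by
  have := tau3_prk e; have := tau2_prk h; omega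
theorem tau2_tau1' (h : p ∈ tau2 M) : p ∉ tau1 M := fun e => tau1_tau2' e h
theorem tau3_tau1' (h : p ∈ tau3 M) : p ∉ tau1 M := fun e => tau1_tau3' e h
theorem tau3_tau2' (h : p ∈ tau3 M) : p ∉ tau2 M := fun e => tau2_tau3' e h
theorem mem_tau13 : p ∈ tau1 M ∪ tau3 M ↔ p ∉ sigma M ∧ prk p M = 1 := by
  rw [Set.mem_union, mem_tau1, mem_tau3]; tauto
theorem tau13_sigma' (h : p ∈ tau1 M ∪ tau3 M) : p ∉ sigma M := (mem_tau13.1 h).1
theorem tau13_prk (h : p ∈ tau1 M ∪ tau3 M) : prk p M = 1 := (mem_tau13.1 h).2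
theorem tau13_prime (h : p ∈ tau1 M ∪ tau3 M) : p.Prime := h.elim tau1_prime tau3_prime
theorem tau13_tau2' (h : p ∈ tau1 M ∪ tau3 M) : p ∉ tau2 M := h.elim tau1_tau2' tau3_tau2'
theorem kap_tau13 (h : p ∈ kap M) : p ∈ tau1 M ∪ tau3 M := h.1
theorem kap_sigma' (h : p ∈ kap M) : p ∉ sigma M := tau13_sigma' h.1
theorem kap_prime (h : p ∈ kap M) : p.Prime := tau13_prime h.1
theorem kap_prk (h : p ∈ kap M) : prk p M = 1 := tau13_prk h.1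
theorem kap_dvd (h : p ∈ kap M) : p ∣ #M := h.1.elim tau1_dvd tau3_dvd
theorem kap_tau2' (h : p ∈ kap M) : p ∉ tau2 M := tau13_tau2' h.1

theorem sigma_cj_sub (g : G) (M : Subgroup G) : sigma M ⊆ sigma (cj g M) := fun p hp => by
  obtain ⟨h1, h2, hw, P, h3, h4⟩ := mem_sigma.1 hp
  exact mem_sigma.2 ⟨h1, by rwa [card_cj], hw, cj g P, h3.J g, by rw [← cj_norm]; exact cj_mono g h4⟩
@[simp] theorem sigma_cj (g : G) (M : Subgroup G) : sigma (cj g M) = sigma M :=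
  Set.Subset.antisymm (by simpa using sigma_cj_sub g⁻¹ (cj g M)) (sigma_cj_sub g M)
@[simp] theorem beta_cj (g : G) (M : Subgroup G) : beta (cj g M) = beta M := by
  ext p; simp [mem_beta]
@[simp] theorem tau1_cj (g : G) (M : Subgroup G) : tau1 (cj g M) = tau1 M := by
  ext p; rw [mem_tau1, mem_tau1, ← cj_comm]; simp
@[simp] theorem tau2_cj (g : G) (M : Subgroup G) : tau2 (cj g M) = tau2 M := by
  ext p; simp [mem_tau2]
@[simp] theorem tau3_cj (g : G) (M : Subgroup G) : tau3 (cj g M) = tau3 M := by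
  ext p; rw [mem_tau3, mem_tau3, ← cj_comm]; simp
theorem Ms_cj (g : G) (M : Subgroup G) : Ms (cj g M) = cj g (Ms M) := by rw [cj_Oc, Ms, sigma_cj]
theorem Mb_cj (g : G) (M : Subgroup G) : Mb (cj g M) = cj g (Mb M) := by rw [cj_Oc, Mb, beta_cj]
theorem kap_cj_sub (g : G) (M : Subgroup G) : kap M ⊆ kap (cj g M) := fun p ⟨h1, P, h2, h3⟩ =>
  ⟨by simpa using h1, cj g P, h2.J g, by rw [Ms_cj, ← cj_cent, ← cj_inf]; simpa using h3⟩
@[simp] theorem kap_cj (g : G) (M : Subgroup G) : kap (cj g M) = kap M :=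
  Set.Subset.antisymm (by simpa using kap_cj_sub g⁻¹ (cj g M)) (kap_cj_sub g M)
theorem XC.vsigma_eq (h : Cjg M L) : sigma L = sigma M := let ⟨g, e⟩ := h; e ▸ sigma_cj g M
theorem XC.vkap_eq (h : Cjg M L) : kap L = kap M := let ⟨g, e⟩ := h; e ▸ kap_cj g M
theorem not_cjg_of_sigma (h1 : p ∈ sigma M) (h2 : p ∉ sigma L) : ¬ Cjg M L :=
  fun e => h2 (XC.vsigma_eq e ▸ h1)
theorem TypeF.J (h : TypeF M) (g : G) : TypeF (cj g M) := ⟨coatom_J h.1 g, by simpa using h.2⟩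
theorem TypeP.J (h : TypeP M) (g : G) : TypeP (cj g M) := ⟨coatom_J h.1 g, by simpa using h.2⟩
theorem TypeP1.J (h : TypeP1 M) (g : G) : TypeP1 (cj g M) := ⟨h.1.J g, by simpa using h.2⟩
theorem TypeP2.J (h : TypeP2 M) (g : G) : TypeP2 (cj g M) := ⟨h.1.J g, by simpa using h.2⟩
theorem typeF_or_typeP (hM : Mx M) : TypeF M ∨ TypeP M :=
  (Set.eq_empty_or_nonempty (kap M)).imp (fun h => ⟨hM, h⟩) fun h => ⟨hM, h⟩
theorem TypeP.cases (h : TypeP M) : TypeP1 M ∨ TypeP2 M :=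
  (em _).imp (fun e => ⟨h, e⟩) fun e => ⟨h, e⟩
theorem TypeF.not_P (h : TypeF M) : ¬ TypeP M := fun e => e.2.ne_empty h.2
theorem TypeP1.not_P2 (h : TypeP1 M) : ¬ TypeP2 M := fun e => e.2 h.2
theorem typeP_iff (hM : Mx M) (hK : Hall (kap M) K M) : TypeP M ↔ K ≠ ⊥ :=
  ⟨fun ⟨_, _, hp⟩ => hK.ne_bot (kap_prime hp) hp (kap_dvd hp), fun h =>
    let ⟨p, h1, h2⟩ := exists_prime_dvd_card h; ⟨hM, p, hK.pi p h1 h2⟩⟩
theorem typeF_iff (hM : Mx M) (hK : Hall (kap M) K M) : TypeF M ↔ K = ⊥ :=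
  ⟨fun h => by_contra fun e => h.not_P ((typeP_iff hM hK).2 e),
    fun h => (typeF_or_typeP hM).resolve_right fun e => (typeP_iff hM hK).1 e h⟩
theorem KappaCompl.eq_bot_iff (h : KappaCompl M U K) : U = ⊥ ↔ PiG (sigma M ∪ kap M) M := by
  rw [h.hallU.eq_bot_iff, compl_compl]
theorem Ms_le (M : Subgroup G) : Ms M ≤ M := Oc_le _ _
theorem Ms_norm (M : Subgroup G) : M ≤ N(Ms M) := Oc_norm _ _
theorem Ms_normal (M : Subgroup G) : Ms M ⊴ M := Oc_normal _ _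
theorem Ms_pi (M : Subgroup G) : PiG (sigma M) (Ms M) := Oc_pi _ _
theorem Mbeta_sub_Malpha (M : Subgroup G) : Mb M ≤ Ma M := Oc_mono beta_sub_alpha M
theorem cop_Ms (h : PiG (sigma M)ᶜ K) : (#(Ms M)).Coprime #K := (Ms_pi M).coprime h
theorem Ms_inf_eq_bot (h : PiG (sigma M)ᶜ K) : Ms M ⊓ K = ⊥ := (Ms_pi M).inf_eq_bot h
theorem mem_sigMax_cj {g x : G} : cj g M ∈ sigMax (g * x * g⁻¹) ↔ M ∈ sigMax x :=
  and_congr mx_cj (by rw [Ms_cj, conj_mem_cj])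

theorem Ms_w (M : Subgroup G) : PiG (vw G) (Ms M) := XP.vsw (Ms_pi M)
theorem Ma_w (hM : Loc M) : PiG (vw G) (Ma M) := (Oc_pi _ _).mono fun _ h => alpha_w hM h
theorem Mb_w (M : Subgroup G) : PiG (vw G) (Mb M) := (Oc_pi _ _).mono fun _ h => beta_w h
theorem kap_w (h : p ∈ kap M) : p ∈ vw G :=
  let ⟨_, _, h1, h2⟩ := h; (h1.self.mem_pi (w_of_cent_ne_bot (Ms_w M) h2))
theorem kap_sub_w : kap M ⊆ vw G := fun _ => kap_w
theorem Ms_semireg_w' (h : PiG (vw G)ᶜ K) : Semireg (Ms M) K := w'_semireg (Ms_w M) h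
theorem Ms_cent_w' (hp : p ∉ vw G) (hK : PG p K) (h1 : K ≠ ⊥) : Ms M ⊓ C(K) = ⊥ :=
  w'_cent_eq_bot (Ms_w M) hp hK h1
theorem exists_sigma (hw : p ∈ vw G) (hp : p.Prime) (hd : p ∣ Nat.card G) :
    ∃ M : Subgroup G, Mx M ∧ p ∈ sigma M := by
  obtain ⟨P, hP⟩ := exists_syl p (⊤ : Subgroup G)
  obtain ⟨M, hM, h⟩ := exists_mmax_norm (hP.sne_bot hp (by rwa [card_top])) (hP.pi.sing hw)
  exact ⟨M, hM, mem_sigma_of hM.1 hw (hP.of_le (le_normalizer.trans h) le_top) h⟩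
/-- BG 10.1(d) -/
theorem sigma_Sylow_trans (hp : p ∈ sigma M) (hP : Syl p P M) {g : G} (h : cj g P ≤ M) :
    g ∈ M := by
  obtain ⟨m, hm, e⟩ := (hP.of_card h (card_cj g P)).sconj hP
  have := norm_sigma_Sylow hp hP (mem_norm_iff_cj.2 (by rwa [cj_cj] at e))
  simpa using M.mul_mem (M.inv_mem hm) this

end H13.V

namespace H19.PiN
export H13.V.XP (vloc vnorm vcent vsw)
end H19.PiN

namespace H19.El
export H13.V.XE (vnorm vcent vcentw)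
end H19.El

namespace H19.Cjg
export H13.V.XC (vmx vsigma_eq vkap_eq)
end H19.Cjg

namespace H19.Hall
export H13.V.XH (vsigma_top)
end H19.Hall
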