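/-
Port of `H18/St07,H18/U7` to the `ϖ`-local setting.
-/
import Cfsg.Agent.H13.V0

set_option autoImplicit false
set_option linter.unusedSectionVars false

namespace H13.V
section
open H18
open Cfsg Subgroup H19

universe u

section defs
variable {G : Type*} [Group G] [VS G]

/-- BG hypothesis 7.1 -/
structure NormedConstrained (A : Subgroup G) : Prop where
  ne_bot : A ≠ ⊥
  locN : Loc N(A)
  nw : ∀ Y : Subgroup G, PiG (primes #A)ᶜ Y → A ≤ N(Y) → PiG (vw G) Y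
  sub : ∀ X Y : Subgroup G, A ≤ X → Loc X → Y ≤ X → PiG (primes #A)ᶜ Y → A ≤ N(Y) →
    Y ≤ Oc (primes #A)ᶜ X

end defs

/-- BG section 7 -/
class U7 (G : Type u) [Group G] [VS G] : Prop where
  /-- 7.1 -/
  normed_constrained_meet_trans {A Q1 Q2 H : Subgroup G} {q : ℕ} (hA : NormedConstrained A)
    (hq : ¬ q ∣ #A) (hAH : A ≤ H) (hH : Loc H) (h1 : MaxNormed {q} A Q1) (h2 : MaxNormed {q} A Q2)
    (hH1 : Q1 ⊓ H ≠ ⊥) (hH2 : Q2 ⊓ H ≠ ⊥) : ∃ k ∈ Oc (primes #A)ᶜ C(A), cj k Q1 = Q2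
  /-- 7.2 -/
  normed_constrained_rank3_trans {A : Subgroup G} {q : ℕ} (hA : NormedConstrained A)
    (hq : ¬ q ∣ #A) (hr : 2 < rk Z(A)) : TransOn (Oc (primes #A)ᶜ C(A)) A q
  /-- 7.3 -/
  normed_constrained_rank2_trans {A : Subgroup G} {q : ℕ} (hA : NormedConstrained A)
    (hq : ¬ q ∣ #A) (hqC : q ∣ #C(A)) (hqp : q.Prime) (hr : 1 < rk Z(A)) :
    TransOn (Oc (primes #A)ᶜ C(A)) A q
  /-- 7.4 -/
  normed_trans_superset {A P : Subgroup G} {q : ℕ} (hA : NormedConstrained A) (hq : ¬ q ∣ #A)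
    (hAP : A ≤ P) (hsn : (A.subgroupOf P).IsSubnormal) (hP : PiG (primes #A) P) (hP1 : Loc P)
    (htr : TransOn (Oc (primes #A)ᶜ C(A)) A q) :
    Oc (primes #A)ᶜ C(A) ⊓ C(P) = Oc (primes #A)ᶜ C(P) ∧
      TransOn (Oc (primes #A)ᶜ C(P)) P q ∧
      (∀ Q, MaxNormed {q} P Q → MaxNormed {q} A Q) ∧
      ∀ Q, MaxNormed {q} P Q → P ⊓ ⁅N(P), N(P)⁆ ≤ ⁅N(Q), N(Q)⁆ ∧
        Oc (primes #A)ᶜ C(P) ⊔ (N(P) ⊓ N(Q)) = N(P)
  /-- 7.4 for a nilpotent overgroup (every subgroup of it is subnormal) -/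
  normed_trans_superset_nil {A P : Subgroup G} {q : ℕ} (hA : NormedConstrained A) (hq : ¬ q ∣ #A)
    (hAP : A ≤ P) (hnil : Nil P) (hP : PiG (primes #A) P) (hP1 : Loc P)
    (htr : TransOn (Oc (primes #A)ᶜ C(A)) A q) :
    Oc (primes #A)ᶜ C(A) ⊓ C(P) = Oc (primes #A)ᶜ C(P) ∧
      TransOn (Oc (primes #A)ᶜ C(P)) P q ∧
      (∀ Q, MaxNormed {q} P Q → MaxNormed {q} A Q) ∧
      ∀ Q, MaxNormed {q} P Q → P ⊓ ⁅N(P), N(P)⁆ ≤ ⁅N(Q), N(Q)⁆ ∧
        Oc (primes #A)ᶜ C(P) ⊔ (N(P) ⊓ N(Q)) = N(P)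
  /-- 7.5(a) -/
  plength_1_normed_constrained {p : ℕ} {A : Subgroup G} (hp : p.Prime) (hw : p ∈ vw G)
    (h1 : ¬ Cyc A) (hA : MaxEl p A ⊤) (h : ∀ M : Subgroup G, Loc M → PLen1 p M) : NormedConstrained A
  /-- 7.5(b) -/
  SCN_normed_constrained {p : ℕ} {P A : Subgroup G} (hw : p ∈ vw G) (hP : Syl p P ⊤) (hA : SCN A P)
    (hr : 1 < rk A) : NormedConstrained A
  /-- 7.6 (Thompson's transitivity theorem) -/
  Thompson_transitivity {p q : ℕ} {A : Subgroup G} (hw : p ∈ vw G) (hA : SCN3p p A) (hq : q ≠ p) :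
    TransOn (Oc {p}ᶜ C(A)) A q

/-- BG section 8 -/
class U8 (G : Type u) [Group G] [VS G] : Prop where
  /-- 8.1(a) -/
  non_pcore_Fitting_Uniqueness {p : ℕ} {M A0 : Subgroup G} (hM : Mx M)
    (hF : ¬ PG p (Fit M)) (hA : MaxEl p A0 (Fit M)) (hr : 2 < prk p A0) : Uniq (Fit M ⊓ C(A0))
  /-- 8.1(b) -/
  SCN_Fitting_Uniqueness {p : ℕ} {M P : Subgroup G} (hM : Mx M) (hF : PG p (Fit M))
    (hP : Syl p P M) (hr : 2 < prk p (Fit M)) :
    Syl p P ⊤ ∧ ∀ A, SCN3 A P → A ≤ Fit M ∧ Uniq A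

/-- BG section 9 -/
class U9 (G : Type u) [Group G] [VS G] : Prop where
  /-- 9.1(b) -/
  noncyclic_normed_sub_Uniqueness {p : ℕ} {M B : Subgroup G} (hp : p.Prime) (hM : Mx M)
    (hBM : B ≤ M) (hB : Abelem p B) (hnc : ¬ Cyc B)
    (h : ∀ K : Subgroup G, PiG {p}ᶜ K → B ≤ N(K) → K ≤ M) : Uniq B
  /-- 9.1(a) -/
  noncyclic_cent1_sub_Uniqueness {p : ℕ} {M B : Subgroup G} (hp : p.Prime) (hM : Mx M)
    (hBM : B ≤ M) (hB : Abelem p B) (hnc : ¬ Cyc B) (h : ∀ b ∈ B, b ≠ 1 → C[b] ≤ M) : Uniq B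
  /-- 9.2 -/
  cent_uniq_Uniqueness {K L : Subgroup G} (hL : Uniq L) (hK : K ≤ C(L)) (hr : 1 < rk K) : Uniq K
  /-- 9.3 -/
  any_cent_rank3_Uniqueness {p : ℕ} {A B : Subgroup G} (hab : Ab A) (hA : PG p A) (hr : 2 < rk A)
    (hU : Uniq A) (hB : PG p B) (hnc : ¬ Cyc B) (hrB : 2 < prk p C(B)) : Uniq B
  /-- 9.4 -/
  any_rank3_Fitting_Uniqueness {p : ℕ} {M P : Subgroup G} (hM : Mx M)
    (hr : 2 < prk p (Fit M)) (hP : PG p P) (hrP : 2 < rk P) : Uniq P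
  /-- 9.5 -/
  SCN_3_Uniqueness {p : ℕ} {A : Subgroup G} (hw : p ∈ vw G) (hA : SCN3p p A) : Uniq A
  /-- 9.6, first assertion -/
  rank3_Uniqueness {K : Subgroup G} (hK : Loc K) (hr : 2 < rk K) : Uniq K
  /-- 9.6, second assertion -/
  cent_rank3_Uniqueness {K : Subgroup G} (hL : Loc K) (hK : 1 < rk K) (hr : 2 < rk C(K)) : Uniq K
  /-- 9.6, final observation -/
  nonmaxElem2_Uniqueness {p : ℕ} {A : Subgroup G} (hw : p ∈ vw G) (hA : El p 2 A ⊤) (hm : ¬ MaxEl p A ⊤) : Uniq A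

/-- BG sections 7-9 -/
class U79 (G : Type u) [Group G] [VS G] : Prop extends U7 G, U8 G, U9 G

end

section
open H18
open Cfsg Subgroup H19
open scoped commutatorElement

universe u

section general
variable {X : Type u} [Group X] [Finite X]

end general

variable {G : Type u} [Group G] [Finite G] [VS G]

theorem NormedConstrained.vloc {A : Subgroup G} (hA : NormedConstrained A) : Loc A :=
  hA.locN.mono le_normalizer

theorem NormedConstrained.le_K {A Y : Subgroup G} (hA : NormedConstrained A) (h : Y ≤ C(A))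
    (hY : PiG (primes #A)ᶜ Y) : Y ≤ Oc (primes #A)ᶜ C(A) := by
  rw [Oc_eq_inf (cent_normal_norm A)]
  exact le_inf (hA.sub _ _ le_normalizer hA.locN
    (h.trans (cent_le_norm A)) hY (norms_of_cents (cents_symm h))) h

theorem normed_constrained_meet_trans {A Q1 Q2 H : Subgroup G} {q : ℕ} (hA : NormedConstrained A)
    (hq : ¬ q ∣ #A) (hAH : A ≤ H) (hH : Loc H) (h1 : MaxNormed {q} A Q1) (h2 : MaxNormed {q} A Q2)
    (hH1 : Q1 ⊓ H ≠ ⊥) (hH2 : Q2 ⊓ H ≠ ⊥) : ∃ k ∈ Oc (primes #A)ᶜ C(A), cj k Q1 = Q2 := by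
  have key : ∀ {Q1 Q2 H : Subgroup G}, A ≤ H → Loc H → MaxNormed {q} A Q1 → MaxNormed {q} A Q2 →
      ∃ k ∈ Oc (primes #A)ᶜ C(A), ∃ Q3, MaxNormed {q} A Q3 ∧ cj k (Q1 ⊓ H) ≤ Q3 ⊓ H ∧
        Q2 ⊓ H ≤ Q3 := by
    intro Q1 Q2 H hAH hH h1 h2
    have n1 : A ≤ N(Q1 ⊓ H) := norms_inf h1.norm (norms_of_le hAH)
    have n2 : A ≤ N(Q2 ⊓ H) := norms_inf h2.norm (norms_of_le hAH)
    obtain ⟨c, hc, R, hRL, hR, hRA, e1, e2⟩ := exists_cj_common (q := q)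
      (hAH.trans (Oc_norm (primes #A)ᶜ H)) (cop_of_primes' (Oc_pi _ _))
      (Or.inl (mFT_sol hA.vloc))
      (hA.sub H _ hAH hH inf_le_right (pg_pi'_of_not_dvd hq (h1.pi.infl _)) n1)
      (hA.sub H _ hAH hH inf_le_right (pg_pi'_of_not_dvd hq (h2.pi.infl _)) n2)
      (h1.pi.infl _) (h2.pi.infl _) n1 n2
    obtain ⟨Q3, h3, e3⟩ := exists_maxNormed hR hRA
    exact ⟨c, hA.le_K inf_le_right ((Oc_pi _ _).infl _) hc, Q3, h3,
      le_inf (e1.trans e3) (e1.trans (hRL.trans (Oc_le _ _))), e2.trans e3⟩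
  refine trans_of_step ((Oc_le _ _).trans (cent_le_norm A))
    (fun Q1 Q2 => ∃ H, A ≤ H ∧ Loc H ∧ Q1 ⊓ H ≠ ⊥ ∧ Q2 ⊓ H ≠ ⊥) ?_ h1 h2 ⟨H, hAH, hH, hH1, hH2⟩
  clear h1 h2 hH1 hH2 hAH hH Q1 Q2 H
  rintro Q1 Q2 h1 h2 ⟨H, hAH, hH, hH1, hH2⟩ he
  have fin : ∀ H, A ≤ H → Loc H → Q1 ⊓ Q2 < Q1 ⊓ H → Q1 ⊓ Q2 < Q2 ⊓ H →
      ∃ k ∈ Oc (primes #A)ᶜ C(A), ∃ Q3, MaxNormed {q} A Q3 ∧ #(Q1 ⊓ Q2) < #(cj k Q1 ⊓ Q3) ∧
        #(Q1 ⊓ Q2) < #(Q3 ⊓ Q2) ∧ (∃ H, A ≤ H ∧ Loc H ∧ cj k Q1 ⊓ H ≠ ⊥ ∧ Q3 ⊓ H ≠ ⊥) ∧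
        ∃ H, A ≤ H ∧ Loc H ∧ Q3 ⊓ H ≠ ⊥ ∧ Q2 ⊓ H ≠ ⊥ := by
    intro H hAH hH l1 l2
    obtain ⟨k, hk, Q3, h3, e1, e2⟩ := key hAH hH h1 h2
    have a1 : cj k (Q1 ⊓ H) ≠ ⊥ := fun e => (ne_bot_of_gt l1) (cj_eq_bot.1 e)
    have a2 := ne_bot_of_gt l2
    have a3 : Q3 ⊓ H ≠ ⊥ := ne_bot_mono e1 a1
    refine ⟨k, hk, Q3, h3, ?_, ?_, ⟨H, hAH, hH, ?_, a3⟩, ⟨H, hAH, hH, a3, a2⟩⟩
    · refine (card_lt l1).trans_le ?_
      rw [← card_cj k]
      exact card_le (le_inf (cj_mono k inf_le_left) (e1.trans inf_le_left))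
    · exact (card_lt l2).trans_le (card_le (le_inf e2 inf_le_left))
    · exact ne_bot_mono (le_inf (cj_mono k inf_le_left) (e1.trans inf_le_right)) a1
  by_cases hD : Q1 ⊓ Q2 = ⊥
  · exact fin H hAH hH (hD ▸ bot_lt_iff_ne_bot.2 hH1) (hD ▸ bot_lt_iff_ne_bot.2 hH2)
  · exact fin N(Q1 ⊓ Q2) (norms_inf h1.norm h2.norm) (loc_norm hD ((hA.nw _ (pg_pi'_of_not_dvd hq h1.pi) h1.norm).infl _))
      (h1.pi.lt_norm (h1.inf_lt_left h2 he)) (h2.pi.lt_norm (h1.inf_lt_right h2 he))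

theorem normed_constrained_rank3_trans {A : Subgroup G} {q : ℕ} (hA : NormedConstrained A)
    (hq : ¬ q ∣ #A) (hr : 2 < rk Z(A)) : TransOn (Oc (primes #A)ᶜ C(A)) A q := by
  intro Q1 Q2 h1 h2
  by_cases e1 : Q1 = ⊥
  · exact ⟨1, one_mem _, by rw [cj_one, e1, MaxNormed.eq_of_bot (e1 ▸ h1) h2]⟩
  have e2 : Q2 ≠ ⊥ := fun e => e1 (MaxNormed.eq_of_bot (e ▸ h2) h1)
  obtain ⟨p, B, hB⟩ := exists_el_of_le_rk (show 3 ≤ rk Z(A) from hr)
  have hBA : B ≤ A := hB.le.trans inf_le_left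
  have c : ∀ {Q}, MaxNormed {q} A Q → (#Q).Coprime #B := fun h =>
    (cop_of_primes' (pg_pi'_of_not_dvd hq h.pi)).coprime_dvd_right (card_dvd hBA)
  obtain ⟨D, hD, hD1⟩ : ∃ D, El p 2 D B ∧ Q1 ⊓ C(D) ≠ ⊥ := by
    by_contra hc
    push Not at hc
    exact e1 (le_bot_iff.1 (coprime_abelem_gen_cent hB (hBA.trans h1.norm) (c h1)
      fun D hD => (hc D hD).le))
  obtain ⟨Y, hY, hY1⟩ := hD.exists_cent_ne_bot ((hD.le.trans hBA).trans h2.norm)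
    ((pg_pi'_of_not_dvd hq h2.pi).compl_sing' ⟨hB.prime, (hB.of_le hBA).dvd⟩) e2
  exact normed_constrained_meet_trans hA hq
    (cents_symm ((hY.le.trans hD.le).trans (hB.le.trans inf_le_right)))
    (hY.vcent (hA.vloc.el2 (hD.of_le (hD.le.trans hBA)))) h1 h2 (ne_bot_mono (inf_le_inf_left _ (cent_mono hY.le)) hD1) hY1

theorem normed_constrained_rank2_trans {A : Subgroup G} {q : ℕ} (hA : NormedConstrained A)
    (hq : ¬ q ∣ #A) (hqC : q ∣ #C(A)) (hqp : q.Prime) (hr : 1 < rk Z(A)) :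
    TransOn (Oc (primes #A)ᶜ C(A)) A q := by
  obtain ⟨S, hS⟩ := exists_el1 hqp hqC
  obtain ⟨R, hR, hSR⟩ := exists_maxNormed hS.pg (norms_of_cents (cents_symm hS.le))
  obtain ⟨p, B, hB⟩ := exists_el_of_le_rk (show 2 ≤ rk Z(A) from hr)
  have hBA : B ≤ A := hB.le.trans inf_le_left
  have key : ∀ Q, MaxNormed {q} A Q → ∃ k ∈ Oc (primes #A)ᶜ C(A), cj k Q = R := by
    intro Q h
    have e : Q ≠ ⊥ := fun e => ne_bot_mono hSR hS.ne_bot (MaxNormed.eq_of_bot (e ▸ h) hR)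
    obtain ⟨Y, hY, hY1⟩ := hB.exists_cent_ne_bot (hBA.trans h.norm)
      ((pg_pi'_of_not_dvd hq h.pi).compl_sing' ⟨hB.prime, (hB.of_le hBA).dvd⟩) e
    exact normed_constrained_meet_trans hA hq
      (cents_symm (hY.le.trans (hB.le.trans inf_le_right))) (hY.vcent (hA.vloc.el2 (hB.of_le hBA))) h hR hY1
      (ne_bot_mono (le_inf hSR (hS.le.trans (cent_mono (hY.le.trans hBA)))) hS.ne_bot)
  intro Q1 Q2 h1 h2
  obtain ⟨a, ha, ea⟩ := key Q1 h1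
  obtain ⟨b, hb, eb⟩ := key Q2 h2
  exact ⟨b⁻¹ * a, mul_mem (inv_mem hb) ha, by rw [cj_mul, ea, ← eb, cj_inv_cj]⟩

theorem NormedConstrained.K_inf_cent {A P : Subgroup G} (hA : NormedConstrained A) (hAP : A ≤ P) :
    Oc (primes #A)ᶜ C(A) ⊓ C(P) = Oc (primes #A)ᶜ C(P) :=
  le_antisymm (Oc_inf_le (cent_mono hAP))
    (le_inf (hA.le_K ((Oc_le _ _).trans (cent_mono hAP)) (Oc_pi _ _)) (Oc_le _ _))

theorem NormedConstrained.maxNormed_of_ne_bot {A P Q : Subgroup G} {q : ℕ}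
    (hA : NormedConstrained A) (hq : ¬ q ∣ #A) (hAP : A ≤ P) (hP : PiG (primes #A) P)
    (hP1 : Loc P) (hQ : MaxNormed {q} P Q) (h1 : Q ≠ ⊥) : MaxNormed {q} A Q := by
  refine ⟨hQ.pi, hAP.trans hQ.norm, fun R hR hAR hQR => ?_⟩
  by_contra hne
  have hlt := hR.lt_norm (lt_of_le_of_ne hQR (Ne.symm hne))
  have hAQ := hAP.trans hQ.norm
  have hN := loc_norm h1 (hA.nw _ (pg_pi'_of_not_dvd hq hQ.pi) hAQ)
  have l1 : R ⊓ N(Q) ≤ Oc (primes #A)ᶜ N(Q) := hA.sub _ _ hAQ hN inf_le_right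
    (pg_pi'_of_not_dvd hq (hR.infl _)) (norms_inf hAR (norms_norm hAQ))
  obtain ⟨S, hS, hPS, hQS⟩ := inv_syl_ge (hQ.norm.trans (Oc_norm (primes #A)ᶜ N(Q)))
    ((Oc_pi _ _).coprime' hP) (Or.inl (mFT_sol hP1)) (hlt.le.trans l1) hQ.norm hQ.pi
  have e := hQ.max S hS.pi hPS hQS
  exact hlt.ne' ((e ▸ hS).max hlt.le l1 (hR.infl _))

theorem normed_trans_superset {A P : Subgroup G} {q : ℕ} (hA : NormedConstrained A)
    (hq : ¬ q ∣ #A) (hAP : A ≤ P) (hsn : (A.subgroupOf P).IsSubnormal) (hP : PiG (primes #A) P)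
    (hP1 : Loc P) (htr : TransOn (Oc (primes #A)ᶜ C(A)) A q) :
    Oc (primes #A)ᶜ C(A) ⊓ C(P) = Oc (primes #A)ᶜ C(P) ∧
      TransOn (Oc (primes #A)ᶜ C(P)) P q ∧
      (∀ Q, MaxNormed {q} P Q → MaxNormed {q} A Q) ∧
      ∀ Q, MaxNormed {q} P Q → P ⊓ ⁅N(P), N(P)⁆ ≤ ⁅N(Q), N(Q)⁆ ∧
        Oc (primes #A)ᶜ C(P) ⊔ (N(P) ⊓ N(Q)) = N(P) := by
  have key : P ≤ P → TransOn (Oc (primes #A)ᶜ C(P)) P q ∧
      (∀ Q, MaxNormed {q} P Q → MaxNormed {q} A Q) := by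
    refine H1.SubnIn.induction_bot (H := A) (P := fun B => B ≤ P →
      TransOn (Oc (primes #A)ᶜ C(B)) B q ∧ (∀ Q, MaxNormed {q} B Q → MaxNormed {q} A Q))
      (fun _ => ⟨htr, fun _ h => h⟩) ?_ ⟨hAP, hsn⟩
    intro B P' hBP hn hAB ih hP'
    obtain ⟨tr, sub⟩ := ih (hBP.trans hP')
    have hAB := hAB.le
    set K := Oc (primes #A)ᶜ C(B) with hK
    have hKB : K ≤ C(B) := Oc_le _ _
    have hPK : P' ≤ N(K) := norms_Oc _ (norms_cent hn)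
    have hL : K ⊔ P' ≤ N(B) := sup_le (hKB.trans (cent_le_norm B)) hn
    have hco : (#K).Coprime #P' := (Oc_pi _ _).coprime' (hP.of_le hP')
    have hs : Sol P' := mFT_sol (loc_mono hP' hP1)
    have fr : ∀ Q, MaxNormed {q} B Q → K ⊔ ((K ⊔ P') ⊓ N(Q)) = K ⊔ P' := fun Q hQ =>
      sup_norm_of_trans tr hQ le_sup_left hL
    have c : ∀ Q, MaxNormed {q} P' Q → MaxNormed {q} A Q := by
      intro Q hQ
      by_cases h1 : Q = ⊥
      · obtain ⟨Q0, h0, -⟩ := exists_maxNormed (π := {q}) (A := B) PiN.bot (norm_bot (G := G) ▸ le_top)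
        obtain ⟨k, hk, e⟩ := exists_cj_le_of_le_sup (K := K) (A := (K ⊔ P') ⊓ N(Q0)) (B := P')
          (inf_le_left.trans (sup_le le_normalizer hPK)) (by rw [fr Q0 h0]; exact le_sup_right) hco
          (Or.inl hs)
        have h2 := h0.J (inv_mem (cent_le_norm B (hKB hk)))
        have h3 : P' ≤ N(cj k⁻¹ Q0) := by
          rw [← cj_norm]
          exact cj_le_iff.1 (e.trans inf_le_right)
        have := hQ.max _ h2.pi h3 (h1 ▸ bot_le)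
        exact sub _ (this ▸ h2)
      · exact hA.maxNormed_of_ne_bot hq (hAB.trans hBP) (hP.of_le hP') (loc_mono hP' hP1) hQ h1
    refine ⟨fun Q1 Q2 h1 h2 => ?_, c⟩
    have b1 := (c Q1 h1).of_le hAB (hBP.trans h1.norm)
    have b2 := (c Q2 h2).of_le hAB (hBP.trans h2.norm)
    obtain ⟨k, hk, e⟩ := tr _ _ b1 b2
    obtain ⟨c, hc, v, hv, ek⟩ := pprod_trans_coprime' (fr Q2 b2) (sup_le le_normalizer hPK)
      (le_inf le_sup_right h2.norm) hco (Or.inl hs) (mem_sup_left hk)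
      (le_inf (cj_le_of_mem (mem_sup_left hk) le_sup_right) (by
        rw [← e, ← cj_norm]
        exact cj_mono k h1.norm))
    refine ⟨c, ?_, ?_⟩
    · rw [← hA.K_inf_cent (hAB.trans hBP)]
      exact ⟨hA.le_K (hKB.trans (cent_mono hAB)) (Oc_pi _ _) hc.1, hc.2⟩
    · rw [ek, cj_mul, cj_eq_iff, cj_of_mem_norm (inv_mem hv.2)] at e
      exact e
  obtain ⟨tr, sub⟩ := key le_rfl
  refine ⟨hA.K_inf_cent hAP, tr, sub, fun Q hQ => ?_⟩
  have fr := sup_norm_of_trans tr hQ ((Oc_le _ _).trans (cent_le_norm P)) le_rfl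
  refine ⟨?_, fr⟩
  rw [pprod_focal_coprime fr (norms_Oc _ (norm_le_norm_cent P)) (le_inf le_normalizer hQ.norm)
    ((Oc_pi _ _).coprime' hP)]
  exact inf_le_right.trans (der_mono inf_le_right)

theorem plength_1_normed_constrained {p : ℕ} {A : Subgroup G} (hp : p.Prime) (hw : p ∈ vw G)
    (h1 : ¬ Cyc A) (hA : MaxEl p A ⊤) (h : ∀ M : Subgroup G, Loc M → PLen1 p M) : NormedConstrained A := by
  have hpA := H19.abelem_pg hp hA.ab
  have h0 : A ≠ ⊥ := fun e => h1 (e ▸ cyc_bot)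
  refine ⟨h0, hpA.vnorm hw h0, fun Y hY hn => w_of_ncyc_ab hA.ab.1 hpA h1 hw hn
    (primes_eq_of_pg hpA h0 ▸ hY), fun M Y hAM hM hY hY' hn => ?_⟩
  rw [primes_eq_of_pg hpA h0] at hY' ⊢
  exact plength1_norm_pmaxElem hp (hA.of_le hAM le_top) (vw_odd hw hp)
    (mFT_sol hM) (h M hM) hY hn hY'

theorem SCN_normed_constrained {p : ℕ} {P A : Subgroup G} (hw : p ∈ vw G) (hP : Syl p P ⊤) (hA : SCN A P)
    (hr : 1 < rk A) : NormedConstrained A := by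
  have hpA : PG p A := hP.pi.of_le hA.1
  have hnc : ¬ Cyc A := fun h => by have := cyc_rk h; omega
  have h1 : A ≠ ⊥ := fun e => hnc (e ▸ cyc_bot)
  have hp := hpA.prime_of_ne_bot h1
  have hab : Ab A := H4.SCN.ab hA
  obtain ⟨B, hB, hPB⟩ := hP.pi.exists_normal_el2 (hP.pi.vloc hw).odd ⟨hA.1, hA.2.1⟩ hnc
  have hBP := hB.le.trans hA.1
  set Z := B ⊓ C(P) with hZ
  have hZ1 : Z ≠ ⊥ := hB.pg.meet_cent hP.pi hPB hB.ne_bot
  have hZp : PG p Z := hB.pg.infl _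
  have hPZ : P ≤ C(Z) := cents_symm inf_le_right
  have hCA : ∀ Y, Y ≤ C(A) → PiG {p}ᶜ Y → Y ≤ Oc {p}ᶜ C(A) := by
    intro Y a b
    have d := H4.SCN_Sylow_cent_dprod hP hA
    rw [top_inf_eq] at d
    exact (d.sd.hall_of_pi (Oc_pi _ _) hpA.compl_compl).le_Oc a b
  have s1 : ∀ Y, Y ≤ C(Z) → PiG {p}ᶜ Y → A ≤ N(Y) → Y ≤ Oc {p}ᶜ C(Z) := by
    intro Y a b c
    have hs : Sol C(Z) := (hZp.vcent hw hZ1).sol
    exact le_p'core_of_le_Opp hp hs hpA (odd_p_abelian_constrained hp (hZp.vcent hw hZ1).odd hs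
      (hP.of_le hPZ le_top) ⟨hA.1, hA.2.1⟩ hab) a b c (hCA _ inf_le_right (b.infl _))
  have hi : C(B).relIndex P ∣ p := by
    have := index_cent_abelem2_dvd hB hPB
    rw [mul_assoc] at this
    refine (hP.pi.relIndex _).dvd_of_dvd_mul (PiN.of_coprime ?_) this
    have h2 := hp.two_le
    refine Nat.Coprime.mul_left (Nat.Coprime.pow_left _ ?_) ?_
    · exact (Nat.coprime_self_sub_left hp.one_le).2 (Nat.coprime_one_left _)
    · simp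
  have s2 : ∀ W, El p 1 W B → ∀ Y, Y ≤ C(W) → PiG {p}ᶜ Y → A ≤ N(Y) → Y ≤ Oc {p}ᶜ C(W) := by
    intro W hW Y a b c
    have hs : Sol C(W) := (hW.vcent hw).sol
    obtain ⟨P2, hP2, hle⟩ := (hP.pi.infl C(B)).exists_syl
      (inf_le_right.trans (cent_mono hW.le) : P ⊓ C(B) ≤ C(W))
    have hn : P2 ≤ N(P ⊓ C(B)) := by
      have d1 : (P ⊓ C(B)).relIndex P2 ∣ p := by
        refine dvd_trans ?_ hi
        have e1 := card_mul_relIndex hle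
        have e2 := card_inf_mul_relIndex C(B) P
        have d := hP.card_dvd le_top hP2.pi
        rw [← e1, ← e2, inf_comm C(B) P] at d
        exact Nat.dvd_of_mul_dvd_mul_left (card_pos _) d
      rcases (Nat.dvd_prime hp).1 d1 with e | e
      · exact (relIndex_eq_one.1 e).trans le_normalizer
      · exact hP2.pi.norm_of_index hle e hp
    have hZO : Z ≤ Opp p C(W) := by
      refine le_trans ?_ (odd_p_abelian_constrained hp (hW.vcent hw).odd hs hP2 (A := Z(P ⊓ C(B)))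
        ⟨inf_le_left.trans hle, hn.trans (norm_le_norm_center _)⟩ (comm_center _))
      exact le_inf (inf_le_left.trans (le_inf hBP hB.le_cent))
        (inf_le_right.trans (cent_mono inf_le_left))
    have hZA : Z ≤ A := inf_le_left.trans hB.le
    exact le_p'core_of_le_Opp hp hs hZp hZO a b (hZA.trans c) (s1 _ inf_le_right (b.infl _)
      (norms_inf c (norms_cent (norms_of_comm hab le_rfl hZA))))
  refine ⟨h1, hpA.vnorm hw h1, fun Y hY hn => w_of_ncyc_ab hab hpA hnc hw hn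
    (primes_eq_of_pg hpA h1 ▸ hY), fun M Y hAM hM hY hY' hn => ?_⟩
  rw [primes_eq_of_pg hpA h1] at hY' ⊢
  refine hB.le_of_cent_le (hB.le.trans hn) hY' fun W hW => ?_
  have hWA := hW.le.trans hB.le
  refine le_trans ?_ (p'core_cent_pgroup hW.pg (hWA.trans hAM) (mFT_sol hM))
  exact (le_inf (s2 W hW _ inf_le_right (hY'.infl _)
    (norms_inf hn (norms_cent (norms_of_comm hab le_rfl hWA))))
    (le_inf (inf_le_left.trans hY) inf_le_right)).trans (Oc_inf_le inf_le_right)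

theorem Thompson_transitivity {p q : ℕ} {A : Subgroup G} (hw : p ∈ vw G) (hA : SCN3p p A) (hq : q ≠ p) :
    TransOn (Oc {p}ᶜ C(A)) A q := by
  obtain ⟨P, hP, hA, hr⟩ := hA
  by_cases hqp : q.Prime
  swap
  · intro Q1 Q2 h1 h2
    exact ⟨1, one_mem _, by
      rw [cj_one, h1.pi.eq_bot_of_not_prime hqp, h2.pi.eq_bot_of_not_prime hqp]⟩
  have hpA : PG p A := hP.pi.of_le hA.1
  have hc := SCN_normed_constrained hw hP hA (by omega)
  rw [← primes_eq_of_pg hpA hc.ne_bot]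
  refine normed_constrained_rank3_trans hc (fun h => hq (hpA q hqp h)) ?_
  rwa [inf_eq_left.2 (comm_iff_le_cent.1 (H4.SCN.ab hA))]

instance inst_U7 : U7 G where
  normed_constrained_meet_trans := normed_constrained_meet_trans
  normed_constrained_rank3_trans := normed_constrained_rank3_trans
  normed_constrained_rank2_trans := normed_constrained_rank2_trans
  normed_trans_superset := normed_trans_superset
  normed_trans_superset_nil hA hq hAP hnil hP hP1 htr :=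
    normed_trans_superset hA hq hAP (nil_subnormal hnil _) hP hP1 htr
  plength_1_normed_constrained := plength_1_normed_constrained
  SCN_normed_constrained := SCN_normed_constrained
  Thompson_transitivity := Thompson_transitivity

end

end H13.V
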