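/-
Port of `H2/U8,H2/U9` to the `ϖ`-local setting.
-/
import Cfsg.Agent.H13.V7

set_option autoImplicit false
set_option linter.unusedSectionVars false

namespace H13.V
export H19 (abelem_pg)
section
open H2 H2.BG
open Cfsg Subgroup H18
open H19 hiding eq_bot_mono

universe u

section general
variable {G : Type*} [Group G] [Finite G] {π : Set ℕ} {p q : ℕ} {A B H K M P Q R X : Subgroup G}

end general

variable {G : Type u} [Group G] [Finite G] [VS G] [Gen.{u}] {π : Set ℕ} {p q r : ℕ}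
  {A A0 B E F H K L M P Q R S U V X Y : Subgroup G}

theorem p'core_le_of_cent (hs : Sol M) (hR : PG p R) (hRM : R ≤ M) (hC : C(R) ≤ H)
    (hK : K ≤ Oc {p}ᶜ H) (h1 : K ≤ M) (h2 : K ≤ C(R)) : K ≤ Oc {p}ᶜ M :=
  (le_inf hK (le_inf h1 h2)).trans ((Oc_inf_le (inf_le_right.trans hC)).trans
    (G1b.p'core_cent_pgroup hR hRM hs))

/-- a group with `O_{p'} = 1` is the normalizer of the Puig centre of its Sylow subgroups -/
theorem norm_ZL_eq (hM : Mx M) (h0 : Oc {p}ᶜ M = ⊥) (hP : Syl p P M) (h1 : P ≠ ⊥) :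
    N(ZL P) = M :=
  mmax_normal hM ⟨(GB.ZL_le P).trans hP.le,
    (GB.Puig_center_normal (hP.pi.prime_of_ne_bot h1) hM.1.odd (mmax_sol hM) hP h0)⟩
    (GB.ZL_ne hP.pi.nil h1)

variable [U7 G]

theorem normed_pgroup_trivial (hM : Mx M) (hA : NormedConstrained A) (hAF : A ≤ Fit M)
    (hF : PiG (primes #A) (Fit M)) (h0 : Oc (primes #A)ᶜ C(A) = ⊥) (hq : ¬ q ∣ #A)
    (htr : TransOn (Oc (primes #A)ᶜ C(A)) A q) (hQ : PG q Q) (hn : A ≤ N(Q)) : Q = ⊥ := by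
  have hu : ∀ Q1 Q2, MaxNormed {q} A Q1 → MaxNormed {q} A Q2 → Q1 = Q2 := fun Q1 Q2 h1 h2 => by
    obtain ⟨k, hk, e⟩ := htr Q1 Q2 h1 h2
    rw [h0, mem_bot] at hk
    rwa [hk, cj_one] at e
  have hs := (U7.normed_trans_superset_nil hA hq hAF (Fit_nil M) hF (hM.loc (Fit_le M)) htr).2.2.1
  obtain ⟨Q1, h1, hle⟩ := exists_maxNormed_ge hQ hn
  obtain ⟨Q2, h2⟩ := exists_maxNormed {q} (Fit M)
  refine eq_bot_mono (hle.trans (hu _ _ h1 (hs _ h2)).le) (by_contra fun h => hq ?_)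
  have hN := mmax_norm hM h (hA.nw _ (pg_pi'_of_not_dvd hq h2.pi) (hAF.trans h2.norm)) fun g hg => mem_norm_iff_cj.2
    (hu _ _ (hs _ ((Fit_normal M).cj_eq hg ▸ maxNormed_J h2 g)) (hs _ h2))
  exact (h2.pi.mem_of_ne_bot h (hF.of_le (le_Fit (hN ▸ normalIn_norm Q2) h2.pi.nil))).2

theorem normed_trivial (hM : Mx M) (hA : NormedConstrained A) (hAF : A ≤ Fit M)
    (hF : PiG (primes #A) (Fit M)) (h0 : Oc (primes #A)ᶜ C(A) = ⊥)
    (htr : ∀ q, ¬ q ∣ #A → TransOn (Oc (primes #A)ᶜ C(A)) A q) (hY : PiG (primes #A)ᶜ Y)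
    (hn : A ≤ N(Y)) : Y = ⊥ := by
  by_contra h
  obtain ⟨q, hq, h1⟩ := exists_Oc_ne_bot (loc_of_w (hA.nw _ hY hn)).sol h
  have hd : ¬ q ∣ #A := fun e => (Oc_pi _ _).mem_of_ne_bot h1 (hY.of_le (Oc_le _ _)) ⟨hq, e⟩
  exact h1 (normed_pgroup_trivial hM hA hAF hF h0 hd (htr q hd) (Oc_pi _ _) (norms_Oc _ hn))

/-- BG 8.1(a) -/
theorem non_pcore_Fitting_Uniqueness (hM : Mx M) (hF : ¬ PG p (Fit M))
    (hA0 : MaxEl p A0 (Fit M)) (hr : 2 < prk p A0) : Uniq (Fit M ⊓ C(A0)) := by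
  obtain ⟨A, hA⟩ : ∃ A, A = Fit M ⊓ C(A0) := ⟨_, rfl⟩
  rw [← hA]
  have hAF : A ≤ Fit M := hA.le.trans inf_le_left
  have hAM : A ≤ M := hAF.trans (Fit_le M)
  have hA0A : A0 ≤ A := (le_inf hA0.le (comm_iff_le_cent.1 hA0.ab.1)).trans hA.ge
  have hnil : Nil A := nil_mono (Fit_nil M) hAF
  obtain ⟨hp, hpd⟩ := prk_pos_iff.1 (show 0 < prk p A0 by omega)
  have hA0p := abelem_pg hp hA0.ab
  have hpF : p ∣ #(Fit M) := hpd.trans (card_dvd hA0.le)
  have hZn : ∀ q, Oc {q} M ⊓ C(Fit M) ⊴ M := fun q =>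
    ⟨inf_le_left.trans (Oc_le _ _), norms_inf (Oc_norm _ _) (norms_cent (Fit_norm M))⟩
  have hZ1 : ∀ q, q.Prime → q ∣ #(Fit M) → Oc {q} M ⊓ C(Fit M) ≠ ⊥ := fun q hq hd =>
    nil_meet_center (Fit_nil M) ((Oc_normal _ M).of_le (Oc_le_Fit q M) (Fit_le M))
      (Oc_ne_bot_of_dvd_Fit hq hd)
  have hZA : ∀ q, Oc {q} M ⊓ C(Fit M) ≤ A := fun q =>
    (inf_le_inf (Oc_le_Fit q M) (cent_mono hA0.le)).trans hA.ge
  have hZC : ∀ q, q.Prime → q ∣ #(Fit M) → C(Oc {q} M ⊓ C(Fit M)) ≤ M := fun q hq hd =>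
    (cent_le_norm _).trans (mmax_normal hM (hZn q) (hZ1 q hq hd)).le
  have hFπ : PiG (primes #A) (Fit M) := fun q hq hd =>
    ⟨hq, (((Oc_pi _ _).infl _).dvd_of_ne_bot (hZ1 q hq hd)).trans (card_dvd (hZA q))⟩
  have hAC : ∀ q, q.Prime → q ∣ #(Fit M) → C(Oc {q} A) ≤ M := fun q hq hd =>
    (cent_mono (nil_le_Oc hnil (hZA q) ((Oc_pi _ _).infl _))).trans (hZC q hq hd)
  have hCA : PiG (primes #A) C(A) := fun r hr hd => by_contra fun hπ => by
    obtain ⟨X, hX⟩ := exists_el1 hr hd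
    have hXM : X ≤ M := hX.le.trans ((cent_mono (Oc_le _ _)).trans (hAC p hp hpF))
    have h1 : A ≤ Fit M ⊓ C(X) := le_inf hAF (cents_symm hX.le)
    have := G1a.coprime_nil_faithful_cent_stab (hXM.trans (Fit_norm M)) (hFπ.coprime (hX.pi hπ))
      (Fit_nil M) (((inf_le_inf_left _ (cent_mono (hA0A.trans h1))).trans hA.ge).trans h1)
    exact hπ ((hX.of_le ((le_inf hXM this).trans (cent_Fit_le (mmax_sol hM)))).mem_pi hFπ)
  have key : ∀ X, Loc X → A ≤ X → ∀ q, q.Prime → q ∣ #A → Oc {q}ᶜ A ≤ Oc {q}ᶜ X :=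
    fun X hX hAX q hq hd => p'core_le_of_cent (mFT_sol hX) ((Oc_pi _ _).infl _) ((hZA q).trans hAX)
      (hZC q hq (hd.trans (card_dvd hAF))) ((Oc_pi _ _).le_Oc_of_le_Fit' ((Oc_le _ _).trans hAF))
      ((Oc_le _ _).trans hAX) (cents_symm (inf_le_right.trans (cent_mono ((Oc_le _ _).trans hAF))))
  have hex : ∀ q, ∃ r, r.Prime ∧ r ∣ #(Fit M) ∧ r ≠ q := fun q => by
    by_cases e : p = q
    · by_contra h
      push Not at h
      exact hF fun r hr hd => (h r hr hd).trans e.symm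
    · exact ⟨p, hp, hpF, e⟩
  have hsub : ∀ {q r : ℕ}, r ≠ q → ({r} : Set ℕ) ⊆ {q}ᶜ := fun h => Set.singleton_subset_iff.2 h
  have hnc : NormedConstrained A := ⟨ne_bot_mono (hZA p) (hZ1 p hp hpF),
    loc_norm (ne_bot_mono (hZA p) (hZ1 p hp hpF)) ((Fit_w hM).of_le hAF),
    fun Y hY hn => by
      obtain ⟨B, hB⟩ := exists_el_succ (n := 1) hr.le
      exact w_of_el2 hB ((Fit_w hM) p hp hpF) ((hB.le.trans hA0A).trans hn)
        (hY.compl_sing' ⟨hp, hpd.trans (card_dvd hA0A)⟩),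
    fun X Y hAX hX hYX hY hn => le_Oc_of_forall hYX fun q hq hπ => by
      obtain ⟨r, hr, hd, hne⟩ := hex q
      have n1 : A ≤ N(Y ⊓ C(Oc {r} A)) := norms_inf hn (norms_cent (Oc_norm _ _))
      have h1 : Y ⊓ C(Oc {r} A) = ⊥ := (hCA.of_le (commg_eq_bot.1 (eq_bot_mono (le_inf
        ((commutator_mono le_rfl hAF).trans ((Fit_normal M).commg_le'
          (inf_le_right.trans (hAC r hr hd)))) (commg_le_left n1))
        (hFπ.inf_eq_bot (hY.infl _))))).eq_bot (hY.infl _)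
      rw [← commg_eq_of_cent_eq_bot ((Oc_le _ _).trans hn)
        (hY.coprime' (piN_primes.of_le (Oc_le _ _))) (Or.inl (Oc_pi _ _).sol) h1]
      exact (commutator_mono le_rfl ((Oc_mono (hsub hne) A).trans (key X hX hAX q hq hπ.2))).trans
        ((Oc_normal _ X).commg_le' hYX)⟩
  have htriv := fun Y => normed_trivial (Y := Y) hM hnc hAF hFπ (Oc_eq_bot hCA.compl_compl)
    fun q hq => U7.normed_constrained_rank3_trans hnc hq (hr.trans_le ((prk_mono p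
      (le_inf hA0A (cents_symm (hA.le.trans inf_le_right)))).trans (prk_le_rk _ _)))
  refine (UniqMax.mk hM hAM fun H hH hAH => ?_).isUniq
  have hsH := mmax_sol hH
  have hDπ : ∀ q, Oc {q} H ≠ ⊥ → q ∣ #A := fun q h => by_contra fun e => h
    (htriv _ ((Oc_pi _ _).sing fun h => e h.2) (hAH.trans (Oc_norm _ _)))
  have hAp : A0 ≤ Oc {p} A := nil_le_Oc hnil hA0A hA0p
  have hD1 : Oc {p} H ≠ ⊥ := fun e => by
    refine ne_bot_mono hAp (fun e => hp.not_dvd_one (by simpa [e] using hpd))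
      (eq_bot_mono (le_Oc_of_forall ((Oc_le _ _).trans hAH) fun q hq hd => ?_) (Oc_primes_Fit hsH))
    have h1 := Oc_ne_bot_of_dvd_Fit hq hd.2
    exact (Oc_mono (hsub fun e' : p = q => h1 (e' ▸ e)) A).trans (key H hH.1 hAH q hq (hDπ q h1))
  have hDC : C(Oc {p} H) ≤ H := (cent_le_norm _).trans (mmax_normal hH (Oc_normal _ _) hD1).le
  have hD2 : Oc {p}ᶜ A ≤ C(Oc {p} H) :=
    (key H hH.1 hAH p hp (hpd.trans (card_dvd hA0A))).trans (Oc_cents' (Oc_normal _ _) (Oc_pi _ _))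
  have hDM : Oc {p} H ≤ M := by
    obtain ⟨r, hr, hd, hne⟩ := hex p
    exact (cents_symm ((Oc_mono (hsub hne) A).trans hD2)).trans (hAC r hr hd)
  have h1 : Oc {p}ᶜ H ≤ M := by
    refine (cents_symm ((le_inf le_rfl (cents_symm (Fit_le_of_Oc fun q hq => ?_))).trans
      (G1a.coprime_cent_Fitting (((Oc_le _ _).trans hAH).trans (Oc_norm _ _))
        ((Oc_pi _ _).coprime' (Oc_pi _ _)) (sol_mono hsH (Oc_le _ _))))).trans (hAC p hp hpF)
    by_cases e : p = q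
    · subst e; exact (Oc_eq_bot (Oc_pi _ _)).le.trans bot_le
    refine (Oc_le_Oc (Oc_normal _ H)).trans ?_
    by_cases h0 : Oc {q} H = ⊥
    · exact h0.le.trans bot_le
    exact cents_symm (((Oc_mono (hsub e) A).trans (key H hH.1 hAH q hq (hDπ q h0))).trans
      (Oc_cents' (Oc_normal _ _) (Oc_pi _ _)))
  have h2 : Oc {p}ᶜ M ≤ H := by
    refine (cents_symm ((le_inf le_rfl (cents_symm ?_)).trans
      (G1a.coprime_cent_Fitting (hDM.trans (Oc_norm _ _))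
        ((Oc_pi _ _).coprime' (Oc_pi _ _)) (mmax_sub_sol hM (Oc_le _ _))))).trans hDC
    rw [← Oc_Fit_eq]
    refine (nil_le_Oc hnil ((le_inf (Oc_le _ _) ?_).trans hA.ge) (Oc_pi _ _)).trans hD2
    exact nil_cents_pi (Fit_nil M) (Oc_le _ _) hA0.le (Oc_pi _ _) hA0p.compl_compl
  have e : Oc {p}ᶜ H = Oc {p}ᶜ M := le_antisymm
    (p'core_le_of_cent (mmax_sol hM) (Oc_pi _ _) hDM hDC le_rfl h1
      (Oc_cents' (Oc_normal _ _) (Oc_pi _ _)))
    (p'core_le_of_cent hsH ((Oc_pi _ _).infl _) ((hZA p).trans hAH) (hZC p hp hpF) le_rfl h2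
      (Oc_cents' (hZn p) ((Oc_pi _ _).infl _)))
  have h3 : Oc {p}ᶜ M ≠ ⊥ := fun h => hF (Fit_eq_Oc h ▸ Oc_pi _ _)
  rw [← mmax_normal hM (Oc_normal _ M) h3, ← e, mmax_normal hH (Oc_normal _ H) (e ▸ h3)]

/-- BG 8.1(b) -/
theorem SCN_Fitting_Uniqueness (hM : Mx M) (hF : PG p (Fit M)) (hP : Syl p P M)
    (hr : 2 < prk p (Fit M)) : Syl p P ⊤ ∧ ∀ A, SCN3 A P → A ≤ Fit M ∧ Uniq A := by
  have hp := prime_of_prk_pos (show 0 < prk p (Fit M) by omega)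
  have hs := mmax_sol hM
  have hw : p ∈ vw G := (hM.loc (Fit_le M)).w_of_prk hr.le
  have h0 : Oc {p}ᶜ M = ⊥ := by_contra fun h => Fit_ne_bot (sol_mono hs (Oc_le _ _)) h
    (by rw [← Oc_Fit_eq]; exact Oc_eq_bot hF.compl_compl)
  have hFP : Fit M ≤ P := Fit_eq_Oc h0 ▸ Oc_le_hall hP
  have hsyl : ∀ R, Syl p R M → R ≠ ⊥ → Syl p R ⊤ := fun R hR h1 => hR.syl_of_norm_le le_top
    (inf_le_right.trans ((GB.norm_ZL R).trans (norm_ZL_eq hM h0 hR h1).le))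
  have hPG := hsyl P hP (ne_bot_mono hFP (Fit_mmax_ne_bot hM))
  refine ⟨hPG, fun A hA => ?_⟩
  obtain ⟨hAP, hn, hc⟩ := hA.scn
  have hab : Ab A := comm_iff_le_cent.2 (hc.ge.trans inf_le_right)
  have hAp := hP.pi.of_le hAP
  have hAF : A ≤ Fit M := (GA.odd_p_abelian_constrained hp hM.1.odd hs hP ⟨hAP, hn⟩ hab).trans
    (((G1b.Opp_spec hp).2.2.2.2.2.2.2.2 h0).le.trans (Oc_le_Fit p M))
  have hnc := U7.SCN_normed_constrained hw hPG hA.scn (by have := hA.rk; omega)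
  have hπ : primes #A = {p} := Set.eq_singleton_iff_unique_mem.2
    ⟨⟨hp, hAp.dvd_of_ne_bot hnc.ne_bot⟩, fun q hq => hAp q hq.1 hq.2⟩
  have hCM : C(A) ≤ M := (cent_mono ((inf_le_inf hFP (cent_mono hAF)).trans hc.le)).trans
    ((cent_le_norm _).trans (mmax_normal hM ⟨inf_le_left.trans (Fit_le M),
      (Fit_norm M).trans (norm_le_norm_center _)⟩
      (nil_center_ne_bot (Fit_nil M) (Fit_mmax_ne_bot hM))).le)
  have htriv := fun Y => normed_trivial (Y := Y) hM hnc hAF (hπ ▸ hF)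
    (by
      rw [hπ, ← inf_eq_right.2 hCM]
      exact eq_bot_mono (G1b.p'core_cent_pgroup hAp (hAP.trans hP.le) hs) h0)
    fun q hq => hπ ▸ U7.Thompson_transitivity hw ⟨P, hPG, hA⟩
      fun e => hq (e ▸ hAp.dvd_of_ne_bot hnc.ne_bot)
  rw [hπ] at htriv
  have key : ∀ R : Subgroup G, A ≤ R → R ≤ M → PG p R → ∀ H, Mx H → R ≤ H → H = M := by
    intro R
    induction R using WellFoundedGT.induction with
    | ind R ih =>
    intro hAR hRM hR H hH hRH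
    obtain ⟨R', hR', hle⟩ := hR.exists_syl (le_inf hRH hRM)
    rcases hle.lt_or_eq with hlt | rfl
    · exact ih R' hlt (hAR.trans hle) (hR'.le.trans inf_le_right) hR'.pi H hH
        (hR'.le.trans inf_le_left)
    have h1 := ne_bot_mono hAR hnc.ne_bot
    have hH0 := htriv _ (Oc_pi {p}ᶜ H) ((hAR.trans hRH).trans (Oc_norm _ _))
    by_cases hRs : Syl p R M
    · rw [← norm_ZL_eq hH hH0 ((hsyl R hRs h1).of_le hRH le_top) h1, norm_ZL_eq hM h0 hRs h1]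
    obtain ⟨Q, q1, q2, q3, q4⟩ := hR.exists_lt_norm hRM hRs
    have ih' := ih Q q1 (hAR.trans q1.le) q3 q2
    obtain ⟨L, hL, hNL⟩ := exists_mmax_norm h1 (hR.sing hw)
    have hRH' : Syl p R H := hR'.syl_of_norm_le hRH
      (inf_le_inf_left _ (hNL.trans (ih' L hL (q4.trans hNL)).le))
    exact ih' H hH (q4.trans ((GB.norm_ZL R).trans (norm_ZL_eq hH hH0 hRH' h1).le))
  exact ⟨hAF, (UniqMax.mk hM (hAP.trans hP.le) (key A le_rfl (hAP.trans hP.le) hAp)).isUniq⟩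

instance inst_U8 : U8 G where
  non_pcore_Fitting_Uniqueness := non_pcore_Fitting_Uniqueness
  SCN_Fitting_Uniqueness := SCN_Fitting_Uniqueness

end

section
open H2 H2.BG
open Cfsg Subgroup H18
open H19 hiding eq_bot_mono

universe u

section general
variable {G : Type*} [Group G] [Finite G] {π : Set ℕ} {p q : ℕ} {A B D E H K M P Q R X : Subgroup G}

end general

variable {G : Type u} [Group G] [Finite G] [VS G] [Gen.{u}] {π : Set ℕ} {p q r : ℕ}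
  {A A0 B E F H K L M P Q R S U V X Y : Subgroup G}

/-- a `p'`-subgroup normalized by a Sylow `p`-subgroup of a solvable group lies in `O_{p'}` -/
theorem le_p'core_of_syl_norm (hs : Sol M) (hP : Syl p P M) (hK : K ≤ M) (hp : PiG {p}ᶜ K)
    (hn : P ≤ N(K)) : K ≤ Oc {p}ᶜ M := by
  have hn' := Oc_norm {p}ᶜ M
  have h1 : quo (Oc {p}ᶜ M) K ≤ C(Oc {p} (quo (Oc {p}ᶜ M) M)) :=
    (hp.quo _).cents_of_norms (Oc_pi _ _).compl_compl
      ((Oc_le_hall (hP.quo hn')).trans (quo_norms hn)) ((quo_mono _ hK).trans (Oc_norm _ _))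
  exact quo_eq_bot_of_pi (hK.trans hn') hp ((Oc_pi _ _).of_le ((le_inf (quo_mono _ hK) h1).trans
    (G1b.cent_pcore_sub (sol_quo hs _) (Oc_quo_Oc _ _)))).compl_compl

/-- for `r(F(M)) ≤ 2`: `M = O_{p'}(M) N_M(P)` -/
theorem rank2_Frattini (hs : Loc M) (hr : rk (Fit M) ≤ 2) (hP : Syl p P M) :
    Oc {p}ᶜ M ⊔ (M ⊓ N(P)) = M := by
  have hle : Oc {p}ᶜ M ⊔ P ≤ M := sup_le (Oc_le _ _) hP.le
  have := (hP.of_le le_sup_right hle).frattini (normal_of_der_le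
    ((G4b.rank2_der1_sub_Fitting hs.odd hs.sol hr).trans (Fit_le_of_Oc fun q _ => ?_)) hle)
  · rwa [sup_assoc, sup_eq_right.2 (le_inf hP.le le_normalizer)] at this
  · by_cases e : q = p
    · subst e; exact (Oc_le_hall hP).trans le_sup_right
    · exact (Oc_mono (Set.singleton_subset_iff.2 e) M).trans le_sup_left

variable [U7 G] [U8 G]

theorem exists_uniq_abelian (hM : Mx M) (hr : 2 < prk p (Fit M)) :
    ∃ A, A ≤ Fit M ∧ PG p A ∧ Ab A ∧ 2 < rk A ∧ Uniq (Fit M ⊓ C(A)) ∧ (PG p (Fit M) → Uniq A) := by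
  by_cases hF : PG p (Fit M)
  · obtain ⟨P, hP⟩ := exists_syl p M
    obtain ⟨A, hA⟩ := G5a.rank3_SCN3 hP.pi (hM.odd hP.le)
      (hr.trans_le (hP.prk_syl ▸ prk_mono p (Fit_le M)))
    obtain ⟨h1, h2⟩ := (U8.SCN_Fitting_Uniqueness hM hF hP hr).2 A hA
    have hc := hA.scn.2.2.ge.trans inf_le_right
    exact ⟨A, h1, hF.of_le h1, comm_iff_le_cent.2 hc, hA.rk, uniq_mono h2 (le_inf h1 hc)
      (loc_mono (inf_le_left.trans (Fit_le M)) hM.1), fun _ => h2⟩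
  · obtain ⟨E, hE⟩ := exists_el_succ hr
    obtain ⟨A, hA, hle⟩ := exists_maxEl_ge hE.le hE.ab
    have h3 : 2 < prk p A := (hE.of_le hle).le_prk
    exact ⟨A, hA.le, abelem_pg hE.prime hA.ab, hA.ab.1, h3.trans_le (prk_le_rk _ _),
      U8.non_pcore_Fitting_Uniqueness hM hF hA h3, fun h => absurd h hF⟩

theorem Fitting_Uniqueness (hM : Mx M) (hr : 2 < rk (Fit M)) : Uniq (Fit M) := by
  obtain ⟨p, -, e⟩ := exists_prk_eq_rk (Fit M)
  obtain ⟨A, -, -, -, -, h, -⟩ := exists_uniq_abelian hM (e ▸ hr)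
  exact uniq_mono h inf_le_left (loc_mono (Fit_le M) hM.1)

/-- BG 9.1(b) -/
theorem noncyclic_normed_sub_Uniqueness (hp : p.Prime) (hM : Mx M) (hBM : B ≤ M)
    (hB : Abelem p B) (hnc : ¬ Cyc B) (h : ∀ K : Subgroup G, PiG {p}ᶜ K → B ≤ N(K) → K ≤ M) :
    Uniq B := by
  have hB1 : B ≠ ⊥ := fun e => hnc (e ▸ cyc_bot); have hw := hM.1.w_of_ncyc (abelem_pg hp hB) hBM hnc
  have hNP : ∀ P, Syl p P M → B ≤ P → N(P) ≤ M := fun P hP hBP => by
    by_cases h0 : Oc {p}ᶜ M = ⊥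
    · exact (GB.norm_ZL P).trans (norm_ZL_eq hM h0 hP (ne_bot_mono hBP hB1)).le
    refine le_trans (fun g hg => mem_norm_of_cj_le ?_) (mmax_normal hM (Oc_normal _ M) h0).le
    have hn : P ≤ N(cj g (Oc {p}ᶜ M)) := by
      rw [← cj_norm, ← cj_of_mem_norm hg]; exact cj_mono g (hP.le.trans (Oc_norm _ _))
    exact le_p'core_of_syl_norm (mmax_sol hM) hP (h _ ((Oc_pi _ _).J g) (hBP.trans hn))
      ((Oc_pi _ _).J g) hn
  have key : ∀ R : Subgroup G, B ≤ R → R ≤ M → PG p R → ∀ H, Mx H → R ≤ H → H = M := by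
    intro R
    induction R using WellFoundedGT.induction with
    | ind R ih =>
    intro hBR hRM hR H hH hRH
    obtain ⟨R', hR', hle⟩ := hR.exists_syl (le_inf hRH hRM)
    rcases hle.lt_or_eq with hlt | rfl
    · exact ih R' hlt (hBR.trans hle) (hR'.le.trans inf_le_right) hR'.pi H hH
        (hR'.le.trans inf_le_left)
    have hN : N(R) ≤ M := by
      by_cases hRs : Syl p R M
      · exact hNP R hRs hBR
      obtain ⟨Q, q1, q2, q3, q4⟩ := hR.exists_lt_norm hRM hRs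
      obtain ⟨L, hL, hNL⟩ := exists_mmax_norm (ne_bot_mono hBR hB1) (hR.sing hw)
      exact hNL.trans (ih Q q1 (hBR.trans q1.le) q3 q2 L hL (q4.trans hNL)).le
    have hRH' : Syl p R H := hR'.syl_of_norm_le hRH (inf_le_inf_left _ hN)
    have h1 : Oc {p}ᶜ H ≤ M := h _ (Oc_pi _ _) ((hBR.trans hRH).trans (Oc_norm _ _))
    by_cases hr : 2 < rk (Fit H)
    · refine eq_of_uniq (Fitting_Uniqueness hH hr) hH hM (Fit_le H) (Fit_le_of_Oc fun q _ => ?_)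
      by_cases e : q = p
      · exact e ▸ (Oc_le_hall hRH').trans hRM
      · exact (Oc_mono (Set.singleton_subset_iff.2 e) H).trans h1
    · refine eq_mmax hH hM ?_
      rw [← rank2_Frattini hH.1 (not_lt.1 hr) hRH']
      exact sup_le h1 (inf_le_right.trans hN)
  exact (UniqMax.mk hM hBM (key B le_rfl hBM (abelem_pg hp hB))).isUniq

/-- BG 9.1(a) -/
theorem noncyclic_cent1_sub_Uniqueness (hp : p.Prime) (hM : Mx M) (hBM : B ≤ M)
    (hB : Abelem p B) (hnc : ¬ Cyc B) (h : ∀ b ∈ B, b ≠ 1 → C[b] ≤ M) : Uniq B :=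
  noncyclic_normed_sub_Uniqueness hp hM hBM hB hnc fun _ hK hn =>
    le_of_cent1_le hB.1 hnc hn (hK.coprime' (abelem_pg hp hB))
      fun x hx h1 => inf_le_right.trans (h x hx h1)

/-- BG 9.2 -/
theorem cent_uniq_Uniqueness (hL : Uniq L) (hK : K ≤ C(L)) (hr : 1 < rk K) : Uniq K := by
  obtain ⟨M, hM⟩ := uniq_iff.1 hL
  obtain ⟨p, B, hB⟩ := exists_el_of_le_rk hr
  have hKM := (hK.trans (cent_le_norm L)).trans hM.norm_le
  refine uniq_mono (noncyclic_cent1_sub_Uniqueness hB.prime hM.max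
    (hB.le.trans hKM) hB.ab hB.not_cyc
    fun b hb h1 => hM.sub (le_cent1_iff.2 (hK (hB.le hb)))
      (loc_cent1 ((hB.pi ((hM.max.loc hKM).el2 hB)).elt hb) h1)) hB.le (hM.max.loc hKM)

/-- BG 9.3 -/
theorem any_cent_rank3_Uniqueness (hab : Ab A) (hA : PG p A) (hr : 2 < rk A) (hU : Uniq A)
    (hB : PG p B) (hnc : ¬ Cyc B) (hrB : 2 < prk p C(B)) : Uniq B := by
  have hw : p ∈ vw G := (uniq_loc hU).w_of_prk (hA.rk_eq ▸ hr.le)
  obtain ⟨E, hE⟩ := exists_el_succ hrB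
  obtain ⟨P, hP, hEP⟩ := hE.pg.exists_syl le_top
  obtain ⟨g, -, hg⟩ := hP.scj_le le_top hA
  obtain ⟨F, hF⟩ := exists_el_succ (H := cj g A) (p := p) (n := 2) (by rwa [prk_cj, ← hA.rk_eq])
  obtain ⟨D, hD, hn⟩ := G4a.odd_normal_p2Elem_exists hP.pi (hP.pi.vloc hw).odd
    fun h => hE.not_cyc (cyc_mono h hEP)
  have h1 : Uniq (F ⊓ C(D)) := cent_uniq_Uniqueness (uniq_J hU g)
    (cents_of_comm (comm_cj.2 hab) (inf_le_left.trans hF.le) le_rfl)
    (rk_inf_cent_normal_el2 hP.pi hD hn.norm (hF.mono hg))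
  have h2 : Uniq D := cent_uniq_Uniqueness h1 (cents_symm inf_le_right) (by rw [hD.rk_eq]; omega)
  have h3 : Uniq (E ⊓ C(D)) := cent_uniq_Uniqueness h2 inf_le_right
    (rk_inf_cent_normal_el2 hP.pi hD hn.norm (hE.of_le hEP))
  exact cent_uniq_Uniqueness (uniq_mono h3 inf_le_left (hE.pg.vloc hw)) (cents_symm hE.le)
    (hB.rk_eq ▸ hB.two_le_prk (hB.vloc hw).odd hnc)

theorem uniq_of_abelian_rank3 (hab : Ab A) (hA : PG p A) (hr : 2 < rk A) (hU : Uniq A)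
    (hK : Loc K) (hrK : 2 < prk p K) : Uniq K := by
  obtain ⟨B, hB⟩ := exists_el_succ hrK
  exact uniq_mono (any_cent_rank3_Uniqueness hab hA hr hU hB.pg hB.not_cyc
    (hB.of_le hB.le_cent).le_prk) hB.le hK

/-- BG 9.4 -/
theorem any_rank3_Fitting_Uniqueness (hM : Mx M) (hr : 2 < prk p (Fit M)) (hP : PG p P)
    (hrP : 2 < rk P) : Uniq P := by
  obtain ⟨A, -, h2, h3, h4, h5, -⟩ := exists_uniq_abelian hM hr
  exact uniq_of_abelian_rank3 h3 h2 h4 (cent_uniq_Uniqueness h5 (cents_symm inf_le_right)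
    (by omega)) (hP.vloc ((hM.loc (Fit_le M)).w_of_prk hr.le)) (hP.rk_eq ▸ hrP)

theorem exists_core_norm_le (hM : Mx M) (hr : prk p (Fit M) ≤ 2) (hrM : 2 < prk p M) :
    ∃ q, q ≠ p ∧ q ∈ vw G ∧ ∀ Q, PG q Q → Oc {q} M ≤ Q → N(Q) ≤ M := by
  by_cases h : 2 < rk (Fit M)
  · obtain ⟨q, -, e⟩ := exists_prk_eq_rk (Fit M)
    rw [← e] at h
    refine ⟨q, fun e => h.not_ge (e ▸ hr), (hM.loc (Fit_le M)).w_of_prk h.le, fun Q hQ hle => ?_⟩
    have hU := any_rank3_Fitting_Uniqueness hM h (Oc_pi {q} M)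
      (by rwa [(Oc_pi _ _).rk_eq, (Oc_Fit_syl q M).prk_syl])
    exact uniq_sub hU hM (Oc_le _ _) (hle.trans le_normalizer)
      (hQ.vnorm ((hM.loc (Fit_le M)).w_of_prk h.le) (ne_bot_mono hle (uniq_ne_bot hU)))
  · obtain ⟨q, hq, hd, hmax⟩ := exists_max_prime (ne_bot_iff_one_lt_card.1 (mmax_ne_bot hM))
    have hS := G4b.rank2_max_pcore_Sylow hM.1.odd (mmax_sol hM) (not_lt.1 h) hmax
    have hN := mmax_normal hM (Oc_normal _ M) (hS.sne_bot hq hd)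
    refine ⟨q, fun e => ?_, (Oc_pi _ _).mem_of_ne_bot (hS.sne_bot hq hd) ((Fit_w hM).of_le (Oc_le_Fit q M)), fun Q hQ hle => ?_⟩
    · subst e
      exact hrM.not_ge (hS.prk_syl.ge.trans ((prk_mono q (Oc_le_Fit q M)).trans hr))
    · rw [(hS.syl_of_norm_le le_top (inf_le_right.trans hN.le)).max hle le_top hQ, hN]

/-- BG 9.5 -/
theorem SCN_3_Uniqueness (hw : p ∈ vw G) (hA : SCN3p p A) : Uniq A := by
  by_contra hnu
  obtain ⟨P, hP, hA3⟩ := id hA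
  obtain ⟨hAP, hn, hc⟩ := hA3.scn
  have hAC : A ≤ C(A) := hc.ge.trans inf_le_right
  have hab : Ab A := comm_iff_le_cent.2 hAC
  have hAp := hP.pi.of_le hAP
  have hrA : 2 < prk p A := hAp.rk_eq ▸ hA3.rk
  have hp := prime_of_prk_pos (show 0 < prk p A by omega)
  have hnc := U7.SCN_normed_constrained hw hP hA3.scn (by have := hA3.rk; omega)
  have hpA := hAp.dvd_of_ne_bot hnc.ne_bot
  have hπ : primes #A = {p} := Set.eq_singleton_iff_unique_mem.2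
    ⟨⟨hp, hpA⟩, fun q hq => hAp q hq.1 hq.2⟩
  have hF : ∀ M : Subgroup G, Mx M → prk p (Fit M) ≤ 2 := fun M hM => not_lt.1 fun h =>
    hnu (any_rank3_Fitting_Uniqueness hM h hAp hA3.rk)
  have hNP : ∀ M, Mx M → C(A) ≤ M → N(P) ≤ M := fun M hM hCM => by
    obtain ⟨q, hq, -, hQM⟩ := exists_core_norm_le hM (hF M hM)
      (hrA.trans_le (prk_mono p (hAC.trans hCM)))
    have key : ∀ R, A ≤ R → R ≤ P → R ≤ M → N(R) ≤ M := fun R hAR hRP hRM => by
      obtain ⟨Q, hQ, hle⟩ := exists_maxNormed_ge (Oc_pi {q} M) (hRM.trans (Oc_norm _ _))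
      have := ((U7.normed_trans_superset_nil hnc (fun h => hq (hAp.eq_of_dvd
        ((hQ.pi.prime_of_ne_bot fun e => hM.ne_top (top_le_iff.1 (norm_bot.ge.trans
          (e ▸ hQM Q hQ.pi hle))))) h)) hAR (hP.pi.of_le hRP).nil (hπ ▸ hP.pi.of_le hRP) (hM.loc hRM)
        (hπ ▸ U7.Thompson_transitivity hw hA hq)).2.2.2 Q hQ).2
      rw [← this]
      exact sup_le ((Oc_le _ _).trans ((cent_mono hAR).trans hCM))
        (inf_le_right.trans (hQM Q hQ.pi hle))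
    exact key P hAP le_rfl (hn.trans (key A le_rfl hAP (hAC.trans hCM)))
  have hP0 : ⁅P, N(P)⁆ ≤ P := commg_le_left le_rfl
  have hP0p := hP.pi.of_le hP0
  have hP01 : ⁅P, N(P)⁆ ≠ ⊥ := fun e => by
    have h1 := G1b.Burnside_normal_complement hP
      (inf_le_right.trans (cents_symm (commg_eq_bot.1 e)))
    by_cases h0 : Oc {p}ᶜ (⊤ : Subgroup G) = ⊥
    · exact (PiN.vloc (H := (⊤ : Subgroup G)) ((h0 ▸ h1).pi'_of_eq_bot.mono (compl_compl _).subset) hw).ne_top rfl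
    · exact mFT_norm_ne_top h0 (fun e => (Oc_pi {p}ᶜ (⊤ : Subgroup G)).not_dvd hp rfl
        (hpA.trans (card_dvd (le_top.trans e.ge)))) (top_le_iff.1 (Oc_norm _ _))
  have hrO : El p (prk p A) (Ohm1 p A) A := el_Ohm1 hp hab
  have hU3 : ∀ (M : Subgroup G) q E, Mx M → El q 3 E (Fit M) → Uniq E := fun M q E hM hE =>
    any_rank3_Fitting_Uniqueness hM hE.le_prk hE.pg (by rw [hE.rk_eq]; omega)
  have hcent : ∀ M, Mx M → C(A) ≤ M → Oc {p}ᶜ (Fit M) ≤ C(⁅P, N(P)⁆) := fun M hM hCM => by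
    obtain ⟨n, hn⟩ : ∃ n, prk p A = n + 2 + 1 := ⟨prk p A - 3, by omega⟩
    rw [hn] at hrO
    have hD := (Fit_normal M).Oc {p}ᶜ
    refine G1b.coprime_abelem_gen_cent hrO (hD.norms (hrO.le.trans (hAC.trans hCM)))
      ((Oc_pi _ _).coprime' hrO.pg) fun B hB => ?_
    have hBA := hB.le.trans hrO.le
    obtain ⟨x, hx, hx1, hxM⟩ : ∃ x ∈ B, x ≠ 1 ∧ ¬ C[x] ≤ M := by
      by_contra h
      push Not at h
      exact hnu (uniq_mono (noncyclic_cent1_sub_Uniqueness hp hM (hBA.trans (hAC.trans hCM)) hB.ab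
        hB.not_cyc h) hBA (hAp.vloc hw))
    obtain ⟨L, hL, hxL⟩ := mmax_exists (loc_cent1 ((hB.pi hw).elt hx) hx1)
    have hNL : N(P) ≤ L ⊓ M := le_inf (hNP L hL ((cent_le_cent1 (hBA hx)).trans hxL)) (hNP M hM hCM)
    have hd : ⁅P, N(P)⁆ ≤ ⁅L ⊓ M, L ⊓ M⁆ := commutator_mono (le_normalizer.trans hNL) hNL
    have hDF : Oc {p}ᶜ (Fit M) ⊓ L ≤ Fit M := inf_le_left.trans (Oc_le _ _)
    have hnD : L ⊓ M ≤ N(Oc {p}ᶜ (Fit M) ⊓ L) :=
      norms_inf (hD.norms inf_le_right) (norms_of_le inf_le_left)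
    refine (inf_le_inf_left _ ((cent_le_cent1 hx).trans hxL)).trans (le_of_syl fun q R hq hR => ?_)
    by_cases h1 : R = ⊥
    · exact h1.le.trans bot_le
    have hqp : q ≠ p := hR.pi.mem_of_ne_bot h1 (((Oc_pi _ _).infl _).of_le hR.le)
    have hnR := hnD.trans (nil_hall_norm (nil_mono (Fit_nil M) hDF) hR)
    have hr : prk q R ≤ 2 := prk_le fun E hE => hxM (hxL.trans (eq_of_uniq
      (hU3 M q E hM (hE.mono (hR.le.trans hDF))) hL hM (hE.le.trans (hR.le.trans inf_le_right))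
      (hE.le.trans (hR.le.trans (hDF.trans (Fit_le M))))).le)
    exact cents_symm (le_of_pi_of_relIndex' (norms_cent ((hd.trans (der_le _)).trans hnR)) hd hP0p
      ((G4b.der1_Aut_rank2_pgroup hR.pi (hM.odd (hR.le.trans (hDF.trans (Fit_le M)))) hr hnR (hM.odd inf_le_right)).sing_ne hqp))
  have huq : ∀ M, Mx M → C(A) ≤ M → UniqMax N(⁅P, N(P)⁆) M := fun M hM hCM => by
    have h1 := hcent M hM hCM
    have hPM := le_normalizer.trans (hNP M hM hCM)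
    by_cases h : 2 < rk (Fit M)
    · obtain ⟨q, E, hE⟩ := exists_el_of_le_rk h
      have hqp : q ≠ p := fun e => (hF M hM).not_gt (e ▸ hE.le_prk)
      exact (uniqMax_of_uniq (hU3 M q E hM hE) hM (hE.le.trans (Fit_le M))).mono
        (((nil_le_Oc (Fit_nil M) hE.le (hE.pi hqp)).trans h1).trans (cent_le_norm _))
        (hP0p.vnorm hw hP01)
    · have h2 : ⁅P, N(P)⁆ ≤ C(Oc {p}ᶜ M) := (le_inf le_rfl (Oc_Fit_eq {p}ᶜ M ▸ cents_symm h1)).trans
        (G1a.coprime_cent_Fitting ((hP0.trans hPM).trans (Oc_norm _ _))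
          ((Oc_pi _ _).coprime' hP0p) (mmax_sub_sol hM (Oc_le _ _)))
      rw [mmax_norm hM hP01 (hP0p.sing hw) (by
        rw [← rank2_Frattini hM.1 (not_lt.1 h) (hP.of_le hPM le_top)]
        exact sup_le (norms_of_cents (cents_symm h2)) (inf_le_right.trans (commg_normr _ _)))]
      exact ⟨hM, le_rfl, fun L hL h => (eq_mmax hM hL h).symm⟩
  obtain ⟨M, hM, hCM⟩ := mmax_exists (hAp.vcent hw hnc.ne_bot)
  obtain ⟨n, hn⟩ : ∃ n, prk p A = n + 2 := ⟨prk p A - 2, by omega⟩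
  rw [hn] at hrO
  refine hnu (uniq_mono (noncyclic_cent1_sub_Uniqueness hp hM (hrO.le.trans (hAC.trans hCM)) hrO.ab
    hrO.not_cyc fun x hx hx1 => ?_) hrO.le (hAp.vloc hw))
  obtain ⟨L, hL, hxL⟩ := mmax_exists (loc_cent1 ((hrO.pi hw).elt hx) hx1)
  exact hxL.trans ((huq L hL ((cent_le_cent1 (hrO.le hx)).trans hxL)).eq (huq M hM hCM)).le

/-- BG 9.6 -/
theorem rank3_Uniqueness (hK : Loc K) (hr : 2 < rk K) : Uniq K := by
  obtain ⟨p, B, hB⟩ := exists_el_of_le_rk hr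
  obtain ⟨P, hP, hBP⟩ := hB.pg.exists_syl le_top; have hw := hK.w_of_prk (le_trans (by omega) hB.le_prk)
  obtain ⟨A, hA⟩ := G5a.rank3_SCN3 hP.pi (hP.pi.vloc hw).odd (hB.of_le hBP).le_prk
  exact uniq_of_abelian_rank3 (comm_iff_le_cent.2 (hA.scn.2.2.ge.trans inf_le_right))
    (hP.pi.of_le hA.scn.1) hA.rk (SCN_3_Uniqueness hw ⟨P, hP, hA⟩) hK hB.le_prk

theorem cent_rank3_Uniqueness (hL : Loc K) (hK : 1 < rk K) (hr : 2 < rk C(K)) : Uniq K := by
  obtain ⟨p, B, hB⟩ := exists_el_of_le_rk hK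
  exact cent_uniq_Uniqueness (rank3_Uniqueness ((hB.vcent (hL.el2 hB)).mono (cent_mono hB.le)) hr)
    (cents_symm le_rfl) hK

theorem nonmaxElem2_Uniqueness (hw : p ∈ vw G) (hA : El p 2 A ⊤) (hm : ¬ MaxEl p A ⊤) : Uniq A := by
  obtain ⟨B, hB, hle⟩ := hA.exists_succ hm
  exact cent_rank3_Uniqueness (hA.pg.vloc hw) (by rw [hA.rk_eq]; omega)
    (hB.of_le (cents_of_comm hB.comm le_rfl hle)).le_rk

instance inst_U9 : U9 G where
  noncyclic_normed_sub_Uniqueness := noncyclic_normed_sub_Uniqueness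
  noncyclic_cent1_sub_Uniqueness := noncyclic_cent1_sub_Uniqueness
  cent_uniq_Uniqueness := cent_uniq_Uniqueness
  any_cent_rank3_Uniqueness := any_cent_rank3_Uniqueness
  any_rank3_Fitting_Uniqueness := any_rank3_Fitting_Uniqueness
  SCN_3_Uniqueness := SCN_3_Uniqueness
  rank3_Uniqueness := rank3_Uniqueness
  cent_rank3_Uniqueness := cent_rank3_Uniqueness
  nonmaxElem2_Uniqueness := nonmaxElem2_Uniqueness

end

end H13.V
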