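/-
Port of `H19/St10,H19/B10a` to the `ϖ`-local setting.
-/
import Cfsg.Agent.H13.V8

set_option autoImplicit false
set_option linter.unusedSectionVars false

namespace H13.V
export H19 (eq_bot_mono)
section
open H19
open Cfsg Subgroup

universe u

/-- BG 10.1 (a, b, c) -/
class B10_1 (G : Type u) [Group G] [VS G] : Prop where
  sigma_group_trans {M X : Subgroup G} {p : ℕ} (hM : Mx M) (hp : p ∈ sigma M) (hX : PG p X) :
    (∀ g, X ≤ M → cj g X ≤ M → ∃ m ∈ M, ∃ c ∈ C(X), g = m * c) ∧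
    (∀ L1 L2, Cjg M L1 → Cjg M L2 → X ≤ L1 → X ≤ L2 → ∃ c ∈ C(X), cj c L1 = L2) ∧
    (X ≤ M → C(X) ⊔ (M ⊓ N(X)) = N(X))

/-- BG 10.2 -/
class B10_2 (G : Type u) [Group G] [VS G] : Prop where
  Malpha_Hall {M : Subgroup G} (hM : Mx M) : Hall (alpha M) (Ma M) M
  Msigma_Hall {M : Subgroup G} (hM : Mx M) : Hall (sigma M) (Ms M) M
  Malpha_Hall_G {M : Subgroup G} (hM : Mx M) : Hall (alpha M) (Ma M) ⊤
  Msigma_Hall_G {M : Subgroup G} (hM : Mx M) : Hall (sigma M) (Ms M) ⊤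
  Msigma_der1 {M : Subgroup G} (hM : Mx M) : Ms M ≤ ⁅M, M⁆
  Malpha_quo_rank2 {M : Subgroup G} (hM : Mx M) : rk (quo (Ma M) M) ≤ 2
  Malpha_quo_nil {M : Subgroup G} (hM : Mx M) : Nil (quo (Ma M) ⁅M, M⁆)
  Msigma_neq1 {M : Subgroup G} (hM : Mx M) : Ms M ≠ ⊥

/-- BG 10.3 - 10.5 -/
class B10_3 (G : Type u) [Group G] [VS G] : Prop where
  /-- 10.3 -/
  cent_alpha'_uniq {M X : Subgroup G} (hM : Mx M) (hX : X ≤ M) (ha : PiG (alpha M)ᶜ X)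
    (hr : 2 ≤ rk (Ma M ⊓ C(X))) : Uniq (M ⊓ C(X))
  /-- 10.4(a) -/
  der1_quo_sigma' {M : Subgroup G} {p : ℕ} (hM : Mx M) (hd : p ∣ (⁅M, M⁆).relIndex M) :
    p ∉ sigma M
  /-- 10.4(b) -/
  cent1_sigma'_Zgroup {M P : Subgroup G} {p : ℕ} (hM : Mx M) (hp : p ∉ sigma M)
    (hP : Syl p P M) (h1 : P ≠ ⊥) :
    ∃ x ∈ Z(P), orderOf x = p ∧ (p ∈ vw G → ¬ UniqMax C[x] M) ∧ H18.Zgroup (Ma M ⊓ C[x])
  /-- 10.4(c) -/
  sigma'_rank2_max {M A : Subgroup G} {p : ℕ} (hM : Mx M) (hp : p ∉ sigma M)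
    (hA : El p 2 A M) : MaxEl p A ⊤
  /-- 10.4(c) -/
  sigma'_rank2_beta' {M : Subgroup G} {p : ℕ} (hM : Mx M) (hp : p ∉ sigma M)
    (hr : prk p M = 2) : p ∉ betaG G
  /-- 10.5 -/
  sigma'_norm_mmax_rank2 {M X : Subgroup G} {p : ℕ} (hw : p ∈ vw G) (hM : Mx M) (hp : p ∉ sigma M)
    (hX : PG p X) (hN : N(X) ≤ M) : prk p M = 2
  /-- 10.5 -/
  sigma'1Elem_sub_p2Elem {M X : Subgroup G} {p : ℕ} (hw : p ∈ vw G) (hM : Mx M) (hp : p ∉ sigma M)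
    (hX : El p 1 X ⊤) (hN : N(X) ≤ M) : ∃ A, El p 2 A M ∧ X ≤ A

/-- BG 10.6 -/
class B10_6 (G : Type u) [Group G] [VS G] : Prop where
  mFT_proper_plength1 {H : Subgroup G} {p : ℕ} (hp : p.Prime) (hH : Loc H) : PLen1 p H

/-- BG 10.7 -/
class B10_7 (G : Type u) [Group G] [VS G] : Prop where
  mFT_Sylow_der1 {P : Subgroup G} {p : ℕ} (hw : p ∈ vw G) (hP : Syl p P ⊤) : P ≤ ⁅N(P), N(P)⁆
  mFT_Sylow_sdprod_commg {P V : Subgroup G} {p : ℕ} (hw : p ∈ vw G) (hP : Syl p P ⊤) (h : Sdprod P V N(P)) :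
    ⁅P, V⁆ = P
  mFT_rank2_Sylow_cprod {P : Subgroup G} {p : ℕ} (hw : p ∈ vw G) (hP : Syl p P ⊤) (hr : prk p P ≤ 2)
    (hna : ¬ Ab P) :
    ∃ S Y : Subgroup G, ¬ Ab S ∧ #S = p ^ 3 ∧ (∀ x ∈ S, x ^ p = 1) ∧ Cyc Y ∧ Cprod S Y P ∧
      Ohm1 p Y = Z(S)
  mFT_sub_Sylow_trans {P Q : Subgroup G} {p : ℕ} {x : G} (hw : p ∈ vw G) (hP : Syl p P ⊤) (hQ : Q ≤ P)
    (hx : cj x Q ≤ P) : ∃ y ∈ N(P), ∃ c ∈ C(Q), x = y * c
  mFT_subnorm_Sylow {P Q : Subgroup G} {p : ℕ} (hw : p ∈ vw G) (hP : Syl p P ⊤) (hQ : Q ≤ P) :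
    Syl p (P ⊓ N(Q)) N(Q)
  mFT_Sylow_normalS {P Q R : Subgroup G} {p : ℕ} (hw : p ∈ vw G) (hP : Syl p P ⊤) (hR : PG p R) (hQP : Q ≤ P)
    (hQR : Q ≤ R) (hN : N(P) ≤ N(Q)) : N(R) ≤ N(Q)

/-- BG 10.8 -/
class B10_8 (G : Type u) [Group G] [VS G] : Prop where
  Mbeta_Hall {M : Subgroup G} (hM : Mx M) : Hall (beta M) (Mb M) M
  Mbeta_Hall_G {M : Subgroup G} (hM : Mx M) : Hall (beta M) (Mb M) ⊤
  beta_max_pdiv {M : Subgroup G} {p : ℕ} (hM : Mx M) (hp : p ∉ beta M) :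
    Hall {p}ᶜ (Oc {p}ᶜ ⁅M, M⁆) ⁅M, M⁆ ∧ Hall {p}ᶜ (Oc {p}ᶜ (Ms M)) (Ms M) ∧
      ∀ q : ℕ, q.Prime → q ∣ (Oc {p}ᶜ M).relIndex M → q ≤ p
  Mbeta_quo_nil {M : Subgroup G} (hM : Mx M) : Nil (quo (Mb M) ⁅M, M⁆)
  beta'_der1_nil {M H : Subgroup G} (hM : Mx M) (hH : PiG (beta M)ᶜ H) (hle : H ≤ ⁅M, M⁆) :
    Nil H

/-- BG 10.9 -/
class B10_9 (G : Type u) [Group G] [VS G] : Prop where
  beta'_cent_Sylow {M X : Subgroup G} {p q : ℕ} (hM : Mx M) (hp : p ∉ beta M)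
    (hq : q ∉ beta M) (hX : PG q X) (h : (p ≠ q ∧ X ≤ ⁅M, M⁆) ∨ (p < q ∧ X ≤ M)) :
    (∃ S, Syl p S (Ms M) ∧ S ≤ C(X)) ∧ (p ∈ alpha M → Uniq (M ⊓ C(X))) ∧
      (Syl q X ⁅M, M⁆ → ∃ S, Syl p S ⁅M, M⁆ ∧ S ≤ ⁅M ⊓ N(X), M ⊓ N(X)⁆)
  nonuniq_norm_Sylow_pprod {M H S : Subgroup G} {p : ℕ} (hw : p ∈ vw G) (hM : Mx M) (hH : Mx H)
    (hne : H ≠ M) (hS : Syl p S ⊤) (hNH : N(S) ≤ H) (hNM : N(S) ≤ M) :
    Mb M ⊔ (H ⊓ M) = M ∧ alpha M = beta M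

/-- BG 10.10 -/
class B10_10 (G : Type u) [Group G] [VS G] : Prop where
  max_normed_2Elem_signaliser {A Q : Subgroup G} {p q : ℕ} (hw : p ∈ vw G) (hq : q.Prime) (hpq : p ≠ q)
    (hA : El p 2 A ⊤) (hmax : MaxEl p A ⊤) (hQ : Q ∈ maxInvSubgroups ⊤ A {q}) (hd : q ∣ #(C(A))) :
    ∃ P, Syl p P ⊤ ∧ A ≤ P ∧ Oc {p}ᶜ C(P) ⊔ (N(P) ⊓ N(Q)) = N(P) ∧ P ≤ ⁅N(Q), N(Q)⁆ ∧
      (Narrow q Q → P ≤ C(Q))

/-- BG 10.11 -/
class B10_11 (G : Type u) [Group G] [VS G] : Prop where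
  sigma'_not_uniq {M K : Subgroup G} (hw : PiG (vw G) K) (hM : Mx M) (hK : K ≤ M) (hs : PiG (sigma M)ᶜ K) :
    ¬ Uniq K
  sub'cent_sigma_rank1 {M K : Subgroup G} (hM : Mx M) (hK : K ≤ M)
    (hs : PiG (sigma M)ᶜ K) : rk (K ⊓ C(Ms M)) ≤ 1
  sub'cent_sigma_cyclic {M K : Subgroup G} (hM : Mx M) (hK : K ≤ M)
    (hs : PiG (sigma M)ᶜ K) :
    Cyc (K ⊓ C(Ms M) ⊓ ⁅M, M⁆) ∧ M ≤ N(K ⊓ C(Ms M) ⊓ ⁅M, M⁆)
  commG_sigma'_1Elem_cyclic {M K P : Subgroup G} {p : ℕ} (hM : Mx M) (hK : K ≤ M)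
    (hs : PiG (sigma M)ᶜ K) (hp : p ∉ sigma M) (hP : El p 1 P M) (hPK : P ≤ N(K))
    (hreg : Ms M ⊓ C(P) = ⊥) (hK' : PiG {p}ᶜ K) (hab : Ab K) :
    ⁅K, P⁆ ≤ C(Ms M) ∧ Cyc ⁅K, P⁆ ∧ M ≤ N(⁅K, P⁆)

/-- BG 10.12 -/
class B10_12 (G : Type u) [Group G] [VS G] : Prop where
  sigma_disjoint {M H : Subgroup G} (hM : Mx M) (hH : Mx H) (hnc : ¬ Cjg M H) :
    (Ma M ⊓ Ms H = ⊥ ∧ ∀ p ∈ alpha M, p ∉ sigma H) ∧
      (Nil (Ms M) → Ms M ⊓ Ms H = ⊥ ∧ ∀ p ∈ sigma M, p ∉ sigma H)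

/-- BG 10.13 -/
class B10_13 (G : Type u) [Group G] [VS G] : Prop where
  basic_p2maxElem_structure {A P : Subgroup G} {p : ℕ} (hw : p ∈ vw G) (hA : El p 2 A ⊤) (hmax : MaxEl p A ⊤)
    (hP : PG p P) (hAP : A ≤ P) (hna : ¬ Ab P) :
    El p 1 (Ohm1 p Z(P)) A ∧
      (∃ Y : Subgroup G, Cyc Y ∧ Ohm1 p Z(P) ≤ Y ∧
        ∀ A0, El p 1 A0 A → A0 ≠ Ohm1 p Z(P) → Dprod A0 Y (P ⊓ C(A))) ∧
      ∀ A0 A1, El p 1 A0 A → A0 ≠ Ohm1 p Z(P) → El p 1 A1 A → A1 ≠ Ohm1 p Z(P) →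
        ∃ g ∈ P ⊓ N(A), cj g A0 = A1

/-- BG 10.14 -/
class B10_14 (G : Type u) [Group G] [VS G] : Prop where
  beta_not_narrow {A : Subgroup G} {p : ℕ} (hp : p ∈ betaG G) (hA : El p 2 A ⊤) :
    ¬ MaxEl p A ⊤ ∧ ∀ P, Syl p P ⊤ → ¬ MaxEl p A P
  beta_noncyclic_uniq {R : Subgroup G} {p : ℕ} (hp : p ∈ betaG G) (hR : PG p R)
    (hr : ¬ Cyc R) : Uniq R
  beta_subnorm_uniq {P X : Subgroup G} {p : ℕ} (hp : p ∈ betaG G) (hP : Syl p P ⊤) (hX : X ≤ P) :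
    Uniq (P ⊓ N(X))
  beta_norm_sub_mmax {M Y : Subgroup G} (hM : Mx M) (hY : Y ≤ M) (hb : PiG (beta M) Y)
    (h1 : Y ≠ ⊥) : N(Y) ≤ M

/-- all of BG section 10 -/
class abbrev B10 (G : Type u) [Group G] [VS G] : Prop :=
  B10_1 G, B10_2 G, B10_3 G, B10_6 G, B10_7 G, B10_8 G, B10_9 G, B10_10 G, B10_11 G, B10_12 G,
  B10_13 G, B10_14 G

/-- BG 11.1 - 11.4 -/
class B11_1 (G : Type u) [Group G] [VS G] : Prop where
  /-- 11.1 -/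
  exceptional_TIsigmaJ {M A0 A Q1 Q2 : Subgroup G} {p q : ℕ} {g : G} (hM : Mx M)
    (hx : Exceptional p M A0 A) (hg : g ∉ M) (hA : A ≤ cj g M) (h1 : Syl q Q1 (Ms M))
    (hn1 : A ≤ N(Q1)) (h2 : Syl q Q2 (cj g (Ms M))) (hn2 : A ≤ N(Q2)) :
    Q1 ⊓ Q2 = ⊥ ∧ ∀ X, El p 1 X A → Q1 ⊓ C(X) = ⊥ ∨ Q2 ⊓ C(X) = ⊥
  /-- 11.2 -/
  exceptional_TI_MsigmaJ {M A0 A : Subgroup G} {p : ℕ} {g : G} (hM : Mx M)
    (hx : Exceptional p M A0 A) (hg : g ∉ M) (hA : A ≤ cj g M) :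
    Ms M ⊓ cj g M = ⊥ ∧ Ms M ⊓ C(cj g A0) = ⊥
  /-- 11.3 -/
  exceptional_sigma_nil {M A0 A : Subgroup G} {p : ℕ} (hM : Mx M)
    (hx : Exceptional p M A0 A) : Nil (Ms M)
  /-- 11.4 -/
  exceptional_sigma_uniq {M A0 A H : Subgroup G} {p : ℕ} (hM : Mx M)
    (hx : Exceptional p M A0 A) (hH : Mx H) (hA : A ≤ H) (h : Ms H ⊓ Ms M ≠ ⊥) : H = M

/-- BG 11.5, 11.6 -/
class B11_5 (G : Type u) [Group G] [VS G] : Prop where
  exceptional_Sylow_abelian {M A0 A P : Subgroup G} {p : ℕ} (hM : Mx M)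
    (hx : Exceptional p M A0 A) (hP : Syl p P M) : Ab P
  exceptional_structure {M A0 A P : Subgroup G} {p : ℕ} (hM : Mx M)
    (hx : Exceptional p M A0 A) (hP : Syl p P M) (hAP : A ≤ P) :
    Ohm1 p P = A ∧ Ms M ⊓ C(A) = ⊥ ∧
      ∃ A1 A2, El p 1 A1 A ∧ El p 1 A2 A ∧ A1 ≠ A2 ∧ Ms M ⊓ C(A1) = ⊥ ∧ Ms M ⊓ C(A2) = ⊥

/-- BG 11.7 -/
class B11_7 (G : Type u) [Group G] [VS G] : Prop where
  exceptional_mul_sigma_normal {M A0 A : Subgroup G} {p : ℕ} (hM : Mx M)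
    (hx : Exceptional p M A0 A) : M ≤ N(Ms M ⊔ A)

/-- all of BG section 11 -/
class abbrev B11 (G : Type u) [Group G] [VS G] : Prop := B11_1 G, B11_5 G, B11_7 G

end

section
open H19
open Cfsg Subgroup H18

universe u
variable {G : Type u} [Group G] [Finite G] [VS G] [Gen.{u}] [U79 G] {π : Set ℕ} {p q : ℕ}
  {A B E H K L M P Q R S U V X Y : Subgroup G}

theorem mFT_perfect : ⁅(⊤ : Subgroup G), (⊤ : Subgroup G)⁆ = ⊤ := by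
  by_contra e
  by_cases h : ⁅(⊤ : Subgroup G), (⊤ : Subgroup G)⁆ = ⊥
  · exact mFT_nonsol (sol_of_ab (comm_iff_der.2 h))
  · exact mFT_norm_ne_top h e (top_le_iff.1 (der_normal ⊤).norm)

theorem uniq_of_prk3 (hK : Loc K) (h : 2 < prk p K) : Uniq K :=
  U9.rank3_Uniqueness hK (h.trans_le (prk_le_rk p K))

theorem alpha_sub_sigma (hM : Mx M) : alpha M ⊆ sigma M := fun p hp => by
  obtain ⟨P, hP⟩ := exists_syl p M
  exact mem_sigma_of hM.1 (alpha_w hM.1 hp) hP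
    (uniq_norm_le (uniq_of_prk3 (hM.loc hP.le) (hP.prk_syl ▸ mem_alpha.1 hp)) hM hP.le)
theorem beta_sub_sigma (hM : Mx M) : beta M ⊆ sigma M :=
  beta_sub_alpha.trans (alpha_sub_sigma hM)
theorem Malpha_sub_Msigma (hM : Mx M) : Ma M ≤ Ms M := Oc_mono (alpha_sub_sigma hM) M
theorem Mbeta_sub_Msigma (hM : Mx M) : Mb M ≤ Ms M := Oc_mono (beta_sub_sigma hM) M
theorem sigma'_alpha' (hM : Mx M) (hp : p ∉ sigma M) : p ∉ alpha M :=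
  fun h => hp (alpha_sub_sigma hM h)
theorem sigma'_prk_le (hM : Mx M) (hp : p ∉ sigma M) : prk p M ≤ 2 :=
  not_mem_alpha.1 (sigma'_alpha' hM hp)
theorem sigma'_rk_le (hM : Mx M) (hK : K ≤ M) (hs : PiG (sigma M)ᶜ K) : rk K ≤ 2 :=
  rk_le_iff.2 fun p _ => by
    by_cases h : p ∈ sigma M
    · rw [prk_eq_zero (hs.compl_sing' h)]; omega
    · exact (prk_mono p hK).trans (sigma'_prk_le hM h)

theorem sigma_trans_aux (hM : Mx M) (hp : p ∈ sigma M) (X : Subgroup G) :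
    PG p X → ∀ L1 L2, Cjg M L1 → Cjg M L2 → X ≤ L1 → X ≤ L2 → ∃ c ∈ C(X), cj c L1 = L2 := by
  induction X using WellFoundedGT.induction with
  | ind X ih =>
  intro hX L1 L2 h1 h2 l1 l2
  have hp1 : p ∈ sigma L1 := h1.vsigma_eq ▸ hp
  have hp2 : p ∈ sigma L2 := h2.vsigma_eq ▸ hp
  obtain ⟨h, rfl⟩ := h1.symm.trans h2
  by_cases hb : X = ⊥
  · exact ⟨h, by rw [hb, cent_bot]; trivial, rfl⟩
  by_cases hS : Syl p X ⊤
  · have := sigma_Sylow_trans hp1 (hS.of_le l1 le_top) (le_cj_iff.1 l2)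
    exact ⟨1, one_mem _, by rw [cj_one, cj_of_mem (inv_mem_iff.1 this)]⟩
  obtain ⟨X1, a1, a2, a3, a4⟩ := hX.exists_lt_norm l1 fun e => hS (sigma_Sylow_G hp1 e)
  obtain ⟨X2, b1, b2, b3, b4⟩ := hX.exists_lt_norm l2 fun e => hS (sigma_Sylow_G hp2 e)
  obtain ⟨P, hP, hXP⟩ := a2.exists_syl a4
  obtain ⟨t, ht, htP⟩ := hP.scj_le b4 b2
  obtain ⟨S, hS'⟩ := exists_syl p M
  obtain ⟨g, -, hg⟩ := (sigma_Sylow_G hp hS').sle_cj le_top hP.pi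
  have hP0 : P ≤ cj g M := hg.trans (cj_mono g hS'.le)
  obtain ⟨c1, hc1, e1⟩ := ih X1 a1 a2 L1 _ h1 (cjg_cj g M) a3 (hXP.trans hP0)
  have hlt : X < cj t X2 := by
    rw [← cj_of_mem_norm ht]; exact lt_of_le_of_ne (cj_mono t b1.le) fun e => b1.ne (cj_inj.1 e)
  obtain ⟨c2, hc2, e2⟩ := ih _ hlt (b2.J t) _ _ (cjg_cj g M) (h2.trans (cjg_cj t _))
    (htP.trans hP0) (cj_mono t b3)
  have key : ∀ s ∈ N(X), ∃ c ∈ C(X), cj c (cj g M) = cj s (cj g M) := by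
    intro s hs
    have hN := hX.vnorm (sigma_w hp) hb
    by_cases hr : 2 < prk p P
    · have := uniq_sub (uniq_of_prk3 (hP.pi.vloc (sigma_w hp)) hr) (coatom_J hM g) hP0 hP.le hN
      exact ⟨1, one_mem _, by rw [cj_one, cj_of_mem (this hs)]⟩
    · have hl := (G4b.rank2_der1_complement (sigma_prime hp) (mFT_sol hN) hN.odd
        (hP.prk_syl ▸ not_lt.1 hr)).2.2
      rw [← (G6.plength1_Frattini (sigma_prime hp) hl hP).1,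
        mem_sup_of_norm (inf_le_left.trans (Oc_norm _ _))] at hs
      obtain ⟨c, hc, n, hn, rfl⟩ := hs
      obtain ⟨c', hc', e⟩ := ih P (a1.trans_le hXP) hP.pi _ _ (cjg_cj g M)
        ((cjg_cj g M).trans (cjg_cj n _)) hP0 (cj_of_mem_norm hn.2 ▸ cj_mono n hP0)
      exact ⟨c * c', mul_mem (Oc_cents' (normalIn_norm X) hX hc)
        (cent_mono (a1.le.trans hXP) hc'), by rw [cj_mul, e, cj_mul]⟩
  obtain ⟨c, hc, e⟩ := key (t⁻¹ * c2) (mul_mem (inv_mem ht) (cent_le_norm X (cent_mono hlt.le hc2)))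
  refine ⟨c * c1, mul_mem hc (cent_mono a1.le hc1), ?_⟩
  rw [cj_mul, e1, e, cj_mul, e2]; simp

/-- 10.1(a) -/
theorem sigma_trans_mul (hM : Mx M) (hp : p ∈ sigma M) (hX : PG p X) (hle : X ≤ M) {g : G}
    (h : cj g X ≤ M) : ∃ m ∈ M, ∃ c ∈ C(X), g = m * c := by
  obtain ⟨c, hc, e⟩ := sigma_trans_aux hM hp X hX M _ (Cjg.refl M) (cjg_cj g⁻¹ M) hle
    (cj_le_iff.1 h)
  refine ⟨g * c, mem_of_cj_eq hM (by rw [cj_mul, e]; simp), c⁻¹, inv_mem hc, by simp⟩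

instance inst_B10_1 : B10_1 G where
  sigma_group_trans {M X p} hM hp hX := by
    refine ⟨fun g h1 h2 => sigma_trans_mul hM hp hX h1 h2, sigma_trans_aux hM hp X hX, fun hle => ?_⟩
    refine le_antisymm (sup_le (cent_le_norm X) inf_le_right) fun n hn => ?_
    obtain ⟨m, hm, c, hc, rfl⟩ := sigma_trans_mul hM hp hX hle ((cj_of_mem_norm hn).le.trans hle)
    refine mul_mem (mem_sup_right ⟨hm, ?_⟩) (mem_sup_left hc)
    simpa using mul_mem hn (inv_mem (cent_le_norm X hc))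

theorem sigma_Sylow_der1 (hM : Mx M) (hp : p ∈ sigma M) (hP : Syl p P M) : P ≤ ⁅M, M⁆ := by
  have := G1b.focal_subgroup_gen (L := ⁅M, M⁆) (sigma_Sylow_G hp hP) fun x hx g _ hg => by
    obtain ⟨m, hm, c, hc, rfl⟩ := sigma_trans_mul hM hp (hP.pi.of_le (zpowers_le.2 hx))
      (zpowers_le.2 (hP.le hx)) (g := g) (by rw [cj_zpowers]; exact zpowers_le.2 (hP.le hg))
    rw [cent_zpowers, mem_cent1] at hc
    have : m * c * x * (m * c)⁻¹ * x⁻¹ = m * x * m⁻¹ * x⁻¹ := by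
      rw [mul_assoc m c x, hc]; group
    rw [this]; exact commutator_mem_commutator hm (hP.le hx)
  rwa [mFT_perfect, inf_top_eq] at this

theorem sigma_hall_der1 (hM : Mx M) (hs : π ⊆ sigma M) (hH : Hall π H M) : H ≤ ⁅M, M⁆ :=
  le_of_exists_syl fun p hp hd =>
    let ⟨P, hP⟩ := exists_syl p H
    ⟨P, hP, sigma_Sylow_der1 hM (hs (hH.pi p hp hd)) (hH.sub_syl (hH.pi p hp hd) hP)⟩

theorem Malpha_quo_nil (hM : Mx M) : Nil (quo (Ma M) ⁅M, M⁆) := by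
  have hn := Oc_norm (alpha M) M
  rw [quo_comm hn hn]
  refine nil_mono (Fit_nil _) (G4b.rank2_der1_sub_Fitting (mFT_quo_odd _ hM.1)
    (sol_quo (mmax_sol hM) _) (rk_le_iff.2 fun q _ => ?_))
  by_cases h : q ∈ alpha M
  · rw [← (Oc_Fit_syl q _).prk_syl,
      eq_bot_mono (Oc_mono (Set.singleton_subset_iff.2 h) _) (Oc_quo_Oc _ _), prk_bot]
    omega
  · refine (prk_mono q (Fit_le _)).trans ?_
    rw [prk_quo hn ((Oc_pi _ _).compl_sing h)]; exact not_mem_alpha.1 h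

theorem Oc_hall_of_alpha_sub (hM : Mx M) (h1 : alpha M ⊆ π) (h2 : π ⊆ sigma M) :
    Hall π (Oc π M) M := by
  obtain ⟨H, hH⟩ := exists_hall π (mmax_sol hM)
  have h3 := sigma_hall_der1 hM h2 hH
  have := (hH.of_le h3 (der_le M)).sup_norm_of_nil_quo ((der_le M).trans (Oc_norm _ _))
    (Malpha_quo_nil hM) (Oc_norm _ _) (der_normal M).norm
  rw [sup_eq_right.2 ((Oc_mono h1 M).trans (Oc_le_hall hH))] at this
  exact hH.Oc_hall this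

theorem Malpha_Hall (hM : Mx M) : Hall (alpha M) (Ma M) M :=
  Oc_hall_of_alpha_sub hM le_rfl (alpha_sub_sigma hM)
theorem Msigma_Hall (hM : Mx M) : Hall (sigma M) (Ms M) M :=
  Oc_hall_of_alpha_sub hM (alpha_sub_sigma hM) le_rfl
theorem Msigma_Hall_G (hM : Mx M) : Hall (sigma M) (Ms M) ⊤ := (Msigma_Hall hM).vsigma_top le_rfl
theorem Msigma_der1 (hM : Mx M) : Ms M ≤ ⁅M, M⁆ := sigma_hall_der1 hM le_rfl (Msigma_Hall hM)
theorem Malpha_der1 (hM : Mx M) : Ma M ≤ ⁅M, M⁆ := (Malpha_sub_Msigma hM).trans (Msigma_der1 hM)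
theorem le_Msigma (hM : Mx M) (hK : K ≤ M) (hs : PiG (sigma M) K) : K ≤ Ms M :=
  (Msigma_Hall hM).le_Oc hK hs
theorem Malpha_ne_bot (hM : Mx M) (hp : p ∈ alpha M) : Ma M ≠ ⊥ :=
  (Malpha_Hall hM).ne_bot (alpha_prime hp) hp (alpha_dvd hp)
theorem sigma_dvd_Ms (hM : Mx M) (hp : p ∈ sigma M) : p ∣ #(Ms M) :=
  (Msigma_Hall hM).prime_dvd (sigma_prime hp) hp (sigma_dvd hp)
theorem syl_Ms (hM : Mx M) (hp : p ∈ sigma M) (hP : Syl p P (Ms M)) : Syl p P M :=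
  (Msigma_Hall hM).sub_syl hp hP
theorem syl_Ms_top (hM : Mx M) (hp : p ∈ sigma M) (hP : Syl p P (Ms M)) : Syl p P ⊤ :=
  (Msigma_Hall_G hM).sub_syl hp hP
theorem syl_Ms_of (hM : Mx M) (hp : p ∈ sigma M) (hP : Syl p P M) : Syl p P (Ms M) :=
  hP.of_le (le_Msigma hM hP.le (hP.pi.sing hp)) (Ms_le M)

/-- a nontrivial proper subgroup of rank at most two has a nontrivial normal Sylow subgroup -/
theorem rank2_exists_normal_syl (hs : Loc H) (h1 : H ≠ ⊥) (hr : rk H ≤ 2) :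
    ∃ q, Syl q (Oc {q} H) H ∧ Oc {q} H ≠ ⊥ := by
  obtain ⟨q, hq, hd, hmax⟩ := exists_max_prime (ne_bot_iff_one_lt_card.1 h1)
  have := G4b.rank2_max_pcore_Sylow hs.odd hs.sol ((rk_mono (Fit_le H)).trans hr) hmax
  exact ⟨q, this, this.sne_bot hq hd⟩

theorem Msigma_neq1 (hM : Mx M) : Ms M ≠ ⊥ := by
  by_cases h : Ma M = ⊥
  · obtain ⟨q, h1, h2⟩ := rank2_exists_normal_syl hM.1 (mmax_ne_bot hM)
      (rk_le_iff.2 fun q _ => not_mem_alpha.1 fun e => Malpha_ne_bot hM e h)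
    have := mem_sigma_of hM.1 (h1.pi.mem_of_ne_bot h2 ((Fit_w hM).of_le (Oc_le_Fit q M))) h1 (mmax_normal hM (Oc_normal _ _) h2).le
    exact ne_bot_mono (Oc_mono (Set.singleton_subset_iff.2 this) M) h2
  · exact ne_bot_mono (Malpha_sub_Msigma hM) h

instance inst_B10_2 : B10_2 G where
  Malpha_Hall := Malpha_Hall
  Msigma_Hall := Msigma_Hall
  Malpha_Hall_G hM := (Malpha_Hall hM).vsigma_top (alpha_sub_sigma hM)
  Msigma_Hall_G := Msigma_Hall_G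
  Msigma_der1 := Msigma_der1
  Malpha_quo_rank2 {M} hM := rk_le_iff.2 fun q _ => by
    have hn := Oc_norm (alpha M) M
    by_cases h : q ∈ alpha M
    · rw [prk_eq_zero (((piG_quo_iff hn).2 (Malpha_Hall hM).idx).compl_sing' h)]; omega
    · rw [prk_quo hn ((Oc_pi _ _).compl_sing h)]; exact not_mem_alpha.1 h
  Malpha_quo_nil := Malpha_quo_nil
  Msigma_neq1 := Msigma_neq1

theorem norm_Msigma (hM : Mx M) : N(Ms M) = M := mmax_normal hM (Ms_normal M) (Msigma_neq1 hM)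
theorem sdprod_sigma (hM : Mx M) (hE : Hall (sigma M)ᶜ E M) : Sdprod (Ms M) E M :=
  sdprod_of_hall (Msigma_Hall hM) (Ms_norm M) hE
theorem Msigma_lt (hM : Mx M) : Ms M < M := (Msigma_der1 hM).trans_lt (der_lt_mmax hM)
theorem sigma_compl_ne_bot (hM : Mx M) (hE : Hall (sigma M)ᶜ E M) : E ≠ ⊥ := fun e =>
  (Msigma_lt hM).ne (by simpa [e] using (sdprod_sigma hM hE).sup)

/-- 10.3 -/
theorem cent_alpha'_uniq (hM : Mx M) (hX : X ≤ M) (ha : PiG (alpha M)ᶜ X)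
    (hr : 2 ≤ rk (Ma M ⊓ C(X))) : Uniq (M ⊓ C(X)) := by
  obtain ⟨p, B, hB⟩ := exists_el_of_le_rk hr
  have hne : Loc (M ⊓ C(X)) := loc_mono inf_le_left hM.1
  have hBM : B ≤ M ⊓ C(X) := hB.le.trans (inf_le_inf_right _ (Oc_le _ _))
  by_cases hm : MaxEl p B ⊤
  swap
  · exact uniq_mono (U9.nonmaxElem2_Uniqueness (hne.el2 (hB.of_le hBM)) hB.top hm) hBM hne
  have hp : p ∈ alpha M := hB.mem_pi ((Oc_pi _ _).infl _)
  obtain ⟨P, hP, hn, hBP⟩ := inv_syl_ge (hX.trans (Oc_norm _ _)) ((Oc_pi _ _).coprime ha)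
    (Or.inl (mmax_sub_sol hM hX)) (hB.le.trans inf_le_left)
    (norms_of_cents (cents_symm (hB.le.trans inf_le_right))) hB.pg
  have hc := G1a.coprime_odd_faithful_cent_abelem hP.pi hn ((hP.pi.sing hp).coprime ha) (hM.odd (hP.le.trans (Oc_le _ _)))
    hBP hB.ab fun x hx e => (hB.le (hm.mem trivial hx.2 e)).2
  refine uniq_mono (uniq_of_prk3 (p := p) (hM.loc (hP.le.trans (Oc_le _ _))) ?_)
    (le_inf (hP.le.trans (Oc_le _ _)) (cents_symm hc)) hne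
  rw [((Malpha_Hall hM).sub_syl hp hP).prk_syl]; exact mem_alpha.1 hp

theorem der1_quo_sigma' (hM : Mx M) (hd : p ∣ (⁅M, M⁆).relIndex M) : p ∉ sigma M :=
  fun hp => (Msigma_Hall hM).idx p (sigma_prime hp)
    (hd.trans (relIndex_dvd_left (Msigma_der1 hM) M)) hp

theorem cent1_sigma'_Zgroup (hM : Mx M) (hp : p ∉ sigma M) (hP : Syl p P M) (h1 : P ≠ ⊥) :
    ∃ x ∈ Z(P), orderOf x = p ∧ (p ∈ vw G → ¬ UniqMax C[x] M) ∧ Zgroup (Ma M ⊓ C[x]) := by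
  have hpp := hP.pi.prime_of_ne_bot h1
  by_cases hw : p ∈ vw G
  swap
  · obtain ⟨x, hx, e⟩ := exists_orderOf_eq_prime hpp
      ((hP.pi.infl _).dvd_of_ne_bot (hP.pi.center_ne_bot h1))
    refine ⟨x, hx, e, fun h => absurd h hw, ?_⟩
    have hx1 : x ≠ 1 := fun e1 => hpp.ne_one (by rw [← e, e1, orderOf_one])
    rw [w'_semireg (Ma_w hM.1) (hP.pi.sing hw) x hx.1 hx1]
    exact zgroup_of_rk (by simp) (cyc_rk cyc_bot)
  obtain ⟨u, hu, huM⟩ := SetLike.not_le_iff_exists.1 (not_norm_sigma' hM.1 hw hp hP)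
  have : ∃ x ∈ Z(P), orderOf x = p ∧ ¬ UniqMax C[x] M := by
    obtain ⟨x, hx, e⟩ := exists_orderOf_eq_prime hpp
      ((hP.pi.infl _).dvd_of_ne_bot (hP.pi.center_ne_bot h1))
    by_contra hc; push Not at hc
    have h2 := hc _ (conj_mem_of_norm (norm_le_norm_center P hu) hx) ((orderOf_conj' u x).trans e)
    rw [← cj_cent1] at h2
    exact cj_ne_of_not_mem hM huM (((hc x hx e).J u).eq h2)
  obtain ⟨x, hx, e, h2⟩ := this
  refine ⟨x, hx, e, fun _ => h2, zgroup_of_rk (hM.odd (inf_le_left.trans (Oc_le _ _))) (not_lt.1 fun hr => h2 ?_)⟩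
  have hx1 : x ≠ 1 := fun e1 => hpp.ne_one (by rw [← e, e1, orderOf_one])
  rw [← cent_zpowers] at hr
  have := cent_alpha'_uniq hM (zpowers_le.2 (hP.le hx.1))
    ((hP.pi.of_le (zpowers_le.2 hx.1)).sing (sigma'_alpha' hM hp)) hr
  rw [cent_zpowers] at this
  exact (uniqMax_of_uniq this hM inf_le_left).mono inf_le_right (loc_cent1 ((hP.pi.sing hw).elt hx.1) hx1)

theorem sigma'_rank2_max (hM : Mx M) (hp : p ∉ sigma M) (hA : El p 2 A M) : MaxEl p A ⊤ := by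
  by_contra e
  obtain ⟨P, hP, hAP⟩ := hA.pg.exists_syl hA.le
  exact not_norm_sigma' hM.1 (hM.1.el2 hA) hp hP
    (uniq_norm_le (uniq_mono (U9.nonmaxElem2_Uniqueness (hM.1.el2 hA) hA.top e) hAP (hM.loc hP.le)) hM hP.le)

theorem not_betaG_of_maxEl (hA : El p 2 A H) (hm : MaxEl p A ⊤) : p ∉ betaG G := fun h => by
  obtain ⟨P, hP, hAP⟩ := hA.pg.exists_syl le_top
  exact betaG_not_narrow h hP fun _ => ⟨A, hA.of_le hAP, hm.of_le hAP le_top⟩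

theorem sigma'_norm_mmax_rank2 (hw : p ∈ vw G) (hM : Mx M) (hp : p ∉ sigma M) (hX : PG p X)
    (hN : N(X) ≤ M) : prk p M = 2 := by
  refine le_antisymm (sigma'_prk_le hM hp) (not_lt.1 fun h => ?_)
  obtain ⟨P, hP, hXP⟩ := hX.exists_syl (le_normalizer.trans hN)
  exact not_norm_sigma' hM.1 hw hp hP
    ((cyc_norm (mFT_cyc_of_prk' hM.1 hP.pi hP.le (by omega)) hXP).trans hN)

instance inst_B10_3 : B10_3 G where
  cent_alpha'_uniq := cent_alpha'_uniq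
  der1_quo_sigma' := der1_quo_sigma'
  cent1_sigma'_Zgroup := cent1_sigma'_Zgroup
  sigma'_rank2_max := sigma'_rank2_max
  sigma'_rank2_beta' hM hp hr :=
    let ⟨_, hA⟩ := exists_el_succ hr.ge; not_betaG_of_maxEl hA (sigma'_rank2_max hM hp hA)
  sigma'_norm_mmax_rank2 := sigma'_norm_mmax_rank2
  sigma'1Elem_sub_p2Elem {M X p} hw hM hp hX hN := by
    obtain ⟨P, hP, hXP⟩ := hX.pg.exists_syl (le_normalizer.trans hN)
    have hZ : ¬ Ohm1 p Z(P) ≤ X := fun e => not_norm_sigma' hM.1 hw hp hP <| by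
      rw [← hX.eq_of_ne_bot e (hP.pi.Ohm1_center_ne_bot (ne_bot_mono hXP hX.ne_bot))] at hN
      exact (norm_le_norm_Ohm1_center p P).trans hN
    obtain ⟨Y, hY, hYX⟩ := (el_Ohm1 hX.prime (comm_center P)).exists_el1_not_le hZ
    have h1 : Y ≤ Z(P) := hY.le.trans (Ohm1_le _ _)
    exact ⟨X ⊔ Y, (hX.of_le (hXP.trans hP.le)).sup2 (hY.of_le (h1.trans (inf_le_left.trans hP.le)))
      (cents_symm (h1.trans (inf_le_right.trans (cent_mono hXP)))) fun e => hYX e.ge, le_sup_left⟩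

theorem exists_prime_dvd_der_index (hM : Mx M) :
    ∃ q, q.Prime ∧ q ∣ (⁅M, M⁆).relIndex M :=
  Nat.exists_prime_and_dvd fun e => (der_lt_mmax hM).not_ge (relIndex_eq_one.1 e)

/-- 10.6 -/
theorem mFT_proper_plength1 (hp : p.Prime) (hH : Loc H) : PLen1 p H := by
  obtain ⟨M, hM, hle⟩ := mmax_exists hH
  refine G1b.plength1S hp hle ?_
  by_cases ha : p ∈ alpha M
  swap
  · exact (G4b.rank2_der1_complement hp (mmax_sol hM) hM.1.odd (not_mem_alpha.1 ha)).2.2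
  refine G1b.plength1_of_normal hp (Oc_normal (alpha M) M) ((Malpha_Hall hM).idx.compl_sing' ha) ?_
  obtain ⟨K, hK⟩ := exists_hall (alpha M)ᶜ (mmax_sol hM)
  have hsd := sdprod_of_hall (Malpha_Hall hM) (Oc_norm _ _) hK
  have hc := (Oc_pi (alpha M) M).coprime hK.pi
  obtain ⟨q, hq, hd⟩ := exists_prime_dvd_der_index hM
  have hqs := der1_quo_sigma' hM hd
  obtain ⟨Q, hQ, hQK⟩ := hK.exists_syl (p := q) (sigma'_alpha' hM hqs)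
  obtain ⟨x, hx, e, -, hZ⟩ := cent1_sigma'_Zgroup hM hqs hQ
    (hQ.sne_bot hq (hd.trans (relIndex_dvd_card _ _)))
  have e2 := (G6.coprime_der1_sdprod hsd hc (mmax_sub_sol hM (Oc_le _ _)) (Malpha_der1 hM)).1
  have := G3_6.odd_sdprod_Zgroup_cent_prime_plength1 hp (mmax_sol hM) hM.1.odd hsd hc
    (zpowers_le.2 (hQK hx.1)) (by rwa [Nat.card_zpowers, e]) (by rwa [cent_zpowers])
  exact (congrArg (PLen1 p) e2).mp this

instance inst_B10_6 : B10_6 G := ⟨mFT_proper_plength1⟩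

end

end H13.V
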