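/-
Port of `H19/B10b,H19/B10c` to the `ϖ`-local setting.
-/
import Cfsg.Agent.H13.V10a

set_option autoImplicit false
set_option linter.unusedSectionVars false

namespace H13.V
section
open H19
open Cfsg Subgroup H18

universe u

section general
variable {G : Type*} [Group G] [Finite G] {π : Set ℕ} {p q : ℕ} {A B H K M P Q R : Subgroup G}

end general

variable {G : Type u} [Group G] [Finite G] [VS G] [Gen.{u}] [U79 G] {π : Set ℕ} {p q : ℕ}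
  {A B E H K L M P Q R S U V X Y : Subgroup G}

theorem exists_sigma_of_syl (hw : p ∈ vw G) (hP : Syl p P ⊤) (h1 : P ≠ ⊥) :
    ∃ M, Mx M ∧ N(P) ≤ M ∧ p ∈ sigma M ∧ Syl p P M := by
  obtain ⟨M, hM, hN⟩ := exists_mmax_norm h1 (hP.pi.sing hw)
  have := hP.of_le (le_normalizer.trans hN) le_top
  exact ⟨M, hM, hN, mem_sigma_of hM.1 hw this hN, this⟩

theorem mFT_Sylow_der1 (hw : p ∈ vw G) (hP : Syl p P ⊤) : P ≤ ⁅N(P), N(P)⁆ := by
  by_cases h1 : P = ⊥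
  · exact h1.le.trans bot_le
  obtain ⟨M, hM, hN, hp, hS⟩ := exists_sigma_of_syl hw hP h1
  have := G6.plength1_Sylow_sub_der1 (sigma_prime hp) (mFT_proper_plength1 (sigma_prime hp) hM.1) hS
    (sigma_Sylow_der1 hM hp hS)
  rwa [inf_eq_right.2 hN] at this

theorem mFT_Sylow_sdprod_commg (hw : p ∈ vw G) (hP : Syl p P ⊤) (h : Sdprod P V N(P)) : ⁅P, V⁆ = P :=
  (G6.coprime_der1_sdprod h (hP.pi.coprime (h.hall_right (hP.of_le le_normalizer le_top)).pi)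
    hP.pi.sol (mFT_Sylow_der1 hw hP)).1

theorem mFT_rank2_Sylow_cprod (hw : p ∈ vw G) (hP : Syl p P ⊤) (hr : prk p P ≤ 2) (hna : ¬ Ab P) :
    ∃ S Y : Subgroup G, ¬ Ab S ∧ #S = p ^ 3 ∧ (∀ x ∈ S, x ^ p = 1) ∧ Cyc Y ∧ Cprod S Y P ∧
      Ohm1 p Y = Z(S) := by
  have hS := hP.of_le le_normalizer le_top
  obtain ⟨V, hV⟩ := hS.exists_compl le_rfl
  have h1 := H4.ne_bot_of_not_ab hna
  obtain ⟨S, Y, a1, a2, a3, a4, a5, a6⟩ := (G4_16.rank2_coprime_comm_cprod hP.pi (hP.pi.vloc hw).odd h1 hr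
    hV.norm (mFT_Sylow_sdprod_commg hw hP hV) (hV.hall_right hS).pi ((hP.pi.vnorm hw h1).mono hV.right_le).odd).2.resolve_left hna
  exact ⟨S, Y, a1, a2, a3, a5, a4,
    a6.trans (H4.center_of_card_cube (hP.pi.prime_of_ne_bot h1) a2 a1).2⟩

theorem mFT_sub_Sylow_trans {x : G} (hw : p ∈ vw G) (hP : Syl p P ⊤) (hQ : Q ≤ P) (hx : cj x Q ≤ P) :
    ∃ y ∈ N(P), ∃ c ∈ C(Q), x = y * c := by
  by_cases h1 : P = ⊥
  · exact ⟨x, by rw [h1, norm_bot]; trivial, 1, one_mem _, by simp⟩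
  obtain ⟨M, hM, hN, hp, hS⟩ := exists_sigma_of_syl hw hP h1
  obtain ⟨m, hm, c, hc, rfl⟩ := sigma_trans_mul hM hp (hP.pi.of_le hQ) (hQ.trans hS.le)
    (hx.trans hS.le)
  rw [cj_mul, cj_of_mem_cent hc] at hx
  obtain ⟨c', hc', v, hv, rfl⟩ := G6.plength1_Sylow_trans (sigma_prime hp)
    (mFT_proper_plength1 (sigma_prime hp) hM.1) hS (mmax_sol hM) hQ hm hx
  exact ⟨v, hv.2, c' * c, mul_mem hc'.2 hc, mul_assoc _ _ _⟩

theorem mFT_subnorm_Sylow (hw : p ∈ vw G) (hP : Syl p P ⊤) (hQ : Q ≤ P) : Syl p (P ⊓ N(Q)) N(Q) := by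
  obtain ⟨R, hR, hle⟩ := (hP.pi.infl N(Q)).exists_syl inf_le_right
  obtain ⟨x, -, hx⟩ := hP.scj_le le_top hR.pi
  obtain ⟨y, hy, c, hc, rfl⟩ := mFT_sub_Sylow_trans hw hP hQ
    ((cj_mono x ((le_inf hQ le_normalizer).trans hle)).trans hx)
  rw [cj_mul, cj_le_iff, cj_of_mem_norm (inv_mem hy)] at hx
  refine hR.of_card_le inf_le_right (hP.pi.infl _) ?_
  exact (card_cj c R).ge.trans (card_le (le_inf hx (cj_le_of_mem (cent_le_norm Q hc) hR.le)))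

theorem mFT_Sylow_normalS (hw : p ∈ vw G) (hP : Syl p P ⊤) (hR : PG p R) (hQP : Q ≤ P) (hQR : Q ≤ R)
    (hN : N(P) ≤ N(Q)) : N(R) ≤ N(Q) := by
  have key : ∀ x, cj x Q ≤ P → x ∈ N(Q) := fun x hx => by
    obtain ⟨y, hy, c, hc, rfl⟩ := mFT_sub_Sylow_trans hw hP hQP hx
    exact mul_mem (hN hy) (cent_le_norm Q hc)
  obtain ⟨x, -, hx⟩ := hP.scj_le le_top hR
  intro z hz
  have h1 := key x ((cj_mono x hQR).trans hx)
  have h2 := key (x * z) (by rw [cj_mul]; exact (cj_mono x (cj_le_of_mem_norm hz hQR)).trans hx)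
  simpa using mul_mem (inv_mem h1) h2

instance inst_B10_7 : B10_7 G where
  mFT_Sylow_der1 := mFT_Sylow_der1
  mFT_Sylow_sdprod_commg := mFT_Sylow_sdprod_commg
  mFT_rank2_Sylow_cprod := mFT_rank2_Sylow_cprod
  mFT_sub_Sylow_trans := mFT_sub_Sylow_trans
  mFT_subnorm_Sylow := mFT_subnorm_Sylow
  mFT_Sylow_normalS := mFT_Sylow_normalS

theorem narrow_of_beta' (hM : Mx M) (hp : p ∉ beta M) (hS : Syl p S M) : Narrow p S := by
  by_cases ha : p ∈ alpha M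
  · by_contra e
    exact hp (mem_beta.2 ⟨ha, (mem_betaG (alpha_w hM.1 ha) (sigma_Sylow_G (alpha_sub_sigma hM ha) hS)).2 e⟩)
  · exact narrow_of_prk (hS.prk_syl ▸ not_mem_alpha.1 ha)

theorem beta_max_pdiv (hM : Mx M) (hp : p ∉ beta M) :
    Hall {p}ᶜ (Oc {p}ᶜ ⁅M, M⁆) ⁅M, M⁆ ∧ Hall {p}ᶜ (Oc {p}ᶜ (Ms M)) (Ms M) ∧
      ∀ q : ℕ, q.Prime → q ∣ (Oc {p}ᶜ M).relIndex M → q ≤ p := by
  have : Hall {p}ᶜ (Oc {p}ᶜ ⁅M, M⁆) ⁅M, M⁆ ∧
      ∀ q : ℕ, q.Prime → q ∣ (Oc {p}ᶜ M).relIndex M → q ≤ p := by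
    by_cases hpp : p.Prime
    · obtain ⟨S, hS⟩ := exists_syl p M
      have := G5b.narrow_der1_complement_max_pdiv hpp hM.1.odd (mmax_sol hM) hS
        (narrow_of_beta' hM hp hS) fun _ => mFT_proper_plength1 hpp hM.1
      exact ⟨this.1, this.2.2.2⟩
    · have h : ∀ H : Subgroup G, PiG {p}ᶜ H := fun H r hr _ e => hpp (e ▸ hr)
      rw [Oc_eq_self (h _), Oc_eq_self (h _), relIndex_self]
      exact ⟨Hall.self (h _), fun q hq hd => absurd (Nat.dvd_one.1 hd) hq.ne_one⟩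
  exact ⟨this.1, this.1.Oc_sub (Msigma_der1 hM), this.2⟩

theorem der1_idx_sigma' (hM : Mx M) : PiN (sigma M)ᶜ ((⁅M, M⁆).relIndex M) :=
  fun _ _ hd => der1_quo_sigma' hM hd

theorem Mbeta_Hall (hM : Mx M) : Hall (beta M) (Mb M) M :=
  ((Oc_hall_of_p'core fun _ _ _ h => (beta_max_pdiv hM h).1).of_idx (der_le M)
    ((der1_idx_sigma' hM).mono (Set.compl_subset_compl.2 (beta_sub_sigma hM)))).Oc_hall
    ((der_normal M).Oc _).norm

theorem Mbeta_der1 (hM : Mx M) : Mb M ≤ ⁅M, M⁆ := (Mbeta_sub_Msigma hM).trans (Msigma_der1 hM)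

theorem beta'_der1_nil (hM : Mx M) (hH : PiG (beta M)ᶜ H) (hle : H ≤ ⁅M, M⁆) : Nil H :=
  nil_of_p'core_hall fun p hp hd => (beta_max_pdiv hM (hH p hp hd)).1.Oc_sub hle

theorem Mbeta_quo_nil (hM : Mx M) : Nil (quo (Mb M) ⁅M, M⁆) := by
  obtain ⟨W, hW⟩ := exists_hall (beta M)ᶜ (mmax_sub_sol hM (der_le M))
  rw [← ((Mbeta_Hall hM).of_le (Mbeta_der1 hM) (der_le M)).sup_compl hW,
    quo_sup_left (hW.le.trans ((der_le M).trans (Oc_norm _ _)))]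
  exact nil_quo (beta'_der1_nil hM hW.pi hW.le) _

instance inst_B10_8 : B10_8 G where
  Mbeta_Hall := Mbeta_Hall
  Mbeta_Hall_G hM := (Mbeta_Hall hM).vsigma_top (beta_sub_sigma hM)
  beta_max_pdiv := beta_max_pdiv
  Mbeta_quo_nil := Mbeta_quo_nil
  beta'_der1_nil := beta'_der1_nil

/-- Frattini argument for Hall subgroups of `M'` modulo `M_β` -/
theorem Mbeta_frattini (hM : Mx M) (hX : Hall π X ⁅M, M⁆) : Mb M ⊔ (M ⊓ N(X)) = M := by
  have h1 : Mb M ⊔ X ≤ ⁅M, M⁆ := sup_le (Mbeta_der1 hM) hX.le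
  have := (hX.of_le le_sup_right h1).hfrattini (mmax_sub_sol hM (h1.trans (der_le M)))
    ⟨h1.trans (der_le M), hX.sup_norm_of_nil_quo ((der_le M).trans (Oc_norm _ _))
      (Mbeta_quo_nil hM) (Oc_norm _ _) (der_normal M).norm⟩
  rwa [sup_assoc, sup_eq_right.2 (le_inf (hX.le.trans (der_le M)) le_normalizer)] at this

theorem beta'_cent_Sylow_der (hM : Mx M) (hp : p ∉ beta M) (hq : q ∉ beta M) (hX : PG q X)
    (h : (p ≠ q ∧ X ≤ ⁅M, M⁆) ∨ (p < q ∧ X ≤ M)) : ∃ S, Syl p S ⁅M, M⁆ ∧ S ≤ C(X) := by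
  have hXM : X ≤ M := h.elim (fun h => h.2.trans (der_le M)) And.right
  have hle : ⁅M, M⁆ ⊔ X ≤ M := sup_le (der_le M) hXM
  obtain ⟨W, hW, hXW⟩ := (hX.sing (π := {p, q}) (by simp)).exists_hall (mmax_sub_sol hM hle)
    le_sup_right
  have h1 := hW.inf_normal ((der_normal M).of_le le_sup_left hle)
  have hnil : Nil (W ⊓ ⁅M, M⁆ : Subgroup G) := beta'_der1_nil hM
    (h1.pi.mono (by rintro r (rfl | rfl) <;> assumption)) inf_le_right
  have hS := h1.sub_syl (p := p) (by simp) (nil_Oc_hall hnil _)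
  refine ⟨_, hS, ?_⟩
  rcases h with ⟨hne, h⟩ | ⟨hlt, -⟩
  · exact nil_cents_pi hnil (Oc_le _ _) (le_inf hXW h) hS.pi (hX.sing_ne hne.symm)
  have h2 : X ≤ Oc {p}ᶜ M := le_of_pi_of_relIndex (hXM.trans (Oc_norm _ _)) (Oc_le _ _) hXM hX
    fun r hr hd e => ((beta_max_pdiv hM hp).2.2 r hr hd).not_gt (e ▸ hlt)
  refine commg_eq_bot.1 (eq_bot_mono (le_inf ?_ ?_) (hS.pi.inf_eq_bot (Oc_pi {p}ᶜ M)))
  · exact commg_le_left (norms_Oc _ (norms_inf (norms_of_le hXW) (hXM.trans (der_normal M).norm)))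
  · exact (commutator_mono le_rfl h2).trans ((Oc_normal _ M).commg_le' (hS.le.trans (der_le M)))

theorem beta'_cent_Sylow (hM : Mx M) (hp : p ∉ beta M) (hq : q ∉ beta M) (hX : PG q X)
    (h : (p ≠ q ∧ X ≤ ⁅M, M⁆) ∨ (p < q ∧ X ≤ M)) :
    (∃ S, Syl p S (Ms M) ∧ S ≤ C(X)) ∧ (p ∈ alpha M → Uniq (M ⊓ C(X))) ∧
      (Syl q X ⁅M, M⁆ → ∃ S, Syl p S ⁅M, M⁆ ∧ S ≤ ⁅M ⊓ N(X), M ⊓ N(X)⁆) := by
  obtain ⟨S, hS, hc⟩ := beta'_cent_Sylow_der hM hp hq hX h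
  have hSM := hS.le.trans (der_le M)
  refine ⟨⟨_, hS.inf_normal ((Ms_normal M).of_le (Msigma_der1 hM) (der_le M)),
    inf_le_left.trans hc⟩, fun ha => ?_, fun hXs => ⟨S, hS, ?_⟩⟩
  · refine uniq_mono (uniq_of_prk3 (p := p) (hM.loc hSM) ?_) (le_inf hSM hc)
      (loc_mono inf_le_left hM.1)
    rw [(hS.of_idx (der_le M) ((der1_idx_sigma' hM).compl_sing' (alpha_sub_sigma hM ha))).prk_syl]
    exact mem_alpha.1 ha
  · have := G6.pprod_focal_coprime (Mbeta_frattini hM hXs) (Oc_norm _ _)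
      (le_inf hSM (hc.trans (cent_le_norm X))) ((Oc_pi _ _).coprime (hS.pi.sing hp))
    exact (le_inf le_rfl hS.le).trans (this.le.trans inf_le_right)

theorem nonuniq_norm_Sylow_pprod (hw : p ∈ vw G) (hM : Mx M) (hH : Mx H) (hne : H ≠ M) (hS : Syl p S ⊤)
    (hNH : N(S) ≤ H) (hNM : N(S) ≤ M) : Mb M ⊔ (H ⊓ M) = M ∧ alpha M = beta M := by
  have hSM := hS.of_le (le_normalizer.trans hNM) le_top
  have hp := mem_sigma_of hM.1 hw hSM hNM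
  have hd := sigma_Sylow_der1 hM hp hSM
  have ha : p ∉ alpha M := fun ha => hne (eq_of_uniq
    (uniq_of_prk3 (hM.loc hSM.le) (hSM.prk_syl ▸ mem_alpha.1 ha)) hH hM (le_normalizer.trans hNH) hSM.le)
  refine ⟨le_antisymm (sup_le (Oc_le _ _) inf_le_right) ?_,
    le_antisymm (fun q hq => by_contra fun hb => hne ?_) beta_sub_alpha⟩
  · exact (Mbeta_frattini hM (hSM.of_le hd (der_le M))).ge.trans
      (sup_le_sup_left (le_inf (inf_le_right.trans hNH) inf_le_left) _)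
  · exact eq_of_uniq ((beta'_cent_Sylow hM hb (fun e => ha (beta_sub_alpha e)) hS.pi
      (Or.inl ⟨fun e => ha (e ▸ hq), hd⟩)).2.1 hq) hH hM
      (inf_le_right.trans ((cent_le_norm S).trans hNH)) inf_le_left

instance inst_B10_9 : B10_9 G where
  beta'_cent_Sylow := beta'_cent_Sylow
  nonuniq_norm_Sylow_pprod := nonuniq_norm_Sylow_pprod

theorem normedConstrained_of_maxEl (hw : p ∈ vw G) (hA : El p 2 A H) (hmax : MaxEl p A ⊤) : NormedConstrained A :=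
  U7.plength_1_normed_constrained hA.prime hw hA.not_cyc hmax fun _ h => mFT_proper_plength1 hA.prime h

theorem narrow_der_norm_cent (hw : PiG (vw G) Q) (hQ : PG q Q) (hn : Narrow q Q) (hP : PiG {q}ᶜ P)
    (hle : P ≤ ⁅N(Q), N(Q)⁆) : P ≤ C(Q) := by
  by_cases h1 : Q = ⊥
  · rw [h1, cent_bot]; exact le_top
  exact le_of_pi_of_relIndex' (norms_cent (hle.trans (der_le _))) hle hP
    (G5b.Aut_narrow hQ (loc_of_w hw).odd hn le_rfl (loc_norm h1 hw).sol (loc_norm h1 hw).odd).1.compl_compl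

theorem max_normed_2Elem_signaliser (hw : p ∈ vw G) (hq : q.Prime) (hpq : p ≠ q) (hA : El p 2 A H)
    (hmax : MaxEl p A ⊤) (hQ : MaxNormed {q} A Q) (hd : q ∣ #(C(A))) :
    ∃ P, Syl p P ⊤ ∧ A ≤ P ∧ Oc {p}ᶜ C(P) ⊔ (N(P) ⊓ N(Q)) = N(P) ∧ P ≤ ⁅N(Q), N(Q)⁆ ∧
      (Narrow q Q → P ≤ C(Q)) := by
  have hnc := normedConstrained_of_maxEl hw hA hmax
  have hqA : ¬ q ∣ #A := (hA.pg.sing_ne hpq).not_dvd hq rfl
  have htr := U7.normed_constrained_rank2_trans hnc hqA hd hq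
    (by rw [inf_eq_left.2 hA.le_cent, hA.rk_eq]; omega)
  have key := fun P (hP : Syl p P ⊤) (hAP : A ≤ P) =>
    U7.normed_trans_superset_nil hnc hqA hAP hP.pi.nil (hA.primes_eq ▸ hP.pi) (hP.pi.vloc hw) htr
  obtain ⟨P0, hP0, hAP0⟩ := hA.pg.exists_syl le_top
  obtain ⟨Q0, hQ0⟩ := exists_maxNormed {q} P0
  obtain ⟨k, hk, rfl⟩ := htr Q0 Q ((key P0 hP0 hAP0).2.2.1 Q0 hQ0) hQ
  have hAP : A ≤ cj k P0 := cj_of_mem_cent (Oc_le _ _ hk) ▸ cj_mono k hAP0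
  have := (key _ (hP0.Jtop k) hAP).2.2.2 _ (maxNormed_J hQ0 k)
  rw [hA.primes_eq, inf_eq_left.2 (mFT_Sylow_der1 hw (hP0.Jtop k))] at this
  exact ⟨_, hP0.Jtop k, hAP, this.2, this.1, fun hn =>
    narrow_der_norm_cent (hnc.nw _ (pg_pi'_of_not_dvd hqA hQ.pi) hQ.norm) hQ.pi hn ((hP0.pi.J k).sing_ne hpq) this.1⟩

instance inst_B10_10 : B10_10 G where
  max_normed_2Elem_signaliser hw hq hpq hA hmax hQ hd :=
    max_normed_2Elem_signaliser hw hq hpq hA hmax (maxNormed_iff.1 hQ) hd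

end

section
open H19
open Cfsg Subgroup H18

universe u

section general
variable {G : Type*} [Group G] [Finite G] {p : ℕ} {A H P X Y Z : Subgroup G}

end general

variable {G : Type u} [Group G] [Finite G] [VS G] [Gen.{u}] [U79 G] {π : Set ℕ} {p q : ℕ}
  {A B E H K L M P Q R S U V X Y : Subgroup G}

/-- 10.11(a) -/
theorem sigma'_not_uniq (hw : PiG (vw G) K) (hM : Mx M) (hK : K ≤ M) (hs : PiG (sigma M)ᶜ K) :
    ¬ Uniq K := by
  intro hU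
  obtain ⟨E, hE, hKE⟩ := (hs.inter hw).exists_hall (mmax_sol hM) hK
  obtain ⟨q, h1, h2⟩ := rank2_exists_normal_syl (hM.loc hE.le) (ne_bot_mono hKE (uniq_ne_bot hU))
    (sigma'_rk_le hM hE.le (hE.pi.mono Set.inter_subset_left))
  have hq := h1.pi.mem_of_ne_bot h2 (hE.pi.of_le h1.le)
  exact not_norm_sigma' hM.1 hq.2 hq.1 (hE.sub_syl hq h1)
    (uniq_sub hU hM hK (hKE.trans (Oc_norm _ _)) (h1.pi.vnorm hq.2 h2))

theorem Malpha_rk (hM : Mx M) (h : Ma M ≠ ⊥) : 2 < rk (Ma M) := by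
  obtain ⟨r, hr, hd⟩ := exists_prime_dvd_card h
  have ha := Oc_pi _ _ r hr hd
  exact ((Malpha_Hall hM).prk_eq ha ▸ mem_alpha.1 ha).trans_le (prk_le_rk r _)

theorem der1_nil_of_Malpha (hM : Mx M) (h : Ma M = ⊥) : Nil (⁅M, M⁆ : Subgroup G) :=
  nil_of_quo_disjoint ((der_le M).trans (Oc_norm _ _)) (eq_bot_mono inf_le_left h)
    (Malpha_quo_nil hM)

theorem maxNormed_of_syl (hQ : Syl q Q ⊤) (hn : A ≤ N(Q)) : MaxNormed {q} A Q :=
  ⟨hQ.pi, hn, fun _ h1 _ h3 => hQ.max h3 le_top h1⟩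

/-- 10.11(b) -/
theorem sub'cent_sigma_rank1 (hM : Mx M) (hK : K ≤ M) (hs : PiG (sigma M)ᶜ K) :
    rk (K ⊓ C(Ms M)) ≤ 1 := by
  by_contra hr
  obtain ⟨p, A, hA⟩ := exists_el_of_le_rk (n := 2) (not_le.1 hr)
  have hAM := (hA.le.trans inf_le_left).trans hK
  have hc := cents_symm (hA.le.trans inf_le_right); have hw := hM.1.el2 (hA.of_le hAM)
  have hp : p ∉ sigma M := hA.mem_pi (hs.infl _)
  obtain ⟨q, hq, hd⟩ := exists_prime_dvd_card (Msigma_neq1 hM)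
  have hqs := Ms_pi M q hq hd
  obtain ⟨Q, hQ⟩ := exists_syl q (Ms M)
  obtain ⟨P, hP, hAP, -, h3, -⟩ := max_normed_2Elem_signaliser hw hq
    (fun e : p = q => hp (e ▸ hqs)) hA (sigma'_rank2_max hM hp (hA.of_le hAM))
    (maxNormed_of_syl (syl_Ms_top hM hqs hQ) (norms_of_cents (cents_symm (hQ.le.trans hc))))
    (hd.trans (card_dvd hc))
  have h4 := h3.trans (der_mono (norm_sigma_Sylow hqs (syl_Ms hM hqs hQ)))
  have ha : Ma M = ⊥ := by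
    by_contra e
    exact sigma'_not_uniq (hA.pi hw) hM hAM (hA.pi hp) (U9.cent_rank3_Uniqueness (hM.loc hAM) (by rw [hA.rk_eq]; omega)
      ((Malpha_rk hM e).trans_le (rk_mono ((Malpha_sub_Msigma hM).trans hc))))
  have h5 := (der_normal M).norm.trans
    (nil_hall_norm (der1_nil_of_Malpha hM ha) (hP.of_le h4 le_top))
  exact hp (mem_sigma_of hM.1 hw (hP.of_le (h4.trans (der_le M)) le_top)
    (mmax_norm hM (ne_bot_mono hAP hA.ne_bot) (hP.pi.sing hw) h5).le)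

theorem cyc_sigma'_Fit (hM : Mx M) : Cyc (Oc (sigma M)ᶜ (Fit M)) := by
  have hn := (Fit_normal M).Oc (sigma M)ᶜ
  have := sub'cent_sigma_rank1 hM hn.le (Oc_pi _ _)
  rw [inf_eq_left.2 (cents_symm (Oc_cents hn (Oc_pi _ _)))] at this
  exact nil_cyc_of_rk (nil_mono (Fit_nil M) (Oc_le _ _)) (hM.odd hn.le) this

/-- 10.11(c) -/
theorem sub'cent_sigma_cyclic (hM : Mx M) (hs : PiG (sigma M)ᶜ K) :
    Cyc (K ⊓ C(Ms M) ⊓ ⁅M, M⁆ : Subgroup G) ∧ M ≤ N(K ⊓ C(Ms M) ⊓ ⁅M, M⁆) := by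
  have hn := (Fit_normal M).Oc (sigma M)ᶜ
  have hc := cyc_sigma'_Fit hM
  have h1 : K ⊓ C(Ms M) ⊓ ⁅M, M⁆ ≤ Fit M := by
    refine le_trans (le_inf (inf_le_right.trans (der_le M)) ?_) (cent_Fit_le (mmax_sol hM))
    rw [← (nil_dprod (Fit_nil M) (sigma M)).sup]
    exact cents_sup (inf_le_left.trans (inf_le_right.trans (cent_mono (Oc_le_Oc (Fit_normal M)))))
      (inf_le_right.trans (G1b.der1_cent_cyclic hc hn.norm))
  have h2 := nil_le_Oc (Fit_nil M) h1 ((hs.infl _).infl _)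
  exact ⟨cyc_mono hc h2, hn.norm.trans (cyc_norm hc h2)⟩

/-- 10.11(d) -/
theorem commG_sigma'_1Elem_cyclic (hM : Mx M) (hK : K ≤ M) (hs : PiG (sigma M)ᶜ K)
    (hP : El p 1 P M) (hPK : P ≤ N(K)) (hreg : Ms M ⊓ C(P) = ⊥) (hK' : PiG {p}ᶜ K) (hab : Ab K) :
    ⁅K, P⁆ ≤ C(Ms M) ∧ Cyc ⁅K, P⁆ ∧ M ≤ N(⁅K, P⁆) := by
  have h0 := commg_le_left hPK
  have hn := (h0.trans hK).trans (Ms_norm M)
  have hnil : Nil (Ms M ⊔ ⁅K, P⁆ : Subgroup G) := G3a.prime_Frobenius_sol_kernel_nil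
    (norms_sup (hP.le.trans (Ms_norm M)) (commg_normr K P))
    (mmax_sub_sol hM (sup_le (Ms_le M) (h0.trans hK))) hP.prime_card <| by
      rw [sup_inf_cent_of_disjoint (hP.le.trans (Ms_norm M)) (commg_normr K P) hn
        (Ms_inf_eq_bot (hs.of_le h0)), hreg, ab_commg_inf_cent hab hPK (hK'.coprime' hP.pg),
        bot_sup_eq]
  have hc := cents_symm (nil_cents_pi hnil le_sup_left le_sup_right (Ms_pi M) (hs.of_le h0))
  have hle := le_inf (le_inf h0 hc) (commutator_mono hK hP.le)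
  obtain ⟨h1, h2⟩ := sub'cent_sigma_cyclic hM hs
  exact ⟨hc, cyc_mono h1 hle, h2.trans (cyc_norm h1 hle)⟩

instance inst_B10_11 : B10_11 G where
  sigma'_not_uniq := sigma'_not_uniq
  sub'cent_sigma_rank1 := sub'cent_sigma_rank1
  sub'cent_sigma_cyclic hM _ hs := sub'cent_sigma_cyclic hM hs
  commG_sigma'_1Elem_cyclic hM hK hs _ := commG_sigma'_1Elem_cyclic hM hK hs

theorem sigma_common (hM : Mx M) (hH : Mx H) (hnc : ¬ Cjg M H) (h1 : p ∈ sigma M)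
    (h2 : p ∈ sigma H) : p ∉ alpha M ∧ ¬ Nil (Ms M) := by
  obtain ⟨S, hS⟩ := exists_syl p M
  obtain ⟨T, hT⟩ := exists_syl p H
  obtain ⟨g, -, rfl⟩ := (sigma_Sylow_G h2 hT).sconj (sigma_Sylow_G h1 hS)
  have hne := ne_of_not_cjg (not_cjg_cj hnc g)
  refine ⟨fun ha => hne (eq_of_uniq (uniq_of_prk3 (hM.loc hS.le) (hS.prk_syl ▸ mem_alpha.1 ha))
    (coatom_J hH g) hM (hT.J g).le hS.le), fun hn => hne (eq_mmax hM (coatom_J hH g) ?_).symm⟩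
  exact ((Ms_norm M).trans (nil_hall_norm hn (syl_Ms_of hM h1 hS))).trans
    (norm_sigma_Sylow (sigma_cj_sub g H h2) (hT.J g))

/-- 10.12 -/
theorem sigma_disjoint (hM : Mx M) (hH : Mx H) (hnc : ¬ Cjg M H) :
    (Ma M ⊓ Ms H = ⊥ ∧ ∀ p ∈ alpha M, p ∉ sigma H) ∧
      (Nil (Ms M) → Ms M ⊓ Ms H = ⊥ ∧ ∀ p ∈ sigma M, p ∉ sigma H) := by
  have h1 : ∀ p ∈ alpha M, p ∉ sigma H := fun p hp h =>
    (sigma_common hM hH hnc (alpha_sub_sigma hM hp) h).1 hp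
  refine ⟨⟨inf_eq_bot_of_cop ((Oc_pi _ _).coprime_of (Ms_pi H) h1), h1⟩, fun hn => ?_⟩
  have h2 : ∀ p ∈ sigma M, p ∉ sigma H := fun p hp h => (sigma_common hM hH hnc hp h).2 hn
  exact ⟨inf_eq_bot_of_cop ((Ms_pi M).coprime_of (Ms_pi H) h2), h2⟩

instance inst_B10_12 : B10_12 G := ⟨sigma_disjoint⟩

theorem p2maxElem_Sylow (hw : p ∈ vw G) (hA : El p 2 A H) (hmax : MaxEl p A ⊤) (hS : Syl p S ⊤) (hAS : A ≤ S)
    (hna : ¬ Ab S) : ∃ Y, Cyc Y ∧ Ohm1 p Z(S) ≤ Y ∧ A ⊔ Y = S ⊓ C(A) := by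
  have hZA := hmax.Ohm1_center_le hAS le_top
  by_cases hr : prk p S ≤ 2
  · obtain ⟨E, Y, a1, a2, a3, a4, a5, a6⟩ := mFT_rank2_Sylow_cprod hw hS hr hna
    have hY : Y ≤ Z(S) := le_inf a5.right_le
      (a5.sup ▸ cents_sup (cents_symm a5.cent) (comm_iff_le_cent.1 (comm_of_cyclic a4)))
    have hYA : Y ≤ C(A) := hY.trans (inf_le_right.trans (cent_mono hAS))
    have e : A ⊔ Y = S ⊓ C(A) := by
      refine le_antisymm (sup_le (le_inf hAS hA.le_cent) (le_inf a5.right_le hYA)) ?_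
      rw [← a5.sup, sup_inf_modr (norms_of_cents (cents_symm a5.cent)) hYA]
      exact sup_le_sup_right (fun x hx => hmax.mem trivial hx.2 (a3 x hx.1)) _
    refine ⟨Y, a4, ?_, e⟩
    have h1 := hA.el1_of_lt (lt_of_le_of_ne hZA fun e1 => hna ?_)
      (hS.pi.Ohm1_center_ne_bot (H4.ne_bot_of_not_ab hna))
    · rw [← h1.eq_of_ne_bot (Ohm1_mono p hY) (a6 ▸ (PiN.of_card_pow hA.prime a2).center_ne_bot
        (H4.ne_bot_of_not_ab a1))]
      exact Ohm1_le _ _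
    · rw [← inf_eq_left.2 (cents_symm (e1.ge.trans ((Ohm1_le _ _).trans inf_le_right))), ← e]
      exact comm_sup hA.comm (comm_of_cyclic a4) (cents_symm hYA)
  · have hr' := not_le.1 hr
    have hZ := el1_mk hA.prime hZA (G5a.Ohm1_ucn_p2maxElem hS.pi (hS.pi.vloc hw).odd hr' (hA.of_le hAS)
      (hmax.of_le hAS le_top)).2.1
    obtain ⟨X, hX, hne⟩ := hA.exists_el1_ne hZ
    have hZc : S ≤ C(Ohm1 p Z(S)) := cents_symm ((Ohm1_le _ _).trans inf_le_right)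
    have e : S ⊓ C(X) = S ⊓ C(A) := le_antisymm
      (le_inf inf_le_left (hA.sup_eq hX hZ hne ▸ cents_sup inf_le_right (inf_le_left.trans hZc)))
      (inf_le_inf_left _ (cent_mono hX.le))
    obtain ⟨b1, -, -, b2⟩ := G5a.narrow_cent_dprod hS.pi (hS.pi.vloc hw).odd hr' hX.card1 (hX.le.trans hAS)
      (prk_le fun B hB => hB.not_le hA (by omega)
        (hmax.le_of_cent le_top hB.ab (hB.le.trans (e.le.trans inf_le_right))))
    refine ⟨_, b1, le_inf (le_inf (hZA.trans hAS) (cents_symm (((Ohm1_le _ _).trans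
      (H4.ucn_le _ _)).trans hZc))) (cents_symm ((hX.le.trans hAS).trans hZc)), ?_⟩
    exact le_antisymm (sup_le (le_inf hAS hA.le_cent) (b2.right_le.trans e.le))
      (e.ge.trans (b2.sup.ge.trans (sup_le_sup_right hX.le _)))

/-- 10.13 -/
theorem basic_p2maxElem_structure (hw : p ∈ vw G) (hA : El p 2 A H) (hmax : MaxEl p A ⊤) (hP : PG p P)
    (hAP : A ≤ P) (hna : ¬ Ab P) :
    El p 1 (Ohm1 p Z(P)) A ∧
      (∃ Y : Subgroup G, Cyc Y ∧ Ohm1 p Z(P) ≤ Y ∧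
        ∀ A0, El p 1 A0 A → A0 ≠ Ohm1 p Z(P) → Dprod A0 Y (P ⊓ C(A))) ∧
      ∀ A0 A1, El p 1 A0 A → A0 ≠ Ohm1 p Z(P) → El p 1 A1 A → A1 ≠ Ohm1 p Z(P) →
        ∃ g ∈ P ⊓ N(A), cj g A0 = A1 := by
  obtain ⟨S, hS, hPS⟩ := hP.exists_syl le_top
  obtain ⟨Y, h1, h2, h3⟩ := p2maxElem_Sylow hw hA hmax hS (hAP.trans hPS)
    fun e => hna (comm_mono e hPS)
  have hYA : Y ≤ C(A) := le_sup_right.trans (h3.le.trans inf_le_right)
  have e : A ⊔ Y ⊓ P = P ⊓ C(A) := by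
    rw [← sup_inf_modl (norms_of_cents hYA) hAP, h3, inf_right_comm, inf_eq_right.2 hPS]
  have hY := cyc_mono h1 (inf_le_left (b := P))
  have hab : Ab (P ⊓ C(A) : Subgroup G) :=
    e ▸ comm_sup hA.comm (comm_of_cyclic hY) (cents_symm (inf_le_left.trans hYA))
  have hnc : ¬ P ≤ C(A) := fun e1 => hna (inf_eq_left.2 e1 ▸ hab)
  have hZc : P ≤ C(Ohm1 p Z(P)) := cents_symm ((Ohm1_le _ _).trans inf_le_right)
  have hZ := hA.el1_of_lt (lt_of_le_of_ne (hmax.Ohm1_center_le hAP le_top) fun e1 => hnc (e1 ▸ hZc))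
    (hP.Ohm1_center_ne_bot (H4.ne_bot_of_not_ab hna))
  have hZS := (hmax.Ohm1_center_le (hAP.trans hPS) le_top).trans hAP
  have hZY : Ohm1 p Z(P) ≤ Y ⊓ P := by
    rw [← hZ.eq_of_ne_bot (abelem_le_Ohm1 (abelem_Ohm1_center p S) (le_inf hZS
      ((Ohm1_le _ _).trans (inf_le_right.trans (cent_mono hPS)))))
      (hS.pi.Ohm1_center_ne_bot (ne_bot_mono (hAP.trans hPS) hA.ne_bot))]
    exact le_inf h2 hZS
  refine ⟨hZ, ⟨_, hY, hZY, fun X hX hne => ⟨cents_mono (cents_symm hYA) hX.le inf_le_left, ?_,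
    inf_eq_bot_of_prime hX.prime_card fun e1 => hne ((hX.of_le e1).eq_of_cyc (hZ.of_le hZY) hY)⟩⟩,
    fun X X' hX hne hX' hne' => hA.trans_el1 (hP.infl _) inf_le_right ?_ hZ
      (inf_le_left.trans hZc) hX hne hX' hne'⟩
  · rw [← e, ← hA.sup_eq hX hZ hne, sup_assoc, sup_eq_right.2 hZY]
  · have e1 : Ohm1 p (P ⊓ C(A)) = A := hmax.max _ le_top (abelem_Ohm1 hab p)
      (hA.of_le (le_inf hAP hA.le_cent)).le_Ohm1
    have e3 := norm_le_norm_Ohm1 p (P ⊓ C(A))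
    rw [e1] at e3
    exact fun e2 => (hP.lt_norm (inf_lt_left.2 hnc)).not_ge (le_inf inf_le_left
      ((inf_le_inf_left _ e3).trans e2))

instance inst_B10_13 : B10_13 G := ⟨basic_p2maxElem_structure⟩

theorem beta_noncyclic_uniq (hp : p ∈ betaG G) (hR : PG p R) (hr : ¬ Cyc R) : Uniq R :=
  let ⟨_, hA⟩ := hR.exists_el2 (hR.vloc hp.2).odd hr
  uniq_mono (U9.nonmaxElem2_Uniqueness hp.2 hA.top fun e => not_betaG_of_maxEl hA e hp) hA.le (hR.vloc hp.2)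

theorem beta_subnorm_uniq (hp : p ∈ betaG G) (hP : Syl p P ⊤) (hX : X ≤ P) : Uniq (P ⊓ N(X)) := by
  refine beta_noncyclic_uniq hp (hP.pi.infl _) fun hc => betaG_not_narrow hp hP (narrow_of_prk ?_)
  rw [← nil_eq_of_norm_le hP.pi.nil inf_le_left
    (inf_le_inf_left _ (cyc_norm hc (le_inf hX le_normalizer)))]
  exact (cyc_prk hc p).trans (by omega)

theorem beta_norm_sub_mmax (hM : Mx M) (hY : Y ≤ M) (hb : PiG (beta M) Y) (h1 : Y ≠ ⊥) :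
    N(Y) ≤ M := by
  obtain ⟨q, -, h2⟩ := exists_Oc_ne_bot (mmax_sub_sol hM hY) h1
  have hq := (Oc_pi {q} Y).mem_of_ne_bot h2 (hb.of_le (Oc_le _ _))
  obtain ⟨P, hP, hle⟩ := (Oc_pi {q} Y).exists_syl ((Oc_le _ _).trans hY)
  exact (norm_le_norm_Oc _ Y).trans (uniq_sub (beta_subnorm_uniq (beta_sub_betaG hq)
    (sigma_Sylow_G (beta_sub_sigma hM hq) hP) hle) hM (inf_le_left.trans hP.le) inf_le_right
    ((Oc_pi {q} Y).vnorm (beta_w hq) h2))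

instance inst_B10_14 : B10_14 G where
  beta_not_narrow hp hA := ⟨fun e => not_betaG_of_maxEl hA e hp, fun _ hP e =>
    (not_narrow_iff.1 (betaG_not_narrow hp hP)).2 _ (hA.of_le e.le) e⟩
  beta_noncyclic_uniq := beta_noncyclic_uniq
  beta_subnorm_uniq := beta_subnorm_uniq
  beta_norm_sub_mmax := beta_norm_sub_mmax

example : B10 G := inferInstance

end

end H13.V
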