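/-
Port of `H19/B11` to the `ϖ`-local setting.
-/
import Cfsg.Agent.H13.V10b

set_option autoImplicit false
set_option linter.unusedSectionVars false

namespace H13.V
section
open H19
open Cfsg Subgroup H18

attribute [-instance] H18.fintypeSubgroup
universe u
variable {G : Type u} [Group G] [Finite G] [VS G] [Gen.{u}] [U79 G] {π : Set ℕ} {p q : ℕ}
  {A A0 B E H K L M P Q Q1 Q2 R S U V X Y : Subgroup G} {g : G}

theorem mFT_mem_of_sq (hL : Loc K) (hg : g ∈ K) (h : g * g ∈ H) : g ∈ H := by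
  have : g ∈ zpowers (g ^ 2) := mem_zpowers_pow_iff.2 (Nat.coprime_two_left.2
    (hL.odd.of_dvd_nat (orderOf_dvd_card' hg)))
  exact zpowers_le.2 (by rwa [pow_two]) this

theorem Exceptional.cent_le (hx : Exceptional p M A0 A) : C(A) ≤ M :=
  (cent_mono hx.elA0.le).trans ((cent_le_norm A0).trans hx.norm)
theorem Exceptional.w (hx : Exceptional p M A0 A) (hM : Mx M) : p ∈ vw G := hM.1.el2 hx.elA
theorem Exceptional.maxEl (hx : Exceptional p M A0 A) (hM : Mx M) : MaxEl p A ⊤ :=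
  sigma'_rank2_max hM hx.not_sigma hx.elA
theorem Exceptional.cop (hx : Exceptional p M A0 A) : (#(Ms M)).Coprime #A :=
  cop_Ms (hx.elA.pi hx.not_sigma)

/-- 11.1 -/
theorem exceptional_TIsigmaJ (hM : Mx M) (hx : Exceptional p M A0 A) (hg : g ∉ M)
    (h1 : Syl q Q1 (Ms M)) (hn1 : A ≤ N(Q1)) (h2 : Syl q Q2 (cj g (Ms M))) (hn2 : A ≤ N(Q2)) :
    Q1 ⊓ Q2 = ⊥ ∧ ∀ X, El p 1 X A → Q1 ⊓ C(X) = ⊥ ∨ Q2 ⊓ C(X) = ⊥ := by
  by_cases h0 : Q1 = ⊥
  · simp [h0]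
  have hq := h1.pi.mem_of_ne_bot h0 ((Ms_pi M).of_le h1.le)
  have h3 : Syl q (cj g⁻¹ Q2) M := syl_Ms hM hq (by simpa using h2.J g⁻¹)
  have key : ∀ H, A ≤ H → Loc H → Q1 ⊓ H = ⊥ ∨ Q2 ⊓ H = ⊥ := fun H a b => by
    by_contra c
    push Not at c
    obtain ⟨k, hk, e⟩ := U7.normed_constrained_meet_trans
      (normedConstrained_of_maxEl (hx.w hM) hx.elA (hx.maxEl hM))
      ((hx.elA.pi (π := (sigma M)ᶜ) hx.not_sigma).not_dvd (sigma_prime hq) hq) a b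
      (maxNormed_of_syl (syl_Ms_top hM hq h1) hn1)
      (maxNormed_of_syl (by simpa using (sigma_Sylow_G hq h3).Jtop g) hn2) c.1 c.2
    refine hg (sigma_Sylow_trans hq h3 ?_)
    rw [cj_cj_inv, ← e]
    exact cj_le_of_mem (hx.cent_le (Oc_le _ _ hk)) (h1.le.trans (Ms_le M))
  refine ⟨?_, fun X hX => key _ (cents_mono hx.elA.le_cent le_rfl hX.le) (hX.vcent (hx.w hM))⟩
  have hle := h1.le.trans (Ms_le M)
  rcases key M hx.elA.le hM.1 with h | h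
  · exact absurd (inf_eq_left.2 hle ▸ h) h0
  · exact eq_bot_mono (le_inf inf_le_right (inf_le_left.trans hle)) h

/-- 11.2 -/
theorem exceptional_TI_MsigmaJ (hM : Mx M) (hx : Exceptional p M A0 A) (hg : g ∉ M)
    (hA : A ≤ cj g M) : Ms M ⊓ cj g M = ⊥ ∧ Ms M ⊓ C(cj g A0) = ⊥ := by
  have : Ms M ⊓ cj g M = ⊥ := by
    have h1 : Ms M ⊓ cj g M ≤ cj g (Ms M) := by
      rw [← Ms_cj]
      exact le_Msigma (coatom_J hM g) inf_le_right (((Ms_pi M).infl _).mono (sigma_cj_sub g M))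
    have n1 := hx.elA.le.trans (Ms_norm M)
    have n2 : A ≤ N(cj g (Ms M)) := by rw [← Ms_cj]; exact hA.trans (Ms_norm _)
    have hs : Sol A := sol_of_ab hx.elA.comm
    refine le_bot_iff.1 (le_of_exists_syl fun q _ _ => ?_)
    obtain ⟨Q, hQ, hn⟩ := inv_syl_exists q (norms_inf n1 (norms_of_le hA))
      (hx.cop.coprime_dvd_left (card_dvd inf_le_left)) (Or.inl hs)
    obtain ⟨Q1, a1, a2, a3⟩ := inv_syl_ge n1 hx.cop (Or.inl hs) (hQ.le.trans inf_le_left) hn hQ.pi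
    obtain ⟨Q2, b1, b2, b3⟩ := inv_syl_ge n2 (by simpa using hx.cop) (Or.inl hs) (hQ.le.trans h1)
      hn hQ.pi
    exact ⟨Q, hQ, (le_inf a3 b3).trans (exceptional_TIsigmaJ hM hx hg a1 a2 b1 b2).1.le⟩
  refine ⟨this, eq_bot_mono (inf_le_inf_left _ ?_) this⟩
  rw [← cj_cent]; exact cj_mono g ((cent_le_norm A0).trans hx.norm)

theorem Exceptional.exists_norm (hx : Exceptional p M A0 A) (hM : Mx M) (hP : Syl p P M) :
    ∃ g ∈ N(P), g ∉ M := SetLike.not_le_iff_exists.1 (not_norm_sigma' hM.1 (hx.w hM) hx.not_sigma hP)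

theorem le_cj_of_mem_norm (hg : g ∈ N(P)) (h : P ≤ M) : P ≤ cj g M :=
  (cj_of_mem_norm hg).ge.trans (cj_mono g h)

/-- 11.3 -/
theorem exceptional_sigma_nil (hM : Mx M) (hx : Exceptional p M A0 A) : Nil (Ms M) := by
  obtain ⟨P, hP, hAP⟩ := hx.elA.pg.exists_syl hx.elA.le
  obtain ⟨g, hg, hgM⟩ := hx.exists_norm hM hP
  exact G3a.prime_Frobenius_sol_kernel_nil
    (((cj_le_of_mem_norm hg (hx.elA0.le.trans hAP)).trans hP.le).trans (Ms_norm M))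
    (mmax_sub_sol hM (Ms_le M)) (hx.elA0.J g).prime_card
    (exceptional_TI_MsigmaJ hM hx hgM (hAP.trans (le_cj_of_mem_norm hg hP.le))).2

/-- 11.4 -/
theorem exceptional_sigma_uniq (hM : Mx M) (hx : Exceptional p M A0 A) (hH : Mx H)
    (hA : A ≤ H) (h : Ms H ⊓ Ms M ≠ ⊥) : H = M := by
  rw [inf_comm] at h
  obtain ⟨g, rfl⟩ : Cjg M H := by_contra fun e =>
    h ((sigma_disjoint hM hH e).2 (exceptional_sigma_nil hM hx)).1
  exact cj_of_mem (by_contra fun hg => h (eq_bot_mono (inf_le_inf_left _ (Ms_le _))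
    (exceptional_TI_MsigmaJ hM hx hg hA).1))

instance inst_B11_1 : B11_1 G where
  exceptional_TIsigmaJ hM hx hg _ := exceptional_TIsigmaJ hM hx hg
  exceptional_TI_MsigmaJ := exceptional_TI_MsigmaJ
  exceptional_sigma_nil := exceptional_sigma_nil
  exceptional_sigma_uniq := exceptional_sigma_uniq

/-- 11.5 -/
theorem exceptional_Sylow_abelian (hM : Mx M) (hx : Exceptional p M A0 A) (hP : Syl p P M) :
    Ab P := by
  suffices ∀ P, Syl p P M → A ≤ P → Ab P by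
    obtain ⟨g, hg, h⟩ := hP.sle_cj hx.elA.le hx.elA.pg
    simpa using this _ (hP.Jmem hg) h
  intro P hP hAP
  by_contra hna
  obtain ⟨g, hg, hgM⟩ := hx.exists_norm hM hP
  obtain ⟨q, hq, hd⟩ := exists_prime_dvd_card (Msigma_neq1 hM)
  obtain ⟨Q, hQ, hn⟩ := inv_syl_exists q (hP.le.trans (Ms_norm M))
    (cop_Ms (hP.pi.sing hx.not_sigma)) (Or.inl hP.pi.sol)
  have hn2 : P ≤ N(cj g Q) := by rw [← cj_norm]; exact le_cj_of_mem_norm hg hn
  have hp' : PiG {p}ᶜ Q := ((Ms_pi M).of_le hQ.le).compl_sing hx.not_sigma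
  have h0 := hQ.sne_bot hq hd
  obtain ⟨X1, a1, a2⟩ := hx.elA.exists_cent_ne_bot (hAP.trans hn) hp' h0
  obtain ⟨X2, b1, b2⟩ := hx.elA.exists_cent_ne_bot (hAP.trans hn2) (hp'.J g) (by simpa using h0)
  have hreg := (exceptional_TIsigmaJ hM hx hgM hQ (hAP.trans hn) (hQ.J g) (hAP.trans hn2)).2
  obtain ⟨hZ, -, htr⟩ := basic_p2maxElem_structure (hx.w hM) hx.elA (hx.maxEl hM) hP.pi hAP hna
  have e : cj g (Q ⊓ C(Ohm1 p Z(P))) = cj g Q ⊓ C(Ohm1 p Z(P)) := by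
    rw [cj_inf, cj_cent, cj_of_mem_norm (norm_le_norm_Ohm1_center p P hg)]
  have hZ1 : Q ⊓ C(Ohm1 p Z(P)) = ⊥ := (hreg _ hZ).elim id fun h => cj_eq_bot.1 (e.trans h)
  obtain ⟨y, hy, rfl⟩ := htr X1 X2 a1 (fun e1 => a2 (e1 ▸ hZ1)) b1
    fun e1 => b2 (by rw [e1, ← e, hZ1, cj_bot])
  have := (hreg _ b1).resolve_right b2
  rw [← cj_cent, ← cj_of_mem_norm (hn hy.1), ← cj_inf, cj_eq_bot] at this
  exact a2 this

/-- 11.6 -/
theorem exceptional_structure (hM : Mx M) (hx : Exceptional p M A0 A) (hP : Syl p P M)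
    (hAP : A ≤ P) : Ohm1 p P = A ∧ Ms M ⊓ C(A) = ⊥ ∧
      ∃ A1 A2, El p 1 A1 A ∧ El p 1 A2 A ∧ A1 ≠ A2 ∧ Ms M ⊓ C(A1) = ⊥ ∧ Ms M ⊓ C(A2) = ⊥ := by
  have e := (hx.elA.of_le hAP).Ohm1_eq (exceptional_Sylow_abelian hM hx hP)
    (hP.prk_syl ▸ sigma'_prk_le hM hx.not_sigma)
  obtain ⟨g, hg, hgM⟩ := hx.exists_norm hM hP
  have key : ∀ g ∈ N(P), g ∉ M → El p 1 (cj g A0) A ∧ Ms M ⊓ C(cj g A0) = ⊥ := fun g hg hgM =>
    ⟨hx.elA0.Jle g (cj_le_of_mem_norm (e ▸ norm_le_norm_Ohm1 p P hg) hx.elA0.le),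
      (exceptional_TI_MsigmaJ hM hx hgM (hAP.trans (le_cj_of_mem_norm hg hP.le))).2⟩
  obtain ⟨a1, a2⟩ := key g hg hgM
  obtain ⟨b1, b2⟩ := key g⁻¹ (inv_mem hg) (by simpa using hgM)
  refine ⟨e, eq_bot_mono (inf_le_inf_left _ (cent_mono a1.le)) a2, _, _, a1, b1, fun e1 =>
    hgM (mFT_mem_of_sq (hP.pi.vnorm (hx.w hM) (ne_bot_mono hAP hx.elA.ne_bot)) hg (hx.norm (mem_norm_iff_cj.2 ?_))), a2, b2⟩
  rw [cj_mul, e1, cj_cj_inv]

instance inst_B11_5 : B11_5 G := ⟨exceptional_Sylow_abelian, exceptional_structure⟩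

/-- 11.7 -/
theorem exceptional_mul_sigma_normal (hM : Mx M) (hx : Exceptional p M A0 A) :
    M ≤ N(Ms M ⊔ A) := by
  have hA := hx.elA
  obtain ⟨P, hP, hAP⟩ := hA.pg.exists_syl hA.le
  obtain ⟨E, hE, hPE⟩ := (hP.pi.sing (π := (sigma M)ᶜ) hx.not_sigma).exists_hall (mmax_sol hM) hP.le
  obtain ⟨e, -, A1, A2, a1, a2, hne, r1, r2⟩ := exceptional_structure hM hx hP hAP
  have hH := fun m => G4b.rank2_ge_pcore_Hall m (hM.odd hE.le) (mmax_sub_sol hM hE.le)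
    ((rk_mono (Fit_le E)).trans (sigma'_rk_le hM hE.le hE.pi))
  have hK := hH (p + 1)
  generalize hKd : Oc {q | p + 1 ≤ q} E = K at hK
  have hKn : E ≤ N(K) := hKd ▸ Oc_norm _ _
  by_cases hc : K ≤ C(A)
  · have hPL : P ≤ Oc {q | p ≤ q} E := (hH p).le_Oc hPE (hP.pi.sing (le_refl p))
    have hS := hP.of_le hPL ((Oc_le _ _).trans hE.le)
    have hKL : Hall {p}ᶜ K (Oc {q | p ≤ q} E) :=
      (hK.of_le (hKd ▸ Oc_mono (fun q (h : p + 1 ≤ q) => Nat.le_of_succ_le h) E) (Oc_le _ _)).congr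
        fun r hr hd => by
          have : p ≤ r := Oc_pi _ _ r hr hd
          simp only [Set.mem_setOf_eq, Set.mem_compl_iff, Set.mem_singleton_iff]; omega
    have hLc : Oc {q | p ≤ q} E ≤ C(A) := hS.sup_compl hKL ▸
      sup_le (cents_of_comm (exceptional_Sylow_abelian hM hx hP) le_rfl hAP) hc
    have e2 : Ohm1 p (Oc {p} (Oc {q | p ≤ q} E)) = A := le_antisymm
      (e ▸ Ohm1_mono p (Oc_le_hall hS))
      (hA.of_le (le_Oc ⟨hAP.trans hPL, norms_of_cents hLc⟩ hA.pg)).le_Ohm1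
    have := norms_Ohm1 p (norms_Oc {p} (Oc_norm {q | p ≤ q} E))
    rw [e2] at this
    exact (sdprod_sigma hM hE).sup.ge.trans
      (sup_le (norms_of_le le_sup_left) (norms_sup (hE.le.trans (Ms_norm M)) this))
  exfalso
  have hp' : PiG {p}ᶜ K := hK.pi.compl_sing (by simp); have hKw := w_of_el2 hA (hx.w hM) ((hAP.trans hPE).trans hKn) hp'
  obtain ⟨q, Q, hq, hd, hQ, hn, hQc⟩ : ∃ q Q, q.Prime ∧ q ∣ #K ∧ Syl q Q K ∧ A ≤ N(Q) ∧ ¬ Q ≤ C(A) := by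
    by_contra h
    push Not at h
    refine hc (le_of_exists_syl fun q hq hd => ?_)
    obtain ⟨Q, hQ, hn⟩ := inv_syl_exists q ((hAP.trans hPE).trans hKn) (hp'.coprime' hA.pg)
      (Or.inl (sol_of_ab hA.comm))
    exact ⟨Q, hQ, h q Q hq hd hQ hn⟩
  have hqs : q ∉ sigma M := hE.pi q hq (hd.trans (card_dvd hK.le))
  have hQM := hE.sub_syl hqs (hK.sub_syl (hK.pi q hq hd) hQ)
  have hQ' := hp'.of_le hQ.le
  have hreg : Q ⊓ C(A) = ⊥ := by
    by_contra h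
    have hdv := (hQ.pi.infl _).dvd_of_ne_bot h
    by_cases hcyc : Cyc Q
    · exact hQc (cents_symm (G1a.coprime_odd_faithful_Ohm1 hQ.pi hn (hQ'.coprime' hA.pg) (hM.odd hQM.le)
        (cents_symm (((cyc_el1_Ohm1 hcyc hq (hdv.trans (card_dvd inf_le_left))).le_of_cyc hcyc
          inf_le_left hdv).trans inf_le_right))))
    obtain ⟨B, hB⟩ := hQ.pi.exists_el2 (hM.odd hQM.le) hcyc
    obtain ⟨R, hR, hQR⟩ := exists_maxNormed_ge hQ.pi hn
    obtain ⟨S, -, hAS, -, -, h⟩ := max_normed_2Elem_signaliser (hx.w hM) hq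
      (fun e1 : p = q => hp' q hq hd e1.symm) hA (hx.maxEl hM) hR (hdv.trans (card_dvd inf_le_right))
    exact hQc (cents_mono (cents_symm (h fun _ => ⟨B, hB.mono hQR,
      (sigma'_rank2_max hM hqs (hB.mono hQM.le)).of_le (hB.le.trans hQR) le_top⟩)) hQR hAS)
  have hnZ := hn.trans (norm_le_norm_center Q)
  have key : ∀ X, El p 1 X A → Ms M ⊓ C(X) = ⊥ → M ≤ N(⁅Z(Q), X⁆) := fun X hX r =>
    (commG_sigma'_1Elem_cyclic hM (inf_le_left.trans hQM.le) ((hQ.pi.infl _).sing hqs)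
      (hX.mono hA.le) (hX.le.trans hnZ) r (hQ'.infl _) (comm_center Q)).2.2
  have h12 := norms_sup (key A1 a1 r1) (key A2 a2 r2)
  have e3 : ⁅Z(Q), A1⁆ ⊔ ⁅Z(Q), A2⁆ = Z(Q) := by
    refine le_antisymm (sup_le (commg_le_left (a1.le.trans hnZ)) (commg_le_left (a2.le.trans hnZ))) ?_
    refine (commg_eq_of_cent_eq_bot hnZ ((hQ'.infl _).coprime' hA.pg) (Or.inl (sol_of_ab hA.comm))
      (eq_bot_mono (inf_le_inf_right _ inf_le_left) hreg)).ge.trans ?_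
    rw [← hA.sup_eq a1 a2 hne]
    exact commg_sup_right_le le_sup_left le_sup_right ((a1.le.trans hA.le).trans h12)
      ((a2.le.trans hA.le).trans h12)
  rw [e3] at h12
  exact not_norm_sigma' hM.1 (hKw q hq hd) hqs hQM ((norm_le_norm_center Q).trans
    (mmax_norm hM (hQ.pi.center_ne_bot (hQ.sne_bot hq hd)) ((hKw.of_le hQ.le).infl _) h12).le)

instance inst_B11_7 : B11_7 G := ⟨exceptional_mul_sigma_normal⟩

example : B11 G := inferInstance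

end

end H13.V
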