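/-
Port of `H19/St12,H2/B12a` to the `ϖ`-local setting.
-/
import Cfsg.Agent.H13.V11

set_option autoImplicit false
set_option linter.unusedSectionVars false

namespace H13.V
section
open H19
open Cfsg Subgroup

universe u

/-- BG 12.1 and the remarks around it -/
class B12_1 (G : Type u) [Group G] [VS G] : Prop where
  ex_sigma_compl {M F : Subgroup G} (hM : Mx M) (hF : F ≤ M) (hs : PiG (sigma M)ᶜ F) :
    ∃ E, Hall (sigma M)ᶜ E M ∧ F ≤ E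
  sdprod_sigma {M E : Subgroup G} (hM : Mx M) (hE : Hall (sigma M)ᶜ E M) :
    Sdprod (Ms M) E M
  der1_sigma_compl {M E : Subgroup G} (hM : Mx M) (hE : Hall (sigma M)ᶜ E M) :
    ⁅M, M⁆ ⊓ E = ⁅E, E⁆ ∧ Ms M ⊔ ⁅E, E⁆ = ⁅M, M⁆
  partition_pi_mmax {M : Subgroup G} {p : ℕ} (hM : Mx M) (hp : p.Prime) (hd : p ∣ #M) :
    p ∈ tau1 M ∨ p ∈ tau2 M ∨ p ∈ tau3 M ∨ p ∈ sigma M
  partition_pi_sigma_compl {M E : Subgroup G} {p : ℕ} (hM : Mx M)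
    (hE : Hall (sigma M)ᶜ E M) :
    (p.Prime ∧ p ∣ #E) ↔ (p ∈ tau1 M ∨ p ∈ tau2 M ∨ p ∈ tau3 M)
  tau1E {M E : Subgroup G} {p : ℕ} (hM : Mx M) (hE : Hall (sigma M)ᶜ E M) :
    p ∈ tau1 M ↔ prk p E = 1 ∧ ¬ p ∣ #(⁅E, E⁆)
  tau2E {M E : Subgroup G} {p : ℕ} (hM : Mx M) (hE : Hall (sigma M)ᶜ E M) :
    p ∈ tau2 M ↔ prk p E = 2
  tau3E {M E : Subgroup G} {p : ℕ} (hM : Mx M) (hE : Hall (sigma M)ᶜ E M) :
    p ∈ tau3 M ↔ prk p E = 1 ∧ p ∣ #(⁅E, E⁆)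
  ex_tau2Elem {M E : Subgroup G} {p : ℕ} (hM : Mx M) (hE : Hall (sigma M)ᶜ E M)
    (hp : p ∈ tau2 M) : ∃ A, El p 2 A E
  sigma'2Elem_tau2 {M E A : Subgroup G} {p : ℕ} (hM : Mx M) (hE : Hall (sigma M)ᶜ E M)
    (hA : El p 2 A E) : p ∈ tau2 M
  /-- 12.1(a) -/
  der1_sigma_compl_nil {M E : Subgroup G} (hM : Mx M) (hE : Hall (sigma M)ᶜ E M) :
    Nil ⁅E, E⁆
  /-- 12.1(g) -/
  tau2_not_beta {M : Subgroup G} {p : ℕ} (hM : Mx M) (hp : p ∈ tau2 M) :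
    p ∉ betaG G ∧ ∀ A, El p 2 A M → MaxEl p A ⊤
  /-- `(τ₁ ∪ τ₃)`-subgroups have cyclic Sylow subgroups -/
  tau13_cyclic {M P : Subgroup G} {p : ℕ} (hM : Mx M) (hp : p ∈ tau1 M ∪ tau3 M)
    (hP : PG p P) (hle : P ≤ M) : Cyc P
  /-- every Hall `τ₁`-subgroup of `E` is part of a `σ`-complement system -/
  ex_tau23_compl {M E E1 : Subgroup G} (hM : Mx M) (hE : Hall (sigma M)ᶜ E M)
    (h1 : Hall (tau1 M) E1 E) : ∃ E2 E3, SigmaCompl M E E1 E2 E3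
  /-- every `τ₁`-subgroup of `E` lies in a `σ`-complement system -/
  ex_tau1_compl {M E F : Subgroup G} (hM : Mx M) (hE : Hall (sigma M)ᶜ E M)
    (hF : F ≤ E) (h1 : PiG (tau1 M) F) : ∃ E1 E2 E3, SigmaCompl M E E1 E2 E3 ∧ F ≤ E1
  /-- every Hall `τ₂`-subgroup of `E` is part of a `σ`-complement system -/
  ex_tau13_compl {M E E2 : Subgroup G} (hM : Mx M) (hE : Hall (sigma M)ᶜ E M)
    (h2 : Hall (tau2 M) E2 E) : ∃ E1 E3, SigmaCompl M E E1 E2 E3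
  /-- 12.1(b-f) -/
  sigma_compl_context {M E E1 E2 E3 : Subgroup G} (hM : Mx M)
    (h : SigmaCompl M E E1 E2 E3) :
    (E3 ≤ ⁅E, E⁆ ∧ E3 ⊴ E) ∧ (E2 = ⊥ → E1 ≠ ⊥) ∧ (Cyc E1 ∧ Cyc E3) ∧
      (Sdprod E2 E1 (E2 ⊔ E1) ∧ Sdprod E3 (E2 ⊔ E1) E ∧ Sdprod E3 E2 (E3 ⊔ E2) ∧
        Sdprod (E3 ⊔ E2) E1 E) ∧ E3 ⊓ C(E) = ⊥

/-- BG 12.2 - 12.4 -/
class B12_2 (G : Type u) [Group G] [VS G] : Prop where
  /-- 12.2(a) -/
  prime_class_mmax_norm {M X : Subgroup G} {p : ℕ} (hw : p ∈ vw G) (hM : Mx M) (hX : PG p X)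
    (hN : N(X) ≤ M) : p ∈ sigma M ∨ p ∈ tau2 M
  /-- 12.2(b) -/
  mmax_norm_notJ {M Mstar X : Subgroup G} {p : ℕ} (hw : p ∈ vw G) (hM : Mx M) (hMs : Mx Mstar)
    (hX : PG p X) (hle : X ≤ M) (hN : N(X) ≤ Mstar)
    (h : (p ∈ sigma M ∧ M ≠ Mstar) ∨ p ∈ tau1 M ∨ p ∈ tau3 M) : ¬ Cjg M Mstar
  /-- 12.3 -/
  nonuniq_p2Elem_cent_sigma {M Mstar A A0 : Subgroup G} {p : ℕ} (hM : Mx M)
    (hMs : Mx Mstar) (hne : Mstar ≠ M) (hA : El p 2 A M) (hA0 : El p 1 A0 A)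
    (hN : N(A0) ≤ Mstar) :
    (p ∉ sigma M → A ≤ C(Ms M ⊓ Mstar)) ∧ (p ∉ alpha M → A ≤ C(Ma M ⊓ Mstar))
  /-- 12.4 -/
  p2Elem_mmax {M A : Subgroup G} {p : ℕ} (hM : Mx M) (hA : El p 2 A M) :
    C(A) ≤ M ∧ ((∀ A0, El p 1 A0 A → ¬ UniqMax N(A0) M) →
      p ∈ sigma M ∧ Ma M = ⊥ ∧ Nil (Ms M))

/-- BG 12.5, 12.6 -/
class B12_5 (G : Type u) [Group G] [VS G] : Prop where
  /-- 12.5(a) -/
  tau2_Msigma_nil {M : Subgroup G} {p : ℕ} (hM : Mx M) (hp : p ∈ tau2 M) : Nil (Ms M)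
  /-- 12.5(b-f); two subgroups in (f), as in 11.6(c) -/
  tau2_context {M A : Subgroup G} {p : ℕ} (hM : Mx M) (hp : p ∈ tau2 M) (hA : El p 2 A M) :
    (∀ P, Syl p P M → Ab P) ∧
      (∀ P, Syl p P M → A ≤ P → Ohm1 p P = A ∧ ¬ N(P) ≤ M) ∧
      M ≤ N(Ms M ⊔ A) ∧ Ms M ⊓ C(A) = ⊥ ∧
      (∀ Mstar, Mx Mstar → A ≤ Mstar → Mstar ≠ M → Ms M ⊓ Mstar = ⊥) ∧
      ∃ A1 A2, El p 1 A1 A ∧ El p 1 A2 A ∧ A1 ≠ A2 ∧ Ms M ⊓ C(A1) = ⊥ ∧ Ms M ⊓ C(A2) = ⊥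
  /-- 12.6(a, b, c, f) -/
  tau2_compl_context {M E A : Subgroup G} {p : ℕ} (hM : Mx M) (hE : Hall (sigma M)ᶜ E M)
    (hp : p ∈ tau2 M) (hA : El p 2 A E) :
    (A ⊴ E ∧ ∀ X, El p 1 X E → X ≤ A) ∧ (C(A) ≤ E ∧ M ⊓ N(A) = E ∧ ¬ N(A) ≤ M) ∧
      (∀ X, El p 1 X E → Ms M ⊓ C(X) ≠ ⊥ → UniqMax C(X) M) ∧
      ∀ Mstar, Mx Mstar → ¬ Cjg M Mstar →
        Ms M ⊓ Ms Mstar = ⊥ ∧ ∀ q ∈ sigma M, q ∉ sigma Mstar
  /-- 12.6(d, e), general form -/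
  tau2_regular_cent {M E A X : Subgroup G} {p : ℕ} (hM : Mx M) (hE : Hall (sigma M)ᶜ E M)
    (hp : p ∈ tau2 M) (hA : El p 2 A E) (hX : X ≤ C(A)) (h2 : PiG (tau2 M)ᶜ X) :
    Semireg (Ms M) X
  /-- 12.6(d, e) -/
  tau2_regular {M E E1 E2 E3 A : Subgroup G} {p : ℕ} (hM : Mx M)
    (h : SigmaCompl M E E1 E2 E3) (hp : p ∈ tau2 M) (hA : El p 2 A E) :
    E3 ≤ C(A) ∧ Semireg (Ms M) E3 ∧ Semireg (Ms M) (E1 ⊓ C(A))

/-- BG 12.7 -/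
class B12_7 (G : Type u) [Group G] [VS G] : Prop where
  nonabelian_tau2 {M E A P0 : Subgroup G} {p : ℕ} (hM : Mx M) (hE : Hall (sigma M)ᶜ E M)
    (hp : p ∈ tau2 M) (hA : El p 2 A E) (hP : PG p P0) (hna : ¬ Ab P0) :
    tau2 M = {p} ∧ (#(A ⊓ C(Ms M)) = p ∧ Dprod (Ms M) (A ⊓ C(Ms M)) (Fit M)) ∧
      (∀ X, El p 1 X E → X ≠ A ⊓ C(Ms M) → Ms M ⊓ C(X) = ⊥ ∧ ¬ C(X) ≤ M) ∧
      ∃ E0, Sdprod (A ⊓ C(Ms M)) E0 E ∧ ∀ x ∈ Ms M, x ≠ 1 → PiG (tau1 M) (E0 ⊓ C[x])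

/-- BG 12.8, 12.9 -/
class B12_8 (G : Type u) [Group G] [VS G] : Prop where
  /-- 12.8(c) -/
  abelian_tau2_sub_Fitting {M E A S : Subgroup G} {p : ℕ} (hM : Mx M)
    (hE : Hall (sigma M)ᶜ E M) (hp : p ∈ tau2 M) (hA : El p 2 A E) (hS : Syl p S ⊤) (hAS : A ≤ S)
    (hab : Ab S) : S ≤ ⁅N(S), N(S)⁆ ∧ ⁅N(S), N(S)⁆ ≤ Fit E ∧ Fit E ≤ C(S) ∧ C(S) ≤ E
  /-- 12.8(a, b, d, e) -/
  abelian_tau2 {M E A S : Subgroup G} {p : ℕ} (hM : Mx M)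
    (hE : Hall (sigma M)ᶜ E M) (hp : p ∈ tau2 M) (hA : El p 2 A E) (hS : Syl p S ⊤) (hAS : A ≤ S)
    (hab : Ab S) :
    (∀ E2, Hall (tau2 M) E2 E → E2 ⊴ E ∧ Ab E2 ∧ Hall (tau2 M) E2 ⊤) ∧
      (∀ E2 E3, Hall (tau2 M) E2 E → Hall (tau3 M) E3 E →
        N(A) = N(S) ∧ N(S) = N(E2) ∧ N(S) = N(E3 ⊔ E2) ∧ N(S) = N(Fit E)) ∧
      ∀ q X, q ∈ tau1 M → El q 1 X E → Ms M ⊓ C(X) = ⊥ → X ≤ C(E)
  /-- 12.8(f) -/
  abelian_tau2_norm_Sylow {M E A S X : Subgroup G} {p : ℕ} (hM : Mx M)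
    (hE : Hall (sigma M)ᶜ E M) (hp : p ∈ tau2 M) (hA : El p 2 A E) (hS : Syl p S ⊤) (hAS : A ≤ S)
    (hab : Ab S) (hX : X ≤ N(S)) : N(S) ≤ N(S ⊓ C(X)) ∧ N(S) ≤ N(⁅S, X⁆)
  /-- 12.9 -/
  tau1_act_tau2 {M E A Q : Subgroup G} {p q : ℕ} (hM : Mx M) (hE : Hall (sigma M)ᶜ E M)
    (hp : p ∈ tau2 M) (hA : El p 2 A E) (hq : q ∈ tau1 M) (hQ : El q 1 Q E)
    (hreg : Ms M ⊓ C(Q) = ⊥) (hne : ⁅A, Q⁆ ≠ ⊥) :
    (El p 1 ⁅A, Q⁆ A ∧ A ⊓ C(Ms M) = ⁅A, Q⁆ ∧ M ≤ N(⁅A, Q⁆)) ∧ ¬ Cjg (A ⊓ C(Q)) ⁅A, Q⁆ ∧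
      El p 1 (A ⊓ C(Q)) A ∧ ¬ C(A ⊓ C(Q)) ≤ M

/-- BG 12.10, 12.11 -/
class B12_10 (G : Type u) [Group G] [VS G] : Prop where
  /-- 12.10(a) -/
  sigma'_nil_abelian {M K : Subgroup G} (hM : Mx M) (hK : K ≤ M) (hs : PiG (sigma M)ᶜ K)
    (hn : Nil K) : Ab K
  /-- 12.10(b) -/
  der_mmax_compl_abelian {M E : Subgroup G} (hM : Mx M) (hE : Hall (sigma M)ᶜ E M) :
    Ab ⁅E, E⁆
  /-- 12.10(b) -/
  tau2_compl_abelian {M E E2 : Subgroup G} (hM : Mx M) (hE : Hall (sigma M)ᶜ E M)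
    (h2 : Hall (tau2 M) E2 E) : Ab E2
  /-- 12.10(c) -/
  tau1_cent_tau2Elem_factor {M E A : Subgroup G} {p : ℕ} (hM : Mx M)
    (hE : Hall (sigma M)ᶜ E M) (hp : p ∈ tau2 M) (hA : El p 2 A E) :
    (E ⊓ C(A)) ⊴ E ∧ PiN (tau1 M) ((E ⊓ C(A)).relIndex E) ∧
      ∀ K, K ≤ E → PiG (tau1 M)ᶜ K → K ≤ C(A)
  /-- 12.10(d) -/
  norm_noncyclic_sigma {M P : Subgroup G} {p : ℕ} (hM : Mx M) (hp : p ∈ sigma M)
    (hP : PG p P) (hle : P ≤ M) (hnc : ¬ Cyc P) : N(P) ≤ M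
  /-- 12.10(e) -/
  cent1_nreg_sigma_uniq {M : Subgroup G} {x : G} (hM : Mx M) (hx : x ∈ M) (hx1 : x ≠ 1)
    (h2 : PiE (tau2 M) x) (h : Ms M ⊓ C[x] ≠ ⊥) : UniqMax C[x] M
  /-- 12.11 -/
  primes_norm_tau2Elem {M E A Mstar : Subgroup G} {p : ℕ} (hM : Mx M)
    (hE : Hall (sigma M)ᶜ E M) (hp : p ∈ tau2 M) (hA : El p 2 A E) (hMs : Mx Mstar)
    (hN : N(A) ≤ Mstar) :
    (∀ q ∈ tau2 M, q ∈ sigma Mstar ∧ q ∉ beta Mstar) ∧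
      PiN (tau1 Mstar ∪ tau2 Mstar) ((E ⊓ C(A)).relIndex E) ∧
      ∀ q : ℕ, q.Prime → q ∣ (E ⊓ C(A)).relIndex E → q ∣ #(E ⊓ C(A)) →
        q ∈ tau2 Mstar ∧ (∃ P, Syl p P ⊤ ∧ P ⊴ Mstar) ∧ ∃ Q, Syl q Q ⊤ ∧ Q ≤ Mstar ∧ Ab Q

/-- BG 12.12, generalised to a Hall subgroup `U` of a complement -/
class B12_12 (G : Type u) [Group G] [VS G] : Prop where
  FTtypeF_complement {M U : Subgroup G} {π : Set ℕ} (hM : Mx M) (hU : Hall π U M)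
    (hs : PiG (sigma M)ᶜ U)
    (h : ∀ e ∈ U, e ≠ 1 → PiE (tau1 M ∪ tau3 M) e → Ms M ⊓ C[e] = ⊥) :
    (∃ A0, A0 ⊴ U ∧ Ab A0 ∧ ∀ x ∈ Ms M, x ≠ 1 → U ⊓ C[x] ≤ A0) ∧
      ∃ E0, E0 ≤ U ∧ expo E0 = expo U ∧ Semireg (Ms M) E0

/-- BG 12.13, 12.14 -/
class B12_13 (G : Type u) [Group G] [VS G] : Prop where
  nonabelian_Uniqueness {P : Subgroup G} {p : ℕ} (hw : p ∈ vw G) (hP : PG p P) (hna : ¬ Ab P) : Uniq P
  nonabelian_pgroup_sigma {M P : Subgroup G} {p : ℕ} (hM : Mx M) (hP : PG p P)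
    (hle : P ≤ M) (hna : ¬ Ab P) : p ∈ sigma M
  cent_der_sigma_uniq {M X : Subgroup G} {p : ℕ} (hM : Mx M) (hX : El p 1 X M)
    (h : p ∈ beta M ∨ X ≤ ⁅Ms M, Ms M⁆) :
    UniqMax C(X) M ∧ ∀ P, Syl p P (Ms M) → UniqMax P M

/-- BG 12.15 - 12.17 -/
class B12_15 (G : Type u) [Group G] [VS G] : Prop where
  /-- 12.15 -/
  sigma_subgroup_embedding {M X Mstar S : Subgroup G} {q : ℕ} (hM : Mx M)
    (hq : q ∈ sigma M) (hXM : X ≤ M) (hX : PG q X) (hMs : Mx Mstar) (hN : N(X) ≤ Mstar)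
    (hne : Mstar ≠ M) (hS : Syl q S (M ⊓ Mstar)) (hXS : X ≤ S) :
    ¬ Cjg M Mstar ∧ N(S) ≤ M ∧ Syl q S Mstar ∧
      (q ∈ sigma Mstar → Mb Mstar ⊔ (M ⊓ Mstar) = Mstar ∧ tau1 Mstar ⊆ tau1 M ∪ alpha M ∧
        Mb M = Ma M ∧ Ma M ≠ ⊥) ∧
      (q ∉ sigma Mstar → q ∈ tau2 Mstar ∧ (∀ r ∈ sigma Mstar, r ∣ #M → r ∈ beta Mstar) ∧
        Hall (sigma Mstar)ᶜ (M ⊓ Mstar) Mstar)
  /-- 12.16, first assertion -/
  sigma_Jsub {M Y : Subgroup G} (hM : Mx M) (hY : PiG (sigma M) Y) :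
    ∃ g, cj g Y ≤ Ms M
  /-- 12.16(a, b) -/
  sigma_norm_rank1 {M Y H : Subgroup G} {p : ℕ} (hM : Mx M) (hY : PiG (sigma M) Y)
    (h1 : Y ≠ ⊥) (hp : p.Prime) (hd : p ∣ #M) (hs : p ∉ sigma M) (hb : p ∉ betaG G)
    (hH : Mx H) (hYH : Y ≤ H) (hnc : ¬ Cjg M H) :
    prk p (H ⊓ N(Y)) ≤ 1 ∧ (p ∈ tau1 M → ¬ p ∣ #(⁅H ⊓ N(Y), H ⊓ N(Y)⁆))
  /-- 12.17 -/
  sigma_compl_embedding {M E : Subgroup G} (hM : Mx M) (hE : Hall (sigma M)ᶜ E M) :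
    Ms M ⊓ C(E) ≤ ⁅Ms M, Ms M⁆ ∧ ⁅Ms M, E⁆ = Ms M ∧
      ∀ g, g ∉ M → Cyc (Ms M ⊓ cj g M) ∧ PiG (beta M)ᶜ (Ms M ⊓ cj g M) ∧
        Ms M ⊓ cj g M ⊓ ⁅Ms M, Ms M⁆ = ⊥

/-- BG 12.18, 12.19 -/
class B12_18 (G : Type u) [Group G] [VS G] : Prop where
  cent_Malpha_reg_tau1 {M P Q : Subgroup G} {p q : ℕ} (hw : q ∈ vw G) (hM : Mx M) (hp : p ∈ tau1 M)
    (hpq : q ≠ p) (hP : El p 1 P M) (hQ : PG q Q) (hQM : Q ≤ M) (h1 : Q ≠ ⊥) (hn : P ≤ N(Q))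
    (hreg : Q ⊓ C(P) = ⊥) (hnu : ¬ UniqMax N(Q) M) :
    (Ma M ≠ ⊥ → q ∉ alpha M → Ma M ⊓ C(P) ≠ ⊥ ∧ Ma M ⊓ C(Q ⊔ P) = ⊥) ∧
      (Syl q Q M → alpha M = beta M ∧ Ma M ≠ ⊥ ∧ q ∉ alpha M ∧ Ma M ⊓ C(P) ≠ ⊥ ∧
        Ma M ⊓ C(Q ⊔ P) = ⊥)
  der_compl_cent_beta' {M E : Subgroup G} (hM : Mx M) (hE : Hall (sigma M)ᶜ E M) :
    ∃ H, Hall (beta M)ᶜ H (Ms M) ∧ ⁅E, E⁆ ≤ C(H)

/-- all of BG section 12 -/
class abbrev B12 (G : Type u) [Group G] [VS G] : Prop :=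
  B12_1 G, B12_2 G, B12_5 G, B12_7 G, B12_8 G, B12_10 G, B12_12 G, B12_13 G, B12_15 G, B12_18 G

/-- BG 13.1 - 13.3 -/
class B13_1 (G : Type u) [Group G] [VS G] : Prop where
  /-- 13.1 -/
  Msigma_setI_mmax_central {M H : Subgroup G} {p : ℕ} (hM : Mx M) (hH : Mx H)
    (hp : p.Prime) (hdM : p ∣ #M) (hs : p ∉ sigma M) (hdH : p ∣ #H) (h1 : p ∉ tau1 H)
    (hne : ⁅Ms M ⊓ H, M ⊓ H⁆ ≠ ⊥) (hnc : ¬ Cjg M H) :
    (∀ P, P ≤ M ⊓ H → PG p P → P ≤ C(Ms M ⊓ H)) ∧ p ∉ tau2 H ∧ (p ∈ tau1 M → p ∈ betaG G)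
  /-- 13.2 -/
  cent_norm_tau13_mmax {M P H : Subgroup G} {p : ℕ} (hw : p ∈ vw G) (hM : Mx M)
    (hp : p ∈ tau1 M ∪ tau3 M) (hle : P ≤ M) (hP : PG p P) (hH : Mx H) (hN : N(P) ≤ H) :
    (∀ P1, P1 ≤ M ⊓ H → PG p P1 → P1 ≤ C(Ms M ⊓ H)) ∧
      (∀ X, X ≤ M ⊓ H → PiG (sigma M)ᶜ X → PiG (tau1 H)ᶜ X → X ≤ C(Ms M ⊓ H)) ∧
      (⁅Ms M ⊓ H, M ⊓ H⁆ ≠ ⊥ → p ∈ sigma H ∧ (p ∈ tau1 M → p ∈ beta H))
  /-- 13.3(a) -/
  cyclic_primact_Msigma {M E P : Subgroup G} {p : ℕ} (hM : Mx M) (hE : Hall (sigma M)ᶜ E M)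
    (hP : Syl p P E) (hc : Cyc P) : Semiprime (Ms M) P
  /-- 13.3(b) -/
  tau3_primact_Msigma {M E E3 : Subgroup G} (hM : Mx M) (hE : Hall (sigma M)ᶜ E M)
    (h3 : Hall (tau3 M) E3 E) : Semiprime (Ms M) E3

/-- BG 13.4 - 13.7 -/
class B13_4 (G : Type u) [Group G] [VS G] : Prop where
  /-- 13.4 -/
  cent_tau1Elem_Msigma {M E P R : Subgroup G} {p r : ℕ} (hM : Mx M)
    (hE : Hall (sigma M)ᶜ E M) (hp : p ∈ tau1 M) (hP : El p 1 P E) (hR : El r 1 R E)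
    (hRP : R ≤ C(P)) : Ms M ⊓ C(P) ≤ C(R)
  /-- 13.5 -/
  tau1_primact_Msigma {M E E1 : Subgroup G} (hM : Mx M) (hE : Hall (sigma M)ᶜ E M)
    (h1 : Hall (tau1 M) E1 E) : Semiprime (Ms M) E1
  /-- 13.6 -/
  cent_cent_Msigma_tau1_uniq {M P X : Subgroup G} {q : ℕ} (hM : Mx M) (hle : P ≤ M)
    (hP : PiG (tau1 M) P) (h1 : P ≠ ⊥) (hX : El q 1 X (Ms M)) (hXP : X ≤ C(P)) :
    UniqMax C(X) M ∧ ∀ S, Syl q S (Ms M) → UniqMax S M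
  /-- 13.7 -/
  tau13_primact_Msigma {M E E1 E2 E3 : Subgroup G} (hM : Mx M)
    (h : SigmaCompl M E E1 E2 E3) (hnr : ¬ Semireg E3 E1) : Semiprime (Ms M) (E3 ⊔ E1)

/-- BG 13.8, 13.9 -/
class B13_8 (G : Type u) [Group G] [VS G] : Prop where
  /-- 13.8 -/
  tau1_mmaxI_asymmetry {M Mstar P Q Qstar : Subgroup G} {p q qstar : ℕ} (hw : q ∈ vw G) (hws : qstar ∈ vw G) (hM : Mx M)
    (hMs : Mx Mstar) (hnc : ¬ Cjg M Mstar) (hp : p ∈ tau1 M) (hps : p ∈ tau1 Mstar)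
    (hP : El p 1 P (M ⊓ Mstar)) (hQ : Syl q Q (M ⊓ Mstar)) (hQs : Syl qstar Qstar (M ⊓ Mstar))
    (hn : P ≤ N(Q)) (hns : P ≤ N(Qstar)) (hreg : Q ⊓ C(P) = ⊥) (hregs : Qstar ⊓ C(P) = ⊥)
    (hNQ : N(Q) ≤ Mstar) (hNQs : N(Qstar) ≤ M) : False
  /-- 13.9 -/
  sigma_partition {M Mstar : Subgroup G} (hM : Mx M) (hMs : Mx Mstar)
    (hnc : ¬ Cjg M Mstar) : ∀ p ∈ sigma M, p ∉ sigma Mstar

/-- BG 13.10 - 13.13 -/
class B13_10 (G : Type u) [Group G] [VS G] : Prop where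
  /-- 13.10 -/
  tau13_regular {M E E1 E2 E3 P : Subgroup G} (hM : Mx M) (h : SigmaCompl M E E1 E2 E3)
    (hP : P ≤ E1) (hp : (#P).Prime) (hnc : ¬ P ≤ C(E3)) :
    Semireg E3 E1 ∧ Semireg (Ms M) E3 ∧ Ms M ⊓ C(P) ≠ ⊥
  /-- 13.11 -/
  tau13_nonregular {M E E1 E2 E3 : Subgroup G} (hM : Mx M) (h : SigmaCompl M E E1 E2 E3)
    (hnr : ¬ Semireg (Ms M) E3) :
    E1 ≠ ⊥ ∧ Sdprod E3 E1 E ∧ Semiprime (Ms M) E ∧ ∀ X, X ≤ E → (#X).Prime → E ≤ N(X)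
  /-- 13.12 -/
  tau12_regular {M E P A : Subgroup G} {p q : ℕ} (hM : Mx M) (hE : Hall (sigma M)ᶜ E M)
    (hp : p ∈ tau1 M) (hq : q ∈ tau2 M) (hP : El p 1 P E) (hA : El q 2 A E) (h : A ⊓ C(P) ≠ ⊥) :
    Ms M ⊓ C(P) = ⊥
  /-- 13.13 -/
  tau13_nonregular_sigma {M H P : Subgroup G} {p : ℕ} (hM : Mx M) (hP : El p 1 P M)
    (hp : p ∈ tau1 M ∪ tau3 M) (h : Ms M ⊓ C(P) ≠ ⊥) (hH : Mx H) (hN : N(P) ≤ H) :
    p ∈ sigma H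

/-- all of BG section 13 -/
class abbrev B13 (G : Type u) [Group G] [VS G] : Prop := B13_1 G, B13_4 G, B13_8 G, B13_10 G

end

section
open H2 H2.BG
open Cfsg Subgroup H18
open H19 hiding eq_bot_mono

attribute [-instance] H18.fintypeSubgroup
universe u

section general
variable {G : Type*} [Group G] [Finite G] {π : Set ℕ} {p q : ℕ} {A B H K M P Q R X : Subgroup G}

end general

variable {G : Type u} [Group G] [Finite G] [VS G] [Gen.{u}] [U79 G] {π : Set ℕ} {p q : ℕ}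
  {A A0 B E E1 E2 E3 F H K L M Mstar P Q R S U V X Y : Subgroup G}

/-! ### 12.1 -/

theorem ex_sigma_compl (hM : Mx M) (hF : F ≤ M) (hs : PiG (sigma M)ᶜ F) :
    ∃ E, Hall (sigma M)ᶜ E M ∧ F ≤ E := hs.exists_hall (mmax_sol hM) hF

theorem der1_sigma_compl (hM : Mx M) (hE : Hall (sigma M)ᶜ E M) :
    ⁅M, M⁆ ⊓ E = ⁅E, E⁆ ∧ Ms M ⊔ ⁅E, E⁆ = ⁅M, M⁆ := by
  have hs := sdprod_sigma hM hE
  refine ⟨?_, le_antisymm (sup_le (Msigma_der1 hM) (der_mono hE.le)) ?_⟩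
  · rw [inf_comm, G6.pprod_focal_coprime hs.sup (Ms_norm M) le_rfl (cop_Ms hE.pi),
      inf_eq_right.2 (der_le E)]
  · have := der_sup_le hs.norm
    rwa [hs.sup] at this

theorem partition_pi_mmax (hM : Mx M) (hp : p.Prime) (hd : p ∣ #M) :
    p ∈ tau1 M ∨ p ∈ tau2 M ∨ p ∈ tau3 M ∨ p ∈ sigma M := by
  by_cases hs : p ∈ sigma M
  · exact Or.inr (Or.inr (Or.inr hs))
  have h1 := sigma'_prk_le hM hs
  have h2 := prk_pos hp hd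
  rw [mem_tau1, mem_tau2, mem_tau3]
  by_cases h3 : prk p M = 2
  · exact Or.inr (Or.inl ⟨hs, h3⟩)
  by_cases h4 : p ∣ #(⁅M, M⁆)
  · exact Or.inr (Or.inr (Or.inl ⟨hs, by omega, h4⟩))
  · exact Or.inl ⟨hs, by omega, h4⟩

theorem tau_of_dvd (hM : Mx M) (hE : Hall (sigma M)ᶜ E M) (hp : p.Prime) (hd : p ∣ #E) :
    p ∈ tau1 M ∨ p ∈ tau2 M ∨ p ∈ tau3 M := by
  rcases partition_pi_mmax hM hp (hd.trans (card_dvd hE.le)) with h | h | h | h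
  exacts [Or.inl h, Or.inr (Or.inl h), Or.inr (Or.inr h), absurd h (hE.pi p hp hd)]

theorem partition_pi_sigma_compl (hM : Mx M) (hE : Hall (sigma M)ᶜ E M) :
    (p.Prime ∧ p ∣ #E) ↔ (p ∈ tau1 M ∨ p ∈ tau2 M ∨ p ∈ tau3 M) := by
  refine ⟨fun h => tau_of_dvd hM hE h.1 h.2, ?_⟩
  rintro (h | h | h)
  · exact ⟨tau1_prime h, hE.prime_dvd (tau1_prime h) (tau1_sigma' h) (tau1_dvd h)⟩
  · exact ⟨tau2_prime h, hE.prime_dvd (tau2_prime h) (tau2_sigma' h) (tau2_dvd h)⟩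
  · exact ⟨tau3_prime h, hE.prime_dvd (tau3_prime h) (tau3_sigma' h) (tau3_dvd h)⟩

theorem sigma'_of_prk_pos (hE : Hall (sigma M)ᶜ E M) (h : 0 < prk p E) : p ∉ sigma M :=
  hE.pi p (prk_pos_iff.1 h).1 (prk_pos_iff.1 h).2

theorem dvd_der_iff (hM : Mx M) (hE : Hall (sigma M)ᶜ E M) (hp : p.Prime)
    (hs : p ∉ sigma M) : p ∣ #(⁅M, M⁆) ↔ p ∣ #(⁅E, E⁆) := by
  refine ⟨fun h => ?_, fun h => h.trans (card_dvd (der_mono hE.le))⟩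
  rw [← (der1_sigma_compl hM hE).2] at h
  exact ((Nat.Prime.dvd_mul hp).1 (h.trans (card_sup_dvd (((der_le E).trans hE.le).trans
    (Ms_norm M))))).resolve_left ((Ms_pi M).not_dvd' hp hs)

theorem tau1E (hM : Mx M) (hE : Hall (sigma M)ᶜ E M) :
    p ∈ tau1 M ↔ prk p E = 1 ∧ ¬ p ∣ #(⁅E, E⁆) := by
  constructor
  · intro h
    rw [hE.prk_eq (tau1_sigma' h), ← dvd_der_iff hM hE (tau1_prime h) (tau1_sigma' h)]
    exact (mem_tau1.1 h).2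
  · intro h
    have hs := sigma'_of_prk_pos hE (p := p) (by omega)
    rw [hE.prk_eq hs, ← dvd_der_iff hM hE (prime_of_prk_pos (h.1.ge.trans_lt' one_pos)) hs] at h
    exact mem_tau1.2 ⟨hs, h⟩

theorem tau2E (hE : Hall (sigma M)ᶜ E M) : p ∈ tau2 M ↔ prk p E = 2 := by
  constructor
  · intro h
    rw [hE.prk_eq (tau2_sigma' h)]; exact tau2_prk h
  · intro h
    have hs := sigma'_of_prk_pos hE (p := p) (by omega)
    exact mem_tau2.2 ⟨hs, hE.prk_eq hs ▸ h⟩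

theorem tau3E (hM : Mx M) (hE : Hall (sigma M)ᶜ E M) :
    p ∈ tau3 M ↔ prk p E = 1 ∧ p ∣ #(⁅E, E⁆) := by
  constructor
  · intro h
    rw [hE.prk_eq (tau3_sigma' h), ← dvd_der_iff hM hE (tau3_prime h) (tau3_sigma' h)]
    exact (mem_tau3.1 h).2
  · intro h
    have hs := sigma'_of_prk_pos hE (p := p) (by omega)
    rw [hE.prk_eq hs, ← dvd_der_iff hM hE (prime_of_prk_pos (h.1.ge.trans_lt' one_pos)) hs] at h
    exact mem_tau3.2 ⟨hs, h⟩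

theorem ex_tau2Elem (hE : Hall (sigma M)ᶜ E M) (hp : p ∈ tau2 M) : ∃ A, El p 2 A E :=
  exists_el (tau2_prime hp) ((tau2E hE).1 hp).ge

theorem tau2_of_el (hM : Mx M) (hs : p ∉ sigma M) (hA : El p 2 A M) : p ∈ tau2 M :=
  mem_tau2.2 ⟨hs, le_antisymm (sigma'_prk_le hM hs) hA.le_prk⟩

theorem sigma'2Elem_tau2 (hM : Mx M) (hE : Hall (sigma M)ᶜ E M) (hA : El p 2 A E) :
    p ∈ tau2 M := tau2_of_el hM (hA.mem_pi hE.pi) (hA.mono hE.le)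

theorem der1_sigma_compl_nil (hM : Mx M) (hE : Hall (sigma M)ᶜ E M) : Nil ⁅E, E⁆ :=
  beta'_der1_nil hM ((hE.pi.of_le (der_le E)).mono
    (Set.compl_subset_compl.2 (beta_sub_sigma hM))) (der_mono hE.le)

theorem tau2_not_beta (hM : Mx M) (hp : p ∈ tau2 M) :
    p ∉ betaG G ∧ ∀ A, El p 2 A M → MaxEl p A ⊤ :=
  ⟨B10_3.sigma'_rank2_beta' hM (tau2_sigma' hp) (tau2_prk hp),
    fun _ hA => sigma'_rank2_max hM (tau2_sigma' hp) hA⟩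

theorem tau13_cyclic (hM : Mx M) (hp : p ∈ tau1 M ∪ tau3 M) (hP : PG p P) (hle : P ≤ M) : Cyc P :=
  mFT_cyc_of_prk' hM.1 hP hle (tau13_prk hp).le

/-- `τ₃`-subgroups lie in the derived group -/
theorem tau3_le_der (hM : Mx M) (hP : PiG (tau3 M) P) (hle : P ≤ M) : P ≤ ⁅M, M⁆ := by
  refine le_of_syl fun p R hp hR => ?_
  by_cases h1 : R = ⊥
  · exact h1.le.trans bot_le
  have h3 := hR.pi.mem_of_ne_bot h1 (hP.of_le hR.le)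
  obtain ⟨S, hS, hRS⟩ := hR.pi.exists_syl (hR.le.trans hle)
  refine hRS.trans ((G1b.cyclic_Sylow_tiVsub_der1 hS
    (tau13_cyclic hM (Or.inr h3) hS.pi hS.le)).resolve_left ?_)
  exact (hS.inf_normal (der_normal M)).sne_bot hp (mem_tau3.1 h3).2.2

theorem der_tau1' (hM : Mx M) (hE : Hall (sigma M)ᶜ E M) : PiG (tau1 M)ᶜ ⁅E, E⁆ :=
  fun _ _ hd h => ((tau1E hM hE).1 h).2 hd

theorem tau1'_hall (hM : Mx M) (hE : Hall (sigma M)ᶜ E M) :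
    Hall (tau1 M)ᶜ (Oc (tau1 M)ᶜ E) E := by
  obtain ⟨H, hH, hle⟩ := (der_tau1' hM hE).exists_hall (mmax_sub_sol hM hE.le) (der_le E)
  exact hH.Oc_hall (norms_of_der_le hle hH.le)

theorem tau3_compl (hM : Mx M) (hE : Hall (sigma M)ᶜ E M) (h3 : Hall (tau3 M) E3 E) :
    E3 ≤ ⁅E, E⁆ ∧ E3 ⊴ E ∧ Cyc E3 := by
  have h1 : E3 ≤ ⁅E, E⁆ := by
    rw [← (der1_sigma_compl hM hE).1]
    exact le_inf (tau3_le_der hM h3.pi (h3.le.trans hE.le)) h3.le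
  have hn := der1_sigma_compl_nil hM hE
  refine ⟨h1, ⟨h3.le, (der_normal E).norm.trans (nil_hall_norm hn (h3.of_le h1 (der_le E)))⟩,
    nil_cyc_of_syl (nil_mono hn h1) fun p P hP hle => ?_⟩
  by_cases h0 : P = ⊥
  · exact h0 ▸ cyc_bot
  exact tau13_cyclic hM (Or.inr (hP.mem_of_ne_bot h0 (h3.pi.of_le hle))) hP
    (hle.trans (h3.le.trans hE.le))

theorem tau1_cyclic (hM : Mx M) (hK : K ≤ M) (h1 : PiG (tau1 M) K) : Cyc K := by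
  have hab : Ab K := comm_iff_der.2 ((h1.of_le (der_le K)).eq_bot
    fun p _ hd h => (mem_tau1.1 h).2.2 (hd.trans (card_dvd (der_mono hK))))
  refine nil_cyc_of_syl (nil_of_ab hab) fun p P hP hle => ?_
  by_cases h0 : P = ⊥
  · exact h0 ▸ cyc_bot
  exact tau13_cyclic hM (Or.inl (hP.mem_of_ne_bot h0 (h1.of_le hle))) hP (hle.trans hK)

theorem tau2_hall_inf (hM : Mx M) (hE : Hall (sigma M)ᶜ E M) (hL : Hall (tau3 M)ᶜ L E) :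
    Hall (tau2 M) (Oc (tau1 M)ᶜ E ⊓ L) E :=
  (hL.inter ((tau1'_hall hM hE).inf_of_norm' hL.le (hL.le.trans (Oc_norm _ _)))).congr
    fun _ hp hd => ⟨fun h => ((tau_of_dvd hM hE hp hd).resolve_left h.2).resolve_right h.1,
      fun h => ⟨tau2_tau3' h, tau2_tau1' h⟩⟩

theorem tau23_eq (hM : Mx M) (hE : Hall (sigma M)ᶜ E M) (h2 : Hall (tau2 M) E2 E)
    (h3 : Hall (tau3 M) E3 E) : E3 ⊔ E2 = Oc (tau1 M)ᶜ E :=
  ((h3.union h2 (h2.le.trans (tau3_compl hM hE h3).2.1.norm)).congr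
    fun _ hp hd => ⟨fun h => h.elim tau3_tau1' tau2_tau1',
      fun h => ((tau_of_dvd hM hE hp hd).resolve_left h).symm⟩).eq_Oc' (tau1'_hall hM hE)

theorem ex_tau23_compl (hM : Mx M) (hE : Hall (sigma M)ᶜ E M) (h1 : Hall (tau1 M) E1 E) :
    ∃ E2 E3, SigmaCompl M E E1 E2 E3 := by
  have hs := mmax_sub_sol hM hE.le
  obtain ⟨E3, h3⟩ := exists_hall (tau3 M) hs
  obtain ⟨L, hL, hle⟩ := (h1.pi.mono (ρ := (tau3 M)ᶜ) fun _ h => tau1_tau3' h).exists_hall hs h1.le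
  exact ⟨_, E3, hE, h1, tau2_hall_inf hM hE hL, h3, fun x hx =>
    (mem_sup_of_norm (norms_inf (h1.le.trans (Oc_norm _ _)) (norms_of_le hle))).1 hx⟩

theorem ex_tau1_compl (hM : Mx M) (hE : Hall (sigma M)ᶜ E M) (hF : F ≤ E)
    (h1 : PiG (tau1 M) F) : ∃ E1 E2 E3, SigmaCompl M E E1 E2 E3 ∧ F ≤ E1 := by
  obtain ⟨E1, h, hle⟩ := h1.exists_hall (mmax_sub_sol hM hE.le) hF
  obtain ⟨E2, E3, h'⟩ := ex_tau23_compl hM hE h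
  exact ⟨E1, E2, E3, h', hle⟩

theorem ex_tau13_compl (hM : Mx M) (hE : Hall (sigma M)ᶜ E M) (h2 : Hall (tau2 M) E2 E) :
    ∃ E1 E3, SigmaCompl M E E1 E2 E3 := by
  have hs := mmax_sub_sol hM hE.le
  obtain ⟨E3, h3⟩ := exists_hall (tau3 M) hs
  obtain ⟨L, hL, hle⟩ := (h2.pi.mono (ρ := (tau3 M)ᶜ) fun _ h => tau2_tau3' h).exists_hall hs h2.le
  obtain ⟨E1, h1⟩ := exists_hall (tau1 M) (sol_mono hs hL.le)
  have e : E2 = Oc (tau1 M)ᶜ E ⊓ L := h2.eq_of_le (tau2_hall_inf hM hE hL)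
    (le_inf ((tau1'_hall hM hE).le_Oc h2.le (h2.pi.mono fun _ h => tau2_tau1' h)) hle)
  refine ⟨E1, E3, hE, hL.sub (fun _ h => tau1_tau3' h) h1, h2, h3, fun x hx =>
    (mem_sup_of_norm ?_).1 hx⟩
  rw [e]
  exact norms_inf ((h1.le.trans hL.le).trans (Oc_norm _ _)) (norms_of_le h1.le)

theorem ex_sigmaCompl (hM : Mx M) (hE : Hall (sigma M)ᶜ E M) :
    ∃ E1 E2 E3, SigmaCompl M E E1 E2 E3 :=
  let ⟨E1, E2, E3, h, _⟩ := ex_tau1_compl hM hE bot_le PiN.bot; ⟨E1, E2, E3, h⟩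

theorem sigma_compl_context (hM : Mx M) (h : SigmaCompl M E E1 E2 E3) :
    (E3 ≤ ⁅E, E⁆ ∧ E3 ⊴ E) ∧ (E2 = ⊥ → E1 ≠ ⊥) ∧ (Cyc E1 ∧ Cyc E3) ∧
      (Sdprod E2 E1 (E2 ⊔ E1) ∧ Sdprod E3 (E2 ⊔ E1) E ∧ Sdprod E3 E2 (E3 ⊔ E2) ∧
        Sdprod (E3 ⊔ E2) E1 E) ∧ E3 ⊓ C(E) = ⊥ := by
  obtain ⟨hE, h1, h2, h3, hg⟩ := h
  obtain ⟨a1, a2, a3⟩ := tau3_compl hM hE h3
  have e := tau23_eq hM hE h2 h3
  have s4 : Sdprod (E3 ⊔ E2) E1 E := e ▸ sdprod_of_hall' (tau1'_hall hM hE) (Oc_norm _ _) h1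
  have d32 : E3 ⊓ E2 = ⊥ := h3.pi.inf_eq_bot (h2.pi.mono fun _ h => tau2_tau3' h)
  have k : (E3 ⊔ E2) ⊓ (E2 ⊔ E1) = E2 := by
    refine le_antisymm (fun x hx => ?_) (le_inf le_sup_right le_sup_left)
    obtain ⟨a, ha, b, hb, rfl⟩ := hg x hx.2
    have : b ∈ (E3 ⊔ E2) ⊓ E1 := ⟨by simpa using mul_mem (inv_mem (mem_sup_right ha)) hx.1, hb⟩
    rw [s4.inf, mem_bot] at this
    simpa [this] using ha
  have s1 : Sdprod E2 E1 (E2 ⊔ E1) := sdprod_sup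
    (k ▸ norms_inf s4.norm (norms_of_le le_sup_right))
    (h2.pi.inf_eq_bot (h1.pi.mono fun _ h => tau1_tau2' h))
  have s2 : Sdprod E3 (E2 ⊔ E1) E := ⟨(sup_le h2.le h1.le).trans a2.norm,
    by rw [← sup_assoc, s4.sup], eq_bot_mono (le_inf inf_le_left
      ((inf_le_inf_right _ le_sup_left).trans k.le)) d32⟩
  refine ⟨⟨a1, a2⟩, fun e2 e1 => sigma_compl_ne_bot hM hE ?_,
    ⟨tau1_cyclic hM (h1.le.trans hE.le) h1.pi, a3⟩,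
    ⟨s1, s2, sdprod_sup (h2.le.trans a2.norm) d32, s4⟩, ?_⟩
  · refine sol_eq_bot_of_le_der (mmax_sub_sol hM hE.le) (le_trans ?_ a1)
    rw [← s2.sup, e1, e2]; simp
  · refine eq_bot_mono ((inf_le_inf_left _ (cent_mono s2.right_le)).trans
      (G6.coprime_der1_sdprod s2 (h3.pi.coprime (s2.hall_right h3).pi) (sol_of_cyc a3) a1).2) ?_
    exact comm_iff_der.1 (comm_of_cyclic a3)

instance inst_B12_1 : B12_1 G where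
  ex_sigma_compl := ex_sigma_compl
  sdprod_sigma := sdprod_sigma
  der1_sigma_compl := der1_sigma_compl
  partition_pi_mmax := partition_pi_mmax
  partition_pi_sigma_compl := partition_pi_sigma_compl
  tau1E := tau1E
  tau2E _ := tau2E
  tau3E := tau3E
  ex_tau2Elem _ := ex_tau2Elem
  sigma'2Elem_tau2 := sigma'2Elem_tau2
  der1_sigma_compl_nil := der1_sigma_compl_nil
  tau2_not_beta := tau2_not_beta
  tau13_cyclic := tau13_cyclic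
  ex_tau23_compl := ex_tau23_compl
  ex_tau1_compl := ex_tau1_compl
  ex_tau13_compl := ex_tau13_compl
  sigma_compl_context := sigma_compl_context

/-! ### 12.2 - 12.4 -/

theorem prime_class_mmax_norm (hw : p ∈ vw G) (hM : Mx M) (hX : PG p X) (hN : N(X) ≤ M) :
    p ∈ sigma M ∨ p ∈ tau2 M :=
  (em (p ∈ sigma M)).imp_right fun h => mem_tau2.2 ⟨h, sigma'_norm_mmax_rank2 hw hM h hX hN⟩

theorem mmax_norm_notJ (hw : p ∈ vw G) (hM : Mx M) (hMs : Mx Mstar) (hX : PG p X) (hle : X ≤ M)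
    (hN : N(X) ≤ Mstar) (h : (p ∈ sigma M ∧ M ≠ Mstar) ∨ p ∈ tau1 M ∨ p ∈ tau3 M) :
    ¬ Cjg M Mstar := by
  intro hc
  rcases h with ⟨hs, hne⟩ | h
  · obtain ⟨c, hc, e⟩ := sigma_trans_aux hM hs X hX Mstar M hc (Cjg.refl M)
      (le_normalizer.trans hN) hle
    exact hne (e.symm.trans (cj_of_mem (hN (cent_le_norm X hc))))
  · obtain ⟨g, rfl⟩ := hc
    rcases prime_class_mmax_norm hw hMs hX hN with h' | h'
    · exact tau13_sigma' h (sigma_cj g M ▸ h')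
    · exact tau13_tau2' h (tau2_cj g M ▸ h')

variable [B10_11 G] [B10_12 G] [B11_1 G] [B11_5 G] [B11_7 G]

theorem cent_of_exceptional (hM : Mx M) (hMs : Mx Mstar) (hne : Mstar ≠ M)
    (hAM : A ≤ M) (hx : Exceptional p Mstar A0 A) (hK : K ≤ Ms M ⊓ Mstar) (hn : A ≤ N(K))
    (hp : PiG {p}ᶜ K) : A ≤ C(K) := by
  have hKM : K ≤ Mstar := hK.trans inf_le_right
  have hd : Ms M ⊓ Ms Mstar = ⊥ := by_contra fun h =>
    hne (B11_1.exceptional_sigma_uniq hMs hx hM hAM h).symm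
  have hnA : A ≤ N(Ms Mstar) := hx.elA.le.trans (Ms_norm _)
  have h1 : ⁅K, A⁆ ≤ Ms Mstar ⊔ A := (commutator_mono le_rfl le_sup_right).trans
    (commg_le_right (hKM.trans (B11_7.exceptional_mul_sigma_normal hMs hx)))
  have h2 : ⁅K, A⁆ ≤ Ms Mstar := le_of_pi_of_relIndex (π := {p}ᶜ)
    (((commg_le_left hn).trans hKM).trans (Ms_norm _)) le_sup_left h1 (hp.of_le (commg_le_left hn))
    (by rw [relIndex_sup_of_norm hnA]; exact (hx.elA.pg.relIndex _).compl_compl)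
  exact cents_symm (commg_eq_bot.1 (eq_bot_mono
    (le_inf ((commg_le_left hn).trans (hK.trans inf_le_left)) h2) hd))

theorem nonuniq_p2Elem_cent_sigma (hM : Mx M) (hMs : Mx Mstar) (hne : Mstar ≠ M)
    (hA : El p 2 A M) (hA0 : El p 1 A0 A) (hN : N(A0) ≤ Mstar) :
    (p ∉ sigma M → A ≤ C(Ms M ⊓ Mstar)) ∧ (p ∉ alpha M → A ≤ C(Ma M ⊓ Mstar)) := by
  have hAs : A ≤ Mstar := (norms_of_comm hA.comm le_rfl hA0.le).trans hN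
  have n1 : A ≤ N(Ms M ⊓ Mstar) := norms_inf (hA.le.trans (Ms_norm M)) (norms_of_le hAs)
  have n2 : A ≤ N(Ma M ⊓ Mstar) := norms_inf (hA.le.trans (Oc_norm _ M)) (norms_of_le hAs)
  by_cases hs : p ∈ sigma Mstar
  swap
  · have hx : Exceptional p Mstar A0 A := ⟨hs, hA.of_le hAs, hA0, hN⟩
    exact ⟨fun h => cent_of_exceptional hM hMs hne hA.le hx le_rfl n1
      (((Ms_pi M).infl _).compl_sing h), fun h => cent_of_exceptional hM hMs hne hA.le hx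
      (inf_le_inf_right _ (Malpha_sub_Msigma hM)) n2 (((Oc_pi _ M).infl _).compl_sing h)⟩
  have hAMs : A ≤ Ms Mstar := le_Msigma hMs hAs (hA.pi hs)
  have hnc : ¬ Cjg M Mstar := by
    by_cases h : p ∈ sigma M
    · exact mmax_norm_notJ (hM.1.el2 hA) hM hMs hA0.pg (hA0.le.trans hA.le) hN (Or.inl ⟨h, hne.symm⟩)
    · exact not_cjg_symm (not_cjg_of_sigma hs h)
  have key : ∀ K : Subgroup G, A ≤ N(K ⊓ Mstar) → ⁅K ⊓ Mstar, A⁆ ≤ K ⊓ Ms Mstar := fun K hK =>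
    le_inf ((commg_le_left hK).trans inf_le_left)
      ((commutator_mono le_rfl hAMs).trans ((Ms_normal _).commg_le' inf_le_right))
  refine ⟨fun h => ?_, fun _ => cents_symm (commg_eq_bot.1 (eq_bot_mono (key _ n2)
    (B10_12.sigma_disjoint hM hMs hnc).1.1))⟩
  have hd := (B10_12.sigma_disjoint hMs hM (not_cjg_symm hnc)).1.2
  have hb : p ∉ beta Mstar := fun e =>
    not_betaG_of_maxEl hA (sigma'_rank2_max hM h hA) (beta_sub_betaG e)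
  have n3 : A ≤ N(Ms M ⊓ Ms Mstar) := norms_inf (hA.le.trans (Ms_norm M)) (norms_of_le hAMs)
  have hc := (((Ms_pi M).infl (Ms Mstar)).compl_sing h).coprime' hA.pg
  have hnil : Nil ((Ms M ⊓ Ms Mstar) ⊔ A : Subgroup G) := beta'_der1_nil hMs
    (PiN.sup (((Ms_pi M).infl _).mono fun q hq e => hd q (beta_sub_alpha e) hq) (hA.pi hb) n3)
    ((sup_le inf_le_right hAMs).trans (Msigma_der1 hMs))
  exact cents_of_stable hc (nil_cents hnil le_sup_right le_sup_left hc.symm) (key _ n1)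

theorem p2Elem_mmax_aux (hM : Mx M) (hA : El p 2 A M)
    (h : ∀ A0, El p 1 A0 A → ¬ UniqMax N(A0) M) :
    C(A) ≤ M ∧ p ∈ sigma M ∧ Ma M = ⊥ ∧ Nil (Ms M) := by
  have hw := hM.1.el2 hA
  have hnu : ¬ Uniq A := fun hu => by
    obtain ⟨A0, hA0⟩ := hA.exists_sub (k := 1) (by omega)
    exact h A0 hA0 ((uniqMax_of_uniq hu hM hA.le).mono (norms_of_comm hA.comm le_rfl hA0.le)
      (hA0.vnorm hw))
  have hr : rk C(A) ≤ 2 := not_lt.1 fun e =>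
    hnu (U9.cent_rank3_Uniqueness (hM.loc hA.le) (by rw [hA.rk_eq]; omega) e)
  have hmax : MaxEl p A ⊤ := by_contra fun e => hnu (U9.nonmaxElem2_Uniqueness hw hA.top e)
  have key : ∀ K : Subgroup G, K ⊴ M → PiG {p}ᶜ K → (∀ L A0, Mx L → L ≠ M → El p 1 A0 A →
      N(A0) ≤ L → A ≤ C(K ⊓ L)) → K ≤ C(A) := fun K hK hp hL =>
    hA.le_of_cent_le (hA.le.trans hK.norm) hp fun X hX => by
      obtain ⟨L, h1, h2, h3⟩ := exists_mmax_ne hM (hX.vnorm hw) (h X hX)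
      exact (inf_le_inf_left _ ((cent_le_norm X).trans h2)).trans (cents_symm (hL L X h1 h3 hX h2))
  have hs : p ∈ sigma M := by_contra fun hs => by
    have h1 := key _ (Ms_normal M) ((Ms_pi M).compl_sing hs) fun L A0 a b c d =>
      (nonuniq_p2Elem_cent_sigma hM a b hA c d).1 hs
    have := B10_11.sub'cent_sigma_rank1 hM hA.le (hA.pi hs)
    rw [inf_eq_left.2 (cents_symm h1), hA.rk_eq] at this
    omega
  obtain ⟨P, hP, hAP⟩ := hA.pg.exists_syl hA.le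
  have hZ : Ohm1 p Z(P) ≤ A := hmax.Ohm1_center_le hAP le_top
  have hZ1 : Ohm1 p Z(P) ≠ ⊥ := hP.pi.Ohm1_center_ne_bot (ne_bot_mono hAP hA.ne_bot)
  have ha : p ∉ alpha M := fun ha => by
    obtain ⟨X, hX⟩ := (hA.pg.of_le hZ).exists_el1 hZ1
    exact h X (hX.mono hZ) ((uniqMax_of_uniq (uniq_of_prk3 (hM.loc hP.le)
      (hP.prk_syl ▸ mem_alpha.1 ha)) hM hP.le).mono (norms_of_cents (cents_symm
        (hX.le.trans ((Ohm1_le _ _).trans inf_le_right)))) (hX.vnorm hw))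
  have h1 := key _ (Oc_normal _ M) ((Oc_pi (alpha M) M).compl_sing ha) fun L A0 a b c d =>
    (nonuniq_p2Elem_cent_sigma hM a b hA c d).2 ha
  have h0 : Ma M = ⊥ := (Oc_pi _ M).eq_bot fun q hq _ e => by
    exact (mem_alpha.1 e).not_ge (((Malpha_Hall hM).prk_eq e).ge.trans
      ((prk_mono q h1).trans ((prk_le_rk q _).trans hr)))
  have hn : Nil (Ms M) := nil_mono (nil_of_quo_disjoint ((der_le M).trans (Oc_norm _ M))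
    (eq_bot_mono inf_le_left h0) (Malpha_quo_nil hM)) (Msigma_der1 hM)
  refine ⟨(cent_mono hZ).trans ((cent_le_norm _).trans (mmax_norm hM hZ1 ((hA.pg.of_le hZ).sing hw)
    ?_).le), hs, h0, hn⟩
  exact (Ms_norm M).trans ((nil_hall_norm hn (syl_Ms_of hM hs hP)).trans
    (norm_le_norm_Ohm1_center p P))

theorem p2Elem_mmax (hM : Mx M) (hA : El p 2 A M) :
    C(A) ≤ M ∧ ((∀ A0, El p 1 A0 A → ¬ UniqMax N(A0) M) → p ∈ sigma M ∧ Ma M = ⊥ ∧ Nil (Ms M)) := by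
  refine ⟨?_, fun h => (p2Elem_mmax_aux hM hA h).2⟩
  by_cases h : ∀ A0, El p 1 A0 A → ¬ UniqMax N(A0) M
  · exact (p2Elem_mmax_aux hM hA h).1
  · push Not at h
    obtain ⟨A0, h0, h⟩ := h
    exact (cent_mono h0.le).trans ((cent_le_norm _).trans h.le)

instance inst_B12_2 : B12_2 G where
  prime_class_mmax_norm := prime_class_mmax_norm
  mmax_norm_notJ := mmax_norm_notJ
  nonuniq_p2Elem_cent_sigma := nonuniq_p2Elem_cent_sigma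
  p2Elem_mmax := p2Elem_mmax

/-! ### 12.5, 12.6 -/

theorem tau2_exceptional (hM : Mx M) (hp : p ∈ tau2 M) (hA : El p 2 A M) :
    ∃ A0, Exceptional p M A0 A := by
  by_contra h
  exact tau2_sigma' hp ((p2Elem_mmax hM hA).2 fun A0 h0 hu =>
    h ⟨A0, tau2_sigma' hp, hA, h0, hu.le⟩).1

theorem tau2_Msigma_nil (hM : Mx M) (hp : p ∈ tau2 M) : Nil (Ms M) := by
  obtain ⟨A, hA⟩ := exists_el (tau2_prime hp) (tau2_prk hp).ge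
  obtain ⟨A0, hx⟩ := tau2_exceptional hM hp hA
  exact B11_1.exceptional_sigma_nil hM hx

theorem tau2_ab (hM : Mx M) (hp : p ∈ tau2 M) (hP : PG p P) (hle : P ≤ M) : Ab P := by
  obtain ⟨A, hA⟩ := exists_el (tau2_prime hp) (tau2_prk hp).ge
  obtain ⟨A0, hx⟩ := tau2_exceptional hM hp hA
  obtain ⟨S, hS, h⟩ := hP.exists_syl hle
  exact comm_mono (B11_5.exceptional_Sylow_abelian hM hx hS) h

theorem tau2_cent_eq_bot (hM : Mx M) (hp : p ∈ tau2 M) (hA : El p 2 A M) :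
    Ms M ⊓ C(A) = ⊥ := by
  obtain ⟨A0, hx⟩ := tau2_exceptional hM hp hA
  obtain ⟨P, hP, h⟩ := hA.pg.exists_syl hA.le
  exact (B11_5.exceptional_structure hM hx hP h).2.1

/-- 12.5(e) -/
theorem tau2_TI (hM : Mx M) (hp : p ∈ tau2 M) (hA : El p 2 A M) (hMs : Mx Mstar)
    (hAs : A ≤ Mstar) (hne : Mstar ≠ M) : Ms M ⊓ Mstar = ⊥ := by
  refine eq_bot_mono (le_inf inf_le_left (cents_symm ?_)) (tau2_cent_eq_bot hM hp hA)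
  by_cases h : ∀ A0, El p 1 A0 A → ¬ UniqMax N(A0) Mstar
  swap
  · push Not at h
    obtain ⟨A0, h0, h⟩ := h
    exact (nonuniq_p2Elem_cent_sigma hM hMs hne hA h0 h.le).1 (tau2_sigma' hp)
  have hs := ((p2Elem_mmax hMs (hA.of_le hAs)).2 h).1
  refine cents_symm (commg_eq_bot.1 (eq_bot_mono (le_inf ?_ ?_) ((B10_12.sigma_disjoint hM hMs
    (not_cjg_symm (not_cjg_of_sigma hs (tau2_sigma' hp)))).2 (tau2_Msigma_nil hM hp)).1))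
  · exact (commutator_mono inf_le_left le_rfl).trans ((Ms_normal M).commg_le hA.le)
  · exact (commutator_mono le_rfl (le_Msigma hMs hAs (hA.pi hs))).trans
      ((Ms_normal _).commg_le' inf_le_right)

theorem tau2_context (hM : Mx M) (hp : p ∈ tau2 M) (hA : El p 2 A M) :
    (∀ P, Syl p P M → Ab P) ∧
      (∀ P, Syl p P M → A ≤ P → Ohm1 p P = A ∧ ¬ N(P) ≤ M) ∧
      M ≤ N(Ms M ⊔ A) ∧ Ms M ⊓ C(A) = ⊥ ∧
      (∀ Mstar, Mx Mstar → A ≤ Mstar → Mstar ≠ M → Ms M ⊓ Mstar = ⊥) ∧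
      ∃ A1 A2, El p 1 A1 A ∧ El p 1 A2 A ∧ A1 ≠ A2 ∧ Ms M ⊓ C(A1) = ⊥ ∧ Ms M ⊓ C(A2) = ⊥ := by
  obtain ⟨A0, hx⟩ := tau2_exceptional hM hp hA
  obtain ⟨P, hP, h⟩ := hA.pg.exists_syl hA.le
  exact ⟨fun P hP => B11_5.exceptional_Sylow_abelian hM hx hP, fun P hP h =>
    ⟨(B11_5.exceptional_structure hM hx hP h).1, not_norm_sigma' hM.1 (tau2_w hM.1 hp) hx.not_sigma hP⟩,
    B11_7.exceptional_mul_sigma_normal hM hx, tau2_cent_eq_bot hM hp hA,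
    fun _ => tau2_TI hM hp hA, (B11_5.exceptional_structure hM hx hP h).2.2⟩

/-- 12.5(e), as a uniqueness criterion -/
theorem tau2_uniq (hM : Mx M) (hp : p ∈ tau2 M) (hA : El p 2 A M) (hH : Loc H) (hAH : A ≤ H)
    (h : Ms M ⊓ H ≠ ⊥) : UniqMax H M := by
  have key : ∀ L, Mx L → H ≤ L → L = M := fun L hL hle => by_contra fun e =>
    h (eq_bot_mono (inf_le_inf_left _ hle) (tau2_TI hM hp hA hL (hAH.trans hle) e))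
  obtain ⟨L, hL, hle⟩ := mmax_exists hH
  exact ⟨hM, key L hL hle ▸ hle, key⟩

theorem tau2_normal (hM : Mx M) (hE : Hall (sigma M)ᶜ E M) (hA : El p 2 A E) : A ⊴ E := by
  have h := (tau2_context hM (sigma'2Elem_tau2 hM hE hA) (hA.mono hE.le)).2.2.1
  have e : (Ms M ⊔ A) ⊓ E = A := by
    rw [sup_inf_modr ((hA.le.trans hE.le).trans (Ms_norm M)) hA.le, Ms_inf_eq_bot hE.pi, bot_sup_eq]
  exact ⟨hA.le, e ▸ norms_inf (hE.le.trans h) le_normalizer⟩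

theorem tau2_Ohm1 (hM : Mx M) (hE : Hall (sigma M)ᶜ E M) (hA : El p 2 A E) (hAH : A ≤ H)
    (hH : H ≤ E) : Ohm1 p H = A := by
  have hp := sigma'2Elem_tau2 hM hE hA
  refine le_antisymm (Ohm1_le_iff.2 fun x hx h => ?_) (abelem_le_Ohm1 hA.ab hAH)
  have hn : zpowers x ≤ N(A) := ((zpowers_le.2 hx).trans hH).trans (tau2_normal hM hE hA).norm
  obtain ⟨P, hP, hle⟩ := (hA.pg.sup (abelem_pg hA.prime (abelem_zpowers h)) hn).exists_syl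
    ((sup_le hA.le ((zpowers_le.2 hx).trans hH)).trans hE.le)
  rw [← ((tau2_context hM hp (hA.mono hE.le)).2.1 P hP (le_sup_left.trans hle)).1]
  exact abelem_le_Ohm1 (abelem_zpowers h) (le_sup_right.trans hle) (mem_zpowers x)

theorem tau2_el1_le (hM : Mx M) (hE : Hall (sigma M)ᶜ E M) (hA : El p 2 A E)
    (hX : El p 1 X E) : X ≤ A := tau2_Ohm1 hM hE hA hA.le le_rfl ▸ hX.le_Ohm1

theorem tau2_norm_eq (hM : Mx M) (hE : Hall (sigma M)ᶜ E M) (hA : El p 2 A E) :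
    M ⊓ N(A) = E := by
  have hp := sigma'2Elem_tau2 hM hE hA
  have h := ((sdprod_sigma hM hE).modr (tau2_normal hM hE hA).norm).sup
  have : Ms M ⊓ N(A) = ⊥ := eq_bot_mono (le_inf inf_le_left (cents_of_norms_disjoint
    (norms_inf ((hA.le.trans hE.le).trans (Ms_norm M)) (norms_of_le le_normalizer)) inf_le_right
    (eq_bot_mono (inf_le_inf inf_le_left hA.le) (Ms_inf_eq_bot hE.pi))))
    (tau2_cent_eq_bot hM hp (hA.mono hE.le))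
  rw [← h, this, bot_sup_eq]

theorem tau2_cent_le (hM : Mx M) (hE : Hall (sigma M)ᶜ E M) (hA : El p 2 A E) : C(A) ≤ E :=
  (le_inf (p2Elem_mmax hM (hA.mono hE.le)).1 (cent_le_norm A)).trans (tau2_norm_eq hM hE hA).le

theorem tau2_not_norm_le (hM : Mx M) (hp : p ∈ tau2 M) (hA : El p 2 A M) : ¬ N(A) ≤ M := by
  obtain ⟨P, hP, h⟩ := hA.pg.exists_syl hA.le
  have := (tau2_context hM hp hA).2.1 P hP h
  exact fun e => this.2 ((norm_le_norm_Ohm1 p P).trans (this.1 ▸ e))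

theorem tau2_compl_context (hM : Mx M) (hE : Hall (sigma M)ᶜ E M) (hp : p ∈ tau2 M)
    (hA : El p 2 A E) :
    (A ⊴ E ∧ ∀ X, El p 1 X E → X ≤ A) ∧ (C(A) ≤ E ∧ M ⊓ N(A) = E ∧ ¬ N(A) ≤ M) ∧
      (∀ X, El p 1 X E → Ms M ⊓ C(X) ≠ ⊥ → UniqMax C(X) M) ∧
      ∀ Mstar, Mx Mstar → ¬ Cjg M Mstar →
        Ms M ⊓ Ms Mstar = ⊥ ∧ ∀ q ∈ sigma M, q ∉ sigma Mstar :=
  ⟨⟨tau2_normal hM hE hA, fun _ => tau2_el1_le hM hE hA⟩,
    ⟨tau2_cent_le hM hE hA, tau2_norm_eq hM hE hA, tau2_not_norm_le hM hp (hA.mono hE.le)⟩,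
    fun _ hX => tau2_uniq hM hp (hA.mono hE.le) (hX.vcent (tau2_w hM.1 hp))
      (cents_of_comm hA.comm le_rfl (tau2_el1_le hM hE hA hX)),
    fun _ hMs hnc => (B10_12.sigma_disjoint hM hMs hnc).2 (tau2_Msigma_nil hM hp)⟩

theorem tau2_regular_cent (hM : Mx M) (hE : Hall (sigma M)ᶜ E M) (hp : p ∈ tau2 M)
    (hA : El p 2 A E) (hX : X ≤ C(A)) (h2 : PiG (tau2 M)ᶜ X) : Semireg (Ms M) X := by
  refine semireg_of_el1 fun q Y hY => by_contra fun h => ?_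
  have hw := hY.self.mem_pi (w_of_cent_ne_bot (Ms_w M) h)
  have hYE := hY.mono (hX.trans (tau2_cent_le hM hE hA))
  have hu := tau2_uniq hM hp (hA.mono hE.le) (hY.vcent hw)
    (cents_symm (hY.le.trans hX)) h
  rcases prime_class_mmax_norm hw hM hY.pg hu.norm_le_of_cent with h | h
  · exact hYE.mem_pi hE.pi h
  · exact hY.mem_pi h2 h

theorem tau3_cent_tau2 (hM : Mx M) (hE : Hall (sigma M)ᶜ E M) (h3 : Hall (tau3 M) E3 E)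
    (hA : El p 2 A E) : E3 ≤ C(A) :=
  (tau3_compl hM hE h3).2.1.cents_of_disjoint (tau2_normal hM hE hA)
    (h3.pi.inf_eq_bot (hA.pi (tau2_tau3' (sigma'2Elem_tau2 hM hE hA))))

theorem tau2_regular (hM : Mx M) (h : SigmaCompl M E E1 E2 E3) (hp : p ∈ tau2 M)
    (hA : El p 2 A E) : E3 ≤ C(A) ∧ Semireg (Ms M) E3 ∧ Semireg (Ms M) (E1 ⊓ C(A)) :=
  ⟨tau3_cent_tau2 hM h.hall h.hall3 hA,
    tau2_regular_cent hM h.hall hp hA (tau3_cent_tau2 hM h.hall h.hall3 hA)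
      (h.hall3.pi.mono fun _ => tau3_tau2'),
    tau2_regular_cent hM h.hall hp hA inf_le_right ((h.hall1.pi.infl _).mono fun _ => tau1_tau2')⟩

instance inst_B12_5 : B12_5 G where
  tau2_Msigma_nil := tau2_Msigma_nil
  tau2_context := tau2_context
  tau2_compl_context := tau2_compl_context
  tau2_regular_cent := tau2_regular_cent
  tau2_regular := tau2_regular

end

end H13.V
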