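/-
Port of `H19/B12d` to the `ϖ`-local setting.
-/
import Cfsg.Agent.H13.V12b

set_option autoImplicit false
set_option linter.unusedSectionVars false

namespace H13.V
export H19 (mem_Ohm1)
section
open H19
open Cfsg Subgroup H18

attribute [-instance] H18.fintypeSubgroup
universe u

section general
variable {G : Type*} [Group G] [Finite G] {π : Set ℕ} {p n : ℕ} {A B H K L P S W X Y : Subgroup G}
  {x : G}

end general

variable {G : Type u} [Group G] [Finite G] [VS G] [Gen.{u}] [U79 G] [B12_1 G] [B12_2 G] [B12_5 G]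
  [B12_7 G] [B12_8 G] [B12_10 G] {π : Set ℕ} {p q : ℕ} {A B E H K L M P Q R S U V X Y : Subgroup G}

theorem exists_nonreg_norm_Sylow (hM : Mx M) (hE : Hall (sigma M)ᶜ E M) (hp : p ∈ tau2 M)
    (hA : El p 2 A E) (hS : Syl p S ⊤) (hAS : A ≤ S) (hab : Ab S) (hU : Hall π U E)
    (h : ∀ e ∈ U, e ≠ 1 → PiE (tau1 M ∪ tau3 M) e → Ms M ⊓ C[e] = ⊥) (hc : ¬ U ≤ C(S)) :
    ∃ X, X ≤ N(S) ∧ ¬ X ≤ C(S) ∧ PiG {p}ᶜ X ∧ S ⊓ C(X) ≠ ⊥ := by
  obtain ⟨a1, a2, a3, a4⟩ := B12_8.abelian_tau2_sub_Fitting hM hE hp hA hS hAS hab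
  obtain ⟨b1, b2, b3⟩ := B12_8.abelian_tau2 hM hE hp hA hS hAS hab
  obtain ⟨E2, hE2⟩ := exists_hall (tau2 M) (mmax_sub_sol hM hE.le)
  obtain ⟨E3, hE3⟩ := exists_hall (tau3 M) (mmax_sub_sol hM hE.le)
  obtain ⟨eN, -, -, eF⟩ := b2 E2 E3 hE2 hE3
  have hEN : E ≤ N(S) := eF ▸ Fit_norm E
  have hSC := comm_iff_le_cent.1 hab
  obtain ⟨q, Q1, hq, hd, hQ1, hQc⟩ : ∃ q Q, q.Prime ∧ q ∣ #U ∧ Syl q Q U ∧ ¬ Q ≤ C(S) := by
    by_contra h1
    push Not at h1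
    exact hc (le_of_exists_syl fun q hq hd => let ⟨Q, hQ⟩ := exists_syl q U
      ⟨Q, hQ, h1 q Q hq hd hQ⟩)
  have hQE := hU.sub_syl (hU.pi q hq hd) hQ1
  have hqp : q ≠ p := fun e => hQc (((hS.of_le (hSC.trans a4) le_top).le_of_normal hEN hQE.le
    (e ▸ hQE.pi)).trans hSC)
  have hQA : ¬ Q1 ≤ C(A) := fun e => hQc <| G1a.coprime_odd_faithful_Ohm1 hS.pi (hQE.le.trans hEN)
    (hS.pi.coprime (hQ1.pi.sing_ne hqp)) (hS.pi.vloc (tau2_w hM.1 hp)).odd <| by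
      rwa [(hA.of_le hAS).Ohm1_eq hab ((prk_mono p ((hSC.trans a4).trans hE.le)).trans
        (tau2_prk hp).le)]
  have hq1 : q ∈ tau1 M := by_contra fun e =>
    hQA ((B12_10.tau1_cent_tau2Elem_factor hM hE hp hA).2.2 _ hQE.le (hQ1.pi.sing e))
  have hcyc := B12_1.tau13_cyclic hM (Or.inl hq1) hQ1.pi (hQE.le.trans hE.le)
  obtain ⟨X, hX⟩ := exists_el1 hq (hQ1.sdvd_card hq hd)
  have hXc : X ≤ C(E) := b3 q X hq1 (hX.mono hQE.le) <| by
    obtain ⟨x, x1, x2, rfl⟩ := hX.exists_gen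
    rw [cent_zpowers]
    exact h x (hQ1.le (hX.le (mem_zpowers x))) x1 (by rw [PiE, x2]; exact (piN_prime hq).2 (Or.inl hq1))
  obtain ⟨L, hL, hNL⟩ := exists_mmax_norm hA.ne_bot (hA.pi (tau2_w hM.1 hp))
  obtain ⟨c1, ⟨P, c2, c3⟩, R, c4, c5, c6⟩ := (B12_10.primes_norm_tau2Elem hM hE hp hA hL hNL).2.2 q hq
    (by
      by_contra e
      exact hQA ((le_of_pi_of_relIndex' (norms_inf (norms_of_le hQE.le) (norms_cent (hQE.le.trans
        (eN ▸ hEN)))) hQE.le hQ1.pi (PiN.of_not_dvd e)).trans inf_le_right))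
    (hX.of_le (le_inf (hX.le.trans hQE.le) (hXc.trans (cent_mono hA.le)))).dvd
  have hSL : S ≤ L := le_normalizer.trans (eN ▸ hNL)
  have hLN : L ≤ N(S) := by
    rw [(c2.of_le c3.le le_top).eq_of_normal c3.norm (hS.of_le hSL le_top)]; exact c3.norm
  obtain ⟨Q, hQ, hQ1Q⟩ := hQ1.pi.exists_syl ((hQE.le.trans hEN).trans (eN ▸ hNL))
  have hQab : Ab Q := by
    obtain ⟨g, -, e⟩ := c4.scj_le le_top hQ.pi
    simpa using comm_mono c6 e
  have hQN := hQ.le.trans hLN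
  by_contra hreg
  push Not at hreg
  have h0 : Q ⊓ C(S) ≤ Q1 := (hQE.max (le_inf hQ1Q hQE.le) inf_le_right (hQ.pi.infl _)).le.trans'
    (inf_le_inf_left _ a4)
  have hn0 : Q ≤ N(Q ⊓ C(S)) := norms_of_comm hQab le_rfl inf_le_left
  have hc0 : Cyc (quo (Q ⊓ C(S)) Q) := by
    by_contra e
    refine ne_bot_mono hAS hA.ne_bot (le_bot_iff.1 (G1b.coprime_abelian_gen_cent hQab hQN
      (hS.pi.coprime (hQ.pi.sing_ne hqp)) fun B hB hBc => (hreg B (hB.trans hQN) (fun e1 => e ?_)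
        ((hQ.pi.of_le hB).sing_ne hqp)).le))
    exact cyc_quo_of_le (norms_of_comm hQab le_rfl hB) hn0
      (inf_le_left.trans (le_inf hB e1)) hBc
  obtain ⟨B, hB⟩ := exists_el hq (hQ.prk_syl.trans (tau2_prk c1)).ge
  refine hB.not_cyc (cyc_mono hcyc (hB.le_of_el1 fun Y hY => ?_))
  by_cases hY0 : Y ≤ Q ⊓ C(S)
  · exact hY0.trans h0
  have hYQ := hY.mono hB.le
  refine le_of_quo_le (hYQ.le.trans hn0) h0 ((hYQ.quo (hYQ.le.trans hn0) ?_).le_of_cyc hc0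
    (quo_mono _ hQ1Q) ((hQ1.pi.quo _).dvd_of_ne_bot fun e => hQc ?_))
  · rw [inf_comm]; exact inf_eq_bot_of_prime hY.prime_card hY0
  · exact ((quo_eq_bot_iff (hQ1Q.trans hn0)).1 e).trans inf_le_right

theorem exists_cyc_semireg (hM : Mx M) (hE : Hall (sigma M)ᶜ E M) (hp : p ∈ tau2 M)
    (hA : El p 2 A E) (hS : Syl p S ⊤) (hAS : A ≤ S) (hab : Ab S) (hU : Hall π U E)
    (h : ∀ e ∈ U, e ≠ 1 → PiE (tau1 M ∪ tau3 M) e → Ms M ⊓ C[e] = ⊥) :
    ∃ Z, Z ≤ S ∧ U ≤ N(Z) ∧ Semireg (Ms M) Z ∧ ∀ x ∈ S, x ^ expo Z = 1 := by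
  obtain ⟨-, -, -, a4⟩ := B12_8.abelian_tau2_sub_Fitting hM hE hp hA hS hAS hab
  have hSE := (comm_iff_le_cent.1 hab).trans a4
  have hSM := hS.of_le (hSE.trans hE.le) le_top
  have hnot := not_norm_sigma' hM.1 (tau2_w hM.1 hp) (tau2_sigma' hp) hSM
  have hr : prk p S ≤ 2 := (hSM.prk_syl.trans (tau2_prk hp)).le
  have hreg : ∀ X, El p 1 X S → N(S) ≤ N(X) → Ms M ⊓ C(X) = ⊥ := fun X hX hn => by_contra fun e =>
    hnot (hn.trans ((B12_5.tau2_compl_context hM hE hp hA).2.2.1 X (hX.mono hSE) e).norm_le_of_cent)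
  by_cases hc : U ≤ C(S)
  · have hpp := hA.prime
    obtain ⟨k, hk⟩ : ∃ k, expo S = p ^ (k + 1) := by
      obtain ⟨k, hk⟩ := (hS.pi.dvd Group.exponent_dvd_nat_card).exists_pow Monoid.exponent_ne_zero_of_finite
      cases k with
      | zero => exact absurd (le_bot_iff.1 fun x hx => by
          simpa [expo, hk] using pow_expo (hAS hx)) hA.ne_bot
      | succ k => exact ⟨k, hk⟩
    have h1 : mho S hab (p ^ k) ≤ A := by
      rintro _ ⟨y, hy, rfl⟩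
      rw [← (hA.of_le hAS).Ohm1_eq hab hr]
      exact mem_Ohm1 (pow_mem hy _) (by rw [← pow_mul, ← pow_succ, ← hk]; exact pow_expo hy)
    have h2 : mho S hab (p ^ k) ≠ ⊥ := fun e => by
      have : expo S ∣ p ^ k := expo_dvd_iff.2 fun x hx => mem_bot.1 (e.le ⟨x, hx, rfl⟩)
      rw [hk] at this
      exact absurd ((Nat.pow_dvd_pow_iff_le_right hpp.one_lt).1 this) (by omega)
    obtain ⟨X, hX, hXr⟩ : ∃ X, El p 1 X (mho S hab (p ^ k)) ∧ Ms M ⊓ C(X) = ⊥ := by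
      rcases hA.sub2 h1 with e | e | e
      · exact absurd e h2
      · exact ⟨_, e.self, hreg _ (e.mono hAS) (norm_le_norm_mho hab _)⟩
      · obtain ⟨A1, -, b1, -, -, b2, -⟩ := (B12_5.tau2_context hM hp (hA.mono hE.le)).2.2.2.2.2
        exact ⟨A1, e.symm ▸ b1, b2⟩
    obtain ⟨x, x1, -, rfl⟩ := hX.exists_gen
    obtain ⟨y, hy, rfl⟩ := hX.le (mem_zpowers x)
    haveI := Fact.mk hpp
    have e : expo (zpowers y) = expo S := by
      rw [expo_cyc (cyc_zpowers y), Nat.card_zpowers, hk]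
      exact orderOf_eq_prime_pow x1 (hk ▸ pow_expo hy)
    have hyS := zpowers_le.2 hy
    refine ⟨_, hyS, norms_of_cents (hc.trans (cent_mono hyS)), semireg_of_el1 fun t Y hY => ?_,
      fun x hx => e ▸ pow_expo hx⟩
    obtain rfl : t = p := hY.mem_pi (hS.pi.of_le hyS)
    rw [hY.eq_of_cyc (hX.of_le (zpowers_le.2 (npow_mem_zpowers y _))) (cyc_zpowers y)]
    exact hXr
  obtain ⟨X, x1, x2, x3, x4⟩ := exists_nonreg_norm_Sylow hM hE hp hA hS hAS hab hU h hc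
  obtain ⟨n1, n2⟩ := B12_8.abelian_tau2_norm_Sylow hM hE hp hA hS hAS hab x1
  have hd := ab_cent_dprod hab x1 (hS.pi.coprime x3)
  have x5 : ⁅S, X⁆ ≠ ⊥ := fun e => x2 (cents_symm (commg_eq_bot.1 e))
  have hUN : U ≤ N(S) := hU.le.trans ((Fit_norm E).trans (nil_hall_norm (Fit_nil E)
    (hS.of_le (by
      obtain ⟨a1, a2, -⟩ := B12_8.abelian_tau2_sub_Fitting hM hE hp hA hS hAS hab
      exact a1.trans a2) le_top)))
  have key : ∀ Y Z, Dprod Y Z S → Cyc Z → N(S) ≤ N(Z) → #Y ≤ #Z →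
      ∃ Z, Z ≤ S ∧ U ≤ N(Z) ∧ Semireg (Ms M) Z ∧ ∀ x ∈ S, x ^ expo Z = 1 := by
    intro Y Z hd hZ hn hle
    refine ⟨Z, hd.right_le, hUN.trans hn, semireg_of_el1 fun t W hW => ?_, fun x hx => ?_⟩
    · obtain rfl : t = p := hW.mem_pi (hS.pi.of_le hd.right_le)
      exact hreg W (hW.mono hd.right_le) (hn.trans (cyc_norm hZ hW.le))
    · obtain ⟨a, ha, b, hb, rfl⟩ := hd.cp.mem hx
      obtain ⟨i, hi⟩ := (hS.pi.of_le hd.left_le).exists_card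
      obtain ⟨j, hj⟩ := (hS.pi.of_le hd.right_le).exists_card
      have : #Y ∣ expo Z := by
        rw [expo_cyc hZ, hi, hj]
        rw [hi, hj] at hle
        exact pow_dvd_pow p ((Nat.pow_le_pow_iff_right hA.prime.one_lt).1 hle)
      rw [Commute.mul_pow (mul_comm_of_comm hab (hd.left_le ha) (hd.right_le hb)), pow_expo hb,
        orderOf_dvd_iff_pow_eq_one.1 ((orderOf_dvd_card' ha).trans this), one_mul]
  rcases le_total #(S ⊓ C(X)) #(⁅S, X⁆) with e | e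
  · exact key _ _ hd (hd.symm.cyc_of_prk hS.pi (hS.pi.vloc (tau2_w hM.1 hp)).odd hr x4) n2 e
  · exact key _ _ hd.symm (hd.cyc_of_prk hS.pi (hS.pi.vloc (tau2_w hM.1 hp)).odd hr x5) n1 e

/-- 12.12 -/
theorem FTtypeF_complement (hM : Mx M) (hUM : Hall π U M) (hs : PiG (sigma M)ᶜ U)
    (h : ∀ e ∈ U, e ≠ 1 → PiE (tau1 M ∪ tau3 M) e → Ms M ⊓ C[e] = ⊥) :
    (∃ A0, A0 ⊴ U ∧ Ab A0 ∧ ∀ x ∈ Ms M, x ≠ 1 → U ⊓ C[x] ≤ A0) ∧
      ∃ E0, E0 ≤ U ∧ expo E0 = expo U ∧ Semireg (Ms M) E0 := by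
  classical
  obtain ⟨E, hE, hUE⟩ := hs.exists_hall (mmax_sol hM) hUM.le
  have hU := hUM.of_le hUE hE.le
  have h13 : ∀ r X, El r 1 X U → r ∉ tau2 M → Ms M ⊓ C(X) = ⊥ := fun r X hX hr => by
    obtain ⟨x, x1, x2, rfl⟩ := hX.exists_gen
    rw [cent_zpowers]
    refine h x (hX.le (mem_zpowers x)) x1 ?_
    rw [PiE, x2, piN_prime hX.prime]
    have := (B12_1.partition_pi_sigma_compl hM hE).1 ⟨hX.prime, (hX.mono hUE).dvd⟩
    tauto
  have h2 : ∀ x ∈ Ms M, x ≠ 1 → PiG (tau2 M) (U ⊓ C[x]) := fun x hx x1 r hr hd => by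
    obtain ⟨X, hX⟩ := exists_el1 hr hd
    by_contra e
    exact ne_bot_of_mem (H := Ms M ⊓ C(X)) ⟨hx, le_cent1_iff.1 (hX.le.trans inf_le_right)⟩ x1
      (h13 r X (hX.mono inf_le_left) e)
  by_cases h0 : PiG (tau2 M)ᶜ U
  · exact ⟨⟨⊥, NormalIn.bot U, comm_bot, fun x hx x1 => ((h2 x hx x1).eq_bot (h0.infl _)).le⟩,
      U, le_rfl, rfl, semireg_of_el1 fun r X hX => h13 r X hX (hX.mem_pi h0)⟩
  obtain ⟨p, hpp, hd, hp⟩ : ∃ p, p.Prime ∧ p ∣ #U ∧ p ∈ tau2 M := by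
    by_contra e; push Not at e; exact h0 e
  obtain ⟨A, hA⟩ := B12_1.ex_tau2Elem hM hE hp
  obtain ⟨S, hS, hAS⟩ := hA.pg.exists_syl le_top
  have hAU : A ≤ U := hU.le_of_norm' hA.le (hA.pi (hU.pi p hpp hd))
    (hUE.trans (B12_5.tau2_compl_context hM hE hp hA).1.1.norm)
  by_cases hab : Ab S
  swap
  · obtain ⟨-, ⟨a1, -⟩, -, E0, a2, a3⟩ := B12_7.nonabelian_tau2 hM hE hp hA hS.pi hab
    have a4 := a2.modl (inf_le_left.trans hAU)
    rw [inf_eq_right.2 hUE] at a4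
    have a5 : ∀ x ∈ Ms M, x ≠ 1 → E0 ⊓ U ⊓ C[x] = ⊥ := fun x hx x1 =>
      ((a3 x hx x1).of_le (inf_le_inf_right _ inf_le_left)).eq_bot
        (((h2 x hx x1).of_le (inf_le_inf_right _ inf_le_right)).mono fun _ a b => tau1_tau2' b a)
    have hA0 := el1_mk hpp (inf_le_left.trans hAU) a1
    refine ⟨⟨_, a4.normal, hA0.comm, fun x hx x1 => ?_⟩, _, inf_le_right,
      expo_eq_of_pelt inf_le_right fun r x hr hx hxr => ?_, Semireg.symm a5⟩
    · have := (a4.modl (inf_le_right.trans (cent_le_cent1 hx))).sup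
      rw [a5 x hx x1, sup_bot_eq] at this
      exact this.ge
    by_cases e : r = p
    swap
    · obtain ⟨R, hR⟩ := exists_syl r (E0 ⊓ U)
      exact pow_expo_of_syl (hR.of_idx inf_le_right
        (by rw [a4.relIndex_right]; exact hA0.pg.sing_ne (Ne.symm e))) hR.le hx hxr
    subst e
    obtain ⟨P, hP, hxP⟩ := (piG_zpowers.2 hxr).exists_syl (zpowers_le.2 hx)
    have hPab := (B12_5.tau2_context hM hp (hA.mono hE.le)).1 P (hUM.sub_syl (hU.pi r hr hd) hP)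
    have hA0P := hP.le_of_norm' hA0.le hA0.pg (hP.le.trans a4.normal.norm)
    have a6 := a4.modl hA0P
    obtain ⟨a, ha, b, hb, rfl⟩ := a6.mem ⟨hx, hxP (mem_zpowers x)⟩
    have hd2 : r ∣ #(E0 ⊓ U) := by
      have := card_dvd hAU
      rw [hA.card, ← a4.card, a1, pow_two] at this
      exact Nat.dvd_of_mul_dvd_mul_left hr.pos this
    obtain ⟨y, hy, oy⟩ := exists_orderOf_eq_prime hr hd2
    rw [Commute.mul_pow (mul_comm_of_comm hPab (hA0P ha) hb.2), pow_expo hb.1,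
      pow_expo_of_dvd (hA0.ab.2 a ha) ?_, one_mul]
    exact oy ▸ orderOf_dvd_of_pow_eq_one (pow_expo hy)
  obtain ⟨E2, hE2⟩ := exists_hall (tau2 M) (mmax_sub_sol hM hE.le)
  obtain ⟨a1, a2, a3⟩ := (B12_8.abelian_tau2 hM hE hp hA hS hAS hab).1 E2 hE2
  refine ⟨⟨E2 ⊓ U, a1.inf_le hUE, comm_mono a2 inf_le_left, fun x hx x1 => le_inf
    (hE2.le_of_normal a1.norm (inf_le_left.trans hUE) (h2 x hx x1)) inf_le_left⟩, ?_⟩
  have key : ∀ s : Finset ℕ, ∃ K, K ≤ U ∧ U ≤ N(K) ∧ PiG (s ∩ tau2 M) K ∧ Semireg (Ms M) K ∧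
      ∀ r ∈ s, r ∈ tau2 M → ∀ x ∈ U, PiE {r} x → x ^ expo K = 1 := by
    intro s
    induction s using Finset.induction_on with
    | empty => exact ⟨⊥, bot_le, norm_bot.ge.trans' le_top, PiN.bot, semireg_bot_right, by simp⟩
    | insert r s hrs ih =>
    obtain ⟨K, k1, k2, k3, k4, k5⟩ := ih
    have k6 : PiG ((insert r s : Finset ℕ) ∩ tau2 M) K := k3.mono
      (Set.inter_subset_inter_left _ (by simp))
    by_cases hr : r ∈ tau2 M ∧ r ∣ #U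
    swap
    · refine ⟨K, k1, k2, k6, k4, fun t ht ht2 x hx hxt => ?_⟩
      rcases Finset.mem_insert.1 ht with rfl | ht
      · rw [hxt.e_eq_one ((PiN.of_not_dvd fun e => hr ⟨ht2, e⟩).elt hx), one_pow]
      · exact k5 t ht ht2 x hx hxt
    obtain ⟨B, hB⟩ := B12_1.ex_tau2Elem hM hE hr.1
    obtain ⟨T, hT, hBT⟩ := hB.pg.exists_syl (hE2.le_of_normal a1.norm hB.le (hB.pi hr.1))
    have hTab := comm_mono a2 hT.le
    obtain ⟨Z, z1, z2, z3, z4⟩ := exists_cyc_semireg hM hE hr.1 hB (a3.sub_syl hr.1 hT) hBT hTab hU h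
    have hTn : E ≤ N(T) := a1.norm.trans (nil_hall_norm (nil_of_ab a2) hT)
    have hTE := hE2.sub_syl hr.1 hT
    have hZU := z1.trans (hU.le_of_norm' hTE.le (hT.pi.sing (hU.pi r hB.prime hr.2)) (hUE.trans hTn))
    refine ⟨Z ⊔ K, sup_le hZU k1, norms_sup z2 k2, ((hT.pi.of_le z1).sing (Set.mem_inter (by simp) hr.1)).sup k6
      (k1.trans z2), semireg_sup_pi z3 k4 (hT.pi.of_le z1) (k3.compl_sing fun e => hrs e.1)
      (k1.trans z2) (hZU.trans k2), fun t ht ht2 x hx hxt => ?_⟩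
    rcases Finset.mem_insert.1 ht with rfl | ht
    · exact pow_expo_of_dvd (z4 x (hTE.mem_of_normal hTn (hUE hx) hxt)) (expo_mono le_sup_left)
    · exact pow_expo_of_dvd (k5 t ht ht2 x hx hxt) (expo_mono le_sup_right)
  obtain ⟨K, k1, k2, k3, k4, k5⟩ := key (#U).primeFactors
  obtain ⟨V, hV⟩ := exists_hall (tau2 M)ᶜ (mmax_sub_sol hM hUM.le)
  have k6 := k3.mono Set.inter_subset_right
  have hsd := sdprod_sup (hV.le.trans k2) (k6.inf_eq_bot hV.pi)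
  refine ⟨K ⊔ V, sup_le k1 hV.le, expo_eq_of_pelt (sup_le k1 hV.le) fun r x hr hx hxr => ?_,
    semireg_of_el1 fun r X hX => ?_⟩
  · by_cases e : r ∈ tau2 M
    · by_cases e2 : r ∣ #U
      · exact pow_expo_of_dvd (k5 r (Nat.mem_primeFactors.2 ⟨hr, e2, card_ne_zero U⟩) e x hx hxr)
          (expo_mono le_sup_left)
      · rw [hxr.e_eq_one ((PiN.of_not_dvd e2).elt hx), one_pow]
    · obtain ⟨R, hR, hRV⟩ := hV.exists_syl e
      exact pow_expo_of_syl hR (hRV.trans le_sup_right) hx hxr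
  · by_cases e : r ∈ tau2 M
    · exact k4.cent ((hsd.hall_of_pi k6 hV.pi).le_of_normal hsd.normal.norm hX.le (hX.pi e)) hX.ne_bot
    · exact h13 r X (hX.mono (sup_le k1 hV.le)) e

instance inst_B12_12 : B12_12 G := ⟨FTtypeF_complement⟩

end

end H13.V
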