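/-
Port of `H19/B12e` to the `ϖ`-local setting.
-/
import Cfsg.Agent.H13.V12d

set_option autoImplicit false
set_option linter.unusedSectionVars false

namespace H13.V
section
open H19
open Cfsg Subgroup H18

attribute [-instance] H18.fintypeSubgroup
universe u

section general
variable {G : Type*} [Group G] [Finite G] {π : Set ℕ} {p n : ℕ} {A B H K L M P Q S W Y Z : Subgroup G}

end general

variable {G : Type u} [Group G] [Finite G] [VS G] [Gen.{u}] [U79 G] [B12_1 G] [B12_2 G] [B12_5 G]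
  [B12_10 G] {π : Set ℕ} {p q : ℕ} {A B E H K L M P Q R S U V X Y : Subgroup G}

theorem nonabelian_pgroup_sigma (hM : Mx M) (hP : PG p P) (hle : P ≤ M) (hna : ¬ Ab P) :
    p ∈ sigma M := by_contra fun e => hna (B12_10.sigma'_nil_abelian hM hle (hP.sing e) hP.nil)

theorem nonabelian_Sylow_aux (hP : Syl p P ⊤) (hr : prk p P ≤ 2) (hna : ¬ Ab P) (hM : Mx M)
    (hL : Mx L) (hne : L ≠ M) (h1 : N(P) ≤ M) (h2 : N(P) ≤ L) (hA : El p 2 A P) :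
    ∃ X, El p 1 X A ∧ X ≠ Ohm1 p Z(P) ∧ UniqMax N(X) M := by
  have hw := hM.1.el2 (hA.mono (le_normalizer.trans h1))
  obtain ⟨e1, e2⟩ := nonuniq_norm_Sylow_pprod hw hM hL hne hP h2 h1
  have hPM := le_normalizer.trans h1
  have hPL := le_normalizer.trans h2
  obtain ⟨X, hX, hu⟩ : ∃ X, El p 1 X A ∧ UniqMax N(X) M := by
    by_contra h
    push Not at h
    rw [eq_bot_mono (Mbeta_sub_Malpha M) ((B12_2.p2Elem_mmax hM (hA.mono hPM)).2 h).2.1,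
      bot_sup_eq] at e1
    exact hne (eq_mmax hM hL (e1.ge.trans inf_le_left)).symm
  refine ⟨X, hX, fun e => hne (hu.uniq L hL ?_), hu⟩
  obtain ⟨S, Y, a1, a2, a3, a4, a5, a6⟩ := mFT_rank2_Sylow_cprod hw hP hr hna
  obtain ⟨b1, b2⟩ := H4.center_of_card_cube hA.prime a2 a1
  have hZ : Z(S) = X := hX.eq_of_ne_bot (a6 ▸ e ▸ Ohm1_mono p (a5.right_le_center
    (comm_of_cyclic a4))) (ne_bot_of_prime (b1 ▸ hA.prime))
  have hp' : PiG {p}ᶜ (Mb M) := (Oc_pi _ _).compl_sing fun h => absurd (mem_alpha.1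
    (beta_sub_alpha h)) (by rw [← (hP.of_le hPM le_top).prk_syl]; omega)
  have hXP := hX.le.trans hA.le
  have := G6.pprod_norm_coprime_prod e1 (Oc_norm _ _) (le_inf (hXP.trans hPL) (hXP.trans hPM))
    (hp'.coprime' hX.pg) (mmax_sol hM)
  rw [inf_eq_right.2 hu.le] at this
  refine this.ge.trans (sup_le ?_ (inf_le_left.trans inf_le_left))
  have hS := hP.pi.of_le a5.left_le
  refine le_of_cent1_le_mod (hZ ▸ center_normal S) (b2.trans hZ).le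
    (fun h => a1 (ab_of_cyc_quo (hZ ▸ (center_normal S).norm) (inf_le_left.trans (hZ.ge.trans
      inf_le_right)) h)) (norms_inf ((a5.left_le.trans hPM).trans (Oc_norm _ _))
      (norms_cent (hZ ▸ (center_normal S).norm))) inf_le_right ((hp'.infl _).coprime' hS)
      (hXP.trans hPL) fun x hx hxX => ?_
  have hxL := hPL (a5.left_le hx)
  have hB := (hX.of_le (hXP.trans hPL)).sup (el1_zpowers' hA.prime hxL (a3 x hx)
    fun e => hxX (e ▸ one_mem X)) (hZ.ge.trans (inf_le_right.trans (cent_mono (zpowers_le.2 hx))))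
    fun e => hxX (zpowers_le.1 e)
  refine le_trans ?_ (B12_2.p2Elem_mmax hL hB).1
  rw [cent_sup, cent_zpowers]
  exact inf_le_inf_right _ inf_le_right

/-- 12.13 -/
theorem nonabelian_Uniqueness (hw : p ∈ vw G) (hP : PG p P) (hna : ¬ Ab P) : Uniq P := by
  induction P using WellFoundedGT.induction with
  | ind P ih =>
  have hN : ∀ L, Mx L → P ≤ L → N(P) ≤ L := fun L hL h => B12_10.norm_noncyclic_sigma hL
    (nonabelian_pgroup_sigma hL hP h hna) hP h fun e => hna (comm_of_cyclic e)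
  obtain ⟨M, hM, hle⟩ := mmax_exists (hP.vloc hw)
  refine UniqMax.isUniq ⟨hM, hle, fun L hL h => ?_⟩
  by_cases hS : Syl p P ⊤
  swap
  · obtain ⟨Q, a1, a2, -, a3⟩ := hP.exists_lt_norm le_top hS
    exact eq_of_uniq (ih Q a1 a2 fun e => hna (comm_mono e a1.le)) hL hM (a3.trans (hN L hL h))
      (a3.trans (hN M hM hle))
  by_cases hr : 2 < prk p P
  · exact eq_of_uniq (uniq_of_prk3 (hP.vloc hw) hr) hL hM h hle
  by_contra hne
  have hr := not_lt.1 hr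
  obtain ⟨A, hA⟩ := hP.exists_el2 (hP.vloc hw).odd fun e => hna (comm_of_cyclic e)
  obtain ⟨X, a1, a2, a3⟩ := nonabelian_Sylow_aux hS hr hna hM hL hne (hN M hM hle) (hN L hL h) hA
  obtain ⟨Y, b1, b2, b3⟩ := nonabelian_Sylow_aux hS hr hna hL hM (Ne.symm hne) (hN L hL h)
    (hN M hM hle) hA
  obtain ⟨g, hg, rfl⟩ := (basic_p2maxElem_structure hw hA (hA.top.maxEl (hS.prk_syl ▸ hr)) hP hA.le
    hna).2.2 X Y a1 a2 b1 b2
  have := a3.J g
  rw [cj_norm, cj_of_mem (hle hg.1)] at this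
  exact hne (b3.eq this)

/-- 12.14 -/
theorem cent_der_sigma_uniq (hM : Mx M) (hX : El p 1 X M)
    (h : p ∈ beta M ∨ X ≤ ⁅Ms M, Ms M⁆) :
    UniqMax C(X) M ∧ ∀ P, Syl p P (Ms M) → UniqMax P M := by
  have hp : p ∈ sigma M := h.elim (fun h => beta_sub_sigma hM h) fun h =>
    (hX.of_le (h.trans (der_le _))).mem_pi (Ms_pi M)
  obtain ⟨P, hP, hXP⟩ := hX.pg.exists_syl (le_Msigma hM hX.le (hX.pi hp))
  have hPM := hP.le.trans (Ms_le M)
  have hC := hX.vcent (sigma_w hp)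
  suffices UniqMax C(X) M ∧ UniqMax P M by
    refine ⟨this.1, fun Q hQ => ?_⟩
    obtain ⟨g, hg, rfl⟩ := hP.sconj hQ
    simpa [cj_of_mem (Ms_le M hg)] using this.2.J g
  by_cases hr : 2 < prk p (P ⊓ C(X))
  · have := uniqMax_of_uniq (uniq_of_prk3 ((hM.loc hPM).infl _) hr) hM (inf_le_left.trans hPM)
    exact ⟨this.mono inf_le_right hC, this.mono' inf_le_left hPM⟩
  have hr := not_lt.1 hr
  have hb : p ∉ beta M := fun e => by
    have h1 := betaG_not_narrow (beta_sub_betaG e) (syl_Ms_top hM hp hP)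
    exact h1 ((G5a.narrow_centP hP.pi (hM.odd hPM) (not_narrow_iff.1 h1).1).2 ⟨X, hXP, hX.card1, hr⟩)
  have h0 := (beta_max_pdiv hM hb).2.1
  have hX' : X ≤ ⁅P, P⁆ := (le_inf le_rfl (h.resolve_left hb)).trans ((G6.pprod_focal_coprime
    (sdprod_of_hall' h0 (Oc_norm _ _) hP).sup (Oc_norm _ _) hXP (h0.pi.coprime' hX.pg)).le.trans
      inf_le_right)
  have hr2 : prk p P ≤ 2 := not_lt.1 fun e => hX.ne_bot (eq_bot_mono (le_inf le_rfl hX')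
    (G5a.narrow_cent_dprod hP.pi (hM.odd hPM) e hX.card1 hXP hr).2.1)
  have hna : ¬ Ab P := fun e => hX.ne_bot (eq_bot_mono hX' (comm_iff_der.1 e))
  have hu := uniqMax_of_uniq (nonabelian_Uniqueness (sigma_w hp) hP.pi hna) hM hPM
  refine ⟨hu.mono (cents_symm (hX'.trans ?_)) hC, hu⟩
  obtain ⟨S, Y, a1, a2, -, a4, a5, a6⟩ := mFT_rank2_Sylow_cprod (sigma_w hp) (syl_Ms_top hM hp hP) hr2 hna
  have := der_sup_cent (cents_symm a5.cent)
  rw [a5.sup, comm_iff_der.1 (comm_of_cyclic a4), sup_bot_eq,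
    (H4.center_of_card_cube hX.prime a2 a1).2, ← a6] at this
  exact this.le.trans ((Ohm1_le _ _).trans ((a5.right_le_center (comm_of_cyclic a4)).trans
    inf_le_right))

instance inst_B12_13 : B12_13 G :=
  ⟨nonabelian_Uniqueness, nonabelian_pgroup_sigma, cent_der_sigma_uniq⟩

/-- 12.15 -/
theorem sigma_subgroup_embedding (hM : Mx M) (hq : q ∈ sigma M) (hXM : X ≤ M) (hX : PG q X)
    (hL : Mx L) (hN : N(X) ≤ L) (hne : L ≠ M) (hS : Syl q S (M ⊓ L)) (hXS : X ≤ S) :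
    ¬ Cjg M L ∧ N(S) ≤ M ∧ Syl q S L ∧
      (q ∈ sigma L → Mb L ⊔ (M ⊓ L) = L ∧ tau1 L ⊆ tau1 M ∪ alpha M ∧ Mb M = Ma M ∧ Ma M ≠ ⊥) ∧
      (q ∉ sigma L → q ∈ tau2 L ∧ (∀ r ∈ sigma L, r ∣ #M → r ∈ beta L) ∧
        Hall (sigma L)ᶜ (M ⊓ L) L) := by
  have hSM := hS.le.trans inf_le_left
  have hSL := hS.le.trans inf_le_right
  have hNS : N(S) ≤ M := by
    by_cases hc : Cyc S
    · exact norm_sigma_Sylow hq (hS.syl_of_norm_le hSM
        (inf_le_inf_left _ ((cyc_norm hc hXS).trans hN)))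
    · exact B12_10.norm_noncyclic_sigma hM hq hS.pi hSM hc
  have hSy := hS.syl_of_norm_le hSL (le_inf (inf_le_right.trans hNS) inf_le_left)
  refine ⟨B12_2.mmax_norm_notJ (sigma_w hq) hM hL hX hXM hN (Or.inl ⟨hq, hne.symm⟩), hNS, hSy,
    fun hs => ?_, fun hs => ?_⟩
  · have hG := sigma_Sylow_G hs hSy
    have hNL := norm_sigma_Sylow hs hSy
    obtain ⟨a1, -⟩ := nonuniq_norm_Sylow_pprod (sigma_w hq) hL hM hne.symm hG hNS hNL
    obtain ⟨b1, b2⟩ := nonuniq_norm_Sylow_pprod (sigma_w hq) hM hL hne hG hNL hNS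
    refine ⟨a1, fun r hr => or_iff_not_imp_right.2 fun ha => ?_, by rw [Mb, Ma, b2], fun e => ?_⟩
    · rw [inf_comm] at b1
      obtain ⟨r1, r2, r3⟩ := mem_tau1.1 hr
      have c1 : PiG {r}ᶜ (Mb M) := (Oc_pi _ _).compl_sing fun e => ha (beta_sub_alpha e)
      have c2 : PiG {r}ᶜ (Mb L) := (Oc_pi _ _).compl_sing fun e => r1 (beta_sub_sigma hL e)
      have n1 : M ⊓ L ≤ N(Mb M) := inf_le_left.trans (Oc_norm _ _)
      have c3 := (der_pi_of_sup_norm b1 n1 c1 ((PiN.of_not_dvd r3).of_le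
        (der_mono inf_le_right))).not_dvd (tau1_prime hr) rfl
      refine mem_tau1.2 ⟨fun e => c3 ((sigma_dvd_Ms hM e).trans (card_dvd (Msigma_der1 hM))), ?_, c3⟩
      rw [← prk_sup_norm b1 n1 c1, prk_sup_norm a1 (inf_le_right.trans (Oc_norm _ _)) c2, r2]
    · rw [eq_bot_mono (Mbeta_sub_Malpha M) e, bot_sup_eq] at b1
      exact hne (eq_mmax hM hL (b1.ge.trans inf_le_left)).symm
  have ht := (B12_2.prime_class_mmax_norm (sigma_w hq) hL hX hN).resolve_left hs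
  obtain ⟨A, hA⟩ := exists_el (sigma_prime hq) (hSy.prk_syl.trans (tau2_prk ht)).ge
  obtain ⟨F, hF, hAF⟩ := B12_1.ex_sigma_compl hL (hA.le.trans hSL) (hA.pi hs)
  obtain ⟨⟨a1, -⟩, ⟨a2, -⟩, -⟩ := B12_5.tau2_compl_context hL hF ht (hA.of_le hAF)
  have a3 := (B12_5.tau2_context hL ht (hA.mono hSL)).2.2.2.2.1 M hM (hA.le.trans hSM) hne.symm
  have a4 := ((sdprod_sigma hL hF).modr (a1.norm.trans (B12_10.norm_noncyclic_sigma hM hq hA.pg
    (hA.le.trans hSM) hA.not_cyc))).sup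
  rw [a3, bot_sup_eq, inf_comm] at a4
  refine ⟨ht, fun r hr hd => by_contra fun hb => ?_, a4 ▸ hF⟩
  have b1 : r ∉ betaG G := fun e => hb (beta_of_sigma hr e)
  have b2 := (B12_1.tau2_not_beta hL ht).1
  have b3 : ¬ r ∣ #(C(A)) := (hF.pi.of_le a2).not_dvd (sigma_prime hr) hr
  rcases lt_trichotomy r q with e | e | e
  · obtain ⟨T, c1, c2⟩ := (beta'_cent_Sylow hL hb (fun e => b2 (beta_sub_betaG e)) hA.pg
      (Or.inr ⟨e, hA.le.trans hSL⟩)).1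
    exact b3 ((c1.sdvd_card (sigma_prime hr) (sigma_dvd_Ms hL hr)).trans (card_dvd c2))
  · exact hs (e ▸ hr)
  · obtain ⟨Y, hY⟩ := exists_el1 (sigma_prime hr) hd
    obtain ⟨T, c1, c2⟩ := (beta'_cent_Sylow hM (fun e => b2 (beta_sub_betaG e))
      (fun e => b1 (beta_sub_betaG e)) hY.pg (Or.inr ⟨e, hY.le⟩)).1
    obtain ⟨g, -, hg⟩ := (syl_Ms_top hM hq c1).sle_cj le_top hA.pg
    refine b3 ((hY.J g).of_le (cents_symm (hg.trans ?_))).dvd
    rw [← cj_cent]; exact cj_mono g c2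

theorem sigma_Jsub_aux (hM : Mx M) (hY : PiG (sigma M) Y) (h1 : Oc {q} Y ≠ ⊥)
    (hX : Oc {q} Y ≤ M) : (∃ g, cj g Y ≤ Ms M) ∧
      ∀ p H, p ∣ #M → p ∉ sigma M → p ∉ betaG G → Mx H → Y ≤ H → ¬ Cjg M H →
        prk p (H ⊓ N(Y)) ≤ 1 ∧ (p ∈ tau1 M → ¬ p ∣ #(⁅H ⊓ N(Y), H ⊓ N(Y)⁆)) := by
  have hNY := norm_le_norm_Oc {q} Y
  have hXp := Oc_pi {q} Y
  have hq := hXp.mem_of_ne_bot h1 (hY.of_le (Oc_le _ _))
  have pre : ∀ p H, p ∉ sigma M → Mx H → Y ≤ H → ¬ Cjg M H → prk p (M ⊓ H) ≤ 1 := by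
    intro p H hp hH hle hnc
    refine prk_le fun A hA => h1 (eq_bot_mono (le_inf (le_Msigma hM hX (hXp.sing hq))
      ((Oc_le _ _).trans hle)) ?_)
    have hAM := hA.mono inf_le_left
    exact (B12_5.tau2_context hM (mem_tau2.2 ⟨hp, le_antisymm (sigma'_prk_le hM hp) hAM.le_prk⟩)
      hAM).2.2.2.2.1 H hH (hA.le.trans inf_le_right) (ne_of_not_cjg hnc)
  by_cases hN : N(Oc {q} Y) ≤ M
  · have hN' := hNY.trans hN
    refine ⟨⟨1, by rw [cj_one]; exact le_Msigma hM (le_normalizer.trans hN') hY⟩,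
      fun p H _ hs _ hH hle hnc => ⟨(prk_mono p ?_).trans (pre p H hs hH hle hnc), fun ht e =>
        (mem_tau1.1 ht).2.2 (e.trans (card_dvd (der_mono (inf_le_right.trans hN'))))⟩⟩
    exact le_inf (inf_le_right.trans hN') inf_le_left
  obtain ⟨L, hL, hNL⟩ := exists_mmax_norm h1 (hXp.sing (sigma_w hq))
  have hne : L ≠ M := fun e => hN (e ▸ hNL)
  obtain ⟨S, hS, hXS⟩ := hXp.exists_syl (le_inf hX (le_normalizer.trans hNL))
  obtain ⟨hnc, -, -, a1, a2⟩ := sigma_subgroup_embedding hM hq hX hXp hL hNL hne hS hXS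
  have hYL := le_normalizer.trans (hNY.trans hNL)
  obtain ⟨K, k1, k2, k3, k4⟩ : ∃ K, K ⊔ (M ⊓ L) = L ∧ L ≤ N(K) ∧ PiG (sigma M)ᶜ K ∧
      ∀ p, p ∣ #M → p ∉ betaG G → PiG {p}ᶜ K := by
    by_cases hs : q ∈ sigma L
    · exact ⟨Mb L, (a1 hs).1, Oc_norm _ _, (Oc_pi _ _).mono fun r hr =>
        (sigma_disjoint hL hM (not_cjg_symm hnc)).1.2 r (beta_sub_alpha hr),
        fun p _ hb => (Oc_pi _ _).compl_sing fun e => hb (beta_sub_betaG e)⟩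
    · obtain ⟨b1, b2, b3⟩ := a2 hs
      obtain ⟨A, hA⟩ := B12_1.ex_tau2Elem hL b3 b1
      exact ⟨Ms L, (sdprod_sigma hL b3).sup, Ms_norm L, (Ms_pi L).mono
        ((B12_5.tau2_compl_context hL b3 b1 hA).2.2.2 M hM (not_cjg_symm hnc)).2,
        fun p hd hb => (Ms_pi L).compl_sing fun e => hb (beta_sub_betaG (b2 p e hd))⟩
  have k5 := (inf_le_right (a := M)).trans k2
  refine ⟨?_, fun p H hd hs hb hH hle hnc' => ⟨?_, fun ht e => ?_⟩⟩
  · obtain ⟨W, hW⟩ := exists_hall (sigma M) (mmax_sub_sol hM (inf_le_left (b := L)))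
    obtain ⟨g, -, hg⟩ := (hall_of_sup_norm k1 k5 k3 hW).cj_le (mmax_sol hL) hYL hY
    exact ⟨g, hg.trans (le_Msigma hM (hW.le.trans inf_le_left) hW.pi)⟩
  · refine (prk_mono p (inf_le_right.trans (hNY.trans hNL))).trans ?_
    rw [← prk_sup_norm k1 k5 (k4 p hd hb)]; exact pre p L hs hL hYL hnc
  · exact (der_pi_of_sup_norm k1 k5 (k4 p hd hb) ((PiN.of_not_dvd (mem_tau1.1 ht).2.2).of_le
      (der_mono inf_le_left))).not_dvd (tau1_prime ht) rfl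
      (e.trans (card_dvd (der_mono (inf_le_right.trans (hNY.trans hNL)))))

theorem sigma_group_ne_top (hM : Mx M) (hY : PiG (sigma M) Y) : Loc Y := loc_of_w hY.vsw

theorem sigma_Jsub_aux2 (hM : Mx M) (hY : PiG (sigma M) Y) (h1 : Y ≠ ⊥) :
    (∃ g, cj g Y ≤ Ms M) ∧
      ∀ p H, p ∣ #M → p ∉ sigma M → p ∉ betaG G → Mx H → Y ≤ H → ¬ Cjg M H →
        prk p (H ⊓ N(Y)) ≤ 1 ∧ (p ∈ tau1 M → ¬ p ∣ #(⁅H ⊓ N(Y), H ⊓ N(Y)⁆)) := by
  obtain ⟨q, -, h2⟩ := exists_Oc_ne_bot (mFT_sol (sigma_group_ne_top hM hY)) h1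
  have hq := (Oc_pi {q} Y).mem_of_ne_bot h2 (hY.of_le (Oc_le _ _))
  obtain ⟨S, hS⟩ := exists_syl q M
  obtain ⟨g, -, hg⟩ := (sigma_Sylow_G hq hS).sle_cj le_top (Oc_pi {q} Y)
  obtain ⟨⟨x, hx⟩, h3⟩ := sigma_Jsub_aux (coatom_J hM g) (by rwa [sigma_cj]) h2
    (hg.trans (cj_mono g hS.le))
  refine ⟨⟨g⁻¹ * x, by rwa [cj_mul, ← le_cj_iff, ← Ms_cj]⟩, fun p H a b c d e f => ?_⟩
  simpa using h3 p H (by rwa [card_cj]) (by rwa [sigma_cj]) c d e (not_cjg_cj' f g)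

/-- 12.16 -/
theorem sigma_Jsub (hM : Mx M) (hY : PiG (sigma M) Y) : ∃ g, cj g Y ≤ Ms M := by
  by_cases h : Y = ⊥
  · exact ⟨1, by simp [h]⟩
  · exact (sigma_Jsub_aux2 hM hY h).1

/-- 12.17 -/
theorem sigma_compl_embedding (hM : Mx M) (hE : Hall (sigma M)ᶜ E M) :
    Ms M ⊓ C(E) ≤ ⁅Ms M, Ms M⁆ ∧ ⁅Ms M, E⁆ = Ms M ∧
      ∀ g, g ∉ M → Cyc (Ms M ⊓ cj g M : Subgroup G) ∧ PiG (beta M)ᶜ (Ms M ⊓ cj g M) ∧
        Ms M ⊓ cj g M ⊓ ⁅Ms M, Ms M⁆ = ⊥ := by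
  obtain ⟨a1, a2⟩ := G6.coprime_der1_sdprod (sdprod_sigma hM hE) (cop_Ms hE.pi)
    (mmax_sub_sol hM (Ms_le M)) (Msigma_der1 hM)
  refine ⟨a2, a1, fun g hg => ?_⟩
  have key : ∀ p n X, El p (n + 1) X (Ms M ⊓ cj g M) → ¬ C(X) ≤ M := fun p n X hX h => by
    obtain ⟨m, hm, c, hc, e⟩ := sigma_trans_mul hM (hX.mem_pi ((Ms_pi M).infl _)) hX.pg
      (hX.le.trans (inf_le_left.trans (Ms_le M))) (le_cj_iff.1 (hX.le.trans inf_le_right))
    exact hg (inv_mem_iff.1 (e ▸ mul_mem hm (h hc)))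
  have h2 : ∀ p X, El p 1 X (Ms M ⊓ cj g M) → ¬ (p ∈ beta M ∨ X ≤ ⁅Ms M, Ms M⁆) :=
    fun p X hX h => key p 0 X hX (cent_der_sigma_uniq hM (hX.mono (inf_le_left.trans (Ms_le M))) h).1.le
  have h3 : Ms M ⊓ cj g M ⊓ ⁅Ms M, Ms M⁆ = ⊥ := by_contra fun e =>
    let ⟨p, X, hX⟩ := exists_el1' e
    h2 p X (hX.mono inf_le_left) (Or.inr (hX.le.trans inf_le_right))
  refine ⟨ab_cyc_of_rk (comm_iff_der.2 (eq_bot_mono (le_inf (der_le _) (der_mono inf_le_left)) h3))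
    (hM.odd (inf_le_left.trans (Ms_le M))) (not_lt.1 fun e => ?_), fun p hp hd hb =>
      let ⟨X, hX⟩ := exists_el1 hp hd; h2 p X hX (Or.inl hb), h3⟩
  obtain ⟨p, A, hA⟩ := exists_el_of_le_rk (n := 2) e
  exact key p 1 A hA (B12_2.p2Elem_mmax hM (hA.mono (inf_le_left.trans (Ms_le M)))).1

instance inst_B12_15 : B12_15 G where
  sigma_subgroup_embedding := sigma_subgroup_embedding
  sigma_Jsub := sigma_Jsub
  sigma_norm_rank1 hM hY h1 _ := (sigma_Jsub_aux2 hM hY h1).2 _ _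
  sigma_compl_embedding := sigma_compl_embedding

theorem cent_Malpha_reg_tau1_a (hw : q ∈ vw G) (hM : Mx M) (hp : p ∈ tau1 M) (hP : El p 1 P M) (hQ : PG q Q)
    (hQM : Q ≤ M) (h1 : Q ≠ ⊥) (hn : P ≤ N(Q)) (hreg : Q ⊓ C(P) = ⊥) (hnu : ¬ UniqMax N(Q) M)
    (h0 : Ma M ≠ ⊥) (hq : q ∉ alpha M) : Ma M ⊓ C(P) ≠ ⊥ ∧ Ma M ⊓ C(Q ⊔ P) = ⊥ := by
  have hpa := sigma'_alpha' hM (tau1_sigma' hp)
  have c1 : rk (Ma M ⊓ C(Q)) ≤ 1 := not_lt.1 fun e => hnu ((uniqMax_of_uniq (cent_alpha'_uniq hM hQM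
    (hQ.sing hq) e) hM inf_le_left).mono (inf_le_right.trans (cent_le_norm Q)) (hQ.vnorm hw h1))
  have c2 : rk (Ma M ⊓ C(P)) ≤ 1 := not_lt.1 fun e => by
    have hpw : p ∈ vw G := hP.self.mem_pi (w_of_cent_ne_bot (Ma_w hM.1) fun e0 => by
      have := cyc_rk (e0 ▸ cyc_bot : Cyc (Ma M ⊓ C(P))); omega)
    have := sigma'_norm_mmax_rank2 hpw hM (tau1_sigma' hp) hP.pg (uniq_sub (cent_alpha'_uniq hM hP.le
      (hP.pi hpa) e) hM inf_le_left (inf_le_right.trans (cent_le_norm P)) (hP.vnorm hpw))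
    rw [tau1_prk hp] at this; omega
  have hle : Q ⊔ P ≤ M := sup_le hQM hP.le
  have hnW := hle.trans (Oc_norm (alpha M) M)
  have hcop := (Oc_pi (alpha M) M).coprime ((hQ.sing hq).sup (hP.pi hpa) hn)
  have key : ∀ r R, r ∈ alpha M → Syl r R (Ma M) → Q ⊔ P ≤ N(R) →
      ¬ Ohm1 r (R ⊓ C(P)) ≤ C(Q) := fun r R hr hR hnR h => by
    have hr3 : 2 < prk r R := by
      rw [((Malpha_Hall hM).sub_syl hr hR).prk_syl]; exact mem_alpha.1 hr
    have hQ' : PiG {r}ᶜ Q := hQ.sing_ne fun e => hq (e ▸ hr)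
    obtain ⟨D, d1, -, d2, -, -, d3, d4⟩ := G1a.critical_odd hR.pi (hM.odd (hR.le.trans (Oc_le _ _)))
      fun e => by rw [e, prk_bot] at hr3; omega
    have := d4 Q (le_sup_left.trans hnR) hQ' (cents_symm (cents_of_fpf_prime (hR.pi.of_le d1) hQ'
      hQ.sol hP.prime_card (hP.pg.sing_ne fun e => hpa (e ▸ hr)) (le_sup_left.trans (hnR.trans d2))
      (le_sup_right.trans (hnR.trans d2)) hn hreg
      fun x hx => h (mem_Ohm1 ⟨d1 hx.1, hx.2⟩ (d3 x hx.1))))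
    have := ((prk_mono r (le_inf hR.le (cents_symm this))).trans (prk_le_rk r _)).trans c1
    omega
  refine ⟨fun e => ?_, by_contra fun e => ?_⟩
  · obtain ⟨r, hr, hd⟩ := exists_prime_dvd_card h0
    obtain ⟨R, hR, hnR⟩ := inv_syl_exists r hnW hcop (Or.inl (mmax_sub_sol hM hle))
    exact key r R (Oc_pi _ _ r hr hd) hR hnR ((Ohm1_le _ _).trans
      ((inf_le_inf_right _ hR.le).trans (e.le.trans bot_le)))
  · obtain ⟨r, X, hX⟩ := exists_el1' e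
    have hc := hX.le.trans inf_le_right
    obtain ⟨R, hR, hnR, hXR⟩ := inv_syl_ge hnW hcop (Or.inl (mmax_sub_sol hM hle))
      (hX.le.trans inf_le_left) (norms_of_cents (cents_symm hc)) hX.pg
    refine key r R (hX.mem_pi ((Oc_pi _ _).infl _)) hR hnR ?_
    rw [(hX.of_le (le_inf hXR (hc.trans (cent_mono le_sup_right)))).eq_Ohm1 (mFT_cyc_of_prk ((hM.loc (hR.le.trans (Oc_le _ _))).infl _)
      (hR.pi.infl _) (((prk_mono r (inf_le_inf_right _ hR.le)).trans (prk_le_rk r _)).trans c2))]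
    exact hc.trans (cent_mono le_sup_left)

theorem le_der_of_reg (hc : (#Q).Coprime #P) (hs : Sol Q) (hQM : Q ≤ M) (hPM : P ≤ M)
    (hn : P ≤ N(Q)) (hreg : Q ⊓ C(P) = ⊥) : Q ≤ ⁅M, M⁆ :=
  (commg_eq_of_cent_eq_bot hn hc (Or.inr hs) hreg).ge.trans (commutator_mono hQM hPM)

theorem cent_Malpha_reg_tau1_b (hw : q ∈ vw G) (hM : Mx M) (hp : p ∈ tau1 M) (hpq : q ≠ p) (hP : El p 1 P M)
    (h1 : Q ≠ ⊥) (hn : P ≤ N(Q)) (hreg : Q ⊓ C(P) = ⊥) (hnu : ¬ UniqMax N(Q) M) (hQ : Syl q Q M) :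
    alpha M = beta M ∧ Ma M ≠ ⊥ ∧ q ∉ alpha M ∧ Ma M ⊓ C(P) ≠ ⊥ ∧ Ma M ⊓ C(Q ⊔ P) = ⊥ := by
  have hd := le_der_of_reg ((hQ.pi.sing_ne hpq).coprime' hP.pg) hQ.pi.sol hQ.le hP.le hn hreg
  have hN := hQ.pi.vnorm hw h1
  have h0 : Ma M ≠ ⊥ := fun e => by
    have := mmax_norm hM h1 (hQ.pi.sing hw) ((der_normal M).norm.trans
      (nil_hall_norm (der1_nil_of_Malpha hM e) (hQ.of_le hd (der_le M))))
    exact hnu ⟨hM, this.le, fun L hL h => (eq_mmax hM hL (this.ge.trans h)).symm⟩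
  have hq : q ∉ alpha M := fun e => hnu ((uniqMax_of_uniq (uniq_of_prk3 (hM.loc hQ.le)
    (hQ.prk_syl ▸ mem_alpha.1 e)) hM hQ.le).mono le_normalizer hN)
  refine ⟨le_antisymm (fun r hr => by_contra fun hb => hnu ?_) beta_sub_alpha, h0, hq,
    cent_Malpha_reg_tau1_a hw hM hp hP hQ.pi hQ.le h1 hn hreg hnu h0 hq⟩
  exact (uniqMax_of_uniq ((beta'_cent_Sylow hM hb (fun e => hq (beta_sub_alpha e)) hQ.pi
    (Or.inl ⟨fun e => hq (e ▸ hr), hd⟩)).2.1 hr) hM inf_le_left).mono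
    (inf_le_right.trans (cent_le_norm Q)) hN

/-- 12.19 -/
theorem der_compl_cent_beta' (hM : Mx M) (hE : Hall (sigma M)ᶜ E M) :
    ∃ H, Hall (beta M)ᶜ H (Ms M) ∧ ⁅E, E⁆ ≤ C(H) := by
  have h1 := hE.pi.of_le (der_le E)
  obtain ⟨W, hW, hle⟩ := (h1.mono (Set.compl_subset_compl.2 (beta_sub_sigma hM))).exists_hall
    (mmax_sub_sol hM (der_le M)) (der_mono hE.le)
  exact ⟨_, hW.inf_normal ((Ms_normal M).of_le (Msigma_der1 hM) (der_le M)), cents_symm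
    (nil_cents_pi (beta'_der1_nil hM hW.pi hW.le) inf_le_left hle ((Ms_pi M).infr _) h1)⟩

instance inst_B12_18 : B12_18 G where
  cent_Malpha_reg_tau1 hw hM hp hpq hP hQ hQM h1 hn hreg hnu :=
    ⟨cent_Malpha_reg_tau1_a hw hM hp hP hQ hQM h1 hn hreg hnu,
      cent_Malpha_reg_tau1_b hw hM hp hpq hP h1 hn hreg hnu⟩
  der_compl_cent_beta' := der_compl_cent_beta'

end

end H13.V
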