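/-
Port of `H19/B13b` to the `ϖ`-local setting.
-/
import Cfsg.Agent.H13.V13a

set_option autoImplicit false
set_option linter.unusedSectionVars false

namespace H13.V
section
open H19
open Cfsg Subgroup H18 H2.BG

attribute [-instance] H18.fintypeSubgroup
universe u
variable {G : Type u} [Group G] [Finite G] [VS G] [Gen.{u}] [U79 G] {π : Set ℕ} {p q r s : ℕ}
  {A B E E1 E2 E3 F H K L M P Q Q' R S U V X Y : Subgroup G}

theorem ne_of_reg (hQ : PG q Q) (hP : PG p P) (hn : P ≤ N(Q)) (h1 : Q ≠ ⊥) (hreg : Q ⊓ C(P) = ⊥) :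
    q ≠ p := fun e => hQ.meet_cent (e ▸ hP) hn h1 hreg

theorem asym_facts (hw : q ∈ vw G) (hM : Mx M) (hL : Mx L) (hne : L ≠ M) (hp : p ∈ tau1 M)
    (hP : El p 1 P M) (hQ : Syl q Q (M ⊓ L)) (hn : P ≤ N(Q)) (hreg : Q ⊓ C(P) = ⊥)
    (hN : N(Q) ≤ L) : Syl q Q M ∧ q ≠ p ∧ alpha M = beta M ∧ q ∉ alpha M ∧ Ma M ⊓ C(P) ≠ ⊥ ∧
      Ma M ⊓ C(Q ⊔ P) = ⊥ := by
  have h1 := ne_bot_of_norm_le hL.1 hN
  have h2 := hQ.syl_of_norm_le (hQ.le.trans inf_le_left) (inf_le_inf_left _ hN)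
  have h3 := ne_of_reg hQ.pi hP.pg hn h1 hreg
  obtain ⟨a, -, b⟩ := cent_Malpha_reg_tau1_b hw hM hp h3 hP h1 hn hreg (fun e => hne (e.uniq L hL hN)) h2
  exact ⟨h2, h3, a, b⟩

theorem asym_core (hw : q ∈ vw G) (hM : Mx M) (hL : Mx L) (hnc : ¬ Cjg M L) (hp : p ∈ tau1 M)
    (hP : El p 1 P (M ⊓ L)) (hQ : Syl q Q (M ⊓ L)) (hn : P ≤ N(Q)) (hreg : Q ⊓ C(P) = ⊥)
    (hN : N(Q) ≤ L) (hr : r ∈ beta L) (hd : r ∣ #(M ⊓ C(P))) : False := by
  have hPM := hP.mono inf_le_left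
  obtain ⟨a1, a2, -, a3, a4, a5⟩ := asym_facts hw hM hL (ne_of_not_cjg hnc) hp hPM hQ hn hreg hN
  have hcop := (hQ.pi.sing_ne a2).coprime' hP.pg
  have hrs : r ∉ sigma M := (sigma_disjoint hL hM (not_cjg_symm hnc)).1.2 r (beta_sub_alpha hr)
  have e := Mbeta_frattini hM (a1.of_le (le_der_of_reg hcop hQ.pi.sol a1.le hPM.le hn hreg) (der_le M))
  have hU : P ≤ M ⊓ N(Q) := le_inf hPM.le hn
  have n1 : M ⊓ N(Q) ≤ N(Mb M) := inf_le_left.trans (Oc_norm _ _)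
  rw [← e, sup_inf_cent (hU.trans n1) (norms_of_le hU) n1 (((Oc_pi _ _).infl _).coprime
    (hP.pi fun e => tau1_sigma' hp (beta_sub_sigma hM e))) (Or.inl (sol_of_ab hP.comm))] at hd
  have hrp := beta_prime hr
  obtain ⟨R, hR⟩ := exists_el1 hrp ((hrp.dvd_mul.1 (hd.trans (card_sup_dvd (norms_inf
    (inf_le_left.trans n1) (norms_cent (norms_of_cents inf_le_right)))))).resolve_left
      (((Oc_pi _ _).infl _).not_dvd' hrp fun e => hrs (beta_sub_sigma hM e)))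
  have h1 := (cent_tau1Elem_Msigma hM hp hPM (hR.mono (inf_le_left.trans inf_le_left)) hrs
    (hR.le.trans inf_le_right)).trans ((cent_le_norm R).trans (beta_norm_sub_mmax hL
      (hR.le.trans (inf_le_left.trans (inf_le_right.trans hN))) (hR.pi hr) hR.ne_bot))
  exact a4 (eq_bot_mono (le_inf inf_le_left (cents_sup (cents_of_le_der_notJ hM hL hnc
    (alpha_sub_sigma hM) hQ.pi a3 (le_der_of_reg hcop hQ.pi.sol (hQ.le.trans inf_le_right)
      (hP.le.trans inf_le_right) hn hreg)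
    ((inf_le_inf_right _ (Malpha_sub_Msigma hM)).trans h1) inf_le_left a1.le) inf_le_right)) a5)

theorem asym_hall (hM : Mx M) (hp : p ∈ tau1 M) (hP : El p 1 P M) (hC : Mb M ⊓ C(P) ≠ ⊥)
    (hH : Hall π H C(P)) (hb : beta M ⊆ π) (hs : s ∈ beta M) (h1 : Oc {s} H ≠ ⊥) :
    #H ∣ #(M ⊓ C(P)) := by
  obtain ⟨t, Y, hY⟩ := exists_el1' hC
  have ht := hY.mem_pi ((Oc_pi _ _).infl _)
  have hYP := hY.le.trans inf_le_right
  obtain ⟨c, hc, hle⟩ := hH.le_cj (loc_cent hP.ne_bot (w_of_cent_ne_bot (Mb_w M) hC)).sol hYP (hY.pi (hb ht))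
  have hH' := hH.Jmem hc
  have h2 : Oc {s} (cj c H) ≠ ⊥ := by rwa [← cj_Oc, Ne, cj_eq_bot]
  rw [← card_cj c H]
  generalize cj c H = K at hle hH' h2
  obtain ⟨S, hS⟩ := exists_syl s M
  obtain ⟨g, -, hg⟩ := (sigma_Sylow_G (beta_sub_sigma hM hs) hS).sle_cj le_top (Oc_pi {s} K)
  have hMg := coatom_J hM g
  have hN := beta_norm_sub_mmax hMg (hg.trans (cj_mono g hS.le))
    ((Oc_pi _ _).sing (by rwa [beta_cj])) h2
  have hK := (Oc_norm _ _).trans hN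
  have u1 := (cent_cent_Msigma_tau1_uniq hM hP.le (hP.pi hp) hP.ne_bot
    (hY.mono (inf_le_left.trans (Mbeta_sub_Msigma hM))) hYP).1
  have u2 := (cent_cent_Msigma_tau1_uniq hMg ((norms_of_cents (cents_symm ((Oc_le _ _).trans
    hH'.le))).trans hN) (hP.pi (by rwa [tau1_cj])) hP.ne_bot (hY.of_le (le_Msigma hMg (hle.trans hK)
      (hY.pi (by rw [sigma_cj]; exact beta_sub_sigma hM ht)))) hYP).1
  exact card_dvd (le_inf (u1.eq u2 ▸ hK) hH'.le)

/-- 13.8 -/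
theorem tau1_mmaxI_asymmetry {q' : ℕ} (hw : q ∈ vw G) (hws : q' ∈ vw G) (hM : Mx M) (hL : Mx L) (hnc : ¬ Cjg M L)
    (hp : p ∈ tau1 M) (hps : p ∈ tau1 L) (hP : El p 1 P (M ⊓ L)) (hQ : Syl q Q (M ⊓ L))
    (hQs : Syl q' Q' (M ⊓ L)) (hn : P ≤ N(Q)) (hns : P ≤ N(Q')) (hreg : Q ⊓ C(P) = ⊥)
    (hregs : Q' ⊓ C(P) = ⊥) (hNQ : N(Q) ≤ L) (hNQs : N(Q') ≤ M) : False := by
  have hne := ne_of_not_cjg hnc
  have hQs' := inf_comm M L ▸ hQs
  obtain ⟨-, -, a1, -, a2, -⟩ := asym_facts hw hM hL hne hp (hP.mono inf_le_left) hQ hn hreg hNQ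
  obtain ⟨-, -, b1, -, b2, -⟩ := asym_facts hws hL hM hne.symm hps (hP.mono inf_le_right) hQs' hns hregs
    hNQs
  rw [Ma, a1] at a2
  rw [Ma, b1] at b2
  have hsC := (loc_cent hP.ne_bot (w_of_cent_ne_bot (Oc_pi _ _ |>.mono fun _ => beta_w) a2)).sol
  obtain ⟨H, hH⟩ := exists_hall (beta M ∪ beta L) hsC
  have key : ∀ K : Subgroup G, beta K ⊆ beta M ∪ beta L → Mb K ⊓ C(P) ≠ ⊥ → ∃ r ∈ beta K, r ∣ #H :=
    fun K h1 h2 => by
      obtain ⟨r, hr, hd⟩ := exists_prime_dvd_card h2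
      have := (Oc_pi _ _).infl _ r hr hd
      exact ⟨r, this, hH.prime_dvd hr (h1 this) (hd.trans (card_dvd inf_le_right))⟩
  obtain ⟨r, r1, r2⟩ := key M Set.subset_union_left a2
  obtain ⟨t, t1, t2⟩ := key L Set.subset_union_right b2
  obtain ⟨s, -, h1⟩ := exists_Oc_ne_bot (sol_mono hsC hH.le)
    fun e => (beta_prime r1).not_dvd_one (by simpa [e] using r2)
  rcases (Oc_pi {s} H).mem_of_ne_bot h1 (hH.pi.of_le (Oc_le _ _)) with hs | hs
  · exact asym_core hw hM hL hnc hp hP hQ hn hreg hNQ t1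
      (t2.trans (asym_hall hM hp (hP.mono inf_le_left) a2 hH Set.subset_union_left hs h1))
  · exact asym_core hws hL hM (not_cjg_symm hnc) hps (inf_comm M L ▸ hP) hQs' hns hregs hNQs r1
      (r2.trans (asym_hall hL hps (hP.mono inf_le_right) b2 hH Set.subset_union_right hs h1))

theorem cent_eq_bot_of_not_uniq (hM : Mx M) (hle : P ≤ M) (hP : PiG (tau1 M) P) (h1 : P ≠ ⊥)
    (hS : Syl q S (Ms M)) (h : ¬ UniqMax S M) : S ⊓ C(P) = ⊥ := by
  by_contra e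
  obtain ⟨X, hX⟩ := (hS.pi.infl _).exists_el1 e
  exact h ((cent_cent_Msigma_tau1_uniq hM hle hP h1 (hX.mono (inf_le_left.trans hS.le))
    (hX.le.trans inf_le_right)).2 S hS)

/-- 13.9 -/
theorem sigma_partition (hM : Mx M) (hL : Mx L) (hnc : ¬ Cjg M L) :
    ∀ p ∈ sigma M, p ∉ sigma L := by
  intro q hq hqL
  obtain ⟨E, hE⟩ := exists_hall (sigma M)ᶜ (mmax_sol hM)
  obtain ⟨E1, E2, E3, h⟩ := ex_sigmaCompl hM hE
  have h2 : E2 = ⊥ := by_contra fun e =>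
    let ⟨_, _, hp, hA⟩ := exists_tau2_el hE h.hall2 e
    ((tau2_compl_context hM hE hp hA).2.2.2 L hL hnc).2 q hq hqL
  obtain ⟨p, P, hP⟩ := exists_el1' ((sigma_compl_context hM h).2.1 h2)
  have hp := hP.mem_pi h.hall1.pi
  have hPM := hP.mono (h.hall1.le.trans hE.le)
  obtain ⟨S, hS, hn⟩ := inv_syl_exists q (hPM.le.trans (Ms_norm M)) (cop_Ms (hP.pi (tau1_sigma' hp)))
    (Or.inl (sol_of_ab hP.comm))
  have hSM := syl_Ms hM hq hS
  obtain ⟨T, hT⟩ := exists_syl q L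
  obtain ⟨g, -, e⟩ := (sigma_Sylow_G hqL hT).sconj (sigma_Sylow_G hq hSM)
  have hSL := e ▸ hT.J g
  have hnc' := not_cjg_cj hnc g
  have hL' := coatom_J hL g
  have hNL := norm_sigma_Sylow (sigma_cj_sub g L hqL) hSL
  generalize cj g L = K at hSL hnc' hL' hNL
  have hreg := cent_eq_bot_of_not_uniq hM hPM.le (hP.pi hp) hP.ne_bot hS
    fun e => ne_of_not_cjg hnc' (e.uniq K hL' hSL.le)
  have hPK := le_inf hPM.le (hn.trans hNL)
  have hnc2 : ¬ P ≤ C(Ms M ⊓ K) := fun e => sigma_Sylow_neq1 hq hSM (eq_bot_mono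
    (le_inf le_rfl ((le_inf hS.le hSL.le).trans (cents_symm e))) hreg)
  have hpK : p ∈ tau1 K := by_contra fun e => hnc2 ((Msigma_setI_mmax_central hM hL' hP.prime hPM.dvd
    (tau1_sigma' hp) (hP.of_le (hn.trans hNL)).dvd e
    (fun e => hnc2 (hPK.trans (cents_symm (commg_eq_bot.1 e)))) hnc').1 P hPK hP.pg)
  have hS' := hSM.inf hSL.le
  exact tau1_mmaxI_asymmetry (sigma_w hq) (sigma_w hq) hM hL' hnc' hp hpK (hP.of_le hPK) hS' hS' hn hn hreg hreg hNL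
    (norm_sigma_Sylow hq hSM)

instance inst_B13_8 : B13_8 G := ⟨tau1_mmaxI_asymmetry, sigma_partition⟩

theorem cyc_cent_eq_bot (ho : Odd #Q) (hQ : PG q Q) (hc : Cyc Q) (hn : P ≤ N(Q)) (hcop : (#Q).Coprime #P)
    (h : ¬ Q ≤ C(P)) : Q ⊓ C(P) = ⊥ := by_contra fun e => h <| cents_symm <|
  G1a.coprime_odd_faithful_Ohm1 hQ hn hcop ho
    (cents_symm ((H4.Ohm1_le_of_cyc hQ hc inf_le_left e).trans inf_le_right))

/-- 13.10 -/
theorem tau13_regular (hM : Mx M) (h : SigmaCompl M E E1 E2 E3) (hP1 : P ≤ E1)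
    (hpp : (#P).Prime) (hnc : ¬ P ≤ C(E3)) :
    Semireg E3 E1 ∧ Semireg (Ms M) E3 ∧ Ms M ⊓ C(P) ≠ ⊥ := by
  have hP := el1_of_prime hP1 hpp
  generalize #P = p at hP
  have hE := h.hall
  have hp := hP.mem_pi h.hall1.pi
  have hPM := hP.mono (h.hall1.le.trans hE.le)
  obtain ⟨a1, a2, a3⟩ := tau3_compl hM hE h.hall3
  have n1 := (hP1.trans h.hall1.le).trans a2.norm
  have hcop := h.hall3.pi.coprime (hP.pi (π := (tau3 M)ᶜ) (tau1_tau3' hp))
  obtain ⟨q, Q, hq, hd, hQ, hc⟩ : ∃ q Q, q.Prime ∧ q ∣ #E3 ∧ Syl q Q E3 ∧ ¬ Q ≤ C(P) := by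
    by_contra e
    push Not at e
    exact hnc (cents_symm (le_of_syl fun q Q hq hQ => by
      by_cases hd : q ∣ #E3
      · exact e q Q hq hd hQ
      · exact (hQ.eq_bot (PiN.of_not_dvd hd)).le.trans bot_le))
  have hq3 := h.hall3.pi q hq hd
  have hn := n1.trans (cyc_norm a3 hQ.le)
  have hQM := hE.sub_syl (tau3_sigma' hq3) (h.hall3.sub_syl hq3 hQ)
  have hreg := cyc_cent_eq_bot (hM.odd hQM.le) hQ.pi (cyc_mono a3 hQ.le) hn
    (hcop.coprime_dvd_left (card_dvd hQ.le)) hc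
  have h1 := hQ.sne_bot hq hd
  by_cases hw : q ∈ vw G
  swap
  · have hQ0 := Ms_cent_w' (M := M) hw hQ.pi h1
    have hP0 : Ms M ⊓ C(P) ≠ ⊥ := fun e => by
      have hnQ := hQM.le.trans (Ms_norm M)
      have hsQ := hQ.pi.sing (π := (sigma M)ᶜ) (tau3_sigma' hq3)
      have hnil : Nil (Ms M ⊔ Q : Subgroup G) := G3a.prime_Frobenius_sol_kernel_nil
        (norms_sup (hPM.le.trans (Ms_norm M)) hn)
        (mmax_sub_sol hM (sup_le (Ms_le M) hQM.le)) hP.prime_card <| by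
          rw [sup_inf_cent_of_disjoint (hPM.le.trans (Ms_norm M)) hn hnQ (Ms_inf_eq_bot hsQ), e, hreg,
            bot_sup_eq]
      exact Msigma_neq1 hM (eq_bot_mono (le_inf le_rfl
        (nil_cents_pi hnil le_sup_left le_sup_right (Ms_pi M) hsQ)) hQ0)
    refine ⟨by_contra fun e => hP0 (eq_bot_mono (le_inf inf_le_left ?_) hQ0),
      (tau3_primact_Msigma hM hE h.hall3).semireg
        (eq_bot_mono (inf_le_inf_left _ (cent_mono hQ.le)) hQ0), hP0⟩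
    exact ((tau13_primact_Msigma hM h e).cent (hP1.trans le_sup_right) hP.ne_bot).le.trans
      (inf_le_right.trans (cent_mono (hQ.le.trans le_sup_left)))
  obtain ⟨L, hL, hN⟩ := exists_mmax_norm h1 (hQ.pi.sing hw)
  have hML := mmax_norm_notJ hw hM hL hQ.pi hQM.le hN (Or.inr (Or.inr hq3))
  have hQL := hQM.inf (le_normalizer.trans hN)
  obtain ⟨-, -, -, -, b1, b2⟩ := asym_facts hw hM hL (ne_of_not_cjg hML) hp hPM hQL hn hreg hN
  have hs := Malpha_sub_Msigma hM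
  refine ⟨by_contra fun e => b1 (eq_bot_mono (le_inf inf_le_left ((inf_le_inf_right _ hs).trans ?_))
    b2), (tau3_primact_Msigma hM hE h.hall3).semireg (by_contra fun e => ?_),
    ne_bot_mono (inf_le_inf_right _ hs) b1⟩
  · exact ((tau13_primact_Msigma hM h e).cent (hP1.trans le_sup_right) hP.ne_bot).le.trans
      (inf_le_right.trans (cent_mono (sup_le_sup hQ.le hP1)))
  obtain ⟨t, ht, htd⟩ := exists_prime_dvd_card e
  have hts := (Ms_pi M).infl _ t ht htd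
  have hPL := le_inf hPM.le (hn.trans hN)
  obtain ⟨c1, c2, -⟩ := cent_norm_tau13_mmax hw hM (Or.inr hq3) hQM.le hQ.pi hL hN
  obtain ⟨T, hT, hnT⟩ := inv_syl_exists t (norms_inf (hPM.le.trans (Ms_norm M))
    (norms_of_le (hn.trans hN))) (((Ms_pi M).infl L).coprime (hP.pi (tau1_sigma' hp)))
    (Or.inl (sol_of_ab hP.comm))
  have hT1 := hT.sne_bot ht (htd.trans (card_dvd ((inf_le_inf_left _ (cent_mono hQ.le)).trans
    (cent_le_Ms_inf hN))))
  have hTM := hT.le.trans (inf_le_left.trans (Ms_le M))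
  have hT2 : Syl t T (M ⊓ L) := by
    have := (Msigma_Hall hM).inf_of_norm' (inf_le_left (b := L)) (inf_le_left.trans (Ms_norm M))
    rw [← inf_assoc, inf_eq_left.2 (Ms_le M)] at this
    exact this.sub_syl hts hT
  have hT3 : N(T) ≤ M ∧ T ⊓ C(P) = ⊥ := by
    by_cases hb : t ∈ beta M
    · refine ⟨beta_norm_sub_mmax hM hTM (hT.pi.sing hb) hT1, eq_bot_mono (le_inf (inf_le_left.trans
        ((Malpha_Hall hM).le_Oc hTM (hT.pi.sing (beta_sub_alpha hb)))) (cents_sup (inf_le_left.trans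
          (hT.le.trans (cents_symm (c1 Q hQL.le hQ.pi)))) inf_le_right)) b2⟩
    · obtain ⟨W, hW, hWc⟩ := der_compl_cent_beta' hM hE
      have := hT.of_idx inf_le_left ((hW.idx.dvd (relIndex_dvd_left ((le_inf hW.le (cents_symm
        ((hQ.le.trans a1).trans hWc))).trans (cent_le_Ms_inf hN)) _)).compl_sing' hb)
      exact ⟨norm_sigma_Sylow hts (syl_Ms hM hts this), cent_eq_bot_of_not_uniq hM hPM.le (hP.pi hp)
        hP.ne_bot this fun e => ne_of_not_cjg hML (e.uniq L hL (hT.le.trans inf_le_right))⟩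
  have hpL : p ∈ tau1 L := by_contra fun e => hT1 (eq_bot_mono (le_inf le_rfl (hT.le.trans
    (cents_symm (c2 P hPL (hP.pi (tau1_sigma' hp)) (hP.pi e))))) hT3.2)
  exact tau1_mmaxI_asymmetry hw (sigma_w hts) hM hL hML hp hpL (hP.of_le hPL) hQL hT2 hn hnT hreg hT3.2 hN hT3.1

/-- 13.11 -/
theorem tau13_nonregular (hM : Mx M) (h : SigmaCompl M E E1 E2 E3)
    (hnr : ¬ Semireg (Ms M) E3) :
    E1 ≠ ⊥ ∧ Sdprod E3 E1 E ∧ Semiprime (Ms M) E ∧ ∀ X, X ≤ E → (#X).Prime → E ≤ N(X) := by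
  have hE := h.hall
  have h2 : E2 = ⊥ := by_contra fun e =>
    let ⟨_, _, hp, hA⟩ := exists_tau2_el hE h.hall2 e
    hnr (tau2_regular hM h hp hA).2.1
  have h1 := (sigma_compl_context hM h).2.1 h2
  have hsd := h.sup_eq hM h2
  obtain ⟨-, a2, a3⟩ := tau3_compl hM hE h.hall3
  have hc : ∀ P, P ≤ E1 → (#P).Prime → P ≤ C(E3) := fun P a b =>
    by_contra fun e => hnr (tau13_regular hM h a b e).2.1
  refine ⟨h1, hsd, hsd.sup ▸ tau13_primact_Msigma hM h fun e => ?_, fun X hX hp => ?_⟩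
  · obtain ⟨p, P, hP⟩ := exists_el1' h1
    have := e.cent hP.le hP.ne_bot
    rw [inf_eq_left.2 (cents_symm (hc P hP.le hP.prime_card))] at this
    exact hnr (this ▸ semireg_bot_right)
  have hX1 := el1_of_prime hX hp
  by_cases hq : #X ∈ tau3 M
  · exact a2.norm.trans (cyc_norm a3 (h.hall3.le_of_normal a2.norm hX (hX1.pi hq)))
  obtain ⟨k, hk, hle⟩ := exists_cj_le_of_le_sup hsd.norm (hX.trans hsd.sup.ge)
    (h.hall3.pi.coprime (hX1.pi hq)) (Or.inl (sol_of_ab hX1.comm))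
  have : E ≤ N(cj k X) := norms_of_cents (hsd.sup.ge.trans (sup_le
    (cents_symm (hc _ hle (by rwa [card_cj])))
    (cents_of_comm (comm_of_cyclic (sigma_compl_context hM h).2.2.1.1) le_rfl hle)))
  rwa [← cj_norm, le_cj_iff, cj_of_mem (inv_mem (h.hall3.le hk))] at this

/-- 13.12 -/
theorem tau12_regular (hM : Mx M) (hE : Hall (sigma M)ᶜ E M) (hp : p ∈ tau1 M)
    (hq : q ∈ tau2 M) (hP : El p 1 P E) (hA : El q 2 A E) (h : A ⊓ C(P) ≠ ⊥) : Ms M ⊓ C(P) = ⊥ := by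
  by_contra h0
  have hc : ¬ P ≤ C(A) := fun e => h0 ((tau2_regular_cent hM hE hq hA e
    (hP.pi (tau1_tau2' hp))).cent le_rfl hP.ne_bot)
  have hY := hA.el1_of_lt (inf_lt_left.2 fun e => hc (cents_symm e)) h
  have u1 := (tau2_compl_context hM hE hq hA).2.2.1 _ (hY.mono hA.le) (ne_bot_mono (le_inf inf_le_left
    (cent_tau1Elem_Msigma hM hp (hP.mono hE.le) (hY.mono (hA.le.trans hE.le)) (tau2_sigma' hq)
      inf_le_right)) h0)
  obtain ⟨L, hL, hN⟩ := exists_mmax_norm hA.ne_bot (hA.pi (tau2_w hM.1 hq))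
  have hne : L ≠ M := fun e => tau2_not_norm_le hM hq (hA.mono hE.le) (e ▸ hN)
  obtain ⟨a1, a2, -⟩ := primes_norm_tau2Elem hM hE hq hA hL hN
  have n1 := hP.le.trans (tau2_normal hM hE hA).norm
  have hAL := le_normalizer.trans hN
  have hYL := hY.mono (le_Msigma hL hAL (hA.pi (a1 q hq).1))
  have hd : p ∣ (E ⊓ C(A)).relIndex E := by_contra fun e => hc ((le_of_pi_of_relIndex'
    (norms_inf (norms_of_le hP.le) (norms_cent n1)) hP.le hP.pg (PiN.of_not_dvd e)).trans inf_le_right)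
  rcases a2 p hP.prime hd with e | e
  · exact hne ((cent_cent_Msigma_tau1_uniq hL (n1.trans hN) (hP.pi e) hP.ne_bot hYL
      inf_le_right).1.eq u1)
  · obtain ⟨x, x1, x2, rfl⟩ := hP.exists_gen
    rw [cent_zpowers] at h0 hYL
    have := (cent1_nreg_sigma_uniq hL (hN (n1 (mem_zpowers x))) x1
      (by rw [PiE, x2]; exact (piN_prime hP.prime).2 e)
      (ne_bot_mono (le_inf hYL.le inf_le_right) hYL.ne_bot)).le
    exact h0 (eq_bot_mono (inf_le_inf_left _ this) (tau2_TI hM hq (hA.mono hE.le) hL hAL hne))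

theorem tau13_cent_uniq (hM : Mx M) (hP : El p 1 P M) (hp : p ∈ tau1 M ∪ tau3 M)
    (hX : El q 1 X (Ms M)) (hXP : X ≤ C(P)) :
    UniqMax C(X) M ∧ ∀ S, Syl q S (Ms M) → UniqMax S M := by
  rcases hp with e | e
  · exact cent_cent_Msigma_tau1_uniq hM hP.le (hP.pi e) hP.ne_bot hX hXP
  obtain ⟨E, hE, hPE⟩ := ex_sigma_compl hM hP.le (hP.pi (tau3_sigma' e))
  obtain ⟨E1, E2, E3, h⟩ := ex_sigmaCompl hM hE
  obtain ⟨a1, -, a2, -⟩ := tau13_nonregular hM h fun r => hX.ne_bot (eq_bot_mono (le_inf hX.le hXP)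
    (r.cent (h.hall3.le_of_normal (tau3_compl hM hE h.hall3).2.1.norm hPE (hP.pi e)) hP.ne_bot))
  exact cent_cent_Msigma_tau1_uniq hM (h.hall1.le.trans hE.le) h.hall1.pi a1 hX
    ((le_inf hX.le hXP).trans ((a2.cent hPE hP.ne_bot).le.trans
      (inf_le_right.trans (cent_mono h.hall1.le))))

/-- 13.13 -/
theorem tau13_nonregular_sigma (hM : Mx M) (hP : El p 1 P M) (hp : p ∈ tau1 M ∪ tau3 M)
    (h : Ms M ⊓ C(P) ≠ ⊥) (hH : Mx H) (hN : N(P) ≤ H) : p ∈ sigma H := by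
  have hw : p ∈ vw G := hP.self.mem_pi (w_of_cent_ne_bot (Ms_w M) h)
  refine (prime_class_mmax_norm hw hH hP.pg hN).resolve_right fun ht => ?_
  obtain ⟨q, Q, hQ⟩ := exists_el1' h
  have hQP := hQ.le.trans inf_le_right
  have hq := hQ.mem_pi ((Ms_pi M).infl _)
  have hqH := sigma_partition hM hH (mmax_norm_notJ hw hM hH hP.pg hP.le hN (Or.inr hp)) q hq
  have hCH := (cent_le_norm P).trans hN
  obtain ⟨F, hF, hle⟩ := ex_sigma_compl hH (sup_le (le_normalizer.trans hN) (hQP.trans hCH))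
    ((hP.pi (tau2_sigma' ht)).sup (hQ.pi hqH) (norms_of_cents hQP))
  obtain ⟨A, hA⟩ := ex_tau2Elem hF ht
  have hQF := hQ.of_le (le_sup_right.trans hle)
  have hPA := hP.of_le (tau2_el1_le hH hF hA (hP.of_le (le_sup_left.trans hle)))
  have hc : ¬ A ≤ C(Q) := fun e => by
    have := (hA.of_le (e.trans (tau13_cent_uniq hM hP hp (hQ.mono inf_le_left) hQP).1.le)).le_prk
    rw [tau13_prk hp] at this; omega
  have hq1 : q ∈ tau1 H := by_contra fun e =>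
    hc (cents_symm ((tau1_cent_tau2Elem_factor hH hF hA).2.2 Q hQF.le (hQ.pi e)))
  have hle2 := le_inf hPA.le (cents_symm hQP)
  obtain ⟨-, -, a1, a2⟩ := tau1_act_tau2 hH hF ht hA hq1 hQF (tau12_regular hH hF hq1 ht hQF hA
    (ne_bot_mono hle2 hP.ne_bot)) fun e => hc (commg_eq_bot.1 e)
  exact a2 (hP.eq_of_le a1 hle2 ▸ hCH)

instance inst_B13_10 : B13_10 G :=
  ⟨tau13_regular, tau13_nonregular, tau12_regular, tau13_nonregular_sigma⟩

example : B13 G := inferInstance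

end

end H13.V
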