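/-
Port of `H19/St14,H17/B14a` to the `ϖ`-local setting.
-/
import Cfsg.Agent.H13.V13b

set_option autoImplicit false
set_option linter.unusedSectionVars false

namespace H13.V
section
open H19
open Cfsg Subgroup

universe u

/-- `K* = C_{M_σ}(K)` -/
abbrev Kst {G : Type*} [Group G] [VS G] (M K : Subgroup G) : Subgroup G := Ms M ⊓ C(K)

/-- BG 14.1 and basic remarks -/
class B14_1 (G : Type u) [Group G] [VS G] : Prop where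
  sigma_mmax_exists {p : ℕ} (hw : p ∈ vw G) (hp : p.Prime) (hd : p ∣ Nat.card G) :
    ∃ M : Subgroup G, Mx M ∧ p ∈ sigma M
  ell1_iff {x : G} : Ell1 x ↔ x ≠ 1 ∧ (sigMax x).Nonempty
  /-- 14.1 -/
  sigma'_kappa'_facts {M S : Subgroup G} {p : ℕ} (hM : Mx M) (hS : Syl p S M) (h1 : S ≠ ⊥)
    (hs : p ∉ sigma M) (hk : p ∉ kap M) :
    Abelem p (Ohm1 p S) ∧ #(Ohm1 p S) ≤ p ^ 2 ∧ Ms M ⊓ C(Ohm1 p S) = ⊥ ∧ Nil (Ms M)
  notP1type_Msigma_nil {M : Subgroup G} (h : TypeF M ∨ TypeP2 M) : Nil (Ms M)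

/-- BG 14.2, 14.3 -/
class B14_2 (G : Type u) [Group G] [VS G] : Prop where
  ex_kappa_compl {M K : Subgroup G} (hM : Mx M) (hK : Hall (kap M) K M) :
    ∃ U, KappaCompl M U K
  /-- 14.2(a) -/
  kappa_compl_context {M U K : Subgroup G} (hM : Mx M) (h : KappaCompl M U K) :
    Hall (sigma M)ᶜ (U ⊔ K) M ∧ Sdprod U K (U ⊔ K) ∧ Semiprime (Ms M) K ∧ Semireg U K ∧
      (K ≠ ⊥ → Ab U)
  /-- 14.2(b - g) -/
  Ptype_structure {M K : Subgroup G} (hM : TypeP M) (hK : Hall (kap M) K M) :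
    (Dprod K (Kst M K) (M ⊓ N(K)) ∧ ∀ X, X ≤ K → (#X).Prime → M ⊓ N(X) = M ⊓ N(K) ∧
        ∀ Mstar, Mx Mstar → N(X) ≤ Mstar → X ≤ Ms Mstar) ∧
      (Kst M K ≠ ⊥ ∧ ∀ X, X ≤ Kst M K → (#X).Prime → UniqMax C(X) M) ∧
      ((∀ g, g ∉ M → Kst M K ⊓ cj g M = ⊥) ∧ ∀ g ∈ M, g ∉ N(K) → K ⊓ cj g K = ⊥) ∧
      (∀ p S, p ∣ #(Kst M K) → p.Prime → Syl p S (Ms M) → UniqMax S M ∧ ¬ S ≤ Kst M K) ∧
      (∀ Y, PiG (sigma M) Y → Y ⊓ Kst M K ≠ ⊥ → Y ≤ Ms M) ∧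
      (TypeP2 M → sigma M = beta M ∧ (#K).Prime ∧ Nil (Ms M) ∧ NormedTI (nt (Ms M)) M)
  /-- 14.3 -/
  pi_of_cent_sigma {M : Subgroup G} {x x' : G} (hM : Mx M) (hx : x ∈ Ms M) (hx1 : x ≠ 1)
    (hx' : x' ∈ M ⊓ C[x]) (hx'1 : x' ≠ 1) (hs : PiE (sigma M)ᶜ x') :
    (PiE (kap M) x' ∧ C[x] ≤ M) ∨ (PiE (tau2 M) x' ∧ Ell1 x' ∧ UniqMax C[x'] M)

/-- BG 14.4 -/
class B14_4 (G : Type u) [Group G] [VS G] : Prop where
  FT_signalizer_trans {x : G} (hx : Ell1 x) :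
    (∀ L1 ∈ sigMax x, ∀ L2 ∈ sigMax x, ∃ r ∈ sigR x, cj r L1 = L2) ∧
      #(sigR x) = (sigMax x).ncard ∧ sigR x ⊴ C[x] ∧
      (#(sigR x)).Coprime ((sigR x).relIndex C[x]) ∧
      ∀ M ∈ sigMax x, Sdprod (sigR x) (M ⊓ C[x]) C[x] ∧ (C[x] ≤ M ↔ ¬ 1 < (sigMax x).ncard)
  FT_signalizer_context {x : G} (hx : Ell1 x) (h : 1 < (sigMax x).ncard) :
    UniqMax C[x] (sigN x) ∧ sigR x ≠ ⊥ ∧ PiE (tau2 (sigN x)) x ∧
      (TypeF (sigN x) ∨ TypeP2 (sigN x)) ∧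
      ∀ M ∈ sigMax x, ¬ Cjg M (sigN x) ∧ tau2 (sigN x) ⊆ sigma M ∧
        (∀ p ∈ sigma (sigN x), p ∣ #M → p ∈ beta (sigN x)) ∧
        Hall (sigma (sigN x))ᶜ (M ⊓ sigN x) (sigN x)
  FT_signalizerJ {x : G} (hx : Ell1 x) (g : G) : sigR (g * x * g⁻¹) = cj g (sigR x)

/-- BG 14.5, 14.6 -/
class B14_5 (G : Type u) [Group G] [VS G] : Prop where
  /-- 14.5(a) -/
  sigma_cover_disjoint {x y r s : G} (hx : Ell1 x) (hy : Ell1 y) (hr : r ∈ sigR x)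
    (hs : s ∈ sigR y) (h : x * r = y * s) : x = y
  sigma_cover_ne_one {x r : G} (hx : Ell1 x) (hr : r ∈ sigR x) : x * r ≠ 1
  sigma_supportJ {M : Subgroup G} {g a : G} (hM : Mx M) (ha : a ∈ sigSupp M) :
    g * a * g⁻¹ ∈ sigSupp (cj g M)
  /-- 14.5(b) -/
  sigma_support_disjoint {M1 M2 : Subgroup G} (h1 : Mx M1) (h2 : Mx M2)
    (hnc : ¬ Cjg M1 M2) : Disjoint (classSupp (sigSupp M1)) (classSupp (sigSupp M2))
  /-- 14.5(c) -/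
  card_class_support_sigma {M : Subgroup G} (hM : Mx M) :
    (classSupp (sigSupp M)).ncard = (#(Ms M) - 1) * M.index
  /-- 14.6, existence -/
  sigma_decomposition_dichotomy {g : G} (hw : PiE (vw G) g) (hg : g ≠ 1) :
    (∃ x, Ell1 x ∧ x⁻¹ * g ∈ sigR x) ∨
      ∃ y, y ≠ 1 ∧ ∃ M ∈ sigMax y, y⁻¹ * g ∈ M ⊓ C[y] ∧ y⁻¹ * g ≠ 1 ∧ PiE (kap M) (y⁻¹ * g)
  /-- 14.6, exclusiveness -/
  sigma_decomposition_excl {g x y : G} {M : Subgroup G} (hx : Ell1 x) (hr : x⁻¹ * g ∈ sigR x)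
    (hy : y ≠ 1) (hM : M ∈ sigMax y) (h1 : y⁻¹ * g ∈ M ⊓ C[y]) (h2 : y⁻¹ * g ≠ 1)
    (h3 : PiE (kap M) (y⁻¹ * g)) : False

/-- BG 14.7 -/
class B14_7 (G : Type u) [Group G] [VS G] : Prop where
  Ptype_embedding {M K : Subgroup G} (hM : TypeP M) (hK : Hall (kap M) K M) :
    ∃ Mstar, TypeP Mstar ∧ ¬ Cjg M Mstar ∧
      (∀ X, X ≤ K → (#X).Prime → UniqMax C(X) Mstar) ∧
      (Hall (kap Mstar) (Kst M K) Mstar ∧ Hall (sigma M) (Kst M K) Mstar) ∧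
      (Kst Mstar (Kst M K) = K ∧ kap M = tau1 M) ∧
      (Cyc (K ⊔ Kst M K) ∧ M ⊓ Mstar = K ⊔ Kst M K ∧
        (∀ x ∈ K, x ≠ 1 → M ⊓ C[x] = K ⊔ Kst M K) ∧
        (∀ y ∈ Kst M K, y ≠ 1 → Mstar ⊓ C[y] = K ⊔ Kst M K) ∧
        ∀ x ∈ K, x ≠ 1 → ∀ y ∈ Kst M K, y ≠ 1 → C[x * y] = K ⊔ Kst M K) ∧
      (NormedTI (Zhat K (Kst M K)) (K ⊔ Kst M K) ∧
        (∀ g, g ∉ M → ∀ z ∈ Zhat K (Kst M K), z ∉ cj g M) ∧
        Nat.card G < 2 * (classSupp (Zhat K (Kst M K))).ncard) ∧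
      ((TypeP2 M ∧ (#K).Prime) ∨ (TypeP2 Mstar ∧ (#(Kst M K)).Prime)) ∧
      (∀ H, TypeP H → Cjg M H ∨ Cjg Mstar H) ∧ Sdprod ⁅M, M⁆ K M

/-- BG 14.8, 14.9 -/
class B14_9 (G : Type u) [Group G] [VS G] : Prop where
  P1type_trans {M H : Subgroup G} (hM : TypeP1 M) (hH : TypeP1 H) : Cjg M H
  /-- 14.9(1) -/
  mFT_partition_F (h : ∀ M : Subgroup G, ¬ TypeP M) {g : G} (hw : PiE (vw G) g) (hg : g ≠ 1) :
    ∃ M : Subgroup G, Mx M ∧ g ∈ sigSupp M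
  /-- 14.9(2) -/
  mFT_partition_P {M K : Subgroup G} (hM : TypeP M) (hK : Hall (kap M) K M) :
    (∀ g : G, PiE (vw G) g → g ≠ 1 → (∃ L : Subgroup G, Mx L ∧ g ∈ sigSupp L) ∨
      g ∈ classSupp (Zhat K (Kst M K))) ∧
      ∀ L : Subgroup G, Mx L → Disjoint (classSupp (Zhat K (Kst M K))) (classSupp (sigSupp L))

/-- BG 14.11 - 14.13 -/
class B14_11 (G : Type u) [Group G] [VS G] : Prop where
  /-- 14.11 -/
  primes_non_Fitting_Ftype {M E Q : Subgroup G} {q : ℕ} (hM : TypeF M) (hE : Hall (sigma M)ᶜ E M)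
    (hQ : El q 1 Q E) (h : ¬ Q ≤ Fit E) :
    ∃ Mstar, Mx Mstar ∧
      ((q ∈ tau2 Mstar ∧ UniqMax C(Q) Mstar) ∨ (q ∈ kap Mstar ∧ TypeP1 Mstar))
  /-- 14.12 -/
  P2type_signalizer {M Mstar U K R H : Subgroup G} {r : ℕ} (hw : r ∈ vw G) (hM : TypeP2 M) (h : KappaCompl M U K)
    (hMs : Mx Mstar) (hC : C(K) ≤ Mstar) (hR : Syl r R U) (hH : Mx H)
    (hN : N(R) ≤ H) :
    TypeF H ∧ U ≤ Ms H ∧ U ⊔ K = M ⊓ H ∧ ¬ H ⊓ N(U) ≤ M ∧ K ≤ Fit (H ⊓ Mstar) ∧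
      Hall (sigma H)ᶜ (H ⊓ Mstar) H
  /-- 14.13(a) -/
  non_disjoint_signalizer_Frobenius {M : Subgroup G} {x : G} (hx : x ≠ 1)
    (h : 1 < (sigMax x).ncard) (hM : M ∈ sigMax x) (hs : ¬ PiG (sigma (sigN x))ᶜ M) :
    TypeF M ∧ tau2 M = ∅ ∧ ∀ E, Hall (sigma M)ᶜ E M → Frob (Ms M) E M

/-- all of BG section 14 -/
class abbrev B14 (G : Type u) [Group G] [VS G] : Prop :=
  B14_1 G, B14_2 G, B14_4 G, B14_5 G, B14_7 G, B14_9 G, B14_11 G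

/-- BG 15.1 -/
class B15_1 (G : Type u) [Group G] [VS G] : Prop where
  kappa_structure {M U K : Subgroup G} (hM : Mx M) (h : KappaCompl M U K) :
    (Sdprod (Ms M) U (Ms M ⊔ U) ∧ Sdprod (Ms M ⊔ U) K M ∧ Cyc K ∧
        ⁅⁅M, M⁆, ⁅M, M⁆⁆ ≤ Ms M) ∧
      (K ≠ ⊥ → Ms M ⊔ U = ⁅M, M⁆ ∧ Ab U) ∧
      (∀ X, X ≤ U → X ≠ ⊥ → Ms M ⊓ C(X) ≠ ⊥ → UniqMax C(X) M ∧ Cyc X ∧ PiG (tau2 M) X) ∧
      (∃ A0, A0 ⊴ U ∧ Ab A0 ∧ ∀ x ∈ Ms M, x ≠ 1 → U ⊓ C[x] ≤ A0) ∧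
      ∃ U0, U0 ≤ U ∧ expo U0 = expo U ∧ Semireg (Ms M) U0

/-- BG 15.2 -/
class B15_2 (G : Type u) [Group G] [VS G] : Prop where
  Fcore_chain {M : Subgroup G} (hM : Mx M) :
    Fcore M ≠ ⊥ ∧ Fcore M ≤ Ms M ∧ Ms M ≤ ⁅M, M⁆ ∧ ⁅M, M⁆ < M ∧ (Fcore M = Ms M ↔ Nil (Ms M))
  Fcore_structure {M K D : Subgroup G} {q : ℕ} (hM : Mx M) (hK : Hall (kap M) K M)
    (hne : Fcore M ≠ Ms M) (hq : q = #(Kst M K)) (hD : Hall {q}ᶜ D (Ms M)) :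
    (TypeP1 M ∧ Sdprod (Ms M) K M ∧ Ms M = ⁅M, M⁆) ∧
      ((#K).Prime ∧ q.Prime ∧ q ∣ #(Fcore M) ∧ q ∈ beta M) ∧
      (Syl q (Oc {q} M) M ∧ Nil D ∧ M ≤ N(Oc {q} M ⊓ C(D))) ∧
      (H18.Chief M (Oc {q} M ⊓ C(D)) (Oc {q} M) ∧
        ⁅Oc {q} M, Oc {q} M⁆ ≤ Oc {q} M ⊓ C(D) ∧ (∀ x ∈ Oc {q} M, x ^ q ∈ Oc {q} M ⊓ C(D)) ∧
        (Oc {q} M ⊓ C(D)).relIndex (Oc {q} M) = q ^ #K) ∧
      (⁅⁅M, M⁆, ⁅M, M⁆⁆ ≤ Fit M ∧ Oc {q} M ⊔ (M ⊓ C(Oc {q} M)) = Fit M ∧ Fit M < Ms M)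

/-- BG 15.3 - 15.6 -/
class B15_3 (G : Type u) [Group G] [VS G] : Prop where
  /-- 15.3(a) -/
  cent_Hall_sigma_sdprod {M H : Subgroup G} {π : Set ℕ} (hM : Mx M) (hH : Hall π H (Ms M))
    (h1 : H ≠ ⊥) : ∃ X, Sdprod (Ms M ⊓ C(H)) X (M ⊓ C(H)) ∧ Cyc X ∧ PiG (tau2 M) X
  /-- 15.3(b) -/
  sigma_Hall_tame {M H : Subgroup G} {π : Set ℕ} {x a : G} (hM : Mx M)
    (hH : Hall π H (Ms M)) (hx : x ∈ H) (ha : a * x * a⁻¹ ∈ H) :
    ∃ b ∈ M ⊓ N(H), b * x * b⁻¹ = a * x * a⁻¹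
  /-- 15.4 -/
  nilpotent_Hall_sigma {H : Subgroup G} {π : Set ℕ} (hw : PiG (vw G) H) (hn : Nil H) (hH : Hall π H ⊤) :
    ∃ M, Mx M ∧ H ≤ Ms M
  /-- 15.5 -/
  Fitting_structure {M : Subgroup G} (hM : Mx M) :
    (Cyc (Oc (sigma M)ᶜ (Fit M)) ∧ PiG (tau2 M) (Oc (sigma M)ᶜ (Fit M))) ∧
      (⁅⁅M, M⁆, ⁅M, M⁆⁆ ≤ Fit M ∧ Fcore M ⊔ (M ⊓ C(Fcore M)) = Fit M ∧
        Dprod (Fit (Ms M)) (Oc (sigma M)ᶜ (Fit M)) (Fit M)) ∧
      (Fcore M ≤ ⁅M, M⁆ ∧ Nil (quo (Fcore M) ⁅M, M⁆)) ∧ (TypeP M → Fit M ≤ ⁅M, M⁆)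
  /-- 15.6 -/
  Ptype_cyclics {M K : Subgroup G} (hM : TypeP M) (hK : Hall (kap M) K M) :
    Kst M K ≠ ⊥ ∧ Cyc (Kst M K) ∧ Kst M K ≤ ⁅⁅M, M⁆, ⁅M, M⁆⁆ ∧ Kst M K ≤ Fcore M ∧
      ¬ Cyc (Fcore M)

/-- BG 15.7 (with `M' ≤ F(M)` in (c), as in the Coq development) -/
class B15_7 (G : Type u) [Group G] [VS G] : Prop where
  nonTI_Fitting_structure {M X : Subgroup G} {g : G} (hM : Mx M) (hg : g ∉ M)
    (hX : X = Fit M ⊓ cj g (Fit M)) (h1 : X ≠ ⊥) :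
    ((TypeF M ∨ TypeP1 M) ∧ Fcore M = Ms M) ∧ (X ≤ Ms M ∧ Cyc X) ∧
      (⁅M, M⁆ ≤ Fit M ∧ tau3 M = ∅) ∧
      ((TypeF M ∧ Ab (Ms M) ∧ rk (Ms M) = 2) ∨
        ((#X).Prime ∧ #X ∈ sigma M ∧ #X ∉ beta M ∧ ¬ Ab (Oc {#X} (Ms M)) ∧
          Cyc (Oc {#X}ᶜ (Ms M)) ∧
          ((∀ q : ℕ, q.Prime → q ∣ #(Ms M) → ∀ x ∈ M, x ^ (q - 1) ∈ Ms M) ∨
            (#(Oc {#X} (Ms M)) = #X ^ 3 ∧ TypeP1 M ∧ (Ms M).relIndex M ∣ #X + 1))))

/-- BG 15.8, 15.9 -/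
class B15_8 (G : Type u) [Group G] [VS G] : Prop where
  /-- 15.8 -/
  tau2_P2type_signalizer {M Mstar U K R H : Subgroup G} {r q : ℕ} (hw : r ∈ vw G) (hM : TypeP2 M)
    (h : KappaCompl M U K) (hMs : Mx Mstar) (hC : C(K) ≤ Mstar) (hR : Syl r R U)
    (hH : Mx H) (hN : N(R) ≤ H) (hq : q ∈ tau2 H) :
    q = #K ∧ tau2 H = {q} ∧ tau2 M = ∅
  /-- 15.9(a, b) -/
  nonFtype_signalizer_base {M : Subgroup G} {x : G} (hM : Mx M) (hx : x ∈ Ms M)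
    (hx1 : x ≠ 1) (hC : ¬ C[x] ≤ M) (hN : ¬ TypeF (sigN x)) :
    TypeF M ∧ TypeP2 (sigN x) ∧ ∃ E, Hall (sigma M)ᶜ E M ∧ Cyc E ∧ Frob (Ms M) E M

/-- all of BG section 15 -/
class abbrev B15 (G : Type u) [Group G] [VS G] : Prop := B15_1 G, B15_2 G, B15_3 G, B15_7 G, B15_8 G

end

section
open H17 H17.S14
open Cfsg Subgroup H18 H2.BG
open H19 hiding eq_bot_mono

attribute [-instance] H18.fintypeSubgroup
universe u
variable {G : Type u} [Group G] [Finite G] [VS G] {π : Set ℕ} {p q : ℕ}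
  {A E H K L M P Q R S U X Y Mstar : Subgroup G} {g x y : G}

theorem kap_s' (h : PiG (kap M) K) : PiG (sigma M)ᶜ K := h.mono fun _ hp => kap_sigma' hp

theorem Kst_J (g : G) (M K : Subgroup G) : Kst (cj g M) (cj g K) = cj g (Kst M K) := by
  simp only [Kst, cj_inf, Ms_cj, cj_cent]

theorem Kst_s (M K : Subgroup G) : PiG (sigma M) (Kst M K) := (Ms_pi M).infl _

theorem Kst_le (M K : Subgroup G) : Kst M K ≤ M := inf_le_left.trans (Ms_le M)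

variable [Gen.{u}] [U79 G]

/-- subgroups of order `p` are conjugate when the `p`-rank is one -/
theorem el1_conj (hM : Loc M) (hr : prk p M = 1) (hX : El p 1 X M) (hY : El p 1 Y M) :
    ∃ g ∈ M, cj g X = Y := by
  obtain ⟨S, hS, hYS⟩ := hY.pg.exists_syl hY.le
  obtain ⟨g, hg, hle⟩ := hS.scj_le hX.le hX.pg
  exact ⟨g, hg, (hX.Jle g hle).eq_of_cyc (hY.of_le hYS) (mFT_cyc_of_prk' hM hS.pi hS.le hr.le)⟩

theorem kappa_nonregular (hM : Mx M) (hp : p ∈ kap M) (hX : El p 1 X M) : Ms M ⊓ C(X) ≠ ⊥ := by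
  obtain ⟨P, hP, hc⟩ := hp.2
  obtain ⟨g, hg, rfl⟩ := el1_conj hM.1 (kap_prk hp) hP hX
  rwa [← (Ms_normal M).cj_eq hg, ← cj_cent, ← cj_inf, Ne, cj_eq_bot]

/-- 14.1 -/
theorem sigma'_kappa'_facts (hM : Mx M) (hS : Syl p S M) (h1 : S ≠ ⊥)
    (hs : p ∉ sigma M) (hk : p ∉ kap M) :
    Abelem p (Ohm1 p S) ∧ #(Ohm1 p S) ≤ p ^ 2 ∧ Ms M ⊓ C(Ohm1 p S) = ⊥ ∧ Nil (Ms M) := by
  have hp := hS.pi.prime_of_ne_bot h1
  have hd := hS.pi.dvd_of_ne_bot h1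
  by_cases h2 : p ∈ tau2 M
  · obtain ⟨A, hA⟩ := exists_el (n := 2) (H := S) hp (by rw [hS.prk_syl, tau2_prk h2])
    have hAM := hA.mono hS.le
    rw [((tau2_context hM h2 hAM).2.1 S hS hA.le).1]
    exact ⟨hA.ab, hA.card.le, tau2_cent_eq_bot hM h2 hAM, tau2_Msigma_nil hM h2⟩
  have h13 : p ∈ tau1 M ∪ tau3 M := by
    rcases partition_pi_mmax hM hp (hd.trans (card_dvd hS.le)) with h | h | h | h
    exacts [Or.inl h, absurd h h2, Or.inr h, absurd h hs]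
  have hX := cyc_el1_Ohm1 (tau13_cyclic hM h13 hS.pi hS.le) hp hd
  have hXM := hX.mono hS.le
  have hc : Ms M ⊓ C(Ohm1 p S) = ⊥ := by
    by_contra hc
    exact hk ⟨h13, _, hXM, hc⟩
  refine ⟨hX.ab, ?_, hc, G3a.prime_Frobenius_sol_kernel_nil ((Ms_normal M).norms hXM.le)
    (mmax_sub_sol hM (Ms_le M)) hX.prime_card hc⟩
  rw [hX.card1]
  exact Nat.le_self_pow (by norm_num) p

theorem nil_of_not_pi (hM : Mx M) (h : ¬ PiG (sigma M ∪ kap M) M) : Nil (Ms M) := by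
  simp only [PiN, not_forall] at h
  obtain ⟨p, hp, hd, hn⟩ := h
  obtain ⟨S, hS⟩ := exists_syl p M
  exact (sigma'_kappa'_facts hM hS (hS.sne_bot hp hd) (fun h => hn (Or.inl h))
    (fun h => hn (Or.inr h))).2.2.2

theorem notP1type_Msigma_nil (h : TypeF M ∨ TypeP2 M) : Nil (Ms M) := by
  rcases h with h | h
  · refine nil_of_not_pi h.1 fun hp => (Msigma_lt h.1).ne (Oc_eq_self ?_)
    simpa [h.2] using hp
  · exact nil_of_not_pi h.1.1 h.2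

variable [B12_12 G] [B12_13 G] [B12_15 G] [B12_18 G] [B13 G]

theorem exists_sigMax (hM : Mx M) (hx : PiE (sigma M) x) :
    ∃ g, cj g M ∈ sigMax x := by
  obtain ⟨g, hg⟩ := B12_15.sigma_Jsub hM (piG_zpowers.2 hx)
  refine ⟨g⁻¹, coatom_J hM _, ?_⟩
  rw [Ms_cj]
  exact (cj_le_iff.1 hg) (Subgroup.mem_zpowers x)

theorem ell1_of_mem (hM : M ∈ sigMax x) (h1 : x ≠ 1) : Ell1 x := ⟨h1, M, hM.1, (Ms_pi M).elt hM.2⟩

theorem Ell1.exists_mem (h : Ell1 x) : ∃ M, M ∈ sigMax x := by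
  obtain ⟨-, M, hM, hx⟩ := h
  obtain ⟨g, hg⟩ := exists_sigMax hM hx
  exact ⟨_, hg⟩

instance inst_B14_1 : B14_1 G where

  sigma_mmax_exists := exists_sigma
  ell1_iff := ⟨fun h => ⟨h.1, Ell1.exists_mem h⟩, fun ⟨h1, _, hM⟩ => ell1_of_mem hM h1⟩
  sigma'_kappa'_facts := sigma'_kappa'_facts
  notP1type_Msigma_nil := notP1type_Msigma_nil

/-- the heart of 14.2(a) -/
theorem kappa_struct (hM : Mx M) (hK : Hall (kap M) K M) (hE : Hall (sigma M)ᶜ E M)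
    (hKE : K ≤ E) (h1 : K ≠ ⊥) :
    ∃ U, Sdprod U K E ∧ Semiprime (Ms M) K ∧ Semireg U K ∧ Ab U ∧
      (∀ X, X ≤ K → (#X).Prime → K ≤ N(X)) ∧ ∃ P, P ≤ K ∧ P ≠ ⊥ ∧ PiG (tau1 M) P := by
  by_cases h3 : ∃ p ∈ kap M, p ∈ tau3 M
  · obtain ⟨p, hp, hp3⟩ := h3
    obtain ⟨E1, E2, E3, hc⟩ := ex_sigmaCompl hM hE
    obtain ⟨P, hP⟩ := exists_el1 (tau3_prime hp3) (hc.hall3.prime_dvd (tau3_prime hp3) hp3
      (hE.prime_dvd (tau3_prime hp3) (tau3_sigma' hp3) (tau3_dvd hp3)))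
    have hPE := hP.mono hc.hall3.le
    have hcP := kappa_nonregular hM hp (hPE.mono hE.le)
    obtain ⟨n1, sd, pr, nX⟩ := B13_10.tau13_nonregular hM hc fun h => hcP (h.cent hP.le hP.ne_bot)
    have hEk : PiG (kap M) E := fun q hq hd => by
      obtain ⟨X, hX⟩ := exists_el1 hq hd
      refine ⟨?_, X, hX.mono hE.le, by rwa [pr.cent hX.le hX.ne_bot, ← pr.cent hPE.le hP.ne_bot]⟩
      rw [← sd.card] at hd
      rcases (Nat.Prime.dvd_mul hq).1 hd with h | h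
      exacts [Or.inr (hc.hall3.pi q hq h), Or.inl (hc.hall1.pi q hq h)]
    obtain rfl : E = K := hK.max hKE hE.le hEk
    exact ⟨⊥, ⟨by rw [norm_bot]; exact le_top, bot_sup_eq _, bot_inf_eq _⟩, pr, semireg_bot_left,
      comm_bot, nX, E1, hc.hall1.le, n1, hc.hall1.pi⟩
  have k1 : kap M ⊆ tau1 M := fun p hp => (kap_tau13 hp).resolve_right fun h => h3 ⟨p, hp, h⟩
  obtain ⟨E1, E2, E3, hc, hK1⟩ := ex_tau1_compl hM hE hKE (hK.pi.mono k1)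
  obtain ⟨⟨-, n3⟩, -, ⟨c1, -⟩, ⟨sd21, -, sd32, sd⟩, -⟩ := sigma_compl_context hM hc
  have pr := B13_4.tau1_primact_Msigma hM hE hc.hall1
  obtain ⟨p, P, hP⟩ := exists_el1' h1
  have hcP := kappa_nonregular hM (hP.mem_pi hK.pi) (hP.mono hK.le)
  have hc1 : Ms M ⊓ C(E1) ≠ ⊥ := by rwa [← pr.cent (hP.le.trans hK1) hP.ne_bot]
  have hEk : PiG (kap M) E1 := fun q hq hd => by
    obtain ⟨X, hX⟩ := exists_el1 hq hd
    exact ⟨Or.inl (hc.hall1.pi q hq hd), X, hX.mono (hc.hall1.le.trans hE.le),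
      by rwa [pr.cent hX.le hX.ne_bot]⟩
  obtain rfl : E1 = K := hK.max hK1 (hc.hall1.le.trans hE.le) hEk
  have reg : Semireg (E3 ⊔ E2) E1 := semireg_of_el1 fun r X hX => by
    have hXE := hX.mono hc.hall1.le
    rw [sup_inf_cent_of_disjoint (n3.norms hXE.le) (hX.le.trans sd21.norm) sd32.norm sd32.inf]
    have r3 : Semireg E3 E1 := by
      by_contra hn
      have pr3 := B13_4.tau13_primact_Msigma hM hc hn
      have : E3 ≠ ⊥ := by rintro rfl; exact hn semireg_bot_left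
      obtain ⟨s, Y, hY⟩ := exists_el1' this
      refine h3 ⟨s, ⟨Or.inr (hY.mem_pi hc.hall3.pi), Y, hY.mono (hc.hall3.le.trans hE.le), ?_⟩,
        hY.mem_pi hc.hall3.pi⟩
      rwa [pr3.cent (hY.le.trans le_sup_left) hY.ne_bot, ← pr3.cent le_sup_right h1]
    rw [r3.cent hX.le hX.ne_bot, bot_sup_eq]
    by_contra hn
    obtain ⟨s, Y, hY⟩ := exists_el1' hn
    have hs : s ∈ tau2 M := hY.mem_pi (hc.hall2.pi.infl _)
    obtain ⟨A, hA⟩ := ex_tau2Elem hE hs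
    have hYA := tau2_el1_le hM hE hA (hY.mono (inf_le_left.trans hc.hall2.le))
    refine hc1 ?_
    rw [← pr.cent hX.le hX.ne_bot]
    exact B13_10.tau12_regular hM hE (hX.mem_pi hc.hall1.pi) hs hXE hA
      (ne_bot_mono (le_inf hYA (hY.le.trans inf_le_right)) hY.ne_bot)
  refine ⟨_, sd, pr, reg, ?_, fun X hX _ => norms_of_comm (comm_of_cyclic c1) le_rfl hX,
    E1, le_rfl, h1, hc.hall1.pi⟩
  refine comm_mono (der_mmax_compl_abelian hM hE) ?_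
  rw [← commg_eq_of_cent_eq_bot sd.norm (reg.coprime sd.norm) (Or.inl (sol_of_cyc c1))
    (reg.cent le_rfl h1)]
  exact commutator_mono sd.left_le sd.right_le

theorem ex_kappa_compl (hM : Mx M) (hK : Hall (kap M) K M) : ∃ U, KappaCompl M U K := by
  by_cases h1 : K = ⊥
  · obtain ⟨U, hU⟩ := exists_hall (sigma M ∪ kap M)ᶜ (mmax_sol hM)
    exact ⟨U, hU, hK, h1 ▸ bot_le⟩
  obtain ⟨E, hE, hKE⟩ := ex_sigma_compl hM hK.le (kap_s' hK.pi)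
  obtain ⟨U, sd, -⟩ := kappa_struct hM hK hE hKE h1
  refine ⟨U, ?_, hK, sd.norm⟩
  rw [Set.compl_union]
  exact hE.inter (sd.hall_left (by rw [compl_compl]; exact hK.of_le hKE hE.le))

theorem KC.s' (h : KappaCompl M U K) : PiG (sigma M)ᶜ U :=
  h.hallU.pi.mono (Set.compl_subset_compl.2 Set.subset_union_left)

theorem KC.k' (h : KappaCompl M U K) : PiG (kap M)ᶜ U :=
  h.hallU.pi.mono (Set.compl_subset_compl.2 Set.subset_union_right)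

theorem KC.hall (h : KappaCompl M U K) : Hall (sigma M)ᶜ (U ⊔ K) M := by
  refine (h.hallU.union h.hallK h.norm).congr fun p _ _ => ?_
  have := @kap_sigma' G _ _ _ p M
  simp only [Set.mem_union, Set.mem_compl_iff]; tauto

theorem KC.sd (h : KappaCompl M U K) : Sdprod U K (U ⊔ K) :=
  sdprod_sup h.norm (PiN.inf_eq_bot' (KC.k' h) h.hallK.pi)

/-- 14.2(a) -/
theorem kappa_compl_context (hM : Mx M) (h : KappaCompl M U K) :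
    Hall (sigma M)ᶜ (U ⊔ K) M ∧ Sdprod U K (U ⊔ K) ∧ Semiprime (Ms M) K ∧ Semireg U K ∧
      (K ≠ ⊥ → Ab U) := by
  refine ⟨KC.hall h, KC.sd h, ?_⟩
  by_cases h1 : K = ⊥
  · subst h1
    exact ⟨semireg_bot_right.semiprime, semireg_bot_right, fun h => absurd rfl h⟩
  obtain ⟨V, sd, pr, reg, ab, -⟩ := kappa_struct hM h.hallK (KC.hall h) le_sup_right h1
  have hK := h.hallK.of_le le_sup_right (KC.hall h).le
  obtain rfl : U = V := (sd.hall_left (π := (kap M)ᶜ) (by rwa [compl_compl])).eq_of_normal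
    sd.normal.norm ((KC.sd h).hall_left (by rwa [compl_compl]))
  exact ⟨pr, reg, fun _ => ab⟩

theorem kappa_semiprime (hM : Mx M) (hK : Hall (kap M) K M) : Semiprime (Ms M) K := by
  obtain ⟨U, h⟩ := ex_kappa_compl hM hK
  exact (kappa_compl_context hM h).2.2.1

theorem kappa_norm_prime (hM : Mx M) (hK : Hall (kap M) K M) (hX : X ≤ K)
    (hp : (#X).Prime) : K ≤ N(X) := by
  obtain ⟨E, hE, hKE⟩ := ex_sigma_compl hM hK.le (kap_s' hK.pi)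
  obtain ⟨U, -, -, -, -, h, -⟩ := kappa_struct hM hK hE hKE (ne_bot_mono hX (ne_bot_of_prime hp))
  exact h X hX hp

theorem kappa_norm_eq (hM : Mx M) (hK : Hall (kap M) K M) (hX : X ≤ K) (h1 : X ≠ ⊥)
    (hn : K ≤ N(X)) : M ⊓ N(X) = K ⊔ Kst M K := by
  obtain ⟨U, h⟩ := ex_kappa_compl hM hK
  obtain ⟨hE, sd, pr, reg, -⟩ := kappa_compl_context hM h
  have sdM := sdprod_sigma hM hE
  rw [← G6.pprod_norm_coprime_prod sdM.sup (Ms_norm M) (hX.trans le_sup_right)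
    (cop_Ms (kap_s' (hK.pi.of_le hX))) (mmax_sol hM),
    ← G6.pprod_norm_coprime_prod sd.sup sd.normal.norm hX
    ((KC.k' h).coprime' (hK.pi.of_le hX)) (mmax_sub_sol hM hE.le), pr.cent hX h1, reg.cent hX h1,
    bot_sup_eq, inf_eq_left.2 hn, sup_comm]

theorem Kst_dprod' (hK : Hall (kap M) K M) : Dprod K (Kst M K) (K ⊔ Kst M K) :=
  ⟨cents_symm inf_le_right, rfl, PiN.inf_eq_bot' (kap_s' hK.pi) (Kst_s M K)⟩

/-- 14.2(b1) -/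
theorem kappa_norm (hM : TypeP M) (hK : Hall (kap M) K M) : M ⊓ N(K) = K ⊔ Kst M K :=
  kappa_norm_eq hM.1 hK le_rfl ((typeP_iff hM.1 hK).1 hM) (norms_of_le le_rfl)

theorem kappa_norm1 (hM : Mx M) (hK : Hall (kap M) K M) (hX : X ≤ K) (hp : (#X).Prime) :
    M ⊓ N(X) = K ⊔ Kst M K :=
  kappa_norm_eq hM hK hX (ne_bot_of_prime hp) (kappa_norm_prime hM hK hX hp)

/-- 14.2(b2) -/
theorem kappa_sigma_norm (hM : Mx M) (hp : p ∈ kap M) (hX : El p 1 X M)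
    (hL : Mx L) (hN : N(X) ≤ L) : p ∈ sigma L ∧ X ≤ Ms L := by
  have := B13_10.tau13_nonregular_sigma hM hX (kap_tau13 hp) (kappa_nonregular hM hp hX) hL hN
  exact ⟨this, le_Msigma hL ((norms_of_le le_rfl).trans hN) (hX.pi this)⟩

theorem Kst_ne_bot (hM : TypeP M) (hK : Hall (kap M) K M) : Kst M K ≠ ⊥ := by
  obtain ⟨p, P, hP⟩ := exists_el1' ((typeP_iff hM.1 hK).1 hM)
  have := kappa_nonregular hM.1 (hP.mem_pi hK.pi) (hP.mono hK.le)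
  rwa [(kappa_semiprime hM.1 hK).cent hP.le hP.ne_bot] at this

/-- 14.2(c), (e) -/
theorem Kst_uniq (hM : TypeP M) (hK : Hall (kap M) K M) (hX : El p 1 X (Kst M K)) :
    UniqMax C(X) M ∧ ∀ S, Syl p S (Ms M) → UniqMax S M := by
  obtain ⟨E, hE, hKE⟩ := ex_sigma_compl hM.1 hK.le (kap_s' hK.pi)
  obtain ⟨U, -, -, -, -, -, P, hP, h1, ht⟩ :=
    kappa_struct hM.1 hK hE hKE ((typeP_iff hM.1 hK).1 hM)
  exact B13_4.cent_cent_Msigma_tau1_uniq hM.1 (hP.trans hK.le) ht h1 (hX.mono inf_le_left)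
    (hX.le.trans (inf_le_right.trans (cent_mono hP)))

theorem Kst_uniq1 (hM : TypeP M) (hK : Hall (kap M) K M) (hx : x ∈ Kst M K) (h1 : x ≠ 1) :
    C[x] ≤ M := by
  obtain ⟨r, X, hX⟩ := exists_el1_zpowers h1
  refine le_trans ?_ (Kst_uniq hM hK (hX.mono (zpowers_le.2 hx))).1.le
  rw [← cent_zpowers]
  exact cent_mono hX.le

/-- 14.2(d) -/
theorem Kst_TI (hM : TypeP M) (hK : Hall (kap M) K M) (hg : g ∉ M) : Kst M K ⊓ cj g M = ⊥ := by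
  by_contra hn
  obtain ⟨q, X, hX⟩ := exists_el1' hn
  have hX1 := hX.mono inf_le_left
  obtain ⟨m, hm, c, hc, e⟩ := sigma_trans_mul hM.1 (hX1.mem_pi (Kst_s M K)) hX.pg
    (hX1.le.trans (Kst_le M K)) (le_cj_iff.1 (hX.le.trans inf_le_right))
  exact hg (inv_mem_iff.1 (e ▸ mul_mem hm ((Kst_uniq hM hK hX1).1.le hc)))

theorem kappa_TI (hM : Mx M) (hK : Hall (kap M) K M) (hg : g ∈ M) (hn : g ∉ N(K)) :
    K ⊓ cj g K = ⊥ := by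
  by_contra h
  obtain ⟨q, X, hX⟩ := exists_el1' h
  have hP : TypeP M := (typeP_iff hM hK).2 (ne_bot_mono inf_le_left h)
  refine hn (mem_norm_of_cj_le (hK.le_of_norm (cj_le_of_mem hg hK.le) (hK.pi.J g) ?_))
  have h1 := kappa_norm_prime hM (hK.Jmem hg) (hX.le.trans inf_le_right) hX.prime_card
  have h2 := kappa_norm1 hM hK (hX.le.trans inf_le_left) hX.prime_card
  rw [← kappa_norm hP hK] at h2
  exact (le_inf (cj_le_of_mem hg hK.le) h1).trans (h2.le.trans inf_le_right)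

theorem not_syl_le_Kst (hM : TypeP M) (hK : Hall (kap M) K M) (hS : UniqMax S M) :
    ¬ S ≤ Kst M K := fun h => by
  obtain ⟨r, X, hX⟩ := exists_el1' ((typeP_iff hM.1 hK).1 hM)
  obtain ⟨L, hL, hN⟩ := mmax_exists (hX.vnorm (kap_w (hX.mem_pi hK.pi)))
  have hr := hX.mem_pi hK.pi
  have := (kappa_sigma_norm hM.1 hr (hX.mono hK.le) hL hN).1
  rw [hS.uniq L hL (h.trans (inf_le_right.trans ((cent_mono hX.le).trans
    ((cent_le_norm X).trans hN))))] at this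
  exact kap_sigma' hr this

/-- 14.2(f) -/
theorem le_Ms_of_meet_Kst (hM : TypeP M) (hK : Hall (kap M) K M) (hY : PiG (sigma M) Y)
    (h : Y ⊓ Kst M K ≠ ⊥) : Y ≤ Ms M := by
  obtain ⟨g, hg⟩ := B12_15.sigma_Jsub hM.1 hY
  have hle := cj_le_iff.1 hg
  have : g⁻¹ ∈ M := by
    by_contra hn
    exact h (H19.eq_bot_mono (le_inf inf_le_right (inf_le_left.trans (hle.trans
      (cj_mono _ (Ms_le M))))) (Kst_TI hM hK hn))
  rwa [(Ms_normal M).cj_eq this] at hle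

theorem KC.cent_eq_bot (hM : Mx M) (h : KappaCompl M U K) (h1 : U ≠ ⊥) :
    Ms M ⊓ C(U) = ⊥ := by
  obtain ⟨p, hp, hd⟩ := exists_prime_dvd_card h1
  obtain ⟨S, hS⟩ := exists_syl p U
  have hm := h.hallU.pi p hp hd
  exact H19.eq_bot_mono (inf_le_inf_left _ (cent_mono ((Ohm1_le p S).trans hS.le)))
    (sigma'_kappa'_facts hM (h.hallU.sub_syl hm hS) (hS.sne_bot hp hd) (fun h => hm (Or.inl h))
      (fun h => hm (Or.inr h))).2.2.1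

theorem KC.commg_eq (hM : TypeP M) (h : KappaCompl M U K) : ⁅U, K⁆ = U := by
  have reg := (kappa_compl_context hM.1 h).2.2.2.1
  exact commg_eq_of_cent_eq_bot h.norm (reg.coprime h.norm) (Or.inl (mmax_sub_sol hM.1 h.hallK.le))
    (reg.cent le_rfl ((typeP_iff hM.1 h.hallK).1 hM))

/-- 14.2(g) -/
theorem P2type_facts (hM : TypeP2 M) (hK : Hall (kap M) K M) :
    sigma M = beta M ∧ (#K).Prime ∧ Nil (Ms M) ∧ NormedTI (nt (Ms M)) M := by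
  have hc := hM.1.1
  obtain ⟨U, h⟩ := ex_kappa_compl hc hK
  obtain ⟨hE, sd, pr, reg, -⟩ := kappa_compl_context hc h
  have hU : U ≠ ⊥ := fun e => hM.2 (h.eq_bot_iff.1 e)
  have hnil := notP1type_Msigma_nil (Or.inr hM)
  have hcU := KC.cent_eq_bot hc h hU
  have hb : PiG (beta M) (Ms M) := by
    obtain ⟨H, hH, hHc⟩ := B12_18.der_compl_cent_beta' hc hE
    have : H = ⊥ := H19.eq_bot_mono (le_inf hH.le (cents_symm (le_trans (by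
      rw [← KC.commg_eq hM.1 h]
      nth_rewrite 2 [KC.commg_eq hM.1 h]
      nth_rewrite 2 [KC.commg_eq hM.1 h]
      exact commutator_mono le_sup_left le_sup_right) hHc))) hcU
    subst this
    simpa using hH.pi'_of_eq_bot
  refine ⟨Set.Subset.antisymm (fun p hp => hb p (sigma_prime hp) (sigma_dvd_Ms hc hp))
    (beta_sub_sigma hc), (G3_10.Frobenius_primact ⟨sd, hU, (typeP_iff hc hK).1 hM.1, reg⟩
      (mmax_sub_sol hc hE.le) (hc.odd hE.le) ((Ms_normal M).norms hE.le) hnil (Msigma_neq1 hc)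
      (cop_Ms hE.pi).symm pr hcU).1, hnil, normedTI_nt (Msigma_neq1 hc) (Ms_norm M) fun g hg => ?_⟩
  exact H19.eq_bot_mono (inf_le_inf_left _ (cj_mono g (Ms_le M)))
    (PiN.eq_bot (hb.infl _) ((B12_15.sigma_compl_embedding hc hE).2.2 g hg).2.1)

/-- a `σ(M)'`-element of `K × K*` lies in `K` -/
theorem mem_kappa_of_s' (hK : Hall (kap M) K M) (hx : x ∈ K ⊔ Kst M K) (hs : PiE (sigma M)ᶜ x) :
    x ∈ K := by
  have d := Kst_dprod' hK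
  exact (d.sd.hall_of_pi (kap_s' hK.pi) (Kst_s M K).compl_compl).mem_of_normal d.sd.normal.norm hx hs

/-- 14.3 -/
theorem pi_of_cent_sigma {x' : G} (hM : Mx M) (hx : x ∈ Ms M) (hx1 : x ≠ 1)
    (hx' : x' ∈ M ⊓ C[x]) (hx'1 : x' ≠ 1) (hs : PiE (sigma M)ᶜ x') :
    (PiE (kap M) x' ∧ C[x] ≤ M) ∨ (PiE (tau2 M) x' ∧ Ell1 x' ∧ UniqMax C[x'] M) := by
  have hcx : x ∈ Ms M ⊓ C[x'] := ⟨hx, mem_cent1_symm.1 hx'.2⟩
  by_cases h2 : PiE (tau2 M) x'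
  · refine Or.inr ⟨h2, ⟨hx'1, ?_⟩, cent1_nreg_sigma_uniq hM hx'.1 hx'1 h2 (ne_bot_of_mem hcx hx1)⟩
    obtain ⟨p, hp, hd⟩ := exists_prime_dvd_orderOf hx'1
    obtain ⟨E, hE, -⟩ := ex_sigma_compl hM bot_le PiN.bot
    obtain ⟨A, hA⟩ := ex_tau2Elem hE (h2 p hp hd)
    obtain ⟨L, hL, hN⟩ := mmax_exists (hA.vnorm (tau2_w hM.1 (h2 p hp hd)))
    exact ⟨L, hL, h2.mono fun q hq => (tau2_sigma_of_norm hM hE hA hL hN hq).1⟩
  left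
  simp only [PiN, not_forall] at h2
  obtain ⟨p, hp, hd, hn⟩ := h2
  obtain ⟨X, hX⟩ := exists_el1 (H := zpowers x') hp (by rwa [Nat.card_zpowers])
  have hXM := hX.mono (zpowers_le.2 hx'.1)
  have hxX : x ∈ C(X) := cent_mono hX.le (by rw [cent_zpowers]; exact hcx.2)
  have hk : p ∈ kap M := by
    refine ⟨?_, X, hXM, ne_bot_of_mem (x := x) ⟨hx, hxX⟩ hx1⟩
    rcases partition_pi_mmax hM hp hXM.dvd with h | h | h | h
    exacts [Or.inl h, absurd h hn, Or.inr h, absurd h (hs p hp hd)]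
  obtain ⟨K, hK, hXK⟩ := (hX.pi hk).exists_hall (mmax_sol hM) hXM.le
  have hP : TypeP M := ⟨hM, p, hk⟩
  refine ⟨hK.pi.elt (mem_kappa_of_s' hK ?_ hs), Kst_uniq1 hP hK ?_ hx1⟩
  · rw [← kappa_norm1 hM hK hXK hX.prime_card]
    exact ⟨hx'.1, norms_of_comm (comm_zpowers x') le_rfl hX.le (Subgroup.mem_zpowers x')⟩
  · rw [Kst, ← (kappa_semiprime hM hK).cent hXK hX.ne_bot]
    exact ⟨hx, hxX⟩

instance inst_B14_2 : B14_2 G where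
  ex_kappa_compl := ex_kappa_compl
  kappa_compl_context := kappa_compl_context
  Ptype_structure {M K} hM hK :=
    ⟨⟨by rw [kappa_norm hM hK]; exact Kst_dprod' hK, fun X hX hp =>
        ⟨by rw [kappa_norm hM hK, kappa_norm1 hM.1 hK hX hp], fun L hL hN =>
          (kappa_sigma_norm hM.1 (hK.pi _ hp (card_dvd hX)) (el1_of_prime (hX.trans hK.le) hp)
            hL hN).2⟩⟩,
      ⟨Kst_ne_bot hM hK, fun X hX hp => (Kst_uniq hM hK (el1_of_prime hX hp)).1⟩,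
      ⟨fun g hg => Kst_TI hM hK hg, fun g hg hn => kappa_TI hM.1 hK hg hn⟩,
      fun p S hd hp hS => by
        obtain ⟨X, hX⟩ := exists_el1 hp hd
        have := (Kst_uniq hM hK hX).2 S hS
        exact ⟨this, not_syl_le_Kst hM hK this⟩,
      fun Y hY h => le_Ms_of_meet_Kst hM hK hY h, fun h => P2type_facts h hK⟩
  pi_of_cent_sigma := pi_of_cent_sigma

end

end H13.V
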