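/-
Port of `H17/B14c` to the `ϖ`-local setting.
-/
import Cfsg.Agent.H13.V14b

set_option autoImplicit false
set_option linter.unusedSectionVars false

namespace H13.V
section
open H17 H17.S14
open Cfsg Subgroup H18 H2.BG
open H19 hiding eq_bot_mono

attribute [-instance] H18.fintypeSubgroup
universe u
variable {G : Type u} [Group G] [Finite G] [VS G] {π : Set ℕ} {p q : ℕ}
  {A E H J J' K L L' M P Q R S U X Y W Mstar : Subgroup G} {g x y r s t : G}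

/-- `L` is of type P, `J` is a Hall `κ(L)`-subgroup and `J × J* = W` -/
structure Fam (W L J : Subgroup G) : Prop where
  P : TypeP L
  hall : Hall (kap L) J L
  sup : J ⊔ Kst L J = W

theorem Fam.dp (h : Fam W L J) : Dprod J (Kst L J) W :=
  ⟨cents_symm inf_le_right, h.sup, PiN.inf_eq_bot' (kap_s' h.hall.pi) (Kst_s L J)⟩

theorem Fam.le (h : Fam W L J) : W ≤ L := h.sup ▸ sup_le h.hall.le (Kst_le L J)

theorem Fam.le_K (h : Fam W L J) (hX : X ≤ W) (hs : PiG (sigma L)ᶜ X) : X ≤ J :=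
  (h.dp.sd.hall_of_pi (kap_s' h.hall.pi) (Kst_s L J).compl_compl).le_of_normal h.dp.sd.normal.norm
    hX hs

theorem Fam.le_Kst (h : Fam W L J) (hX : X ≤ W) (hs : PiG (sigma L) X) : X ≤ Kst L J :=
  (h.dp.symm.sd.hall_of_pi (Kst_s L J) (kap_s' h.hall.pi)).le_of_normal h.dp.symm.sd.normal.norm
    hX hs

theorem Fam.mem_K (h : Fam W L J) (hx : x ∈ W) (hs : PiE (sigma L)ᶜ x) : x ∈ J :=
  zpowers_le.1 (h.le_K (zpowers_le.2 hx) (piG_zpowers.2 hs))

theorem Fam.mem_Kst (h : Fam W L J) (hx : x ∈ W) (hs : PiE (sigma L) x) : x ∈ Kst L J :=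
  zpowers_le.1 (h.le_Kst (zpowers_le.2 hx) (piG_zpowers.2 hs))

theorem Fam.Kst_eq (h : Fam W L J) : Kst L J = Ms L ⊓ W :=
  le_antisymm (le_inf inf_le_left h.dp.right_le) (h.le_Kst inf_le_right ((Ms_pi L).infl W))

theorem constt_ne_one (hL : Fam W L J) (ht : t ∈ W) (h : t ∉ J) : constt (sigma L) t ≠ 1 :=
  fun e => h (hL.mem_K ht (constt_eq_one_iff.1 e))

theorem constt_ne_one' (hL : Fam W L J) (ht : t ∈ W) (h : t ∉ Kst L J) :
    constt (sigma L)ᶜ t ≠ 1 :=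
  fun e => h (hL.mem_Kst ht (by simpa using constt_eq_one_iff.1 e))

variable [Gen.{u}] [U79 G] [B12_12 G] [B12_13 G] [B12_15 G] [B12_18 G] [B13 G]

theorem Fam.Kst_ne (h : Fam W L J) : Kst L J ≠ ⊥ := Kst_ne_bot h.P h.hall

theorem Fam.K_ne (h : Fam W L J) : J ≠ ⊥ := (typeP_iff h.P.1 h.hall).1 h.P

theorem Fam.eq_of_meet (h : Fam W L J) (h' : Fam W L' J') (hm : Kst L J ⊓ Kst L' J' ≠ ⊥) :
    L = L' := by
  obtain ⟨p, X, hX⟩ := exists_el1' hm
  exact (Kst_uniq h.P h.hall (hX.mono inf_le_left)).1.eq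
    (Kst_uniq h'.P h'.hall (hX.mono inf_le_right)).1

theorem Fam.eq_of_cjg (h : Fam W L J) (h' : Fam W L' J') (hc : Cjg L L') : L = L' := by
  refine h.eq_of_meet h' ?_
  rw [inf_eq_left.2 (h'.le_Kst h.dp.right_le (by rw [hc.vsigma_eq]; exact Kst_s L J))]
  exact h.Kst_ne

theorem Fam.Kst_le_K (h : Fam W L J) (h' : Fam W L' J') (hne : L ≠ L') : Kst L' J' ≤ J :=
  h.le_K h'.dp.right_le (pi_s'_of_not_cjg h'.P.1 h.P.1 (fun hc => hne (h'.eq_of_cjg h hc).symm)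
    (Kst_s L' J'))

/-- `K*` is a `κ(L)`-group as soon as it centralizes a nontrivial subgroup of `L_σ` -/
theorem Kst_kap (hM : TypeP M) (hK : Hall (kap M) K M) (hL : Mx L) (hnc : ¬ Cjg M L)
    (hle : Kst M K ≤ L) (hX : X ≤ Ms L) (h1 : X ≠ ⊥) (hc : Kst M K ≤ C(X)) :
    PiG (kap L) (Kst M K) := by
  obtain ⟨x, hx, hx1⟩ := exists_ne_one h1
  refine PiN.of_elt fun y hy => ?_
  by_cases hy1 : y = 1
  · exact hy1 ▸ PiN.e_one
  rcases pi_of_cent_sigma hL (hX hx) hx1 ⟨hle hy, cent_le_cent1 hx (hc hy)⟩ hy1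
    (pi_s'_of_not_cjg hM.1 hL hnc ((Kst_s M K).elt hy)) with h | h
  · exact h.1
  · exact absurd (h.2.2.uniq M hM.1 (Kst_uniq1 hM hK hy hy1) ▸ Cjg.refl M) hnc

theorem Fam.exists_K (h : Fam W M K) (hX : El p 1 X K) : ∃ L J, Fam W L J ∧ p ∈ sigma L := by
  have hM := h.P.1
  obtain ⟨L, hL, hN⟩ := mmax_exists (hX.vnorm (kap_w (hX.mem_pi h.hall.pi)))
  have hp := hX.mem_pi h.hall.pi
  obtain ⟨hs, hXL⟩ := kappa_sigma_norm hM hp (hX.mono h.hall.le) hL hN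
  have nc : ¬ Cjg M L := not_cjg_symm (not_cjg_of_sigma hs (kap_sigma' hp))
  have eW : M ⊓ N(X) = W := by rw [kappa_norm1 hM h.hall hX.le hX.prime_card, h.sup]
  have hWL : W ≤ L := eW ▸ inf_le_right.trans hN
  have hk := Kst_kap h.P h.hall hL nc (h.dp.right_le.trans hWL) hXL hX.ne_bot
    (inf_le_right.trans (cent_mono hX.le))
  obtain ⟨J, hJ, hKJ⟩ := hk.exists_hall (mmax_sol hL) (h.dp.right_le.trans hWL)
  have hP : TypeP L := (typeP_iff hL hJ).2 (ne_bot_mono hKJ h.Kst_ne)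
  obtain ⟨q, Y, hY⟩ := exists_el1' h.Kst_ne
  have hYJ := hY.le.trans hKJ
  have eY := kappa_norm1 hL hJ hYJ hY.prime_card
  have hZM : J ⊔ Kst L J ≤ M :=
    eY ▸ inf_le_right.trans (Kst_uniq h.P h.hall hY).1.norm_le_of_cent
  have hXJ : X ≤ Kst L J := by
    rw [Kst, ← (kappa_semiprime hL hJ).cent hYJ hY.ne_bot]
    exact le_inf hXL (cents_mono h.dp.cent hX.le hY.le)
  refine ⟨L, J, ⟨hP, hJ, le_antisymm ?_ ?_⟩, hs⟩
  · rw [← eW]
    refine le_inf hZM (sup_le (norms_of_cents (cents_symm (hXJ.trans inf_le_right))) ?_)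
    have hk' := Kst_kap hP hJ hM (not_cjg_symm nc) (le_sup_right.trans hZM)
      (hY.le.trans inf_le_left) hY.ne_bot (inf_le_right.trans (cent_mono hYJ))
    obtain ⟨K', hK', hle⟩ := hk'.exists_hall (mmax_sol hM) (le_sup_right.trans hZM)
    exact hle.trans (kappa_norm_prime hM hK' (hXJ.trans hle) hX.prime_card)
  · rw [← eY]
    refine le_inf hWL ?_
    rw [← h.sup]
    exact sup_le (norms_of_cents (cents_mono h.dp.cent le_rfl hY.le))
      (hKJ.trans (kappa_norm_prime hL hJ hYJ hY.prime_card))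

theorem Fam.exists_sigma (h : Fam W M K) (hp : p.Prime) (hd : p ∣ #W) :
    ∃ L J, Fam W L J ∧ p ∈ sigma L := by
  rw [← h.dp.card] at hd
  rcases (Nat.Prime.dvd_mul hp).1 hd with hd | hd
  · obtain ⟨X, hX⟩ := exists_el1 hp hd
    exact h.exists_K hX
  · exact ⟨M, K, h, Kst_s M K p hp hd⟩

theorem Fam.exists_ne (h : Fam W M K) : ∃ L J, Fam W L J ∧ L ≠ M := by
  obtain ⟨p, X, hX⟩ := exists_el1' h.K_ne
  obtain ⟨L, J, hL, hs⟩ := h.exists_K hX
  exact ⟨L, J, hL, by rintro rfl; exact kap_sigma' (hX.mem_pi h.hall.pi) hs⟩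

theorem Fam.mem_of_mem_cj (h : Fam W L J) (ht : t ∈ W) (h1 : t ∉ J) (hg : t ∈ cj g L) : g ∈ L := by
  by_contra hn
  have : constt (sigma L) t ∈ Kst L J ⊓ cj g L :=
    ⟨h.mem_Kst (constt_mem _ ht) (constt_pi _ t), constt_mem _ hg⟩
  rw [Kst_TI h.P h.hall hn] at this
  exact constt_ne_one h ht h1 this

theorem Fam.ti (h : Fam W L J) (ht : t ∈ W) (h1 : t ∉ J) (h2 : t ∉ Kst L J)
    (hg : g * t * g⁻¹ ∈ W) : g ∈ W := by
  have hgL : g⁻¹ ∈ L := h.mem_of_mem_cj ht h1 (mem_cj_inv.2 (h.le hg))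
  rw [← inv_mem_iff, ← h.sup, ← kappa_norm h.P h.hall]
  refine ⟨hgL, ?_⟩
  by_contra hn
  have : constt (sigma L)ᶜ t ∈ J ⊓ cj g⁻¹ J := by
    refine ⟨h.mem_K (constt_mem _ ht) (constt_pi _ t), mem_cj_inv.2 ?_⟩
    rw [← constt_conj]
    exact h.mem_K (constt_mem _ hg) (constt_pi _ _)
  rw [kappa_TI h.P.1 h.hall hgL hn] at this
  exact constt_ne_one' h ht h2 this

theorem Fam.not_mem_sigSupp (h : Fam W L J) (ht : t ∈ W) (h1 : t ∉ J) (h2 : t ∉ Kst L J)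
    (hH : Mx H) : t ∉ sigSupp H := by
  rintro ⟨x, hx, hx1, r, hr, e⟩
  have hy := h.mem_Kst (constt_mem (sigma L) ht) (constt_pi _ t)
  have hy' := h.mem_K (constt_mem (sigma L)ᶜ ht) (constt_pi _ t)
  have e' : (constt (sigma L) t)⁻¹ * t = constt (sigma L)ᶜ t := by
    rw [inv_mul_eq_iff_eq_mul, constt_mul_compl]
  refine sigma_decomposition_excl (g := t) (ell1_of_mem ⟨hH, hx⟩ hx1) (by rw [e]; simpa using hr)
    (constt_ne_one h ht h1) ⟨h.P.1, hy.1⟩ ?_ ?_ ?_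
  · rw [e']
    exact ⟨h.hall.le hy', mem_cent1.2 (constt_commute _ _ t)⟩
  · rw [e']; exact constt_ne_one' h ht h2
  · rw [e']; exact h.hall.pi.elt hy'

theorem disjoint_classSupp {T : Set G} (h : ∀ t ∈ T, ∀ H, Mx H → t ∉ sigSupp H)
    (hL : Mx L) : Disjoint (classSupp T) (classSupp (sigSupp L)) := by
  rw [Set.disjoint_left]
  rintro z ⟨t, ht, g, rfl⟩ h2
  obtain ⟨L', c, h2⟩ := (mem_classSupp_sigSupp hL).1 h2
  refine h t ht _ (coatom_J (c.vmx hL) g⁻¹) ?_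
  simpa [mul_assoc] using sigma_supportJ (g := g⁻¹) (c.vmx hL) h2

theorem Fam.count (h : Fam W L J) (h1 : TypeP1 L) :
    (2 * (nt (Ms L ⊓ W)).ncard + 1) * W.index ≤ 2 * (classSupp (sigSupp L)).ncard := by
  have hL := h.P.1
  have sd := sdprod_sigma hL (h.hall.congr (ρ := (sigma L)ᶜ) fun p hp hd =>
    ⟨kap_sigma', fun hs => (h1.2 p hp hd).resolve_left hs⟩)
  have e1 := card_mul_relIndex h.le
  have e2 := Set.ncard_sdiff_singleton_add_one (s := ((Ms L ⊓ W : Subgroup G) : Set G))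
    (Ms L ⊓ W).one_mem
  rw [ncard_coe] at e2
  rw [← sd.card, ← h.dp.card, h.Kst_eq, ← e2, mul_assoc, mul_comm _ #J] at e1
  have e3 := Nat.eq_of_mul_eq_mul_left (card_pos J) e1
  have hm : 2 ≤ W.relIndex L := by
    by_contra hn
    have h0 := relIndex_pos W L
    have hle : L ≤ W := relIndex_eq_one.1 (by omega)
    obtain ⟨p, X, hX⟩ := exists_el1' h.Kst_ne
    obtain ⟨S, hS⟩ := exists_syl p (Ms L)
    exact not_syl_le_Kst h.P h.hall ((Kst_uniq h.P h.hall hX).2 S hS)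
      (h.le_Kst (hS.le.trans ((Ms_le L).trans hle)) ((Ms_pi L).of_le hS.le))
  rw [card_class_support_sigma hL, ← e3, ← relIndex_mul_index h.le, ← mul_assoc, ← mul_assoc]
  refine Nat.mul_le_mul_right _ ?_
  unfold nt
  obtain ⟨m, hm⟩ := Nat.exists_eq_add_of_le hm
  rw [hm]
  generalize ((↑(Ms L ⊓ W) : Set G) \ {1}).ncard = a
  have : (a + 1) * (2 + m) = (a * (2 + m) + m + 1) + 1 := by ring
  rw [this, Nat.add_sub_cancel]
  nlinarith

theorem Fam.exists_P2 (h : Fam W M K) : ∃ L J, Fam W L J ∧ TypeP2 L := by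
  classical
  by_contra hn
  have := Fintype.ofFinite (Subgroup G)
  set F : Finset (Subgroup G) := Finset.univ.filter fun L => ∃ J, Fam W L J with hF
  have mF : ∀ L, L ∈ F ↔ ∃ J, Fam W L J := fun L => by simp [hF]
  set T : Set G := {t | t ∈ W ∧ ∀ L J, Fam W L J → t ∉ Kst L J} with hT
  have dec : ∀ t ∈ T, ∃ L J, Fam W L J ∧ t ∉ J := fun t ht => by
    have t1 : t ≠ 1 := by rintro rfl; exact ht.2 M K h (one_mem _)
    obtain ⟨p, hp, hd⟩ := exists_prime_dvd_orderOf t1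
    obtain ⟨L, J, hL, hs⟩ := h.exists_sigma hp (hd.trans (orderOf_dvd_card' ht.1))
    exact ⟨L, J, hL, fun hJ => (kap_s' hL.hall.pi).elt hJ p hp hd hs⟩
  have cT : (classSupp T).ncard = T.ncard * W.index := by
    refine ncard_classSupp (fun g hg t ht => ⟨mul_mem (mul_mem hg ht.1) (inv_mem hg),
      fun L J hL hm => ht.2 L J hL ?_⟩) fun g t ht hg => ?_
    · simpa [mul_assoc] using hL.dp.symm.sd.normal.conj_mem (inv_mem hg) hm
    · obtain ⟨L, J, hL, hJ⟩ := dec t ht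
      exact hL.ti ht.1 hJ (ht.2 L J hL) hg.1
  have i1 := ncard_sum_le F (fun L => classSupp (sigSupp L)) (Set.univ \ {1})
    (fun L hL L' hL' hne => by
      obtain ⟨J, hL⟩ := (mF L).1 hL
      obtain ⟨J', hL'⟩ := (mF L').1 hL'
      exact sigma_support_disjoint hL.P.1 hL'.P.1 fun c => hne (hL.eq_of_cjg hL' c))
    (fun L hL => by
      obtain ⟨J, hL⟩ := (mF L).1 hL
      rintro z ⟨a, ⟨x, hx, hx1, r, hr, rfl⟩, g, rfl⟩
      exact ⟨trivial, conj_ne_one (sigma_cover_ne_one (ell1_of_mem ⟨hL.P.1, hx⟩ hx1) hr) g⟩)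
    (classSupp T)
    (fun L hL => by
      obtain ⟨J, hL⟩ := (mF L).1 hL
      refine disjoint_classSupp (fun t ht H hH => ?_) hL.P.1
      obtain ⟨L', J', hL', hJ⟩ := dec t ht
      exact hL'.not_mem_sigSupp ht.1 hJ (ht.2 L' J' hL') hH)
    (by
      rintro z ⟨t, ht, g, rfl⟩
      exact ⟨trivial, conj_ne_one (by rintro rfl; exact ht.2 M K h (one_mem _)) g⟩)
  have i2 : ∑ L ∈ F, (2 * (nt (Ms L ⊓ W)).ncard + 1) * W.index ≤
      ∑ L ∈ F, 2 * (classSupp (sigSupp L)).ncard := Finset.sum_le_sum fun L hL => by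
    obtain ⟨J, hL⟩ := (mF L).1 hL
    exact hL.count (hL.P.cases.resolve_right fun h2 => hn ⟨L, J, hL, h2⟩)
  have i3 := ncard_le_sum F (fun L => nt (Ms L ⊓ W)) W (insert 1 T) fun x hx => by
    by_cases x1 : x = 1
    · exact Or.inl (Or.inl x1)
    by_cases hx' : x ∈ T
    · exact Or.inl (Or.inr hx')
    simp only [hT, Set.mem_ofPred_eq, not_and, not_forall, not_not] at hx'
    obtain ⟨L, J, hL, hm⟩ := hx' hx
    exact Or.inr ⟨L, (mF L).2 ⟨J, hL⟩, mem_nt.2 ⟨hL.Kst_eq ▸ hm, x1⟩⟩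
  have i4 := Set.ncard_insert_le 1 T
  have i5 : 2 ≤ F.card := by
    obtain ⟨L, J, hL, hne⟩ := h.exists_ne
    exact Finset.one_lt_card.2 ⟨L, (mF L).2 ⟨J, hL⟩, M, (mF M).2 ⟨K, h⟩, hne⟩
  have i6 := Set.ncard_sdiff_singleton_add_one (s := (Set.univ : Set G)) (Set.mem_univ 1)
  rw [Set.ncard_univ, ← W.card_mul_index] at i6
  rw [ncard_coe] at i3
  rw [← Finset.sum_mul, ← Finset.mul_sum, Finset.sum_add_distrib, ← Finset.mul_sum,
    Finset.sum_const, smul_eq_mul, mul_one] at i2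
  rw [cT] at i1
  have j1 := Nat.mul_le_mul_right W.index (i3.trans (Nat.add_le_add_right i4 _))
  have j2 := Nat.mul_le_mul_right W.index i5
  nlinarith

/-- the symmetric configuration of 14.7 -/
structure Dual (M K L J : Subgroup G) : Prop where
  PM : TypeP M
  PL : TypeP L
  hK : Hall (kap M) K M
  hJ : Hall (kap L) J L
  eJ : Kst M K = J
  eK : Kst L J = K
  P2 : TypeP2 M ∨ TypeP2 L

theorem Dual.symm (h : Dual M K L J) : Dual L J M K :=
  ⟨h.PL, h.PM, h.hJ, h.hK, h.eK, h.eJ, h.P2.symm⟩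

theorem Dual.fam (h : Dual M K L J) : Fam (K ⊔ J) M K := ⟨h.PM, h.hK, by rw [h.eJ]⟩

theorem exists_dual (hM : TypeP M) (hK : Hall (kap M) K M) : ∃ L, Dual M K L (Kst M K) := by
  have h : Fam (K ⊔ Kst M K) M K := ⟨hM, hK, rfl⟩
  generalize K ⊔ Kst M K = W at h
  obtain ⟨L0, J0, h0, p2⟩ := h.exists_P2
  have hp := (P2type_facts p2 h0.hall).2.1
  have two : ∀ L J L' J', Fam W L J → Fam W L' J' → L ≠ L0 → L' ≠ L0 → L = L' :=
    fun L J L' J' hL hL' n n' => by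
    refine hL.eq_of_meet hL' ?_
    rw [(eq_bot_or_eq_of_prime hp (h0.Kst_le_K hL n.symm)).resolve_left hL.Kst_ne,
      (eq_bot_or_eq_of_prime hp (h0.Kst_le_K hL' n'.symm)).resolve_left hL'.Kst_ne, inf_idem]
    exact h0.K_ne
  obtain ⟨L, J, hL, hne⟩ := h.exists_ne
  have all : ∀ L' J', Fam W L' J' → L' = M ∨ L' = L := fun L' J' hL' => by
    by_contra hn
    rw [not_or] at hn
    by_cases e : M = L0
    · subst e; exact hn.2 (two _ _ _ _ hL' hL hn.1 hne)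
    by_cases e' : L = L0
    · subst e'; exact hn.1 (two _ _ _ _ hL' h hn.2 e)
    exact hne (two _ _ _ _ hL h e' e)
  have e1 : Kst L J = K := le_antisymm (h.Kst_le_K hL hne.symm) (hL.le_Kst h.dp.left_le
    fun p hp hd => by
      obtain ⟨L', J', hL', hs⟩ := h.exists_sigma hp (hd.trans (card_dvd h.dp.left_le))
      rcases all _ _ hL' with rfl | rfl
      exacts [absurd hs (kap_sigma' (hK.pi p hp hd)), hs])
  have e2 : Kst M K = J := le_antisymm (hL.Kst_le_K h hne) (h.le_Kst hL.dp.left_le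
    fun p hp hd => by
      obtain ⟨L', J', hL', hs⟩ := h.exists_sigma hp (hd.trans (card_dvd hL.dp.left_le))
      rcases all _ _ hL' with rfl | rfl
      exacts [hs, absurd hs (kap_sigma' (hL.hall.pi p hp hd))])
  subst e2
  refine ⟨L, hM, hL.P, hK, hL.hall, rfl, e1, ?_⟩
  rcases all _ _ h0 with rfl | rfl
  exacts [Or.inl p2, Or.inr p2]

theorem Dual.le_Ms (h : Dual M K L J) : J ≤ Ms M := h.eJ ▸ inf_le_left

theorem Dual.nc (h : Dual M K L J) : ¬ Cjg M L := fun c =>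
  h.fam.K_ne (PiN.eq_bot ((Ms_pi L).of_le h.symm.le_Ms) (c.vsigma_eq ▸ kap_s' h.hK.pi))

theorem Dual.cyc_of_P2 (h : Dual M K L J) (p2 : TypeP2 M) : Cyc K ∧ Cyc J := by
  obtain ⟨-, hp, hn, -⟩ := P2type_facts p2 h.hK
  refine ⟨cyclic_of_prime hp, nil_cyc_of_syl (nil_mono hn h.le_Ms) fun p P hP hle => ?_⟩
  by_cases h1 : P = ⊥
  · exact h1 ▸ cyc_bot
  exact tau13_cyclic h.PL.1 (kap_tau13 (hP.mem_of_ne_bot h1 (h.hJ.pi.of_le hle))) hP (hle.trans h.hJ.le)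

theorem Dual.cycK (h : Dual M K L J) : Cyc K :=
  h.P2.elim (fun p2 => (h.cyc_of_P2 p2).1) fun p2 => (h.symm.cyc_of_P2 p2).2

theorem Dual.cop (h : Dual M K L J) : (#K).Coprime #J :=
  (kap_s' h.hK.pi).coprime' ((Ms_pi M).of_le h.le_Ms)

theorem Dual.dp (h : Dual M K L J) : Dprod K J (K ⊔ J) := h.eJ ▸ Kst_dprod' h.hK

theorem Dual.cyc (h : Dual M K L J) : Cyc (K ⊔ J) := cyc_sup h.cycK h.symm.cycK h.dp.cent h.cop

theorem Dual.hall_sigma (h : Dual M K L J) : Hall (sigma M) J L := by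
  obtain ⟨Y, hY, hle⟩ := ((Ms_pi M).of_le h.le_Ms).exists_hall (mmax_sol h.PL.1) h.hJ.le
  have hYM : Y ≤ Ms M := le_Ms_of_meet_Kst h.PM h.hK hY.pi (by
    rw [h.eJ, inf_eq_right.2 hle]; exact h.symm.fam.K_ne)
  have hKL : K ≤ L := h.symm.le_Ms.trans (Ms_le L)
  suffices Y = J from this ▸ hY
  refine le_antisymm ?_ hle
  rw [← h.eJ]
  refine le_inf hYM (commg_eq_bot.1 (H19.eq_bot_mono (le_inf ?_ ?_) (PiN.inf_eq_bot' (π := sigma L)
    (pi_s'_of_not_cjg h.PM.1 h.PL.1 h.nc (Ms_pi M)) (Ms_pi L))))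
  · exact (commutator_mono hYM le_rfl).trans ((Ms_normal M).commg_le h.hK.le)
  · exact (commutator_mono le_rfl h.symm.le_Ms).trans ((Ms_normal L).commg_le' hY.le)

theorem Dual.inf_eq (h : Dual M K L J) : M ⊓ L = K ⊔ J := by
  refine le_antisymm ?_ (le_inf h.fam.le (sup_comm K J ▸ h.symm.fam.le))
  have e : Ms L ⊓ M = K := h.symm.hall_sigma.max (le_inf h.symm.le_Ms h.hK.le) inf_le_right
    ((Ms_pi L).infl M)
  rw [← h.eJ, ← kappa_norm h.PM h.hK]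
  refine le_inf inf_le_left ?_
  rw [← e]
  exact norms_inf ((Ms_normal L).norms inf_le_right) (norms_of_le inf_le_left)

theorem Dual.cent_le (h : Dual M K L J) (hx : x ∈ K) (h1 : x ≠ 1) : C[x] ≤ L :=
  Kst_uniq1 h.PL h.hJ (h.eK ▸ hx) h1

theorem Dual.le_cent (h : Dual M K L J) (hx : x ∈ K ⊔ J) : K ⊔ J ≤ C[x] :=
  (comm_iff_le_cent.1 (comm_of_cyclic h.cyc)).trans (cent_le_cent1 hx)

theorem Dual.cent_eq (h : Dual M K L J) (hx : x ∈ K) (h1 : x ≠ 1) : M ⊓ C[x] = K ⊔ J :=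
  le_antisymm (h.inf_eq ▸ inf_le_inf_left M (h.cent_le hx h1))
    (le_inf h.fam.le (h.le_cent (mem_sup_left hx)))

theorem Dual.cent_mul (h : Dual M K L J) (hx : x ∈ K) (h1 : x ≠ 1) (hy : y ∈ J) (h2 : y ≠ 1) :
    C[x * y] = K ⊔ J := by
  refine le_antisymm ?_ (h.le_cent (mul_mem (mem_sup_left hx) (mem_sup_right hy)))
  rw [cent1_mul ((kap_s' h.hK.pi).elt hx) ((Ms_pi M).elt (h.le_Ms hy)).compl_compl
    (mem_cent.1 (h.dp.cent hx) y hy).symm, ← h.inf_eq, inf_comm]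
  exact inf_le_inf (h.symm.cent_le hy h2) (h.cent_le hx h1)

theorem Dual.norm_Zhat (h : Dual M K L J) (hg : g ∈ K ⊔ J) (hx : x ∈ Zhat K J) :
    g * x * g⁻¹ ∈ Zhat K J := by
  rwa [mem_cent1.1 (h.le_cent (mem_Zhat.1 hx).1 hg), mul_inv_cancel_right]

theorem Dual.ti (h : Dual M K L J) (hx : x ∈ Zhat K J) (hg : g * x * g⁻¹ ∈ Zhat K J) :
    g ∈ K ⊔ J :=
  h.fam.ti (mem_Zhat.1 hx).1 (mem_Zhat.1 hx).2.1 (h.eJ ▸ (mem_Zhat.1 hx).2.2) (mem_Zhat.1 hg).1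

theorem half_aux {a b c : ℕ} (ha : Odd a) (hb : Odd b) (h1 : 1 < a) (h2 : 1 < b) (hc : a.Coprime b)
    (e : c + (a + b) = a * b + 1) : a * b < 2 * c := by
  obtain ⟨a, rfl⟩ := ha
  obtain ⟨b, rfl⟩ := hb
  have : a ≠ b := by
    rintro rfl
    rw [Nat.coprime_self] at hc
    omega
  obtain ⟨a, rfl⟩ : ∃ k, a = k + 1 := ⟨a - 1, by omega⟩
  obtain ⟨b, rfl⟩ : ∃ k, b = k + 1 := ⟨b - 1, by omega⟩
  have : 1 ≤ a + b := by omega
  nlinarith [Nat.zero_le (a * b)]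

theorem Dual.card_Zhat (h : Dual M K L J) : #(K ⊔ J) < 2 * (Zhat K J).ncard := by
  rw [← h.dp.card]
  exact half_aux (h.PM.1.odd h.hK.le) (h.PL.1.odd h.hJ.le) (ne_bot_iff_one_lt_card.1 h.fam.K_ne)
    (ne_bot_iff_one_lt_card.1 h.symm.fam.K_ne) h.cop (ncard_Zhat h.dp)

theorem Dual.normedTI (h : Dual M K L J) : NormedTI (Zhat K J) (K ⊔ J) := by
  refine ⟨Set.nonempty_of_ncard_ne_zero ?_, fun g hg => mem_set_norm fun x hx => h.norm_Zhat hg hx,
    fun g x hx hg => h.ti hx hg⟩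
  have := h.card_Zhat
  omega

theorem Dual.half (h : Dual M K L J) : Nat.card G < 2 * (classSupp (Zhat K J)).ncard := by
  rw [ncard_classSupp (fun g hg x hx => h.norm_Zhat hg hx) fun g x hx hg => h.ti hx hg,
    ← (K ⊔ J).card_mul_index, ← mul_assoc]
  exact Nat.mul_lt_mul_of_pos_right h.card_Zhat (Nat.pos_of_ne_zero FiniteIndex.index_ne_zero)

theorem Dual.cjg (h : Dual M K L J) (hH : TypeP H) : Cjg M H ∨ Cjg L H := by
  obtain ⟨V, hV⟩ := exists_hall (kap H) (mmax_sol hH.1)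
  obtain ⟨H', h'⟩ := exists_dual hH hV
  have : ¬ Disjoint (classSupp (Zhat K J)) (classSupp (Zhat V (Kst H V))) := fun hd => by
    have h1 := Set.ncard_le_ncard (Set.subset_univ (classSupp (Zhat K J) ∪
      classSupp (Zhat V (Kst H V))))
    rw [Set.ncard_union_eq hd, Set.ncard_univ] at h1
    have := h.half
    have := h'.half
    omega
  obtain ⟨z, ⟨a, ha, u, rfl⟩, b, hb, v, e⟩ := Set.not_disjoint_iff.1 this
  obtain ⟨p, hp, hd⟩ := exists_prime_dvd_orderOf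
    (constt_ne_one h'.fam (mem_Zhat.1 hb).1 (mem_Zhat.1 hb).2.1)
  have hs : p ∈ sigma H := constt_pi _ b p hp hd
  have hd' : p ∣ #(K ⊔ J) := by
    refine (hd.trans (orderOf_dvd_of_mem_zpowers (constt_mem_zpowers _ b))).trans ?_
    rw [← orderOf_conj' v b, ← e, orderOf_conj']
    exact orderOf_dvd_card' (mem_Zhat.1 ha).1
  rw [← h.dp.card] at hd'
  rcases (Nat.Prime.dvd_mul hp).1 hd' with hd' | hd'
  · exact Or.inr (cjg_of_sigma h.PL.1 hH.1 ((Ms_pi L).of_le h.symm.le_Ms p hp hd') hs)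
  · exact Or.inl (cjg_of_sigma h.PM.1 hH.1 ((Ms_pi M).of_le h.le_Ms p hp hd') hs)

theorem KC.der_eq (hM : TypeP M) (h : KappaCompl M U K) (hab : Ab K) : ⁅U ⊔ K, U ⊔ K⁆ = U := by
  refine le_antisymm ((der_sup_le h.norm).trans (by rw [comm_iff_der.1 hab, sup_bot_eq])) ?_
  nth_rewrite 1 [← KC.commg_eq hM h]
  exact commutator_mono le_sup_left le_sup_right

theorem kap_eq_tau1 (hM : TypeP M) (hK : Hall (kap M) K M) (hab : Ab K) : kap M = tau1 M := by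
  obtain ⟨U, h⟩ := ex_kappa_compl hM.1 hK
  have e := KC.der_eq hM h hab
  have hE := KC.hall h
  ext p
  constructor
  · intro hp
    refine (kap_tau13 hp).resolve_right fun h3 => ?_
    have := ((tau3E hM.1 hE).1 h3).2
    rw [e] at this
    exact KC.k' h p (kap_prime hp) this hp
  · intro hp
    have h1 := ((tau1E hM.1 hE).1 hp).2
    have hd := hE.prime_dvd (tau1_prime hp) (tau1_sigma' hp) (tau1_dvd hp)
    rw [e] at h1
    rw [← (KC.sd h).card] at hd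
    exact hK.pi p (tau1_prime hp) (((Nat.Prime.dvd_mul (tau1_prime hp)).1 hd).resolve_left h1)

theorem KC.der_M (hM : TypeP M) (h : KappaCompl M U K) (hab : Ab K) : Ms M ⊔ U = ⁅M, M⁆ := by
  rw [← (der1_sigma_compl hM.1 (KC.hall h)).2, KC.der_eq hM h hab]

theorem der_sdprod_of_ab (hM : TypeP M) (hK : Hall (kap M) K M) (hab : Ab K) :
    Sdprod ⁅M, M⁆ K M := by
  obtain ⟨U, h⟩ := ex_kappa_compl hM.1 hK
  refine ⟨(der_normal M).norms hK.le, ?_, ?_⟩ <;> rw [← KC.der_M hM h hab]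
  · rw [sup_assoc, (sdprod_sigma hM.1 (KC.hall h)).sup]
  · exact PiN.inf_eq_bot' (((Ms_pi M).mono fun _ a b => kap_sigma' b a).sup (KC.k' h)
      ((Ms_normal M).norms h.hallU.le)) hK.pi

theorem Dual.uniq (h : Dual M K L J) (hX : X ≤ K) (hp : (#X).Prime) : UniqMax C(X) L :=
  (Kst_uniq h.PL h.hJ (el1_of_prime (h.eK ▸ hX) hp)).1

instance inst_B14_7 : B14_7 G where
  Ptype_embedding {M K} hM hK := by
    obtain ⟨L, h⟩ := exists_dual hM hK
    have hab := comm_of_cyclic h.cycK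
    refine ⟨L, h.PL, h.nc, fun X hX hp => h.uniq hX hp, ⟨h.hJ, h.hall_sigma⟩,
      ⟨h.eK, kap_eq_tau1 hM hK hab⟩, ⟨h.cyc, h.inf_eq, fun x hx h1 => h.cent_eq hx h1,
        fun y hy h1 => by rw [h.symm.cent_eq hy h1, sup_comm],
        fun x hx h1 y hy h2 => h.cent_mul hx h1 hy h2⟩,
      ⟨h.normedTI, fun g hg z hz hm => hg (h.fam.mem_of_mem_cj (mem_Zhat.1 hz).1
        (mem_Zhat.1 hz).2.1 hm), h.half⟩,
      h.P2.imp (fun p2 => ⟨p2, (P2type_facts p2 hK).2.1⟩) fun p2 => ⟨p2, (P2type_facts p2 h.hJ).2.1⟩,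
      fun H hH => h.cjg hH, der_sdprod_of_ab hM hK hab⟩

theorem kappa_cyc (hM : TypeP M) (hK : Hall (kap M) K M) : Cyc K :=
  (exists_dual hM hK).elim fun _ h => h.cycK

theorem P1type_trans (hM : TypeP1 M) (hH : TypeP1 H) : Cjg M H := by
  obtain ⟨K, hK⟩ := exists_hall (kap M) (mmax_sol hM.1.1)
  obtain ⟨L, h⟩ := exists_dual hM.1 hK
  refine (h.cjg hH.1).resolve_right ?_
  rintro ⟨g, rfl⟩
  exact hH.not_P2 ((h.P2.resolve_left hM.not_P2).J g)

theorem Zhat_sub (hM : Mx M) (hc : Cjg M L) (hK : Hall (kap M) K M) (hJ : Hall (kap L) J L) :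
    Zhat J (Kst L J) ⊆ classSupp (Zhat K (Kst M K)) := by
  obtain ⟨u, rfl⟩ := hc
  obtain ⟨v, hv, rfl⟩ := (show Hall (kap (cj u M)) (cj u K) (cj u M) by
    rw [kap_cj]; exact hK.J u).conj hJ (mmax_sol (coatom_J hM u))
  intro z hz
  refine ⟨_, ?_, v * u, (by group : z = v * u * ((v * u)⁻¹ * z * (v * u)⁻¹⁻¹) * (v * u)⁻¹)⟩
  have := conj_mem_Zhat hz (v * u)⁻¹
  rwa [← Kst_J, cj_cj v u, cj_inv_cj, ← cj_of_mem hv, cj_cj v u, cj_inv_cj] at this

theorem partition_aux (hw : PiE (vw G) g) (hg : g ≠ 1) : (∃ L : Subgroup G, Mx L ∧ g ∈ sigSupp L) ∨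
    ∃ L J, TypeP L ∧ Hall (kap L) J L ∧ g ∈ Zhat J (Kst L J) := by
  rcases sigma_decomposition_dichotomy hw hg with ⟨x, hx, hr⟩ | ⟨y, hy, L, hL, h1, h2, h3⟩
  · obtain ⟨M, hM⟩ := Ell1.exists_mem hx
    exact Or.inl ⟨M, hM.1, x, hM.2, hx.1, _, hr, by group⟩
  obtain ⟨J, hJ, hle⟩ := (piG_zpowers.2 h3).exists_hall (mmax_sol hL.1) (zpowers_le.2 h1.1)
  have hm := zpowers_le.1 hle
  have hy' : y ∈ Kst L J := by
    rw [Kst, ← kappa_semiprime hL.1 hJ _ hm h2]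
    exact ⟨hL.2, mem_cent1_symm.1 h1.2⟩
  have d := (Kst_dprod' hJ).inf
  refine Or.inr ⟨L, J, (typeP_iff hL.1 hJ).2 (ne_bot_of_mem hm h2), hJ, mem_Zhat.2 ⟨?_, ?_, ?_⟩⟩
  · simpa using mul_mem (mem_sup_right (S := J) hy') (mem_sup_left hm)
  · intro hg
    refine hy (mem_bot.1 (d ▸ mem_inf.2 ⟨?_, hy'⟩))
    simpa using mul_mem hg (inv_mem hm)
  · intro hg
    exact h2 (mem_bot.1 (d ▸ mem_inf.2 ⟨hm, mul_mem (inv_mem hy') hg⟩))

instance inst_B14_9 : B14_9 G where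
  P1type_trans := P1type_trans
  mFT_partition_F h _ hw hg := (partition_aux hw hg).resolve_right fun ⟨L, _, hL, _⟩ => h L hL
  mFT_partition_P {M K} hM hK := by
    obtain ⟨L, h⟩ := exists_dual hM hK
    refine ⟨fun g hw hg => (partition_aux hw hg).imp_right fun ⟨H, J, hH, hJ, hm⟩ => ?_, fun H hH =>
      disjoint_classSupp (fun t ht H hH => h.fam.not_mem_sigSupp (mem_Zhat.1 ht).1
        (mem_Zhat.1 ht).2.1 (mem_Zhat.1 ht).2.2 hH) hH⟩
    rcases h.cjg hH with c | c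
    · exact Zhat_sub hM.1 c hK hJ hm
    · have := Zhat_sub h.PL.1 c h.hJ hJ hm
      rwa [h.eK, Zhat_comm] at this

end

end H13.V
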