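/-
Port of `H17/B15c,H17/B15d,H17/B15e` to the `ϖ`-local setting.
-/
import Cfsg.Agent.H13.V15a

set_option autoImplicit false
set_option linter.unusedSectionVars false

namespace H13.V
section
open H17
open Cfsg Subgroup H19 H18

attribute [-instance] H18.fintypeSubgroup
universe u
variable {G : Type u} [Group G] [Finite G] [VS G] {M U K X E D H V T R L Q A : Subgroup G} {p q : ℕ}
  {π : Set ℕ}

variable [H18.Gen.{u}] [U79 G] [B10 G] [B11 G] [B12 G] [B13 G] [B14 G]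

/-- a `κ(M)`-element of `M` centralizing a nontrivial Hall subgroup of `M_σ` is trivial -/
theorem cent_Hall_kap' (hM : Mx M) (hH : Hall π H (Ms M)) (h1 : H ≠ ⊥) :
    PiG (kap M)ᶜ (M ⊓ C(H)) := by
  intro p hp hd hk
  obtain ⟨X, hX⟩ := exists_el1 hp hd
  obtain ⟨K, hK, hXK⟩ := (hX.pi hk).exists_hall (mmax_sol hM) (hX.le.trans inf_le_left)
  have hP := (typeP_iff hM hK).2 (ne_bot_mono hXK hX.ne_bot)
  have h2 : H ≤ Kst M K := by
    rw [Kst, ← (kappa_semiprime hM hK).cent hXK hX.ne_bot]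
    exact le_inf hH.le (cents_symm (hX.le.trans inf_le_right))
  obtain ⟨s, hs, hsd⟩ := exists_prime_dvd_card h1
  obtain ⟨S, hS, hSH⟩ := hH.exists_syl (hH.pi.mem hs hsd)
  exact ((B14_2.Ptype_structure hP hK).2.2.2.1 s S (hsd.trans (card_dvd h2)) hs hS).2 (hSH.trans h2)

/-- 15.3(a) -/
theorem cent_Hall_sigma_sdprod (hM : Mx M) (hH : Hall π H (Ms M)) (h1 : H ≠ ⊥) :
    ∃ X, Sdprod (Ms M ⊓ C(H)) X (M ⊓ C(H)) ∧ Cyc X ∧ PiG (tau2 M) X := by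
  have h2 : Hall (sigma M) (Ms M ⊓ C(H)) (M ⊓ C(H)) := by
    have := (B10_2.Msigma_Hall hM).inf_of_norm' (inf_le_left (b := C(H)))
      (inf_le_left.trans (Ms_norm M))
    rwa [← inf_assoc, inf_eq_left.2 (Ms_le M)] at this
  obtain ⟨X, hX⟩ := h2.exists_compl (norms_inf (inf_le_left.trans (Ms_norm M))
    (norms_of_le inf_le_right))
  refine ⟨X, hX, ?_⟩
  by_cases hX1 : X = ⊥
  · exact hX1 ▸ ⟨cyc_bot, PiN.bot⟩
  refine (cent_kappa_compl hM (hX.right_le.trans inf_le_left) ?_ hX1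
    (ne_bot_mono (le_inf hH.le (cents_symm (hX.right_le.trans inf_le_right))) h1)).2
  rw [Set.compl_union]
  exact (hX.hall_right h2).pi.inter ((cent_Hall_kap' hM hH h1).of_le hX.right_le)

theorem sigMax_ell1 {x : G} (h1 : x ≠ 1) (hM : M ∈ sigMax x) : Ell1 x :=
  B14_1.ell1_iff.2 ⟨h1, M, hM⟩

/-- `M` controls the fusion in `M_σ` -/
theorem Ms_fusion (hM : Mx M) {x a : G} (hx : x ∈ Ms M) (ha : a * x * a⁻¹ ∈ Ms M) :
    ∃ b ∈ M, b * x * b⁻¹ = a * x * a⁻¹ := by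
  by_cases h1 : x = 1
  · exact ⟨1, one_mem _, by simp [h1]⟩
  have m1 : M ∈ sigMax x := ⟨hM, hx⟩
  have m2 : cj a⁻¹ M ∈ sigMax x := ⟨coatom_J hM _, by rw [Ms_cj]; exact mem_cj_inv.2 ha⟩
  obtain ⟨h2, -, h3, -⟩ := B14_4.FT_signalizer_trans (sigMax_ell1 h1 m1)
  obtain ⟨r, hr, e⟩ := h2 M m1 _ m2
  refine ⟨a * r, mem_of_cj_eq hM (by rw [cj_mul, e, cj_cj_inv]), ?_⟩
  have := mem_cent1.1 (h3.le hr)
  rw [mul_assoc a, this]; group

/-- 15.3(b) -/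
theorem sigma_Hall_tame {x a : G} (hM : Mx M) (hH : Hall π H (Ms M)) (hx : x ∈ H)
    (ha : a * x * a⁻¹ ∈ H) : ∃ b ∈ M ⊓ N(H), b * x * b⁻¹ = a * x * a⁻¹ := by
  obtain ⟨b, hb, e⟩ := Ms_fusion hM (hH.le hx) (hH.le ha)
  rw [← e] at ha ⊢
  by_cases hn : M ≤ N(H)
  · exact ⟨b, ⟨hb, hn hb⟩, rfl⟩
  have hnil : ¬ Nil (Ms M) := fun h => hn ((Ms_norm M).trans (nil_hall_norm h hH))
  obtain ⟨K, hK⟩ := exists_hall (kap M) (mmax_sol hM)
  obtain ⟨-, hQs, sQ, -, hq⟩ := Fcore_sylow hM hK hnil rfl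
  generalize #(Kst M K) = q at *
  have nQ := Oc_normal {q} M
  generalize Oc {q} M = Q at *
  have n1 := hH.sup_norm_of_nil_quo ((Ms_le M).trans nQ.norm) hq nQ.norm (Ms_norm M)
  have nH : H ≤ N(Q) := nQ.norms (hH.le.trans (Ms_le M))
  by_cases hq' : q ∈ π
  · rw [sup_eq_right.2 (hH.le_of_norm' hQs (sQ.pi.sing hq') nH)] at n1
    exact absurd n1 hn
  have hle : Q ⊔ H ≤ M := (sup_le hQs hH.le).trans (Ms_le M)
  have h2 := (hH.of_le le_sup_right (sup_le hQs hH.le)).hfrattini (mmax_sub_sol hM hle) ⟨hle, n1⟩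
  rw [sup_assoc, sup_eq_right.2 (le_inf (hH.le.trans (Ms_le M)) le_normalizer)] at h2
  obtain ⟨z, hz, n, hn', rfl⟩ := (mem_sup_of_norm (inf_le_left.trans nQ.norm)).1 (h2.ge hb)
  refine ⟨n, hn', ?_⟩
  have hy : n * x * n⁻¹ ∈ H := conj_mem_of_norm hn'.2 hx
  have h3 : z * n * x * (z * n)⁻¹ * (n * x * n⁻¹)⁻¹ ∈ H ⊓ Q := by
    refine mem_inf.2 ⟨mul_mem ha (inv_mem hy), ?_⟩
    convert mul_mem hz (conj_mem_of_norm (nH hy) (inv_mem hz)) using 1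
    group
  rw [hH.pi.inf_eq_bot (sQ.pi.sing (π := πᶜ) hq'), mem_bot] at h3
  exact (mul_inv_eq_one.1 h3).symm

/-- 15.4 -/
theorem nilpotent_Hall_sigma (hw : PiG (vw G) H) (hn : Nil H) (hH : Hall π H ⊤) : ∃ M, Mx M ∧ H ≤ Ms M := by
  by_cases h1 : H = ⊥
  · obtain ⟨M, hM⟩ := exists_mmax (G := G)
    exact ⟨M, hM, h1 ▸ bot_le⟩
  obtain ⟨p, hp, hd⟩ := exists_prime_dvd_card h1
  have sS := nil_Oc_hall hn {p}
  have sG := hH.sub_syl (hH.pi.mem hp hd) sS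
  have S1 := sS.sne_bot hp hd
  obtain ⟨M, hM, hN⟩ := exists_mmax_norm S1 (hw.of_le sS.le)
  have hSM := le_normalizer.trans hN
  have hps := mem_sigma_of hM.1 (hw p hp hd) (sG.of_le hSM le_top) hN
  have hSs := (B10_2.Msigma_Hall hM).le_Oc hSM (sS.pi.sing hps)
  obtain ⟨X, hX, cX, tX⟩ := cent_Hall_sigma_sdprod hM (sG.of_le hSs le_top) S1
  have hHM : H ≤ M := (Oc_norm _ _).trans hN
  refine ⟨M, hM, hM.1 |> fun _ => (B10_2.Msigma_Hall hM).le_Oc hHM fun q hq hqd => ?_⟩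
  by_contra hqs
  have hqp : q ≠ p := fun e => hqs (e ▸ hps)
  have sQ := nil_Oc_hall hn {q}
  have hQC : Oc {q} H ≤ M ⊓ C(Oc {p} H) := le_inf (sQ.le.trans hHM)
    (nil_cents_pi hn sQ.le sS.le sQ.pi (sS.pi.sing_ne hqp.symm))
  have h2 : Hall (sigma M)ᶜ X (M ⊓ C(Oc {p} H)) :=
    hX.hall_right (hX.hall_of_pi ((Ms_pi M).infl _) (tX.mono fun _ h => tau2_sigma' h))
  obtain ⟨g, -, hg⟩ := h2.cj_le (mmax_sub_sol hM inf_le_left) hQC (sQ.pi.sing (π := (sigma M)ᶜ) hqs)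
  have hq2 : q ∈ tau2 M := tX.mem hq ((sQ.sdvd_card hq hqd).trans (card_cj g _ ▸ card_dvd hg))
  have h3 := ((hH.sub_syl (hH.pi.mem hq hqd) sQ).of_le (sQ.le.trans hHM) le_top).prk_syl
  have h4 := cyc_prk (cyclic_cj.1 (cyc_mono cX hg)) q
  rw [h3, tau2_prk hq2] at h4
  omega

theorem Fcore_hall_Ms (hM : Mx M) : Hall (primes #(Fcore M)) (Fcore M) (Ms M) :=
  (Fcore_hall M).of_le (Fcore_le_Ms hM) (Ms_le M)

theorem Fit_dprod (M : Subgroup G) : Dprod (Fit (Ms M)) (Oc (sigma M)ᶜ (Fit M)) (Fit M) := by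
  have := nil_dprod (Fit_nil M) (sigma M)
  rwa [Oc_Fit_eq] at this

/-- 15.5(a) -/
theorem Fit_sigma' (hM : Mx M) :
    Cyc (Oc (sigma M)ᶜ (Fit M)) ∧ PiG (tau2 M) (Oc (sigma M)ᶜ (Fit M)) := by
  obtain ⟨X, hX, cX, tX⟩ := cent_Hall_sigma_sdprod hM (Fcore_hall_Ms hM) (Fcore_ne_bot hM)
  have h2 : Hall (sigma M)ᶜ X (M ⊓ C(Fcore M)) :=
    hX.hall_right (hX.hall_of_pi ((Ms_pi M).infl _) (tX.mono fun _ h => tau2_sigma' h))
  have nY : Oc (sigma M)ᶜ (Fit M) ⊴ M := (Fit_normal M).Oc _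
  have : Oc (sigma M)ᶜ (Fit M) ≤ X := h2.le_of_norm' (le_inf nY.le (nil_cents_pi (Fit_nil M)
    (Oc_le _ _) (Fcore_le_Fit M) (Oc_pi _ _) ((Ms_pi M).of_le (Fcore_le_Ms hM)).compl_compl))
    (Oc_pi _ _) (nY.norms (hX.right_le.trans inf_le_left))
  exact ⟨cyc_mono cX this, tX.of_le this⟩

theorem exists_Fcore_data (hM : Mx M) (hne : Fcore M ≠ Ms M) : ∃ q : ℕ, q.Prime ∧
    Oc {q} M ≤ Fcore M ∧ Ms M = ⁅M, M⁆ ∧ Nil (quo (Oc {q} M) (Ms M)) ∧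
    ⁅⁅M, M⁆, ⁅M, M⁆⁆ ≤ Fit M ∧ M ⊓ C(Oc {q} M) ≤ Fit M := by
  obtain ⟨K, hK⟩ := exists_hall (kap M) (mmax_sol hM)
  obtain ⟨D, hD⟩ := exists_hall {#(Kst M K)}ᶜ (mmax_sub_sol hM (Ms_le M))
  obtain ⟨⟨⟨-, -, h1⟩, ⟨-, h2, -⟩, ⟨h3, -⟩, -, h4, h5, -⟩, -⟩ := Fcore_structure hM hK hne rfl hD
  exact ⟨_, h2, Oc_le_Fcore h3, h1,
    (Fcore_sylow hM hK (fun h => hne ((Fcore_eq_iff hM).2 h)) rfl).2.2.2.2, h4, h5 ▸ le_sup_right⟩

theorem cent_Fcore_le_Fit (hM : Mx M) : M ⊓ C(Fcore M) ≤ Fit M := by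
  by_cases hne : Fcore M = Ms M
  · obtain ⟨X, hX, cX, -⟩ := cent_Hall_sigma_sdprod hM (Fcore_hall_Ms hM) (Fcore_ne_bot hM)
    refine le_Fit (Fcore_normal M).inf_cent ?_
    rw [← hX.sup]
    exact nil_sup_cent (nil_mono (Fcore_nil M) (hne ▸ inf_le_left)) (nil_of_cyc cX)
      (cents_symm ((hX.right_le.trans inf_le_right).trans (cent_mono (hne ▸ inf_le_left))))
  · obtain ⟨q, -, h1, -, -, -, h2⟩ := exists_Fcore_data hM hne
    exact (inf_le_inf_left _ (cent_mono h1)).trans h2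

theorem der2_le_Fit (hM : Mx M) : ⁅⁅M, M⁆, ⁅M, M⁆⁆ ≤ Fit M := by
  by_cases hne : Fcore M = Ms M
  · exact (der2_le_Ms hM).trans (hne ▸ Fcore_le_Fit M)
  · obtain ⟨q, -, -, -, -, h, -⟩ := exists_Fcore_data hM hne
    exact h

theorem Fcore_sup_cent (hM : Mx M) : Fcore M ⊔ (M ⊓ C(Fcore M)) = Fit M :=
  le_antisymm (sup_le (Fcore_le_Fit M) (cent_Fcore_le_Fit hM)) (Fit_le_Fcore_sup_cent M)

theorem nil_quo_Fcore_der (hM : Mx M) : Nil (quo (Fcore M) ⁅M, M⁆) := by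
  by_cases hne : Fcore M = Ms M
  · rw [hne]
    exact nil_of_ab ((ab_quo_iff ((der_le M).trans (Ms_norm M))).2 (der2_le_Ms hM))
  · obtain ⟨q, -, h1, h2, h3, -⟩ := exists_Fcore_data hM hne
    exact nil_quo_of_le ((der_le M).trans (Oc_norm _ _)) ((der_le M).trans (Fcore_norm M))
      (inf_le_left.trans h1) (h2 ▸ h3)

theorem TypeP.der_hall (h : TypeP M) : Hall (kap M)ᶜ ⁅M, M⁆ M := by
  obtain ⟨K, hK⟩ := exists_hall (kap M) (mmax_sol h.1)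
  exact Hall.der_of_sd hK (der_sdprod h hK)

theorem TypeP.le_der (h : TypeP M) (hX : X ≤ M) (hp : PiG (kap M)ᶜ X) : X ≤ ⁅M, M⁆ :=
  (TypeP.der_hall h).le_of_normal (der_normal M).norm hX hp

theorem TypeP.Fit_le_der (h : TypeP M) : Fit M ≤ ⁅M, M⁆ := by
  rw [← (Fit_dprod M).sup]
  exact sup_le ((Fit_le _).trans (B10_2.Msigma_der1 h.1)) (TypeP.le_der h
    ((Oc_le _ _).trans (Fit_le M)) ((Fit_sigma' h.1).2.mono fun _ h2 hk => kap_tau2' hk h2))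

/-- 15.6 -/
theorem Ptype_cyclics (hP : TypeP M) (hK : Hall (kap M) K M) :
    Kst M K ≠ ⊥ ∧ Cyc (Kst M K) ∧ Kst M K ≤ ⁅⁅M, M⁆, ⁅M, M⁆⁆ ∧ Kst M K ≤ Fcore M ∧
      ¬ Cyc (Fcore M) := by
  have hM := hP.1
  have h1 := (B14_2.Ptype_structure hP hK).2.1.1
  have sd := der_sdprod hP hK
  have h2 : Kst M K ≤ ⁅⁅M, M⁆, ⁅M, M⁆⁆ := (inf_le_inf_right _ (B10_2.Msigma_der1 hM)).trans
    (G6.coprime_der1_sdprod sd ((TypeP.der_hall hP).pi.coprime' hK.pi)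
      (mmax_sub_sol hM (der_le M)) le_rfl).2
  refine ⟨h1, ?_, h2, ?_, fun hc => ?_⟩
  · obtain ⟨_, -, -, -, -, -, ⟨hc, -⟩, -⟩ := B14_7.Ptype_embedding hP hK
    exact cyc_mono hc le_sup_right
  · by_cases hn : Nil (Ms M)
    · rw [(Fcore_eq_iff hM).2 hn]; exact inf_le_left
    · obtain ⟨h3, -, -, h4, -⟩ := Fcore_sylow hM hK hn rfl
      exact h3.trans (Oc_le_Fcore h4)
  · have h3 : ⁅M, M⁆ ≤ Fit M := (le_inf (der_le M) (G1b.der1_cent_cyclic hc (Fcore_norm M))).trans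
      (cent_Fcore_le_Fit hM)
    have h4 := (Fcore_eq_iff hM).2 (nil_mono (Fit_nil M) ((B10_2.Msigma_der1 hM).trans h3))
    have h5 : Ab (Fit M) := by
      rw [← (Fit_dprod M).sup]
      exact comm_sup (comm_mono (comm_of_cyclic hc) (h4 ▸ Fit_le _))
        (comm_of_cyclic (Fit_sigma' hM).1) (Fit_dprod M).cent
    exact h1 (H19.eq_bot_mono (h2.trans (der_mono h3)) (comm_iff_der.1 h5))

instance inst_B15_3 : B15_3 G :=
  ⟨cent_Hall_sigma_sdprod, sigma_Hall_tame, nilpotent_Hall_sigma,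
    fun hM => ⟨Fit_sigma' hM, ⟨der2_le_Fit hM, Fcore_sup_cent hM, Fit_dprod _⟩,
      ⟨(Fcore_le_Ms hM).trans (B10_2.Msigma_der1 hM), nil_quo_Fcore_der hM⟩, TypeP.Fit_le_der⟩,
    Ptype_cyclics⟩

end

section
open H17
open Cfsg Subgroup H19 H18

attribute [-instance] H18.fintypeSubgroup
universe u
variable {G : Type u} [Group G] [Finite G] [VS G] {M U K X X1 E D H V T R L P Q A Z : Subgroup G}
  {p q : ℕ} {π : Set ℕ} {g : G}

variable [H18.Gen.{u}] [U79 G] [B10 G] [B11 G] [B12 G] [B13 G] [B14 G]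

theorem norm_el1_Fit (hM : Mx M) (hX : El p 1 X (Fit M)) (hp : p ∉ sigma M) : N(X) = M :=
  mmax_norm hM hX.ne_bot ((Fit_w hM).of_le hX.le) (((Fit_normal M).Oc _).norm.trans (cyc_norm (Fit_sigma' hM).1
    (nil_le_Oc (Fit_nil M) hX.le (hX.pi hp))))

theorem Fit_inf_cj_sigma (hM : Mx M) (hg : g ∉ M) :
    PiG (sigma M) (Fit M ⊓ cj g (Fit M)) := by
  intro p hp hd
  by_contra hs
  obtain ⟨X, hX⟩ := exists_el1 hp hd
  refine cj_ne_of_not_mem hM hg ?_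
  rw [← norm_el1_Fit (coatom_J hM g) (hX.of_le (cj_Fit g M ▸ hX.le.trans inf_le_right))
    (by rwa [sigma_cj]), norm_el1_Fit hM (hX.mono inf_le_left) hs]

theorem not_cent_le_of_le_cj (hM : Mx M) (hg : g ∉ M) (hp : p ∈ sigma M) (hX : PG p X)
    (h1 : X ≤ M) (h2 : X ≤ cj g M) : ¬ C(X) ≤ M := fun h => by
  obtain ⟨c, hc, e⟩ := (B10_1.sigma_group_trans hM hp hX).2.1 M _ (Cjg.refl M) (cjg_cj g M) h1 h2
  exact cj_ne_of_not_mem hM hg (e ▸ cj_of_mem (h hc))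

theorem not_uniq_of_cent (hM : Mx M) (h1 : X ≠ ⊥) (hw : PiG (vw G) X) (hC : ¬ C(X) ≤ M) (hL : L ≤ M)
    (hc : L ≤ C(X)) : ¬ Uniq L := fun h => hC (uniq_sub h hM hL hc (loc_cent h1 hw))

theorem exists_normal_el1 (hZ : El p 1 (Ohm1 p Z(Oc {p} H)) H) (hc : Cyc (Oc {p}ᶜ H))
    (hn : Nil H) (hq : q.Prime) (hd : q ∣ #H) : El q 1 (Ohm1 q Z(Oc {q} H)) H := by
  by_cases e : q = p
  · exact e ▸ hZ
  have h1 := nil_Oc_hall hn {q}
  refine (cyc_el1_Ohm1 (cyc_mono hc (inf_le_left.trans (Oc_mono (by simpa using Ne.symm e) H))) hq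
    ((h1.pi.infl _).dvd_of_ne_bot (h1.pi.center_ne_bot (h1.sne_bot hq hd)))).mono
    (inf_le_left.trans h1.le)

/-- the nonabelian case of 15.7(e), first part -/
theorem nonTI_nonab (hM : Mx M) (hn : Nil (Ms M)) (hna : ¬ Ab (Ms M))
    (hX : El p 1 X1 (Ms M)) (hC : ¬ C(X1) ≤ M) :
    ¬ Ab (Oc {p} (Ms M)) ∧ Cyc (Oc {p}ᶜ (Ms M)) ∧ El p 1 (Ohm1 p Z(Oc {p} (Ms M))) (Ms M) ∧
      Narrow p (Oc {p} (Ms M)) ∧
      ∀ X, X1 ≤ X → X ≤ Oc {p} (Ms M) → Cyc X → X = X1 := by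
  have hw : p ∈ vw G := hX.mem_pi (Ms_w M)
  have nU := fun L => not_uniq_of_cent (L := L) hM hX.ne_bot (hX.pi hw) hC
  have dp := nil_dprod hn {p}
  have hXP : X1 ≤ Oc {p} (Ms M) := nil_le_Oc hn hX.le hX.pg
  have pP := Oc_pi {p} (Ms M)
  have hPM : Oc {p} (Ms M) ≤ M := (Oc_le _ _).trans (Ms_le M)
  have c1 : Oc {p}ᶜ (Ms M) ≤ C(X1) := (cents_symm dp.cent).trans (cent_mono hXP)
  have naP : ¬ Ab (Oc {p} (Ms M)) := fun h => hna <| nil_ab_of_Oc hn fun q => by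
    by_contra hq
    refine nU _ ((Oc_le _ _).trans (Ms_le M)) ((Oc_le _ _).trans ?_)
      (B12_13.nonabelian_Uniqueness ((Oc_pi _ _).mem_of_ne_bot (fun e => hq (e ▸ comm_bot))
        ((Ms_w M).of_le (Oc_le _ _))) (Oc_pi _ _) hq)
    rw [← dp.sup]
    exact sup_le (cents_of_comm h le_rfl hXP) c1
  have uP := B12_13.nonabelian_Uniqueness hw pP naP
  have cyc : Cyc (Oc {p}ᶜ (Ms M)) := by
    refine nil_cyc_of_rk (nil_mono hn (Oc_le _ _)) (hM.odd ((Oc_le _ _).trans (Ms_le M))) ?_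
    by_contra hr
    exact nU _ ((Oc_le _ _).trans (Ms_le M)) c1
      (U9.cent_uniq_Uniqueness uP (cents_symm dp.cent) (by omega))
  have hPH : Oc {p} (Ms M) ≤ Ms M := Oc_le _ _
  generalize Oc {p} (Ms M) = P at *
  have P1 : P ≠ ⊥ := ne_bot_mono hXP hX.ne_bot
  have hXZ : ¬ X1 ≤ C(P) := fun h => nU P hPM (cents_symm h) uP
  obtain ⟨Z1, hZ1⟩ := ((pP.infl _).of_le (Ohm1_le p Z(P))).exists_el1 (pP.Ohm1_center_ne_bot P1)
  have hZ1' : Z1 ≤ Z(P) := hZ1.le.trans (Ohm1_le _ _)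
  have hB : El p 2 (X1 ⊔ Z1) P := (hX.of_le hXP).sup2 (hZ1.of_le (hZ1'.trans inf_le_left))
    (hXP.trans (cents_symm (hZ1'.trans inf_le_right))) fun e => hXZ (e ▸ hZ1'.trans inf_le_right)
  have mB : MaxEl p (X1 ⊔ Z1) ⊤ := by
    by_contra h
    exact nU _ (hB.le.trans hPM) (hB.le_cent.trans (cent_mono le_sup_left))
      (U9.nonmaxElem2_Uniqueness hw hB.top h)
  obtain ⟨h1, ⟨Y, cY, hZY, hY⟩, -⟩ := B10_13.basic_p2maxElem_structure hw hB.top mB pP hB.le naP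
  have ne : X1 ≠ Ohm1 p Z(P) := fun e => hXZ (e ▸ (Ohm1_le _ _).trans inf_le_right)
  have dp2 := hY X1 (hX.of_le le_sup_left) ne
  refine ⟨naP, cyc, h1.of_le ((Ohm1_le _ _).trans (inf_le_left.trans hPH)),
    fun _ => ⟨_, hB, mB.of_le hB.le le_top⟩, fun X h2 h3 h4 => ?_⟩
  have h5 : X ≤ X1 ⊔ Y := dp2.sup ▸ le_inf h3 (cents_sup (cents_of_comm (comm_of_cyclic h4) le_rfl h2)
    (h3.trans (cents_symm (hZ1'.trans inf_le_right))))
  have h6 : Y ⊓ X = ⊥ := by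
    by_contra h0
    obtain ⟨W, hW⟩ := ((pP.of_le h3).infr Y).exists_el1 h0
    exact ne (((hX.of_le h2).eq_of_cyc (hW.mono inf_le_right) h4).trans
      ((hW.mono inf_le_left).eq_of_cyc (h1.of_le hZY) cY))
  rw [← inf_eq_right.2 h5, sup_inf_modl dp2.sd.norm h2, h6, sup_bot_eq]

/-- the nonabelian case of 15.7(e), type `P₁` -/
theorem nonTI_P1 (P1 : TypeP1 M) (hn : Nil (Ms M)) (hp : p ∈ sigma M) (hP : P = Oc {p} (Ms M))
    (naP : ¬ Ab P) (cyc : Cyc (Oc {p}ᶜ (Ms M))) (hZ : El p 1 (Ohm1 p Z(P)) (Ms M))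
    (nar : Narrow p P) :
    (∀ q : ℕ, q.Prime → q ∣ #(Ms M) → ∀ x ∈ M, x ^ (q - 1) ∈ Ms M) ∨
      (#P = p ^ 3 ∧ (Ms M).relIndex M ∣ p + 1) := by
  have hM := P1.1.1
  obtain ⟨K, hK⟩ := exists_hall (kap M) (mmax_sol hM)
  obtain ⟨sd, hd, pK⟩ := P1_sdprod P1 hK
  have cK := kappa_cyclic hM hK
  have prim := kappa_semiprime hM hK
  have dp := nil_dprod hn {p}
  rw [← hP] at dp
  have sP : Syl p P (Ms M) := hP ▸ nil_Oc_hall hn {p}
  have nP : M ≤ N(P) := hP ▸ ((Ms_normal M).Oc _).norm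
  have hKP : Kst M K ≤ ⁅P, P⁆ := by
    have := (Ptype_cyclics P1.1 hK).2.2.1
    rwa [← hd, ← dp.sup, der_sup_cent (cents_symm dp.cent),
      comm_iff_der.1 (comm_of_cyclic cyc), sup_bot_eq] at this
  have reg : ∀ q Z, El q 1 Z (Ms M) → M ≤ N(Z) → Z ⊓ Kst M K = ⊥ → #K ∣ q - 1 := by
    intro q Z hZ nZ h0
    rw [← hZ.card1]
    exact G1b.regular_norm_dvd_pred (hK.le.trans nZ) ((prim.mono_left hZ.le).semireg
      (H19.eq_bot_mono (le_inf inf_le_left (inf_le_inf_right _ hZ.le)) h0))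
  by_cases hd1 : #K ∣ p - 1
  · refine Or.inl fun q hq hqd x hx => pow_mem_of_sdprod sd (fun u hu => ?_) hx
    refine orderOf_dvd_iff_pow_eq_one.1 ((orderOf_dvd_card' hu).trans ?_)
    by_cases e : q = p
    · exact e ▸ hd1
    have h1 := exists_normal_el1 (hP ▸ hZ) cyc hn hq hqd
    exact reg q _ h1 (((Ms_normal M).Oc _).norm.trans (norm_le_norm_Ohm1_center _ _))
      (PiN.inf_eq_bot' (h1.pg.sing_ne e) (sP.pi.of_le (hKP.trans (der_le P))))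
  right
  have eZ : Ohm1 p Z(P) = Kst M K := by
    have := le_of_prime_of_inf_ne_bot hZ.prime_card fun h0 =>
      hd1 (reg p _ hZ (nP.trans (norm_le_norm_Ohm1_center _ _)) h0)
    exact (eq_bot_or_eq_of_prime pK this).resolve_left hZ.ne_bot
  have hs := kap_sigma'_pi hK.pi
  have p'K : PiG {p}ᶜ K := hs.compl_sing' hp
  have cent1 : ∀ x ∈ K, x ≠ 1 → P ⊓ C[x] ≤ Kst M K := fun x hx h1 =>
    (inf_le_inf_right _ sP.le).trans (prim x hx h1).le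
  have r2 : prk p P ≤ 2 := by
    by_contra hr
    obtain ⟨x, ex⟩ := cyc_iff.1 cK
    have hx : x ∈ K := ex ▸ Subgroup.mem_zpowers x
    have h1 := (G5b.Aut_narrow sP.pi (hM.odd (sP.le.trans (Ms_le M))) nar (hK.le.trans nP) (sol_of_cyc cK)
      (hM.odd hK.le)).2 (by omega) x hx (p'K.elt hx)
    refine hd1 ?_
    rw [← ex, Nat.card_zpowers, orderOf_dvd_iff_pow_eq_one]
    by_contra h2
    exact naP (comm_mono (comm_of_cyclic (cyclic_of_prime pK))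
      ((le_inf le_rfl (le_cent1_iff.2 h1)).trans (cent1 _ (pow_mem hx _) h2)))
  obtain ⟨S, Y, -, cS, eS, cY, cp, oY⟩ := B10_7.mFT_rank2_Sylow_cprod (sigma_w hp)
    (sigma_Sylow_G hp ((B10_2.Msigma_Hall hM).sub_syl hp sP)) r2 naP
  have eZP : Z(P) = Kst M K := by
    refine le_antisymm (le_inf (inf_le_left.trans sP.le) (cents_symm ?_)) (eZ ▸ Ohm1_le _ _)
    exact G1a.coprime_odd_faithful_Ohm1 (sP.pi.infl _)
      ((hK.le.trans nP).trans (norm_le_norm_center P)) ((sP.pi.infl _).coprime p'K)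
      (hM.odd (inf_le_left.trans (sP.le.trans (Ms_le M))))
      (eZ ▸ cents_symm inf_le_right)
  have hY : Y ≤ S := by
    have h1 : Y ≤ Ohm1 p Z(P) := by
      rw [eZ, ← eZP]
      refine le_inf cp.right_le ?_
      rw [← cp.sup]
      exact cents_sup (cents_symm cp.cent) (comm_iff_le_cent.1 (comm_of_cyclic cY))
    rw [← Ohm1_eq_self (p := p) (A := Y) fun x hx => hZ.ab.2 x (h1 hx), oY]
    exact inf_le_left
  obtain rfl : S = P := by rw [← cp.sup, sup_eq_left.2 hY]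
  refine ⟨cS, ?_⟩
  have cZ : #(Z(S)) = p := by rw [eZP, ← eZ, hZ.card1]
  have := G2_5.extraspecial_cyclic_dvd (n := 1) hZ.prime
    (extraspecial_of hZ.prime cS eS cZ (eZP ▸ hKP)) cS (hK.le.trans nP) cK p'K fun x hx h1 =>
      le_antisymm (eZP ▸ cent1 x hx h1) (le_inf inf_le_left
        (eZP ▸ inf_le_right.trans (cent_le_cent1 hx)))
  rw [pow_one] at this
  rw [sd.relIndex_left]
  exact this.resolve_right hd1

theorem nonTI_Fitting_structure (hM : Mx M) (hg : g ∉ M)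
    (hX : X = Fit M ⊓ cj g (Fit M)) (h1 : X ≠ ⊥) :
    ((TypeF M ∨ TypeP1 M) ∧ Fcore M = Ms M) ∧ (X ≤ Ms M ∧ Cyc X) ∧
      (⁅M, M⁆ ≤ Fit M ∧ tau3 M = ∅) ∧
      ((TypeF M ∧ Ab (Ms M) ∧ rk (Ms M) = 2) ∨
        ((#X).Prime ∧ #X ∈ sigma M ∧ #X ∉ beta M ∧ ¬ Ab (Oc {#X} (Ms M)) ∧
          Cyc (Oc {#X}ᶜ (Ms M)) ∧
          ((∀ q : ℕ, q.Prime → q ∣ #(Ms M) → ∀ x ∈ M, x ^ (q - 1) ∈ Ms M) ∨
            (#(Oc {#X} (Ms M)) = #X ^ 3 ∧ TypeP1 M ∧ (Ms M).relIndex M ∣ #X + 1)))) := by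
  have sX : PiG (sigma M) X := hX ▸ Fit_inf_cj_sigma hM hg
  have hXF : X ≤ Fit M := hX ▸ inf_le_left
  have hXg : X ≤ cj g M := hX ▸ inf_le_right.trans (cj_mono g (Fit_le M))
  have hXs : X ≤ Ms M := (B10_2.Msigma_Hall hM).le_Oc (hXF.trans (Fit_le M)) sX
  have hXs' : X ≤ cj g (Ms M) := by
    rw [← Ms_cj]
    exact (B10_2.Msigma_Hall (coatom_J hM g)).le_Oc hXg (by rwa [sigma_cj])
  obtain ⟨E, hE, -⟩ := B12_1.ex_sigma_compl hM bot_le PiN.bot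
  obtain ⟨c1, c2, -⟩ := (B12_15.sigma_compl_embedding hM hE).2.2 g hg
  have cX : Cyc X := cyc_mono c1 (le_inf hXs hXg)
  have hC : ∀ p X1, El p 1 X1 X → ¬ C(X1) ≤ M := fun p X1 h => not_cent_le_of_le_cj hM hg
    (h.mem_pi sX) h.pg (h.le.trans (hXs.trans (Ms_le M))) (h.le.trans hXg)
  obtain ⟨p, X1, hX1⟩ := exists_el1' h1
  have r2 : rk (M ⊓ C(X1)) ≤ 2 := by
    by_contra hr
    exact not_uniq_of_cent hM hX1.ne_bot (sX.vsw.of_le hX1.le) (hC p X1 hX1) inf_le_left inf_le_right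
      (U9.rank3_Uniqueness (loc_mono inf_le_left hM.1) (by omega))
  have hd : ⁅M, M⁆ ≤ Fit M := G5b.rank2_cent_abelem_der1_sub_Fitting hX1.prime hM.1.odd
    (mmax_sol hM) hX1.ab (hX1.le.trans hXF) ((rk_mono (inf_le_inf_right _ (Fit_le M))).trans r2)
  have hn : Nil (Ms M) := nil_mono (Fit_nil M) ((B10_2.Msigma_der1 hM).trans hd)
  have typ : TypeF M ∨ TypeP1 M := by
    refine (typeF_or_typeP hM).imp_right fun h => h.cases.resolve_right fun h2 => ?_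
    obtain ⟨K, hK⟩ := exists_hall (kap M) (mmax_sol hM)
    exact h1 (H19.eq_bot_mono (le_inf hXs hXs')
      (((B14_2.Ptype_structure h hK).2.2.2.2.2 h2).2.2.2.inf_cj hg))
  refine ⟨⟨typ, (Fcore_eq_iff hM).2 hn⟩, ⟨hXs, cX⟩, ⟨hd, ?_⟩, ?_⟩
  · refine Set.eq_empty_of_forall_notMem fun q hq => ?_
    obtain ⟨Y, hY⟩ := exists_el1 (tau3_prime hq) (mem_tau3.1 hq).2.2
    exact tau3_tau2' hq ((hY.of_le (nil_le_Oc (Fit_nil M) (hY.le.trans hd)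
      (hY.pi (π := (sigma M)ᶜ) (tau3_sigma' hq)))).mem_pi (Fit_sigma' hM).2)
  by_cases hab : Ab (Ms M)
  · refine Or.inl ⟨typ.resolve_right fun P1 => ?_, hab, le_antisymm ((rk_mono (le_inf (Ms_le M)
      (cents_of_comm hab le_rfl (hX1.le.trans hXs)))).trans r2) ?_⟩
    · obtain ⟨K, hK⟩ := exists_hall (kap M) (mmax_sol hM)
      obtain ⟨h2, -, h3, -⟩ := Ptype_cyclics P1.1 hK
      rw [← (P1_sdprod P1 hK).2.1, comm_iff_der.1 hab] at h3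
      exact h2 (le_bot_iff.1 h3)
    · by_contra hr
      refine hC p X1 hX1 ((cent_le_norm _).trans (mmax_norm hM hX1.ne_bot (sX.vsw.of_le hX1.le)
        ((Ms_norm M).trans (cyc_norm (ab_cyc_of_rk hab (hM.odd (Ms_le M)) (by omega))
        (hX1.le.trans hXs)))).le)
  right
  obtain ⟨naP, cyc, hZ, nar, hmax⟩ := nonTI_nonab hM hn hab (hX1.mono hXs) (hC p X1 hX1)
  have pX : PG p X := by
    intro q hq hqd
    by_contra e
    obtain ⟨X2, hX2⟩ := exists_el1 hq hqd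
    exact naP (comm_mono (comm_of_cyclic (nonTI_nonab hM hn hab (hX2.mono hXs) (hC q X2 hX2)).2.1)
      (Oc_mono (by simpa using e) _))
  obtain rfl : X = X1 := hmax X hX1.le (nil_le_Oc hn hXs pX) cX
  have hps := hX1.mem_pi sX
  rw [hX1.card1]
  refine ⟨hX1.prime, hps, (hX1.of_le (le_inf hXs hXg)).mem_pi c2, naP, cyc, ?_⟩
  rcases typ with h | h
  · obtain ⟨U, K, hU⟩ := exists_kappaCompl hM
    obtain rfl := (typeF_iff hM hU.hallK).1 h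
    obtain ⟨⟨sd1, sd2, -⟩, -, -, -, U0, hU0, eU0, reg⟩ := kappa_structure hM hU
    have := sd2.sup
    rw [sup_bot_eq] at this
    rw [this] at sd1
    refine Or.inl fun q hq hqd x hx => pow_mem_of_sdprod sd1 (fun u hu => ?_) hx
    have h2 := exists_normal_el1 hZ cyc hn hq hqd
    have h3 := G1b.regular_norm_dvd_pred ((hU0.trans sd1.right_le).trans
      (((Ms_normal M).Oc _).norm.trans (norm_le_norm_Ohm1_center q _))) (reg.mono h2.le le_rfl)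
    rw [h2.card1] at h3
    have h4 : expo U ∣ q - 1 := eU0 ▸ (Group.exponent_dvd_nat_card.trans h3)
    exact congrArg Subtype.val (Monoid.exponent_dvd_iff_forall_pow_eq_one.1 h4 ⟨u, hu⟩)
  · exact (nonTI_P1 h hn hps rfl naP cyc hZ nar).imp_right fun h2 => ⟨h2.1, h, h2.2⟩

instance inst_B15_7 : B15_7 G := ⟨nonTI_Fitting_structure⟩

end

section
open H17
open Cfsg Subgroup H19 H18

attribute [-instance] H18.fintypeSubgroup
universe u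
variable {G : Type u} [Group G] [Finite G] [VS G] {M Mstar U K X E D H V T R L P Q A Z : Subgroup G}
  {p q r : ℕ} {π : Set ℕ} {g x : G}

variable [H18.Gen.{u}] [U79 G] [B10 G] [B11 G] [B12 G] [B13 G] [B14 G]

theorem P1_exists_uniq (P1 : TypeP1 M) (hK : Hall (kap M) K M) (hq : q = #(Kst M K)) :
    ∃ Q, PG q Q ∧ Uniq Q ∧ (q ∉ betaG G → ¬ Ab Q) ∧
      ∀ A, A ≤ Ms M → PiG {q}ᶜ A → A ≤ C(Kst M K) → A ≤ C(Q) := by
  have hM := P1.1.1
  obtain ⟨sd, hd, pK⟩ := P1_sdprod P1 hK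
  by_cases hn : Nil (Ms M)
  · have dp := nil_dprod hn {q}
    have na : ¬ Ab (Oc {q} (Ms M)) := fun h => by
      have := (Ptype_cyclics P1.1 hK).2.2.1
      rw [← hd, ← dp.sup, der_sup_cent (cents_symm dp.cent), comm_iff_der.1 h, bot_sup_eq] at this
      exact ne_bot_of_prime pK ((PiN.of_card (hq ▸ pK) hq.symm).eq_bot
        ((Oc_pi _ _).of_le (this.trans (der_le _))))
    exact ⟨_, Oc_pi _ _, B12_13.nonabelian_Uniqueness ((Oc_pi _ _).mem_of_ne_bot (fun e => na (e ▸ comm_bot))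
        ((Ms_w M).of_le (Oc_le _ _))) (Oc_pi _ _) na, fun _ => na,
      fun A h1 h2 _ => cents_symm (nil_cents_pi hn (Oc_le _ _) h1 (Oc_pi _ _) h2)⟩
  · have hne : Fcore M ≠ Ms M := fun e => hn ((Fcore_eq_iff hM).1 e)
    obtain ⟨D, hD⟩ := exists_hall {q}ᶜ (mmax_sub_sol hM (Ms_le M))
    obtain ⟨⟨-, ⟨-, -, -, hb⟩, ⟨sQ, -⟩, -⟩, -⟩ := Fcore_structure hM hK hne hq hD
    refine ⟨_, sQ.pi, B10_14.beta_noncyclic_uniq (beta_sub_betaG hb) sQ.pi fun hc => ?_,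
      fun h => absurd (beta_sub_betaG hb) h, fun A h1 h2 h3 =>
        cent_Oc_of_cent_Kst hM hK hne hq h1 h2 h3⟩
    have h1 := cyc_prk hc q
    have h2 := mem_alpha.1 (beta_sub_alpha hb)
    rw [sQ.prk_syl] at h1
    omega

theorem mem_tau2_of_el (hM : Mx M) (hA : El p 2 A M) (hp : p ∉ sigma M) : p ∈ tau2 M := by
  have := hA.le_prk
  rcases B12_1.partition_pi_mmax hM hA.prime hA.dvd with h | h | h | h
  · have := tau1_prk h; omega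
  · exact h
  · have := tau3_prk h; omega
  · exact absurd h hp

/-- 15.8 -/
theorem tau2_P2type_signalizer (hw : r ∈ vw G) (hM : TypeP2 M) (h : KappaCompl M U K) (hMs : Mx Mstar)
    (hC : C(K) ≤ Mstar) (hR : Syl r R U) (hH : Mx H) (hN : N(R) ≤ H) (hq : q ∈ tau2 H) :
    q = #K ∧ tau2 H = {q} ∧ tau2 M = ∅ := by
  have mM := hM.1.1
  have pK := ((B14_2.Ptype_structure hM.1 h.hallK).2.2.2.2.2 hM).2.1
  obtain ⟨Mst, PMs, -, u1, ⟨hKs, -⟩, ⟨eK, -⟩, -⟩ := B14_7.Ptype_embedding hM.1 h.hallK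
  obtain rfl := (u1 K le_rfl pK).uniq _ hMs hC
  obtain ⟨FH, hU, eUK, -, hKF, hD⟩ := B14_11.P2type_signalizer hw hM h hMs hC hR hH hN
  have hKD : K ≤ H ⊓ Mstar := hKF.trans (Fit_le _)
  have key : ∀ q ∈ tau2 H, q = #K ∧ ∃ Q : Subgroup G, PG q Q ∧ ¬ Ab Q := by
    intro q hq
    obtain ⟨A, hA⟩ := B12_1.ex_tau2Elem hH hD hq
    obtain ⟨⟨nA, hA1⟩, -⟩ := B12_5.tau2_compl_context hH hD hq hA
    have cA : A ≤ C(K) := by
      by_cases e : q = #K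
      · exact hA.le_cent.trans (cent_mono (hA1 K (e ▸ el1_of_prime hKD pK)))
      · exact nil_cents_pi (Fit_nil _) (le_Fit nA hA.pg.nil) hKF hA.pg
          ((PiN.of_card pK rfl).sing_ne (Ne.symm e))
    have hAs := hA.mono inf_le_right
    have sq : q ∈ sigma Mstar := by
      by_contra hs
      refine ne_bot_of_prime pK (H19.eq_bot_mono (le_inf ?_ (cents_symm cA))
        (B12_5.tau2_context hMs (mem_tau2_of_el hMs hAs hs) hAs).2.2.2.1)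
      exact eK ▸ inf_le_left
    have bq := (B12_1.tau2_not_beta hH hq).1
    have P1 : TypeP1 Mstar := PMs.cases.resolve_right fun h2 =>
      bq (beta_sub_betaG (((B14_2.Ptype_structure PMs hKs).2.2.2.2.2 h2).1 ▸ sq))
    obtain ⟨Q, pQ, uQ, nQ, cQ⟩ := P1_exists_uniq P1 hKs (congrArg (fun Y : Subgroup G => #Y) eK.symm)
    have e : q = #K := by
      by_contra e
      have := U9.cent_uniq_Uniqueness uQ (cQ A ((B10_2.Msigma_Hall hMs).le_Oc hAs.le (hA.pi sq))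
        (hA.pg.sing_ne e) (by rw [eK]; exact cA)) (by rw [hA.rk_eq]; omega)
      exact FH.not_P (eq_of_uniq this hMs hH hAs.le (hA.le.trans inf_le_left) ▸ PMs)
    exact ⟨e, Q, e ▸ pQ, nQ (e ▸ bq)⟩
  obtain ⟨e, Q, pQ, nQ⟩ := key q hq
  refine ⟨e, Set.eq_singleton_iff_unique_mem.2 ⟨hq, fun q' h' => (key q' h').1.trans e.symm⟩,
    Set.eq_empty_of_forall_notMem fun p hp => ?_⟩
  obtain ⟨A, hA⟩ := B12_1.ex_tau2Elem hH hD hq
  have eK1 : El q 1 K A := by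
    have := e ▸ el1_of_prime hKD pK
    exact this.of_le ((B12_5.tau2_compl_context hH hD hq hA).1.2 K this)
  have eX := el1_mk hA.prime inf_le_left (B12_7.nonabelian_tau2 hH hD hq hA pQ nQ).2.1.1
  obtain ⟨B, hB⟩ := exists_el (n := 2) (H := U) (tau2_prime hp) (by
    rw [h.hallU.prk_eq (fun h => h.elim (tau2_sigma' hp) fun h => kap_tau2' h hp), tau2_prk hp])
  have cB : A ⊓ C(Ms H) ≤ C(B) := inf_le_right.trans (cent_mono (hB.le.trans hU))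
  have ne : A ⊓ C(Ms H) ≠ K := fun e => hB.ne_bot (H19.eq_bot_mono
    (le_inf hB.le (cents_symm (e ▸ cB)))
    ((B14_2.kappa_compl_context mM h).2.2.2.1.cent le_rfl (ne_bot_of_prime pK)))
  have hAM : A ≤ M := hA.sup_eq eX eK1 ne ▸
    sup_le (cB.trans (B12_2.p2Elem_mmax mM (hB.mono h.hallU.le)).1) h.hallK.le
  have h1 := (hA.of_le hAM).le_prk
  rw [kap_prk (eK1.self.mem_pi h.hallK.pi)] at h1
  omega

theorem one_lt_sigMax (hM : Mx M) (hx : x ∈ Ms M) (hx1 : x ≠ 1) (hC : ¬ C[x] ≤ M) :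
    1 < (sigMax x).ncard := by
  by_contra h
  exact hC (((B14_4.FT_signalizer_trans (sigMax_ell1 hx1 ⟨hM, hx⟩)).2.2.2.2 M ⟨hM, hx⟩).2.2 h)

theorem not_TI_of_cent1 (hx : x ∈ H) (hx1 : x ≠ 1) (hC : ¬ C[x] ≤ M) :
    ∃ g, g ∉ M ∧ H ⊓ cj g H ≠ ⊥ := by
  obtain ⟨g, hg, hgM⟩ := SetLike.not_le_iff_exists.1 hC
  refine ⟨g, hgM, ne_bot_of_mem (mem_inf.2 ⟨hx, mem_cj'.2 ⟨x, hx, ?_⟩⟩) hx1⟩
  rw [mem_cent1.1 hg, mul_inv_cancel_right]

/-- 15.9(a, b) -/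
theorem nonFtype_signalizer_base (hM : Mx M) (hx : x ∈ Ms M) (hx1 : x ≠ 1)
    (hC : ¬ C[x] ≤ M) (hN : ¬ TypeF (sigN x)) :
    TypeF M ∧ TypeP2 (sigN x) ∧ ∃ E, Hall (sigma M)ᶜ E M ∧ Cyc E ∧ Frob (Ms M) E M := by
  obtain ⟨u, -, t2, typ, h5⟩ := B14_4.FT_signalizer_context (sigMax_ell1 hx1 ⟨hM, hx⟩)
    (one_lt_sigMax hM hx hx1 hC)
  obtain ⟨-, s2, -, hE⟩ := h5 M ⟨hM, hx⟩
  have P2 := typ.resolve_left hN
  generalize sigN x = N at *
  obtain ⟨U, K, hU, eU⟩ := exists_kappaCompl_sup u.max hE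
  obtain ⟨r, hr, hrd⟩ := exists_prime_dvd_orderOf hx1
  have r2 := t2.mem hr hrd
  obtain ⟨R, hR⟩ := exists_syl r U
  have nR : N(R) ≤ M := by
    refine B12_10.norm_noncyclic_sigma hM (s2 r2) hR.pi
      (hR.le.trans (le_sup_left.trans (eU.le.trans inf_le_left))) fun hc => ?_
    have := cyc_prk hc r
    rw [hR.prk_syl, hU.hallU.prk_eq (fun h => h.elim (tau2_sigma' r2) fun h => kap_tau2' h r2),
      tau2_prk r2] at this
    omega
  obtain ⟨Ns, hNs, hC'⟩ := mmax_exists (loc_cent ((typeP_iff u.max hU.hallK).1 P2.1) (hU.hallK.pi.mono kap_sub_w))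
  obtain ⟨FM, -, -, -, -, hD⟩ := B14_11.P2type_signalizer (sigma_w (s2 r2)) P2 hU hNs hC' hR hM nR
  have t2M : ∀ q, q ∉ tau2 M := fun q hq => by
    have := (tau2_P2type_signalizer (sigma_w (s2 r2)) P2 hU hNs hC' hR hM nR hq).2.2
    exact (this ▸ r2 : r ∈ (∅ : Set ℕ))
  obtain ⟨g, hg, hg1⟩ := not_TI_of_cent1
    (le_Fit (Ms_normal M) (B14_1.notP1type_Msigma_nil (Or.inl FM)) hx) hx1 hC
  have t3 := (nonTI_Fitting_structure hM hg rfl hg1).2.2.1.2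
  have t1 : PiG (tau1 M) (M ⊓ Ns) := fun p hp hd => by
    rcases (B12_1.partition_pi_sigma_compl hM hD).1 ⟨hp, hd⟩ with h | h | h
    · exact h
    · exact absurd h (t2M p)
    · exact absurd (t3 ▸ h : p ∈ (∅ : Set ℕ)) (Set.notMem_empty p)
  obtain ⟨E2, E3, sc⟩ := B12_1.ex_tau23_compl hM hD (Hall.self t1)
  refine ⟨FM, P2, _, hD, (B12_1.sigma_compl_context hM sc).2.2.1.1, B12_1.sdprod_sigma hM hD,
    B10_2.Msigma_neq1 hM, sigma_compl_ne_bot hM hD, semireg_of_el1 fun p X hX => ?_⟩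
  by_contra h0
  have : p ∈ kap M := ⟨Or.inl (hX.mem_pi t1), X, hX.mono inf_le_left, h0⟩
  exact (FM.2 ▸ this : p ∈ (∅ : Set ℕ))

instance inst_B15_8 : B15_8 G := ⟨tau2_P2type_signalizer, nonFtype_signalizer_base⟩

instance inst_B15 : B15 G := {}

end

end H13.V
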