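/-
Port of `H17/TypeDefs,H17/B16a,H17/B16b` to the `ϖ`-local setting.
-/
import Cfsg.Agent.H13.V15b

set_option autoImplicit false
set_option linter.unusedSectionVars false

namespace H13.V
section
open Cfsg Subgroup
open H17
open H19

universe u

/-- `κ(M)` -/
abbrev kappa {G : Type u} [Group G] [VS G] (M : Subgroup G) : Set ℕ := kap M

/-- the factorisation `M = K U M_σ` -/
structure IsSigmaDecomposition {G : Type u} [Group G] [VS G] (M K U : Subgroup G) : Prop where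
  cyclic : IsCyclic K
  hall : IsPiHallOf (kappa M) K M
  compl : IsComplIn U (K ⊔ Ms M) M
  normal : K ≤ Subgroup.normalizer (U : Set G)

/-- `U` is a `w`-group whose normalizer lies in `M` -/
def NW {G : Type u} [Group G] [VS G] (U M : Subgroup G) : Prop := N(U) ≤ M ∧ PiG (vw G) U

/-- type II -/
def IsOfTypeII {G : Type u} [Group G] [VS G] (M : Subgroup G) : Prop :=
  ∃ W₁ U W₂ : Subgroup G, IsTypePWith M W₁ U W₂ ∧ U ≠ ⊥ ∧ (Nat.card W₁).Prime ∧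
    IsTISubset (fittingOf M : Set G) ∧ IsMulCommutative U ∧ ¬ NW U M ∧
    IsOfTypeF ↥⁅M, M⁆ ∧ fittingHallOf ⁅M, M⁆ = fittingHallOf M

/-- type III -/
def IsOfTypeIII {G : Type u} [Group G] [VS G] (M : Subgroup G) : Prop :=
  ∃ W₁ U W₂ : Subgroup G, IsTypePWith M W₁ U W₂ ∧ U ≠ ⊥ ∧ (Nat.card W₁).Prime ∧
    IsTISubset (fittingOf M : Set G) ∧ IsMulCommutative U ∧ NW U M

/-- type IV -/
def IsOfTypeIV {G : Type u} [Group G] [VS G] (M : Subgroup G) : Prop :=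
  ∃ W₁ U W₂ : Subgroup G, IsTypePWith M W₁ U W₂ ∧ U ≠ ⊥ ∧ (Nat.card W₁).Prime ∧
    IsTISubset (fittingOf M : Set G) ∧ ¬ IsMulCommutative U ∧ NW U M

open scoped Classical in
/-- `M_s` -/
noncomputable def typeCore {G : Type u} [Group G] [VS G] (M : Subgroup G) : Subgroup G :=
  if IsOfTypeIII M ∨ IsOfTypeIV M then ⁅M, M⁆ else fittingHallOf M

/-- `A₁(M)` -/
noncomputable def typeA1 {G : Type u} [Group G] [VS G] (M : Subgroup G) : Set G :=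
  (↑(typeCore M) : Set G) \ {1}

open scoped Classical in
/-- `R(x)` -/
noncomputable def supportR {G : Type u} [Group G] [VS G] (M : Subgroup G) (x : G) : Subgroup G :=
  if h : ¬ Subgroup.centralizer ({x} : Set G) ≤ M ∧
      ∃! L : Subgroup G, Mx L ∧ Subgroup.centralizer ({x} : Set G) ≤ L then
    fittingHallOf (Classical.choose h.2.exists) ⊓ Subgroup.centralizer ({x} : Set G)
  else ⊥

/-- `Ã` -/
noncomputable def tildeOf {G : Type u} [Group G] [VS G] (M : Subgroup G) (A : Set G) : Set G :=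
  {g | ∃ a ∈ A, ∃ r ∈ supportR M a, ∃ y : G, g = y * (a * r) * y⁻¹}

open scoped Classical in
/-- `A(M)`: `Cfsg.typeA` with `TypeI` -/
noncomputable def tA {G : Type u} [Group G] [VS G] (M : Subgroup G) : Set G :=
  if TypeI M then
    {a | a ∈ M ∧ a ≠ 1 ∧ ∃ x ∈ fittingHallOf M, x ≠ 1 ∧ a * x = x * a}
  else
    {a | a ∈ ⁅M, M⁆ ∧ a ≠ 1 ∧ ∃ x ∈ typeCore M, x ≠ 1 ∧ a * x = x * a}

/-- `A₀(M)`: `Cfsg.typeA0` with `TypeI` -/
noncomputable def tA0 {G : Type u} [Group G] [VS G] (M : Subgroup G) : Set G :=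
  tA M ∪ {v | ¬ TypeI M ∧ ∃ W₁ U W₂ : Subgroup G, IsTypePWith M W₁ U W₂ ∧
    ∃ m ∈ M, ∃ w ∈ W₁ ⊔ W₂, w ∉ W₁ ∧ w ∉ W₂ ∧ v = m * w * m⁻¹}

/-- the results of Bender-Glauberman section 16 for `G` (field `sNNNN` is statement SNNNN) -/
class BGI' (G : Type u) [Group G] [VS G] : Prop where
  s1350
    (M : Subgroup G) (hM : Mx M) :
    Cfsg.IsPiHallOf (sigma M) (Ms M) M ∧ Cfsg.IsPiHall (sigma M) (Ms M) ∧
    ∀ N : Subgroup G, M ≤ Subgroup.normalizer (N : Set G) → Cfsg.IsPiHallOf (sigma M) N M →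
    N = Ms M
  s1351
    (M : Subgroup G) (hM : Mx M) :
    (∃ K : Subgroup G, Cfsg.IsPiHallOf (kappa M) K M) ∧
    ∀ K : Subgroup G, Cfsg.IsPiHallOf (kappa M) K M → IsCyclic K
  s1352
    (M : Subgroup G) (hM : Mx M) (K : Subgroup G)
    (hKc : IsCyclic K) (hK : Cfsg.IsPiHallOf (kappa M) K M) :
    (∃ U : Subgroup G, IsSigmaDecomposition M K U) ∧
    ∀ U : Subgroup G, IsSigmaDecomposition M K U → M ≤ Subgroup.normalizer ((U ⊔ Ms M : Subgroup G) : Set G)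
  s1354
    (M : Subgroup G) (hM : Mx M) (K : Subgroup G)
    (hKc : IsCyclic K) (hK : Cfsg.IsPiHallOf (kappa M) K M) :
    Ms M ⊓ Subgroup.centralizer (K : Set G) ≠ ⊥ ∧
    (K ≠ ⊥ → ∀ k ∈ K, k ≠ 1 →
    M ⊓ Subgroup.centralizer ({k} : Set G) = K ⊔ (Ms M ⊓ Subgroup.centralizer (K : Set G)))
  s1357
    (M : Subgroup G) (hM : Mx M) (K U : Subgroup G) (hKU : IsSigmaDecomposition M K U) (hne : Cfsg.fittingHallOf M ≠ Ms M) :
    U = ⊥ ∧ Cfsg.IsTISubset (Cfsg.fittingOf M : Set G) ∧ (Nat.card K).Prime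
  s1365
    (M : Subgroup G) (hM : Mx M) (K U : Subgroup G) (hKU : IsSigmaDecomposition M K U) (hK1 : K ≠ ⊥) :
    ⁅M, M⁆ = U ⊔ Ms M ∧ (Ms M ⊓ Subgroup.centralizer (K : Set G)) ≤ ⁅⁅M, M⁆, ⁅M, M⁆⁆
  s1378 :
    (∀ p : ℕ, p ∈ vw G → p.Prime → p ∣ Nat.card G → ∃ M : Subgroup G, Mx M ∧ p ∈ sigma M) ∧
    ∀ M N : Subgroup G, Mx M → Mx N → (sigma M ∩ sigma N).Nonempty → ∃ g : G, N = M.map (MulAut.conj g).toMonoidHom
  s1379 :
    (∀ M N : Subgroup G, Mx M → Mx N → (∀ g : G, N ≠ M.map (MulAut.conj g).toMonoidHom) → tildeOf M ((Ms M : Set G) \ {1}) ∩ tildeOf N ((Ms N : Set G) \ {1}) = ∅)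
  s1380
    (M : Subgroup G) (hM : Mx M) (K U : Subgroup G) (hKU : IsSigmaDecomposition M K U) :
    TypeI M ↔ (K = ⊥ ∧ U ≠ ⊥)
  s1381
    (M : Subgroup G) (hM : Mx M) (K U : Subgroup G) (hKU : IsSigmaDecomposition M K U) :
    IsOfTypeII M ↔ (K ≠ ⊥ ∧ U ≠ ⊥)
  s1382
    (M : Subgroup G) (hM : Mx M) (K U : Subgroup G) (hKU : IsSigmaDecomposition M K U) :
    (IsOfTypeIII M ∨ IsOfTypeIV M) ↔ (K ≠ ⊥ ∧ U = ⊥ ∧ Cfsg.fittingHallOf M ≠ Ms M)
  s1383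
    (M : Subgroup G) (hM : Mx M) (K U : Subgroup G) (hKU : IsSigmaDecomposition M K U) :
    Cfsg.IsOfTypeV M ↔ (K ≠ ⊥ ∧ U = ⊥ ∧ Cfsg.fittingHallOf M = Ms M)
  s1385 :
    (∀ M : Subgroup G, Mx M → TypeI M) ∨
    ∃ W₁ W₂ S T : Subgroup G, Cfsg.IsSelfNormalizingCyclic W₁ W₂ ∧ Mx S ∧ Mx T ∧
    Cfsg.IsComplIn ⁅S, S⁆ W₁ S ∧ Cfsg.IsComplIn ⁅T, T⁆ W₂ T ∧ S ⊓ T = W₁ ⊔ W₂ ∧
    (IsOfTypeII S ∨ IsOfTypeII T) ∧
    (IsOfTypeII S ∨ IsOfTypeIII S ∨ IsOfTypeIV S ∨ Cfsg.IsOfTypeV S) ∧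
    (IsOfTypeII T ∨ IsOfTypeIII T ∨ IsOfTypeIV T ∨ Cfsg.IsOfTypeV T) ∧
    ∀ M : Subgroup G, Mx M → TypeI M ∨ ∃ g : G, M = S.map (MulAut.conj g).toMonoidHom ∨ M = T.map (MulAut.conj g).toMonoidHom
  s1389
    (M : Subgroup G) (hM : Mx M) :
    (∀ (p : ℕ), p.Prime → ∀ (P : Sylow p ↥(typeCore M)), (P : Subgroup ↥(typeCore M)) ≠ ⊥ →
    Subgroup.normalizer ((((P : Subgroup ↥(typeCore M)).map (typeCore M).subtype : Subgroup G)) : Set G) ≤ M) ∧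
    (Nat.card (Cfsg.fittingHallOf M)).Coprime (Cfsg.fittingHallOf M).index ∧
    (Nat.card (typeCore M)).Coprime (typeCore M).index
  s1390
    (M : Subgroup G) (hM : Mx M) (U : Subgroup G)
    (hU : (TypeI M ∧ Cfsg.IsComplIn (Cfsg.fittingHallOf M) U M) ∨ (IsOfTypeII M ∧ Cfsg.IsComplIn (Cfsg.fittingHallOf M) U ⁅M, M⁆)) :
    (∀ (p : ℕ), p.Prime → ∀ P : Sylow p U, IsMulCommutative (P : Subgroup U) ∧ Cfsg.PRankLE p 2 (P : Subgroup U)) ∧
    (∀ X : Set G, X ⊆ (U : Set G) \ {1} → X.Nonempty → Cfsg.fittingHallOf M ⊓ Subgroup.centralizer X ≠ ⊥ →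
    Subgroup.centralizer X ≤ M ∧ ∀ L : Subgroup G, Mx L → Subgroup.centralizer X ≤ L → L = M) ∧
    Cfsg.IsTISubset (tA M \ typeA1 M)
  s1391
    (M : Subgroup G) (hM : Mx M) (X : Set G) (hX : X = tA M ∨ X = tA0 M) :
    (∀ x ∈ X, ∀ g : G, g * x * g⁻¹ ∈ X → ∃ m ∈ M, m * x * m⁻¹ = g * x * g⁻¹) ∧
    (∀ x ∈ X, ¬ Subgroup.centralizer ({x} : Set G) ≤ M → x ∈ typeA1 M ∧ ∃! L : Subgroup G, Mx L ∧ Subgroup.centralizer ({x} : Set G) ≤ L) ∧
    ∀ x ∈ X, ¬ Subgroup.centralizer ({x} : Set G) ≤ M → ∀ L : Subgroup G, Mx L → Subgroup.centralizer ({x} : Set G) ≤ L →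
    Cfsg.IsComplIn (Cfsg.fittingHallOf L) (M ⊓ L) L ∧
    Subgroup.centralizer ({x} : Set G) ≤ Subgroup.normalizer ((Cfsg.fittingHallOf L ⊓ Subgroup.centralizer ({x} : Set G) : Subgroup G) : Set G) ∧
    Cfsg.IsComplIn (Cfsg.fittingHallOf L ⊓ Subgroup.centralizer ({x} : Set G)) (M ⊓ Subgroup.centralizer ({x} : Set G)) (Subgroup.centralizer ({x} : Set G)) ∧
    (∀ y ∈ X, (Nat.card (Cfsg.fittingHallOf L)).Coprime (Nat.card ↥(M ⊓ Subgroup.centralizer ({y} : Set G)))) ∧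
    (x ∈ tA L ∧ x ∉ typeA1 L) ∧
    (TypeI L ∨ IsOfTypeII L) ∧
    (IsOfTypeII L → ∃ E : Subgroup ↥M, Cfsg.IsFrobeniusComplement E ∧ Cfsg.frobeniusKernel E = ((Cfsg.fittingHall ↥M : Subgroup ↥M) : Set ↥M))

end

section
open H17
open Cfsg Subgroup H19 H18

attribute [-instance] H18.fintypeSubgroup
universe u
variable {G : Type u} [Group G] [Finite G] [VS G] {M U K X E D H V W W₁ W₂ T R L P Q A B Z : Subgroup G}
  {p q r : ℕ} {π : Set ℕ} {g x : G}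

variable [H18.Gen.{u}] [U79 G] [B10 G] [B11 G] [B12 G] [B13 G] [B14 G]

theorem hall_kappa_iff (_hM : Mx M) : IsPiHallOf (kappa M) K M ↔ Hall (kap M) K M := by
  rw [hall_iff]

theorem sigmaDecomp_iff (hM : Mx M) : IsSigmaDecomposition M K U ↔ KappaCompl M U K := by
  have key : Hall (kap M) K M → Hall (sigma M ∪ kap M) (K ⊔ Ms M) M := fun hK => by
    rw [sup_comm]
    exact (B10_2.Msigma_Hall hM).union hK ((Ms_normal M).norms hK.le)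
  constructor
  · intro h
    have hK := (hall_kappa_iff hM).1 h.hall
    exact ⟨hall_of_complIn h.compl (key hK), hK, h.normal⟩
  · intro h
    obtain ⟨hE, sdE, -⟩ := B14_2.kappa_compl_context hM h
    refine ⟨kappa_cyclic hM h.hallK, (hall_kappa_iff hM).2 h.hallK, ⟨h.hallU.le,
      (key h.hallK).le, PiN.inf_eq_bot' h.hallU.pi (key h.hallK).pi, fun m hm => ?_⟩, h.norm⟩
    obtain ⟨e, he, s, hs, rfl⟩ := (B12_1.sdprod_sigma hM hE).mem' hm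
    obtain ⟨u, hu, k, hk, rfl⟩ := sdE.mem he
    exact ⟨u, hu, k * s, mul_mem_sup hk hs, mul_assoc _ _ _⟩

theorem cent1_kappa (hP : TypeP M) (hK : Hall (kap M) K M) (hx : x ∈ K) (h1 : x ≠ 1) :
    M ⊓ C[x] = K ⊔ Kst M K := by
  obtain ⟨_, -, -, -, -, -, ⟨-, -, h, -⟩, -⟩ := B14_7.Ptype_embedding hP hK
  exact h x hx h1

theorem der_cent1_kappa (hP : TypeP M) (hK : Hall (kap M) K M) (hx : x ∈ K) (h1 : x ≠ 1) :
    ⁅M, M⁆ ⊓ C[x] = Kst M K := by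
  rw [← inf_eq_left.2 (der_le M), inf_assoc, cent1_kappa hP hK hx h1, inf_comm,
    sup_inf_modr (inf_le_right.trans (cent_le_norm K)) (inf_le_left.trans (B10_2.Msigma_der1 hP.1)),
    inf_comm, (der_sdprod hP hK).inf, bot_sup_eq]

theorem Zhat_TI (hP : TypeP M) (hK : Hall (kap M) K M) :
    Cyc (K ⊔ Kst M K) ∧ NormedTI (Zhat K (Kst M K)) (K ⊔ Kst M K) := by
  obtain ⟨_, -, -, -, -, -, ⟨h1, -⟩, ⟨h2, -⟩, -⟩ := B14_7.Ptype_embedding hP hK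
  exact ⟨h1, h2⟩

theorem selfNorm_kappa (hP : TypeP M) (hK : Hall (kap M) K M) :
    IsSelfNormalizingCyclic K (Kst M K) := by
  obtain ⟨hc, hT⟩ := Zhat_TI hP hK
  refine ⟨(typeP_iff hP.1 hK).1 hP, (Ptype_cyclics hP hK).1,
    PiN.inf_eq_bot' (kap_sigma'_pi hK.pi) ((Ms_pi M).infl _),
    fun a ha b hb => mem_cent.1 hb.2 a ha, hc, fun X hX ⟨x, hx⟩ => le_antisymm (fun g hg => ?_)
      fun g hg => mem_set_norm fun y hy => ?_⟩
  · exact hT.ti g x (hX hx) (hX ((mem_set_normalizer_iff.1 hg x).1 hx))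
  · rwa [mul_comm_of_comm (comm_of_cyclic hc) hg (hX hy).1, mul_inv_cancel_right]

theorem typePWith_of (hP : TypeP M) (hK : Hall (kap M) K M) (sd : Sdprod (Fcore M) V ⁅M, M⁆)
    (hn : K ≤ N(V)) : IsTypePWith M K V (Kst M K) := by
  have hM := hP.1
  obtain ⟨-, -, h3, h4, h5⟩ := Ptype_cyclics hP hK
  exact ⟨(typeP_iff hM hK).1 hP, kappa_cyclic hM hK, hK.coprime, (der_sdprod hP hK).complIn,
    nil_of_quo_disjoint sd.norm sd.inf (nil_mono (nil_quo_Fcore_der hM) (quo_mono _ sd.right_le)),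
    hn, sd.complIn, h5, (Fcore_sup_cent hM).symm ▸ der2_le_Fit hM, Fcore_sup_cent hM,
    TypeP.Fit_le_der hP, le_inf h4 h3, fun x hx h1 => der_cent1_kappa hP hK hx h1,
    selfNorm_kappa hP hK⟩

theorem exists_typePWith (hP : TypeP M) (hK : Hall (kap M) K M) :
    ∃ V, IsTypePWith M K V (Kst M K) := by
  have sd := der_sdprod hP hK
  obtain ⟨V, hV, hn⟩ := inv_hall_exists (primes #(Fcore M))ᶜ sd.norm
    ((TypeP.der_hall hP).pi.coprime' hK.pi) (mmax_sub_sol hP.1 (der_le M))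
  exact ⟨V, typePWith_of hP hK (sdprod_of_hall ((Fcore_hall M).of_le
    ((Fcore_le_Ms hP.1).trans (B10_2.Msigma_der1 hP.1)) (der_le M))
    ((der_le M).trans (Fcore_norm M)) hV) hn⟩

theorem typePWith_sd (h : IsTypePWith M W₁ V W₂) : Sdprod (Fcore M) V ⁅M, M⁆ :=
  sdprod_of_complIn h.U_compl ((h.U_compl.2.1.trans (der_le M)).trans (Fcore_norm M))

theorem of_typePWith (hM : Mx M) (h : IsTypePWith M W₁ V W₂) :
    TypeP M ∧ Hall (kap M) W₁ M ∧ W₂ = Kst M W₁ := by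
  have sd : Sdprod ⁅M, M⁆ W₁ M := sdprod_of_complIn h.W₁_compl ((der_normal M).norms h.W₁_compl.2.1)
  obtain ⟨p, X, hX⟩ := exists_el1' h.W₁_ne
  have hd : p ∣ #W₁ := hX.dvd
  have hall := hall_of_coprime sd.right_le h.W₁_hall
  have h1 : ¬ p ∣ #(⁅M, M⁆) := sd.relIndex_right ▸ hall.idx.not_dvd hX.prime ⟨hX.prime, hd⟩
  have hk : p ∈ kap M := by
    refine ⟨Or.inl (mem_tau1.2 ⟨fun hs => h1 (((B10_2.Msigma_Hall hM).prime_dvd hX.prime hs
      (sigma_dvd hs)).trans (card_dvd (B10_2.Msigma_der1 hM))), ?_, h1⟩), X, hX.mono sd.right_le, ?_⟩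
    · rw [← hall.prk_eq ⟨hX.prime, hd⟩]
      exact le_antisymm (cyc_prk h.W₁_cyclic p) hX.le_prk
    · refine ne_bot_mono (le_inf ((h.W₂_le.trans inf_le_left).trans (Fcore_le_Ms hM)) ?_)
        h.selfNormalizing.2.1
      exact fun b hb => mem_cent.2 fun a ha => h.selfNormalizing.2.2.2.1 a (hX.le ha) b hb
  have hP : TypeP M := ⟨hM, p, hk⟩
  have hK : Hall (kap M) W₁ M := by simpa using sd.hall_right (TypeP.der_hall hP)
  obtain ⟨x, hx, hx1⟩ := exists_ne_one h.W₁_ne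
  exact ⟨hP, hK, by rw [← h.W₂_centralizer x hx hx1, der_cent1_kappa hP hK hx hx1]⟩

theorem Fit_TI (hM : Mx M) (h : ∀ g, g ∉ M → Fit M ⊓ cj g (Fit M) = ⊥) (hH : H ⊴ M)
    (hle : H ≤ Fit M) (h1 : H ≠ ⊥) : IsTISubset (H : Set G) :=
  isTI_iff.2 fun g hg => H19.eq_bot_mono (inf_le_inf hle (cj_mono g hle))
    (h g (mmax_normal hM hH h1 ▸ hg))

theorem TypeF.sdprod (h : TypeF M) (hU : KappaCompl M U K) : Sdprod (Ms M) U M := by
  obtain rfl := (typeF_iff h.1 hU.hallK).1 h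
  obtain ⟨⟨sd1, sd2, -⟩, -⟩ := kappa_structure h.1 hU
  have := sd2.sup
  rw [sup_bot_eq] at this
  rwa [this] at sd1

theorem Fcore_eq_of_FP2 (h : TypeF M ∨ TypeP2 M) : Fcore M = Ms M :=
  (Fcore_eq_iff (h.elim (·.1) (·.1.1))).2 (B14_1.notP1type_Msigma_nil h)

theorem typeF_of_isOfTypeF (hM : Mx M) (h : IsOfTypeF M) : TypeF M := by
  refine (typeF_or_typeP hM).resolve_right fun hP => ?_
  obtain ⟨U, U0, sd, l0, e0, r0⟩ := exists_of_isOfTypeF h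
  obtain ⟨p, hp⟩ := hP.2
  have hp' := kap_prime hp
  have h1 : p ∣ #U := by
    have := kap_dvd hp
    rw [← sd.card] at this
    exact ((Nat.Prime.dvd_mul hp').1 this).resolve_left
      (((Ms_pi M).of_le (Fcore_le_Ms hM)).not_dvd' hp' (kap_sigma' hp))
  obtain ⟨x, hx, ox⟩ := exists_orderOf_eq_prime hp' h1
  have h2 : p ∣ #U0 := by
    refine dvd_trans ?_ Group.exponent_dvd_nat_card
    rw [← ox, ← Subgroup.orderOf_mk x hx]
    exact (Monoid.order_dvd_exponent _).trans (dvd_of_eq e0.symm)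
  obtain ⟨X, hX⟩ := exists_el1 hp' h2
  obtain ⟨K, hK, hXK⟩ := (hX.pi hp).exists_hall (mmax_sol hM) (hX.le.trans (l0.trans sd.right_le))
  obtain ⟨h3, -, -, h4, -⟩ := Ptype_cyclics hP hK
  exact h3 (H19.eq_bot_mono (le_inf h4 (inf_le_right.trans (cent_mono hXK))) (r0.cent hX.le hX.ne_bot))

theorem isOfTypeF_of_typeF (h : TypeF M) : IsOfTypeF M := by
  have hM := h.1
  obtain ⟨U, K, hU⟩ := exists_kappaCompl hM
  have e := Fcore_eq_of_FP2 (Or.inl h)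
  have sd := TypeF.sdprod h hU
  obtain ⟨-, -, -, h1, h2⟩ := kappa_structure hM hU
  exact isOfTypeF_of (mmax_sol hM) hM.1.odd (Fcore_ne_bot hM)
    (sigma_compl_ne_bot hM (sd.hall_right (B10_2.Msigma_Hall hM))) (e ▸ sd) (e ▸ h1) (e ▸ h2)

theorem typeI_iff (hM : Mx M) : TypeI M ↔ TypeF M := by
  refine ⟨fun h => typeF_of_isOfTypeF hM h.1, fun h => ⟨isOfTypeF_of_typeF h, ?_⟩⟩
  have e := Fcore_eq_of_FP2 (Or.inl h)
  by_cases hT : ∀ g, g ∉ M → Fit M ⊓ cj g (Fit M) = ⊥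
  · exact Or.inl (Fit_TI hM hT (Fcore_normal M) (Fcore_le_Fit M) (Fcore_ne_bot hM))
  push Not at hT
  obtain ⟨g, hg, h1⟩ := hT
  right
  rcases (nonTI_Fitting_structure hM hg rfl h1).2.2.2 with ⟨-, h2, h3⟩ | ⟨h2, h3, -, -, h4, h5⟩
  · rw [← e] at h2 h3
    exact Or.inl ⟨h2, rankLE_iff.2 h3.le, fun h => by
      have : rk (Fcore M) ≤ 1 := rankLE_iff.1 h
      omega⟩
  · refine Or.inr ⟨fun q hq hd => expo_quot_dvd ?_, _, h2, ?_, e ▸ h4⟩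
    · rw [e]
      exact h5.resolve_right (fun h' => h.not_P h'.2.1.1) q hq (e ▸ hd)
    · change _ ∣ #(Fcore M)
      exact e ▸ (B10_2.Msigma_Hall hM).prime_dvd h2 h3 (sigma_dvd h3)

theorem norm_le_of_P1 (P1 : TypeP1 M) (h : IsTypePWith M W₁ V W₂) (h1 : V ≠ ⊥) : NW V M := by
  have hM := P1.1.1
  have sd := typePWith_sd h
  rw [← (P1_sdprod P1 (of_typePWith hM h).2.1).2.1] at sd
  obtain ⟨p, hp, hd⟩ := exists_prime_dvd_card h1
  have hV := sd.hall_right (Fcore_hall_Ms hM)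
  have hs := ((Ms_pi M).of_le hV.le).mem hp hd
  refine ⟨?_, (Ms_w M).of_le hV.le⟩
  exact (norm_le_norm_Oc _ _).trans (norm_sigma_Sylow hs ((B10_2.Msigma_Hall hM).sub_syl hs
    (hV.sub_syl (hV.pi.mem hp hd) (nil_Oc_hall h.U_nilpotent {p}))))

theorem P2_not_norm_le (P2 : TypeP2 M) (h : KappaCompl M U K) : ¬ NW U M := by
  rintro ⟨h5, hw⟩
  obtain ⟨Ms', h1, h2⟩ := mmax_exists (loc_cent ((typeP_iff P2.1.1 h.hallK).1 P2.1) (h.hallK.pi.mono kap_sub_w))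
  obtain ⟨r, hr, hd⟩ := exists_prime_dvd_card (mt h.eq_bot_iff.1 P2.2)
  obtain ⟨R, hR⟩ := exists_syl r U
  obtain ⟨H, h3, h4⟩ := exists_mmax_norm (hR.sne_bot hr hd) (hw.of_le hR.le)
  exact (B14_11.P2type_signalizer (hw r hr hd) P2 h h1 h2 hR h3 h4).2.2.2.1 (inf_le_right.trans h5)

theorem hall_compl_der (hP : TypeP M) (sd : Sdprod (Ms M) V ⁅M, M⁆) :
    Hall (sigma M ∪ kap M)ᶜ V M := by
  have := (TypeP.der_hall hP).inter (sd.hall_right ((B10_2.Msigma_Hall hP.1).of_le sd.left_le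
    (der_le M)))
  rwa [← Set.compl_union, Set.union_comm] at this

theorem Fit_TI_of (hM : Mx M) (h : TypeP2 M ∨ Fcore M ≠ Ms M) :
    IsTISubset (Fit M : Set G) := by
  refine Fit_TI hM (fun g hg => ?_) (Fit_normal M) le_rfl (Fit_mmax_ne_bot hM)
  by_contra h1
  obtain ⟨⟨h2, h3⟩, -⟩ := nonTI_Fitting_structure hM hg rfl h1
  exact h.elim (fun h => h2.elim (fun h2 => h2.not_P h.1) fun h2 => h2.not_P2 h) fun h => h h3

theorem Fcore_der (hP : TypeP M) : Fcore ⁅M, M⁆ = Fcore M := by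
  have h1 := (Fcore_le_Ms hP.1).trans (B10_2.Msigma_der1 hP.1)
  refine le_antisymm (le_Fcore (π := (kap M)ᶜ ∩ primes #(Fcore ⁅M, M⁆))
    ((TypeP.der_hall hP).inter (Fcore_hall _)) ((der_normal M).norm.trans (norm_le_norm_Fcore _))
    (Fcore_nil _)) (le_Fcore ((Fcore_hall M).of_le h1 (der_le M))
    ((der_le M).trans (Fcore_norm M)) (Fcore_nil M))

theorem P2_sdprod (P2 : TypeP2 M) (h : KappaCompl M U K) : Sdprod (Ms M) U ⁅M, M⁆ ∧ Ab U := by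
  obtain ⟨⟨sd1, -⟩, hb, -⟩ := kappa_structure P2.1.1 h
  obtain ⟨e, ab⟩ := hb ((typeP_iff P2.1.1 h.hallK).1 P2.1)
  exact ⟨e ▸ sd1, ab⟩

theorem typeII_iff (hM : Mx M) : IsOfTypeII M ↔ TypeP2 M := by
  constructor
  · rintro ⟨W₁, V, W₂, h, h1, -, -, -, h2, -⟩
    exact (of_typePWith hM h).1.cases.resolve_left fun P1 => h2 (norm_le_of_P1 P1 h h1)
  · intro P2
    obtain ⟨U, K, hU⟩ := exists_kappaCompl hM
    have e := Fcore_eq_of_FP2 (Or.inr P2)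
    obtain ⟨sd, ab⟩ := P2_sdprod P2 hU
    have U1 := mt hU.eq_bot_iff.1 P2.2
    have e2 := Fcore_der P2.1
    obtain ⟨-, -, -, h1, h2⟩ := kappa_structure hM hU
    rw [← e] at sd h1 h2
    refine ⟨K, U, _, typePWith_of P2.1 hU.hallK sd hU.norm, U1,
      ((B14_2.Ptype_structure P2.1 hU.hallK).2.2.2.2.2 P2).2.1, Fit_TI_of hM (Or.inl P2), ab,
      P2_not_norm_le P2 hU, ?_, e2⟩
    rw [← e2] at sd h1 h2
    exact isOfTypeF_of (mmax_sub_sol hM (der_le M)) (hM.odd (der_le M)) (e2 ▸ Fcore_ne_bot hM) U1 sd h1 h2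

theorem type34_iff (hM : Mx M) :
    (IsOfTypeIII M ∨ IsOfTypeIV M) ↔ TypeP1 M ∧ Fcore M ≠ Ms M := by
  constructor
  · intro h
    obtain ⟨W₁, V, W₂, h, h1, h2⟩ : ∃ W₁ V W₂, IsTypePWith M W₁ V W₂ ∧ V ≠ ⊥ ∧ NW V M := by
      rcases h with ⟨W₁, V, W₂, h, h1, -, -, -, h2⟩ | ⟨W₁, V, W₂, h, h1, -, -, -, h2⟩ <;>
        exact ⟨W₁, V, W₂, h, h1, h2⟩
    obtain ⟨hP, hK, -⟩ := of_typePWith hM h
    have sd := typePWith_sd h
    have P1 : TypeP1 M := hP.cases.resolve_right fun P2 => P2_not_norm_le P2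
      ⟨hall_compl_der hP (Fcore_eq_of_FP2 (Or.inr P2) ▸ sd), hK, h.U_normal⟩ h2
    refine ⟨P1, fun e => h1 ?_⟩
    rw [← sd.inf, e, (P1_sdprod P1 hK).2.1, inf_eq_right.2 sd.right_le]
  · rintro ⟨P1, hne⟩
    obtain ⟨K, hK⟩ := exists_hall (kap M) (mmax_sol hM)
    obtain ⟨V, hV⟩ := exists_typePWith P1.1 hK
    have V1 : V ≠ ⊥ := fun e => hne (by
      rw [(P1_sdprod P1 hK).2.1, ← (typePWith_sd hV).sup, e, sup_bot_eq])
    obtain ⟨D, hD⟩ := exists_hall {#(Kst M K)}ᶜ (mmax_sub_sol hM (Ms_le M))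
    have pK := (Fcore_structure hM hK hne rfl hD).1.2.1.1
    have hT := Fit_TI_of hM (Or.inr hne)
    by_cases ab : Ab V
    · exact Or.inl ⟨K, V, _, hV, V1, pK, hT, ab, norm_le_of_P1 P1 hV V1⟩
    · exact Or.inr ⟨K, V, _, hV, V1, pK, hT, ab, norm_le_of_P1 P1 hV V1⟩

theorem typeV_iff (hM : Mx M) : IsOfTypeV M ↔ TypeP1 M ∧ Fcore M = Ms M := by
  constructor
  · rintro ⟨W₁, V, W₂, h, rfl, -⟩
    obtain ⟨hP, hK, -⟩ := of_typePWith hM h
    have e1 := (typePWith_sd h).sup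
    rw [sup_bot_eq] at e1
    have e : Fcore M = Ms M := le_antisymm (Fcore_le_Ms hM) (e1 ▸ B10_2.Msigma_der1 hM)
    refine ⟨⟨hP, ?_⟩, e⟩
    have sd := der_sdprod hP hK
    rw [← e1, e] at sd
    exact (((Ms_pi M).mono Set.subset_union_left).sup (hK.pi.mono Set.subset_union_right)
      sd.norm).of_le sd.sup.ge
  · rintro ⟨P1, e⟩
    obtain ⟨K, hK⟩ := exists_hall (kap M) (mmax_sol hM)
    obtain ⟨sd, hd, -⟩ := P1_sdprod P1 hK
    refine ⟨K, ⊥, _, typePWith_of P1.1 hK ⟨bot_le, by rw [sup_bot_eq, e, hd], inf_bot_eq _⟩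
      (by rw [norm_bot]; exact le_top), rfl, ?_⟩
    by_cases hT : ∀ g, g ∉ M → Fit M ⊓ cj g (Fit M) = ⊥
    · exact Or.inl (Fit_TI hM hT (Fcore_normal M) (Fcore_le_Fit M) (Fcore_ne_bot hM))
    push Not at hT
    obtain ⟨g, hg, h1⟩ := hT
    right
    rcases (nonTI_Fitting_structure hM hg rfl h1).2.2.2 with ⟨h2, -⟩ | ⟨h2, h3, -, -, h4, h5⟩
    · exact absurd P1.1 h2.not_P
    have h6 := (B10_2.Msigma_Hall hM).prime_dvd h2 h3 (sigma_dvd h3)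
    change (∃ p : ℕ, _ ∧ _ ∣ #(Fcore M) ∧ _ ∧ IsCyclic (pPrimeCore p (Fcore M))) ∨
      ∃ p : ℕ, _ ∧ _ ∣ #(Fcore M) ∧ Nat.card (pCore p (Fcore M)) = _ ∧ _ ∧
        IsCyclic (pPrimeCore p (Fcore M))
    rw [e]
    rcases h5 with h5 | ⟨h5, -, h7⟩
    · refine Or.inl ⟨_, h2, h6, ?_, cyc_pPrimeCore h2 h4⟩
      obtain ⟨x, ex⟩ := cyc_iff.1 (kappa_cyclic hM hK)
      have hx : x ∈ K := ex ▸ Subgroup.mem_zpowers x
      rw [← ex, Nat.card_zpowers, orderOf_dvd_iff_pow_eq_one, ← mem_bot, ← sd.inf]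
      exact ⟨h5 _ h2 h6 x (hK.le hx), pow_mem hx _⟩
    · exact Or.inr ⟨_, h2, h6, by rw [card_pCore h2, h5], sd.relIndex_left ▸ h7,
        cyc_pPrimeCore h2 h4⟩

theorem typeCore_eq (hM : Mx M) : typeCore M = Ms M := by
  unfold typeCore
  split_ifs with h
  · obtain ⟨K, hK⟩ := exists_hall (kap M) (mmax_sol hM)
    exact (P1_sdprod ((type34_iff hM).1 h).1 hK).2.1.symm
  · by_contra hne
    exact h ((type34_iff hM).2 ⟨P1_of_not_nil hM fun hn => hne ((Fcore_eq_iff hM).2 hn), hne⟩)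

theorem typeP_types (hP : TypeP M) :
    IsOfTypeII M ∨ IsOfTypeIII M ∨ IsOfTypeIV M ∨ IsOfTypeV M := by
  rcases hP.cases with h | h
  · by_cases e : Fcore M = Ms M
    · exact Or.inr (Or.inr (Or.inr ((typeV_iff hP.1).2 ⟨h, e⟩)))
    · exact Or.inr (((type34_iff hP.1).2 ⟨h, e⟩).imp_right Or.inl)
  · exact Or.inl ((typeII_iff hP.1).2 h)

end

section
open H17
open Cfsg Subgroup H19 H18

attribute [-instance] H18.fintypeSubgroup
universe u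
variable {G : Type u} [Group G] [Finite G] [VS G] {M N U K X E D H V W W₁ W₂ T R L P Q A B Z : Subgroup G}
  {p q r : ℕ} {π : Set ℕ} {g x y a : G}

variable [H18.Gen.{u}] [U79 G] [B10 G] [B11 G] [B12 G] [B13 G] [B14 G]

theorem frob_complement (h : Frob K R M) : IsFrobeniusComplement (R.subgroupOf M) ∧
    frobeniusKernel (R.subgroupOf M) = (K.subgroupOf M : Set M) := by
  obtain ⟨h1, h2⟩ := G3a.Frobenius_partition h.sd h.reg
  have hR := h.sd.right_le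
  have key : ∀ g x : M, x ∈ (open Pointwise in MulAut.conj g • R.subgroupOf M) ↔
      (x : G) ∈ cj (g : G) R := fun g x => by
    rw [← cj_eq_smul, mem_cj, mem_cj]; rfl
  refine ⟨⟨fun e => h.compl_ne ?_, fun e => h.ker_ne ?_, fun g hg => le_bot_iff.1 fun x hx => ?_⟩, ?_⟩
  · rwa [subgroupOf_eq_bot, disjoint_iff, inf_eq_left.2 hR] at e
  · rw [subgroupOf_eq_top] at e
    rw [← h.sd.inf, inf_eq_left.2 (h.sd.left_le.trans e)]
  · have : (x : G) ∈ R ⊓ cj (g : G) R := ⟨hx.1, (key g x).1 hx.2⟩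
    rw [h1 g g.2 hg, mem_bot] at this
    exact mem_bot.2 (Subtype.ext this)
  · ext x
    constructor
    · rintro (rfl | hx)
      · exact one_mem _
      · rcases h2 x x.2 with h3 | ⟨k, hk, h3⟩
        · exact h3
        · exact absurd ((key ⟨k, h.sd.left_le hk⟩ x).2 h3) (hx _)
    · intro hx
      refine or_iff_not_imp_left.2 fun hx1 g hg => hx1 (Subtype.ext ?_)
      have : (x : G) ∈ cj (g : G) K ⊓ cj (g : G) R := ⟨(h.sd.normal.cj_eq g.2).symm ▸ hx, (key g x).1 hg⟩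
      rwa [← cj_inf, h.sd.inf, cj_bot, mem_bot] at this

theorem mem_tA (hM : Mx M) :
    a ∈ tA M ↔ a ∈ M ∧ PiE (kap M)ᶜ a ∧ a ≠ 1 ∧ Ms M ⊓ C[a] ≠ ⊥ := by
  unfold tA
  rw [inf_cent1_ne_bot]
  split_ifs with h
  · have hF := (typeI_iff hM).1 h
    rw [← Fcore_eq_of_FP2 (Or.inl hF), hF.2]
    exact ⟨fun h => ⟨h.1, by simpa using PiN.univ, h.2⟩, fun h => ⟨h.1, h.2.2⟩⟩
  · have hP := (typeF_or_typeP hM).resolve_left (mt (typeI_iff hM).2 h)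
    rw [typeCore_eq hM]
    exact ⟨fun h => ⟨der_le M h.1, (TypeP.der_hall hP).pi.elt h.1, h.2⟩, fun h =>
      ⟨(TypeP.der_hall hP).mem_of_normal (der_normal M).norm h.1 h.2.1, h.2.2⟩⟩

theorem typeA1_eq (hM : Mx M) : typeA1 M = nt (Ms M) := by
  rw [typeA1, typeCore_eq hM]; rfl

theorem Kst_cj (g : G) (M K : Subgroup G) : Kst (cj g M) (cj g K) = cj g (Kst M K) := by
  rw [Kst, Kst, cj_inf, cj_cent, Ms_cj]

theorem mem_tA0 (hM : Mx M) (hK : Hall (kap M) K M) (h : a ∈ tA0 M) :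
    a ∈ tA M ∨ (TypeP M ∧ ∃ m ∈ M, ∃ z ∈ Zhat K (Kst M K), a = m * z * m⁻¹) := by
  refine h.imp_right ?_
  rintro ⟨-, W₁, V, W₂, h', m, hm, w, hw, h1, h2, rfl⟩
  obtain ⟨hP, hW, rfl⟩ := of_typePWith hM h'
  obtain ⟨g, hg, rfl⟩ := hK.conj hW (mmax_sol hM)
  have e := Kst_cj g M K
  rw [cj_of_mem hg] at e
  rw [e] at hw h2
  rw [← cj_sup] at hw
  exact ⟨hP, m * g, mul_mem hm hg, g⁻¹ * w * g, ⟨mem_cj.1 hw, fun h =>
    h.elim (fun h => h1 (mem_cj.2 h)) fun h => h2 (mem_cj.2 h)⟩, by group⟩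

theorem Zhat_not_kap' (hP : TypeP M) (hK : Hall (kap M) K M) (hz : a ∈ Zhat K (Kst M K)) :
    a ∈ M ∧ ¬ PiE (kap M)ᶜ a := by
  have h1 : a ∈ M := (sup_le hK.le (inf_le_left.trans (Ms_le M)) : K ⊔ Kst M K ≤ M) hz.1
  refine ⟨h1, fun h => hz.2 (Or.inr ?_)⟩
  obtain ⟨x, hx, hx1⟩ := exists_ne_one ((typeP_iff hP.1 hK).1 hP)
  rw [← der_cent1_kappa hP hK hx hx1]
  exact ⟨(TypeP.der_hall hP).mem_of_normal (der_normal M).norm h1 h, mem_cent1.2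
    (mul_comm_of_comm (comm_of_cyclic (Zhat_TI hP hK).1) hz.1 (mem_sup_left hx))⟩

theorem uniq_of_mem_tA (hM : Mx M) (ha : a ∈ tA M) (h : a ∉ Ms M) :
    UniqMax C[constt (sigma M)ᶜ a] M := by
  obtain ⟨h1, h2, -, h4⟩ := (mem_tA hM).1 ha
  refine (cent1_kappa_compl hM (constt_mem _ h1) (fun e => h ?_) ?_
    (ne_bot_mono (inf_le_inf_left _ (cent1_le_cent1_constt _ a)) h4)).2
  · exact (B10_2.Msigma_Hall hM).mem_Oc h1 (by simpa using constt_eq_one_iff.1 e)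
  · rw [Set.compl_union]
    exact (constt_pi _ a).inter (h2.e_of_mem_zpowers (constt_mem_zpowers _ a))

theorem mem_of_tA_conj (hM : Mx M) (ha : a ∈ tA M) (h : a ∉ Ms M)
    (hg : g * a * g⁻¹ ∈ tA M) : g ∈ M := by
  have h2 : g * a * g⁻¹ ∉ Ms M := fun h2 => h ((B10_2.Msigma_Hall hM).mem_Oc ((mem_tA hM).1 ha).1
    (by simpa [PiE, orderOf_conj'] using (Ms_pi M).elt h2))
  have := (uniq_of_mem_tA hM hg h2).le
  rw [constt_conj, ← cj_cent1] at this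
  exact (uniq_of_mem_tA hM ha h).mem_of_cj_le this

theorem tA_conj (hM : Mx M) (hg : g ∈ M) (ha : a ∈ tA M) : g * a * g⁻¹ ∈ tA M := by
  obtain ⟨h1, h2, h3, h4⟩ := (mem_tA hM).1 ha
  refine (mem_tA hM).2 ⟨mul_mem (mul_mem hg h1) (inv_mem hg), h2.e_conj g, by simpa using h3, ?_⟩
  rwa [← cj_cent1, ← (Ms_normal M).cj_eq hg, ← cj_inf, Ne, cj_eq_bot]

theorem tA_diff_TI (hM : Mx M) : IsTISubset (tA M \ typeA1 M) := by
  rw [typeA1_eq hM]
  intro g hg x hx hgx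
  by_contra h1
  have hgM := mem_of_tA_conj hM hx.1 (fun h => hx.2 ⟨h, h1⟩) hgx.1
  refine hg (mem_set_norm fun y hy => ⟨tA_conj hM hgM hy.1, fun h => hy.2 ⟨?_, ?_⟩⟩)
  · simpa [mul_assoc] using conj_mem_of_norm' (Ms_norm M hgM) h.1
  · rintro rfl
    exact h.2 (by simp)

theorem mem_of_Zhat_conj (hP : TypeP M) (hK : Hall (kap M) K M) {m n z w : G} (hm : m ∈ M)
    (hn : n ∈ M) (hz : z ∈ Zhat K (Kst M K)) (hw : w ∈ Zhat K (Kst M K))
    (e : g * (m * z * m⁻¹) * g⁻¹ = n * w * n⁻¹) : g ∈ M := by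
  have h1 := (Zhat_TI hP hK).2.ti (n⁻¹ * g * m) z hz (by
    rwa [show n⁻¹ * g * m * z * (n⁻¹ * g * m)⁻¹ = n⁻¹ * (g * (m * z * m⁻¹) * g⁻¹) * n by group, e,
      show n⁻¹ * (n * w * n⁻¹) * n = w by group])
  have h2 := (sup_le hK.le (inf_le_left.trans (Ms_le M)) : K ⊔ Kst M K ≤ M) h1
  simpa [mul_assoc] using mul_mem (mul_mem hn h2) (inv_mem hm)

/-- `M` controls the fusion in `A₀(M)` -/
theorem tA0_fusion (hM : Mx M) (hx : x ∈ tA0 M) (hg : g * x * g⁻¹ ∈ tA0 M) :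
    ∃ m ∈ M, m * x * m⁻¹ = g * x * g⁻¹ := by
  obtain ⟨K, hK⟩ := exists_hall (kap M) (mmax_sol hM)
  rcases mem_tA0 hM hK hx with h1 | ⟨hP, m, hm, z, hz, rfl⟩ <;>
    rcases mem_tA0 hM hK hg with h2 | ⟨hP, n, hn, w, hw, e⟩
  · by_cases h : x ∈ Ms M
    · exact Ms_fusion hM h ((B10_2.Msigma_Hall hM).mem_Oc ((mem_tA hM).1 h2).1
        (((Ms_pi M).elt h).e_conj g))
    · exact ⟨g, mem_of_tA_conj hM h1 h h2, rfl⟩
  · have := (((mem_tA hM).1 h1).2.1).e_conj g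
    rw [e, PiE, orderOf_conj'] at this
    exact absurd this (Zhat_not_kap' hP hK hw).2
  · have := ((mem_tA hM).1 h2).2.1
    rw [PiE, orderOf_conj', orderOf_conj'] at this
    exact absurd this (Zhat_not_kap' hP hK hz).2
  · exact ⟨g, mem_of_Zhat_conj hP hK hm hn hz hw e, rfl⟩

theorem mem_Ms_of_tA0 (hM : Mx M) (hx : x ∈ tA0 M) (hC : ¬ C[x] ≤ M) :
    x ∈ Ms M ∧ x ≠ 1 := by
  obtain ⟨K, hK⟩ := exists_hall (kap M) (mmax_sol hM)
  rcases mem_tA0 hM hK hx with h1 | ⟨hP, m, hm, z, hz, rfl⟩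
  · refine ⟨?_, ((mem_tA hM).1 h1).2.2.1⟩
    by_contra h
    exact hC ((cent1_le_cent1_constt _ x).trans (uniq_of_mem_tA hM h1 h).le)
  · exact absurd (fun g hg => mem_of_Zhat_conj hP hK hm hm hz hz
      (by rw [mem_cent1.1 hg, mul_inv_cancel_right])) hC

/-- BG Theorem D, (3) and (4) -/
theorem signalizer_context (hM : Mx M) (hx : x ∈ Ms M) (h1 : x ≠ 1) (hC : ¬ C[x] ≤ M) :
    UniqMax C[x] (sigN x) ∧ Fcore (sigN x) = Ms (sigN x) ∧ sigR x = Ms (sigN x) ⊓ C[x] ∧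
      sigR x ⊴ C[x] ∧ Sdprod (sigR x) (M ⊓ C[x]) C[x] ∧
      Sdprod (Ms (sigN x)) (M ⊓ sigN x) (sigN x) ∧ x ∈ tA (sigN x) ∧ x ∉ Ms (sigN x) ∧
      (TypeF (sigN x) ∨ TypeP2 (sigN x)) ∧ ¬ Cjg M (sigN x) := by
  have l1 := sigMax_ell1 h1 ⟨hM, hx⟩
  have h2 := one_lt_sigMax hM hx h1 hC
  obtain ⟨u, R1, t2, typ, h5⟩ := B14_4.FT_signalizer_context l1 h2
  obtain ⟨nc, -, -, hE⟩ := h5 M ⟨hM, hx⟩
  obtain ⟨-, -, nR, -, h6⟩ := B14_4.FT_signalizer_trans l1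
  have eR : sigR x = Ms (sigN x) ⊓ C[x] := if_pos h2
  exact ⟨u, Fcore_eq_of_FP2 typ, eR, nR, (h6 M ⟨hM, hx⟩).1, B12_1.sdprod_sigma u.max hE,
    (mem_tA u.max).2 ⟨u.le (mem_cent1_self x), t2.mono fun _ h hk => kap_tau2' hk h, h1, eR ▸ R1⟩,
    fun h => h1 (PiN.e_eq_one ((Ms_pi _).elt h) (t2.mono fun _ h => tau2_sigma' h)), typ, nc⟩

theorem supportR_eq (hM : Mx M) (hx : x ∈ Ms M) (h1 : x ≠ 1) : supportR M x = sigR x := by
  unfold supportR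
  split_ifs with h
  · obtain ⟨u, e1, e2, -⟩ := signalizer_context hM hx h1 h.1
    have := Classical.choose_spec h.2.exists
    rw [u.uniq _ this.1 this.2, e2, ← e1]
  · by_cases hC : C[x] ≤ M
    · exact (if_neg ((((B14_4.FT_signalizer_trans (sigMax_ell1 h1 ⟨hM, hx⟩)).2.2.2.2 M
        ⟨hM, hx⟩).2.1 hC))).symm
    · exact absurd ⟨hC, (signalizer_context hM hx h1 hC).1.isUniq⟩ h

theorem tildeOf_eq (hM : Mx M) :
    tildeOf M ((Ms M : Set G) \ {1}) = classSupp (sigSupp M) := by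
  ext g
  constructor
  · rintro ⟨a, ⟨ha, h1⟩, r, hr, y, rfl⟩
    exact ⟨a * r, ⟨a, ha, h1, r, supportR_eq hM ha h1 ▸ hr, rfl⟩, y, rfl⟩
  · rintro ⟨_, ⟨a, ha, h1, r, hr, rfl⟩, y, rfl⟩
    exact ⟨a, ⟨ha, h1⟩, r, (supportR_eq hM ha h1).symm ▸ hr, y, rfl⟩

theorem coprime_signalizer (hM : Mx M) (hx : x ∈ Ms M) (h1 : x ≠ 1) (hC : ¬ C[x] ≤ M)
    (hy : y ∈ tA0 M) : (#(Ms (sigN x))).Coprime #(M ⊓ C[y]) := by
  by_cases hs : PiG (sigma (sigN x))ᶜ M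
  · exact cop_Ms (hs.infl _)
  obtain ⟨u, -, -, -, -, -, -, -, -, nc⟩ := signalizer_context hM hx h1 hC
  obtain ⟨hF, -, hE⟩ := B14_11.non_disjoint_signalizer_Frobenius h1 (one_lt_sigMax hM hx h1 hC)
    ⟨hM, hx⟩ hs
  obtain ⟨E, hE', -⟩ := B12_1.ex_sigma_compl hM bot_le PiN.bot
  have fr := hE E hE'
  obtain ⟨K, hK⟩ := exists_hall (kap M) (mmax_sol hM)
  obtain ⟨h2, -, h3, h4⟩ := (mem_tA hM).1 ((mem_tA0 hM hK hy).resolve_right fun h => hF.not_P h.1)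
  obtain ⟨w, hw, hw1⟩ := exists_ne_one h4
  have h5 : y ∈ Ms M := G3a.Frobenius_cent1_ker fr.sd fr.reg hw.1 hw1 ⟨h2, mem_cent1_symm.1 hw.2⟩
  exact cop_Ms (((Ms_pi M).of_le (G3a.Frobenius_cent1_ker fr.sd fr.reg h5 h3)).mono
    fun p hp => B13_8.sigma_partition hM u.max nc p hp)

theorem prk_le_two_of_sigma' (hM : Mx M) (hU : U ≤ M) (hs : PiG (sigma M)ᶜ U)
    (hp : p.Prime) : prk p U ≤ 2 := by
  by_cases hd : p ∣ #U
  · refine (prk_mono p hU).trans ?_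
    rcases B12_1.partition_pi_mmax hM hp (hd.trans (card_dvd hU)) with h | h | h | h
    · rw [tau1_prk h]; omega
    · rw [tau2_prk h]
    · rw [tau3_prk h]; omega
    · exact absurd h (hs.mem hp hd)
  · rw [prk_eq_zero (PiN.of_not_dvd hd)]; omega

theorem sylow_sigma' (hM : Mx M) (hU : U ≤ M) (hs : PiG (sigma M)ᶜ U) (p : ℕ) (hp : p.Prime)
    (P : Sylow p U) : IsMulCommutative (P : Subgroup U) ∧ PRankLE p 2 (P : Subgroup U) := by
  have := Fact.mk hp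
  have hP := syl_sylow P
  have ab := B12_10.sigma'_nil_abelian hM (hP.le.trans hU) (hs.of_le hP.le) hP.pi.nil
  exact ⟨⟨⟨fun a b => Subtype.ext (Subtype.ext
    (mul_comm_of_comm ab ⟨a, a.2, rfl⟩ ⟨b, b.2, rfl⟩))⟩⟩, prankLE_of_inj _ (subtype_injective _)
      ((prankLE_iff hp).2 (prk_le_two_of_sigma' hM hU hs hp))⟩

theorem decomp_cases (hM : Mx M) (h : KappaCompl M U K) :
    (TypeF M ↔ K = ⊥ ∧ U ≠ ⊥) ∧ (TypeP2 M ↔ K ≠ ⊥ ∧ U ≠ ⊥) ∧ (TypeP1 M ↔ K ≠ ⊥ ∧ U = ⊥) := by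
  refine ⟨⟨fun hF => ⟨(typeF_iff hM h.hallK).1 hF, sigma_compl_ne_bot hM
    ((TypeF.sdprod hF h).hall_right (B10_2.Msigma_Hall hM))⟩, fun h' => (typeF_iff hM h.hallK).2 h'.1⟩,
    ?_, ?_⟩
  · rw [TypeP2, typeP_iff hM h.hallK, Ne, Ne, h.eq_bot_iff]
  · rw [TypeP1, typeP_iff hM h.hallK, h.eq_bot_iff]

theorem coprime_index_of_le_Ms (hM : Mx M) (hH : Hall π H (Ms M)) : (#H).Coprime H.index := by
  rw [← relIndex_top_right]
  exact ((B10_2.Msigma_Hall_G hM).inter hH).coprime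

instance inst_BGI' : BGI' G where
  s1350 M hM := ⟨(B10_2.Msigma_Hall hM).pre, hall_top_iff.1 (B10_2.Msigma_Hall_G hM),
    fun N h1 h2 => (Hall.of_pre h2).eq_Oc h1⟩
  s1351 M hM := ⟨(exists_hall (kap M) (mmax_sol hM)).imp fun _ => (hall_kappa_iff hM).2,
    fun K hK => kappa_cyclic hM ((hall_kappa_iff hM).1 hK)⟩
  s1352 M hM K _ hK := ⟨(B14_2.ex_kappa_compl hM ((hall_kappa_iff hM).1 hK)).imp fun _ =>
    (sigmaDecomp_iff hM).2, fun U h => by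
      rw [sup_comm]
      exact (kappa_structure hM ((sigmaDecomp_iff hM).1 h)).1.2.1.normal.norm⟩
  s1354 M hM K _ hK := by
    replace hK := (hall_kappa_iff hM).1 hK
    refine ⟨?_, fun h1 k hk hk1 => cent1_kappa ((typeP_iff hM hK).2 h1) hK hk hk1⟩
    by_cases h1 : K = ⊥
    · rw [h1, cent_bot, inf_top_eq]; exact B10_2.Msigma_neq1 hM
    · exact (Ptype_cyclics ((typeP_iff hM hK).2 h1) hK).1
  s1357 M hM K U h hne := by
    replace h := (sigmaDecomp_iff hM).1 h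
    obtain ⟨D, hD⟩ := exists_hall {#(Kst M K)}ᶜ (mmax_sub_sol hM (Ms_le M))
    obtain ⟨⟨⟨P1, -⟩, ⟨pK, -⟩, -⟩, -⟩ := Fcore_structure hM h.hallK hne rfl hD
    exact ⟨h.eq_bot_iff.2 P1.2, Fit_TI_of hM (Or.inr hne), pK⟩
  s1365 M hM K U h h1 := by
    replace h := (sigmaDecomp_iff hM).1 h
    refine ⟨?_, (Ptype_cyclics ((typeP_iff hM h.hallK).2 h1) h.hallK).2.2.1⟩
    rw [sup_comm]
    exact ((kappa_structure hM h).2.1 h1).1.symm
  s1378 := ⟨fun p hw hp hd => exists_sigma hw hp hd, fun M N hM hN ⟨p, h1, h2⟩ => by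
    by_contra h
    exact B13_8.sigma_partition hM hN (fun ⟨g, e⟩ => h ⟨g, e.symm⟩) p h1 h2⟩
  s1379 M N hM hN h := by
    rw [tildeOf_eq hM, tildeOf_eq hN]
    exact Set.disjoint_iff_inter_eq_empty.1
      (B14_5.sigma_support_disjoint hM hN fun ⟨g, e⟩ => h g e.symm)
  s1380 M hM K U h := (typeI_iff hM).trans (decomp_cases hM ((sigmaDecomp_iff hM).1 h)).1
  s1381 M hM K U h := (typeII_iff hM).trans (decomp_cases hM ((sigmaDecomp_iff hM).1 h)).2.1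
  s1382 M hM K U h := by
    rw [type34_iff hM, (decomp_cases hM ((sigmaDecomp_iff hM).1 h)).2.2, and_assoc]
  s1383 M hM K U h := by
    rw [typeV_iff hM, (decomp_cases hM ((sigmaDecomp_iff hM).1 h)).2.2, and_assoc]
  s1385 := by
    by_cases h : ∀ M : Subgroup G, Mx M → TypeF M
    · exact Or.inl fun M hM => (typeI_iff hM).2 (h M hM)
    push Not at h
    obtain ⟨M, hM, h⟩ := h
    have hP := (typeF_or_typeP hM).resolve_left h
    obtain ⟨K, hK⟩ := exists_hall (kap M) (mmax_sol hM)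
    obtain ⟨T, hT, -, -, ⟨hKs, -⟩, -, ⟨-, e, -⟩, -, h2, h3, sd⟩ := B14_7.Ptype_embedding hP hK
    refine Or.inr ⟨K, Kst M K, M, T, selfNorm_kappa hP hK, hM, hT.1, sd.complIn,
      (der_sdprod hT hKs).complIn, e, h2.imp (fun h => (typeII_iff hM).2 h.1)
        fun h => (typeII_iff hT.1).2 h.1, typeP_types hP, typeP_types hT, fun L hL => ?_⟩
    refine (typeF_or_typeP hL).imp (typeI_iff hL).2 fun h => ?_
    rcases h3 L h with ⟨g, e⟩ | ⟨g, e⟩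
    · exact ⟨g, Or.inl e.symm⟩
    · exact ⟨g, Or.inr e.symm⟩
  s1389 M hM := by
    rw [typeCore_eq hM]
    refine ⟨fun p hp P h1 => ?_, coprime_index_of_le_Ms hM (Fcore_hall_Ms hM),
      coprime_index_of_le_Ms hM (Hall.self (Ms_pi M))⟩
    have := Fact.mk hp
    have hP := syl_sylow P
    have hs := hP.pi.mem_of_ne_bot (mt (map_eq_bot_iff_of_injective _ (subtype_injective _)).1 h1)
      ((Ms_pi M).of_le hP.le)
    exact norm_sigma_Sylow hs ((B10_2.Msigma_Hall hM).sub_syl hs hP)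
  s1390 M hM U hU := by
    have ⟨e, hH⟩ : Fcore M = Ms M ∧ Hall (sigma M ∪ kap M)ᶜ U M := by
      rcases hU with ⟨h1, h2⟩ | ⟨h1, h2⟩
      · have hF := (typeI_iff hM).1 h1
        have e := Fcore_eq_of_FP2 (Or.inl hF)
        refine ⟨e, ?_⟩
        rw [hF.2, Set.union_empty]
        exact (sdprod_of_complIn h2 (h2.2.1.trans (Fcore_norm M))).hall_right
          (Eq.subst (motive := fun Y => Hall _ Y M) e.symm (B10_2.Msigma_Hall hM))
      · have hF := (typeII_iff hM).1 h1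
        have e := Fcore_eq_of_FP2 (Or.inr hF)
        exact ⟨e, hall_compl_der hF.1
          (e ▸ sdprod_of_complIn h2 ((h2.2.1.trans (der_le M)).trans (Fcore_norm M)))⟩
    refine ⟨sylow_sigma' hM hH.le (hH.pi.mono (Set.compl_subset_compl.2 Set.subset_union_left)),
      fun X hX ⟨x, hx⟩ hc => ?_, tA_diff_TI hM⟩
    have hle : closure X ≤ U := (closure_le U).2 fun y hy => (hX hy).1
    rw [← centralizer_closure] at hc ⊢
    have := (cent_kappa_compl hM (hle.trans hH.le) (hH.pi.of_le hle)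
      (ne_bot_of_mem (subset_closure hx) (hX hx).2) (e ▸ hc)).1
    exact ⟨this.le, this.uniq⟩
  s1391 M hM X hX := by
    have sub : X ⊆ tA0 M := by
      rcases hX with rfl | rfl
      · exact Set.subset_union_left
      · exact le_rfl
    refine ⟨fun x hx g hg => tA0_fusion hM (sub hx) (sub hg), fun x hx hC => ?_,
      fun x hx hC L hL hCL => ?_⟩
    · obtain ⟨h1, h2⟩ := mem_Ms_of_tA0 hM (sub hx) hC
      exact ⟨typeA1_eq hM ▸ ⟨h1, h2⟩, (signalizer_context hM h1 h2 hC).1.isUniq⟩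
    obtain ⟨h1, h2⟩ := mem_Ms_of_tA0 hM (sub hx) hC
    obtain ⟨u, e1, e2, nR, sd1, sd2, h3, h4, typ, -⟩ := signalizer_context hM h1 h2 hC
    obtain rfl := u.uniq L hL hCL
    rw [e2, ← e1] at nR sd1
    rw [← e1] at sd2
    refine ⟨sd2.complIn, nR.norm, sd1.complIn, fun y hy => ?_,
      ⟨h3, fun h => h4 (typeA1_eq hL ▸ h).1⟩, typ.imp (typeI_iff hL).2 (typeII_iff hL).2,
      fun h => ?_⟩
    · have := coprime_signalizer hM h1 h2 hC (sub hy)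
      rwa [← e1] at this
    · obtain ⟨hF, -, E, -, -, fr⟩ := nonFtype_signalizer_base hM h1 h2 hC
        fun hF => hF.not_P ((typeII_iff hL).1 h).1
      rw [fittingHall_eq, Fcore_eq_of_FP2 (Or.inl hF)]
      exact ⟨_, frob_complement fr⟩

end

end H13.V
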