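/-
Port of `H17/BGall`, `H20/Defs`, `H20/St8`, `H20/St10` to the `ϖ`-local setting.
-/
import Cfsg.Agent.H13.V16

set_option autoImplicit false
set_option linter.unusedSectionVars false

namespace H13.V
open Cfsg Subgroup H19 H17 H20
open scoped ComplexConjugate Classical

universe u

section
variable {G : Type u} [Group G] [Finite G] [VS G]

instance all_U79 : U79 G := {}
instance all_B10 : B10 G := inferInstance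
instance all_B11 : B11 G := inferInstance
instance all_B12 : B12 G := inferInstance
instance all_B13 : B13 G := inferInstance
instance all_B14 : B14 G := inst_B14
instance all_B15 : B15 G := inst_B15
instance all_BGI' : BGI' G := inst_BGI'
end

section
variable {Γ : Type*} [Group Γ] [VS Γ]

/-- a maximal subgroup with type-P data -/
structure TP (M W₁ U W₂ : Subgroup Γ) : Prop where
  max : Mx M
  tp : IsTypePWith M W₁ U W₂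

/-- case (b) of Peterfalvi (8.8), with all the data of (13.1) -/
structure Pair (S T W₁ W₂ U V : Subgroup Γ) : Prop where
  tS : TP S W₁ U W₂
  tT : TP T W₂ V W₁
  inf : S ⊓ T = W₁ ⊔ W₂
  two : IsOfTypeII S ∨ IsOfTypeII T
  typS : IsOfTypeII S ∨ IsOfTypeIII S ∨ IsOfTypeIV S ∨ IsOfTypeV S
  typT : IsOfTypeII T ∨ IsOfTypeIII T ∨ IsOfTypeIV T ∨ IsOfTypeV T
  all : ∀ L : Subgroup Γ, Mx L → H17.TypeI L ∨ Cjg S L ∨ Cjg T L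

/-- Peterfalvi's hypothesis (9.5): `M` of type II, III or IV, `H = M_F`, `H / H₀` a chief factor of
`M` which is an elementary abelian `p`-group, and `C_H(U) ≤ H₀` -/
structure P9 (M W₁ U W₂ H₀ : Subgroup Γ) (p : ℕ) : Prop where
  tp : TP M W₁ U W₂
  typ : IsOfTypeII M ∨ IsOfTypeIII M ∨ IsOfTypeIV M
  prime : p.Prime
  lt : H₀ < Fcore M
  norm : M ≤ N(H₀)
  chief : ∀ X : Subgroup Γ, H₀ ≤ X → X ≤ Fcore M → M ≤ N(X) → X = H₀ ∨ X = Fcore M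
  der_le : ⁅Fcore M, Fcore M⁆ ≤ H₀
  pow_mem : ∀ x ∈ Fcore M, x ^ p ∈ H₀
  cent_le : Fcore M ⊓ C(U) ≤ H₀

/-- the Dade isometry of a maximal subgroup, relative to `A₀(M)` -/
noncomputable def tauM (M : Subgroup Γ) : (Γ → ℂ) →ₗ[ℂ] (Γ → ℂ) := dade (tA0 M) (supportR M)

/-- the map `ρ` of a maximal subgroup, relative to `A₁(M)` -/
noncomputable def rhoM [Finite Γ] (M : Subgroup Γ) : (Γ → ℂ) →ₗ[ℂ] (Γ → ℂ) := rho (typeA1 M) (supportR M)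

end

section
variable {G : Type u} [Group G] [VS G]

/-- `Ã` for a set `A` attached to the maximal subgroup `M` -/
abbrev Til (M : Subgroup G) (A : Set G) : Set G := Dsupp A (supportR M)
/-- types III, IV, V -/
abbrev T345 (M : Subgroup G) : Prop := IsOfTypeIII M ∨ IsOfTypeIV M ∨ IsOfTypeV M
/-- types III, IV -/
abbrev T34 (M : Subgroup G) : Prop := IsOfTypeIII M ∨ IsOfTypeIV M
/-- types II, III, IV -/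
abbrev T234 (M : Subgroup G) : Prop := IsOfTypeII M ∨ IsOfTypeIII M ∨ IsOfTypeIV M
end

/-- Peterfalvi (8.1)-(8.9): the group theory of the types -/
class PF8a (G : Type u) [Group G] [VS G] [Finite G] : Prop where

  /-- a maximal subgroup is the normalizer of its nontrivial normal subgroups -/
  norm_eq {M X : Subgroup G} (hM : Mx M) (hX : X ⊴ M) (h1 : X ≠ ⊥) : N(X) = M

  /-- `M_F` is a nilpotent normal Hall subgroup of `M` containing every such subgroup -/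
  fcore (M : Subgroup G) : Fcore M ⊴ M ∧ Nil (Fcore M) ∧
    Nat.Coprime #(Fcore M) ((Fcore M).relIndex M) ∧ Fcore M ≤ Fit M ∧
    (∀ X : Subgroup G, X ⊴ M → Nil X → Nat.Coprime #X (X.relIndex M) → X ≤ Fcore M) ∧
    ∀ g : G, Fcore (cj g M) = cj g (Fcore M)
  /-- type F, for any complement -/
  typeF {M : Subgroup G} (h : IsOfTypeF M) : (∃ U, Sdprod (Fcore M) U M) ∧
    ∀ U, Sdprod (Fcore M) U M → ∃ U₁ U₀, TypeFW M U U₁ U₀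
  /-- (8.2.a), (8.2.b) -/
  typeF_frob {M U U₁ U₀ : Subgroup G} (ho : Odd #M) (h : TypeFW M U U₁ U₀) : #U₀ = expo U ∧
    (Frob (Fcore M) U M ↔ ∀ p : ℕ, p.Prime → ∀ P : Subgroup G, P ≤ U → IsPGroup p P → Cyc P)
  /-- (8.2.c) -/
  typeF_inertia {M U U₁ U₀ : Subgroup G} (h : TypeFW M U U₁ U₀) {θ : G → ℂ}
    (hθ : θ ∈ Irr (Fcore M)) (h1 : θ ≠ triv (Fcore M)) : inertia M θ ⊓ U ≤ U₁
  /-- (8.4), (8.5) -/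
  typeP {M W₁ U W₂ : Subgroup G} (h : TP M W₁ U W₂) :
    Sdprod (D1 M) W₁ M ∧ Sdprod (Fcore M) U (D1 M) ∧ Sdprod (Fcore M) (U ⊔ W₁) M ∧
    Sdprod U W₁ (U ⊔ W₁) ∧ Semireg U W₁ ∧ PTI M (D1 M) W₁ W₂ ∧ CTI W₁ W₂ ∧
    Fcore M ⊓ C(W₁) = W₂ ∧
    Dprod (Fcore M) (U ⊓ C(Fcore M)) (Fit M) ∧ ⁅U, U⁆ ≤ C(Fcore M) ∧ (U ≠ ⊥ → ¬ U ≤ C(Fcore M)) ∧
    Nat.Coprime #W₁ #W₂ ∧ Nat.Coprime #(Fcore M) #(U ⊔ W₁) ∧ Nat.Coprime #U #W₁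
  tp_conj {M W₁ U W₂ : Subgroup G} (h : TP M W₁ U W₂) (g : G) :
    TP (cj g M) (cj g W₁) (cj g U) (cj g W₂)
  tp_uniq {M W₁ U W₂ W₁' U' W₂' : Subgroup G} (h : TP M W₁ U W₂) (h' : TP M W₁' U' W₂') :
    ∃ m ∈ M, cj m W₁ = W₁' ∧ cj m U = U' ∧ cj m W₂ = W₂'
  /-- the types are invariant under conjugation -/
  type_conj {M : Subgroup G} (g : G) : (TypeI (cj g M) ↔ TypeI M) ∧
    (IsOfTypeII (cj g M) ↔ IsOfTypeII M) ∧ (IsOfTypeIII (cj g M) ↔ IsOfTypeIII M) ∧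
    (IsOfTypeIV (cj g M) ↔ IsOfTypeIV M) ∧ (IsOfTypeV (cj g M) ↔ IsOfTypeV M)
  types {M : Subgroup G} (hM : Mx M) :
    TypeI M ∨ IsOfTypeII M ∨ IsOfTypeIII M ∨ IsOfTypeIV M ∨ IsOfTypeV M
  not_one {M W₁ U W₂ : Subgroup G} (h : TP M W₁ U W₂) : ¬ TypeI M
  /-- (8.6), for any data -/
  type234 {M W₁ U W₂ : Subgroup G} (h : TP M W₁ U W₂) (ht : T234 M) :
    U ≠ ⊥ ∧ (#W₁).Prime ∧ NormedTI (nt (Fit M)) M ∧ Frob U W₁ (U ⊔ W₁) ∧ ¬ IsOfTypeV M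
  type2 {M W₁ U W₂ : Subgroup G} (h : TP M W₁ U W₂) (ht : IsOfTypeII M) :
    Ab U ∧ ¬ NW U M ∧ Fcore (D1 M) = Fcore M ∧ (∃ U₁ U₀, TypeFW (D1 M) U U₁ U₀) ∧ ¬ T345 M
  type3 {M W₁ U W₂ : Subgroup G} (h : TP M W₁ U W₂) (ht : IsOfTypeIII M) :
    Ab U ∧ NW U M ∧ ¬ IsOfTypeIV M
  type4 {M W₁ U W₂ : Subgroup G} (h : TP M W₁ U W₂) (ht : IsOfTypeIV M) : ¬ Ab U ∧ NW U M
  /-- (8.7) -/
  type5 {M W₁ U W₂ : Subgroup G} (h : TP M W₁ U W₂) (ht : IsOfTypeV M) :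
    U = ⊥ ∧ Fcore M = D1 M ∧ (NormedTI (nt (Fcore M)) M ∨
      (∃ p : ℕ, p.Prime ∧ p ∣ #(Fcore M) ∧ #W₁ ∣ p - 1 ∧ Cyc (Oc {p}ᶜ (Fcore M))) ∨
      (∃ p : ℕ, p.Prime ∧ #(Oc {p} (Fcore M)) = p ^ 3 ∧ #W₁ ∣ p + 1 ∧ Cyc (Oc {p}ᶜ (Fcore M))))
  /-- (8.3) -/
  type1 {M U : Subgroup G} (hM : Mx M) (ht : TypeI M) (hU : Sdprod (Fcore M) U M) :
    NormedTI (nt (Fcore M)) M ∨
    (Ab (Fcore M) ∧ RankLE 2 (Fcore M) ∧ ¬ RankLE 1 (Fcore M)) ∨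
    ((∀ p : ℕ, p.Prime → p ∣ #(Fcore M) → expo U ∣ p - 1) ∧
      ∃ p : ℕ, p.Prime ∧ p ∣ #(Fcore M) ∧ Cyc (Oc {p}ᶜ (Fcore M)))
  /-- (8.8), (8.9) -/
  pair {M W₁ U W₂ : Subgroup G} (h : TP M W₁ U W₂) : ∃ T V, Pair M T W₁ W₂ U V
  tp_ex {M : Subgroup G} (hM : Mx M) (h : ¬ TypeI M) : ∃ W₁ U W₂, TP M W₁ U W₂
  pair_symm {S T W₁ W₂ U V : Subgroup G} (h : Pair S T W₁ W₂ U V) : Pair T S W₂ W₁ V U
  pair_not_cj {S T W₁ W₂ U V : Subgroup G} (h : Pair S T W₁ W₂ U V) : ¬ Cjg S T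

/-- Peterfalvi (8.10)-(8.18): the sets `A₁(M) ⊆ A(M) ⊆ A₀(M)` and the Dade isometry -/
class PF8b (G : Type u) [Group G] [VS G] [Finite G] : Prop where
  sets {M : Subgroup G} (hM : Mx M) : typeA1 M = nt (typeCore M) ∧
    Fcore M ≤ typeCore M ∧ typeCore M ⊴ M ∧ Fcore M ≠ ⊥ ∧
    typeA1 M ⊆ tA M ∧ tA M ⊆ tA0 M ∧ tA0 M ⊆ nt M
  sets1 {M : Subgroup G} (hM : Mx M) (ht : TypeI M) : typeCore M = Fcore M ∧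
    tA0 M = tA M ∧
    (∀ a, a ∈ tA M ↔ a ∈ M ∧ a ≠ 1 ∧ ∃ x ∈ Fcore M, x ≠ 1 ∧ a * x = x * a) ∧
    ∀ E, Frob (Fcore M) E M → tA M = nt (Fcore M)
  setsP {M W₁ U W₂ : Subgroup G} (h : TP M W₁ U W₂) :
    tA0 M = tA M ∪ clsL M (cyV W₁ W₂) ∧
    (∀ a, a ∈ tA M ↔ a ∈ D1 M ∧ a ≠ 1 ∧ ∃ x ∈ typeCore M, x ≠ 1 ∧ a * x = x * a) ∧
    (IsOfTypeII M → typeCore M = Fcore M) ∧
    (T345 M → typeCore M = D1 M ∧ tA M = nt (D1 M))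
  sets_conj {M : Subgroup G} (g : G) : typeCore (cj g M) = cj g (typeCore M) ∧
    Til (cj g M) (typeA1 (cj g M)) = Til M (typeA1 M) ∧
    Til (cj g M) (tA (cj g M)) = Til M (tA M)
  /-- (8.11) -/
  hall {M : Subgroup G} (hM : Mx M) : Nat.Coprime #(Fcore M) (Fcore M).index ∧
    Nat.Coprime #(typeCore M) (typeCore M).index ∧
    ∀ (p : ℕ) (P : Subgroup G), p.Prime → Syl p P (typeCore M) → P ≠ ⊥ → N(P) ≤ M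
  /-- (8.12) -/
  type12 {M U : Subgroup G} (hM : Mx M)
    (hU : (TypeI M ∧ Sdprod (Fcore M) U M) ∨ (IsOfTypeII M ∧ Sdprod (Fcore M) U (D1 M))) :
    (∀ (p : ℕ) (P : Subgroup G), p.Prime → P ≤ U → IsPGroup p P →
      Ab P ∧ (Abelem p P → #P ≤ p ^ 2)) ∧
    (∀ X : Set G, X ⊆ nt U → X.Nonempty → Fcore M ⊓ Subgroup.centralizer X ≠ ⊥ →
      UniqMax (Subgroup.centralizer X) M) ∧
    ∀ x ∈ tA M \ typeA1 M, ∀ g : G, g * x * g⁻¹ ∈ tA M \ typeA1 M → g ∈ M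
  /-- (8.13.a) -/
  fusion {M : Subgroup G} (hM : Mx M) {x g : G} (hx : x ∈ tA0 M)
    (hg : g * x * g⁻¹ ∈ tA0 M) : ∃ m ∈ M, m * x * m⁻¹ = g * x * g⁻¹
  /-- (8.13.b), (8.13.c), (8.14) -/
  support {M : Subgroup G} (hM : Mx M) {x : G} (hx : x ∈ tA0 M) (hC : ¬ C[x] ≤ M) :
    x ∈ typeA1 M ∧ ∃ L : Subgroup G, UniqMax C[x] L ∧ supportR M x = Fcore L ⊓ C[x] ∧
      Sdprod (Fcore L) (M ⊓ L) L ∧ Sdprod (Fcore L ⊓ C[x]) (M ⊓ C[x]) C[x] ∧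
      (∀ y ∈ tA0 M, Nat.Coprime #(Fcore L) #(M ⊓ C[y])) ∧ x ∈ tA L ∧ x ∉ typeA1 L ∧
      (TypeI L ∨ (IsOfTypeII L ∧ ∃ E, Frob (Fcore M) E M))
  support_bot {M : Subgroup G} {x : G} (hC : C[x] ≤ M) : supportR M x = ⊥
  /-- (8.15) -/
  dade {M : Subgroup G} (hM : Mx M) {A : Set G} (hA : A ⊆ tA0 M)
    (hn : ∀ y ∈ M, ∀ a ∈ A, y * a * y⁻¹ ∈ A) : DadeHypothesis A M (supportR M)
  dade_std {M : Subgroup G} (hM : Mx M) : DadeHypothesis (tA0 M) M (supportR M) ∧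
    DadeHypothesis (tA M) M (supportR M) ∧ DadeHypothesis (typeA1 M) M (supportR M) ∧
    DadeHypothesis (nt (Fcore M)) M (supportR M)
  pdade {M W₁ U W₂ : Subgroup G} (h : TP M W₁ U W₂) :
    PDade M (D1 M) (Fcore M) W₁ W₂ (tA M) (tA0 M) (supportR M) ∧
    PDade M (D1 M) (typeCore M) W₁ W₂ (tA M) (tA0 M) (supportR M)
  /-- (8.16) -/
  type2_ti {M : Subgroup G} (hM : Mx M) (ht : IsOfTypeII M) :
    NormedTI (tA0 M) M ∧ NormedTI (tA M) M ∧ NormedTI (typeA1 M) M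
  /-- (8.17.a) -/
  primes_cover {p : ℕ} (hw : p ∈ vw G) (hp : p.Prime) (hd : p ∣ Nat.card G) :
    ∃ M : Subgroup G, Mx M ∧ p ∣ #(typeCore M)
  core_coprime {M L : Subgroup G} (hM : Mx M) (hL : Mx L) (h : ¬ Cjg M L) :
    Nat.Coprime #(typeCore M) #(typeCore L)
  /-- (8.17.c) -/
  til_disj {M L : Subgroup G} (hM : Mx M) (hL : Mx L) (h : ¬ Cjg M L) :
    Disjoint (Til M (typeA1 M)) (Til L (typeA1 L))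

/-- Peterfalvi (9.3)-(9.7): the group theory of types II, III, IV -/
class PF9a (G : Type u) [Group G] [VS G] [Finite G] : Prop where
  /-- (9.3) -/
  card2 {M W₁ U W₂ : Subgroup G} (h : TP M W₁ U W₂) (ht : IsOfTypeII M) :
    Fcore M ⊓ C(U) = ⊥ ∧ #(Fcore M) = #W₂ ^ #W₁
  card34 {M W₁ U W₂ : Subgroup G} (h : TP M W₁ U W₂) (ht : T34 M) :
    (#W₂).Prime ∧ Fcore M ⊓ C(U ⊔ W₁) = ⊥ ∧ #(Fcore M) = #W₂ ^ #W₁ * #(Fcore M ⊓ C(U))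
  /-- (9.4) -/
  ex {M W₁ U W₂ : Subgroup G} (h : TP M W₁ U W₂) (ht : T234 M) : ∃ H₀ p, P9 M W₁ U W₂ H₀ p
  /-- (9.6) -/
  facts {M W₁ U W₂ H₀ : Subgroup G} {p : ℕ} (h : P9 M W₁ U W₂ H₀ p) :
    H₀.relIndex (Fcore M) = p ^ #W₁ ∧ (W₂ ⊓ H₀).relIndex W₂ = p ∧ (T34 M → p = #W₂) ∧
    cU M U H₀ < U ∧ ⁅U, U⁆ ≤ cU M U H₀ ∧ U ⊔ W₁ ≤ N(cU M U H₀) ∧
    M ≤ N(Fcore M ⊔ cU M U H₀) ∧ M ≤ N(H₀ ⊔ cU M U H₀) ∧
    M ≤ N(H₀ ⊔ ⁅cU M U H₀, cU M U H₀⁆) ∧ M ≤ N(H₀ ⊔ ⁅U, U⁆) ∧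
    (cU M U H₀).relIndex U * (p - 1) ≤ p ^ #W₁ - 1
  /-- (9.7) -/
  cases {M W₁ U W₂ H₀ : Subgroup G} {p : ℕ} (h : P9 M W₁ U W₂ H₀ p) :
    Gal M U H₀ ∨ ∃ H₁ a, NonGal M W₁ U H₀ H₁ p a
  /-- (9.7.b) -/
  gal {M W₁ U W₂ H₀ : Subgroup G} {p : ℕ} (h : P9 M W₁ U W₂ H₀ p) (hg : Gal M U H₀) :
    (∃ x ∈ U, zpowers x ⊔ cU M U H₀ = U) ∧ Nat.Coprime ((cU M U H₀).relIndex U) (p - 1) ∧
    (cU M U H₀).relIndex U ∣ (p ^ #W₁ - 1) / (p - 1) ∧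
    ∀ x ∈ U, x ∉ cU M U H₀ → ∀ y ∈ Fcore M, x * y * x⁻¹ * y⁻¹ ∈ H₀ → y ∈ H₀

/-- Peterfalvi (9.8)-(9.10): the characters for types II, III, IV -/
class PF9b (G : Type u) [Group G] [VS G] [Finite G] : Prop where
  /-- (9.8.b), (9.9.b) -/
  red {M W₁ U W₂ H₀ : Subgroup G} {p : ℕ} (h : P9 M W₁ U W₂ H₀ p) {j : Ch W₂} (hj : j ≠ 1)
    (h0 : ∀ x ∈ W₂ ⊓ H₀, j.fn x = 1) :
    muR M W₁ j ∈ S9 M (H₀ ⊔ cU M U H₀) ∧ LinInd M (cU M U H₀) (muR M W₁ j) ∧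
    muR M W₁ j 1 = (#W₁ * (cU M U H₀).relIndex U : ℕ)
  red_iff {M W₁ U W₂ H₀ : Subgroup G} {p : ℕ} (h : P9 M W₁ U W₂ H₀ p) {χ : G → ℂ}
    (hχ : χ ∈ S9 M H₀) (hr : χ ∉ Irr M) :
    ∃ j : Ch W₂, j ≠ 1 ∧ (∀ x ∈ W₂ ⊓ H₀, j.fn x = 1) ∧ χ = muR M W₁ j
  red_card {M W₁ U W₂ H₀ : Subgroup G} {p : ℕ} (h : P9 M W₁ U W₂ H₀ p) :
    (Finset.univ.filter fun j : Ch W₂ => j ≠ 1 ∧ ∀ x ∈ W₂ ⊓ H₀, j.fn x = 1).card = p - 1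
  /-- (9.8.a) -/
  nongal_dvd {M W₁ U W₂ H₀ H₁ : Subgroup G} {p a : ℕ} (h : P9 M W₁ U W₂ H₀ p)
    (hn : NonGal M W₁ U H₀ H₁ p a) {θ : G → ℂ} (hθ : θ ∈ IrrK (D1 M) (Fcore M) H₀) : a ∣ deg θ
  /-- (9.8.c) -/
  nongal_irr {M W₁ U W₂ H₀ H₁ : Subgroup G} {p a : ℕ} (h : P9 M W₁ U W₂ H₀ p)
    (hn : NonGal M W₁ U H₀ H₁ p a) :
    ∃ χ ∈ S9 M (H₀ ⊔ cU M U H₀), χ ∈ Irr M ∧ LinInd M (cU M U H₀) χ
  /-- (9.8.d) -/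
  nongal_count {M W₁ U W₂ H₀ H₁ : Subgroup G} {p a : ℕ} (h : P9 M W₁ U W₂ H₀ p)
    (hn : NonGal M W₁ U H₀ H₁ p a) : a ^ 2 * #⁅U, U⁆ ∣ (p - 1) * #U ∧
    (p - 1) * #U ≤ a ^ 2 * #⁅U, U⁆ *
      ((S9 M (H₀ ⊔ ⁅U, U⁆)).filter fun χ => χ ∈ Irr M ∧ deg χ = #W₁ * a).card
  /-- (9.9.a) -/
  gal_deg {M W₁ U W₂ H₀ : Subgroup G} {p : ℕ} (h : P9 M W₁ U W₂ H₀ p) (hg : Gal M U H₀) :
    (∀ θ ∈ IrrK (D1 M) (Fcore M) H₀, (cU M U H₀).relIndex U ∣ deg θ) ∧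
    ∀ χ ∈ S9 M (H₀ ⊔ ⁅cU M U H₀, cU M U H₀⁆), LinInd M (cU M U H₀) χ
  /-- (9.10) -/
  no_irr {M W₁ U W₂ H₀ : Subgroup G} {p : ℕ} (h : P9 M W₁ U W₂ H₀ p)
    (hn : ∀ χ ∈ S9 M (H₀ ⊔ ⁅cU M U H₀, cU M U H₀⁆), χ ∈ Irr M → ¬ LinInd M (cU M U H₀) χ) :
    Gal M U H₀ ∧ cU M U H₀ = ⊥ ∧ #U * (p - 1) = p ^ #W₁ - 1 ∧ Cyc U ∧
    (IsOfTypeII M → Frob (Fcore M) U (D1 M))

/-- Peterfalvi (10.2)-(10.5), (10.9): types III, IV, V -/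
class PF10a (G : Type u) [Group G] [VS G] [Finite G] : Prop where
  /-- (10.2) -/
  lin {M W₁ U W₂ : Subgroup G} (h : TP M W₁ U W₂) : (S10 M (D2 M)).Nonempty ∧
    ∀ ζ ∈ S10 M (D2 M), ζ ∈ Irr M ∧ ζ 1 = (#W₁ : ℂ) ∧ ζ ∈ S10 M ⊥
  /-- (10.3) -/
  consts {M W₁ U W₂ : Subgroup G} (h : TP M W₁ U W₂) (ht : T345 M) : (#W₂).Prime ∧
    ∃ (d n : ℕ) (δ : ℤ), (δ = 1 ∨ δ = -1) ∧ 1 < d ∧ (d : ℤ) = n * #W₁ + δ ∧ Even n ∧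
      ∀ j : Ch W₂, j ≠ 1 → dlt M W₁ j = δ ∧ ∀ i : Ch W₁, mu M i j 1 = d
  /-- (10.5), support -/
  alpha_supp {M W₁ U W₂ : Subgroup G} (h : TP M W₁ U W₂) (ht : T345 M) {ζ : G → ℂ}
    (hζ : ζ ∈ S10 M (D2 M)) (i : Ch W₁) {j : Ch W₂} (hj : j ≠ 1) {n : ℕ}
    (hn : mu M i j 1 = n * #W₁ + dlt M W₁ j) :
    alpha10 M i j (dlt M W₁ j) n ζ ∈ CFon M (tA0 M)

/-- Peterfalvi (10.7), (10.8) -/
class PF10b (G : Type u) [Group G] [VS G] [Finite G] : Prop where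
  not_coh {M W₁ U W₂ : Subgroup G} (h : TP M W₁ U W₂) (ht : T345 M) :
    ¬ Coherent M (S10 M ⊥) (tauM M)

/-- Peterfalvi (10.10), (10.11) -/
class PF10c (G : Type u) [Group G] [VS G] [Finite G] : Prop where
  no_five {M : Subgroup G} (hM : Mx M) : ¬ IsOfTypeV M

/-- Peterfalvi (11.3)-(11.7) -/
class PF11a (G : Type u) [Group G] [VS G] [Finite G] : Prop where
  /-- (11.5), (11.6), (11.7), (11.3) -/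
  struct {M W₁ U W₂ : Subgroup G} (h : TP M W₁ U W₂) (ht : T34 M) :
    P9 M W₁ U W₂ ⊥ #W₂ ∧ D2 M = Fcore M ⊔ (U ⊓ C(Fcore M)) ∧ U ⊓ C(Fcore M) = ⁅U, U⁆ ∧
    ¬ Coherent M (S10 M (U ⊓ C(Fcore M))) (tauM M)

/-- Peterfalvi (12.6) -/
class PF12a (G : Type u) [Group G] [VS G] [Finite G] : Prop where
  coh {L E : Subgroup G} (hL : Mx L) (ht : TypeI L) (hF : Frob (Fcore L) E L) :
    SInd L (Fcore L) (Fcore L) ⊥ ⊆ Irr L ∧ 2 * #E + 1 ≤ #(Fcore L) ∧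
    (Fcore L).relIndex L = #E ∧ ∃ ν ζ, Inv7 L (Fcore L) (supportR L) ν ζ

/-- Peterfalvi (12.7), (12.17) -/
class PF12b (G : Type u) [Group G] [VS G] [Finite G] : Prop where
  frob {L E : Subgroup G} (hL : Mx L) (ht : TypeI L) (hE : Sdprod (Fcore L) E L) :
    Frob (Fcore L) E L

end H13.V
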