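/-
Port of `H1/PF8a,H1/PF8b` to the `ϖ`-local setting.
-/
import Cfsg.Agent.H13.V17

set_option autoImplicit false
set_option linter.unusedSectionVars false

namespace H13.V
section
open Cfsg Subgroup
open H1
open H19 H17 H20

universe u

section general
variable {G : Type u} [Group G] [Finite G] [VS G] {M U U₁ U₀ W₁ W₂ K H E X : Subgroup G}

theorem NW.J (h : NW U M) (g : G) : NW (cj g U) (cj g M) :=
  ⟨by rw [← cj_norm]; exact cj_mono g h.1, h.2.J g⟩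

theorem NW_cj (g : G) : NW (cj g U) (cj g M) ↔ NW U M :=
  ⟨fun h => by simpa using h.J g⁻¹, fun h => h.J g⟩

theorem TP_J (h : TP M W₁ U W₂) (g : G) : TP (cj g M) (cj g W₁) (cj g U) (cj g W₂) :=
  ⟨coatom_J h.max g, isTypePWith_J h.tp g⟩

theorem typeII_J (h : IsOfTypeII M) (g : G) : IsOfTypeII (cj g M) := by
  obtain ⟨W₁, U, W₂, h, h1, h2, h3, h4, h5, h6, h7⟩ := h
  refine ⟨_, _, _, isTypePWith_J h g, by rwa [Ne, cj_eq_bot], by rwa [card_cj],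
    isTI_Fit_J h3 g, comm_cj.2 h4, by rwa [NW_cj],
    cj_comm g M M ▸ isOfTypeF_J h6 g, ?_⟩
  rw [← cj_comm]
  exact (cj_Fcore g _).symm.trans ((congrArg (cj g) h7).trans (cj_Fcore g M))

theorem typeIII_J (h : IsOfTypeIII M) (g : G) : IsOfTypeIII (cj g M) := by
  obtain ⟨W₁, U, W₂, h, h1, h2, h3, h4, h5⟩ := h
  exact ⟨_, _, _, isTypePWith_J h g, by rwa [Ne, cj_eq_bot], by rwa [card_cj],
    isTI_Fit_J h3 g, comm_cj.2 h4, by rwa [NW_cj]⟩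

theorem typeIV_J (h : IsOfTypeIV M) (g : G) : IsOfTypeIV (cj g M) := by
  obtain ⟨W₁, U, W₂, h, h1, h2, h3, h4, h5⟩ := h
  exact ⟨_, _, _, isTypePWith_J h g, by rwa [Ne, cj_eq_bot], by rwa [card_cj],
    isTI_Fit_J h3 g, by rwa [comm_cj], by rwa [NW_cj]⟩

theorem typeII_cj (g : G) : IsOfTypeII (cj g M) ↔ IsOfTypeII M :=
  iff_of_J (P := IsOfTypeII) (fun _ g h => typeII_J h g) g M
theorem typeIII_cj (g : G) : IsOfTypeIII (cj g M) ↔ IsOfTypeIII M :=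
  iff_of_J (P := IsOfTypeIII) (fun _ g h => typeIII_J h g) g M
theorem typeIV_cj (g : G) : IsOfTypeIV (cj g M) ↔ IsOfTypeIV M :=
  iff_of_J (P := IsOfTypeIV) (fun _ g h => typeIV_J h g) g M
/-! ### type P -/

section TP
variable (h : IsTypePWith M W₁ U W₂)
include h

end TP

theorem typeP_of_types (h : IsOfTypeII M ∨ IsOfTypeIII M ∨ IsOfTypeIV M ∨ IsOfTypeV M) :
    ∃ W₁ U W₂, IsTypePWith M W₁ U W₂ := by
  rcases h with ⟨_, _, _, h, -⟩ | ⟨_, _, _, h, -⟩ | ⟨_, _, _, h, -⟩ | ⟨_, _, _, h, -⟩ <;>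
    exact ⟨_, _, _, h⟩

section
variable (h : IsTypePWith M W₁ U W₂)
include h

theorem tp_II (ht : IsOfTypeII M) : U ≠ ⊥ ∧ (#W₁).Prime ∧ IsTISubset (Fit M : Set G) ∧ Ab U ∧
    ¬ NW U M ∧ IsOfTypeF (D1 M) ∧ Fcore (D1 M) = Fcore M := by
  obtain ⟨_, _, _, h', h1, h2, h3, h4, h5, h6, h7⟩ := ht
  obtain ⟨m, hm, rfl, rfl, rfl⟩ := tp_uniq h' h
  exact ⟨by rwa [Ne, cj_eq_bot], by rwa [card_cj], h3, comm_cj.2 h4,
    by rwa [← cj_of_mem hm, NW_cj], h6, h7⟩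

theorem tp_III (ht : IsOfTypeIII M) : U ≠ ⊥ ∧ (#W₁).Prime ∧ IsTISubset (Fit M : Set G) ∧ Ab U ∧
    NW U M := by
  obtain ⟨_, _, _, h', h1, h2, h3, h4, h5⟩ := ht
  obtain ⟨m, hm, rfl, rfl, rfl⟩ := tp_uniq h' h
  exact ⟨by rwa [Ne, cj_eq_bot], by rwa [card_cj], h3, comm_cj.2 h4,
    by rwa [← cj_of_mem hm, NW_cj]⟩

theorem tp_IV (ht : IsOfTypeIV M) : U ≠ ⊥ ∧ (#W₁).Prime ∧ IsTISubset (Fit M : Set G) ∧ ¬ Ab U ∧
    NW U M := by
  obtain ⟨_, _, _, h', h1, h2, h3, h4, h5⟩ := ht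
  obtain ⟨m, hm, rfl, rfl, rfl⟩ := tp_uniq h' h
  exact ⟨by rwa [Ne, cj_eq_bot], by rwa [card_cj], h3, fun e => h4 (comm_cj.1 e),
    by rwa [← cj_of_mem hm, NW_cj]⟩

theorem tp_234 (ht : T234 M) : U ≠ ⊥ ∧ (#W₁).Prime ∧ IsTISubset (Fit M : Set G) := by
  rcases ht with ht | ht | ht
  · exact ⟨(tp_II h ht).1, (tp_II h ht).2.1, (tp_II h ht).2.2.1⟩
  · exact ⟨(tp_III h ht).1, (tp_III h ht).2.1, (tp_III h ht).2.2.1⟩
  · exact ⟨(tp_IV h ht).1, (tp_IV h ht).2.1, (tp_IV h ht).2.2.1⟩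

theorem tp_234_not_V (ht : T234 M) : ¬ IsOfTypeV M := fun h5 => (tp_234 h ht).1 (tp_V h h5).1

theorem tp_II_not (ht : IsOfTypeII M) : ¬ T345 M := by
  rintro (h3 | h3 | h3)
  · exact (tp_II h ht).2.2.2.2.1 (tp_III h h3).2.2.2.2
  · exact (tp_II h ht).2.2.2.2.1 (tp_IV h h3).2.2.2.2
  · exact tp_234_not_V h (Or.inl ht) h3

end

theorem pair_symm {S T V : Subgroup G} (h : Pair S T W₁ W₂ U V) : Pair T S W₂ W₁ V U :=
  ⟨h.tT, h.tS, by rw [inf_comm, h.inf, sup_comm], h.two.symm, h.typT, h.typS,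
    fun L hL => (h.all L hL).imp_right Or.symm⟩

theorem pair_J {S T V : Subgroup G} (h : Pair S T W₁ W₂ U V) (g : G) :
    Pair (cj g S) (cj g T) (cj g W₁) (cj g W₂) (cj g U) (cj g V) :=
  ⟨TP_J h.tS g, TP_J h.tT g, by rw [← cj_inf, h.inf, cj_sup],
    by rw [typeII_cj, typeII_cj]; exact h.two,
    by rw [typeII_cj, typeIII_cj, typeIV_cj, typeV_cj]; exact h.typS,
    by rw [typeII_cj, typeIII_cj, typeIV_cj, typeV_cj]; exact h.typT,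
    fun L hL => (h.all L hL).imp_right (Or.imp (cjg_cj g S).symm.trans (cjg_cj g T).symm.trans)⟩

theorem pair_not_cjg {S T V : Subgroup G} (h : Pair S T W₁ W₂ U V) : ¬ Cjg S T := by
  rintro ⟨g, rfl⟩
  obtain ⟨m, -, e, -⟩ := tp_uniq (isTypePWith_J h.tS.tp g) h.tT.tp
  have h1 := tp_cop12 h.tS.tp
  rw [← e, card_cj, card_cj, Nat.coprime_self, card_eq_one] at h1
  exact h.tS.tp.W₁_ne h1

end general

section main
variable {G : Type u} [Group G] [Finite G] [VS G] {M U U₁ U₀ W₁ W₂ : Subgroup G}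

theorem tp_not_typeI (h : TP M W₁ U W₂) : ¬ TypeI M := fun h1 =>
  tp_not_typeF h.tp (mmax_sol h.max) h1.1

theorem tp_W_odd (ho : Odd #M) (h : IsTypePWith M W₁ U W₂) : Odd #(W₁ ⊔ W₂) :=
  odd_mono ho (sup_le (tp_W1_le h) (tp_W2_le h))

theorem tp_pti' (ho : Odd #M) (h : IsTypePWith M W₁ U W₂) : PTI M (D1 M) W₁ W₂ :=
  ⟨tp_sd1 h, h.W₁_ne, h.W₁_cyclic, tp_cop1 h, tp_W2_ne h, tp_W2_cyc h, tp_W2_le' h,
    h.W₂_centralizer, tp_W_odd ho h⟩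

theorem tp_cti' (ho : Odd #M) (h : IsTypePWith M W₁ U W₂) : CTI W₁ W₂ :=
  ⟨h.selfNormalizing, tp_W_odd ho h⟩

theorem typeFW_card (ho : Odd #M) (h : TypeFW M U U₁ U₀) : #U₀ = expo U := by
  have := semireg_zgroup (h.U0_le.trans h.sd.norm) h.F_ne h.U0_reg (odd_mono ho (h.U0_le.trans h.sd.right_le))
  rw [← h.U0_exp]; exact (IsZGroup.exponent_eq_card U₀).symm

theorem typeFW_frob (ho : Odd #M) (h : TypeFW M U U₁ U₀) : Frob (Fcore M) U M ↔ IsZGroup U := by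
  refine ⟨fun hF => semireg_zgroup h.sd.norm h.F_ne hF.reg (odd_mono ho h.sd.right_le), fun hZ => ?_⟩
  have : U₀ = U := eq_of_le_of_card_eq h.U0_le ((typeFW_card ho h).trans (IsZGroup.exponent_eq_card U))
  exact ⟨h.sd, h.F_ne, h.U_ne, this ▸ h.U0_reg⟩

variable [hB : BGI' G]

theorem mmax_types (hM : Mx M) :
    TypeI M ∨ IsOfTypeII M ∨ IsOfTypeIII M ∨ IsOfTypeIV M ∨ IsOfTypeV M := by
  rcases hB.s1385 with h | ⟨W₁, W₂, S, T, -, -, -, -, -, -, -, h1, h2, h3⟩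
  · exact Or.inl (h M hM)
  refine (h3 M hM).imp_right ?_
  rintro ⟨g, rfl | rfl⟩
  · exact h1.imp (typeII_J · g) (Or.imp (typeIII_J · g) (Or.imp (typeIV_J · g) (typeV_J · g)))
  · exact h2.imp (typeII_J · g) (Or.imp (typeIII_J · g) (Or.imp (typeIV_J · g) (typeV_J · g)))

theorem exists_tp (hM : Mx M) (h : ¬ TypeI M) : ∃ W₁ U W₂, TP M W₁ U W₂ := by
  obtain ⟨W₁, U, W₂, h⟩ := typeP_of_types ((mmax_types hM).resolve_left h)
  exact ⟨W₁, U, W₂, hM, h⟩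

theorem tp_types (h : TP M W₁ U W₂) : IsOfTypeII M ∨ T345 M :=
  (mmax_types h.max).resolve_left (tp_not_typeI h)

theorem exists_pair0 (h : ¬ ∀ M : Subgroup G, Mx M → TypeI M) :
    ∃ S T W₁ W₂ U V : Subgroup G, Pair S T W₁ W₂ U V := by
  obtain ⟨W₁, W₂, S, T, hW, hS, hT, c1, c2, hi, h0, h1, h2, h3⟩ := hB.s1385.resolve_left h
  obtain ⟨A, U, B, tS⟩ := typeP_of_types h1
  obtain ⟨A', V, B', tT⟩ := typeP_of_types h2
  obtain ⟨m, hm, e1, e2⟩ := tp_of_snc tS c1 hW (le_sup_right.trans (hi.ge.trans inf_le_left))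
  obtain ⟨n, hn, f1, f2⟩ := tp_of_snc tT c2 (snc_symm hW)
    (le_sup_left.trans (hi.ge.trans inf_le_right))
  have tS' := isTypePWith_J tS m
  have tT' := isTypePWith_J tT n
  rw [cj_of_mem hm, e1, e2] at tS'
  rw [cj_of_mem hn, f1, f2] at tT'
  refine ⟨S, T, W₁, W₂, _, _, ⟨hS, tS'⟩, ⟨hT, tT'⟩, hi, h0, h1, h2, fun L hL => (h3 L hL).imp_right ?_⟩
  rintro ⟨g, rfl | rfl⟩
  exacts [Or.inl (cjg_cj g S), Or.inr (cjg_cj g T)]

theorem exists_pair (h : TP M W₁ U W₂) : ∃ T V, Pair M T W₁ W₂ U V := by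
  have key : ∀ S T A B U' V : Subgroup G, Pair S T A B U' V → Cjg S M →
      ∃ T V, Pair M T W₁ W₂ U V := by
    rintro S T A B U' V hp ⟨g, e⟩
    have h1 := pair_J hp g
    rw [e] at h1
    obtain ⟨m, hm, e1, e2, e3⟩ := tp_uniq h1.tS.tp h.tp
    have h2 := pair_J h1 m
    rw [cj_of_mem hm, e1, e2, e3] at h2
    exact ⟨_, _, h2⟩
  obtain ⟨S, T, A, B, U', V, hp⟩ := exists_pair0 fun h1 => tp_not_typeI h (h1 M h.max)
  rcases (hp.all M h.max).resolve_left (tp_not_typeI h) with h1 | h1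
  exacts [key _ _ _ _ _ _ hp h1, key _ _ _ _ _ _ (pair_symm hp) h1]

theorem inst_PF8a : PF8a G where
  norm_eq := mmax_normal
  fcore M := ⟨Fcore_normal M, Fcore_nil M, Fcore_coprime M, Fcore_le_Fit M,
    Fcore_le_iff.1 le_rfl, fun g => (cj_Fcore g M).symm⟩
  typeF {M} h := ⟨(Fcore_hall M).exists_compl (Fcore_norm M), fun _ => typeF_any h⟩
  typeF_frob ho h := ⟨typeFW_card ho h, by
    rw [typeFW_frob ho h, zgroup_iff]
    refine ⟨fun h1 p hp P h2 h3 => h1 p P (PiN.of_isPGroup hp h3) h2, fun h1 p P h2 h3 => ?_⟩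
    by_cases hp : p.Prime
    · exact h1 p hp P h3 h2.isPGroup
    · rw [h2.eq_bot_of_not_prime hp]; exact cyc_bot⟩
  typeF_inertia {M U U₁ U₀} h θ hθ h1 := by
    rintro g ⟨hg, hU⟩
    by_contra hn
    refine cfj_ne_of_fpf (h.sd.norm hU) ?_ hθ h1 hg.2
    by_contra hc
    obtain ⟨x, ⟨hx, hxc⟩, hx1⟩ := exists_ne_one hc
    exact hn (h.U1_cent x hx hx1 ⟨hU, mem_cent1_symm.1 hxc⟩)
  typeP h := ⟨tp_sd1 h.tp, tp_sdF h.tp, tp_sdFM h.tp, tp_sdU h.tp, tp_semiregU h.tp, tp_pti' h.max.1.odd h.tp,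
    tp_cti' h.max.1.odd h.tp, tp_centF h.tp, tp_dprod h.tp, tp_derU h.tp, tp_not_cent h.tp, tp_cop12 h.tp,
    Fcore_cop (tp_sdFM h.tp), tp_copUW h.tp⟩
  tp_conj := TP_J
  tp_uniq h h' := tp_uniq h.tp h'.tp
  type_conj g := ⟨typeI_cj g, typeII_cj g, typeIII_cj g, typeIV_cj g, typeV_cj g⟩
  types := mmax_types
  not_one := tp_not_typeI
  type234 h ht := ⟨(tp_234 h.tp ht).1, (tp_234 h.tp ht).2.1,
    normedTI_of_isTI (tp_234 h.tp ht).2.2 (Fit_mmax_ne_bot h.max)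
      (mmax_normal h.max (Fit_normal _) (Fit_mmax_ne_bot h.max)),
    ⟨tp_sdU h.tp, (tp_234 h.tp ht).1, h.tp.W₁_ne, tp_semiregU h.tp⟩, tp_234_not_V h.tp ht⟩
  type2 h ht := by
    obtain ⟨-, -, -, h1, h2, h3, h4⟩ := tp_II h.tp ht
    exact ⟨h1, h2, h4, typeF_any h3 (h4 ▸ tp_sdF h.tp), tp_II_not h.tp ht⟩
  type3 h ht := ⟨(tp_III h.tp ht).2.2.2.1, (tp_III h.tp ht).2.2.2.2,
    fun h4 => (tp_IV h.tp h4).2.2.2.1 (tp_III h.tp ht).2.2.2.1⟩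
  type4 h ht := (tp_IV h.tp ht).2.2.2
  type5 h ht := ⟨(tp_V h.tp ht).1, tp_V_eq h.tp (tp_V h.tp ht).1, (tp_V h.tp ht).2.imp_left fun h1 =>
    normedTI_of_isTI h1 (tp_F_ne h.tp) (mmax_normal h.max (Fcore_normal _) (tp_F_ne h.tp))⟩
  type1 {M U} hM ht hU := by
    obtain ⟨U₁, U₀, h⟩ := typeF_any ht.1 hU
    refine ht.2.imp (fun h1 => normedTI_of_isTI h1 h.F_ne (mmax_normal hM (Fcore_normal _) h.F_ne))
      (Or.imp_right fun h1 => ?_)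
    rwa [expo_quot_Fcore hU] at h1
  pair := exists_pair
  tp_ex := exists_tp
  pair_symm := pair_symm
  pair_not_cj := pair_not_cjg

end main

end

section
open Cfsg Subgroup
open H1
open H19 H17 H20

universe u

section general
variable {G : Type u} [Group G] [Finite G] [VS G] {M L U W₁ W₂ E : Subgroup G} {a x g : G} {A B : Set G}

theorem supportR_eq' (hC : ¬ C[x] ≤ M) (hL : UniqMax C[x] L) : supportR M x = Fcore L ⊓ C[x] := by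
  have h : ¬ C[x] ≤ M ∧ ∃! L : Subgroup G, Mx L ∧ C[x] ≤ L := ⟨hC, hL.isUniq⟩
  have := Classical.choose_spec h.2.exists
  rw [supportR, dif_pos h, hL.uniq _ this.1 this.2]

theorem supportR_of_le (hC : C[x] ≤ M) : supportR M x = ⊥ := dif_neg fun h => h.1 hC

theorem supportR_cj (g : G) (M : Subgroup G) (x : G) :
    supportR (cj g M) (g * x * g⁻¹) = cj g (supportR M x) := by
  by_cases h : ¬ C[x] ≤ M ∧ Uniq C[x]
  · obtain ⟨L, hL⟩ := uniq_iff.1 h.2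
    have h2 := hL.J g
    rw [cj_cent1] at h2
    rw [supportR_eq' h.1 hL, supportR_eq' (by rw [← cj_cent1, cj_le_cj]; exact h.1) h2, cj_inf,
      cj_Fcore, cj_cent1]
  · have e1 : supportR M x = ⊥ := dif_neg h
    rw [e1, cj_bot]
    refine dif_neg fun h' => h ⟨fun h1 => h'.1 (cj_cent1 g x ▸ cj_mono g h1), ?_⟩
    have := uniq_J (X := C[g * x * g⁻¹]) h'.2 g⁻¹
    rwa [← cj_cent1, cj_inv_cj] at this

theorem tildeOf_eq' (M : Subgroup G) (A : Set G) : tildeOf M A = Til M A := by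
  ext g
  constructor
  · rintro ⟨a, ha, r, hr, y, rfl⟩
    exact ⟨a, ha, r, hr, y⁻¹, by group⟩
  · rintro ⟨a, ha, r, hr, y, e⟩
    exact ⟨a, ha, r, hr, y⁻¹, by rw [← e]; group⟩

theorem til_sub (h : ∀ a ∈ A, g * a * g⁻¹ ∈ B) : Til M A ⊆ Til (cj g M) B := by
  rintro z ⟨a, ha, r, hr, y, e⟩
  refine ⟨_, h a ha, g * r * g⁻¹, by rw [supportR_cj]; exact conj_mem_cj.2 hr, g * y, ?_⟩
  calc g * y * z * (g * y)⁻¹ = g * (y * z * y⁻¹) * g⁻¹ := by group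
    _ = _ := by rw [e]; group

theorem til_cj {F : Subgroup G → Set G} (h : ∀ g M, ∀ a ∈ F M, g * a * g⁻¹ ∈ F (cj g M)) (g : G)
    (M : Subgroup G) : Til (cj g M) (F (cj g M)) = Til M (F M) := by
  refine (til_sub (h g M)).antisymm' ?_
  have := til_sub (M := cj g M) (h g⁻¹ (cj g M))
  rwa [cj_inv_cj] at this

theorem typeCore_34 (h : T34 M) : typeCore M = D1 M := if_pos h
theorem typeCore_not34 (h : ¬ T34 M) : typeCore M = Fcore M := if_neg h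

theorem typeCore_cj (g : G) (M : Subgroup G) : typeCore (cj g M) = cj g (typeCore M) := by
  by_cases h : T34 M
  · rw [typeCore_34 h, typeCore_34 (h.imp (typeIII_J · g) (typeIV_J · g)), cj_comm]
  · rw [typeCore_not34 h, typeCore_not34 (by rwa [T34, typeIII_cj, typeIV_cj]), cj_Fcore]

theorem typeCore_normal (M : Subgroup G) : typeCore M ⊴ M := by
  by_cases h : T34 M
  · rw [typeCore_34 h]; exact der_normal M
  · rw [typeCore_not34 h]; exact Fcore_normal M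

theorem Fcore_le_typeCore (M : Subgroup G) : Fcore M ≤ typeCore M := by
  by_cases h : T34 M
  · rw [typeCore_34 h]
    rcases h with ⟨_, _, _, h, -⟩ | ⟨_, _, _, h, -⟩ <;> exact tp_F_le h
  · rw [typeCore_not34 h]

theorem tp_typeCore_le (h : IsTypePWith M W₁ U W₂) : typeCore M ≤ D1 M := by
  by_cases h1 : T34 M
  · rw [typeCore_34 h1]
  · rw [typeCore_not34 h1]; exact tp_F_le h

theorem tp_typeCore_II (h : IsTypePWith M W₁ U W₂) (ht : IsOfTypeII M) : typeCore M = Fcore M :=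
  typeCore_not34 fun h1 => tp_II_not h ht (h1.imp_right Or.inl)

theorem tp_typeCore_345 (h : IsTypePWith M W₁ U W₂) (ht : T345 M) : typeCore M = D1 M := by
  by_cases h1 : T34 M
  · exact typeCore_34 h1
  · rw [typeCore_not34 h1]
    exact tp_V_eq h (tp_V h ((ht.resolve_left fun e => h1 (Or.inl e)).resolve_left
      fun e => h1 (Or.inr e))).1

theorem mem_typeA1 : a ∈ typeA1 M ↔ a ∈ typeCore M ∧ a ≠ 1 := Iff.rfl

theorem mem_tA_I (h : TypeI M) :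
    a ∈ tA M ↔ a ∈ M ∧ a ≠ 1 ∧ ∃ x ∈ Fcore M, x ≠ 1 ∧ a * x = x * a := by
  rw [tA, if_pos h]; rfl

theorem mem_tA_P (h : ¬ TypeI M) :
    a ∈ tA M ↔ a ∈ D1 M ∧ a ≠ 1 ∧ ∃ x ∈ typeCore M, x ≠ 1 ∧ a * x = x * a := by
  rw [tA, if_neg h]; rfl

theorem typeA1_J (g : G) (M : Subgroup G) : ∀ a ∈ typeA1 M, g * a * g⁻¹ ∈ typeA1 (cj g M) :=
  fun _ ha => mem_typeA1.2 ⟨typeCore_cj g M ▸ conj_mem_cj.2 ha.1, conj_ne_one ha.2 g⟩

theorem tA_J (g : G) (M : Subgroup G) : ∀ a ∈ tA M, g * a * g⁻¹ ∈ tA (cj g M) := by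
  intro a ha
  by_cases h : TypeI M
  · obtain ⟨h1, h2, x, hx, h3, h4⟩ := (mem_tA_I h).1 ha
    exact (mem_tA_I (typeI_J h g)).2 ⟨conj_mem_cj.2 h1, conj_ne_one h2 g, _,
      cj_Fcore g M ▸ conj_mem_cj.2 hx, conj_ne_one h3 g, conj_comm_conj h4 g⟩
  · obtain ⟨h1, h2, x, hx, h3, h4⟩ := (mem_tA_P h).1 ha
    exact (mem_tA_P (by rwa [typeI_cj])).2 ⟨by rw [D1, ← cj_comm]; exact conj_mem_cj.2 h1,
      conj_ne_one h2 g, _, typeCore_cj g M ▸ conj_mem_cj.2 hx, conj_ne_one h3 g, conj_comm_conj h4 g⟩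

theorem tA_conj' (hg : g ∈ M) (ha : a ∈ tA M) : g * a * g⁻¹ ∈ tA M := by
  have := tA_J g M a ha; rwa [cj_of_mem hg] at this

theorem typeA1_conj (hg : g ∈ M) (ha : a ∈ typeA1 M) : g * a * g⁻¹ ∈ typeA1 M := by
  have := typeA1_J g M a ha; rwa [cj_of_mem hg] at this

theorem tA0_conj (hg : g ∈ M) (ha : a ∈ tA0 M) : g * a * g⁻¹ ∈ tA0 M := by
  rcases ha with ha | ⟨h1, W₁, U, W₂, h, m, hm, w, hw, h2, h3, rfl⟩
  · exact Or.inl (tA_conj' hg ha)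
  · exact Or.inr ⟨h1, W₁, U, W₂, h, g * m, M.mul_mem hg hm, w, hw, h2, h3, by group⟩

theorem tA_sub (M : Subgroup G) : tA M ⊆ nt M := by
  intro a ha
  by_cases h : TypeI M
  · exact ⟨((mem_tA_I h).1 ha).1, ((mem_tA_I h).1 ha).2.1⟩
  · exact ⟨der_le M ((mem_tA_P h).1 ha).1, ((mem_tA_P h).1 ha).2.1⟩

theorem tA_sub0 (M : Subgroup G) : tA M ⊆ tA0 M := Set.subset_union_left

theorem tA0_sub (M : Subgroup G) : tA0 M ⊆ nt M := by
  rintro a (ha | ⟨-, W₁, U, W₂, h, m, hm, w, hw, h2, -, rfl⟩)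
  · exact tA_sub M ha
  · exact ⟨M.mul_mem (M.mul_mem hm (sup_le (tp_W1_le h) (tp_W2_le h) hw)) (M.inv_mem hm),
      conj_ne_one (x := w) (fun e => h2 (e ▸ W₁.one_mem)) m⟩

theorem tA_of_zpowers (hx : x ∈ tA M) (ha : a ∈ zpowers x) (h1 : a ≠ 1) : a ∈ tA M := by
  have c : ∀ y, x * y = y * x → a * y = y * a := fun y e =>
    (mem_cent1.1 (cent1_le_cent1_of_mem_zpowers ha (mem_cent1.2 e.symm))).symm
  by_cases h : TypeI M
  · obtain ⟨h2, -, y, hy, h3, h4⟩ := (mem_tA_I h).1 hx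
    exact (mem_tA_I h).2 ⟨zpowers_le.2 h2 ha, h1, y, hy, h3, c y h4⟩
  · obtain ⟨h2, -, y, hy, h3, h4⟩ := (mem_tA_P h).1 hx
    exact (mem_tA_P h).2 ⟨zpowers_le.2 h2 ha, h1, y, hy, h3, c y h4⟩

end general

section main
variable {G : Type u} [Group G] [Finite G] [VS G] [hB : BGI' G] {M L S T K U W₁ W₂ : Subgroup G}
  {a x g : G}

theorem typeI_not34 (hM : Mx M) (h : TypeI M) : ¬ T34 M := by
  rintro (⟨_, _, _, h1, -⟩ | ⟨_, _, _, h1, -⟩) <;> exact tp_not_typeI ⟨hM, h1⟩ h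

theorem typeCore_I (hM : Mx M) (h : TypeI M) : typeCore M = Fcore M :=
  typeCore_not34 (typeI_not34 hM h)

theorem mmax_Fcore_ne (hM : Mx M) : Fcore M ≠ ⊥ := by
  by_cases h : TypeI M
  · obtain ⟨-, -, _, _, _, h⟩ := isOfTypeF_iff.1 h.1
    exact h.F_ne
  · obtain ⟨_, _, _, h⟩ := exists_tp hM h
    exact tp_F_ne h.tp

theorem typeA1_sub (hM : Mx M) : typeA1 M ⊆ tA M := by
  intro a ha
  by_cases h : TypeI M
  · exact (mem_tA_I h).2 ⟨(typeCore_normal M).le ha.1, ha.2, a, typeCore_I hM h ▸ ha.1, ha.2, rfl⟩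
  · obtain ⟨_, _, _, h1⟩ := exists_tp hM h
    exact (mem_tA_P h).2 ⟨tp_typeCore_le h1.tp ha.1, ha.2, a, ha.1, ha.2, rfl⟩

theorem typeA1_sub0 (hM : Mx M) : typeA1 M ⊆ tA0 M := (typeA1_sub hM).trans (tA_sub0 M)

theorem nt_Fcore_sub (M : Subgroup G) : nt (Fcore M) ⊆ typeA1 M := nt_mono (Fcore_le_typeCore M)

theorem tA0_I (h : TypeI M) : tA0 M = tA M :=
  Set.union_eq_left.2 fun _ ha => absurd h ha.1

theorem tA_frob (h : TypeI M) {E : Subgroup G} (hF : Frob (Fcore M) E M) : tA M = nt (Fcore M) := by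
  ext a
  rw [mem_tA_I h]
  refine ⟨fun ⟨h1, h2, x, hx, h3, h4⟩ => ⟨semireg_cent1_le hF.sd hF.reg hx h3 ⟨h1, mem_cent1.2 h4⟩, h2⟩,
    fun ha => ⟨Fcore_le M ha.1, ha.2, a, ha.1, ha.2, rfl⟩⟩

theorem tA0_P (h : TP M W₁ U W₂) : tA0 M = tA M ∪ clsL M (cyV W₁ W₂) := by
  rw [tA0]
  congr 1
  ext v
  constructor
  · rintro ⟨-, W₁', U', W₂', h', m, hm, w, hw, h2, h3, rfl⟩
    obtain ⟨n, hn, rfl, -, rfl⟩ := tp_uniq h.tp h'
    exact ⟨n⁻¹ * w * n, (conj_mem_cyV (g := n)).1 (by simpa [mul_assoc] using ⟨hw, h2, h3⟩), m * n,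
      M.mul_mem hm hn, by group⟩
  · rintro ⟨w, ⟨hw, h2, h3⟩, m, hm, rfl⟩
    exact ⟨tp_not_typeI h, W₁, U, W₂, h.tp, m, hm, w, hw, h2, h3, rfl⟩

theorem tA_345 (h : TP M W₁ U W₂) (ht : T345 M) : tA M = nt (D1 M) := by
  ext a
  rw [mem_tA_P (tp_not_typeI h), tp_typeCore_345 h.tp ht]
  exact ⟨fun h1 => ⟨h1.1, h1.2.1⟩, fun h1 => ⟨h1.1, h1.2, a, h1.1, h1.2, rfl⟩⟩

theorem exists_sigmaDec (hM : Mx M) : ∃ K U, IsSigmaDecomposition M K U := by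
  obtain ⟨⟨K, hK⟩, h⟩ := hB.s1351 M hM
  obtain ⟨U, hU⟩ := (hB.s1352 M hM K (h K hK) hK).1
  exact ⟨K, U, hU⟩

theorem typeCore_eq_Ms (hM : Mx M) : typeCore M = Ms M := by
  obtain ⟨K, U, h⟩ := exists_sigmaDec hM
  by_cases h1 : T34 M
  · obtain ⟨h2, h3, -⟩ := (hB.s1382 M hM K U h).1 h1
    have := (hB.s1365 M hM K U h h2).1
    rw [h3, bot_sup_eq] at this
    rw [typeCore_34 h1]; exact this
  · rw [typeCore_not34 h1]
    by_contra hne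
    obtain ⟨h2, -, h3⟩ := hB.s1357 M hM K U h hne
    exact h1 ((hB.s1382 M hM K U h).2 ⟨ne_bot_of_prime h3, h2, hne⟩)

theorem typeA1_eq_Ms (hM : Mx M) : typeA1 M = (Ms M : Set G) \ {1} := by
  rw [typeA1, typeCore_eq_Ms hM]

theorem fusion_tA0 (hM : Mx M) (hx : x ∈ tA0 M) (hg : g * x * g⁻¹ ∈ tA0 M) :
    ∃ m ∈ M, m * x * m⁻¹ = g * x * g⁻¹ := (hB.s1391 M hM _ (Or.inr rfl)).1 x hx g hg

theorem mem_of_fusion (hM : Mx M) (hx : x ∈ tA0 M) (hg : g * x * g⁻¹ ∈ tA0 M)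
    (hC : C[x] ≤ M) : g ∈ M := by
  obtain ⟨m, hm, e⟩ := fusion_tA0 hM hx hg
  have : m⁻¹ * g ∈ M := hC (mem_cent1.2 (by
    calc m⁻¹ * g * x = m⁻¹ * (g * x * g⁻¹) * g := by group
      _ = x * (m⁻¹ * g) := by rw [← e]; group))
  exact (M.mul_mem_cancel_left (M.inv_mem hm)).1 this

theorem support_tA0 (hM : Mx M) (hx : x ∈ tA0 M) (hC : ¬ C[x] ≤ M) :
    x ∈ typeA1 M ∧ ∃ L : Subgroup G, UniqMax C[x] L ∧ supportR M x = Fcore L ⊓ C[x] ∧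
      Sdprod (Fcore L) (M ⊓ L) L ∧ Sdprod (Fcore L ⊓ C[x]) (M ⊓ C[x]) C[x] ∧
      (∀ y ∈ tA0 M, Nat.Coprime #(Fcore L) #(M ⊓ C[y])) ∧ x ∈ tA L ∧ x ∉ typeA1 L ∧
      (TypeI L ∨ (IsOfTypeII L ∧ ∃ E, Frob (Fcore M) E M)) := by
  obtain ⟨-, h1, h2⟩ := hB.s1391 M hM _ (Or.inr rfl)
  obtain ⟨h3, h4⟩ := h1 x hx hC
  obtain ⟨L, hL⟩ := uniq_iff.1 h4
  obtain ⟨c1, c2, c3, c4, ⟨c5, c6⟩, c7, c8⟩ := h2 x hx hC L hL.max hL.le
  refine ⟨h3, L, hL, supportR_eq' hC hL, sdprod_of_complIn c1 (inf_le_right.trans (Fcore_norm L)),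
    sdprod_of_complIn c3 (inf_le_right.trans c2), c4, c5, c6, c7.imp_right fun h => ⟨h, ?_⟩⟩
  obtain ⟨E, e1, e2⟩ := c8 h
  exact ⟨_, frob_of_frobeniusKernel e1 e2⟩

theorem cent1_le_of_not_A1 (hM : Mx M) (hx : x ∈ tA0 M) (h : x ∉ typeA1 M) : C[x] ≤ M := by
  by_contra hC; exact h (support_tA0 hM hx hC).1

theorem support_sd (hM : Mx M) (hx : x ∈ tA0 M) :
    Sdprod (supportR M x) (M ⊓ C[x]) C[x] ∧
    ∀ y ∈ tA0 M, Nat.Coprime #(supportR M x) #(M ⊓ C[y]) := by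
  by_cases hC : C[x] ≤ M
  · rw [supportR_of_le hC, inf_eq_right.2 hC]
    exact ⟨⟨norm_bot.ge.trans' le_top, bot_sup_eq _, bot_inf_eq _⟩, fun y _ => by simp⟩
  · obtain ⟨-, L, -, e, -, h1, h2, -⟩ := support_tA0 hM hx hC
    rw [e]
    exact ⟨h1, fun y hy => (h2 y hy).coprime_dvd_left (card_dvd inf_le_left)⟩

theorem dade_of_sub (hM : Mx M) {A : Set G} (hA : A ⊆ tA0 M)
    (hn : ∀ y ∈ M, ∀ a ∈ A, y * a * y⁻¹ ∈ A) : DadeHypothesis A M (supportR M) :=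
  ⟨fun h => (tA0_sub M (hA h)).2 rfl, fun _ h => (tA0_sub M (hA h)).1, hn,
    fun _ ha _ hg => fusion_tA0 hM (hA ha) (hA hg), fun _ ha => (support_sd hM (hA ha)).1.left_le,
    fun _ ha _ hc _ hu => (support_sd hM (hA ha)).1.normal.conj_mem hc hu,
    fun _ ha => (support_sd hM (hA ha)).1.inf, fun _ ha => (support_sd hM (hA ha)).1.sup,
    fun _ ha _ hb => (support_sd hM (hA ha)).2 _ (hA hb)⟩

theorem dade_tA0 (hM : Mx M) : DadeHypothesis (tA0 M) M (supportR M) :=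
  dade_of_sub hM subset_rfl fun _ hy _ ha => tA0_conj hy ha

theorem pdade_of (h : TP M W₁ U W₂) {H : Subgroup G} (hH : H ⊴ M) (h1 : Fcore M ≤ H)
    (h2 : H ≤ typeCore M) : PDade M (D1 M) H W₁ W₂ (tA M) (tA0 M) (supportR M) :=
  ⟨tp_pti' h.max.1.odd h.tp, tp_cti' h.max.1.odd h.tp, hH, (tp_W2_leF h.tp).trans h1, h2.trans (tp_typeCore_le h.tp),
    fun _ ha => ⟨((mem_tA_P (tp_not_typeI h)).1 ha).1, ((mem_tA_P (tp_not_typeI h)).1 ha).2.1⟩,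
    fun _ ha ha1 y hy hy1 e => (mem_tA_P (tp_not_typeI h)).2 ⟨ha, ha1, y, h2 hy, hy1, e⟩,
    fun _ hy _ ha => tA_conj' hy ha, tA0_P h, dade_tA0 h.max⟩

theorem typeA1_nonempty (hM : Mx M) : (typeA1 M).Nonempty := by
  obtain ⟨x, hx, h1⟩ := exists_ne_one (mmax_Fcore_ne hM)
  exact ⟨x, nt_Fcore_sub M ⟨hx, h1⟩⟩

theorem typeII_cent1_le (hM : Mx M) (ht : IsOfTypeII M) (hx : x ∈ tA0 M) : C[x] ≤ M := by
  by_contra hC
  obtain ⟨W₁, U, W₂, h⟩ := typeP_of_types (Or.inl ht)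
  have h1 := (support_tA0 hM hx hC).1
  rw [mem_typeA1, tp_typeCore_II h ht] at h1
  exact hC ((normedTI_of_isTI (tp_II h ht).2.2.1 (Fit_mmax_ne_bot hM)
    (mmax_normal hM (Fit_normal _) (Fit_mmax_ne_bot hM))).cent1_le ⟨Fcore_le_Fit M h1.1, h1.2⟩)

theorem typeII_ti (hM : Mx M) (ht : IsOfTypeII M) {A : Set G} (h1 : typeA1 M ⊆ A)
    (hA : A ⊆ tA0 M) (hn : ∀ y ∈ M, ∀ a ∈ A, y * a * y⁻¹ ∈ A) : NormedTI A M :=
  ⟨(typeA1_nonempty hM).mono h1, fun y hy => mem_set_norm (hn y hy),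
    fun _ _ hx hg => mem_of_fusion hM (hA hx) (hA hg) (typeII_cent1_le hM ht (hA hx))⟩

theorem type12_uniq (hM : Mx M)
    (hU : (TypeI M ∧ Sdprod (Fcore M) U M) ∨ (IsOfTypeII M ∧ Sdprod (Fcore M) U (D1 M)))
    {X : Set G} (h1 : X ⊆ nt U) (h2 : X.Nonempty) (h3 : Fcore M ⊓ Subgroup.centralizer X ≠ ⊥) :
    UniqMax (Subgroup.centralizer X) M := by
  have := (hB.s1390 M hM U (hU.imp (And.imp_right Sdprod.complIn) (And.imp_right Sdprod.complIn))).2.1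
    X h1 h2 h3
  exact ⟨hM, this.1, this.2⟩

theorem type12_pgroup (hM : Mx M)
    (hU : (TypeI M ∧ Sdprod (Fcore M) U M) ∨ (IsOfTypeII M ∧ Sdprod (Fcore M) U (D1 M)))
    {p : ℕ} {P : Subgroup G} (hp : p.Prime) (h1 : P ≤ U) (h2 : PG p P) : Ab P ∧ prk p P ≤ 2 := by
  have := Fact.mk hp
  obtain ⟨Q, hQ, h3⟩ := h2.exists_syl h1
  obtain ⟨R, rfl⟩ := hQ.exists_sylow
  obtain ⟨h4, h5⟩ := (hB.s1390 M hM U (hU.imp (And.imp_right Sdprod.complIn)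
    (And.imp_right Sdprod.complIn))).1 p hp R
  rw [prankLE_congr ((R : Subgroup U).equivMapOfInjective _ U.subtype_injective), prankLE_iff hp] at h5
  exact ⟨comm_mono inferInstance h3, (prk_mono p h3).trans h5⟩

theorem core_cop (hM : Mx M) (hL : Mx L) (h : ¬ Cjg M L) :
    Nat.Coprime #(typeCore M) #(typeCore L) := by
  rw [typeCore_eq_Ms hM, typeCore_eq_Ms hL]
  refine (Ms_pi M).coprime_of (Ms_pi L) fun p h1 h2 => h ?_
  obtain ⟨g, e⟩ := hB.s1378.2 M L hM hL ⟨p, h1, h2⟩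
  exact ⟨g, e.symm⟩

theorem til1_disj (hM : Mx M) (hL : Mx L) (h : ¬ Cjg M L) :
    Disjoint (Til M (typeA1 M)) (Til L (typeA1 L)) := by
  rw [typeA1_eq_Ms hM, typeA1_eq_Ms hL, ← tildeOf_eq', ← tildeOf_eq', Set.disjoint_iff_inter_eq_empty]
  exact hB.s1379 M L hM hL fun g e => h ⟨g, e.symm⟩

theorem inst_PF8b : PF8b G where
  sets {M} hM := ⟨rfl, Fcore_le_typeCore M, typeCore_normal M, mmax_Fcore_ne hM, typeA1_sub hM,
    tA_sub0 M, tA0_sub M⟩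
  sets1 hM ht := ⟨typeCore_I hM ht, tA0_I ht, fun _ => mem_tA_I ht, fun _ => tA_frob ht⟩
  setsP h := ⟨tA0_P h, fun _ => mem_tA_P (tp_not_typeI h), tp_typeCore_II h.tp,
    fun ht => ⟨tp_typeCore_345 h.tp ht, tA_345 h ht⟩⟩
  sets_conj {M} g := ⟨typeCore_cj g M, til_cj typeA1_J g M, til_cj tA_J g M⟩
  hall {M} hM := by
    obtain ⟨h1, h2, h3⟩ := hB.s1389 M hM
    refine ⟨h2, h3, fun p P hp hP hne => ?_⟩
    have := Fact.mk hp
    obtain ⟨R, rfl⟩ := hP.exists_sylow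
    exact h1 p hp R fun e => hne (by rw [e, Subgroup.map_bot])
  type12 hM hU := by
    refine ⟨fun p P hp h1 h2 => ?_, fun X => type12_uniq hM hU, fun x hx g hg =>
      mem_of_fusion hM (tA_sub0 _ hx.1) (tA_sub0 _ hg.1) (cent1_le_of_not_A1 hM (tA_sub0 _ hx.1) hx.2)⟩
    obtain ⟨h3, h4⟩ := type12_pgroup hM hU hp h1 (PiN.of_isPGroup hp h2)
    refine ⟨h3, fun h5 => ?_⟩
    obtain ⟨n, hn⟩ := abelem_el hp h5 le_rfl
    rw [hn.card]
    exact Nat.pow_le_pow_right hp.pos (hn.le_prk.trans h4)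
  fusion hM := fusion_tA0 hM
  support hM := support_tA0 hM
  support_bot := supportR_of_le
  dade := dade_of_sub
  dade_std {M} hM := ⟨dade_tA0 hM, dade_of_sub hM (tA_sub0 M) fun _ hy _ ha => tA_conj' hy ha,
    dade_of_sub hM (typeA1_sub0 hM) fun _ hy _ ha => typeA1_conj hy ha,
    dade_of_sub hM ((nt_Fcore_sub M).trans (typeA1_sub0 hM))
      fun _ hy _ ha => conj_mem_nt (Fcore_norm M hy) ha⟩
  pdade {M _ _ _} h := ⟨pdade_of h (Fcore_normal M) le_rfl (Fcore_le_typeCore M),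
    pdade_of h (typeCore_normal M) (Fcore_le_typeCore M) le_rfl⟩
  type2_ti {M} hM ht := ⟨typeII_ti hM ht (typeA1_sub0 hM) subset_rfl fun _ hy _ ha => tA0_conj hy ha,
    typeII_ti hM ht (typeA1_sub hM) (tA_sub0 M) fun _ hy _ ha => tA_conj' hy ha,
    typeII_ti hM ht subset_rfl (typeA1_sub0 hM) fun _ hy _ ha => typeA1_conj hy ha⟩
  primes_cover {p} hw hp hd := by
    obtain ⟨M, hM, h⟩ := exists_sigma hw hp hd
    refine ⟨M, hM, ?_⟩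
    rw [typeCore_eq_Ms hM]
    exact (Hall.of_pre (hB.s1350 M hM).1).prime_dvd hp h (sigma_dvd h)
  core_coprime := core_cop
  til_disj := til1_disj

end main

end

end H13.V
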