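/-
Port of `H0/PF9a, H2/PF9b` to the `ϖ`-local setting.
-/
import Cfsg.Agent.H13.V18

set_option autoImplicit false
set_option linter.unusedSectionVars false

namespace H13.V
universe u
section
open Cfsg Subgroup
open H0
open H19 H20

variable {G : Type u} [Group G] [Finite G] [VS G] [PF8a G] {M W₁ U W₂ H₀ : Subgroup G} {p : ℕ}

theorem pf9_wielandt (h : TP M W₁ U W₂) :
    #(Fcore M ⊓ C(U ⊔ W₁)) ^ #W₁ * #(Fcore M) = #W₂ ^ #W₁ * #(Fcore M ⊓ C(U)) := by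
  obtain ⟨-, -, s1, s2, hr, -, -, hW, -, -, -, -, hc, -⟩ := PF8a.typeP h
  rw [← hW]
  exact wielandt s2 hr s1.norm hc (sol_of_nil (PF8a.fcore M).2.1)

theorem pf9_card2 [PF8b G] (h : TP M W₁ U W₂) (ht : IsOfTypeII M) :
    Fcore M ⊓ C(U) = ⊥ ∧ #(Fcore M) = #W₂ ^ #W₁ := by
  have h0 : Fcore M ⊓ C(U) = ⊥ := by
    by_contra h1
    obtain ⟨-, s0, -⟩ := PF8a.typeP h
    have hU := (PF8a.type234 h (Or.inl ht)).1
    have e : centralizer (nt U) = C(U) := by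
      refine le_antisymm (fun x hx y hy => ?_) (centralizer_le Set.sdiff_subset)
      by_cases h1 : y = 1
      · simp [h1]
      · exact hx y ⟨hy, h1⟩
    have := (PF8b.type12 h.max (Or.inr ⟨ht, s0⟩)).2.1 (nt U) subset_rfl (exists_ne_one hU)
      (e ▸ h1)
    rw [e] at this
    exact (PF8a.type2 h ht).2.1 ⟨(norm_le_norm_cent U).trans this.norm_le,
      w_of_cent_ne_bot ((Fit_w h.max).of_le (PF8a.fcore M).2.2.2.1) h1⟩
  have := pf9_wielandt h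
  rw [h0, H19.eq_bot_mono (inf_le_inf_left _ (cent_mono le_sup_left)) h0] at this
  exact ⟨h0, by simpa using this⟩

theorem pf9_card34 (h : TP M W₁ U W₂) (ht : T34 M) :
    (#W₂).Prime ∧ Fcore M ⊓ C(U ⊔ W₁) = ⊥ ∧ #(Fcore M) = #W₂ ^ #W₁ * #(Fcore M ⊓ C(U)) := by
  obtain ⟨T, V, hp⟩ := PF8a.pair h
  have hT : IsOfTypeII T := hp.two.resolve_left fun h2 =>
    (PF8a.type2 h h2).2.2.2.2 (ht.imp_right Or.inl)
  have hq := (PF8a.type234 hp.tT (Or.inl hT)).2.1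
  have hw := pf9_wielandt h
  obtain ⟨-, -, -, -, -, -, -, hW, -, -, hU, -⟩ := PF8a.typeP h
  have h0 : Fcore M ⊓ C(U ⊔ W₁) = ⊥ := by
    refine (eq_bot_or_eq_of_prime hq (hW ▸ inf_le_inf_left _ (cent_mono le_sup_right))).resolve_right
      fun e => hU (PF8a.type234 h (Or.inr ht)).1 ?_
    rw [e, mul_right_inj' (pow_ne_zero _ hq.ne_zero)] at hw
    exact cents_symm ((eq_of_le_of_card_eq inf_le_left hw.symm).ge.trans inf_le_right)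
  rw [h0] at hw
  exact ⟨hq, h0, by simpa using hw⟩

theorem pf9_ex (h : TP M W₁ U W₂) (ht : T234 M) : ∃ H₀ p, P9 M W₁ U W₂ H₀ p := by
  obtain ⟨-, -, s1, s2, -, -, -, -, -, -, hU, -⟩ := PF8a.typeP h
  obtain ⟨H₀, p, h1, h2, h3, h4, h5, h6, h7⟩ := exists_chief_top (C := Fcore M ⊓ C(U))
    (PF8a.fcore M).1 (PF8a.fcore M).2.1 (lt_of_le_of_ne inf_le_left fun e =>
      hU (PF8a.type234 h ht).1 (cents_symm (e.ge.trans inf_le_right))) (by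
    refine s1.sup.ge.trans (sup_le (norms_of_der_le le_sup_right (sup_le inf_le_left (der_le _)))
      (norms_sup (norms_inf s1.norm (norms_cent s2.normal.norm)) (norms_der s1.norm))))
  exact ⟨H₀, p, h, ht, h1, h2, h3, h4, h5, h6, h7⟩

theorem hyp9_of (h : P9 M W₁ U W₂ H₀ p) : Hyp9 p (Fcore M) H₀ U W₁ W₂ := by
  obtain ⟨-, -, s1, s2, hr, hpt, -, hW, -, hd, -, -, hc, -⟩ := PF8a.typeP h.tp
  exact ⟨h.prime, (PF8a.type234 h.tp h.typ).2.1, h.lt, s2.norm, hr, s1.norm,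
    s1.right_le.trans h.norm, h.der_le, h.pow_mem, fun Y y1 y2 y3 => h.chief Y y1 y2
      (s1.sup.ge.trans (sup_le (norms_of_der_le (h.der_le.trans y1) y2) y3)), h.cent_le, hc,
    sol_of_nil (PF8a.fcore M).2.1, hW, hpt.W2_cyc, hd⟩

theorem inst_PF9a [PF8b G] : PF9a G where
  card2 := pf9_card2
  card34 := pf9_card34
  ex := pf9_ex
  facts {M W₁ U W₂ H₀ p} h := by
    have k := hyp9_of h
    obtain ⟨-, -, s1, -⟩ := PF8a.typeP h.tp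
    refine ⟨k.card.1, k.card.2, fun ht => ?_, k.lt_U, k.der_le_C, k.norm_C,
      s1.sup.ge.trans (sup_le (norms_of_le le_sup_left) (norms_sup s1.norm k.norm_C)),
      s1.sup.ge.trans (k.norm_sup le_rfl k.norm_C),
      s1.sup.ge.trans (k.norm_sup (der_le _) (norms_der k.norm_C)),
      s1.sup.ge.trans (k.norm_sup k.der_le_C (norms_der k.normU)), k.bound⟩
    exact (Nat.prime_dvd_prime_iff_eq h.prime (pf9_card34 h.tp ht).1).1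
      (k.card.2 ▸ relIndex_dvd_card _ _)
  cases {M W₁ U W₂ H₀ p} h := by
    refine (em _).imp_right fun hg => ?_
    obtain ⟨H₁, a, h1, h2, h3, h4, h5, h6, h7, h8, h9, h10, h11, h12⟩ := (hyp9_of h).nongal hg
    exact ⟨H₁, a, h1, h2, h3, h4, h5, h6, h7, h8, h9, h10, h11, h12⟩
  gal h hg := (hyp9_of h).gal hg

end

section
open Cfsg Subgroup
open H2 H2.PF
open H19 hiding eq_bot_mono
open H20 H17
open scoped ComplexConjugate Classical commutatorElement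
variable {G : Type u} [Group G] [Finite G] [VS G] [PF8a G] [PF9a G] {M W₁ U W₂ H₀ H₁ : Subgroup G} {p a : ℕ}

theorem pti_of (h : P9 M W₁ U W₂ H₀ p) : PTI M (D1 M) W₁ W₂ := (PF8a.typeP h.tp).2.2.2.2.2.1

theorem hy_of (h : P9 M W₁ U W₂ H₀ p) : Hy M (D1 M) (Fcore M) H₀ U W₁ p := by
  obtain ⟨a1, a2, -, a4, a5, a6, -⟩ := PF8a.typeP h.tp
  exact ⟨a1, a2, (PF8a.fcore M).1.norm, h.norm, a4.norm, h.lt, h.der_le,
    (PF9a.facts h).2.2.2.2.1.trans inf_le_right, a5, (PF8a.type234 h.tp h.typ).2.1, h.prime, a6.cop,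
    h.tp.max.1.odd, (PF9a.facts h).1, h.chief⟩

theorem ng_of (h : P9 M W₁ U W₂ H₀ p) (hn : NonGal M W₁ U H₀ H₁ p a) :
    NG M (D1 M) (Fcore M) H₀ U W₁ H₁ p a :=
  ⟨hy_of h, hn.le₀, hn.le₁, hn.norm, hn.idx, hn.gen, hn.indep, hn.a_eq, hn.a_dvd⟩

theorem LinInd.deg (h : P9 M W₁ U W₂ H₀ p) {χ : G → ℂ} (hχ : LinInd M (cU M U H₀) χ) :
    χ 1 = (#W₁ * (cU M U H₀).relIndex U : ℕ) := by
  obtain ⟨θ, hθ, rfl⟩ := hχ
  rw [Ind_one (((hy_of h).HV_le inf_le_left).trans (hy_of h).KM), hθ.one, mul_one,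
    (hy_of h).idx_HV inf_le_left]

theorem nongal_irr (h : P9 M W₁ U W₂ H₀ p) (hn : NonGal M W₁ U H₀ H₁ p a) :
    ∃ χ ∈ S9 M (H₀ ⊔ cU M U H₀), χ ∈ Irr M ∧ LinInd M (cU M U H₀) χ := by
  obtain ⟨ψ, h1, h2, h3⟩ := (ng_of h hn).exists_irr
  refine ⟨_, ?_, h2, ψ, h1, rfl⟩
  rw [← Ind_Ind ((hy_of h).HV_le inf_le_left) (hy_of h).KM]
  exact Ind_mem_SInd h3

theorem gal_deg (h : P9 M W₁ U W₂ H₀ p) (hg : Gal M U H₀) :
    (∀ θ ∈ IrrK (D1 M) (Fcore M) H₀, (cU M U H₀).relIndex U ∣ deg θ) ∧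
    ∀ χ ∈ S9 M (H₀ ⊔ ⁅cU M U H₀, cU M U H₀⁆), LinInd M (cU M U H₀) χ := by
  refine ⟨fun θ hθ => (hy_of h).gal_dvd hg hθ, fun χ hχ => ?_⟩
  obtain ⟨θ, hθ, rfl⟩ := mem_SInd.1 hχ
  obtain ⟨ψ, h1, h2⟩ := (hy_of h).gal_lin hg hθ
  exact ⟨ψ, h1, by rw [h2, Ind_Ind ((hy_of h).HV_le inf_le_left) (hy_of h).KM]⟩

theorem red_card (h : P9 M W₁ U W₂ H₀ p) :
    (Finset.univ.filter fun j : Ch W₂ => j ≠ 1 ∧ ∀ x ∈ W₂ ⊓ H₀, j.fn x = 1).card = p - 1 := by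
  have h1 := card_ch_ker (comm_of_cyclic (pti_of h).W2_cyc) (inf_le_left : W₂ ⊓ H₀ ≤ W₂)
  rw [(PF9a.facts h).2.1] at h1
  rw [← h1, ← Finset.card_erase_of_mem (a := 1) (Finset.mem_filter.2 ⟨Finset.mem_univ _,
    fun x hx => by rw [Ch.fn_one, triv_of_mem hx.1]⟩)]
  congr 1; ext j; simp

variable [PF4a.{u}]

theorem red (h : P9 M W₁ U W₂ H₀ p) {j : Ch W₂} (hj : j ≠ 1) (h0 : ∀ x ∈ W₂ ⊓ H₀, j.fn x = 1) :
    muR M W₁ j ∈ S9 M (H₀ ⊔ cU M U H₀) ∧ LinInd M (cU M U H₀) (muR M W₁ j) ∧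
    muR M W₁ j 1 = (#W₁ * (cU M U H₀).relIndex U : ℕ) := by
  have hy := hy_of h
  have ht := pti_of h
  have h2 : W₂ ≤ Fcore M := (PF8a.typeP h.tp).2.2.2.2.2.2.2.1.ge.trans inf_le_left
  have h3 : ¬ Fcore M ≤ cker (chiR M (D1 M) W₁ j) := fun h' =>
    hj (Ch.eq_one_iff.2 fun x hx => (PF4a.ker_chiR ht hy.HK hy.nH j).1 h' x ⟨hx, h2 hx⟩)
  obtain ⟨ψ, h4, h5, h6⟩ := hy.inv_lin (mem_IrrK.2 ⟨PF4a.chiR_irr ht j,
    (PF4a.ker_chiR ht (hy.le0.trans hy.HK) hy.nH0 j).2 h0, h3⟩)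
    ((irr_cinv (PF4a.mu_irr ht 1 j)).Res hy.Kn.norm)
  have h7 : LinInd M (cU M U H₀) (muR M W₁ j) :=
    ⟨ψ, h4, by rw [← PF4a.ind_chiR ht, h6, Ind_Ind (hy.HV_le inf_le_left) hy.KM]⟩
  refine ⟨?_, h7, LinInd.deg h h7⟩
  rw [← PF4a.ind_chiR ht]
  refine Ind_mem_SInd (mem_IrrK.2 ⟨PF4a.chiR_irr ht j, ?_, h3⟩)
  rw [h6]
  exact le_cker_Ind (hy.KM.trans hy.norm_H0C) (sup_le_sup_right hy.le0 _) h5

theorem red_iff (h : P9 M W₁ U W₂ H₀ p) {χ : G → ℂ} (hχ : χ ∈ S9 M H₀) (hr : χ ∉ Irr M) :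
    ∃ j : Ch W₂, j ≠ 1 ∧ (∀ x ∈ W₂ ⊓ H₀, j.fn x = 1) ∧ χ = muR M W₁ j := by
  have hy := hy_of h
  have ht := pti_of h
  obtain ⟨θ, hθ, rfl⟩ := mem_SInd.1 hχ
  obtain ⟨h1, h2, h3⟩ := mem_IrrK.1 hθ
  rcases PF4a.ind_cases ht h1 with ⟨j, rfl⟩ | h4
  · refine ⟨j, fun e => h3 ?_, (PF4a.ker_chiR ht (hy.le0.trans hy.HK) hy.nH0 j).1 h2,
      PF4a.ind_chiR ht j⟩
    rw [e, PF4a.chiR_one ht, cker_triv]; exact hy.HK
  · exact absurd h4.1 hr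

/-- the contribution of the reducible characters -/
theorem sum_red_le (h : P9 M W₁ U W₂ H₀ p) {T : Finset (G → ℂ)} (hT : T ⊆ S9 M H₀)
    (hr : ∀ χ ∈ T, χ ∉ Irr M) : ∑ χ ∈ T, (deg χ : ℝ) ^ 2 / nrm M χ ≤
      ((p : ℝ) - 1) * (#W₁ * ((cU M U H₀).relIndex U : ℝ) ^ 2) := by
  have hc : T.card ≤ p - 1 := by
    rw [← red_card h]
    refine (Finset.card_le_card fun χ hχ => ?_).trans (Finset.card_image_le (f := muR M W₁))
    obtain ⟨j, h1, h2, rfl⟩ := red_iff h (hT hχ) (hr χ hχ)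
    exact Finset.mem_image_of_mem _ (Finset.mem_filter.2 ⟨Finset.mem_univ _, h1, h2⟩)
  rw [Finset.sum_congr rfl (g := fun _ => #W₁ * ((cU M U H₀).relIndex U : ℝ) ^ 2),
    Finset.sum_const, nsmul_eq_mul]
  · refine mul_le_mul_of_nonneg_right ?_ (by positivity)
    have := h.prime.pos
    rw [← Nat.cast_pred this]; exact_mod_cast hc
  · intro χ hχ
    obtain ⟨j, h1, h2, rfl⟩ := red_iff h (hT hχ) (hr χ hχ)
    rw [deg_eq_of_cast (red h h1 h2).2.2, nrm_eq_of_dot (r := #W₁)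
      (by rw [PF4a.dot_muR (pti_of h), if_pos rfl]; simp)]
    have := cardR_ne W₁
    push_cast; field_simp

omit [PF4a.{u}] in
theorem sum_S9 (h : P9 M W₁ U W₂ H₀ p) {V : Subgroup G} (h1 : V ≤ cU M U H₀)
    (hV : U ⊔ W₁ ≤ N(V)) : ∑ χ ∈ S9 M (H₀ ⊔ V), (deg χ : ℝ) ^ 2 / nrm M χ =
      #W₁ * (((p : ℝ) ^ #W₁ - 1) * V.relIndex U) := by
  have hy := hy_of h
  have h2 : V ≤ U := h1.trans inf_le_left
  rw [sum_SInd_deg hy.Kn hy.nH hy.HK (hy.norm_H0V h1 hV) (sup_le (hy.le0.trans hy.HK)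
    (h2.trans hy.UK)), ← sup_assoc, sup_eq_left.2 hy.le0, relIndex_sup_sd' hy.sdK h2,
    relIndex_sup_sd hy.sdK hy.le0 h2 (h2.trans (hy.UM.trans hy.nH0)), hy.idx, hy.idxKM]
  push_cast; ring

theorem no_irr (h : P9 M W₁ U W₂ H₀ p)
    (hn : ∀ χ ∈ S9 M (H₀ ⊔ ⁅cU M U H₀, cU M U H₀⁆), χ ∈ Irr M → ¬ LinInd M (cU M U H₀) χ) :
    Gal M U H₀ ∧ cU M U H₀ = ⊥ ∧ #U * (p - 1) = p ^ #W₁ - 1 ∧ Cyc U ∧
    (IsOfTypeII M → Frob (Fcore M) U (D1 M)) := by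
  have hy := hy_of h
  have hg : Gal M U H₀ := by
    rcases PF9a.cases h with hg | ⟨H₁, a, hg⟩
    · exact hg
    obtain ⟨χ, h1, h2, h3⟩ := nongal_irr h hg
    exact absurd h3 (hn χ (SInd_mono le_rfl (sup_le_sup_left (der_le _) _) h1) h2)
  have h1 := sum_red_le h (SInd_mono le_rfl le_sup_left) fun χ hχ hi =>
    hn χ hχ hi ((gal_deg h hg).2 χ hχ)
  rw [sum_S9 h (der_le _) (norms_der hy.UW_norm_C),
    ← relIndex_mul_relIndex _ _ _ (der_le (cU M U H₀)) inf_le_left] at h1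
  have h2 := (PF9a.facts h).2.2.2.2.2.2.2.2.2.2
  have hu := relIndex_pos (cU M U H₀) U
  have hc := relIndex_pos ⁅cU M U H₀, cU M U H₀⁆ (cU M U H₀)
  have hq := card_pos W₁
  have hP : 1 < p ^ #W₁ := Nat.one_lt_pow hq.ne' h.prime.one_lt
  have h3 : (p ^ #W₁ - 1) * ⁅cU M U H₀, cU M U H₀⁆.relIndex (cU M U H₀) ≤
      (cU M U H₀).relIndex U * (p - 1) := by
    refine Nat.le_of_mul_le_mul_left ?_ (Nat.mul_pos hq hu)
    rw [← Nat.cast_le (α := ℝ)]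
    push_cast [Nat.cast_pred h.prime.pos, Nat.cast_pred (zero_lt_one.trans hP)] at h1 ⊢
    linarith
  have h4 : ⁅cU M U H₀, cU M U H₀⁆.relIndex (cU M U H₀) = 1 := by
    refine le_antisymm (Nat.le_of_mul_le_mul_left ((h3.trans h2).trans (mul_one _).ge) (by omega)) hc
  have hC : cU M U H₀ = ⊥ := sol_eq_bot_of_le_der (mmax_sub_sol h.tp.max
    (inf_le_left.trans hy.UM)) (relIndex_eq_one.1 h4)
  have hcyc : Cyc U := by
    obtain ⟨x, -, hx⟩ := (PF9a.gal h hg).1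
    rw [hC, sup_bot_eq] at hx
    exact cyc_iff.2 ⟨x, hx⟩
  refine ⟨hg, hC, ?_, hcyc, fun ht => ?_⟩
  · rw [h4, mul_one, hC, relIndex_bot_left] at h3
    rw [hC, relIndex_bot_left] at h2
    exact le_antisymm h2 h3
  · obtain ⟨-, -, e, ⟨U₁, U₀, hF⟩, -⟩ := PF8a.type2 h.tp ht
    rw [← e]
    exact (PF8a.typeF_frob (h.tp.max.odd hy.KM) hF).2.2 fun _ _ P hP _ => cyc_mono hcyc hP

theorem inst_PF9b : PF9b G where
  red := red
  red_iff := red_iff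
  red_card := red_card
  nongal_dvd h hn _ hθ := (ng_of h hn).dvd hθ
  nongal_irr := nongal_irr
  nongal_count h hn := (ng_of h hn).count
  gal_deg := gal_deg
  no_irr := no_irr

end

end H13.V
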