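/-
The involution trick of Brauer-Suzuki type: a virtual character supported on nontrivial
`w`-elements is killed by the class algebra functional of an involution.
-/
import Cfsg.Agent.H13.V19

set_option autoImplicit false
set_option linter.unusedSectionVars false

namespace H13.V
open Cfsg Subgroup H19 H17 H20
open scoped ComplexConjugate Classical

universe u

section
variable {G : Type u} [Group G] [Finite G]

/-- `θ ↦ ∑ₓ θ(t^x t)` -/
noncomputable def Phi (t : G) : (G → ℂ) →ₗ[ℂ] ℂ where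
  toFun θ := ∑ x ∈ fin ((⊤ : Subgroup G) : Set G), θ (x * t * x⁻¹ * t)
  map_add' φ ψ := by simp [Finset.sum_add_distrib]
  map_smul' c φ := by simp [Finset.mul_sum]

theorem Phi_apply (t : G) (θ : G → ℂ) :
    Phi t θ = ∑ x ∈ fin ((⊤ : Subgroup G) : Set G), θ (x * t * x⁻¹ * t) := rfl

theorem Phi_irr (t : G) {χ : G → ℂ} (h : χ ∈ Irr (⊤ : Subgroup G)) :
    Phi t χ * χ 1 = Nat.card G * χ t ^ 2 := by
  let f : G → ℂ := fun g => ∑ x ∈ fin ((⊤ : Subgroup G) : Set G), if x * t * x⁻¹ = g then 1 else 0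
  have hf : CInv ⊤ f := fun y _ g => by
    simp only [f]
    rw [← sum_sub_mul_left (mem_top y)]
    refine Finset.sum_congr rfl fun x _ => if_congr ⟨fun e => ?_, fun e => ?_⟩ rfl rfl
    · have : x * t * x⁻¹ = y⁻¹ * (y * x * t * (y * x)⁻¹) * y := by group
      rw [this, e]; group
    · rw [← e]; group
  have key : ∀ F : G → ℂ, ∑ g ∈ fin ((⊤ : Subgroup G) : Set G), f g * F g =
      ∑ x ∈ fin ((⊤ : Subgroup G) : Set G), F (x * t * x⁻¹) := fun F => by
    simp only [f, Finset.sum_mul]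
    rw [Finset.sum_comm]
    refine Finset.sum_congr rfl fun x _ => ?_
    simp only [ite_mul, one_mul, zero_mul]
    rw [Finset.sum_ite_eq, if_pos (by simp)]
  have h1 := irr_conv h hf (mem_top t)
  rw [key (fun g => χ (g * t)), key χ] at h1
  simp only [irr_cinv h _ (mem_top _) t] at h1
  rw [Phi_apply, h1, sum_sub_const, card_top', nsmul_eq_mul]
  have := irr_one_ne h
  field_simp

theorem Phi_dirr (t : G) {χ : G → ℂ} (h : DIrr (⊤ : Subgroup G) χ) :
    Phi t χ * χ 1 = Nat.card G * χ t ^ 2 := by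
  rcases h.cases with e | e
  · exact Phi_irr t e
  · have := Phi_irr t e
    simpa using this

theorem Phi_dirr' (t : G) {χ : G → ℂ} (h : DIrr (⊤ : Subgroup G) χ) :
    Phi t χ = Nat.card G * (χ t ^ 2 / χ 1) := by
  have := h.one_ne
  rw [← mul_div_assoc, ← Phi_dirr t h]; field_simp

theorem aut_inv_fix {χ : G → ℂ} (h : χ ∈ ZIrr (⊤ : Subgroup G)) {t : G} (ht : orderOf t = 2)
    (σ : ℂ →+* ℂ) : aut σ χ t = χ t :=
  zirr_aut_fix h σ fun z hz => by
    rw [ht, sq_eq_one_iff] at hz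
    rcases hz with rfl | rfl <;> simp
end

variable {G : Type u} [Group G] [Finite G] [VS G] {M W₁ U W₂ H₀ : Subgroup G} {t : G}
  {θ χ Z : G → ℂ}

/-- supported on nontrivial `w`-elements -/
def WS (θ : G → ℂ) : Prop := ∀ g, θ g ≠ 0 → g ≠ 1 ∧ PiE (vw G) g

theorem exists_inv : ∃ t : G, orderOf t = 2 :=
  haveI := Fact.mk Nat.prime_two
  exists_prime_orderOf_dvd_card' 2 (mFT_even (G := G)).two_dvd

theorem not_mem_loc (ht : orderOf t = 2) {H : Subgroup G} (h : Loc H) : t ∉ H := fun e => by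
  have := h.odd.of_dvd_nat (orderOf_dvd_natCard H e)
  rw [ht] at this
  exact absurd this (by decide)

theorem WS.one (h : WS θ) : θ 1 = 0 := by_contra fun e => (h 1 e).1 rfl

theorem WS.inv (h : WS θ) (ht : orderOf t = 2) : θ t = 0 := by_contra fun e =>
  not_mem_loc ht (loc_cent1 (h t e).2 (h t e).1) (mem_centralizer_singleton_iff.2 rfl)

theorem WS.phi (h : WS θ) (ht : orderOf t = 2) : Phi t θ = 0 := by
  refine Finset.sum_eq_zero fun x _ => by_contra fun e => ?_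
  obtain ⟨h1, h2⟩ := h _ e
  have h3 : t * t = 1 := by rw [← sq, ← ht, pow_orderOf_eq_one]
  have h4 : t⁻¹ = t := inv_eq_of_mul_eq_one_right h3
  refine not_mem_loc ht (loc_norm (zpowers_ne_bot.2 h1) (piG_zpowers.2 h2))
    (mem_norm_of_cj_le ?_)
  rw [cj_zpowers, zpowers_le]
  have : t * (x * t * x⁻¹ * t) * t⁻¹ = (x * t * x⁻¹ * t)⁻¹ := by
    simp only [mul_inv_rev, inv_inv, h4, mul_assoc, h3, mul_one]
  rw [this]
  exact inv_mem (mem_zpowers _)

theorem irr_ker (h : χ ∈ Irr (⊤ : Subgroup G)) (ht : t ≠ 1) (e : χ t = χ 1) : χ = triv ⊤ := by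
  haveI := mFT_simple (G := G)
  have h1 : t ∈ cker χ := (chr_mem_cker (irr_chr h) (mem_top t)).2 e
  have h2 : (cker χ).Normal := normalizer_eq_top_iff.1 (top_le_iff.1 (norm_cker (irr_cinv h)))
  rcases IsSimpleGroup.eq_bot_or_eq_top_of_normal _ h2 with h3 | h3
  · exact absurd (h3.le h1) ht
  · exact (irr_le_cker_iff h).1 h3.ge

theorem dirr_ker (h : DIrr (⊤ : Subgroup G) χ) (ht : t ≠ 1) (e : χ t = χ 1) :
    dot ⊤ χ (triv ⊤) ≠ 0 := by
  rcases h.cases with h1 | h1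
  · rw [irr_ker h1 ht e, irr_dot_self (triv_mem_Irr _)]; exact one_ne_zero
  · have := irr_ker h1 ht (by simp [e])
    rw [← neg_neg χ, this, dot_neg_left, irr_dot_self (triv_mem_Irr _)]; simp

theorem eta_ker [PF3.{u}] (hc : CTI W₁ W₂) {i : Ch W₁} {j : Ch W₂} (hij : i ≠ 1 ∨ j ≠ 1)
    (ht : orderOf t = 2) : eta i j t ≠ eta i j 1 := fun e => by
  refine dirr_ker (PF3.dirr hc i j) (fun h => by simp [h] at ht) e ?_
  rw [← PF3.eta_one hc, PF3.dot_eta hc, if_neg (by tauto)]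

/-- the case of two characters -/
theorem trick2 [PF3.{u}] (hc : CTI W₁ W₂) {j : Ch W₂} (hj : j ≠ 1) {δ : ℂ} (hδ : δ ≠ 0) {n : ℂ}
    (hn : n ≠ 0) (hδ2 : δ * δ = 1) (hZ : DIrr (⊤ : Subgroup G) Z)
    (h : WS (δ • (eta (1 : Ch W₁) j - eta (1 : Ch W₁) (1 : Ch W₂)) - n • Z)) : False := by
  obtain ⟨t, ht⟩ := exists_inv (G := G)
  have h1 := h.one
  have h2 := h.inv ht
  have h3 := h.phi ht
  have d := PF3.dirr hc (1 : Ch W₁) j
  have hG : (Nat.card G : ℂ) ≠ 0 := Nat.cast_ne_zero.2 Nat.card_pos.ne'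
  rw [map_sub, map_smul, map_smul, map_sub, Phi_dirr' t d, Phi_dirr' t hZ,
    Phi_dirr' t (PF3.dirr hc 1 1)] at h3
  simp only [Pi.sub_apply, Pi.smul_apply, smul_eq_mul, PF3.eta_one hc, triv_top_apply] at h1 h2 h3
  refine eta_ker hc (i := 1) (Or.inr hj) ht ?_
  have a0 := d.one_ne
  have z0 := hZ.one_ne
  generalize eta (1 : Ch W₁) j 1 = a at *
  generalize eta (1 : Ch W₁) j t = α at *
  generalize Z 1 = z at *
  generalize Z t = ζ at *
  have h4 : δ * (α ^ 2 - a) * z = n * ζ ^ 2 * a := by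
    have : δ * (α ^ 2 / a - 1) = n * (ζ ^ 2 / z) := by
      apply mul_left_cancel₀ hG; linear_combination h3
    field_simp at this
    linear_combination this
  have h5 : (α ^ 2 - a) * (a - 1) = (α - 1) ^ 2 * a := by
    have e1 : n * z = δ * (a - 1) := by linear_combination -h1
    have e2 : n * ζ = δ * (α - 1) := by linear_combination -h2
    have : δ * (α ^ 2 - a) * (n * z) = (n * ζ) ^ 2 * a := by linear_combination n * h4
    rw [e1, e2] at this
    linear_combination this - ((α ^ 2 - a) * (a - 1) - (α - 1) ^ 2 * a) * hδ2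
  have h6 : (α - a) ^ 2 = 0 := by linear_combination -h5
  exact sub_eq_zero.1 (pow_eq_zero_iff two_ne_zero |>.1 h6)

theorem ws_rect [PF3.{u}] (hc : CTI W₁ W₂) (hW : PiG (vw G) (W₁ ⊔ W₂)) (i : Ch W₁) (j : Ch W₂) :
    WS (eta i j + eta (1 : Ch W₁) (1 : Ch W₂) - (eta i (1 : Ch W₂) + eta (1 : Ch W₁) j)) := by
  intro g hg
  have : g ∈ classSupp (cyV W₁ W₂) := by_contra fun e => hg (by
    simp only [Pi.sub_apply, Pi.add_apply, PF3.rect_off hc i 1 j 1 e, sub_self])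
  obtain ⟨a, ha, y, rfl⟩ := this
  refine ⟨fun e => one_not_mem_cyV (W₁ := W₁) (W₂ := W₂) ?_, ?_⟩
  · rwa [← conj_eq_one_iff.1 e]
  · exact (hW.elt ha.1).e_conj y

/-- the case of a column -/
theorem trick1 [PF3.{u}] (hc : CTI W₁ W₂) (hW : PiG (vw G) (W₁ ⊔ W₂)) (hq : (#W₁).Prime)
    {j : Ch W₂} (hj : j ≠ 1) {ε : ℂ} (hε : ε * ε = 1) (hZ : DIrr (⊤ : Subgroup G) Z)
    (h : WS (ε • etaCol W₁ j - Z)) : False := by
  obtain ⟨t, ht⟩ := exists_inv (G := G)
  obtain ⟨i, hi⟩ := exists_ch_ne_one hc.ab₁ hc.ne₁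
  have hG : (Nat.card G : ℂ) ≠ 0 := Nat.cast_ne_zero.2 Nat.card_pos.ne'
  have gal : ∀ i' : Ch W₁, i' ≠ 1 → eta i' j 1 = eta i j 1 ∧ eta i' j t = eta i j t := by
    intro i' hi'
    obtain ⟨k, hk, rfl⟩ := ch_exists_pow hq hi hi'
    obtain ⟨σ, s1, s2⟩ := exists_aut_crt (card_pos W₁).ne' (card_pos W₂).ne' hc.coprime hk
    have e := PF3.aut_eta hc σ (aut_omg_pow (i := i) (j := j) hc.dp σ (k := k) (l := 1)
      (fun z hz => s1 z (pow_eq_one_of_dvd' hz i.orderOf_dvd))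
      (fun z hz => by rw [pow_one]; exact s2 z (pow_eq_one_of_dvd' hz j.orderOf_dvd)))
    rw [pow_one] at e
    rw [← e]
    exact ⟨zirr_aut_one (PF3.dirr hc i j).zirr σ, aut_inv_fix (PF3.dirr hc i j).zirr ht σ⟩
  have col : ∀ F : (G → ℂ) →ₗ[ℂ] ℂ, (∀ i' : Ch W₁, i' ≠ 1 → F (eta i' j) = F (eta i j)) →
      F (etaCol W₁ j) = F (eta (1 : Ch W₁) j) + ((#W₁ - 1 : ℕ) : ℂ) * F (eta i j) := fun F hF => by
    rw [etaCol, map_sum, ← Finset.add_sum_erase _ _ (Finset.mem_univ 1),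
      Finset.sum_congr rfl fun i' hi' => hF i' (Finset.ne_of_mem_erase hi'), Finset.sum_const,
      Finset.card_erase_of_mem (Finset.mem_univ _), Finset.card_univ, card_Ch hc.ab₁, nsmul_eq_mul]
  have c1 := col (LinearMap.proj 1) fun i' hi' => (gal i' hi').1
  have c2 := col (LinearMap.proj t) fun i' hi' => (gal i' hi').2
  have c3 := col (Phi t) fun i' hi' => by
    rw [Phi_dirr' t (PF3.dirr hc i' j), Phi_dirr' t (PF3.dirr hc i j), (gal i' hi').1, (gal i' hi').2]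
  have h1 := h.one
  have h2 := h.inv ht
  have h3 := h.phi ht
  have k := ws_rect hc hW i j
  have k1 := k.one
  have k2 := k.inv ht
  have k3 := k.phi ht
  rw [map_sub, map_smul, c3, Phi_dirr' t hZ] at h3
  rw [map_sub, map_add, map_add] at k3
  simp only [LinearMap.proj_apply] at c1 c2
  simp only [Phi_dirr' t (PF3.dirr hc _ _)] at h3 k3
  simp only [Pi.sub_apply, Pi.add_apply, Pi.smul_apply, smul_eq_mul, PF3.eta_one hc,
    triv_top_apply, c1, c2] at h1 h2 h3 k1 k2 k3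
  have n1 := eta_ker hc (i := 1) (Or.inr hj) ht
  have n2 := eta_ker hc (j := (1 : Ch W₂)) (Or.inl hi) ht
  have a0 := (PF3.dirr hc i (1 : Ch W₂)).one_ne
  have b0 := (PF3.dirr hc (1 : Ch W₁) j).one_ne
  have c0 := (PF3.dirr hc i j).one_ne
  have z0 := hZ.one_ne
  have m0 : ((#W₁ - 1 : ℕ) : ℂ) ≠ 0 := Nat.cast_ne_zero.2 (by have := hc.three₁; omega)
  clear c1 c2 c3 col gal k h
  generalize eta i (1 : Ch W₂) 1 = a at *
  generalize eta i (1 : Ch W₂) t = α at *
  generalize eta (1 : Ch W₁) j 1 = b at *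
  generalize eta (1 : Ch W₁) j t = β at *
  generalize eta i j 1 = c at *
  generalize eta i j t = γ at *
  generalize Z 1 = z at *
  generalize Z t = ζ at *
  generalize ((#W₁ - 1 : ℕ) : ℂ) = m at *
  have h4 : ε * (β ^ 2 * c + m * γ ^ 2 * b) * z = ζ ^ 2 * b * c := by
    have : ε * (β ^ 2 / b + m * (γ ^ 2 / c)) = ζ ^ 2 / z := by
      apply mul_left_cancel₀ hG; linear_combination h3
    field_simp at this
    linear_combination this
  have h5 : m * (β * c - γ * b) ^ 2 = 0 := by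
    rw [← sub_eq_zero.1 h1, ← sub_eq_zero.1 h2] at h4
    linear_combination h4 - ((β ^ 2 * c + m * γ ^ 2 * b) * (b + m * c) -
      (β + m * γ) ^ 2 * b * c) * hε
  have h6 : β * c = γ * b := sub_eq_zero.1 (pow_eq_zero_iff two_ne_zero |>.1
    ((mul_eq_zero.1 h5).resolve_left m0))
  have k4 : γ ^ 2 / c + 1 = α ^ 2 / a + β ^ 2 / b := by
    apply mul_left_cancel₀ hG; linear_combination k3
  obtain ⟨l, rfl⟩ : ∃ l, β = l * b := ⟨β / b, by field_simp⟩
  have h7 : γ = l * c := by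
    apply mul_right_cancel₀ b0; linear_combination -h6
  subst h7
  have h8 : c = a + b - 1 := by linear_combination k1
  have h9 : α = l * (a - 1) + 1 := by rw [h8] at k2; linear_combination -k2
  have k5 : (l ^ 2 * c + 1 - l ^ 2 * b) * a = α ^ 2 := by
    have e1 : (l * c) ^ 2 / c = l ^ 2 * c := by field_simp
    have e2 : (l * b) ^ 2 / b = l ^ 2 * b := by field_simp
    rw [e1, e2] at k4
    rw [eq_sub_of_add_eq k4.symm |>.symm]; field_simp
  rw [h8, h9] at k5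
  have k6 : (a - 1) * (l - 1) ^ 2 = 0 := by linear_combination k5
  rcases mul_eq_zero.1 k6 with e | e
  · apply n2; rw [h9]; linear_combination (l - 1) * e
  · apply n1; rw [sub_eq_zero.1 (pow_eq_zero_iff two_ne_zero |>.1 e), one_mul]

section
variable [PF8a G] [PF8b G]

theorem tp_W_w (h : TP M W₁ U W₂) : PiG (vw G) (W₁ ⊔ W₂) := by
  obtain ⟨-, -, -, -, -, -, hc, hW, -⟩ := PF8a.typeP h
  have h2 : PiG (vw G) W₂ := ((Fit_w h.max).of_le (PF8a.fcore M).2.2.2.1).of_le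
    (hW.ge.trans inf_le_left)
  exact w_of_cent hc.ne₂ h2 (cents_of_comm hc.ab le_rfl le_sup_right)

theorem tA0_w (h : TP M W₁ U W₂) {a : G} (ha : a ∈ tA0 M) : PiE (vw G) a := by
  obtain ⟨e1, e2, -⟩ := PF8b.setsP h
  rw [e1] at ha
  rcases ha with ha | ⟨b, hb, y, -, rfl⟩
  · obtain ⟨-, -, x, h1, h2, h3⟩ := (e2 a).1 ha
    rw [typeCore_eq_Ms h.max] at h1
    exact (cent1_w ((Ms_w M).elt h1) h2).elt (mem_centralizer_singleton_iff.2 h3)
  · exact ((tp_W_w h).elt hb.1).e_conj y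

theorem ws_tau (h : TP M W₁ U W₂) (α : G → ℂ) : WS (tauM M α) := fun g hg => by
  have hD := (PF8b.pdade h).1.dd
  have h1 : g ∈ Dsupp (tA0 M) (supportR M) := by_contra fun e => hg (dade_of_not_mem α e)
  refine ⟨fun e => one_not_mem_Dsupp hD (e ▸ h1), ?_⟩
  obtain ⟨a, ha, u, hu, x, e⟩ := h1
  have h2 := (cent1_w (tA0_w h ha) fun e => hD.one_not_mem (e ▸ ha)).elt
    (mul_mem (mem_centralizer_singleton_iff.2 rfl) (hD.le_centralizer a ha hu))
  have h3 := (e ▸ h2 : PiE (vw G) (x * g * x⁻¹)).e_conj x⁻¹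
  simpa [mul_assoc] using h3

variable [PF9a G] [PF9b G] {p : ℕ}

/-- the hypothesis of Peterfalvi (9.10) always holds -/
theorem p9_no_irr (h : P9 M W₁ U W₂ H₀ p) : Gal M U H₀ ∧ cU M U H₀ = ⊥ ∧
    #U * (p - 1) = p ^ #W₁ - 1 ∧ Cyc U ∧ (IsOfTypeII M → Frob (Fcore M) U (D1 M)) := by
  refine PF9b.no_irr h fun χ hχ hi hl => ?_
  have hd := (PF8b.pdade h.tp).1
  have ho := h.tp.max.1.odd
  obtain ⟨j, hj⟩ := Finset.card_pos.1 (by
    rw [PF9b.red_card h]; have := h.prime.two_le; omega)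
  obtain ⟨-, hj, h0⟩ := Finset.mem_filter.1 hj
  obtain ⟨h1, -, h3⟩ := PF9b.red h hj h0
  have h4 := LinInd.deg h hl
  obtain ⟨R, hR, -⟩ := PF5b.subcoh hd ho
  have m1 := SInd_sub_bot _ _ _ _ hχ
  have m2 := SInd_sub_bot _ _ _ _ h1
  have hS : CSub {χ, star χ, muR M W₁ j, star (muR M W₁ j)} (SInd M (D1 M) (Fcore M) ⊥) := by
    refine ⟨fun φ hφ => ?_, fun φ hφ => ?_⟩ <;>
      simp only [Finset.mem_insert, Finset.mem_singleton] at hφ ⊢
    · rcases hφ with rfl | rfl | rfl | rfl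
      exacts [m1, sind_star m1, m2, sind_star m2]
    · rcases hφ with rfl | rfl | rfl | rfl <;> simp
  have hdeg : ∀ φ ∈ ({χ, star χ, muR M W₁ j, star (muR M W₁ j)} : Finset (G → ℂ)),
      φ 1 = χ 1 := fun φ hφ => by
    simp only [Finset.mem_insert, Finset.mem_singleton] at hφ
    rcases hφ with rfl | rfl | rfl | rfl
    · rfl
    · exact chr_star_one (hR.chr _ m1)
    · rw [h3, h4]
    · rw [chr_star_one (hR.chr _ m2), h3, h4]
  obtain ⟨ν, hν⟩ := PF5a.uniform hR hS fun a ha b hb => (hdeg a ha).trans (hdeg b hb).symm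
  have hZ := H9.coh_dirr hν (Finset.mem_insert_self _ _) hi
  have k := ws_tau h.tp (muR M W₁ j - χ)
  rw [tauM, ← hν.agree _ (by rw [Pi.sub_apply, h3, h4, sub_self]), map_sub] at k
  have hq := (PF8a.type234 h.tp h.typ).2.1
  have hδ : dlt M W₁ j = 1 ∨ dlt M W₁ j = -1 := by unfold dlt; split_ifs <;> simp
  rcases PF5b.tired hd ho hS hν (Finset.mem_insert_self _ _) hi (k := j) (by simp) with e | ⟨e, -⟩
  · rw [e] at k
    exact trick1 hd.cti (tp_W_w h.tp) hq hj (H9.sign_mul_self hδ) hZ k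
  · rw [e, ← neg_smul] at k
    exact trick1 hd.cti (tp_W_w h.tp) hq (inv_ne_one.2 hj)
      (by rw [neg_mul_neg]; exact H9.sign_mul_self hδ) hZ k
end

end H13.V
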