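/-
Port of `H9/PF10a, H9/PF10b1, H9/PF10c` to the `ϖ`-local setting.
-/
import Cfsg.Agent.H13.V20

set_option autoImplicit false
set_option linter.unusedSectionVars false

namespace H13.V
universe u
section
open Cfsg Subgroup
open H9
open H19 H17 H20
open scoped ComplexConjugate Classical
variable {G : Type u} [Group G] [Finite G] [VS G] {M W₁ U W₂ : Subgroup G}

section
variable [PF8a G]

theorem tp_pti (h : TP M W₁ U W₂) : PTI M (D1 M) W₁ W₂ := (PF8a.typeP h).2.2.2.2.2.1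
theorem tp_cti (h : TP M W₁ U W₂) : CTI W₁ W₂ := (PF8a.typeP h).2.2.2.2.2.2.1

omit [Finite G] [PF8a G] in
theorem tp_W2_le (h : TP M W₁ U W₂) : W₂ ≤ D2 M := h.tp.W₂_le.trans inf_le_right

omit [Finite G] [PF8a G] in
theorem tp_W2_le_F (h : TP M W₁ U W₂) : W₂ ≤ Fcore M := h.tp.W₂_le.trans inf_le_left

theorem tp_sol_D1 (h : TP M W₁ U W₂) : Sol (D1 M) :=
  mmax_sub_sol h.max (der_le M)

theorem tp_D2_lt (h : TP M W₁ U W₂) : D2 M < D1 M :=
  sol_der_lt (tp_sol_D1 h) (ne_bot_mono (tp_pti h).W2_le (tp_pti h).W2_ne)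

/-- the partner of a subgroup of type III, IV or V is of type II -/
theorem tp_partner (h : TP M W₁ U W₂) (ht : T345 M) :
    ∃ T V, Pair M T W₁ W₂ U V ∧ IsOfTypeII T := by
  obtain ⟨T, V, hp⟩ := PF8a.pair h
  exact ⟨T, V, hp, hp.two.resolve_left fun h2 => (PF8a.type2 h h2).2.2.2.2 ht⟩

variable [PF8b G]

theorem tp_pd (h : TP M W₁ U W₂) (ht : T345 M) :
    PDade M (D1 M) (D1 M) W₁ W₂ (nt (D1 M)) (tA0 M) (supportR M) := by
  have h1 := (PF8b.pdade h).2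
  have h2 := (PF8b.setsP h).2.2.2 ht
  rwa [h2.1, h2.2] at h1

theorem tp_A1 (h : TP M W₁ U W₂) (ht : T345 M) : typeA1 M = nt (D1 M) := by
  rw [(PF8b.sets h.max).1, ((PF8b.setsP h).2.2.2 ht).1]

theorem tp_nt_sub (h : TP M W₁ U W₂) (ht : T345 M) : nt (D1 M) ⊆ tA0 M := by
  rw [(tp_pd h ht).A0_eq]; exact Set.subset_union_left

end

section
variable [PF4a.{u}] [PF8a G]

/-- (10.2) -/
theorem pf10_lin (h : TP M W₁ U W₂) : (S10 M (D2 M)).Nonempty ∧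
    ∀ ζ ∈ S10 M (D2 M), ζ ∈ Irr M ∧ ζ 1 = (#W₁ : ℂ) ∧ ζ ∈ S10 M ⊥ := by
  have hp := tp_pti h
  refine ⟨SInd_nonempty M (NormalIn.refl _) (der_normal _) (tp_D2_lt h).not_ge, fun ζ hζ =>
    ⟨?_, by rw [sind_lin_one (der_le M) le_rfl hζ, pti_relIndex hp], SInd_sub_bot _ _ _ _ hζ⟩⟩
  obtain ⟨θ, hθ, rfl⟩ := mem_SInd.1 hζ
  rcases PF4a.ind_cases hp (irrK_irr hθ) with ⟨j, rfl⟩ | h1
  · have := (PF4a.ker_chiR hp (der_le _) (der_normal M).der.norm j).1 (mem_IrrK.1 hθ).2.1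
    have hj : j = 1 := Ch.eq_one_iff.2 fun x hx => this x ⟨hx, tp_W2_le h hx⟩
    rw [hj, PF4a.chiR_one hp] at hθ
    exact absurd rfl (irrK_ne_triv le_rfl hθ)
  · exact h1.1

/-- (10.3) -/
theorem pf10_consts (h : TP M W₁ U W₂) (ht : T345 M) : (#W₂).Prime ∧
    ∃ (d n : ℕ) (δ : ℤ), (δ = 1 ∨ δ = -1) ∧ 1 < d ∧ (d : ℤ) = n * #W₁ + δ ∧ Even n ∧
      ∀ j : Ch W₂, j ≠ 1 → dlt M W₁ j = δ ∧ ∀ i : Ch W₁, mu M i j 1 = d := by
  have hp := tp_pti h
  have hc := tp_cti h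
  obtain ⟨T, V, hpair, h2⟩ := tp_partner h ht
  have hpr : (#W₂).Prime := (PF8a.type234 hpair.tT (Or.inl h2)).2.1
  obtain ⟨k, hk⟩ := exists_ch_ne_one hc.ab₂ hc.ne₂
  have hirr := PF4a.mu_irr hp (1 : Ch W₁) k
  have hd : 1 < deg (mu M (1 : Ch W₁) k) := by
    by_contra hd
    have h1 : deg (mu M (1 : Ch W₁) k) = 1 := by have := irr_deg_pos hirr; omega
    obtain ⟨i, hi⟩ := PF4a.of_ker hp hirr (lin_of_deg (irr_chr hirr) h1).der_le
    exact hk (PF4a.mu_inj hp hi).2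
  have hs := dlt_sign M W₁ k
  obtain ⟨c, hc'⟩ := (PF4a.deg_mod hp (1 : Ch W₁) k).symm.dvd
  have hw : (0 : ℤ) < #W₁ := by exact_mod_cast card_pos W₁
  have hc0 : 0 ≤ c := by
    by_contra h0
    have : (#W₁ : ℤ) * c < 0 := mul_neg_of_pos_of_neg hw (by omega)
    rcases hs with e | e <;> omega
  obtain ⟨n, rfl⟩ := Int.eq_ofNat_of_zero_le hc0
  refine ⟨hpr, deg (mu M (1 : Ch W₁) k), n, dlt M W₁ k, hs, hd, by linarith, ?_, fun j hj => ?_⟩
  · have ho := irr_deg_odd hirr h.max.1.odd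
    have h1 : Even ((#W₁ : ℤ) * n) := by
      rw [← hc']
      refine Odd.sub_odd (by exact_mod_cast ho) ?_
      rcases hs with e | e <;> simp [e]
    rcases Int.even_mul.1 h1 with h2 | h2
    · exact absurd (by exact_mod_cast h2) (Nat.not_even_iff_odd.2 hc.odd₁)
    · exact_mod_cast h2
  · obtain ⟨l, hl, rfl⟩ := ch_exists_pow hpr hk hj
    obtain ⟨σ, hσ⟩ := exists_aut_pow (card_ne_zero W₂) hl
    have e := aut_omg_pow (i := (1 : Ch W₁)) (j := k) hc.dp σ (k := 1) (l := l)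
      (fun z hz => by simp at hz; simp [hz])
      (fun z hz => hσ z (pow_eq_one_of_dvd' hz k.orderOf_dvd))
    rw [one_pow] at e
    have := PF4a.aut_mu hp σ e
    refine ⟨this.2, fun i => ?_⟩
    rw [mu_one_eq hp, ← this.1, chr_aut_one (irr_chr hirr), irr_deg hirr]

variable [PF4b.{u}] [PF8b G]

/-- (10.5), support -/
theorem pf10_alpha_supp (h : TP M W₁ U W₂) (ht : T345 M) {ζ : G → ℂ}
    (hζ : ζ ∈ S10 M (D2 M)) (i : Ch W₁) {j : Ch W₂} {n : ℕ}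
    (hn : mu M i j 1 = n * #W₁ + dlt M W₁ j) :
    alpha10 M i j (dlt M W₁ j) n ζ ∈ CFon M (tA0 M) := by
  have hp := tp_pti h
  have hz := (pf10_lin h).2 ζ hζ
  refine PF4b.mem_A0 (tp_pd h ht) ?_ (fun x hx hx1 => ?_) fun x hx hx1 => ?_
  · exact sub_mem (sub_mem (irr_cf (PF4a.mu_irr hp i j))
      (Submodule.smul_mem _ _ (irr_cf (PF4a.mu_irr hp i 1)))) (Submodule.smul_mem _ _ (irr_cf hz.1))
  · have : x = 1 := by
      by_contra h1
      exact hx1 ⟨hx, h1⟩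
    subst this
    simp only [alpha10, Pi.sub_apply, Pi.smul_apply, smul_eq_mul, hn, mu_triv_one hp, hz.2.1]
    ring
  · have hK : x ∉ D1 M := fun hK => hx1 (pti_W1_inf hp hx hK)
    have h2 : x ∉ W₂ := fun h2 => hK (hp.W2_le h2)
    simp only [alpha10, Pi.sub_apply, Pi.smul_apply, smul_eq_mul,
      PF4a.mu_val hp i _ (mem_sup_left hx) h2, omg_left (pti_dp hp).inf i _ hx,
      CFon.zero (sind_supp (der_normal M).norm hζ) hK, PF4a.dlt_one hp]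
    simp

omit [PF4b.{u}] [PF8b G] in
theorem mu0_sub_supp (h : TP M W₁ U W₂) {ζ : G → ℂ} (hζ : ζ ∈ S10 M (D2 M)) :
    muR M W₁ (1 : Ch W₂) - ζ ∈ CFon M (nt (D1 M)) := by
  have hp := tp_pti h
  refine CFon.of_sub (sub_mem ?_ (sind_supp (der_normal M).norm hζ)) ?_
  · rw [muR_triv hp]; exact Ind_mem_CFon_sub (der_normal M).norm le_rfl _
  · rw [Pi.sub_apply, muR_one hp, mu_triv_one hp, ((pf10_lin h).2 ζ hζ).2.1]; ring

variable [PF2.{u}] [PF3.{u}]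

/-- (10.9) -/
theorem pf10_near (h : TP M W₁ U W₂) (ht : T345 M) (hlt : #W₁ < #W₂) {ζ : G → ℂ}
    (hζ : ζ ∈ S10 M (D2 M)) (i : Ch W₁) (j : Ch W₂) :
    dot ⊤ (tauM M (muR M W₁ (1 : Ch W₂) - ζ)) (eta i j) = if j = 1 then 1 else 0 := by
  have hp := tp_pti h
  have hc := tp_cti h
  have hd := tp_pd h ht
  have hz := (pf10_lin h).2 ζ hζ
  have hs := mu0_sub_supp h hζ
  have hs0 := CFon.mono hs (tp_nt_sub h ht)
  set ψ := tauM M (muR M W₁ (1 : Ch W₂) - ζ) with hψ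
  have hψz : ψ ∈ ZIrr (⊤ : Subgroup G) :=
    PF2.zirr hd.dd hs0 (sub_mem (chr_zirr (H9.muR_chr hp 1)) (irr_zirr hz.1))
  have hn : nrm ⊤ ψ = #W₁ + 1 := by
    apply nrm_eq_of_dot
    have h0 := dot_muR_sind hp hζ hz.1 1
    rw [hψ, tauM, PF2.isom hd.dd hs0 hs0, dot_sub_left, dot_sub_right, dot_sub_right,
      PF4a.dot_muR hp, h0, dot_eq_zero_comm.1 h0, irr_dot_self hz.1]
    simp
  have hV : ∀ x ∈ cyV W₁ W₂, ψ x = 0 := fun x hx => by
    rw [hψ, tauM, PF4b.tau_V hd (CFon.cinv hs) hx]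
    exact CFon.zero hs fun h1 => pti_V_not_mem hp hx h1.1
  have h11 : dot ⊤ ψ (eta (1 : Ch W₁) (1 : Ch W₂)) = 1 := by
    rw [PF3.eta_one hc, hψ, tauM, PF2.dot_triv hd.dd hs0, dot_sub_left, muR_triv hp,
      dot_Ind_triv_triv (der_le M), sind_dot_triv (der_le M) le_rfl hζ, sub_zero]
  have hcard : ∀ s : Finset (Ch W₁ × Ch W₂), (∀ p ∈ s, dot ⊤ ψ (eta p.1 p.2) ≠ 0) →
      s.card ≤ #W₁ + 1 := fun s hs => by
    have := card_le_nrm ((H9.orthF_eta hc).mono (Finset.subset_univ s))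
      (fun p _ => H9.eta_zirr hc p.1 p.2) hψz hs
    rw [hn] at this
    exact_mod_cast this
  have h3 := hc.three₁
  rcases PF3.trichotomy hc (zirr_cinv hψz) hV (by
    refine lt_of_le_of_lt (hcard _ fun p hp => (Finset.mem_filter.1 hp).2) ?_
    rw [min_eq_left hlt.le]; omega) with h0 | ⟨j₀, a, -, h0⟩ | ⟨i₀, a, ha, h0⟩
  · rw [h0] at h11; exact absurd h11 zero_ne_one
  · rw [h0] at h11
    have e : (1 : Ch W₂) = j₀ := by
      by_contra e
      rw [if_neg e] at h11; exact absurd h11 zero_ne_one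
    subst e
    rw [if_pos rfl] at h11
    rw [h0, h11]
  · have := hcard (Finset.univ.image fun j : Ch W₂ => (i₀, j)) fun p hp => by
      obtain ⟨j, -, rfl⟩ := Finset.mem_image.1 hp
      rw [h0, if_pos rfl]; exact ha
    rw [Finset.card_image_of_injective _ (fun a b e => (Prod.ext_iff.1 e).2), Finset.card_univ,
      card_Ch hc.ab₂] at this
    obtain ⟨a, ha⟩ := hc.odd₁
    obtain ⟨b, hb⟩ := hc.odd₂
    omega

theorem inst_PF10a : PF10a G where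
  lin := pf10_lin
  consts := pf10_consts
  alpha_supp h ht _ hζ i _ _ _ hn := pf10_alpha_supp h ht hζ i hn


end

end

section
open Cfsg Subgroup
open H9
open H19 H17 H20
open scoped ComplexConjugate Classical
variable {G : Type u} [Group G] [Finite G] [VS G] {M W₁ U W₂ : Subgroup G}
variable [PF2.{u}] [PF3.{u}] [PF4a.{u}] [PF4b.{u}] [PF8a G] [PF8b G]

/-- the data of (10.2), (10.3) -/
structure D10 (M W₁ U W₂ : Subgroup G) (ζ : G → ℂ) (d n : ℕ) (δ : ℤ) : Prop where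
  tp : TP M W₁ U W₂
  typ : T345 M
  mem : ζ ∈ S10 M (D2 M)
  sign : δ = 1 ∨ δ = -1
  one_lt : 1 < d
  eq : (d : ℤ) = n * #W₁ + δ
  even : Even n
  dlt : ∀ j : Ch W₂, j ≠ 1 → dlt M W₁ j = δ
  deg : ∀ j : Ch W₂, j ≠ 1 → ∀ i : Ch W₁, mu M i j 1 = d

omit [PF2.{u}] [PF3.{u}] [PF4b.{u}] [PF8b G] in
theorem exists_d10 (h : TP M W₁ U W₂) (ht : T345 M) {ζ : G → ℂ} (hζ : ζ ∈ S10 M (D2 M)) :
    ∃ d n δ, D10 M W₁ U W₂ ζ d n δ := by
  obtain ⟨-, d, n, δ, h1, h2, h3, h4, h5⟩ := pf10_consts h ht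
  exact ⟨d, n, δ, h, ht, hζ, h1, h2, h3, h4, fun j hj => (h5 j hj).1, fun j hj => (h5 j hj).2⟩

namespace D10
variable {ζ : G → ℂ} {d n : ℕ} {δ : ℤ} (D : D10 M W₁ U W₂ ζ d n δ)
include D

omit [PF2.{u}] [PF3.{u}] [PF4b.{u}] [PF8b G]

theorem irr : ζ ∈ Irr M := ((pf10_lin D.tp).2 ζ D.mem).1
theorem one : ζ 1 = #W₁ := ((pf10_lin D.tp).2 ζ D.mem).2.1
theorem mem' : ζ ∈ S10 M ⊥ := ((pf10_lin D.tp).2 ζ D.mem).2.2

omit [PF4a.{u}] [PF8a G] in
theorem eqC : (d : ℂ) = n * #W₁ + δ := by exact_mod_cast D.eq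

theorem muR_deg {j : Ch W₂} (hj : j ≠ 1) : muR M W₁ j 1 = #W₁ * d := by
  rw [muR_one (tp_pti D.tp), D.deg j hj]

theorem dot_alpha_irr (i : Ch W₁) (j : Ch W₂) {φ : G → ℂ} (hφ : φ ∈ S10 M ⊥) (hi : φ ∈ Irr M) :
    dot M (alpha10 M i j δ n ζ) φ = if ζ = φ then -(n : ℂ) else 0 := by
  have hp := tp_pti D.tp
  rw [alpha10, dot_sub_left, dot_sub_left, dot_smul_left, dot_smul_left, dot_mu_sind hp hφ hi,
    dot_mu_sind hp hφ hi, irr_dot D.irr hi]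
  split_ifs <;> simp

theorem dot_alpha_zeta (i : Ch W₁) (j : Ch W₂) : dot M (alpha10 M i j δ n ζ) ζ = -n := by
  rw [D.dot_alpha_irr i j D.mem' D.irr, if_pos rfl]

theorem dot_alpha_muR (i : Ch W₁) (j k : Ch W₂) : dot M (alpha10 M i j δ n ζ) (muR M W₁ k) =
    (if j = k then 1 else 0) - δ * (if 1 = k then 1 else 0) := by
  have hp := tp_pti D.tp
  rw [alpha10, dot_sub_left, dot_sub_left, dot_smul_left, dot_smul_left, dot_mu_muR hp,
    dot_mu_muR hp, dot_eq_zero_comm.1 (dot_muR_sind hp D.mem D.irr k)]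
  simp

theorem dot_alpha_self (i : Ch W₁) {j : Ch W₂} (hj : j ≠ 1) :
    dot M (alpha10 M i j δ n ζ) (alpha10 M i j δ n ζ) = 2 + n ^ 2 := by
  have hp := tp_pti D.tp
  have h0 := fun k : Ch W₂ => dot_mu_sind hp D.mem D.irr i k
  nth_rewrite 2 [alpha10]
  rw [dot_sub_right, dot_sub_right, dot_smul_right, dot_smul_right, D.dot_alpha_zeta]
  simp only [alpha10, dot_sub_left, dot_smul_left, dot_mu_mu hp, dot_eq_zero_comm.1 (h0 _),
    hj, hj.symm, and_true, and_false, if_true, if_false, map_intCast, map_natCast]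
  linear_combination H9.sign_mul_self D.sign

theorem alpha_zirr (i : Ch W₁) (j : Ch W₂) : alpha10 M i j δ n ζ ∈ ZIrr M := by
  have hp := tp_pti D.tp
  exact sub_mem (sub_mem (irr_zirr (PF4a.mu_irr hp i j))
    (zirr_intCast_smul (irr_zirr (PF4a.mu_irr hp i 1)) δ)) (zirr_natCast_smul (irr_zirr D.irr) n)

theorem alpha_V (i : Ch W₁) {j : Ch W₂} (hj : j ≠ 1) {x : G} (hx : x ∈ cyV W₁ W₂) :
    alpha10 M i j δ n ζ x = δ * (omg i j x - omg i (1 : Ch W₂) x) := by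
  have hp := tp_pti D.tp
  simp only [alpha10, Pi.sub_apply, Pi.smul_apply, smul_eq_mul, PF4a.mu_val hp i _ hx.1 hx.2.2,
    CFon.zero (sind_supp (der_normal M).norm D.mem) (pti_V_not_mem hp hx), PF4a.dlt_one hp,
    D.dlt j hj]
  ring

theorem sum_alpha (j : Ch W₂) : ∑ i : Ch W₁, alpha10 M i j δ n ζ =
    muR M W₁ j - (δ : ℂ) • muR M W₁ (1 : Ch W₂) - ((n : ℂ) * #W₁) • ζ := by
  simp only [alpha10, Finset.sum_sub_distrib, muR, Finset.smul_sum, Finset.sum_const,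
    Finset.card_univ, card_Ch (tp_cti D.tp).ab₁]
  rw [← Nat.cast_smul_eq_nsmul ℂ, smul_smul, mul_comm]

variable [PF4b.{u}] [PF8b G]

theorem alpha_supp (i : Ch W₁) {j : Ch W₂} (hj : j ≠ 1) :
    alpha10 M i j δ n ζ ∈ CFon M (tA0 M) := by
  have := pf10_alpha_supp D.tp D.typ D.mem i (j := j) (n := n)
    (by rw [D.deg j hj, D.dlt j hj, D.eqC])
  rwa [D.dlt j hj] at this

theorem muR_mem {j : Ch W₂} (hj : j ≠ 1) : muR M W₁ j ∈ S10 M ⊥ :=
  (PF4b.muR_mem (tp_pd D.tp D.typ) hj).2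

theorem muR_sub_supp {j : Ch W₂} (hj : j ≠ 1) :
    muR M W₁ j - (d : ℂ) • ζ ∈ CFon M (nt (D1 M)) := by
  refine CFon.of_sub (sub_mem (sind_supp (der_normal M).norm (D.muR_mem hj))
    (Submodule.smul_mem _ _ (sind_supp (der_normal M).norm D.mem))) ?_
  rw [Pi.sub_apply, Pi.smul_apply, D.muR_deg hj, D.one, smul_eq_mul]; ring

variable [PF2.{u}]

theorem dot_tau {α β : G → ℂ} (hα : α ∈ CFon M (tA0 M)) (hβ : β ∈ CFon M (nt (D1 M))) :
    dot ⊤ (tauM M α) (tauM M β) = dot M α β :=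
  PF2.isom (tp_pd D.tp D.typ).dd hα (CFon.mono hβ (tp_nt_sub D.tp D.typ))

theorem tau_alpha_zirr (i : Ch W₁) {j : Ch W₂} (hj : j ≠ 1) :
    tauM M (alpha10 M i j δ n ζ) ∈ ZIrr (⊤ : Subgroup G) :=
  PF2.zirr (tp_pd D.tp D.typ).dd (D.alpha_supp i hj) (D.alpha_zirr i j)

theorem dot_tau_alpha_self (i : Ch W₁) {j : Ch W₂} (hj : j ≠ 1) :
    dot ⊤ (tauM M (alpha10 M i j δ n ζ)) (tauM M (alpha10 M i j δ n ζ)) = 2 + n ^ 2 := by
  rw [tauM, PF2.isom (tp_pd D.tp D.typ).dd (D.alpha_supp i hj) (D.alpha_supp i hj),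
    D.dot_alpha_self i hj]

variable [PF3.{u}]

/-- the last step of (10.5) and (10.10.3) -/
theorem tau_alpha (i : Ch W₁) {j : Ch W₂} (hj : j ≠ 1) {Z : G → ℂ} (hZ : DIrr ⊤ Z)
    (ho : ∀ (i : Ch W₁) (j : Ch W₂), dot ⊤ Z (eta i j) = 0)
    (hd : dot ⊤ (tauM M (alpha10 M i j δ n ζ)) Z = -n) :
    tauM M (alpha10 M i j δ n ζ) = (δ : ℂ) • (eta i j - eta i (1 : Ch W₂)) - (n : ℂ) • Z := by
  have hc := tp_cti D.tp
  rw [eq_sub_iff_add_eq]
  refine PF3.signed_sub hc (add_mem (D.tau_alpha_zirr i hj) (zirr_natCast_smul hZ.zirr n)) ?_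
    D.sign i hj fun x hx => ?_
  · have hd' : dot ⊤ Z (tauM M (alpha10 M i j δ n ζ)) = -n := by
      rw [← conj_dot, hd]; simp
    simp only [dot_add_left, dot_add_right, dot_smul_left, dot_smul_right, hd, hd', hZ.self,
      D.dot_tau_alpha_self i hj, map_natCast]
    ring
  · rw [Pi.add_apply, Pi.smul_apply, PF3.vanish hc hZ.cinv ho hx, tauM,
      PF4b.tau_V (tp_pd D.tp D.typ) (CFon.cinv (D.alpha_supp i hj)) hx, D.alpha_V i hj hx]
    simp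

variable [PF5b.{u}] {ν : (G → ℂ) →ₗ[ℂ] (G → ℂ)}

omit [PF2.{u}] [PF3.{u}] [PF4b.{u}] in
theorem nu_ortho {S₁ : Finset (G → ℂ)} (hν : Coh M S₁ (tauM M) ν) {φ : G → ℂ}
    (hφ : φ ∈ S10 M ⊥) (hi : φ ∈ Irr M) (h1 : φ ∈ S₁) (h2 : star φ ∈ S₁) (i : Ch W₁)
    (j : Ch W₂) : dot ⊤ (ν φ) (eta i j) = 0 :=
  PF5b.irr_ortho (tp_pd D.tp D.typ) D.tp.max.1.odd hν hφ hi h1 h2 i j

omit [PF3.{u}] [PF5b.{u}] in
theorem dot_tau_alpha_muR {S₁ : Finset (G → ℂ)} (hν : Coh M S₁ (tauM M) ν) (i : Ch W₁)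
    {j k : Ch W₂} (hj : j ≠ 1) (hk : k ≠ 1) :
    dot ⊤ (tauM M (alpha10 M i j δ n ζ)) (ν (muR M W₁ k)) = (if j = k then 1 else 0) +
      d * (dot ⊤ (tauM M (alpha10 M i j δ n ζ)) (ν ζ) + n) := by
  have hs := D.muR_sub_supp hk
  have h1 := D.dot_tau (D.alpha_supp i hj) hs
  rw [← hν.agree _ (CFon.zero hs (one_not_mem_nt _)), map_sub, map_smul, dot_sub_right,
    dot_smul_right, dot_sub_right, dot_smul_right, D.dot_alpha_zeta, D.dot_alpha_muR,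
    if_neg hk.symm, map_natCast] at h1
  linear_combination h1

/-- (10.5) -/
theorem tau_alpha_coh (hν : Coh M (S10 M ⊥) (tauM M) ν) (i : Ch W₁) {j : Ch W₂} (hj : j ≠ 1) :
    dot ⊤ (tauM M (alpha10 M i j δ n ζ)) (ν ζ) = -n ∧
    tauM M (alpha10 M i j δ n ζ) = (δ : ℂ) • (eta i j - eta i (1 : Ch W₂)) - (n : ℂ) • ν ζ := by
  have hp := tp_pti D.tp
  have hc := tp_cti D.tp
  have hZ := coh_dirr hν D.mem' D.irr
  suffices hd : dot ⊤ (tauM M (alpha10 M i j δ n ζ)) (ν ζ) = -n from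
    ⟨hd, D.tau_alpha i hj hZ (D.nu_ortho hν D.mem' D.irr D.mem' (sind_star D.mem')) hd⟩
  obtain ⟨b, hb⟩ := zirr_dot_int (D.tau_alpha_zirr i hj) hZ.zirr
  have hk : j⁻¹ ≠ 1 := inv_ne_one.2 hj
  have h1 := D.dot_tau_alpha_muR hν i hj hk
  rw [if_neg (Ch.inv_ne hc.odd₂ hj).symm, zero_add, hb] at h1
  have hn : nrm ⊤ (ν (muR M W₁ j⁻¹)) = #W₁ := by
    apply nrm_eq_of_dot
    rw [hν.isom _ (D.muR_mem hk) _ (D.muR_mem hk), PF4a.dot_muR hp, if_pos rfl]; simp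
  have hn' : nrm ⊤ (tauM M (alpha10 M i j δ n ζ)) = 2 + n ^ 2 := by
    apply nrm_eq_of_dot
    rw [D.dot_tau_alpha_self i hj]; simp
  have h2 := norm_dot_sq_le' ⊤ (tauM M (alpha10 M i j δ n ζ)) (ν (muR M W₁ j⁻¹))
    (by rw [hn]; exact cardR_pos W₁)
  have e : (d : ℂ) * (b + n) = ((d * (b + n) : ℤ) : ℂ) := by push_cast; ring
  rw [h1, hn, hn', e, Complex.norm_intCast, sq_abs] at h2
  have h3 : ((d : ℤ) * (b + n)) ^ 2 ≤ (2 + n ^ 2) * #W₁ := by exact_mod_cast h2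
  rw [hb]
  have hb0 : b + n = 0 := by
    by_contra h0
    have h4 : 1 ≤ (b + n) ^ 2 := by
      have := sq_pos_of_ne_zero h0
      omega
    have h5 : (d : ℤ) ^ 2 ≤ (2 + n ^ 2) * #W₁ := by nlinarith [sq_nonneg (d : ℤ)]
    have hw : (3 : ℤ) ≤ #W₁ := by exact_mod_cast hc.three₁
    have hd1 : (1 : ℤ) < d := by exact_mod_cast D.one_lt
    have hn2 : (2 : ℤ) ≤ n := by
      obtain ⟨r, hr⟩ := D.even
      have := D.eq
      rcases Nat.eq_zero_or_pos r with e | e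
      · subst e
        rw [hr] at this
        rcases D.sign with e | e <;> simp [e] at this <;> omega
      · omega
    have h6 : (n : ℤ) * #W₁ - 1 ≤ d := by
      have := D.eq
      rcases D.sign with e | e <;> omega
    generalize ((#W₁ : ℕ) : ℤ) = w at *
    have h7 : (n * w - 1) ^ 2 ≤ (d : ℤ) ^ 2 := by
      apply pow_le_pow_left₀ _ h6
      nlinarith
    have h8 : (n : ℤ) ^ 2 * (w - 1) - 2 * n - 2 > 0 := by nlinarith
    nlinarith
  have : b = -n := by omega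
  rw [this]; simp

end D10

end

section
open Cfsg Subgroup
open H9
open H19 H17 H20
open scoped ComplexConjugate Classical
variable {G : Type u} [Group G] [Finite G] [VS G] {M W₁ U W₂ : Subgroup G}

section
variable [PF2.{u}] [PF3.{u}] [PF4a.{u}] [PF4b.{u}] [PF5a.{u, u}] [PF5b.{u}] [PF8a G] [PF8b G]
  {ζ : G → ℂ} {d n : ℕ} {δ : ℤ}

/-- (10.10.3), (10.10.4) -/
theorem D10.coherent (D : D10 M W₁ U W₂ ζ d n δ) (hlt : #W₁ < #W₂) (hn0 : n ≠ 0)
    (hn : n ^ 2 + 3 < (S10 M (D2 M)).card)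
    (hS : ∀ χ ∈ S10 M ⊥, χ ∉ S10 M (D2 M) → ∃ j : Ch W₂, j ≠ 1 ∧ χ = muR M W₁ j) :
    Coherent M (S10 M ⊥) (tauM M) := by
  have hp := tp_pti D.tp
  have hc := tp_cti D.tp
  have hd := tp_pd D.tp D.typ
  have hl := (pf10_lin D.tp).2
  obtain ⟨R, hR, -⟩ := PF5b.subcoh hd D.tp.max.1.odd
  obtain ⟨ν, hν⟩ := PF5a.uniform hR (csub_SInd le_rfl (bot_le (a := D2 M)))
    fun χ hχ φ hφ => (hl χ hχ).2.1.trans (hl φ hφ).2.1.symm
  have hZ := coh_dirr hν D.mem D.irr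
  have ho := D.nu_ortho hν D.mem' D.irr D.mem (sind_star D.mem)
  have key : ∀ (i : Ch W₁) {j : Ch W₂}, j ≠ 1 →
      dot ⊤ (tauM M (alpha10 M i j δ n ζ)) (ν ζ) = -n := fun i j hj => by
    by_contra h0
    have hO : OrthF ⊤ ((S10 M (D2 M)).erase ζ) ν := by
      refine orthF_of (fun φ hφ => ?_) fun φ hφ ψ hψ e => ?_
      · have := Finset.mem_of_mem_erase hφ
        exact (coh_dirr hν this (hl φ this).1).self
      · have h1 := Finset.mem_of_mem_erase hφ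
        have h2 := Finset.mem_of_mem_erase hψ
        rw [hν.isom _ h1 _ h2, irr_dot_ne (hl φ h1).1 (hl ψ h2).1 e]
    have h1 := card_le_nrm hO (fun φ hφ => hν.zirr φ (Finset.mem_of_mem_erase hφ))
      (D.tau_alpha_zirr i hj) fun φ hφ h2 => by
        have h3 := Finset.mem_of_mem_erase hφ
        have e : (φ - ζ) 1 = 0 := by rw [Pi.sub_apply, (hl φ h3).2.1, D.one, sub_self]
        have h4 := D.dot_tau (D.alpha_supp i hj) (CFon.of_sub (sub_mem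
          (sind_supp (der_normal M).norm h3) (sind_supp (der_normal M).norm D.mem)) e)
        rw [tauM, ← hν.agree _ e, map_sub, dot_sub_right, dot_sub_right, D.dot_alpha_zeta,
          D.dot_alpha_irr i j (hl φ h3).2.2 (hl φ h3).1, if_neg (Finset.ne_of_mem_erase hφ).symm,
          ← tauM, h2] at h4
        exact h0 (by linear_combination -h4)
    rw [nrm_eq_of_dot (r := 2 + n ^ 2) (by rw [D.dot_tau_alpha_self i hj]; simp),
      Finset.card_erase_of_mem D.mem] at h1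
    have h2 : (S10 M (D2 M)).card - 1 ≤ 2 + n ^ 2 := by exact_mod_cast h1
    omega
  have hs := mu0_sub_supp D.tp D.mem
  refine ⟨ν, ?_⟩
  have := PF5a.extend hR subset_rfl (SInd_sub_bot _ _ _ _) hν D.mem fun χ hχ hχ1 => by
    obtain ⟨j, hj, rfl⟩ := hS χ hχ hχ1
    refine ⟨by rw [sind_lin_deg (der_le M) le_rfl D.mem]; exact sind_deg_dvd (der_le M) hχ, ?_⟩
    have hnear : ∀ k : Ch W₂, dot ⊤ (eta (1 : Ch W₁) k) (tauM M (muR M W₁ (1 : Ch W₂) - ζ)) =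
        if k = 1 then 1 else 0 := fun k => by
      rw [← conj_dot, pf10_near D.tp D.typ hlt D.mem]
      split_ifs <;> simp
    have h1 := D.dot_tau (D.alpha_supp 1 hj) hs
    rw [D.tau_alpha 1 hj hZ ho (key 1 hj), dot_sub_left, dot_smul_left, dot_smul_left,
      dot_sub_left, hnear, hnear, dot_sub_right M, D.dot_alpha_muR, D.dot_alpha_zeta, if_neg hj,
      tauM, ← hν.agree _ (CFon.zero hs (one_not_mem_nt _)), map_sub, dot_sub_right, hZ.self] at h1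
    simp only [if_true] at h1
    have h2 : dot ⊤ (ν ζ) (ν (muR M W₁ (1 : Ch W₂))) = 0 := by
      have : (n : ℂ) * dot ⊤ (ν ζ) (ν (muR M W₁ (1 : Ch W₂))) = 0 := by linear_combination -h1
      exact (mul_eq_zero.1 this).resolve_left (by exact_mod_cast hn0)
    have h3 := congrArg (fun φ => dot ⊤ (ν φ) (ν ζ)) (D.sum_alpha j)
    have h4 : ∀ i : Ch W₁, dot ⊤ (ν (alpha10 M i j δ n ζ)) (ν ζ) = -n := fun i => by
      rw [hν.agree _ (CFon.zero (D.alpha_supp i hj) hd.dd.one_not_mem)]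
      exact key i hj
    simp only [map_sum, dot_sum_left, h4, map_sub, map_smul, dot_sub_left, dot_smul_left,
      dot_eq_zero_comm.1 h2, hZ.self, Finset.sum_const, Finset.card_univ, card_Ch hc.ab₁,
      nsmul_eq_mul] at h3
    linear_combination -h3
  rwa [Finset.union_eq_left.2 (SInd_sub_bot _ _ _ _)] at this

omit [PF2.{u}] [PF3.{u}] [PF4b.{u}] [PF5a.{u, u}] [PF5b.{u}] [PF8b G] in
/-- (10.10.2) -/
theorem D10.cube (D : D10 M W₁ U W₂ ζ d n δ) {p : ℕ} (hp : p.Prime) (hW : #W₂ = p)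
    (hK : #(D1 M) = p ^ 3) (hi : (D2 M).relIndex (D1 M) = p ^ 2) : d = p ∧
    ∀ χ ∈ S10 M ⊥, χ ∉ S10 M (D2 M) → ∃ j : Ch W₂, j ≠ 1 ∧ χ = muR M W₁ j := by
  have pM := tp_pti D.tp
  have hc := tp_cti D.tp
  have h1 : ∑ θ ∈ IrrK (D1 M) (D2 M) ⊥, H20.deg θ ^ 2 + p ^ 2 = p ^ 3 := by
    have h1 := sum_IrrK_deg (K := D1 M) (der_normal (D1 M)) (NormalIn.bot _)
    rwa [sup_bot_eq, relIndex_bot_left, hi, hK] at h1
  set T := (Finset.univ.filter fun j : Ch W₂ => j ≠ 1).image (chiR M (D1 M) W₁) with hT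
  have hdeg : ∀ j : Ch W₂, j ≠ 1 → H20.deg (chiR M (D1 M) W₁ j) = d := fun j hj =>
    deg_eq_of_cast (by rw [chiR, Res_one, D.deg j hj])
  have hsub : T ⊆ IrrK (D1 M) (D2 M) ⊥ := fun θ hθ => by
    obtain ⟨j, hj, rfl⟩ := Finset.mem_image.1 hθ
    refine mem_IrrK.2 ⟨PF4a.chiR_irr pM j, bot_le, fun h => (Finset.mem_filter.1 hj).2 ?_⟩
    have := (PF4a.ker_chiR pM (der_le _) (der_normal M).der.norm j).1 h
    exact Ch.eq_one_iff.2 fun x hx => this x ⟨hx, tp_W2_le D.tp hx⟩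
  have hsum : ∑ θ ∈ T, H20.deg θ ^ 2 = (p - 1) * d ^ 2 := by
    rw [hT, Finset.sum_image fun a _ b _ e => chiR_injective pM e,
      Finset.sum_congr rfl fun j hj => by rw [hdeg j (Finset.mem_filter.1 hj).2],
      Finset.sum_const, card_ch_ne_one hc.ab₂, hW, smul_eq_mul]
  obtain ⟨j, hj⟩ := exists_ch_ne_one hc.ab₂ hc.ne₂
  have hdp : p ≤ d := by
    have h2 := irr_deg_dvd (PF4a.chiR_irr pM j)
    rw [hdeg j hj, hK] at h2
    obtain ⟨k, -, hk⟩ := (Nat.dvd_prime_pow hp).1 h2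
    have := D.one_lt
    rcases k with _ | k
    · rw [pow_zero] at hk; omega
    · rw [hk]; exact Nat.le_self_pow (Nat.succ_ne_zero k) p
  have h3 := Finset.sum_sdiff hsub (f := fun θ => H20.deg θ ^ 2)
  obtain ⟨q, rfl⟩ : ∃ q, p = q + 2 := ⟨p - 2, by have := hp.two_le; omega⟩
  have e : q + 2 - 1 = q + 1 := rfl
  rw [hsum, e] at h3
  have h4 : (q + 2) ^ 2 ≤ d ^ 2 := Nat.pow_le_pow_left hdp 2
  have h5 : (q + 1) * (q + 2) ^ 2 ≤ (q + 1) * d ^ 2 := Nat.mul_le_mul_left _ h4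
  have h6 : (q + 1) * (q + 2) ^ 2 + (q + 2) ^ 2 = (q + 2) ^ 3 := by ring
  have h7 : (q + 1) * d ^ 2 = (q + 1) * (q + 2) ^ 2 := by omega
  refine ⟨Nat.pow_left_injective two_ne_zero (Nat.eq_of_mul_eq_mul_left (Nat.succ_pos q) h7),
    fun χ hχ hχ1 => ?_⟩
  obtain ⟨θ, hθ, rfl⟩ := mem_SInd.1 hχ
  obtain ⟨t1, -, t3⟩ := mem_IrrK.1 hθ
  have h8 : θ ∈ IrrK (D1 M) (D2 M) ⊥ :=
    mem_IrrK.2 ⟨t1, bot_le, fun h => hχ1 (Ind_mem_SInd (mem_IrrK.2 ⟨t1, h, t3⟩))⟩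
  have h9 : θ ∈ T := by
    by_contra h9
    have := Finset.single_le_sum (f := fun θ => H20.deg θ ^ 2) (fun _ _ => Nat.zero_le _)
      (Finset.mem_sdiff.2 ⟨h8, h9⟩)
    have h10 := pow_pos (irr_deg_pos t1) 2
    omega
  obtain ⟨k, hk, rfl⟩ := Finset.mem_image.1 h9
  exact ⟨k, (Finset.mem_filter.1 hk).2, PF4a.ind_chiR pM k⟩

/-- (10.8) -/
theorem pf10_not_coh (h : TP M W₁ U W₂) (ht : T345 M) : ¬ Coherent M (S10 M ⊥) (tauM M) := by
  rintro ⟨ν, hν⟩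
  obtain ⟨ζ, hζ⟩ := (pf10_lin h).1
  obtain ⟨d, n, δ, D⟩ := exists_d10 h ht hζ
  have hc := tp_cti h
  obtain ⟨j, hj⟩ := exists_ch_ne_one hc.ab₂ hc.ne₂
  have k := ws_tau h (alpha10 M (1 : Ch W₁) j δ n ζ)
  rw [(D.tau_alpha_coh hν 1 hj).2] at k
  refine trick2 hc hj (H9.sign_ne_zero D.sign) (Nat.cast_ne_zero.2 ?_) (H9.sign_mul_self D.sign)
    (coh_dirr hν D.mem' D.irr) k
  rintro rfl
  have h1 := D.eq
  have h2 := D.one_lt
  rcases D.sign with e | e <;> simp [e] at h1 <;> omega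

theorem inst_PF10b : PF10b G := ⟨pf10_not_coh⟩

variable [PF6a.{u, u}] [PF6b.{u}] [PF10b G]

/-- (10.10) -/
theorem pf10_no_five (hM : Mx M) : ¬ IsOfTypeV M := fun ht => by
  obtain ⟨W₁, U, W₂, htp, -⟩ := id ht
  have h : TP M W₁ U W₂ := ⟨hM, htp⟩
  have h5 : T345 M := Or.inr (Or.inr ht)
  have pM := tp_pti h
  have hc := tp_cti h
  have hd := tp_pd h h5
  obtain ⟨-, hF, hcase⟩ := PF8a.type5 h ht
  rw [hF] at hcase
  have hnil : Nil (D1 M) := hF ▸ Fcore_nil M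
  have hpr := (pf10_consts h h5).1
  refine PF10b.not_coh h h5 ?_
  rcases hcase with hti | hcase
  · exact PF6b.sibley hM.1.odd hnil hti (fun α hα => PF2.eq_ind hd.dd (tp_nt_sub h h5)
      (fun a ha => PF8b.support_bot (hti.cent1_le ha)) hα)
      (Or.inr ⟨W₂, _, _, hpr, tp_W2_le h, hd⟩)
  obtain ⟨R, hR, -⟩ := PF5b.subcoh hd hM.1.odd
  have hlt : D1 M < M := sol_der_lt hM.1.sol (ne_bot_mono pM.sd.right_le pM.W1_ne)
  obtain ⟨m, hm⟩ := (isNilpotent_iff_lowerCentralSeries _).1 hnil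
  rcases PF6a.chief (der_normal M) (tp_sol_D1 h) hR hM.1.odd (NormalIn.bot M).norm
    (bot_lt_iff_ne_bot.2 (ne_bot_mono pM.W2_le pM.W2_ne)) hlt ⟨m, hm.le⟩
    (fun k hk hk' x hx hc => by
      rw [sup_bot_eq] at hk' hc
      exact pti_frob_quo pM (der_normal M).der.norm le_rfl (tp_W2_le h) (der_le _) hk hk' hx hc)
    with h1 | ⟨-, h1, p, k, hp, hK, -, hnd⟩
  · exact h1
  rw [sup_bot_eq, pti_relIndex pM] at h1
  rw [relIndex_bot_left] at hK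
  rw [pti_relIndex pM] at hnd
  have hpK : PG p (D1 M) := PiN.of_card_pow hp hK
  rcases hcase with ⟨q, hq, hq1, hq2, -⟩ | ⟨q, hq, hq1, hq2, -⟩
  · exact absurd (hpK.eq_of_dvd hq hq1 ▸ hq2) hnd
  have e : q = p := hpK.eq_of_dvd hq ((hq1 ▸ dvd_pow_self q (by norm_num)).trans
    (card_dvd (Oc_le {q} (D1 M))))
  subst e
  rw [Oc_eq_self hpK] at hq1
  have hW : #W₂ = q := hpK.eq_of_dvd hpr (card_dvd pM.W2_le)
  obtain ⟨hcard, hge⟩ : (S10 M (D2 M)).card * #W₁ + 1 = (D2 M).relIndex (D1 M) ∧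
      1 < (D2 M).relIndex (D1 M) := by
    have h1 := card_SInd_lin (der_normal M) (der_normal M).norm le_rfl (der_normal M).der.norm
      (der_le _) le_rfl fun ζ hζ => ((pf10_lin h).2 ζ hζ).1
    rw [sup_eq_left.2 (der_le _), relIndex_self, pti_relIndex pM] at h1
    refine ⟨h1, ?_⟩
    rw [← h1]
    exact Nat.succ_lt_succ (Nat.mul_pos (pf10_lin h).1.card_pos (card_pos W₁))
  have hi : (D2 M).relIndex (D1 M) = q ^ 2 := by
    have h2 := card_mul_relIndex (der_le (D1 M))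
    obtain ⟨c, hc⟩ := card_dvd (tp_W2_le h)
    rw [hc, hW, hq1, pow_succ', mul_assoc] at h2
    have h3 := Nat.eq_of_mul_eq_mul_left hq.pos h2
    obtain ⟨l, hl, e⟩ := (Nat.dvd_prime_pow hq).1 (Dvd.intro_left _ h3)
    change (D2 M).relIndex (D1 M) = _ at e
    interval_cases l
    · rw [pow_zero] at e; omega
    · rw [pow_one] at e
      exact absurd ⟨(S10 M (D2 M)).card, by rw [mul_comm]; omega⟩ hnd
    · exact e
  obtain ⟨ζ, hζ⟩ := (pf10_lin h).1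
  obtain ⟨d, n, δ, D⟩ := exists_d10 h h5 hζ
  obtain ⟨rfl, hS⟩ := D.cube hq hW hq1 hi
  rw [hi] at h1 hcard
  have w3 := hc.three₁
  have hdo : Odd d := hW ▸ hc.odd₂
  have hd2 : d + 1 = 2 * #W₁ := by
    obtain ⟨c, hc'⟩ := hq2
    have h2 : d ≤ 2 * #W₁ := by
      by_contra h2
      have : (2 * #W₁ + 1) ^ 2 ≤ d ^ 2 := Nat.pow_le_pow_left (by omega) 2
      nlinarith
    have h3 : Even (#W₁ * c) := hc' ▸ hdo.add_one
    rcases Nat.even_mul.1 h3 with h4 | ⟨r, hr⟩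
    · exact absurd h4 (Nat.not_even_iff_odd.2 hc.odd₁)
    · have : c < 3 := by
        by_contra h4
        have : #W₁ * 3 ≤ #W₁ * c := Nat.mul_le_mul_left _ (by omega)
        omega
      have : c = 0 ∨ c = 2 := by omega
      rcases this with rfl | rfl <;> omega
  have hn : n = 2 := by
    obtain ⟨r, hr⟩ := D.even
    have h2 := D.eq
    have h3 : n < 3 := by
      by_contra h4
      have : (3 : ℤ) * #W₁ ≤ n * #W₁ := by
        exact_mod_cast Nat.mul_le_mul_right #W₁ (show 3 ≤ n by omega)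
      rcases D.sign with e | e <;> omega
    have : n = 0 ∨ n = 2 := by omega
    rcases this with rfl | rfl
    · rcases D.sign with e | e <;> omega
    · rfl
  refine D.coherent (by omega) (by omega) ?_ hS
  by_contra h2
  have h3 : (S10 M (D2 M)).card * #W₁ ≤ 7 * #W₁ := Nat.mul_le_mul_right _ (by subst hn; omega)
  obtain ⟨w, hw⟩ : ∃ w, #W₁ = w + 3 := ⟨#W₁ - 3, by omega⟩
  have hd3 : d = 2 * w + 5 := by omega
  rw [hw] at h3 hcard
  rw [hd3] at hcard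
  nlinarith

theorem inst_PF10c : PF10c G := ⟨pf10_no_five⟩

end

end

end H13.V
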