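/-
Port of `H3/PF12a, H3/PF12b` to the `ϖ`-local setting.
-/
import Cfsg.Agent.H13.V22

set_option autoImplicit false
set_option linter.unusedSectionVars false

namespace H13.V
universe u
section
open Cfsg Subgroup
open H3
open H19 H17 H20
open scoped Classical
variable {G : Type u} [Group G] [Finite G] [VS G] [PF8a G] [PF8b G] {L M E : Subgroup G}

omit [PF8b G] in
theorem typeI_compl (ht : TypeI L) : ∃ U, Sdprod (Fcore L) U L := (PF8a.typeF ht.1).1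

omit [PF8a G] in
theorem typeI_A1 (hL : Mx L) (ht : TypeI L) : typeA1 L = nt (Fcore L) := by
  rw [(PF8b.sets hL).1, (PF8b.sets1 hL ht).1]

omit [PF8a G] in
theorem nt_Fcore_sub' (hL : Mx L) : nt (Fcore L) ⊆ tA L :=
  (nt_mono (PF8b.sets hL).2.1).trans ((PF8b.sets hL).1 ▸ (PF8b.sets hL).2.2.2.2.1)

theorem pf12_coh [PF2.{u}] [PF5a.{u,u}] [PF6a.{u,u}] [PF6b.{u}] (hL : Mx L) (ht : TypeI L)
    (hF : Frob (Fcore L) E L) :
    SInd L (Fcore L) (Fcore L) ⊥ ⊆ Irr L ∧ 2 * #E + 1 ≤ #(Fcore L) ∧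
    (Fcore L).relIndex L = #E ∧ ∃ ν ζ, Inv7 L (Fcore L) (supportR L) ν ζ := by
  have hH : Fcore L ⊴ L := Fcore_normal L
  have hi : SInd L (Fcore L) (Fcore L) ⊥ ⊆ Irr L :=
    sind_irr_of_cent hH (fun k hk h1 => frob_cent_le hF hk h1) le_rfl
  have ho := hL.1.odd
  refine ⟨hi, semireg_two_mul_le hF.sd.norm hF.reg hF.ker_ne (hL.odd hH.le)
    (hL.odd hF.sd.right_le),
    hF.sd.relIndex_left, ?_⟩
  have hD := (PF8b.dade_std hL).2.2.2
  have hs : Sol (Fcore L) := sol_of_nil (Fcore_nil L)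
  obtain ⟨R, hR, -⟩ := PF5a.sub_irr hi (fun _ => sind_star) (fun _ => sind_star_ne hH ho le_rfl)
    (PF2.isoOn hD (fun _ => sind_zirr hH.le) (fun _ => sind_supp' hH.norm))
  obtain ⟨ζ, hζ⟩ := SInd_nonempty L (NormalIn.refl _) (der_normal _) (sol_der_lt hs hF.ker_ne).not_ge
  suffices h : Coherent L (SInd L (Fcore L) (Fcore L) ⊥) (dade (nt (Fcore L)) (supportR L)) by
    obtain ⟨ν, hν⟩ := h
    exact ⟨ν, ζ, hH, ho, hD, hν, SInd_sub_bot _ _ _ _ hζ, hi (SInd_sub_bot _ _ _ _ hζ),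
      sind_lin_one hH.le le_rfl hζ⟩
  rcases PF8a.type1 hL ht hF.sd with h | h | h
  · exact PF6b.sibley ho (Fcore_nil L) h (fun α hα => PF2.eq_ind hD subset_rfl
      (fun a ha => PF8b.support_bot (h.cent1_le ha)) hα) (Or.inl hF)
  · have hd := (comm_iff_der.1 h.1).le
    exact PF5a.uniform hR ⟨subset_rfl, fun _ => sind_star⟩ fun χ hχ φ hφ => by
      rw [sind_lin_one hH.le hd hχ, sind_lin_one hH.le hd hφ]
  · have hlt : Fcore L < L := lt_of_le_of_ne hH.le fun e =>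
      hF.compl_ne (by rw [← hF.sd.inf, e, inf_eq_right.2 hF.sd.right_le])
    obtain ⟨n, hn⟩ := (isNilpotent_iff_lowerCentralSeries _).1 (Fcore_nil L)
    refine (PF6a.chief hH hs hR ho (NormalIn.bot L).norm (bot_lt_iff_ne_bot.2 hF.ker_ne) hlt
      ⟨n, hn.le⟩ fun k hk hk' x hx hc => ?_).resolve_right ?_
    · rw [sup_bot_eq] at hk' hc
      exact frob_mem_of_comm hF hH.der.norm (der_le _) le_rfl hk hk' hx hc
    · rintro ⟨-, -, p, m, hp, hm, h1, h2⟩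
      rw [relIndex_bot_left] at hm
      have hz : IsZGroup E := isZGroup_of_fpf hF.sd.norm hF.ker_ne hF.reg
        (hL.odd hF.sd.right_le).not_two_dvd_nat
      refine h2 ?_
      rw [hF.sd.relIndex_left, ← IsZGroup.exponent_eq_card]
      refine h.1 p hp (hm ▸ dvd_pow_self p ?_)
      rintro rfl
      exact hF.ker_ne (card_eq_one.1 hm)

theorem inst_PF12a [PF2.{u}] [PF5a.{u,u}] [PF6a.{u,u}] [PF6b.{u}] : PF12a G := ⟨pf12_coh⟩

end

section
open Cfsg Subgroup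
open H3
open H19 H17 H20
open scoped Classical ComplexConjugate
variable {G : Type u} [Group G] [Finite G] [VS G] [PF8a G] [PF8b G] {L M E U : Subgroup G}

theorem t1_of_typeI (hL : Mx L) (ht : TypeI L) :
    T1 L (Fcore L) (tA L) (supportR L) where
  norm := Fcore_normal L
  odd := hL.1.odd
  dd := (PF8b.dade_std hL).2.1
  sub := nt_Fcore_sub' hL
  supp a ha h1 h2 := by
    by_contra h
    obtain ⟨x, hx, hx1⟩ := exists_ne_one h
    exact h2 (((PF8b.sets1 hL ht).2.2.1 a).2 ⟨ha, h1, x, hx.1, hx1, (mem_cent1.1 hx.2).symm⟩)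
  mult θ hθ h1 := by
    obtain ⟨U, hU⟩ := typeI_compl ht
    obtain ⟨U₁, U₀, hF⟩ := (PF8a.typeF ht.1).2 U hU
    have hle := le_inertia (irr_cinv hθ) (Fcore_le L)
    have sd := hU.modl hle
    rw [inf_eq_right.2 (inertia_le L θ)] at sd
    have hab : Ab (U ⊓ inertia L θ) :=
      comm_mono hF.U1_ab (inf_comm U _ ▸ PF8a.typeF_inertia hF hθ h1)
    have := Ind_ab_inertia_coprime (Fcore_normal L) hθ
      (by rw [← sd.sup]; exact (der_sup_le sd.norm).trans (by rw [comm_iff_der.1 hab, sup_bot_eq]))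
      ((Fcore_coprime L).coprime_dvd_right (relIndex_dvd_right hle (inertia_le L θ)))
    exact ⟨this.2.1, fun χ hχ => (this.2.2 χ hχ).1⟩
  bot a ha h := PF8b.support_bot (by
    by_contra hC
    have := (PF8b.support hL ((PF8b.sets hL).2.2.2.2.2.1 ha) hC).1
    rw [typeI_A1 hL ht] at this
    exact h this.1)

/-- the configuration of Peterfalvi (12.8), (12.9) -/
structure Cfg12 (p : ℕ) (M U P L : Subgroup G) (x g : G) : Prop where
  prime : p.Prime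
  maxM : Mx M
  tM : TypeI M
  sd : Sdprod (Fcore M) U M
  le : P ≤ U
  syl : Syl p P M
  ncyc : ¬ Cyc P
  maxL : Mx L
  core : P ≤ typeCore L
  x_mem : x ∈ P
  x_ord : orderOf x = p
  g_mem : g ∈ Fcore M
  g_not : g ∉ ⁅Fcore M, Fcore M⁆
  comm : g * x = x * g

theorem exists_cfg12 {p : ℕ} (hp : p.Prime) (hM : Mx M) (ht : TypeI M)
    (hU : Sdprod (Fcore M) U M) {Q : Subgroup G} (hQ : Q ≤ U) (hq : PG p Q) (hc : ¬ Cyc Q) :
    ∃ P L x g, Cfg12 p M U P L x g := by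
  obtain ⟨P, hP, hQP⟩ := hq.exists_syl hQ
  have hc' : ¬ Cyc P := fun h => hc (cyc_mono h hQP)
  obtain ⟨A, hA⟩ := hP.pi.exists_el2 (hM.odd (hP.le.trans hU.right_le)) hc'
  have hK : ¬ p ∣ #(Fcore M) := fun h => hp.one_lt.ne' (Nat.eq_one_of_dvd_coprimes
    (hU.relIndex_left ▸ Fcore_coprime M) h ((hA.mono hP.le).dvd))
  have hPM : Syl p P M := hP.of_idx hU.right_le (hU.relIndex_right ▸ PiN.of_not_dvd hK)
  obtain ⟨L, hL, hpL⟩ := PF8b.primes_cover (hM.1.el2 (hA.mono (hP.le.trans hU.right_le))) hp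
     (hA.dvd.trans (card_subgroup_dvd_card P))
  obtain ⟨S, hS⟩ := exists_syl p (typeCore L)
  have hS' : Syl p S ⊤ := hS.of_idx le_top (PiN.of_not_dvd fun h => hp.one_lt.ne'
    (Nat.eq_one_of_dvd_coprimes (PF8b.hall hL).2.1 hpL (by rwa [relIndex_top_right] at h)))
  obtain ⟨y, -, hy⟩ := hS'.sle_cj le_top hP.pi
  have := mt (hA.le_of_cent_le (K := Fcore M) (L := ⁅Fcore M, Fcore M⁆)
    ((hA.le.trans hPM.le).trans (Fcore_norm M)) (PiN.of_not_dvd hK))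
    (sol_der_lt (sol_of_nil (Fcore_nil M)) (PF8b.sets hM).2.2.2.1).not_ge
  push Not at this
  obtain ⟨X, hX, h⟩ := this
  obtain ⟨x, -, hx, rfl⟩ := hX.exists_gen
  obtain ⟨g, hg, hg'⟩ := SetLike.not_le_iff_exists.1 h
  rw [cent_zpowers] at hg
  exact ⟨P, cj y L, x, g, hp, hM, ht, hU, hP.le, hPM, hc', coatom_J hL y,
    (PF8b.sets_conj y).1 ▸ hy.trans (cj_mono y hS.le), hA.le (hX.le (mem_zpowers x)), hx, hg.1, hg',
    mem_cent1.1 hg.2⟩

namespace Cfg12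
variable {p : ℕ} {P : Subgroup G} {x g : G} (h : Cfg12 p M U P L x g)
include h

omit [Finite G] [PF8a G] [PF8b G] in
theorem x_ne : x ≠ 1 := fun e => h.prime.one_lt.ne' (by rw [← h.x_ord, e, orderOf_one])
omit [Finite G] [PF8a G] [PF8b G] in
theorem g_ne : g ≠ 1 := fun e => h.g_not (e ▸ one_mem _)
omit [Finite G] [PF8a G] [PF8b G] in
theorem x_pow : x ^ p = 1 := h.x_ord ▸ pow_orderOf_eq_one x
omit [Finite G] [PF8a G] [PF8b G] in
theorem dvd : p ∣ #P := h.x_ord ▸ orderOf_dvd_card' h.x_mem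
omit [PF8a G] [PF8b G] in
theorem not_dvd : ¬ p ∣ #(Fcore M) := fun e => h.prime.one_lt.ne' (Nat.eq_one_of_dvd_coprimes
  (h.sd.relIndex_left ▸ Fcore_coprime M) e (h.dvd.trans (card_dvd h.le)))
omit [PF8b G] in
theorem three : 3 ≤ p := by
  have := h.prime.two_le
  have := odd_prime_ne_two (h.maxM.odd h.syl.le) h.dvd
  omega

omit [PF8a G] in
theorem uniq : UniqMax C[x] M :=
  (PF8b.type12 h.maxM (Or.inl ⟨h.tM, h.sd⟩)).2.1 {x}
    (Set.singleton_subset_iff.2 ⟨h.le h.x_mem, h.x_ne⟩) (Set.singleton_nonempty x)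
    (ne_bot_of_mem (H := Fcore M ⊓ C[x]) ⟨h.g_mem, mem_cent1.2 h.comm⟩ h.g_ne)

omit [PF8a G] in
theorem not_cj : ¬ Cjg M L := by
  rintro ⟨y, rfl⟩
  have := h.dvd.trans (card_dvd h.core)
  rw [(PF8b.sets_conj y).1, card_cj, (PF8b.sets1 h.maxM h.tM).1] at this
  exact h.not_dvd this

omit [PF8a G] in
theorem not_le : ¬ C[x] ≤ L := fun e => ne_of_not_cjg h.not_cj (h.uniq.uniq L h.maxL e)

omit [PF8a G] in
theorem x_A1 : x ∈ typeA1 L := (PF8b.sets h.maxL).1 ▸ ⟨h.core h.x_mem, h.x_ne⟩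

theorem tL [PF10c G] [PF9a G] [PF9b G] : TypeI L := by
  by_contra ht
  obtain ⟨W₁, V, W₂, tp⟩ := PF8a.tp_ex h.maxL ht
  have h34 : T34 L := by
    rcases PF8a.types h.maxL with a | a | a | a | a
    · exact absurd a ht
    · exact absurd ((PF8b.type2_ti h.maxL a).2.2.cent1_le h.x_A1) h.not_le
    · exact Or.inl a
    · exact Or.inr a
    · exact absurd a (PF10c.no_five h.maxL)
  have hc := h.core
  rw [((PF8b.setsP tp).2.2.2 (h34.imp_right Or.inl)).1] at hc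
  by_cases hp : p ∣ #(Fcore L)
  · refine h.not_le ((PF8a.type234 tp (Or.inr h34)).2.2.1.cent1_le ⟨Fcore_le_Fit L ?_, h.x_ne⟩)
    exact (Fcore_hall L).le_of_normal (Fcore_norm L) (hc.trans (der_le L))
      (h.syl.pi.sing ⟨h.prime, hp⟩) h.x_mem
  · have sd := (PF8a.typeP tp).2.1
    obtain ⟨k, -, hk⟩ := exists_cj_le_of_le_sup sd.norm (hc.trans sd.sup.ge)
      ((PiN.of_not_dvd hp).coprime' h.syl.pi) (Or.inl h.syl.pi.sol)
    exact h.ncyc (cyclic_cj.1 (cyc_mono (let ⟨_, _, h9⟩ := PF9a.ex tp (Or.inr h34); (p9_no_irr h9).2.2.2.1) hk))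

omit [PF8a G] in
theorem le_H (ht : TypeI L) : P ≤ Fcore L := (PF8b.sets1 h.maxL ht).1 ▸ h.core

/-- (12.10) -/
theorem frob (ht : TypeI L) (hE : Sdprod (Fcore L) E L)
    (ih : ∀ q < p, q.Prime → ∀ Q ≤ E, PG q Q → Cyc Q) : Frob (Fcore L) E L := by
  obtain ⟨U₁, U₀, hF⟩ := (PF8a.typeF ht.1).2 E hE
  refine (PF8a.typeF_frob h.maxL.1.odd hF).2.2 fun q hq Q hQ hqQ => ?_
  have hqQ := PiN.of_isPGroup hq hqQ
  by_cases h1 : Q = ⊥
  · exact h1 ▸ cyc_bot
  refine ih q ?_ hq Q hQ hqQ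
  obtain ⟨y, hy, hyq⟩ := exists_orderOf_eq_prime hq ((hqQ.dvd_of_ne_bot h1).trans (card_dvd hQ))
  have hqe : q ∣ expo E := by
    rw [← hyq, ← orderOf_mk y hy]; exact Monoid.order_dvd_exponent _
  have h3 := h.three
  have hpH := h.dvd.trans (card_dvd (h.le_H ht))
  rcases PF8a.type1 h.maxL ht hE with a | a | a
  · exact absurd (a.cent1_le ⟨h.le_H ht h.x_mem, h.x_ne⟩) h.not_le
  · obtain ⟨A, hA⟩ := h.syl.pi.exists_el2 (h.maxM.odd h.syl.le) h.ncyc
    have hA := hA.mono (h.le_H ht)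
    have e := hA.Ohm1_eq a.1 ((prk_le_rk p _).trans (rankLE_iff.1 a.2.1))
    have := semireg_dvd (hF.U0_reg.mono hA.le le_rfl)
      (e ▸ norms_Ohm1 p (hF.U0_le.trans hE.norm))
    rw [(PF8a.typeF_frob h.maxL.1.odd hF).1, hA.card, ← one_pow 2, Nat.sq_sub_sq] at this
    rcases (Nat.Prime.dvd_mul hq).1 (hqe.trans this) with b | b
    · have := two_mul_le_of_dvd ((h.maxL.odd (hQ.trans hE.right_le)).of_dvd_nat (hqQ.dvd_of_ne_bot h1))
        ((h.maxM.odd h.syl.le).of_dvd_nat h.dvd).add_one (by omega) b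
      omega
    · have := Nat.le_of_dvd (by omega) b
      omega
  · have := Nat.le_of_dvd (by omega) (hqe.trans (a.1 p h.prime hpH))
    omega

omit [PF8a G] in
theorem supp : supportR L x = Fcore M ⊓ C[x] ∧ Sdprod (Fcore M) (L ⊓ M) M := by
  have s := PF8b.sets h.maxL
  obtain ⟨-, N, hN, h1, h2, -⟩ := PF8b.support h.maxL (s.2.2.2.2.2.1 (s.2.2.2.2.1 h.x_A1)) h.not_le
  rw [hN.eq h.uniq] at h1 h2
  exact ⟨h1, h2⟩

omit [PF8a G] in
theorem inf_eq (ht : TypeI L) : Oc {p} (Fcore L) ⊓ M = P :=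
  h.syl.max (le_inf (nil_le_Oc (Fcore_nil L) (h.le_H ht) h.syl.pi) h.syl.le) inf_le_right
    ((Oc_pi _ _).infl M)

/-- (12.11) -/
theorem inf_le (ht : TypeI L) (hF : Frob (Fcore L) E L) : L ⊓ M ≤ Fcore L := by
  have sd := h.supp.2
  obtain ⟨V₁, V₀, hV⟩ := (PF8a.typeF h.tM.1).2 _ sd
  have hPV : P ≤ L ⊓ M := le_inf ((h.le_H ht).trans (Fcore_le L)) h.syl.le
  have hn : L ⊓ M ≤ N(P) := h.inf_eq ht ▸ norms_inf
    (inf_le_left.trans ((Fcore_normal L).Oc _).norm) (norms_of_le inf_le_right)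
  refine (Fcore_hall L).le_of_normal (Fcore_norm L) inf_le_left fun q hq hd => ?_
  by_contra hqH
  obtain ⟨a, ha, haq⟩ := exists_orderOf_eq_prime hq hd
  have ha1 : a ≠ 1 := fun e => hq.one_lt.ne' (by rw [← haq, e, orderOf_one])
  have hr : Semireg (Fcore L) (zpowers a) := frob_semireg_of_cop hF (zpowers_le.2 ha.1) (by
    rw [Nat.card_zpowers, haq]
    exact ((Nat.Prime.coprime_iff_not_dvd hq).2 fun e => hqH ⟨hq, e⟩).symm)
  have hr' := hr.mono (h.le_H ht) le_rfl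
  have hle : P ⊔ zpowers a ≤ L ⊓ M := sup_le hPV (zpowers_le.2 ha)
  have w := (H0.wielandt' (sdprod_sup (zpowers_le.2 (hn ha)) hr'.inf_eq_bot) hr'
    (hle.trans sd.norm) ((sd.relIndex_left ▸ Fcore_coprime M).coprime_dvd_right (card_dvd hle))
    (sol_of_nil (Fcore_nil M))).2.1
  have hne : Fcore M ⊓ C(zpowers a) ≠ ⊥ := fun e => by
    have hd : p ∣ #V₀ := by
      rw [(PF8a.typeF_frob h.maxM.1.odd hV).1, ← h.x_ord, ← orderOf_mk x (hPV h.x_mem)]
      exact Monoid.order_dvd_exponent _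
    obtain ⟨y, hy, hyp⟩ := exists_orderOf_eq_prime h.prime hd
    have hyP : y ∈ P := (h.syl.of_le hPV inf_le_right).mem_of_normal hn (hV.U0_le hy)
      (by rw [PiE, hyp]; exact (piN_prime h.prime).2 rfl)
    have := hV.U0_reg y hy fun e => h.prime.one_lt.ne' (by rw [← hyp, e, orderOf_one])
    rw [inf_eq_left.2 (le_cent1_iff.2 (w e hyP))] at this
    exact hV.F_ne this
  obtain ⟨z, hz, hz1⟩ := exists_ne_one hne
  rw [cent_zpowers] at hz
  have := mul_comm_of_comm hV.U1_ab (hV.U1_cent g h.g_mem h.g_ne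
    ⟨hPV h.x_mem, mem_cent1.2 h.comm.symm⟩) (hV.U1_cent z hz.1 hz1 ⟨ha, mem_cent1_symm.1 hz.2⟩)
  exact ne_bot_of_mem (H := Fcore L ⊓ C[a]) ⟨h.le_H ht h.x_mem, mem_cent1.2 this⟩ h.x_ne
    (hr a (mem_zpowers a) ha1)

/-- (12.12) -/
theorem two_mul_le (ht : TypeI L) (hF : Frob (Fcore L) E L) : 2 * #E ≤ p + 1 := by
  have hPO : P ≤ Oc {p} (Fcore L) := (h.inf_eq ht).ge.trans inf_le_left
  have hT : Ohm1 p Z(Oc {p} (Fcore L)) ≤ P := (Ohm1_le _ _).trans (h.inf_eq ht ▸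
    inf_le_inf_left _ ((cent_le_cent1 (hPO h.x_mem)).trans h.uniq.le))
  have hn : E ≤ N(Ohm1 p Z(Oc {p} (Fcore L))) :=
    (norms_Oc _ hF.sd.norm).trans (norm_le_norm_Ohm1_center p _)
  have hr := hF.reg.mono (hT.trans (h.le_H ht)) le_rfl
  have hne := (Oc_pi {p} (Fcore L)).Ohm1_center_ne_bot
    (ne_bot_of_mem (hPO h.x_mem) h.x_ne)
  obtain ⟨n, hT⟩ := abelem_el h.prime (abelem_Ohm1_center p _) hT
  generalize Ohm1 p Z(Oc {p} (Fcore L)) = T at hT hn hr hne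
  have t12 := (PF8b.type12 h.maxM (Or.inl ⟨h.tM, h.sd⟩)).1 p
  have hr2 : ∀ n A, El p n A P → n ≤ 2 := fun n A hA => by
    have := (t12 A h.prime (hA.le.trans h.le) hA.pg.isPGroup).2 hA.ab
    rwa [hA.card, Nat.pow_le_pow_iff_right h.prime.one_lt] at this
  have hp := (h.maxM.odd h.syl.le).of_dvd_nat h.dvd
  have := hr2 n T hT
  obtain rfl | rfl | rfl : n = 0 ∨ n = 1 ∨ n = 2 := by omega
  · exact absurd (card_eq_one.1 hT.card) hne
  · have := semireg_two_mul_le hn hr hne (hT.card1 ▸ hp) (h.maxL.odd hF.sd.right_le)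
    rw [hT.card1] at this
    omega
  have hX := el1_zpowers h.prime h.x_mem h.x_ord
  refine two_mul_le_of_lines hT hn hr (h.maxL.odd hF.sd.right_le) hp (Y := zpowers x) ?_ ?_
  · by_contra hn
    have := hr2 _ _ (hT.sup hX (cents_of_comm (t12 P h.prime h.le h.syl.pi.isPGroup).1 hT.le hX.le) hn)
    omega
  · refine H19.eq_bot_mono (le_inf (le_trans (inf_le_inf hF.sd.right_le ?_) (h.inf_le ht hF))
      inf_le_left) hF.sd.inf
    exact UniqMax.norm_le_of_cent (cent_zpowers x ▸ h.uniq)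

theorem false [PF2.{u}] [PF7.{u}] [PF12a G] (ht : TypeI L) (hF : Frob (Fcore L) E L) :
    False := by
  obtain ⟨hi, he, hrel, ν, ζ, hν⟩ := PF12a.coh h.maxL ht hF
  have h2e := h.two_mul_le ht hF
  have hψ : DIrr ⊤ (ν ζ) :=
    ⟨hν.coh.zirr ζ hν.mem, by rw [hν.coh.isom ζ hν.mem ζ hν.mem, irr_dot_self hν.irr]⟩
  have hO : ∀ N, Mx N → TypeI N → ¬ Cjg N L →
      Orth12 N (Fcore N) (tA N) (supportR N) (ν ζ) := fun N hN tN hc =>
    (t1_of_typeI hN tN).orth12 hψ fun y hy => by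
      have hd := PF8b.til_disj hN h.maxL hc
      rw [typeI_A1 hN tN, typeI_A1 h.maxL ht] at hd
      rw [PF7.star_nu hν hν.mem hν.irr, ← sub_eq_zero, ← Pi.sub_apply, ← map_sub,
        hν.coh.agree _ (chr_sub_star_one (irr_chr hν.irr))]
      exact dade_of_not_mem _ (Set.disjoint_left.1 hd hy)
  have TM := t1_of_typeI h.maxM h.tM
  have OM := hO M h.maxM h.tM h.not_cj
  have hxK : x ∉ Fcore M := fun e => h.not_dvd (h.x_ord ▸ orderOf_dvd_card' e)
  have hxH : x ∈ nt (Fcore L) := ⟨h.le_H ht h.x_mem, h.x_ne⟩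
  have c1 : ∀ k ∈ Fcore M, ν ζ (k * x) = ν ζ x := fun k hk =>
    TM.const_coset hψ OM (h.syl.le h.x_mem) hxK hk
  have c2 : ν ζ x = ζ x := by
    obtain ⟨a, -, h1, h2⟩ := PF7.split hν
    obtain ⟨A, hA⟩ := h.syl.pi.exists_el2 (h.maxM.odd h.syl.le) h.ncyc
    have := h2 ∅ (fun _ a => absurd a (Finset.notMem_empty _)) (by simp) (by simp)
    rw [Finset.sum_empty, zero_add, hrel] at this
    have ha := pf12_num1 h.three (card_pos E) h2e (hA.card ▸ card_le (hA.le.trans (h.le_H ht))) this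
    have := h1 x hxH
    rwa [rho_eq_of_const hxH fun u hu => by
      rw [h.supp.1] at hu
      rw [← mem_cent1.1 hu.2, c1 u hu.1], ha, Int.cast_zero, add_zero] at this
  have c3 : ∀ k ∈ nt (Fcore M), rho (nt (Fcore M)) (supportR M) (ν ζ) k = ν ζ k := fun k hk =>
    rho_eq_of_const hk fun u hu => by
      by_cases hC : C[k] ≤ M
      · rw [PF8b.support_bot hC, mem_bot] at hu
        rw [hu, mul_one]
      obtain ⟨-, N, hN, h1, -, -, -, h2, h3, h4⟩ := PF8b.support h.maxM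
        ((PF8b.sets h.maxM).2.2.2.2.2.1 (nt_Fcore_sub' h.maxM hk)) hC
      have tN : TypeI N := h4.resolve_right fun ⟨_, E', hE'⟩ =>
        ne_bot_of_mem (H := Fcore M ⊓ C[x]) ⟨h.g_mem, mem_cent1.2 h.comm⟩ h.g_ne
          (frob_semireg_of_cop hE' h.syl.le ((PiN.of_not_dvd h.not_dvd).coprime' h.syl.pi) x
            h.x_mem h.x_ne)
      rw [typeI_A1 hN.max tN] at h3
      have hc : ¬ Cjg N L := fun c => by
        obtain ⟨y, rfl⟩ := c.symm
        refine h3 ((PF8b.sets1 hN.max tN).2.2.2 (cj y E) ?_ ▸ h2)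
        rw [← cj_Fcore]
        exact ⟨hF.sd.J y, by simpa using hF.ker_ne, by simpa using hF.compl_ne, hF.reg.J y⟩
      rw [h1] at hu
      rw [← mem_cent1.1 hu.2]
      exact (t1_of_typeI hN.max tN).const_coset hψ (hO N hN.max tN hc)
        (hN.le (mem_cent1_self k)) (fun e => h3 ⟨e, hk.2⟩) hu.1
  have c4 : ∀ k ∈ Fcore M, k ∉ ⁅Fcore M, Fcore M⁆ → ν ζ k = ν ζ g := fun k hk hk' => by
    rw [← c3 k ⟨hk, fun e => hk' (e ▸ one_mem _)⟩, ← c3 g ⟨h.g_mem, h.g_ne⟩]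
    exact TM.const_rho hψ OM hk hk' h.g_mem h.g_not
  obtain ⟨n, hn⟩ := zirr_int_of_pow hψ.zirr (g := g) fun k hk =>
    c4 _ (pow_mem h.g_mem k) (by rw [pow_mem_iff_of_coprime hk]; exact h.g_not)
  have c5 : (p : ℤ) ∣ n - #E := by
    refine Cong.dvd h.prime ?_
    have a := zirr_cong hψ.zirr h.prime.ne_zero (mem_top x) h.x_pow h.comm.symm
    have b := zirr_cong (irr_zirr hν.irr) h.prime.ne_zero (Fcore_le L hxH.1) h.x_pow
      (y := 1) (by simp)
    rw [← h.comm, c1 g h.g_mem, c2, hn] at a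
    rw [mul_one, hν.deg, hrel] at b
    exact a.symm.trans b
  obtain ⟨V₁, V₀, hV⟩ := (PF8a.typeF h.tM.1).2 _ h.supp.2
  have hlt := sol_der_lt (sol_of_nil (Fcore_nil M)) hV.F_ne
  have hV₀ : V₀ ≠ ⊥ := fun e => hV.U_ne (by
    have := (PF8a.typeF_frob h.maxM.1.odd hV).1
    rw [e, card_bot, eq_comm, Monoid.exp_eq_one_iff] at this
    exact eq_bot_of_subsingleton _)
  have h7 := seven_le_relIndex (hV.U0_le.trans hV.sd.norm)
    (norms_der (hV.U0_le.trans hV.sd.norm)) hlt (der_normal _).norm hV.U0_reg hV₀ (h.maxM.odd (Fcore_le M))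
    (h.maxM.odd (hV.U0_le.trans hV.sd.right_le))
  refine pf12_num2 (three_le_card (h.maxL.odd hF.sd.right_le) hF.compl_ne) h2e c5 h7 ?_
  have n1 := (PF7.bounds hν (hrel ▸ he)).1
  have n2 := PF7.nrm_rho hν.dd hψ.cinv
  have n3 := PF7.nrm_rho TM.dd1 hψ.cinv
  have hd := PF8b.til_disj h.maxM h.maxL h.not_cj
  rw [typeI_A1 h.maxM h.tM, typeI_A1 h.maxL ht] at hd
  have n4 : ∑ y ∈ fin (Til M (nt (Fcore M))), ‖ν ζ y‖ ^ 2 +
      ∑ y ∈ fin (Til L (nt (Fcore L))), ‖ν ζ y‖ ^ 2 ≤ Nat.card G := by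
    rw [← sum_fin_union hd, ← card_top', ← mul_one (#(⊤ : Subgroup G) : ℝ), ← hψ.nrm, card_mul_nrm]
    exact Finset.sum_le_sum_of_subset_of_nonneg (fin_subset fun _ _ => mem_top _)
      fun _ _ _ => by positivity
  have n5 : ((#(Fcore M) : ℝ) - #⁅Fcore M, Fcore M⁆) * n ^ 2 ≤
      #M * nrm M (rho (nt (Fcore M)) (supportR M) (ν ζ)) := by
    rw [card_mul_nrm]
    refine le_trans (le_of_eq ?_) (Finset.sum_le_sum_of_subset_of_nonneg
      (fin_subset (A := (Fcore M : Set G) \ (⁅Fcore M, Fcore M⁆ : Subgroup G)) fun _ a => Fcore_le M a.1)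
      fun _ _ _ => by positivity)
    rw [sum_fin_congr (g := fun _ => (n : ℝ) ^ 2) fun k hk => by
      rw [c3 k ⟨hk.1, fun e => hk.2 (e ▸ one_mem _)⟩, c4 k hk.1 hk.2, hn, Complex.norm_intCast,
        sq_abs], sum_fin_const, nsmul_eq_mul, Set.cast_ncard_sdiff hlt.le (Set.toFinite _), ncard_sub, ncard_sub]
  have hG : (0 : ℝ) < Nat.card G := by exact_mod_cast Nat.card_pos
  have n6 : nrm M (rho (nt (Fcore M)) (supportR M) (ν ζ)) ≤ #E / #(Fcore L) := by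
    have := mul_le_mul_of_nonneg_left n4 (inv_pos.2 hG).le
    rw [inv_mul_cancel₀ hG.ne', mul_add] at this
    rw [hrel] at n1
    linarith
  have n7 : (#M : ℝ) ≤ #(Fcore M) * #(Fcore L) := by
    rw [← h.supp.2.card]; push_cast
    exact mul_le_mul_of_nonneg_left (by exact_mod_cast card_le (h.inf_le ht hF)) (cardR_pos _).le
  have n8 := n5.trans (mul_le_mul n7 n6 (nrm_nonneg _ _) (by positivity))
  rw [mul_assoc, mul_div_cancel₀ _ (cardR_ne _), ← cardR_mul_relIndex hlt.le] at n8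
  refine le_of_mul_le_mul_left ?_ (cardR_pos ⁅Fcore M, Fcore M⁆)
  linarith

end Cfg12

theorem pf12_frob [PF2.{u}] [PF7.{u}] [PF10c G] [PF9a G] [PF9b G] [PF12a G] (hL : Mx L)
    (ht : TypeI L) (hE : Sdprod (Fcore L) E L) : Frob (Fcore L) E L := by
  have key : ∀ p : ℕ, p.Prime → ∀ M U : Subgroup G, Mx M → TypeI M → Sdprod (Fcore M) U M →
      ∀ Q ≤ U, PG p Q → Cyc Q := fun p => by
    induction p using Nat.strong_induction_on with | _ p ih =>
    intro hp M U hM tM hU Q hQ hq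
    by_contra hc
    obtain ⟨P, L, x, g, h⟩ := exists_cfg12 hp hM tM hU hQ hq hc
    obtain ⟨E, hE⟩ := typeI_compl h.tL
    exact h.false h.tL (h.frob h.tL hE fun q hq hq' => ih q hq hq' L E h.maxL h.tL hE)
  obtain ⟨U₁, U₀, hF⟩ := (PF8a.typeF ht.1).2 E hE
  exact (PF8a.typeF_frob hL.1.odd hF).2.2 fun q hq Q hQ hqQ =>
    key q hq L E hL ht hE Q hQ (PiN.of_isPGroup hq hqQ)

theorem inst_PF12b [PF2.{u}] [PF7.{u}] [PF10c G] [PF9a G] [PF9b G] [PF12a G] : PF12b G :=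
  ⟨pf12_frob⟩

end

end H13.V
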