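/-
The structure theorem of the `ϖ`-local setting: either some nilpotent `w`-subgroup is isolated, or
all primes of `w` divide the order of a cyclic subgroup.
-/
import Cfsg.Agent.H13.V23

set_option autoImplicit false
set_option linter.unusedSectionVars false

namespace H13.V
open Cfsg Subgroup H19 H17 H20

universe u

variable {G : Type u} [Group G] [Finite G] [VS G] {M L S T E U V W₁ W₂ : Subgroup G} {x : G}

/-- an isolated nilpotent `w`-subgroup -/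
def Iso (H : Subgroup G) : Prop := H ≠ ⊥ ∧ Nil H ∧ PiG (vw G) H ∧ ∀ x ∈ H, x ≠ 1 → C[x] ≤ H

section
variable [PF8a G] [PF8b G] [PF9a G] [PF9b G] [PF10c G] [PF11a G] [PF12b G]

theorem typeI_frob (hM : Mx M) (ht : TypeI M) : ∃ E, Frob (Fcore M) E M :=
  let ⟨E, hE⟩ := typeI_compl ht; ⟨E, PF12b.frob hM ht hE⟩

theorem cent1_le_of_tA0 (hM : Mx M) (hx : x ∈ tA0 M) : C[x] ≤ M := by
  by_contra hC
  obtain ⟨-, L, hL, -, -, -, -, h1, h2, h3⟩ := PF8b.support hM hx hC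
  refine h2 ?_
  rcases h3 with t | ⟨t, -⟩
  · obtain ⟨E, hE⟩ := typeI_frob hL.max t
    rwa [typeI_A1 hL.max t, ← (PF8b.sets1 hL.max t).2.2.2 E hE]
  · obtain ⟨W₁, U, W₂, tp⟩ := typeP_of_types (Or.inl t)
    have h : TP L W₁ U W₂ := ⟨hL.max, tp⟩
    obtain ⟨H₀, p, h9⟩ := PF9a.ex h (Or.inl t)
    obtain ⟨-, e1, e2, -⟩ := PF8b.setsP h
    obtain ⟨a1, a2, y, a3, a4, a5⟩ := (e1 x).1 h1
    rw [(PF8b.sets hL.max).1, e2 t] at *
    exact ⟨frob_cent_le ((p9_no_irr h9).2.2.2.2 t) y a3 a4 ⟨a1, mem_cent1.2 a5⟩, a2⟩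

theorem iso_typeI (hM : Mx M) (ht : TypeI M) : Iso (Fcore M) := by
  obtain ⟨E, hE⟩ := typeI_frob hM ht
  refine ⟨hE.ker_ne, Fcore_nil M, (Fit_w hM).of_le (Fcore_le_Fit M), fun x hx h1 => ?_⟩
  exact (le_inf (cent1_le_of_tA0 hM ((PF8b.sets hM).2.2.2.2.2.1 (nt_Fcore_sub' hM ⟨hx, h1⟩)))
    le_rfl).trans (frob_cent_le hE x hx h1)

theorem iso_type34 (h : TP M W₁ U W₂) (ht : T34 M) : Iso U := by
  have h9 := (PF11a.struct h ht).1
  obtain ⟨hg, hC, -, hc, -⟩ := p9_no_irr h9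
  obtain ⟨h1, -, -, hF, -⟩ := PF8a.type234 h (Or.inr ht)
  obtain ⟨-, s1, s2, -⟩ := PF8a.typeP h
  refine ⟨h1, nil_of_cyc hc, ht.elim (fun t => (PF8a.type3 h t).2.1.2)
    fun t => (PF8a.type4 h t).2.2, fun x hx hx1 => ?_⟩
  have h2 : C[x] ≤ M := cent1_le_of_tA0 h.max ((PF8b.sets h.max).2.2.2.2.2.1
    (((PF8b.setsP h).2.2.2 (t345 ht)).2 ▸ ⟨s1.right_le hx, hx1⟩))
  have h3 : Fcore M ⊓ C[x] = ⊥ := eq_bot_iff.2 fun y hy =>
    (PF9a.gal h9 hg).2.2.2 x hx (by rw [hC]; exact hx1) y hy.1 (by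
      rw [← mem_cent1.1 hy.2]; simp)
  have h4 := sup_inf_cent_of_disjoint (A := zpowers x)
    ((zpowers_le.2 (mem_sup_left hx)).trans s2.norm)
    (norms_of_le (zpowers_le.2 (mem_sup_left hx))) s2.norm s2.inf
  rw [cent_zpowers, h3, bot_sup_eq, s2.sup] at h4
  exact (le_inf h2 le_rfl).trans (h4.le.trans (frob_cent_le hF x hx hx1))

theorem vs_struct' : (∃ H : Subgroup G, Iso H) ∨
    ∃ W : Subgroup G, Nil W ∧ ∀ p ∈ vw G, p.Prime → p ∣ Nat.card G → p ∣ #W := by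
  by_cases h : ∃ M : Subgroup G, Mx M ∧ TypeI M
  · obtain ⟨M, hM, ht⟩ := h
    exact Or.inl ⟨_, iso_typeI hM ht⟩
  push Not at h
  obtain ⟨M, hM⟩ := exists_mmax (G := G)
  obtain ⟨W₁, U, W₂, tp⟩ := PF8a.tp_ex hM (h M hM)
  obtain ⟨T, V, hp⟩ := PF8a.pair tp
  rcases hp.typS with a | a | a | a
  swap; · exact Or.inl ⟨_, iso_type34 tp (Or.inl a)⟩
  swap; · exact Or.inl ⟨_, iso_type34 tp (Or.inr a)⟩
  swap; · exact absurd a (PF10c.no_five hM)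
  rcases hp.typT with b | b | b | b
  swap; · exact Or.inl ⟨_, iso_type34 hp.tT (Or.inl b)⟩
  swap; · exact Or.inl ⟨_, iso_type34 hp.tT (Or.inr b)⟩
  swap; · exact absurd b (PF10c.no_five hp.tT.max)
  refine Or.inr ⟨W₁ ⊔ W₂, nil_of_cyc (tp_cti tp).cyc, fun p hw hp' hd => ?_⟩
  obtain ⟨L, hL, h1⟩ := PF8b.primes_cover hw hp' hd
  rcases hp.all L hL with c | ⟨g, rfl⟩ | ⟨g, rfl⟩
  · exact absurd c (h L hL)
  · rw [(PF8b.sets_conj g).1, card_cj, (PF8b.setsP tp).2.2.1 a, (PF9a.card2 tp a).2] at h1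
    exact (hp'.dvd_of_dvd_pow h1).trans (card_dvd le_sup_right)
  · rw [(PF8b.sets_conj g).1, card_cj, (PF8b.setsP hp.tT).2.2.1 b, (PF9a.card2 hp.tT b).2] at h1
    exact (hp'.dvd_of_dvd_pow h1).trans (card_dvd le_sup_left)

end

theorem vs_struct : (∃ H : Subgroup G, Iso H) ∨
    ∃ W : Subgroup G, Nil W ∧ ∀ p ∈ vw G, p.Prime → p ∣ Nat.card G → p ∣ #W := by
  haveI : PF8a G := inst_PF8a
  haveI : PF8b G := inst_PF8b
  haveI : PF9a G := inst_PF9a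
  haveI : PF9b G := inst_PF9b
  haveI : PF10a G := inst_PF10a
  haveI : PF10b G := inst_PF10b
  haveI : PF10c G := inst_PF10c
  haveI : PF11a G := inst_PF11a
  haveI : PF12a G := inst_PF12a
  haveI : PF12b G := inst_PF12b
  exact vs_struct'

end H13.V
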