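import Mathlib

set_option autoImplicit false

namespace H13.Wt

open Finset MulAction
open scoped Pointwise

variable {S : Type*} [Group S] [Finite S] {k V : Type*} [Field k] [AddCommGroup V] [Module k V]
  (σ : S →* Module.End k V) (A : Subgroup S) [A.Normal]

/-- conjugation action on characters -/
@[reducible] def act : MulAction S (A →* kˣ) where
  smul s l := l.comp (MulAut.conjNormal s⁻¹).toMonoidHom
  one_smul l := MonoidHom.ext fun a => congrArg l (Subtype.ext (by simp))
  mul_smul s t l := MonoidHom.ext fun a => congrArg l (Subtype.ext (by simp [mul_assoc]))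

attribute [local instance] act

/-- weight projection -/
noncomputable def E (l : A →* kˣ) : Module.End k V :=
  letI := Fintype.ofFinite A
  ∑ a : A, ((l a⁻¹ : kˣ) : k) • σ a

variable {A}

theorem E_conj (s : S) (l : A →* kˣ) : σ s * E σ A l = E σ A (s • l) * σ s := by
  letI := Fintype.ofFinite A
  simp only [E, mul_sum, sum_mul, mul_smul_comm, smul_mul_assoc, ← map_mul]
  refine Fintype.sum_equiv (MulAut.conjNormal s).toEquiv _ _ fun a => ?_
  congr 2
  · exact congrArg l (Subtype.ext (by simp [mul_assoc]))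
  · simp

theorem E_mul (hc : ∀ a b : A, a * b = b * a) {l m : A →* kˣ} (h : l ≠ m) : E σ A l * E σ A m = 0 := by
  letI := Fintype.ofFinite A
  have e : ∀ b : A, σ b * E σ A m = ((m b : kˣ) : k) • E σ A m := fun b => by
    simp only [E, mul_sum, mul_smul_comm, ← map_mul, smul_sum, smul_smul]
    refine Fintype.sum_equiv (Equiv.mulLeft b) _ _ fun a => ?_
    simp [hc a⁻¹]
  conv_lhs => rw [E]
  simp only [sum_mul, smul_mul_assoc, e, smul_smul, ← sum_smul]
  have := sum_hom_units_eq_zero ((Units.coeHom k).comp (l⁻¹ * m)) fun e => h (by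
    rw [← inv_mul_eq_one]; ext a; exact DFunLike.congr_fun e a)
  rw [show ∑ a : A, ((l a⁻¹ : kˣ) : k) * m a = 0 by simpa using this, zero_smul]

theorem E_sum [IsAlgClosed k] (hc : ∀ a b : A, a * b = b * a) (h0 : (Nat.card A : k) ≠ 0) {v : V}
    (h : ∀ l, E σ A l v = 0) : v = 0 := by
  classical
  letI := Fintype.ofFinite A
  letI : CommGroup A := { (inferInstance : Group A) with mul_comm := hc }
  haveI : NeZero ((Monoid.exponent A : ℕ) : k) := ⟨fun e => h0 (by
    obtain ⟨c, hc⟩ := Group.exponent_dvd_nat_card (G := A); rw [hc, Nat.cast_mul, e, zero_mul])⟩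
  have hc := CommGroup.card_monoidHom_of_hasEnoughRootsOfUnity A k
  haveI : Finite (A →* kˣ) := Nat.finite_of_card_ne_zero (hc ▸ Nat.card_pos.ne')
  letI := Fintype.ofFinite (A →* kˣ)
  have : ∑ l : A →* kˣ, E σ A l = (Nat.card A : k) • 1 := by
    simp only [E]
    rw [sum_comm, sum_eq_single 1]
    · rw [← hc]; simp [Nat.cast_smul_eq_nsmul]
    · intro a _ ha
      rw [← sum_smul]
      obtain ⟨φ, hφ⟩ := CommGroup.exists_apply_ne_one_of_hasEnoughRootsOfUnity A k (inv_ne_one.2 ha)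
      have := sum_hom_units_eq_zero ((Units.coeHom k).comp (MonoidHom.eval a⁻¹ : (A →* kˣ) →* kˣ))
        fun e => hφ (Units.ext (DFunLike.congr_fun e φ))
      rw [show ∑ l : A →* kˣ, ((l a⁻¹ : kˣ) : k) = 0 from this, zero_smul]
    · simp
  have := congrArg (· v) this
  simp only [LinearMap.sum_apply, h, sum_const_zero, LinearMap.smul_apply, Module.End.one_apply] at this
  exact (smul_eq_zero.1 this.symm).resolve_left h0

omit [A.Normal] in
theorem ex_fix [CharP k 2] (T : Subgroup S) (hT : IsPGroup 2 T) (U : Submodule k V)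
    (hU : ∀ t ∈ T, ∀ u ∈ U, σ t u ∈ U) {u : V} (hu : u ∈ U) (h0 : u ≠ 0) :
    ∃ w ∈ U, w ≠ 0 ∧ ∀ t ∈ T, σ t w = w := by
  letI : Algebra (ZMod 2) k := ZMod.algebra k 2
  letI : Module (ZMod 2) V := Module.compHom V (algebraMap (ZMod 2) k)
  haveI : IsScalarTower (ZMod 2) k V := IsScalarTower.of_algebraMap_smul fun _ _ => rfl
  let W := Submodule.span (ZMod 2) (Set.range fun t : T => σ t u)
  haveI : Module.Finite (ZMod 2) W := Module.Finite.span_of_finite _ (Set.finite_range _)
  haveI : Finite W := Module.finite_of_finite (ZMod 2)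
  have hW : ∀ t : T, ∀ w ∈ W, σ t w ∈ W := fun t w hw => by
    have : W.map ((σ t).restrictScalars (ZMod 2)) ≤ W := by
      rw [Submodule.map_span_le]
      rintro _ ⟨s, rfl⟩
      exact Submodule.subset_span ⟨t * s, by simp⟩
    exact this ⟨w, hw, rfl⟩
  letI : MulAction T W :=
    { smul := fun t w => ⟨σ t w, hW t w w.2⟩
      one_smul := fun w => Subtype.ext (show σ (1 : T) w.1 = w.1 by simp)
      mul_smul := fun s t w => Subtype.ext (show σ (s * t : T) w.1 = σ s (σ t w.1) by simp) }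
  have hu' : u ∈ W := Submodule.subset_span ⟨1, by simp⟩
  haveI : Nontrivial W := ⟨⟨⟨u, hu'⟩, 0, fun e => h0 (congrArg Subtype.val e)⟩⟩
  obtain ⟨w, h1, h2⟩ := hT.exists_fixed_point_of_prime_dvd_card_of_fixed_point W (a := 0) (by
    rw [Module.natCard_eq_pow_finrank (K := ZMod 2), Nat.card_zmod]
    exact dvd_pow_self _ Module.finrank_pos.ne') fun t => Subtype.ext (show σ t 0 = 0 from map_zero _)
  refine ⟨w, ?_, fun e => h2 (Subtype.ext e.symm), fun t ht => congrArg Subtype.val (h1 ⟨t, ht⟩)⟩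
  have : W ≤ U.restrictScalars (ZMod 2) := by
    rw [Submodule.span_le]; rintro _ ⟨t, rfl⟩; exact hU _ t.2 _ hu
  exact this w.2

theorem sup_smul (s : S) (l : A →* kˣ) (v : V) : E σ A (s • l) (σ s v) = 0 ↔ E σ A l v = 0 := by
  rw [← Module.End.mul_apply, ← E_conj, Module.End.mul_apply]
  refine ⟨fun h => ?_, fun h => by rw [h, map_zero]⟩
  have := congrArg (σ s⁻¹) h
  rwa [← Module.End.mul_apply, ← map_mul, inv_mul_cancel, map_one, map_zero] at this

theorem ex_orb [IsAlgClosed k] [CharP k 2] (hc : ∀ a b : A, a * b = b * a) (h0 : (Nat.card A : k) ≠ 0)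
    (T : Subgroup S) (hT : IsPGroup 2 T) {l : A →* kˣ} (hl : E σ A l ≠ 0) :
    ∃ w, (∀ t ∈ T, σ t w = w) ∧ ∀ m, E σ A m w ≠ 0 ↔ m ∈ orbit T l := by
  obtain ⟨v, hv⟩ := DFunLike.ne_iff.1 hl
  let U : Submodule k V := ⨅ m ∉ orbit T l, LinearMap.ker (E σ A m)
  have mU : ∀ u, u ∈ U ↔ ∀ m ∉ orbit T l, E σ A m u = 0 := fun u => by simp [U]
  obtain ⟨w, h1, h2, h3⟩ := ex_fix σ T hT U (fun t ht u hu => (mU _).2 fun m hm => by
    rw [← smul_inv_smul t m, sup_smul]
    exact (mU _).1 hu _ fun e => hm (by simpa using mem_orbit_of_mem_orbit (⟨t, ht⟩ : T) e))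
    (u := E σ A l v) ((mU _).2 fun m hm => by
      rw [← Module.End.mul_apply, E_mul σ hc (l := m) (m := l) (fun e => hm (e ▸ mem_orbit_self _))]; rfl) hv
  refine ⟨w, h3, fun m => ⟨fun h => by_contra fun e => h ((mU _).1 h1 m e), fun hm e => h2 ?_⟩⟩
  refine E_sum σ hc h0 fun n => ?_
  by_cases hn : n ∈ orbit T l
  · obtain ⟨t, rfl⟩ : n ∈ orbit T m := by rwa [orbit_eq_iff.2 hm]
    rw [← h3 t t.2]; exact (sup_smul σ _ _ _).2 e
  · exact (mU _).1 h1 n hn

theorem indep {ι : Type*} (w : ι → V) (l : ι → A →* kˣ) (h : ∀ i j, E σ A (l i) (w j) ≠ 0 ↔ i = j) :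
    LinearIndependent k w := by
  classical
  rw [linearIndependent_iff']
  intro s g hs i hi
  have := congrArg (E σ A (l i)) hs
  rw [map_sum, map_zero, sum_eq_single i, map_smul] at this
  · exact (smul_eq_zero.1 this).resolve_right ((h i i).2 rfl)
  · intro j _ hj; rw [map_smul, not_not.1 (mt (h i j).1 hj.symm), smul_zero]
  · exact fun e => absurd hi e

theorem moves (T : Subgroup S) (hT : IsPGroup 2 T) (l : A →* kˣ) {q : ℕ} (hq : q.Prime) (q2 : q ≠ 2) {y : S}
    (hy : y ^ q = 1) (h : ∀ m ∈ orbit T l, y • m ≠ m) : ∃ m ∈ orbit T l, y • m ∉ orbit T l := by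
  classical
  by_contra! h1
  haveI := Fact.mk hq
  haveI : Finite (orbit T l) := (Set.finite_range _).to_subtype
  letI := Fintype.ofFinite (orbit T l)
  let f : orbit T l → orbit T l := fun m => ⟨y • m.1, h1 _ m.2⟩
  have hf : Function.Bijective f := Finite.injective_iff_bijective.1 fun a b e =>
    Subtype.ext (MulAction.injective y (congrArg Subtype.val e))
  have hp : ∀ n (m : orbit T l), ((Equiv.ofBijective f hf ^ n) m).1 = y ^ n • m.1 := fun n => by
    induction n with
    | zero => simp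
    | succ n ih => intro m; rw [pow_succ, pow_succ, Equiv.Perm.mul_apply, ih, mul_smul]; rfl
  obtain ⟨n, hn⟩ := hT.card_orbit l
  obtain ⟨a, ha⟩ := Equiv.Perm.exists_fixed_point_of_prime (p := q) (n := 1) (σ := Equiv.ofBijective f hf)
    (by
      rw [← Nat.card_eq_fintype_card, hn]
      exact fun e => q2 ((Nat.prime_dvd_prime_iff_eq hq Nat.prime_two).1 (hq.dvd_of_dvd_pow e)))
    (Equiv.ext fun m => Subtype.ext (by rw [hp, pow_one, hy, one_smul]; rfl))
  exact h _ a.2 (congrArg Subtype.val ha)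

theorem main [IsAlgClosed k] [CharP k 2] [Nontrivial V] (hc : ∀ a b : A, a * b = b * a)
    (h0 : (Nat.card A : k) ≠ 0) (T : Subgroup S) (hT : IsPGroup 2 T) {q : ℕ} (hq : q.Prime) (q2 : q ≠ 2) {x : S}
    (hx : x ^ q = 1) (h : ∀ l, E σ A l ≠ 0 → x • l ≠ l) :
    (∃ w : Fin 2 → V, LinearIndependent k w ∧ ∀ i, ∀ t ∈ T, σ t (w i) = w i) ∧
    ((∀ v, (∀ t ∈ T, σ t v = v) → ∀ t ∈ T, σ t (σ x v) = σ x v) →
      ∃ w : Fin 3 → V, LinearIndependent k w ∧ ∀ i, ∀ t ∈ T, σ t (w i) = w i) := by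
  obtain ⟨v, hv⟩ := exists_ne (0 : V)
  obtain ⟨l, hl⟩ : ∃ l, E σ A l v ≠ 0 := by
    by_contra! e; exact hv (E_sum σ hc h0 e)
  obtain ⟨w, w1, w2⟩ := ex_orb σ hc h0 T hT (l := l) fun e => hl (by rw [e]; rfl)
  have ne : ∀ m u, E σ A m u ≠ 0 → E σ A m ≠ 0 := fun m u h e => h (by rw [e]; rfl)
  obtain ⟨m, m1, m2⟩ := moves T hT l hq q2 hx fun m hm => h m (ne _ _ ((w2 m).2 hm))
  constructor
  · obtain ⟨u, u1, u2⟩ := ex_orb σ hc h0 T hT (l := x • m)
      (ne _ _ (mt (sup_smul σ x m w).1 ((w2 m).2 m1)))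
    refine ⟨![w, u], indep σ _ ![l, x • m] fun i j => ?_, fun i => by fin_cases i <;> assumption⟩
    fin_cases i <;> fin_cases j <;> simp [w2, u2, m2]
    exact fun e => m2 (mem_orbit_symm.1 e)
  · intro hi
    obtain ⟨r, rfl⟩ := hq.odd_of_ne_two q2
    obtain ⟨n, n1, n2⟩ := moves T hT l hq q2 (y := x * x) (by rw [← sq, ← pow_mul, mul_comm, pow_mul, hx, one_pow])
      fun m hm e => h m (ne _ _ ((w2 m).2 hm)) (by
        have : (x * x) ^ (r + 1) • m = m := (stabilizer S m).pow_mem e _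
        rwa [← sq, ← pow_mul, show 2 * (r + 1) = 2 * r + 1 + 1 by ring, pow_succ, hx, one_mul] at this)
    have k1 : ∀ y : S, (∀ t ∈ T, σ t (σ y w) = σ y w) → ∀ m ∈ orbit T l, y • m ∉ orbit T l →
        E σ A l (σ y w) = 0 ∧ E σ A (y • l) w = 0 := by
      intro y hy m m1 m2
      have fin : (orbit T l).Finite := Set.finite_range _
      have key : ∀ n ∈ orbit T l, E σ A n (σ y w) = 0 := by
        intro n hn
        by_contra e
        have s1 : orbit T l ⊆ y • orbit T l := fun j hj => by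
          obtain ⟨t, rfl⟩ : j ∈ orbit T n := by rwa [orbit_eq_iff.2 hn]
          rw [Set.mem_smul_set_iff_inv_smul_mem, ← w2, Ne, ← sup_smul σ y, smul_inv_smul, ← hy t t.2]
          exact mt (sup_smul σ _ _ _).1 e
        have := Set.eq_of_subset_of_ncard_le s1 (Set.ncard_smul_set y _).le fin.smul_set
        exact m2 (this ▸ Set.smul_mem_smul_set m1)
      refine ⟨key l (mem_orbit_self l), by_contra fun e => ?_⟩
      exact (w2 l).2 (mem_orbit_self l) ((sup_smul σ y l w).1 (key _ ((w2 _).1 e)))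
    have f1 := hi w w1
    have f2 := hi _ f1
    have e : σ x (σ x w) = σ (x * x) w := by simp
    obtain ⟨a1, a2⟩ := k1 x f1 m m1 m2
    obtain ⟨a3, a4⟩ := k1 (x * x) (e ▸ f2) n n1 n2
    have a0 := (w2 l).2 (mem_orbit_self l)
    refine ⟨![w, σ x w, σ x (σ x w)], indep σ _ ![l, x • l, x • x • l] fun i j => ?_,
      fun i => by fin_cases i <;> assumption⟩
    rw [← e] at a3
    rw [mul_smul] at a4
    fin_cases i <;> fin_cases j <;> simp [sup_smul, a0, a1, a2, a3, a4]

open TensorProduct in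
theorem mem_rng {F K M : Type*} [Field F] [Field K] [Algebra F K] [AddCommGroup M] [Module F M]
    {ι : Type*} (f : ι → M →ₗ[F] M) (U : Submodule F M) (hU : ∀ v, (∀ i, f i v = v) → v ∈ U)
    (w : K ⊗[F] M) (h : ∀ i, (f i).baseChange K w = w) : w ∈ LinearMap.range (U.subtype.baseChange K) := by
  classical
  let b := Module.Basis.ofVectorSpace F K
  obtain ⟨c, hc⟩ := TensorProduct.eq_repr_basis_left b w
  have hc' : ∀ i, c i = TensorProduct.lid F M ((b.coord i).rTensor _ w) := fun i => by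
    rw [← equivFinsuppOfBasisLeft_apply, ← hc, ← equivFinsuppOfBasisLeft_symm_apply,
      LinearEquiv.apply_symm_apply]
  have e : ∀ i n (x : K ⊗[F] M), TensorProduct.lid F M ((b.coord n).rTensor _ ((f i).baseChange K x)) =
      f i (TensorProduct.lid F M ((b.coord n).rTensor _ x)) := fun i n x => by
    induction x <;> simp_all
  rw [← hc]
  refine Submodule.sum_mem _ fun n _ => ⟨b n ⊗ₜ ⟨c n, hU _ fun i => ?_⟩, rfl⟩
  rw [hc', ← e, h]

open TensorProduct in
theorem rank_le {F K M : Type*} [Field F] [Field K] [Algebra F K] [AddCommGroup M] [Module F M]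
    [Module.Finite F M] {ι κ : Type*} [Fintype κ] (f : ι → M →ₗ[F] M) (w : κ → K ⊗[F] M) (hw : LinearIndependent K w)
    (U : Submodule F M) (hU : ∀ v, (∀ i, f i v = v) → v ∈ U) (h : ∀ j i, (f i).baseChange K (w j) = w j) :
    Fintype.card κ ≤ Module.finrank F U := by
  have m := fun j => mem_rng f U hU (w j) (h j)
  have := (LinearIndependent.of_comp (LinearMap.range (U.subtype.baseChange K)).subtype
    (v := fun j => (⟨w j, m j⟩ : LinearMap.range (U.subtype.baseChange K))) hw).fintype_card_le_finrank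
  exact this.trans ((LinearMap.finrank_range_le _).trans Module.finrank_baseChange.le)

end H13.Wt
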